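import Mathlib
import Cfsg.Prelude.Def_Solvable
import Cfsg.Agent.Lib.PG
import Cfsg.Agent.Lib.Core
import Cfsg.Agent.Lib.CharBasic3

/-!
# The affine semilinear group of the field with 9 elements
-/

set_option autoImplicit false
set_option linter.all false
set_option maxRecDepth 20000

namespace CfsgLib.Aff9

abbrev K := ZMod 3 × ZMod 3

def zp : Fin 8 → K := ![(1,0),(1,1),(0,2),(1,2),(2,0),(2,2),(0,1),(2,1)]

def m (k : Fin 8) (e : Bool) (x : K) : K :=
  let y : K := if e then (x.1, -x.2) else x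
  ((zp k).1 * y.1 - (zp k).2 * y.2, (zp k).2 * y.1 + (zp k).1 * y.2)

theorem m_add : ∀ k e (x y : K), m k e (x + y) = m k e x + m k e y := by decide +kernel
theorem m_zero : ∀ k e, m k e 0 = 0 := by decide +kernel
theorem m_comp : ∀ k e l f, ∃ j g, ∀ x : K, m k e (m l f x) = m j g x := by decide +kernel
theorem m_inv : ∀ k e, ∃ l f, ∀ x : K, m k e (m l f x) = x := by decide +kernel
theorem m_inj : ∀ k e (x y : K), m k e x = m k e y → x = y := by decide +kernel
theorem m_pow : ∀ k e (x : K), (m k e)^[8] x = x := by decide +kernel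
theorem m_one : ∀ (x : K), m 0 false x = x := by decide +kernel
theorem m_param : ∀ k e l f, (∀ x : K, m k e x = m l f x) → k = l ∧ e = f := by decide +kernel

def tab : List (ℕ × ℕ) := [(0, 0), (36, 3), (36, 6), (0, 3), (27, 6), (18, 6), (0, 6), (18, 3), (27, 3), (0, 9), (1, 9), (2, 9), (0, 12), (1, 12), (2, 12), (0, 15), (1, 15), (2, 15), (0, 18), (3, 18), (6, 18), (2, 18), (5, 18), (8, 18), (1, 18), (4, 18), (7, 18), (0, 27), (3, 27), (6, 27), (7, 27), (1, 27), (4, 27), (5, 27), (8, 27), (2, 27), (0, 36), (4, 36), (8, 36), (5, 36), (6, 36), (1, 36), (7, 36), (2, 36), (3, 36), (0, 45), (19, 15), (20, 12), (19, 12), (2, 45), (18, 15), (20, 15), (18, 12), (1, 45), (0, 54), (6, 54), (3, 54), (1, 54), (7, 54), (4, 54), (2, 54), (8, 54), (5, 54), (0, 63), (6, 63), (3, 63), (8, 63), (5, 63), (2, 63), (4, 63), (1, 63), (7, 63), (0, 72), (1, 72), (2, 72), (0, 75), (1, 75), (2, 75), (0, 78), (1, 78), (2, 78), (0, 81), (36, 12), (36, 15), (0, 84), (38,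 12), (38, 15), (0, 87), (37, 12), (37, 15), (0, 90), (5, 90), (7, 90), (8, 90), (1, 90), (3, 90), (4, 90), (6, 90), (2, 90), (0, 99), (8, 99), (4, 99), (2, 99), (7, 99), (3, 99), (1, 99), (6, 99), (5, 99), (0, 108), (7, 108), (5, 108), (4, 108), (2, 108), (6, 108), (8, 108), (3, 108), (1, 108), (0, 117), (29, 12), (28, 15), (28, 12), (27, 15), (1, 117), (29, 15), (2, 117), (27, 12), (0, 126), (8, 126), (4, 126), (7, 126), (3, 126), (2, 126), (5, 126), (1, 126), (6, 126), (0, 135), (5, 135), (7, 135), (1, 135), (3, 135), (8, 135), (2, 135), (4, 135), (6, 135)]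

def dk (n : ℕ) : Fin 8 := Fin.ofNat 8 (n / 18)
def de (n : ℕ) : Bool := Nat.beq ((n / 9) % 2) 1
def dv (n : ℕ) : K := (((n % 9) / 3 : ℕ), ((n % 3 : ℕ)))

def code (k : Fin 8) (e : Bool) (v : K) : ℕ := (k.val * 2 + (if e then 1 else 0)) * 9 + v.1.val * 3 + v.2.val

def chk (k : Fin 8) (e : Bool) (v : K) (l : Fin 8) (f : Bool) (w : K) (k' : Fin 8) (e' : Bool) (v' : K) : Prop :=
  (∀ y : K, m l f (m k e y + v) + w = m k' e' (m l f y + w) + v') ∧
    (v' = 0 ∨ (∀ y : K, m k' e' (m 0 true y) + v' = m 0 true (m k' e' y + v')))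

instance (k e v l f w k' e' v') : Decidable (chk k e v l f w k' e' v') := by unfold chk; infer_instance

theorem key0 : ∀ k e (v : K), chk k e v (dk (tab.getD (code k e v) (0,0)).1) (de (tab.getD (code k e v) (0,0)).1) (dv (tab.getD (code k e v) (0,0)).1)
    (dk (tab.getD (code k e v) (0,0)).2) (de (tab.getD (code k e v) (0,0)).2) (dv (tab.getD (code k e v) (0,0)).2) := by
  decide +kernel

/-- the group -/
def G : Subgroup (Equiv.Perm K) where
  carrier := {σ | ∃ k e v, ∀ x, σ x = m k e x + v}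
  one_mem' := ⟨0, false, 0, fun x => by rw [m_one, add_zero]; rfl⟩
  mul_mem' := by
    rintro σ τ ⟨k, e, v, h1⟩ ⟨l, f, w, h2⟩
    obtain ⟨j, g, h3⟩ := m_comp k e l f
    refine ⟨j, g, m k e w + v, fun x => ?_⟩
    rw [Equiv.Perm.mul_apply, h1, h2, m_add, h3, add_assoc]
  inv_mem' := by
    rintro σ ⟨k, e, v, h1⟩
    obtain ⟨l, f, h2⟩ := m_inv k e
    refine ⟨l, f, m l f (-v), fun x => ?_⟩
    rw [Equiv.Perm.inv_eq_iff_eq, h1, m_add, h2, h2, neg_add_cancel_right]

noncomputable def mk (k : Fin 8) (e : Bool) (v : K) : Equiv.Perm K :=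
  Equiv.ofBijective (fun x => m k e x + v) (Finite.injective_iff_bijective.1 (fun x y h => m_inj k e x y (add_right_cancel h)))

theorem mk_apply (k : Fin 8) (e : Bool) (v x : K) : mk k e v x = m k e x + v := rfl

theorem mk_mem (k : Fin 8) (e : Bool) (v : K) : mk k e v ∈ G := ⟨k, e, v, fun x => rfl⟩

theorem card_G : Nat.card G = 144 := by
  have h : Nat.card (Fin 8 × Bool × K) = 144 := by
    rw [Nat.card_eq_fintype_card]; decide +kernel
  rw [← h]
  symm
  refine Nat.card_eq_of_bijective (fun p : Fin 8 × Bool × K => (⟨mk p.1 p.2.1 p.2.2, mk_mem _ _ _⟩ : G)) ⟨?_, ?_⟩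
  · rintro ⟨k, e, v⟩ ⟨l, f, w⟩ hpq
    have h1 : mk k e v = mk l f w := congrArg Subtype.val hpq
    have h2 : ∀ x : K, m k e x + v = m l f x + w := fun x => by
      have := congrArg (fun σ : Equiv.Perm K => σ x) h1
      exact this
    have h3 := h2 0
    rw [m_zero, m_zero, zero_add, zero_add] at h3
    subst h3
    obtain ⟨h4, h5⟩ := m_param k e l f fun x => add_right_cancel (h2 x)
    rw [h4, h5]
  · rintro ⟨σ, k, e, v, h⟩
    refine ⟨(k, e, v), Subtype.ext (Equiv.ext fun x => ?_)⟩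
    rw [mk_apply, h x]

theorem solvable_G : Group.IsSolvable G :=
  CfsgLib.CharBasic.burnside_pq _ G 2 3 4 2 Nat.prime_two Nat.prime_three card_G rfl

noncomputable def t : G := ⟨mk 0 true 0, mk_mem _ _ _⟩
noncomputable def u : G := ⟨mk 0 false (0, 1), mk_mem _ _ _⟩

def H : Subgroup G where
  carrier := {g | (g : Equiv.Perm K) 0 = 0}
  one_mem' := rfl
  mul_mem' := by
    intro a b ha hb
    show (a : Equiv.Perm K) ((b : Equiv.Perm K) 0) = 0
    rw [hb.out, ha.out]
  inv_mem' := by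
    intro a ha
    show ((a : Equiv.Perm K))⁻¹ 0 = 0
    rw [Equiv.Perm.inv_eq_iff_eq]
    exact ha.out.symm

theorem H_pgroup : IsPGroup 2 H := by
  rintro ⟨⟨σ, k, e, v, h⟩, h0⟩
  refine ⟨3, ?_⟩
  apply Subtype.ext
  apply Subtype.ext
  have h1 : σ 0 = 0 := h0
  rw [h 0, m_zero, zero_add] at h1
  have h2 : (σ : K → K) = m k e := by
    funext x
    rw [h x, h1, add_zero]
  show σ ^ (2 ^ 3) = 1
  ext1 x
  have h3 : (σ ^ (2 ^ 3)) x = (σ : K → K)^[8] x := by
    rw [← Equiv.Perm.iterate_eq_pow]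
    norm_num
  rw [h3, h2, m_pow]
  rfl

theorem t_mem : t ∈ H := by
  show mk 0 true 0 0 = 0
  rw [mk_apply, m_zero, zero_add]

theorem t_ne : t ≠ 1 := by
  intro h
  have h1 : mk 0 true 0 (0, 1) = (0, 1) := by
    have := congrArg (fun g : G => (g : Equiv.Perm K) (0, 1)) h
    exact this
  rw [mk_apply] at h1
  revert h1
  decide +kernel

theorem t_sq : t * t = 1 := by
  apply Subtype.ext
  ext1 x
  show mk 0 true 0 (mk 0 true 0 x) = x
  rw [mk_apply, mk_apply]
  revert x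
  decide +kernel

theorem u_rel : t * u * t⁻¹ * u⁻¹ = u := by
  have h : t * u = u * u * t := by
    apply Subtype.ext
    ext1 x
    show mk 0 true 0 (mk 0 false (0,1) x) = mk 0 false (0,1) (mk 0 false (0,1) (mk 0 true 0 x))
    simp only [mk_apply]
    revert x
    decide +kernel
  rw [h]; group

theorem u_ne : u ≠ 1 := by
  intro h
  have h1 : mk 0 false (0,1) 0 = 0 := by
    have := congrArg (fun g : G => (g : Equiv.Perm K) 0) h
    exact this
  rw [mk_apply] at h1
  revert h1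
  decide +kernel

theorem u_cube : u ^ 3 = 1 := by
  apply Subtype.ext
  ext1 x
  rw [pow_succ, pow_two]
  show mk 0 false (0,1) (mk 0 false (0,1) (mk 0 false (0,1) x)) = x
  simp only [mk_apply]
  revert x
  decide +kernel

theorem s4331 : ∃ (G : Type) (_ : Group G) (_ : Finite G) (A : Subgroup G), Group.IsSolvable G ∧ Nat.card A = 2 ∧
      (∀ c : G, ∃ g : G, IsConj c g ∧ (A.subgroupOf (A ⊔ Subgroup.zpowers g)).IsSubnormal) ∧
      ¬ A ≤ Cfsg.pCore 2 G := by
  haveI : Fact (Nat.Prime 2) := ⟨Nat.prime_two⟩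
  refine ⟨G, inferInstance, inferInstance, Subgroup.zpowers t, solvable_G, ?_, ?_, ?_⟩
  · rw [Nat.card_zpowers]
    exact orderOf_eq_prime (by rw [pow_two, t_sq]) t_ne
  · rintro ⟨σ, k, e, v, hσ⟩
    have h1 := key0 k e v
    generalize tab.getD (code k e v) (0,0) = p at h1
    obtain ⟨h2, h3⟩ := h1
    set x : G := ⟨mk (dk p.1) (de p.1) (dv p.1), mk_mem _ _ _⟩ with hx
    set c : G := ⟨σ, k, e, v, hσ⟩ with hc
    have hg : ∀ y : K, ((x * c * x⁻¹ : G) : Equiv.Perm K) y = m (dk p.2) (de p.2) y + dv p.2 := by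
      intro y
      obtain ⟨z, rfl⟩ := (x : Equiv.Perm K).surjective y
      show (x : Equiv.Perm K) (σ ((x : Equiv.Perm K)⁻¹ ((x : Equiv.Perm K) z))) = _
      have hz : (x : Equiv.Perm K)⁻¹ ((x : Equiv.Perm K) z) = z := Equiv.symm_apply_apply _ _
      rw [hz, hσ]
      exact h2 z
    refine ⟨x * c * x⁻¹, isConj_iff.2 ⟨x, rfl⟩, ?_⟩
    rcases h3 with h3 | h3
    · have hgH : x * c * x⁻¹ ∈ H := by
        show ((x * c * x⁻¹ : G) : Equiv.Perm K) 0 = 0
        rw [hg, m_zero, zero_add, h3]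
      have hle : Subgroup.zpowers t ⊔ Subgroup.zpowers (x * c * x⁻¹) ≤ H := by
        rw [sup_le_iff, Subgroup.zpowers_le, Subgroup.zpowers_le]
        exact ⟨t_mem, hgH⟩
      exact CfsgLib.PG.isSubnormal_of_nilpotent (H_pgroup.to_le hle).isNilpotent _
    · have hcomm : (x * c * x⁻¹) * t = t * (x * c * x⁻¹) := by
        apply Subtype.ext
        ext1 y
        show ((x * c * x⁻¹ : G) : Equiv.Perm K) (mk 0 true 0 y) = mk 0 true 0 (((x * c * x⁻¹ : G) : Equiv.Perm K) y)
        rw [hg, hg, mk_apply, mk_apply, add_zero, add_zero]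
        exact h3 y
      apply Subgroup.Normal.isSubnormal
      rw [Subgroup.normal_subgroupOf_iff_le_normalizer le_sup_left, sup_le_iff]
      refine ⟨Subgroup.le_normalizer, ?_⟩
      rw [Subgroup.zpowers_le]
      apply Subgroup.centralizer_le_normalizer
      rw [Subgroup.mem_centralizer_iff]
      intro y hy
      obtain ⟨n, rfl⟩ := Subgroup.mem_zpowers_iff.1 hy
      have : Commute (x * c * x⁻¹) t := hcomm
      exact ((this.zpow_right n).eq).symm
  · intro hle
    have ht : t ∈ Cfsg.pCore 2 G := hle (Subgroup.mem_zpowers t)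
    have hn := CfsgLib.Core.pCore_normal 2 G
    have hu : u ∈ Cfsg.pCore 2 G := by
      rw [← u_rel]
      have h1 : t * u * t⁻¹ * u⁻¹ = t * (u * t⁻¹ * u⁻¹) := by group
      rw [h1]
      exact mul_mem ht (hn.conj_mem _ (inv_mem ht) u)
    obtain ⟨k, hk⟩ := CfsgLib.Core.pCore_isPGroup 2 G ⟨u, hu⟩
    have hk' : u ^ (2 ^ k) = 1 := congrArg Subtype.val hk
    have h3 : orderOf u = 1 := Nat.eq_one_of_dvd_coprimes (Nat.Coprime.pow_right k (by norm_num : Nat.Coprime 3 2))
      (orderOf_dvd_of_pow_eq_one u_cube) (orderOf_dvd_of_pow_eq_one hk')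
    exact u_ne (orderOf_eq_one_iff.1 h3)

end CfsgLib.Aff9
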