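import Mathlib

/-!
# Sylow 2-subgroups of alternating groups are self-normalizing
-/

set_option autoImplicit false

open Equiv Equiv.Perm Subgroup

namespace CfsgLib.AnSyl

universe u

variable {α : Type u} [Fintype α] [DecidableEq α]

/-- the alternating group on the subset `U` -/
def A (U : Finset α) : Subgroup (Perm α) where
  carrier := {σ | sign σ = 1 ∧ ∀ x, x ∉ U → σ x = x}
  one_mem' := ⟨map_one _, fun _ _ => rfl⟩
  mul_mem' := by
    rintro a b ⟨h1, h2⟩ ⟨h3, h4⟩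
    refine ⟨by rw [map_mul, h1, h3, one_mul], fun x hx => ?_⟩
    rw [Perm.mul_apply, h4 x hx, h2 x hx]
  inv_mem' := by
    rintro a ⟨h1, h2⟩
    refine ⟨by rw [map_inv, h1, inv_one], fun x hx => ?_⟩
    rw [Perm.inv_eq_iff_eq, h2 x hx]

theorem mem_A {U : Finset α} {σ : Perm α} : σ ∈ A U ↔ sign σ = 1 ∧ ∀ x, x ∉ U → σ x = x := Iff.rfl

theorem A_mem_iff {U : Finset α} {σ : Perm α} (h : σ ∈ A U) (x : α) : σ x ∈ U ↔ x ∈ U := by
  constructor
  · intro hx
    by_contra hn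
    rw [h.2 x hn] at hx
    exact hn hx
  · intro hx
    by_contra hn
    have h1 := h.2 _ hn
    have h2 := σ.injective h1
    rw [h2] at hn
    exact hn hx

/-- point stabilizer -/
def st (x : α) : Subgroup (Perm α) := MulAction.stabilizer (Perm α) x

theorem mem_st {x : α} {σ : Perm α} : σ ∈ st x ↔ σ x = x := Iff.rfl

/-- orbit size -/
theorem st_relIndex (S : Subgroup (Perm α)) (x : α) : (st x).relIndex S = (MulAction.orbit S x).ncard := by
  rw [← MulAction.index_stabilizer]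
  rfl

/-- Sylow 2-subgroup of the alternating group on `U` -/
structure Syl (U : Finset α) (S : Subgroup (Perm α)) : Prop where
  le : S ≤ A U
  two : IsPGroup 2 S
  odd : ¬ 2 ∣ S.relIndex (A U)

/-- orbit lengths of subgroups of odd index -/
theorem orbit_dvd {S L : Subgroup (Perm α)} (hSL : S ≤ L) (hodd : ¬ 2 ∣ S.relIndex L) (x : α) {k : ℕ}
    (hk : 2 ^ k ∣ (st x).relIndex L) : 2 ^ k ∣ (st x).relIndex S := by
  have h1 : (st x ⊓ S).relIndex L = (st x ⊓ S).relIndex S * S.relIndex L :=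
    (relIndex_mul_relIndex _ _ _ inf_le_right hSL).symm
  have h2 : (st x ⊓ S).relIndex L = (st x ⊓ S).relIndex (st x ⊓ L) * (st x ⊓ L).relIndex L :=
    (relIndex_mul_relIndex _ _ _ (inf_le_inf_left _ hSL) inf_le_right).symm
  rw [inf_relIndex_right] at h1 h2
  have h3 : 2 ^ k ∣ (st x).relIndex S * S.relIndex L := by
    rw [← h1, h2]; exact Dvd.dvd.mul_left hk _
  exact (Nat.Coprime.pow_left k ((Nat.Prime.coprime_iff_not_dvd Nat.prime_two).2 hodd)).dvd_of_dvd_mul_right h3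

/-- the set stabilizer in `A U` -/
def L (U W : Finset α) : Subgroup (Perm α) where
  carrier := {σ | σ ∈ A U ∧ ∀ x, σ x ∈ W ↔ x ∈ W}
  one_mem' := ⟨one_mem _, fun _ => Iff.rfl⟩
  mul_mem' := by
    rintro a b ⟨h1, h2⟩ ⟨h3, h4⟩
    refine ⟨mul_mem h1 h3, fun x => ?_⟩
    rw [Perm.mul_apply, h2, h4]
  inv_mem' := by
    rintro a ⟨h1, h2⟩
    refine ⟨inv_mem h1, fun x => ?_⟩
    rw [← h2, ← Perm.mul_apply, mul_inv_cancel, Perm.one_apply]

theorem L_le (U W : Finset α) : L U W ≤ A U := fun _ h => h.1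

theorem L_trans {U W : Finset α} (hWU : W ⊆ U) (hU : 4 ≤ U.card) {x y : α} (hx : x ∈ W) (hy : y ∈ W) :
    ∃ σ ∈ L U W, σ x = y := by
  by_cases hxy : x = y
  · exact ⟨1, one_mem _, hxy⟩
  by_cases hz : ∃ z ∈ W, z ≠ x ∧ z ≠ y
  · obtain ⟨z, hz, hzx, hzy⟩ := hz
    refine ⟨swap x z * swap x y, ⟨⟨?_, ?_⟩, ?_⟩, ?_⟩
    · rw [map_mul, sign_swap hzx.symm, sign_swap hxy]; rfl
    · intro w hw
      have h1 : w ≠ x := fun h => hw (h ▸ hWU hx)
      have h2 : w ≠ y := fun h => hw (h ▸ hWU hy)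
      have h3 : w ≠ z := fun h => hw (h ▸ hWU hz)
      rw [Perm.mul_apply, swap_apply_of_ne_of_ne h1 h2, swap_apply_of_ne_of_ne h1 h3]
    · have key : ∀ a ∈ W, ∀ b ∈ W, ∀ w, swap a b w ∈ W ↔ w ∈ W := by
        intro a ha b hb w
        by_cases h1 : w = a
        · subst h1; rw [swap_apply_left]; exact ⟨fun _ => ha, fun _ => hb⟩
        by_cases h2 : w = b
        · subst h2; rw [swap_apply_right]; exact ⟨fun _ => hb, fun _ => ha⟩
        rw [swap_apply_of_ne_of_ne h1 h2]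
      intro w
      rw [Perm.mul_apply, key x hx z hz, key x hx y hy]
    · rw [Perm.mul_apply, swap_apply_left, swap_apply_of_ne_of_ne (fun h => hxy h.symm) (fun h => hzy h.symm)]
  · push Not at hz
    have hW : W = {x, y} := by
      ext z
      rw [Finset.mem_insert, Finset.mem_singleton]
      constructor
      · intro h
        by_cases h1 : z = x
        · exact Or.inl h1
        · exact Or.inr (hz z h h1)
      · rintro (rfl | rfl)
        · exact hx
        · exact hy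
    have hc : 1 < (U \ W).card := by
      have h1 := Finset.card_sdiff_add_card_eq_card hWU
      have h2 : W.card ≤ 2 := by rw [hW]; exact Finset.card_le_two
      omega
    obtain ⟨z, hz, w, hw, hzw⟩ := Finset.one_lt_card.1 hc
    rw [Finset.mem_sdiff] at hz hw
    have hzx : z ≠ x := fun h => hz.2 (h ▸ hx)
    have hzy : z ≠ y := fun h => hz.2 (h ▸ hy)
    have hwx : w ≠ x := fun h => hw.2 (h ▸ hx)
    have hwy : w ≠ y := fun h => hw.2 (h ▸ hy)
    refine ⟨swap z w * swap x y, ⟨⟨?_, ?_⟩, ?_⟩, ?_⟩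
    · rw [map_mul, sign_swap hzw, sign_swap hxy]; rfl
    · intro v hv
      have h1 : v ≠ x := fun h => hv (h ▸ hWU hx)
      have h2 : v ≠ y := fun h => hv (h ▸ hWU hy)
      have h3 : v ≠ z := fun h => hv (h ▸ hz.1)
      have h4 : v ≠ w := fun h => hv (h ▸ hw.1)
      rw [Perm.mul_apply, swap_apply_of_ne_of_ne h1 h2, swap_apply_of_ne_of_ne h3 h4]
    · intro v
      by_cases h1 : v = x
      · subst h1
        rw [Perm.mul_apply, swap_apply_left, swap_apply_of_ne_of_ne (fun h => hzy h.symm) (fun h => hwy h.symm)]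
        exact ⟨fun _ => hx, fun _ => hy⟩
      by_cases h2 : v = y
      · subst h2
        rw [Perm.mul_apply, swap_apply_right, swap_apply_of_ne_of_ne (fun h => hzx h.symm) (fun h => hwx h.symm)]
        exact ⟨fun _ => hy, fun _ => hx⟩
      rw [Perm.mul_apply, swap_apply_of_ne_of_ne h1 h2]
      by_cases h3 : v = z
      · subst h3
        rw [swap_apply_left]
        exact ⟨fun h => absurd h hw.2, fun h => absurd h hz.2⟩
      by_cases h4 : v = w
      · subst h4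
        rw [swap_apply_right]
        exact ⟨fun h => absurd h hz.2, fun h => absurd h hw.2⟩
      rw [swap_apply_of_ne_of_ne h3 h4]
    · rw [Perm.mul_apply, swap_apply_left, swap_apply_of_ne_of_ne (fun h => hzy h.symm) (fun h => hwy h.symm)]

theorem L_orbit {U W : Finset α} (hWU : W ⊆ U) (hU : 4 ≤ U.card) {x : α} (hx : x ∈ W) :
    (st x).relIndex (L U W) = W.card := by
  rw [st_relIndex, ← Set.ncard_coe_finset]
  congr 1
  ext y
  constructor
  · rintro ⟨⟨σ, hσ⟩, rfl⟩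
    exact (hσ.2 x).2 hx
  · intro hy
    obtain ⟨σ, hσ, h⟩ := L_trans hWU hU hx hy
    exact ⟨⟨σ, hσ⟩, h⟩

/-- orbits inside an invariant set -/
theorem Syl.dvd {U : Finset α} {S : Subgroup (Perm α)} (h : Syl U S) (hU : 4 ≤ U.card) {W : Finset α} (hWU : W ⊆ U)
    (hW : ∀ σ ∈ S, ∀ x, σ x ∈ W ↔ x ∈ W) {x : α} (hx : x ∈ W) {k : ℕ} (hk : 2 ^ k ∣ W.card) :
    2 ^ k ∣ (MulAction.orbit S x).ncard := by
  have hSL : S ≤ L U W := fun σ hσ => ⟨h.le hσ, hW σ hσ⟩
  rw [← st_relIndex]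
  apply orbit_dvd hSL
  · intro h2
    apply h.odd
    rw [← relIndex_mul_relIndex _ _ _ hSL (L_le U W)]
    exact Dvd.dvd.mul_right h2 _
  · rw [L_orbit hWU hU hx]; exact hk

/-- orbit as a finset -/
noncomputable def orb (S : Subgroup (Perm α)) (x : α) : Finset α := (MulAction.orbit S x).toFinite.toFinset

theorem mem_orb {S : Subgroup (Perm α)} {x y : α} : y ∈ orb S x ↔ ∃ σ ∈ S, σ x = y := by
  rw [orb, Set.Finite.mem_toFinset]
  constructor
  · rintro ⟨⟨σ, hσ⟩, h⟩; exact ⟨σ, hσ, h⟩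
  · rintro ⟨σ, hσ, h⟩; exact ⟨⟨σ, hσ⟩, h⟩

theorem orb_card (S : Subgroup (Perm α)) (x : α) : (orb S x).card = (MulAction.orbit S x).ncard := by
  rw [orb, Set.ncard_eq_toFinset_card _ (Set.toFinite _)]

theorem self_mem_orb (S : Subgroup (Perm α)) (x : α) : x ∈ orb S x := mem_orb.2 ⟨1, one_mem _, rfl⟩

theorem orb_inv {S : Subgroup (Perm α)} {x y : α} {σ : Perm α} (hσ : σ ∈ S) : σ y ∈ orb S x ↔ y ∈ orb S x := by
  rw [mem_orb, mem_orb]
  constructor
  · rintro ⟨τ, hτ, h⟩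
    refine ⟨σ⁻¹ * τ, mul_mem (inv_mem hσ) hτ, ?_⟩
    rw [Perm.mul_apply, h, ← Perm.mul_apply, inv_mul_cancel, Perm.one_apply]
  · rintro ⟨τ, hτ, h⟩
    exact ⟨σ * τ, mul_mem hσ hτ, by rw [Perm.mul_apply, h]⟩

theorem orb_eq {S : Subgroup (Perm α)} {x y : α} (h : y ∈ orb S x) : orb S y = orb S x := by
  obtain ⟨σ, hσ, rfl⟩ := mem_orb.1 h
  ext z
  rw [mem_orb, mem_orb]
  constructor
  · rintro ⟨τ, hτ, h⟩; exact ⟨τ * σ, mul_mem hτ hσ, h⟩
  · rintro ⟨τ, hτ, h⟩
    refine ⟨τ * σ⁻¹, mul_mem hτ (inv_mem hσ), ?_⟩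
    rw [Perm.mul_apply, ← Perm.mul_apply σ⁻¹ σ, inv_mul_cancel, Perm.one_apply, h]

theorem Syl.orb_subset {U : Finset α} {S : Subgroup (Perm α)} (h : Syl U S) {x : α} (hx : x ∈ U) : orb S x ⊆ U := by
  intro y hy
  obtain ⟨σ, hσ, rfl⟩ := mem_orb.1 hy
  exact (A_mem_iff (h.le hσ) x).2 hx

theorem Syl.card_orb {U : Finset α} {S : Subgroup (Perm α)} (h : Syl U S) (x : α) : ∃ k, (orb S x).card = 2 ^ k := by
  obtain ⟨k, hk⟩ := h.two.card_orbit x
  refine ⟨k, ?_⟩
  rw [orb_card, ← hk]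
  rfl

theorem Syl.dvd' {U : Finset α} {S : Subgroup (Perm α)} (h : Syl U S) (hU : 4 ≤ U.card) {W : Finset α} (hWU : W ⊆ U)
    (hW : ∀ σ ∈ S, ∀ x, σ x ∈ W ↔ x ∈ W) {x : α} (hx : x ∈ W) {k : ℕ} (hk : 2 ^ k ∣ W.card) :
    2 ^ k ∣ (orb S x).card := by
  rw [orb_card]; exact h.dvd hU hWU hW hx hk

/-- distinct orbits have distinct lengths -/
theorem Syl.orb_of_card {U : Finset α} {S : Subgroup (Perm α)} (h : Syl U S) (hU : 4 ≤ U.card) {x y : α} (hx : x ∈ U)
    (hy : y ∈ U) (hxy : (orb S x).card = (orb S y).card) : y ∈ orb S x := by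
  by_contra hn
  have hdisj : Disjoint (orb S x) (orb S y) := by
    rw [Finset.disjoint_left]
    intro z hz1 hz2
    apply hn
    rw [← orb_eq hz1, orb_eq hz2]
    exact self_mem_orb S y
  obtain ⟨k, hk⟩ := h.card_orb x
  have h1 : 2 ^ (k + 1) ∣ (orb S x ∪ orb S y).card := by
    rw [Finset.card_union_of_disjoint hdisj, ← hxy, hk, pow_succ]
    exact ⟨1, by ring⟩
  have h2 := h.dvd' hU (Finset.union_subset (h.orb_subset hx) (h.orb_subset hy)) (by
    intro σ hσ z
    rw [Finset.mem_union, Finset.mem_union, orb_inv hσ, orb_inv hσ]) (Finset.mem_union_left _ (self_mem_orb S x)) h1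
  rw [hk] at h2
  have h3 := Nat.le_of_dvd (by positivity) h2
  have h4 : 2 ^ k < 2 ^ (k + 1) := Nat.pow_lt_pow_right (by norm_num) (by omega)
  omega

/-- the normalizer preserves each orbit -/
theorem Syl.norm_orb {U : Finset α} {S : Subgroup (Perm α)} (h : Syl U S) (hU : 4 ≤ U.card) {g : Perm α} (hg : g ∈ A U)
    (hn : ∀ s, s ∈ S ↔ g * s * g⁻¹ ∈ S) {x : α} (hx : x ∈ U) : g x ∈ orb S x := by
  apply h.orb_of_card hU hx ((A_mem_iff hg x).2 hx)
  have : orb S (g x) = (orb S x).map g.toEmbedding := by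
    ext y
    rw [Finset.mem_map, mem_orb]
    constructor
    · rintro ⟨σ, hσ, rfl⟩
      refine ⟨(g⁻¹ * σ * g) x, ?_, ?_⟩
      · rw [mem_orb]
        refine ⟨_, ?_, rfl⟩
        rw [hn]
        have : g * (g⁻¹ * σ * g) * g⁻¹ = σ := by group
        rw [this]; exact hσ
      · simp
    · rintro ⟨z, hz, rfl⟩
      obtain ⟨σ, hσ, rfl⟩ := mem_orb.1 hz
      refine ⟨g * σ * g⁻¹, (hn σ).1 hσ, ?_⟩
      simp
  rw [this, Finset.card_map]

/-- a fixed point in each orbit -/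
theorem Syl.fixed {U : Finset α} {S : Subgroup (Perm α)} (h : Syl U S) (hU : 4 ≤ U.card) {g : Perm α} (hg : g ∈ A U)
    (hn : ∀ s, s ∈ S ↔ g * s * g⁻¹ ∈ S) {p : ℕ} (hp : p.Prime) (hp2 : p ≠ 2) (hgp : g ^ p = 1) {x : α} (hx : x ∈ U) :
    ∃ y ∈ orb S x, g y = y := by
  haveI : Fact p.Prime := ⟨hp⟩
  have hinv : ∀ y, g y ∈ orb S x ↔ y ∈ orb S x := by
    intro y
    have key : ∀ z, z ∈ U → g z ∈ orb S z := fun z hz => h.norm_orb hU hg hn hz
    constructor
    · intro hy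
      have hyU : y ∈ U := (A_mem_iff hg y).1 (h.orb_subset hx hy)
      have h1 := key y hyU
      have h2 := orb_eq h1
      rw [← orb_eq hy, h2]
      exact self_mem_orb S y
    · intro hy
      have h1 := key y (h.orb_subset hx hy)
      rwa [orb_eq hy] at h1
  have hcard : ¬ p ∣ Fintype.card {y // y ∈ orb S x} := by
    obtain ⟨k, hk⟩ := h.card_orb x
    rw [Fintype.card_coe, hk]
    intro hd
    have := hp.dvd_of_dvd_pow hd
    exact hp2 ((Nat.prime_dvd_prime_iff_eq hp Nat.prime_two).1 this)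
  obtain ⟨y, hy⟩ := Equiv.Perm.exists_fixed_point_of_prime (p := p) (n := 1) hcard
    (σ := g.subtypePerm (p := fun y => y ∈ orb S x) (fun y => hinv y)) (by
      ext y
      rw [pow_one]
      rw [Equiv.Perm.subtypePerm_pow]
      simp [hgp])
  exact ⟨y, y.2, congrArg Subtype.val hy⟩

/-- counting by orbits -/
theorem dvd_card {S : Subgroup (Perm α)} {q : ℕ} (W : Finset α) (hW : ∀ σ ∈ S, ∀ x, σ x ∈ W ↔ x ∈ W)
    (hq : ∀ x ∈ W, q ∣ (orb S x).card) : q ∣ W.card := by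
  induction W using Finset.strongInduction with
  | H W ih =>
    rcases W.eq_empty_or_nonempty with h0 | ⟨x, hx⟩
    · rw [h0]; simp
    · have hsub : orb S x ⊆ W := by
        intro y hy
        obtain ⟨σ, hσ, rfl⟩ := mem_orb.1 hy
        exact (hW σ hσ x).2 hx
      have h1 := ih (W \ orb S x) (Finset.sdiff_ssubset hsub ⟨x, self_mem_orb S x⟩) (by
        intro σ hσ y
        rw [Finset.mem_sdiff, Finset.mem_sdiff, hW σ hσ, orb_inv hσ]) (fun y hy => hq y (Finset.mem_sdiff.1 hy).1)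
      rw [← Finset.card_sdiff_add_card_eq_card hsub]
      exact dvd_add h1 (hq x hx)

/-- there is an orbit of length the 2-part of the degree -/
theorem Syl.select {U : Finset α} {S : Subgroup (Perm α)} (h : Syl U S) (hU : 4 ≤ U.card) :
    ∃ x ∈ U, ∃ m, U.card = (orb S x).card * m ∧ ¬ 2 ∣ m := by
  have hU0 : U.card ≠ 0 := by omega
  obtain ⟨v, m, hm, hUm⟩ := Nat.exists_eq_two_pow_mul_odd hU0
  have hinv : ∀ σ ∈ S, ∀ x, σ x ∈ U ↔ x ∈ U := fun σ hσ x => A_mem_iff (h.le hσ) x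
  by_contra hcon
  push Not at hcon
  have h1 : 2 ^ (v + 1) ∣ U.card := by
    apply dvd_card (S := S) U hinv
    intro x hx
    obtain ⟨k, hk⟩ := h.card_orb x
    have h2 : 2 ^ v ∣ (orb S x).card := h.dvd' hU (Finset.Subset.refl U) hinv hx ⟨m, hUm⟩
    rw [hk] at h2 ⊢
    have h3 : v ≤ k := (Nat.pow_dvd_pow_iff_le_right (by norm_num)).1 h2
    rcases h3.lt_or_eq with h4 | h4
    · exact pow_dvd_pow 2 h4
    · exfalso
      have h5 := hcon x hx m (by rw [hk, ← h4]; exact hUm)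
      rw [← Nat.not_even_iff_odd] at hm
      exact hm (even_iff_two_dvd.2 h5)
  rw [hUm, pow_succ] at h1
  have h2 := Nat.dvd_of_mul_dvd_mul_left (by positivity) h1
  rw [← Nat.not_even_iff_odd] at hm
  exact hm (even_iff_two_dvd.2 h2)

/-- the step down -/
theorem Syl.down {U : Finset α} {S : Subgroup (Perm α)} (h : Syl U S) (hU : 4 ≤ U.card) {x : α} (hx : x ∈ U) {m : ℕ}
    (hm : U.card = (orb S x).card * m) (hm2 : ¬ 2 ∣ m) : Syl (U.erase x) (st x ⊓ S) := by
  have hA : A (U.erase x) = st x ⊓ A U := by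
    ext σ
    rw [mem_inf, mem_A, mem_A, mem_st]
    constructor
    · rintro ⟨h1, h2⟩
      exact ⟨h2 x (Finset.notMem_erase x U), h1, fun y hy => h2 y (fun h3 => hy (Finset.mem_of_mem_erase h3))⟩
    · rintro ⟨h1, h2, h3⟩
      refine ⟨h2, fun y hy => ?_⟩
      by_cases hyx : y = x
      · rw [hyx]; exact h1
      · exact h3 y (fun h4 => hy (Finset.mem_erase.2 ⟨hyx, h4⟩))
  refine ⟨?_, ?_, ?_⟩
  · rw [hA]; exact inf_le_inf_left _ h.le
  · exact h.two.to_le inf_le_right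
  · intro h2
    have e1 : (st x ⊓ S).relIndex (A U) = (st x ⊓ S).relIndex S * S.relIndex (A U) :=
      (relIndex_mul_relIndex _ _ _ inf_le_right h.le).symm
    have e2 : (st x ⊓ S).relIndex (A U) = (st x ⊓ S).relIndex (st x ⊓ A U) * (st x ⊓ A U).relIndex (A U) :=
      (relIndex_mul_relIndex _ _ _ (inf_le_inf_left _ h.le) inf_le_right).symm
    rw [inf_relIndex_right] at e1 e2
    rw [hA] at h2
    have e3 : (st x).relIndex (A U) = U.card := by
      have : A U = L U U := by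
        apply le_antisymm _ (L_le U U)
        intro σ hσ
        exact ⟨hσ, fun y => A_mem_iff hσ y⟩
      rw [this, L_orbit (Finset.Subset.refl U) hU hx]
    rw [e3, hm] at e2
    rw [st_relIndex, ← orb_card] at e1
    have hpos : 0 < (orb S x).card := Finset.card_pos.2 ⟨x, self_mem_orb S x⟩
    have e4 : (orb S x).card * S.relIndex (A U) = (orb S x).card * ((st x ⊓ S).relIndex (st x ⊓ A U) * m) := by
      rw [← e1, e2]; ring
    have e5 := Nat.eq_of_mul_eq_mul_left hpos e4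
    apply h.odd
    rw [e5]
    exact Dvd.dvd.mul_right h2 _

end CfsgLib.AnSyl
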