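import Cfsg.Agent.Lib.AnSyl
import Cfsg.Prelude.Def_HallClasses

/-!
# Odd index subgroups of alternating groups are pronormal
-/

set_option autoImplicit false
set_option maxRecDepth 100000

open Equiv Equiv.Perm Subgroup

namespace CfsgLib.AnSyl

universe u

/-! ### degree 6 -/

abbrev G6 := alternatingGroup (Fin 6)

def t6 : G6 := ⟨swap 0 1 * swap 2 3, by rw [mem_alternatingGroup]; decide⟩
def a6 : G6 := ⟨swap 0 1 * swap 4 5, by rw [mem_alternatingGroup]; decide⟩
def b6 : G6 := ⟨swap 0 2 * swap 1 3, by rw [mem_alternatingGroup]; decide⟩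

theorem card6' : Fintype.card {x : G6 // x * t6 = t6 * x} = 8 := by decide +kernel

theorem norm6 : ∀ g : G6, (g * a6 * g⁻¹) * t6 = t6 * (g * a6 * g⁻¹) → (g * b6 * g⁻¹) * t6 = t6 * (g * b6 * g⁻¹) → g * t6 = t6 * g := by
  decide +kernel

theorem ab6 : a6 * t6 = t6 * a6 ∧ b6 * t6 = t6 * b6 := by decide

def C6 : Subgroup G6 := centralizer ({t6} : Set G6)

theorem mem_C6 {x : G6} : x ∈ C6 ↔ x * t6 = t6 * x := by
  rw [C6, mem_centralizer_singleton_iff]

theorem card_C6 : Nat.card C6 = 8 := by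
  rw [← card6', ← Nat.card_eq_fintype_card]
  apply Nat.card_congr
  exact Equiv.subtypeEquivRight (fun x => mem_C6)

theorem card_G6 : Nat.card G6 = 360 := by
  show Nat.card (alternatingGroup (Fin 6)) = 360
  have := two_mul_nat_card_alternatingGroup (α := Fin 6)
  have h2 : Nat.card (Perm (Fin 6)) = 720 := by rw [Nat.card_eq_fintype_card, Fintype.card_perm]; rfl
  rw [h2] at this
  omega

theorem base_fin (S : Sylow 2 G6) (g : G6) (hn : ∀ s, s ∈ S ↔ g * s * g⁻¹ ∈ S) {p : ℕ} (hp : p.Prime) (hp2 : p ≠ 2) (hgp : g ^ p = 1) : g = 1 := by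
  have hC : IsPGroup 2 C6 := IsPGroup.of_card (n := 3) (by rw [card_C6]; norm_num)
  have hidx : C6.index = 45 := by
    have := C6.card_mul_index
    rw [card_C6, card_G6] at this
    omega
  let P : Sylow 2 G6 := hC.toSylow (by rw [hidx]; decide)
  obtain ⟨a, ha⟩ := MulAction.exists_smul_eq G6 P S
  have hmem : ∀ s, s ∈ S ↔ a⁻¹ * s * a ∈ C6 := by
    intro s
    rw [← ha]
    show s ∈ (a • P : Sylow 2 G6) ↔ _
    rw [← SetLike.mem_coe, Sylow.coe_smul, Set.mem_smul_set_iff_inv_smul_mem]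
    show (MulAut.conj a⁻¹) s ∈ C6 ↔ _
    rw [MulAut.conj_apply, inv_inv]
  have h1 : ∀ x, x ∈ C6 → (a⁻¹ * g * a) * x * (a⁻¹ * g * a)⁻¹ ∈ C6 := by
    intro x hx
    have h2 : a * x * a⁻¹ ∈ S := by
      rw [hmem]
      have : a⁻¹ * (a * x * a⁻¹) * a = x := by group
      rw [this]; exact hx
    have h3 := (hn _).1 h2
    rw [hmem] at h3
    have : (a⁻¹ * g * a) * x * (a⁻¹ * g * a)⁻¹ = a⁻¹ * (g * (a * x * a⁻¹) * g⁻¹) * a := by group
    rw [this]; exact h3
  have h2 : a⁻¹ * g * a ∈ C6 := by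
    rw [mem_C6]
    apply norm6
    · exact mem_C6.1 (h1 _ (mem_C6.2 ab6.1))
    · exact mem_C6.1 (h1 _ (mem_C6.2 ab6.2))
  have h3 : (a⁻¹ * g * a) ^ p = 1 := by
    have : a⁻¹ * g * a = a⁻¹ * g * a⁻¹⁻¹ := by rw [inv_inv]
    rw [this, conj_pow, hgp]; group
  obtain ⟨k, hk⟩ := hC ⟨_, h2⟩
  have h4 : (a⁻¹ * g * a) ^ 2 ^ k = 1 := congrArg Subtype.val hk
  have h5 : a⁻¹ * g * a = 1 := by
    have hcop : Nat.Coprime p (2 ^ k) := Nat.Coprime.pow_right k ((Nat.coprime_primes hp Nat.prime_two).2 hp2)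
    rw [← orderOf_eq_one_iff]
    exact Nat.eq_one_of_dvd_coprimes hcop (orderOf_dvd_of_pow_eq_one h3) (orderOf_dvd_of_pow_eq_one h4)
  calc g = a * (a⁻¹ * g * a) * a⁻¹ := by group
    _ = 1 := by rw [h5]; group

variable {α : Type u} [Fintype α] [DecidableEq α]

theorem base {U : Finset α} (hU : U.card = 6) {S : Subgroup (Perm α)} (h : Syl U S) {g : Perm α} (hg : g ∈ A U)
    (hn : ∀ s, s ∈ S ↔ g * s * g⁻¹ ∈ S) {p : ℕ} (hp : p.Prime) (hp2 : p ≠ 2) (hgp : g ^ p = 1) : g = 1 := by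
  let f : Fin 6 ≃ {x // x ∈ U} := (Finset.equivFinOfCardEq hU).symm
  let φ : G6 →* Perm α := (extendDomainHom f).comp (alternatingGroup (Fin 6)).subtype
  have hφ : Function.Injective φ := (extendDomainHom_injective f).comp Subtype.val_injective
  have hrange : φ.range = A U := by
    ext σ
    constructor
    · rintro ⟨τ, rfl⟩
      refine ⟨?_, ?_⟩
      · show sign (extendDomain (τ : Perm (Fin 6)) f) = 1
        rw [sign_extendDomain]
        exact mem_alternatingGroup.1 τ.2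
      · intro x hx
        exact extendDomain_apply_not_subtype _ f hx
    · intro hσ
      let τ : Perm (Fin 6) := f.permCongr.symm (σ.subtypePerm (p := fun x => x ∈ U) (fun x => A_mem_iff hσ x))
      have hτ : extendDomain τ f = σ := by
        ext x
        by_cases hx : x ∈ U
        · rw [extendDomain_apply_subtype _ f hx]
          simp [τ, Equiv.permCongr]
        · rw [extendDomain_apply_not_subtype _ f hx, hσ.2 x hx]
      have hs : sign τ = 1 := by
        rw [← sign_extendDomain τ f, hτ]; exact hσ.1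
      exact ⟨⟨τ, mem_alternatingGroup.2 hs⟩, hτ⟩
  have h2 : IsPGroup 2 (S.comap φ) := h.two.comap_of_injective φ hφ
  have hidx : ¬ 2 ∣ (S.comap φ).index := by
    rw [index_comap, hrange]; exact h.odd
  obtain ⟨g', rfl⟩ : g ∈ φ.range := by rw [hrange]; exact hg
  have := base_fin (h2.toSylow hidx) g' (by
    intro s
    show s ∈ S.comap φ ↔ g' * s * g'⁻¹ ∈ S.comap φ
    rw [mem_comap, mem_comap, map_mul, map_mul, map_inv]
    exact hn _) hp hp2 (by
    apply hφ
    rw [map_pow, map_one]; exact hgp)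
  rw [this, map_one]

theorem main : ∀ n, 6 ≤ n → ∀ U : Finset α, U.card = n → ∀ S : Subgroup (Perm α), Syl U S → ∀ g ∈ A U,
    (∀ s, s ∈ S ↔ g * s * g⁻¹ ∈ S) → ∀ p : ℕ, p.Prime → p ≠ 2 → g ^ p = 1 → g = 1 := by
  intro n hn
  induction n, hn using Nat.le_induction with
  | base =>
    intro U hU S h g hg hn p hp hp2 hgp
    exact base hU h hg hn hp hp2 hgp
  | succ n hn6 ih =>
    intro U hU S h g hg hn p hp hp2 hgp
    have hU4 : 4 ≤ U.card := by omega
    obtain ⟨x, hx, m, hm, hm2⟩ := h.select hU4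
    obtain ⟨y, hy, hgy⟩ := h.fixed hU4 hg hn hp hp2 hgp hx
    have hyU := h.orb_subset hx hy
    rw [← orb_eq hy] at hm
    have h' := h.down hU4 hyU hm hm2
    refine ih (U.erase y) (by rw [Finset.card_erase_of_mem hyU]; omega) _ h' g ⟨hg.1, ?_⟩ ?_ p hp hp2 hgp
    · intro z hz
      by_cases hzy : z = y
      · rw [hzy]; exact hgy
      · exact hg.2 z (fun h4 => hz (Finset.mem_erase.2 ⟨hzy, h4⟩))
    · intro s
      rw [mem_inf, mem_inf, ← hn s, mem_st, mem_st]
      have hgy' : g⁻¹ y = y := by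
        rw [Perm.inv_eq_iff_eq]; exact hgy.symm
      rw [Perm.mul_apply, Perm.mul_apply, hgy']
      constructor
      · rintro ⟨h1, h2⟩
        exact ⟨by rw [h1, hgy], h2⟩
      · rintro ⟨h1, h2⟩
        refine ⟨g.injective (by rw [h1, hgy]), h2⟩

/-- Sylow 2-subgroups are self-normalizing -/
theorem self_norm {n : ℕ} (hn : 6 ≤ n) (T : Sylow 2 (alternatingGroup (Fin n))) {x : alternatingGroup (Fin n)}
    (hx : x ∈ normalizer (T : Set (alternatingGroup (Fin n)))) : x ∈ T := by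
  have hA : A (Finset.univ : Finset (Fin n)) = alternatingGroup (Fin n) := by
    ext σ
    rw [mem_A, mem_alternatingGroup]
    simp
  have hS : Syl (Finset.univ : Finset (Fin n)) ((T : Subgroup (alternatingGroup (Fin n))).map (alternatingGroup (Fin n)).subtype) := by
    refine ⟨?_, T.2.map _, ?_⟩
    · rw [hA]
      rintro _ ⟨y, _, rfl⟩
      exact y.2
    · rw [hA]
      have h1 : alternatingGroup (Fin n) = (⊤ : Subgroup (alternatingGroup (Fin n))).map (alternatingGroup (Fin n)).subtype := by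
        rw [← MonoidHom.range_eq_map, range_subtype]
      have h2 := relIndex_map_map_of_injective (T : Subgroup (alternatingGroup (Fin n))) ⊤ (alternatingGroup (Fin n)).subtype_injective
      rw [← h1] at h2
      rw [h2, relIndex_top_right]
      exact T.not_dvd_index
  have hodd : ∀ y : alternatingGroup (Fin n), y ∈ normalizer (T : Set (alternatingGroup (Fin n))) → ∀ p : ℕ, p.Prime → p ≠ 2 → y ^ p = 1 → y = 1 := by
    intro y hy p hp hp2 hyp
    have := main n hn (Finset.univ : Finset (Fin n)) (by simp) _ hS (y : Perm (Fin n)) (by rw [hA]; exact y.2) (by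
      intro s
      constructor
      · rintro ⟨z, hz, rfl⟩
        exact ⟨y * z * y⁻¹, (mem_set_normalizer_iff.1 hy z).1 hz, rfl⟩
      · rintro ⟨z, hz, he⟩
        refine ⟨y⁻¹ * z * y, ?_, ?_⟩
        · refine (mem_set_normalizer_iff.1 hy _).2 ?_
          have : y * (y⁻¹ * z * y) * y⁻¹ = z := by group
          rw [this]; exact hz
        · have he' : (z : Perm (Fin n)) = y * s * (y : Perm (Fin n))⁻¹ := he
          show (y : Perm (Fin n))⁻¹ * z * y = s
          rw [he']; group) p hp hp2 (by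
      have := congrArg Subtype.val hyp
      exact this)
    exact Subtype.ext this
  have hN : IsPGroup 2 (normalizer (T : Set (alternatingGroup (Fin n)))) := by
    have h0 : Nat.card (normalizer (T : Set (alternatingGroup (Fin n)))) ≠ 0 := Nat.card_pos.ne'
    obtain h1 := Nat.eq_prime_pow_of_unique_prime_dvd (p := 2) h0 (by
      intro q hq hd
      by_contra hq2
      haveI : Fact q.Prime := ⟨hq⟩
      obtain ⟨y, hy⟩ := exists_prime_orderOf_dvd_card' q hd
      have h2 := hodd y y.2 q hq hq2 (by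
        have h3 := pow_orderOf_eq_one y
        rw [hy] at h3
        exact congrArg Subtype.val h3)
      have h4 : y = 1 := Subtype.ext h2
      rw [h4, orderOf_one] at hy
      exact hq.one_lt.ne hy)
    exact IsPGroup.of_card h1
  have := T.3 hN le_normalizer
  have hx' : x ∈ (normalizer (T : Set (alternatingGroup (Fin n)))) := hx
  rw [this] at hx'
  exact hx'

/-- reduction of pronormality -/
theorem pron {G : Type u} [Group G] [Finite G] (H : Subgroup G) (hodd : ¬ 2 ∣ H.index)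
    (hN : ∀ S : Sylow 2 G, (S : Subgroup G) ≤ H → ∀ x ∈ normalizer (S : Set G), ∀ h ∈ H, x * h * x⁻¹ ∈ H) : Cfsg.IsPronormal H := by
  intro g
  -- a Sylow subgroup of G inside H
  obtain ⟨T, hT⟩ : ∃ T : Sylow 2 G, (T : Subgroup G) ≤ H := by
    let P : Sylow 2 H := default
    have h1 : IsPGroup 2 ((P : Subgroup H).map H.subtype) := P.2.map _
    have h2 : ¬ 2 ∣ ((P : Subgroup H).map H.subtype).index := by
      rw [index_map_subtype]
      intro h3
      rcases (Nat.Prime.dvd_mul Nat.prime_two).1 h3 with h4 | h4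
      · exact P.not_dvd_index h4
      · exact hodd h4
    refine ⟨h1.toSylow h2, ?_⟩
    rintro _ ⟨y, _, rfl⟩
    exact y.2
  have hTK : (T : Subgroup G) ≤ H ⊔ H.map (MulAut.conj g).toMonoidHom := hT.trans le_sup_left
  have hgTK : ((g • T : Sylow 2 G) : Subgroup G) ≤ H ⊔ H.map (MulAut.conj g).toMonoidHom := by
    refine le_trans ?_ le_sup_right
    intro x hx0
    have hx : x ∈ (g • T : Sylow 2 G) := hx0
    rw [← SetLike.mem_coe, Sylow.coe_smul, Set.mem_smul_set_iff_inv_smul_mem, ← map_inv] at hx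
    refine ⟨(MulAut.conj g⁻¹) x, hT hx, ?_⟩
    show g * (g⁻¹ * x * g⁻¹⁻¹) * g⁻¹ = x
    group
  obtain ⟨k, hk⟩ := MulAction.exists_smul_eq (H ⊔ H.map (MulAut.conj g).toMonoidHom : Subgroup G) ((g • T : Sylow 2 G).subtype hgTK) (T.subtype hTK)
  rw [Sylow.smul_subtype] at hk
  have hk2 := Sylow.subtype_injective hk
  have hk3 : ((k : G) * g) • T = T := by
    rw [mul_smul]; exact hk2
  rw [Sylow.smul_eq_iff_mem_normalizer] at hk3
  refine ⟨(k : G)⁻¹, inv_mem k.2, ?_⟩
  have h1 := hN T hT _ hk3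
  have h2 := hN T hT _ (inv_mem hk3)
  ext z
  constructor
  · rintro ⟨y, hy, rfl⟩
    refine ⟨(k : G) * g * y * ((k : G) * g)⁻¹, h1 y hy, ?_⟩
    show (k : G)⁻¹ * ((k : G) * g * y * ((k : G) * g)⁻¹) * (k : G)⁻¹⁻¹ = g * y * g⁻¹
    group
  · rintro ⟨y, hy, rfl⟩
    refine ⟨((k : G) * g)⁻¹ * y * ((k : G) * g)⁻¹⁻¹, h2 y hy, ?_⟩
    show g * (((k : G) * g)⁻¹ * y * ((k : G) * g)⁻¹⁻¹) * g⁻¹ = (k : G)⁻¹ * y * (k : G)⁻¹⁻¹
    group

theorem big {n : ℕ} (hn : 6 ≤ n) (H : Subgroup (alternatingGroup (Fin n))) (hH : ¬ 2 ∣ H.index) : Cfsg.IsPronormal H := by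
  apply pron H hH
  intro S hS x hx h hh
  have := hS (self_norm hn S hx)
  exact mul_mem (mul_mem this hh) (inv_mem this)

/-! ### degree 5 -/

abbrev G5 := alternatingGroup (Fin 5)

def t5 : G5 := ⟨swap 0 1 * swap 2 3, by rw [mem_alternatingGroup]; decide⟩
def u5 : G5 := ⟨swap 0 2 * swap 1 3, by rw [mem_alternatingGroup]; decide⟩

/-- the Klein four group -/
def V5 : Subgroup G5 := centralizer ({t5, u5} : Set G5)

theorem mem_V5 {x : G5} : x ∈ V5 ↔ t5 * x = x * t5 ∧ u5 * x = x * u5 := by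
  rw [V5, mem_centralizer_iff]
  simp

theorem card5' : Fintype.card {x : G5 // t5 * x = x * t5 ∧ u5 * x = x * u5} = 4 := by decide +kernel

theorem card_V5 : Nat.card V5 = 4 := by
  rw [← card5', ← Nat.card_eq_fintype_card]
  apply Nat.card_congr
  exact Equiv.subtypeEquivRight (fun x => mem_V5)

theorem card_G5 : Nat.card G5 = 60 := by
  show Nat.card (alternatingGroup (Fin 5)) = 60
  have := two_mul_nat_card_alternatingGroup (α := Fin 5)
  have h2 : Nat.card (Perm (Fin 5)) = 120 := by rw [Nat.card_eq_fintype_card, Fintype.card_perm]; rfl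
  rw [h2] at this
  omega

theorem norm5 : ∀ g : G5, (t5 * (g * t5 * g⁻¹) = (g * t5 * g⁻¹) * t5 ∧ u5 * (g * t5 * g⁻¹) = (g * t5 * g⁻¹) * u5) →
    (t5 * (g * u5 * g⁻¹) = (g * u5 * g⁻¹) * t5 ∧ u5 * (g * u5 * g⁻¹) = (g * u5 * g⁻¹) * u5) → (g : Perm (Fin 5)) 4 = 4 := by
  decide +kernel

theorem words5 : ∀ h : G5, ¬ (t5 * h = h * t5 ∧ u5 * h = h * u5) → ∃ a ∈ ([1, t5, u5, t5 * u5] : List G5), ∃ b ∈ ([1, t5, u5, t5 * u5] : List G5),
    ∃ w ∈ ([h, h * a * h * b * h] : List G5), (w : Perm (Fin 5)) 4 = 4 ∧ ¬ (t5 * w = w * t5 ∧ u5 * w = w * u5) := by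
  decide +kernel

theorem cosets5 : ∀ w : G5, (w : Perm (Fin 5)) 4 = 4 → ¬ (t5 * w = w * t5 ∧ u5 * w = w * u5) → ∀ x : G5, (x : Perm (Fin 5)) 4 = 4 →
    (t5 * x = x * t5 ∧ u5 * x = x * u5) ∨ (t5 * (x * w) = (x * w) * t5 ∧ u5 * (x * w) = (x * w) * u5) ∨ (t5 * (x * w⁻¹) = (x * w⁻¹) * t5 ∧ u5 * (x * w⁻¹) = (x * w⁻¹) * u5) := by
  decide +kernel

theorem five (H : Subgroup G5) (hH : ¬ 2 ∣ H.index) : Cfsg.IsPronormal H := by
  apply pron H hH
  intro S hS x hx
  have hC : IsPGroup 2 V5 := IsPGroup.of_card (n := 2) (by rw [card_V5]; norm_num)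
  have hidx : V5.index = 15 := by
    have := V5.card_mul_index
    rw [card_V5, card_G5] at this
    omega
  let P : Sylow 2 G5 := hC.toSylow (by rw [hidx]; decide)
  obtain ⟨a, ha⟩ := MulAction.exists_smul_eq G5 P S
  have hmem : ∀ s, s ∈ S ↔ a⁻¹ * s * a ∈ V5 := by
    intro s
    rw [← ha]
    show s ∈ (a • P : Sylow 2 G5) ↔ _
    rw [← SetLike.mem_coe, Sylow.coe_smul, Set.mem_smul_set_iff_inv_smul_mem]
    show (MulAut.conj a⁻¹) s ∈ V5 ↔ _
    rw [MulAut.conj_apply, inv_inv]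
  have hVH : ∀ v ∈ V5, a * v * a⁻¹ ∈ H := by
    intro v hv
    apply hS
    show _ ∈ S
    rw [hmem]
    have : a⁻¹ * (a * v * a⁻¹) * a = v := by group
    rw [this]; exact hv
  have hxn := mem_set_normalizer_iff.1 hx
  have h1 : ∀ y, y ∈ V5 → (a⁻¹ * x * a) * y * (a⁻¹ * x * a)⁻¹ ∈ V5 := by
    intro y hy
    have h2 : a * y * a⁻¹ ∈ S := by
      rw [hmem]
      have : a⁻¹ * (a * y * a⁻¹) * a = y := by group
      rw [this]; exact hy
    have h3 := (hxn _).1 h2
    have h4 : x * (a * y * a⁻¹) * x⁻¹ ∈ S := h3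
    rw [hmem] at h4
    have : (a⁻¹ * x * a) * y * (a⁻¹ * x * a)⁻¹ = a⁻¹ * (x * (a * y * a⁻¹) * x⁻¹) * a := by group
    rw [this]; exact h4
  have htu : t5 ∈ V5 ∧ u5 ∈ V5 := by
    rw [mem_V5, mem_V5]; decide
  have hx4 : ((a⁻¹ * x * a : G5) : Perm (Fin 5)) 4 = 4 := by
    apply norm5
    · exact mem_V5.1 (h1 _ htu.1)
    · exact mem_V5.1 (h1 _ htu.2)
  by_cases hall : ∀ h ∈ H, a⁻¹ * h * a ∈ V5
  · intro h hh
    have h2 := hVH _ (h1 _ (hall h hh))
    have : a * (a⁻¹ * x * a * (a⁻¹ * h * a) * (a⁻¹ * x * a)⁻¹) * a⁻¹ = x * h * x⁻¹ := by group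
    rwa [this] at h2
  · push Not at hall
    obtain ⟨h, hh, hnV⟩ := hall
    have hxH : x ∈ H := by
      have hK : ∀ y, y ∈ H.comap (MulAut.conj a).toMonoidHom ↔ a * y * a⁻¹ ∈ H := fun y => Iff.rfl
      have m0 : a⁻¹ * h * a ∈ H.comap (MulAut.conj a).toMonoidHom := by
        rw [hK]
        have : a * (a⁻¹ * h * a) * a⁻¹ = h := by group
        rw [this]; exact hh
      have mV : V5 ≤ H.comap (MulAut.conj a).toMonoidHom := fun v hv => (hK v).2 (hVH v hv)
      obtain ⟨b, hb, c, hc, w, hw, hw4, hwV⟩ := words5 (a⁻¹ * h * a) (fun h2 => hnV (mem_V5.2 h2))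
      have ml : ∀ z ∈ ([1, t5, u5, t5 * u5] : List G5), z ∈ V5 := by
        intro z hz
        simp only [List.mem_cons, List.not_mem_nil, or_false] at hz
        rcases hz with rfl | rfl | rfl | rfl
        · exact one_mem _
        · exact htu.1
        · exact htu.2
        · exact mul_mem htu.1 htu.2
      have mw : w ∈ H.comap (MulAut.conj a).toMonoidHom := by
        simp only [List.mem_cons, List.not_mem_nil, or_false] at hw
        rcases hw with rfl | rfl
        · exact m0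
        · exact mul_mem (mul_mem (mul_mem (mul_mem m0 (mV (ml b hb))) m0) (mV (ml c hc))) m0
      have mx : a⁻¹ * x * a ∈ H.comap (MulAut.conj a).toMonoidHom := by
        rcases cosets5 w hw4 hwV _ hx4 with h2 | h2 | h2
        · exact mV (mem_V5.2 h2)
        · have h3 := mul_mem (mV (mem_V5.2 h2)) (inv_mem mw)
          rwa [mul_inv_cancel_right] at h3
        · have h3 := mul_mem (mV (mem_V5.2 h2)) mw
          rwa [inv_mul_cancel_right] at h3
      rw [hK] at mx
      have : a * (a⁻¹ * x * a) * a⁻¹ = x := by group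
      rwa [this] at mx
    intro h' hh'
    exact mul_mem (mul_mem hxH hh') (inv_mem hxH)

theorem all {n : ℕ} (hn : 5 ≤ n) (H : Subgroup (alternatingGroup (Fin n))) (hH : Odd H.index) : Cfsg.IsPronormal H := by
  have hH' : ¬ 2 ∣ H.index := by
    rw [← Nat.not_even_iff_odd] at hH
    exact fun h => hH (even_iff_two_dvd.2 h)
  rcases hn.lt_or_eq with h | h
  · exact big h H hH'
  · subst h
    exact five H hH'

end CfsgLib.AnSyl
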