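import Cfsg.Agent.Lib.Descent

/-!
# Hermitian forms over finite fields: orthonormal bases.
-/

set_option autoImplicit false

namespace CfsgLib.HermEq

open Matrix Module

variable {F : Type*} [Field F] {V : Type*} [AddCommGroup V] [Module F V]

/-- Hermitian forms -/
structure IsHerm (σ : RingAut F) (B : V → V → F) : Prop where
  add_left : ∀ u v w, B (u + v) w = B u w + B v w
  smul_left : ∀ (c : F) v w, B (c • v) w = c * B v w
  symm : ∀ v w, B w v = σ (B v w)

variable {σ : RingAut F} {B : V → V → F}

theorem IsHerm.add_right (h : IsHerm σ B) (u v w : V) : B u (v + w) = B u v + B u w := by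
  rw [h.symm, h.add_left, map_add, ← h.symm, ← h.symm]

theorem IsHerm.smul_right (h : IsHerm σ B) (c : F) (v w : V) : B v (c • w) = σ c * B v w := by
  rw [h.symm, h.smul_left, map_mul, ← h.symm]

theorem IsHerm.exists_ne (h : IsHerm σ B) (hσ : σ ≠ 1) {v w : V} (hvw : B v w ≠ 0) :
    ∃ c d : F, B (c • v + d • w) (c • v + d • w) ≠ 0 := by
  by_contra hcon
  push Not at hcon
  have hv : B v v = 0 := by have := hcon 1 0; simpa using this
  have hw : B w w = 0 := by have := hcon 0 1; simpa using this
  apply hσ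
  have h1 : ∀ c : F, c * B v w + σ c * σ (B v w) = 0 := by
    intro c
    have h2 := hcon c 1
    rw [h.add_left, h.add_right, h.add_right, one_smul, h.smul_left, h.smul_right, h.smul_left, h.smul_right, hv, hw,
      h.symm v w] at h2
    linear_combination h2
  have h2 := h1 1
  rw [one_mul, map_one, one_mul] at h2
  apply RingEquiv.ext
  intro c
  have h3 := h1 c
  have h4 : σ (B v w) = - B v w := by linear_combination h2
  rw [h4] at h3
  have h5 : (c - σ c) * B v w = 0 := by linear_combination h3
  rcases mul_eq_zero.1 h5 with h6 | h6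
  · exact (sub_eq_zero.1 h6).symm
  · exact absurd h6 hvw

theorem exists_orthonormal [FiniteDimensional F V] (h : IsHerm σ B) (hσ : σ ≠ 1)
    (hN : ∀ l : F, σ l = l → ∃ m : F, m * σ m = l) (m : ℕ) : ∀ W : Submodule F V, finrank F W = m →
    (∀ w ∈ W, (∀ u ∈ W, B w u = 0) → w = 0) →
    ∃ b : Fin m → V, (∀ i, b i ∈ W) ∧ ∀ i j, B (b i) (b j) = if i = j then 1 else 0 := by
  induction m with
  | zero => exact fun W _ _ => ⟨fun i => i.elim0, fun i => i.elim0, fun i => i.elim0⟩
  | succ m ih =>
    intro W hW hnd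
    -- a non-isotropic vector
    obtain ⟨v, hvW, hv⟩ : ∃ v ∈ W, B v v ≠ 0 := by
      have h1 : W ≠ ⊥ := by
        rintro rfl
        rw [finrank_bot] at hW
        omega
      obtain ⟨w, hw, hw0⟩ := Submodule.exists_mem_ne_zero_of_ne_bot h1
      have h2 : ∃ u ∈ W, B w u ≠ 0 := by
        by_contra hcon
        push Not at hcon
        exact hw0 (hnd w hw hcon)
      obtain ⟨u, hu, hwu⟩ := h2
      obtain ⟨c, d, hcd⟩ := h.exists_ne hσ hwu
      exact ⟨_, W.add_mem (W.smul_mem c hw) (W.smul_mem d hu), hcd⟩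
    obtain ⟨μ, hμ⟩ := hN (B v v)⁻¹ (by rw [map_inv₀, ← h.symm])
    let v' := μ • v
    have hv'W : v' ∈ W := W.smul_mem μ hvW
    have hv' : B v' v' = 1 := by
      show B (μ • v) (μ • v) = 1
      rw [h.smul_left, h.smul_right, ← mul_assoc, hμ, inv_mul_cancel₀ hv]
    let L : V →ₗ[F] F :=
      { toFun := fun w => B w v'
        map_add' := fun x y => h.add_left x y v'
        map_smul' := fun c x => h.smul_left c x v' }
    let l : W →ₗ[F] F := L.comp W.subtype
    have hl : LinearMap.range l = ⊤ := by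
      rw [LinearMap.range_eq_top]
      intro c
      exact ⟨c • ⟨v', hv'W⟩, by
        show B (c • v') v' = c
        rw [h.smul_left, hv', mul_one]⟩
    have hker : finrank F (LinearMap.ker l) = m := by
      have h1 := LinearMap.finrank_range_add_finrank_ker l
      rw [hl, finrank_top, finrank_self, hW] at h1
      omega
    let W' : Submodule F V := (LinearMap.ker l).map W.subtype
    have hW' : finrank F W' = m := by
      rw [← hker]
      exact LinearEquiv.finrank_eq (Submodule.equivMapOfInjective W.subtype W.injective_subtype (LinearMap.ker l)).symm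
    have hmem : ∀ w, w ∈ W' ↔ w ∈ W ∧ B w v' = 0 := by
      intro w
      constructor
      · rintro ⟨x, hx, rfl⟩
        exact ⟨x.2, hx⟩
      · rintro ⟨h1, h2⟩
        exact ⟨⟨w, h1⟩, h2, rfl⟩
    obtain ⟨b, hb1, hb2⟩ := ih W' hW' (by
      intro w hw hall
      obtain ⟨hw1, hw2⟩ := (hmem w).1 hw
      apply hnd w hw1
      intro x hx
      have h1 : x = B x v' • v' + (x - B x v' • v') := by abel
      have h2 : x - B x v' • v' ∈ W' := by
        rw [hmem]
        refine ⟨W.sub_mem hx (W.smul_mem _ hv'W), ?_⟩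
        have : L (x - B x v' • v') = 0 := by
          rw [map_sub, map_smul]
          show B x v' - B x v' • B v' v' = 0
          rw [hv', smul_eq_mul, mul_one, sub_self]
        exact this
      rw [h1, h.add_right, h.smul_right, hw2, mul_zero, zero_add]
      exact hall _ h2)
    refine ⟨Fin.cons v' b, ?_, ?_⟩
    · intro i
      refine Fin.cases ?_ (fun i => ?_) i
      · exact hv'W
      · exact ((hmem _).1 (hb1 i)).1
    · intro i j
      have hvb : ∀ i, B v' (b i) = 0 := by
        intro i
        rw [h.symm, ((hmem _).1 (hb1 i)).2, map_zero]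
      refine Fin.cases ?_ (fun i => ?_) i <;> refine Fin.cases ?_ (fun j => ?_) j
      · simp [hv']
      · simp only [Fin.cons_zero, Fin.cons_succ, hvb]
        rw [if_neg (Fin.succ_ne_zero j).symm]
      · simp only [Fin.cons_zero, Fin.cons_succ]
        rw [((hmem _).1 (hb1 i)).2, if_neg (Fin.succ_ne_zero i)]
      · simp only [Fin.cons_succ, hb2, Fin.succ_inj]

/-- a nondegenerate Hermitian matrix over a finite field is `h h^*` -/
theorem exists_eq [Finite F] {n : ℕ} {σ : RingAut F} (hσ : orderOf σ = 2) (A : Matrix (Fin n) (Fin n) F) (hA : IsUnit A)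
    (hH : (A.map σ).transpose = A) : ∃ h : GL (Fin n) F, A = h.1 * (h.1.map σ).transpose := by
  have hσ1 : σ ≠ 1 := by
    rintro rfl
    rw [orderOf_one] at hσ
    omega
  have hσσ : ∀ x, σ (σ x) = x := by
    intro x
    have := pow_orderOf_eq_one σ
    rw [hσ] at this
    exact DFunLike.congr_fun this x
  let B : (Fin n → F) → (Fin n → F) → F := fun v w => v ⬝ᵥ (A *ᵥ (fun i => σ (w i)))
  have hB : IsHerm σ B :=
    { add_left := fun u v w => add_dotProduct _ _ _
      smul_left := fun c v w => by
        show (c • v) ⬝ᵥ _ = _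
        rw [smul_dotProduct]; rfl
      symm := fun v w => by
        show w ⬝ᵥ (A *ᵥ (fun i => σ (v i))) = σ (v ⬝ᵥ (A *ᵥ (fun i => σ (w i))))
        have h1 : σ (v ⬝ᵥ (A *ᵥ (fun i => σ (w i)))) = (fun i => σ (v i)) ⬝ᵥ (fun i => σ ((A *ᵥ (fun i => σ (w i))) i)) := by
          simp only [dotProduct, map_sum, map_mul]
        rw [h1, CfsgLib.Descent.map_mulVec]
        simp only [hσσ]
        have h2 : A.map σ = A.transpose := by rw [← hH, transpose_transpose, hH]
        rw [h2, mulVec_transpose, dotProduct_comm (fun i => σ (v i)), ← dotProduct_mulVec] }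
  have hN : ∀ l : F, σ l = l → ∃ m : F, m * σ m = l := by
    intro l hl
    obtain ⟨m, hm⟩ := CfsgLib.Descent.exists_nrm σ hl
    rw [hσ, Finset.prod_range_succ, Finset.prod_range_one] at hm
    exact ⟨m, hm⟩
  obtain ⟨b, _, hb⟩ := exists_orthonormal hB hσ1 hN n ⊤ (by rw [finrank_top, Module.finrank_fin_fun]) (by
    intro w _ hw
    have h1 : ∀ u, w ⬝ᵥ (A *ᵥ u) = 0 := by
      intro u
      have := hw (fun i => σ (u i)) trivial
      have h2 : B w (fun i => σ (u i)) = w ⬝ᵥ (A *ᵥ fun i => σ (σ (u i))) := rfl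
      rw [h2] at this
      simp only [hσσ] at this
      exact this
    obtain ⟨A', hA'⟩ := hA
    have h2 : w ᵥ* A = 0 := by
      apply dotProduct_eq_zero _ 
      intro u
      rw [← dotProduct_mulVec]
      exact h1 u
    have h3 := congrArg (fun z => z ᵥ* (A'⁻¹).1) h2
    have h4 : A'.1 * (A'⁻¹).1 = 1 := A'.mul_inv
    simp only [vecMul_vecMul, zero_vecMul] at h3
    rw [← hA', h4, vecMul_one] at h3
    exact h3)
  let P : Matrix (Fin n) (Fin n) F := Matrix.of b
  have hP : P * A * (P.map σ).transpose = 1 := by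
    ext i j
    rw [mul_mul_apply, one_apply]
    exact hb i j
  have hPu : IsUnit P := by
    rw [Matrix.isUnit_iff_isUnit_det]
    have := congrArg Matrix.det hP
    rw [mul_assoc, det_mul, det_one] at this
    exact IsUnit.of_mul_eq_one _ this
  obtain ⟨P', hP'⟩ := hPu
  refine ⟨P'⁻¹, ?_⟩
  have h1 : (P'⁻¹).1 * P = 1 := by rw [← hP']; exact P'.inv_mul
  have e1 : ∀ A B : Matrix (Fin n) (Fin n) F, (A * B).map σ = A.map σ * B.map σ := fun A B => Matrix.map_mul (f := (σ : F →+* F))
  have h2 : (P.map σ).transpose * (((P'⁻¹).1).map σ).transpose = 1 := by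
    rw [← transpose_mul, ← e1, h1, Matrix.map_one _ (map_zero σ) (map_one σ), transpose_one]
  calc A = ((P'⁻¹).1 * P) * A * ((P.map σ).transpose * (((P'⁻¹).1).map σ).transpose) := by rw [h1, h2, one_mul, mul_one]
    _ = (P'⁻¹).1 * (P * A * (P.map σ).transpose) * (((P'⁻¹).1).map σ).transpose := by simp only [mul_assoc]
    _ = _ := by rw [hP, mul_one]

end CfsgLib.HermEq
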