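import Cfsg.Agent.Lib.AutPSL9
import Cfsg.Agent.Lib.HermEq

/-!
# Automorphisms of `PSL_n(F)`, part 10: conjugacy of field and graph-field automorphisms.
-/

set_option autoImplicit false

namespace CfsgLib.AutPSL

open Matrix

universe u

variable {F : Type u} [Field F] {n : ℕ}

/-- partial norms in `GL` -/
def nmG (σ : RingAut F) (g : GL (Fin n) F) : ℕ → GL (Fin n) F
  | 0 => 1
  | (i + 1) => g * gm σ (nmG σ g i)

theorem nmG_coe (σ : RingAut F) (g : GL (Fin n) F) (i : ℕ) : (nmG σ g i).1 = CfsgLib.Descent.nm σ g.1 i := by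
  induction i with
  | zero => rfl
  | succ i ih =>
    show g.1 * (nmG σ g i).1.map σ = g.1 * (CfsgLib.Descent.nm σ g.1 i).map σ
    rw [ih]

theorem psl_semi_pow (σ : RingAut F) (g : GL (Fin n) F) (i : ℕ) :
    (psl (semi g σ)) ^ i = psl (semi (nmG σ g i) (σ ^ i : RingAut F)) := by
  induction i with
  | zero => rw [pow_zero, pow_zero]; exact psl_semi_one.symm
  | succ i ih =>
    rw [pow_succ', ih, psl_semi_mul, pow_succ']
    rfl

theorem psl_semi_eq_one (hn : 2 ≤ n) {g : GL (Fin n) F} {σ : RingAut F} (h : psl (semi g σ) = 1) :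
    σ = 1 ∧ ∃ c : F, c ≠ 0 ∧ g.1 = c • (1 : Matrix (Fin n) (Fin n) F) := by
  rw [← psl_semi_one] at h
  exact semi_inj hn h

/-- elements of the coset of a field automorphism with the same order are conjugate to it -/
theorem field_conj [Finite F] (hn : 2 ≤ n) (σ : RingAut F) (g : GL (Fin n) F)
    (h : (psl (semi g σ)) ^ orderOf σ = 1) : ∃ h : GL (Fin n) F, psl (semi g σ) = gam h * psl (semi 1 σ) * (gam h)⁻¹ := by
  have hfin : Finite (RingAut F) := Finite.of_injective (fun σ : RingAut F => (σ : F → F)) DFunLike.coe_injective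
  rw [psl_semi_pow] at h
  obtain ⟨_, c, hc, hc'⟩ := psl_semi_eq_one hn h
  rw [nmG_coe] at hc'
  have h0n : 0 < n := by omega
  have hσc : σ c = c := by
    have h1 := CfsgLib.Descent.nm_succ' σ g.1 (orderOf σ)
    have h2 : CfsgLib.Descent.nm σ g.1 (orderOf σ + 1) = g.1 * (CfsgLib.Descent.nm σ g.1 (orderOf σ)).map σ := rfl
    rw [h2, hc', pow_orderOf_eq_one] at h1
    have h3 : (c • (1 : Matrix (Fin n) (Fin n) F)).map σ = σ c • 1 := by
      ext i j
      rw [Matrix.map_apply, Matrix.smul_apply, Matrix.smul_apply, smul_eq_mul, smul_eq_mul, map_mul]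
      congr 1
      rw [one_apply]
      split_ifs <;> simp
    have h4 : g.1.map (1 : RingAut F) = g.1 := by ext i j; rfl
    rw [h3, h4, Matrix.mul_smul, mul_one, Matrix.smul_mul, one_mul] at h1
    have h5 : (σ c - c) • g.1 = 0 := by rw [sub_smul, h1, sub_self]
    have h6 := congrArg (fun M => M * (g⁻¹).1) h5
    have h7 : g.1 * (g⁻¹).1 = 1 := g.mul_inv
    simp only [Matrix.smul_mul, h7, Matrix.zero_mul] at h6
    have h8 := congrFun (congrFun h6 ⟨0, h0n⟩) ⟨0, h0n⟩
    rw [Matrix.smul_apply, one_apply_eq, smul_eq_mul, mul_one] at h8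
    exact sub_eq_zero.1 h8
  obtain ⟨μ, hμ⟩ := CfsgLib.Descent.exists_nrm σ (l := c⁻¹) (by rw [map_inv₀, hσc])
  obtain ⟨k, hk⟩ := CfsgLib.Descent.descent σ (isOfFinOrder_of_finite σ) (μ • g.1) (by
    rw [CfsgLib.Descent.nm_smul, hc', hμ, smul_smul, inv_mul_cancel₀ hc, one_smul])
  refine ⟨k, ?_⟩
  have h1 : gam k * psl (semi 1 σ) * (gam k)⁻¹ = psl (semi (k * gm σ k⁻¹) σ) := by
    rw [← map_inv, gam_apply, gam_apply, psl_semi_mul, psl_semi_mul, map_one, mul_one]
    rfl
  rw [h1]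
  refine (semi_congr σ (c := μ) ?_ h0n).symm
  show k.1 * (gm σ k⁻¹).1 = μ • g.1
  rw [← hk]
  have h2 : k.1.map σ * (gm σ k⁻¹).1 = 1 := by
    show (gm σ k).1 * (gm σ k⁻¹).1 = 1
    rw [← Units.val_mul, ← map_mul, mul_inv_cancel, map_one, Units.val_one]
  rw [mul_assoc, h2, mul_one]

/-- involutions in the coset of a graph-field automorphism are conjugate -/
theorem graph_conj [Finite F] (hn : 2 ≤ n) (σ : RingAut F) (hσ : orderOf σ = 2) (g : GL (Fin n) F)
    (h : (psl (semi g σ) * psl invTr) ^ 2 = 1) :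
    ∃ h : GL (Fin n) F, psl (semi g σ) * psl invTr = gam h * (psl (semi 1 σ) * psl invTr) * (gam h)⁻¹ := by
  have h0n : 0 < n := by omega
  have hσσ : ∀ x, σ (σ x) = x := by
    intro x
    have := pow_orderOf_eq_one σ
    rw [hσ] at this
    exact DFunLike.congr_fun this x
  have h1 : (psl (semi g σ) * psl invTr) ^ 2 = psl (semi (g * gm σ (git g)) (RingEquiv.trans σ σ)) := by
    rw [pow_two, mul_assoc, ← mul_assoc (psl invTr), psl_invTr_mul_semi, mul_assoc, psl_invTr_sq, mul_one, psl_semi_mul]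
  rw [h1] at h
  obtain ⟨_, l, hl, hl'⟩ := psl_semi_eq_one hn h
  have hgs : g.1 = l • (g.1.map σ).transpose := by
    have h2 : (gm σ (git g)).1 * (g.1.map σ).transpose = 1 := by
      show ((g⁻¹).1.transpose).map σ * (g.1.map σ).transpose = 1
      have e1 : ((g⁻¹).1.transpose).map σ = (((g⁻¹).1).map σ).transpose := by ext i j; rfl
      have e2 : ∀ A B : Matrix (Fin n) (Fin n) F, (A * B).map σ = A.map σ * B.map σ := fun A B => Matrix.map_mul (f := (σ : F →+* F))
      have e3 : g.1 * (g⁻¹).1 = 1 := g.mul_inv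
      rw [e1, ← transpose_mul, ← e2, e3, Matrix.map_one _ (map_zero σ) (map_one σ), transpose_one]
    calc g.1 = g.1 * ((gm σ (git g)).1 * (g.1.map σ).transpose) := by rw [h2, mul_one]
      _ = (g * gm σ (git g)).1 * (g.1.map σ).transpose := by rw [Units.val_mul, mul_assoc]
      _ = _ := by rw [hl', Matrix.smul_mul, one_mul]
  have hgs2 : (g.1.map σ).transpose = σ l • g.1 := by
    have h3 : ((l • (g.1.map σ).transpose).map σ).transpose = σ l • g.1 := by
      ext i j
      simp [hσσ]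
    rw [← h3, ← hgs]
  have hl1 : l * σ l = 1 := by
    have h3 := hgs
    rw [hgs2, smul_smul] at h3
    have h5 : (l * σ l - 1) • g.1 = 0 := by rw [sub_smul, one_smul, ← h3, sub_self]
    have h6 := congrArg (fun M => M * (g⁻¹).1) h5
    have h7 : g.1 * (g⁻¹).1 = 1 := g.mul_inv
    simp only [Matrix.smul_mul, h7, Matrix.zero_mul] at h6
    have h8 := congrFun (congrFun h6 ⟨0, h0n⟩) ⟨0, h0n⟩
    rw [Matrix.smul_apply, one_apply_eq, smul_eq_mul, mul_one] at h8
    exact sub_eq_zero.1 h8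
  obtain ⟨c, hc0, hc⟩ : ∃ c : F, c ≠ 0 ∧ σ c = l * c := by
    have hfin : Finite (RingAut F) := Finite.of_injective (fun σ : RingAut F => (σ : F → F)) DFunLike.coe_injective
    obtain ⟨k, hk⟩ := CfsgLib.Descent.descent (n := 1) σ (isOfFinOrder_of_finite σ) (Matrix.of fun _ _ => l) (by
      rw [hσ]
      show (Matrix.of fun _ _ => l) * ((Matrix.of fun _ _ => l) * (1 : Matrix (Fin 1) (Fin 1) F).map σ).map σ = 1
      ext i j
      have hi : i = 0 := Subsingleton.elim _ _
      have hj : j = 0 := Subsingleton.elim _ _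
      subst hi; subst hj
      simp [mul_apply, hl1])
    have hk0 : k.1 0 0 ≠ 0 := by
      intro h0
      have h2 : k.1 * (k⁻¹).1 = 1 := k.mul_inv
      have h3 := congrFun (congrFun h2 0) 0
      rw [mul_apply, Fin.sum_univ_one, h0, zero_mul, one_apply_eq] at h3
      exact zero_ne_one h3
    have hk' := congrFun (congrFun hk 0) 0
    rw [mul_apply, Fin.sum_univ_one, Matrix.map_apply, Matrix.of_apply] at hk'
    refine ⟨(k.1 0 0)⁻¹, inv_ne_zero hk0, ?_⟩
    have hσk0 : σ (k.1 0 0) ≠ 0 := (map_ne_zero σ).2 hk0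
    rw [map_inv₀]
    conv_rhs => rw [← hk']
    rw [_root_.mul_inv_rev, mul_comm l, mul_assoc, inv_mul_cancel₀ hl, mul_one]
  obtain ⟨k, hk⟩ := CfsgLib.HermEq.exists_eq hσ (c • g.1) (by
    rw [Matrix.isUnit_iff_isUnit_det, det_smul]
    exact ((IsUnit.mk0 c hc0).pow _).mul ((Matrix.isUnit_iff_isUnit_det _).1 g.isUnit)) (by
    have : ((c • g.1).map σ).transpose = σ c • (g.1.map σ).transpose := by
      ext i j; simp
    rw [this, hc, hgs2, smul_smul]
    congr 1
    have : l * c * σ l = c * (l * σ l) := by ring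
    rw [this, hl1, mul_one])
  refine ⟨k, ?_⟩
  have h2 : gam k * (psl (semi 1 σ) * psl invTr) * (gam k)⁻¹ = psl (semi (k * gm σ (git k⁻¹)) σ) * psl invTr := by
    rw [← map_inv, gam_apply, gam_apply, mul_assoc, mul_assoc, psl_invTr_mul_semi, ← mul_assoc, ← mul_assoc, psl_semi_mul,
      psl_semi_mul, map_one, mul_one]
    rfl
  rw [h2]
  congr 1
  refine (semi_congr σ (c := c) ?_ h0n).symm
  show k.1 * (gm σ (git k⁻¹)).1 = c • g.1
  rw [hk]
  congr 1

/-- inner-diagonal automorphisms form a normal subgroup -/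
theorem gam_conj [Finite F] (hn : 2 ≤ n) (α : MulAut (Matrix.ProjectiveSpecialLinearGroup (Fin n) F)) (g : GL (Fin n) F) :
    ∃ g' : GL (Fin n) F, α * gam g * α⁻¹ = gam g' := by
  have key : ∀ (h : GL (Fin n) F) (τ : F ≃+* F) (g : GL (Fin n) F),
      psl (semi h τ) * gam g = gam (h * gm τ g * h⁻¹) * psl (semi h τ) := by
    intro h τ g
    rw [gam_apply, gam_apply, psl_semi_mul, psl_semi_mul, gm_one]
    congr 2
    group
  rcases main' hn α with ⟨h, τ, rfl⟩ | ⟨_, h, τ, rfl⟩
  · exact ⟨_, by rw [key, mul_assoc, mul_inv_cancel, mul_one]⟩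
  · refine ⟨h * gm τ (git g) * h⁻¹, ?_⟩
    have : psl invTr * gam g = gam (git g) * psl invTr := psl_invTr_mul_semi g _
    rw [mul_assoc (psl (semi h τ)), this, ← mul_assoc, key, mul_assoc (gam _), mul_assoc, mul_inv_cancel, mul_one]

end CfsgLib.AutPSL
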