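import Cfsg.Agent.Lib.AutPSL10

/-!
# Automorphisms of `PSL_n(F)`, part 11: splitting of classes, fixed fields.
-/

set_option autoImplicit false

namespace CfsgLib.AutPSL

open Matrix

/-- index of the image of a class -/
theorem split_eq {X G A : Type*} [Group X] [Group G] [Group A] (γ : G →* X) (D : G →* A) (hD : Function.Surjective D)
    (K : Subgroup X) [K.Normal] (hK : K ≤ γ.range) (x : X)
    (h : ∀ g, D g = 1 ↔ ∃ k ∈ K, ∃ c ∈ γ.range, c * x = x * c ∧ γ g = k * c) :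
    Cfsg.splitClassCount γ.range K x = Nat.card A := by
  have hex : ∀ y : {y : X // Cfsg.IsConjUnder γ.range x y}, ∃ g : G, y.1 = γ g * x * (γ g)⁻¹ := by
    rintro ⟨y, _, ⟨g, rfl⟩, hy⟩
    exact ⟨g, hy⟩
  choose e he using hex
  have key : ∀ g g' : G, D g = D g' ↔ ∃ k ∈ K, γ g' * x * (γ g')⁻¹ = k * (γ g * x * (γ g)⁻¹) * k⁻¹ := by
    intro g g'
    constructor
    · intro hgg
      have h1 : D (g⁻¹ * g') = 1 := by rw [map_mul, map_inv, hgg, inv_mul_cancel]
      obtain ⟨k, hk, c, _, hcx, hkc⟩ := (h _).1 h1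
      refine ⟨γ g * k * (γ g)⁻¹, Subgroup.Normal.conj_mem inferInstance k hk _, ?_⟩
      have h2 : γ g' = γ g * (k * c) := by rw [← hkc, ← map_mul, mul_inv_cancel_left]
      have h3 : c * x * c⁻¹ = x := by rw [hcx, mul_assoc, mul_inv_cancel, mul_one]
      rw [h2]
      calc γ g * (k * c) * x * (γ g * (k * c))⁻¹ = γ g * k * (c * x * c⁻¹) * k⁻¹ * (γ g)⁻¹ := by group
        _ = γ g * k * x * k⁻¹ * (γ g)⁻¹ := by rw [h3]
        _ = _ := by group
    · rintro ⟨k, hk, hkk⟩
      have h1 : D (g⁻¹ * g') = 1 := by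
        rw [h]
        obtain ⟨kk, hkk'⟩ := hK hk
        refine ⟨(γ g)⁻¹ * k * (γ g), ?_, (γ g)⁻¹ * k⁻¹ * γ g', ⟨g⁻¹ * kk⁻¹ * g', by simp [hkk']⟩, ?_, ?_⟩
        · have := Subgroup.Normal.conj_mem (inferInstance : K.Normal) k hk (γ g)⁻¹
          rwa [inv_inv] at this
        · have h2 : γ g' * x = k * γ g * x * (γ g)⁻¹ * k⁻¹ * γ g' := by
            calc γ g' * x = (γ g' * x * (γ g')⁻¹) * γ g' := by group
              _ = k * (γ g * x * (γ g)⁻¹) * k⁻¹ * γ g' := by rw [hkk]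
              _ = _ := by group
          calc (γ g)⁻¹ * k⁻¹ * γ g' * x = (γ g)⁻¹ * k⁻¹ * (γ g' * x) := by group
            _ = (γ g)⁻¹ * k⁻¹ * (k * γ g * x * (γ g)⁻¹ * k⁻¹ * γ g') := by rw [h2]
            _ = _ := by group
        · rw [map_mul, map_inv]; group
      rw [map_mul, map_inv, inv_mul_eq_one] at h1
      exact h1
  have hf : ∀ y z : {y : X // Cfsg.IsConjUnder γ.range x y}, D (e y) = D (e z) ↔ Cfsg.IsConjUnder K y.1 z.1 := by
    intro y z
    rw [key, Cfsg.IsConjUnder, he y, he z]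
  let f : (Quot fun y z : {y : X // Cfsg.IsConjUnder γ.range x y} => Cfsg.IsConjUnder K y.1 z.1) → A :=
    Quot.lift (fun y => D (e y)) (fun y z hyz => (hf y z).2 hyz)
  have hbij : Function.Bijective f := by
    constructor
    · intro y z
      induction y using Quot.ind with | _ y => ?_
      induction z using Quot.ind with | _ z => ?_
      intro hyz
      exact Quot.sound ((hf y z).1 hyz)
    · intro a
      obtain ⟨g, rfl⟩ := hD a
      refine ⟨Quot.mk _ ⟨γ g * x * (γ g)⁻¹, γ g, ⟨g, rfl⟩, rfl⟩, ?_⟩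
      show D (e _) = D g
      rw [key]
      refine ⟨1, one_mem _, ?_⟩
      rw [one_mul, inv_one, mul_one, ← he]
  exact Nat.card_congr (Equiv.ofBijective f hbij)

theorem split_conj {X : Type*} [Group X] (H K : Subgroup X) (α : X) (hH : ∀ h, h ∈ H ↔ α * h * α⁻¹ ∈ H)
    (hK : ∀ h, h ∈ K ↔ α * h * α⁻¹ ∈ K) (x : X) :
    Cfsg.splitClassCount H K (α * x * α⁻¹) = Cfsg.splitClassCount H K x := by
  have hconj : ∀ (L : Subgroup X) (_ : ∀ h, h ∈ L ↔ α * h * α⁻¹ ∈ L) (y z : X),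
      Cfsg.IsConjUnder L (α * y * α⁻¹) (α * z * α⁻¹) ↔ Cfsg.IsConjUnder L y z := by
    intro L hL y z
    constructor
    · rintro ⟨l, hl, hlz⟩
      refine ⟨α⁻¹ * l * α, ?_, ?_⟩
      · rw [hL]
        have : α * (α⁻¹ * l * α) * α⁻¹ = l := by group
        rwa [this]
      · have : z = α⁻¹ * (α * z * α⁻¹) * α := by group
        rw [this, hlz]; group
    · rintro ⟨l, hl, rfl⟩
      exact ⟨α * l * α⁻¹, (hL l).1 hl, by group⟩
  unfold Cfsg.splitClassCount
  refine (Nat.card_congr (Quot.congr (Equiv.subtypeEquiv (MulAut.conj α).toEquiv ?_) ?_)).symm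
  · intro y
    exact (hconj H hH x y).symm
  · rintro ⟨y, hy⟩ ⟨z, hz⟩
    exact (hconj K hK y z).symm

theorem centralizer_conj {X : Type*} [Group X] (H : Subgroup X) (α x : X) (hH : ∀ h, h ∈ H ↔ α * h * α⁻¹ ∈ H) :
    Nonempty (↥(H ⊓ Subgroup.centralizer {x}) ≃* ↥(H ⊓ Subgroup.centralizer {α * x * α⁻¹})) := by
  refine ⟨(Subgroup.equivMapOfInjective (H ⊓ Subgroup.centralizer {x}) (MulAut.conj α).toMonoidHom (MulAut.conj α).injective).trans
    (MulEquiv.subgroupCongr ?_)⟩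
  ext y
  rw [Subgroup.mem_map]
  constructor
  · rintro ⟨z, ⟨hz1, hz2⟩, rfl⟩
    refine ⟨(hH z).1 hz1, ?_⟩
    show α * z * α⁻¹ ∈ Subgroup.centralizer {α * x * α⁻¹}
    rw [Subgroup.mem_centralizer_iff]
    rintro _ rfl
    have h1 := Subgroup.mem_centralizer_iff.1 hz2 x rfl
    show α * x * α⁻¹ * (α * z * α⁻¹) = (α * z * α⁻¹) * (α * x * α⁻¹)
    calc α * x * α⁻¹ * (α * z * α⁻¹) = α * (x * z) * α⁻¹ := by group
      _ = α * (z * x) * α⁻¹ := by rw [h1]
      _ = _ := by group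
  · rintro ⟨hy1, hy2⟩
    refine ⟨α⁻¹ * y * α, ⟨?_, ?_⟩, ?_⟩
    · show α⁻¹ * y * α ∈ H
      rw [hH]
      have : α * (α⁻¹ * y * α) * α⁻¹ = y := by group
      rwa [this]
    · show α⁻¹ * y * α ∈ Subgroup.centralizer {x}
      rw [Subgroup.mem_centralizer_iff]
      intro z hz
      rw [Set.mem_singleton_iff.1 hz]
      have h1 := Subgroup.mem_centralizer_iff.1 hy2 (α * x * α⁻¹) rfl
      calc x * (α⁻¹ * y * α) = α⁻¹ * (α * x * α⁻¹ * y) * α := by group
        _ = α⁻¹ * (y * (α * x * α⁻¹)) * α := by rw [h1]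
        _ = _ := by group
    · show α * (α⁻¹ * y * α) * α⁻¹ = y
      group

section cyclic

variable {C : Type*} [CommGroup C] [IsCyclic C] [Finite C]

theorem eq_range_pow (S : Subgroup C) : S = (powMonoidHom (Nat.card C / Nat.card S) : C →* C).range := by
  have hd : Nat.card S ∣ Nat.card C := Subgroup.card_subgroup_dvd_card S
  have hCpos : 0 < Nat.card C := Nat.card_pos
  have hSpos : 0 < Nat.card S := Nat.card_pos
  have hle : S ≤ (powMonoidHom (Nat.card C / Nat.card S) : C →* C).range := by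
    intro x hx
    obtain ⟨g, hg⟩ := IsCyclic.exists_monoid_generator (α := C)
    obtain ⟨k, hk⟩ := Submonoid.mem_powers_iff _ _ |>.1 (hg x)
    have h1 : x ^ Nat.card S = 1 := by
      have := pow_card_eq_one' (x := (⟨x, hx⟩ : S))
      exact Subtype.ext_iff.1 this
    have h2 : orderOf g = Nat.card C := by
      apply orderOf_eq_card_of_forall_mem_zpowers
      intro y
      obtain ⟨j, hj⟩ := Submonoid.mem_powers_iff _ _ |>.1 (hg y)
      exact ⟨j, by simpa using hj⟩
    rw [← hk, ← pow_mul] at h1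
    have h3 := orderOf_dvd_of_pow_eq_one h1
    rw [h2] at h3
    have h4 : Nat.card C / Nat.card S ∣ k := by
      obtain ⟨m, hm⟩ := hd
      rw [hm, Nat.mul_div_cancel_left _ hSpos]
      rw [hm, mul_comm (Nat.card S)] at h3
      exact Nat.dvd_of_mul_dvd_mul_right hSpos h3
    obtain ⟨j, hj⟩ := h4
    refine ⟨g ^ j, ?_⟩
    rw [powMonoidHom_apply, ← pow_mul, ← hk, hj, mul_comm]
  apply Subgroup.eq_of_le_of_card_ge hle
  rw [IsCyclic.card_powMonoidHom_range]
  have h1 : Nat.card C / Nat.card S ∣ Nat.card C := Nat.div_dvd_of_dvd hd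
  rw [Nat.gcd_eq_right h1, Nat.div_div_self hd hCpos.ne']

theorem sup_range_pow (a b : ℕ) : (powMonoidHom a : C →* C).range ⊔ (powMonoidHom b : C →* C).range =
    (powMonoidHom (Nat.gcd a b) : C →* C).range := by
  apply le_antisymm
  · apply sup_le
    · rintro _ ⟨x, rfl⟩
      obtain ⟨j, hj⟩ := Nat.gcd_dvd_left a b
      refine ⟨x ^ j, ?_⟩
      rw [powMonoidHom_apply, powMonoidHom_apply, ← pow_mul, mul_comm, ← hj]
    · rintro _ ⟨x, rfl⟩
      obtain ⟨j, hj⟩ := Nat.gcd_dvd_right a b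
      refine ⟨x ^ j, ?_⟩
      rw [powMonoidHom_apply, powMonoidHom_apply, ← pow_mul, mul_comm, ← hj]
  · rintro _ ⟨x, rfl⟩
    rw [powMonoidHom_apply, ← zpow_natCast, Nat.gcd_eq_gcd_ab, _root_.zpow_add, _root_.zpow_mul, _root_.zpow_mul, zpow_natCast, zpow_natCast]
    apply mul_mem
    · have h1 : x ^ a ∈ (powMonoidHom a : C →* C).range := ⟨x, rfl⟩
      exact Subgroup.zpow_mem _ (Subgroup.mem_sup_left h1) _
    · have h1 : x ^ b ∈ (powMonoidHom b : C →* C).range := ⟨x, rfl⟩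
      exact Subgroup.zpow_mem _ (Subgroup.mem_sup_right h1) _

theorem index_sup (a : ℕ) (S : Subgroup C) :
    ((powMonoidHom a : C →* C).range ⊔ S).index = Nat.gcd a (Nat.card C / Nat.card S) := by
  conv_lhs => rw [eq_range_pow S]
  rw [sup_range_pow, IsCyclic.index_powMonoidHom_range]
  apply Nat.gcd_eq_right
  exact (Nat.gcd_dvd_right _ _).trans (Nat.div_dvd_of_dvd (Subgroup.card_subgroup_dvd_card S))

end cyclic

section fixed

variable {F : Type*} [Field F] [Fintype F]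

/-- the fixed field of an automorphism of prescribed order -/
theorem exists_emb (σ : RingAut F) {p f r : ℕ} [Fact p.Prime] (hF : Fintype.card F = p ^ f) (hr : orderOf σ = r)
    (F₀ : Type*) [Field F₀] [Fintype F₀] (hF₀ : Fintype.card F₀ = p ^ (f / r)) :
    r ∣ f ∧ ∃ j : F₀ →+* F, ∀ x, σ x = x ↔ ∃ y, j y = x := by
  classical
  have hfin : Finite (RingAut F) := Finite.of_injective (fun σ : RingAut F => (σ : F → F)) DFunLike.coe_injective
  have hof : IsOfFinOrder σ := isOfFinOrder_of_finite σ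
  have hrf : r ∣ f := by
    rw [← hr, ← ringAut_card hF]
    exact orderOf_dvd_natCard σ
  refine ⟨hrf, ?_⟩
  let G := Subgroup.zpowers σ
  have hff : FaithfulSMul G F := by
    refine ⟨fun {g h} hgh => ?_⟩
    apply Subtype.ext
    apply RingEquiv.ext
    intro x
    exact hgh x
  let K := FixedPoints.subfield G F
  have : Fintype G := Fintype.ofFinite G
  have : Fintype K := Fintype.ofFinite K
  have h1 : Module.finrank K F = r := by
    rw [FixedPoints.finrank_eq_card G F, ← Nat.card_eq_fintype_card, Nat.card_zpowers, hr]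
  have h2 : Fintype.card F = Fintype.card K ^ r := by
    rw [← h1]; exact Module.card_eq_pow_finrank
  have hr0 : 0 < r := by rw [← hr]; exact orderOf_pos_iff.2 hof
  have h3 : Fintype.card K = p ^ (f / r) := by
    rw [hF] at h2
    obtain ⟨k, hk⟩ := hrf
    rw [hk, Nat.mul_div_cancel_left _ hr0]
    rw [hk, mul_comm, pow_mul] at h2
    exact (Nat.pow_left_injective hr0.ne' h2).symm
  let e : F₀ ≃+* K := FiniteField.ringEquivOfCardEq (by rw [hF₀, h3])
  refine ⟨K.subtype.comp e, ?_⟩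
  intro x
  constructor
  · intro hx
    have hxK : x ∈ K := by
      rintro ⟨g, hg⟩
      obtain ⟨i, _, rfl⟩ := hof.mem_zpowers_iff_mem_range_orderOf.1 hg |> Finset.mem_image.1
      exact CfsgLib.Descent.pow_fixed σ hx i
    exact ⟨e.symm ⟨x, hxK⟩, by simp⟩
  · rintro ⟨y, rfl⟩
    exact (e y).2 ⟨σ, Subgroup.mem_zpowers σ⟩

end fixed

end CfsgLib.AutPSL
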