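import Cfsg.Agent.Lib.AutPSL11

/-!
# Automorphisms of `PSL_n(F)`, part 12: centralizers of field automorphisms.
-/

set_option autoImplicit false

namespace CfsgLib.AutPSL

open Matrix

universe u

variable {F : Type u} [Field F] {n : ℕ}

/-- Hilbert 90 -/
theorem hilbert90 [Finite F] (σ : RingAut F) {l : F} (h : ∏ i ∈ Finset.range (orderOf σ), (σ ^ i) l = 1) :
    ∃ c : F, c ≠ 0 ∧ l * σ c = c := by
  have hfin : Finite (RingAut F) := Finite.of_injective (fun σ : RingAut F => (σ : F → F)) DFunLike.coe_injective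
  have h1 : ∀ i, CfsgLib.Descent.nm σ (1 : Matrix (Fin 1) (Fin 1) F) i = 1 := by
    intro i
    induction i with
    | zero => rfl
    | succ i ih =>
      show 1 * (CfsgLib.Descent.nm σ (1 : Matrix (Fin 1) (Fin 1) F) i).map σ = 1
      rw [ih, one_mul, Matrix.map_one _ (map_zero σ) (map_one σ)]
  obtain ⟨k, hk⟩ := CfsgLib.Descent.descent (n := 1) σ (isOfFinOrder_of_finite σ) (l • 1) (by
    rw [CfsgLib.Descent.nm_smul, h1, h, one_smul])
  have hk0 : k.1 0 0 ≠ 0 := by
    intro h0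
    have h2 : k.1 * (k⁻¹).1 = 1 := k.mul_inv
    have h3 := congrFun (congrFun h2 0) 0
    rw [mul_apply, Fin.sum_univ_one, h0, zero_mul, one_apply_eq] at h3
    exact zero_ne_one h3
  have hk' := congrFun (congrFun hk 0) 0
  rw [mul_apply, Fin.sum_univ_one, Matrix.map_apply, Matrix.smul_apply, one_apply_eq, smul_eq_mul, mul_one] at hk'
  exact ⟨k.1 0 0, hk0, hk'⟩

theorem gam_comm_iff (hn : 2 ≤ n) (σ : RingAut F) (g : GL (Fin n) F) :
    gam g * psl (semi 1 σ) = psl (semi 1 σ) * gam g ↔ ∃ l : F, l ≠ 0 ∧ (g.1).map σ = l • g.1 := by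
  have h1 : psl (semi 1 σ) * gam g = gam (gm σ g) * psl (semi 1 σ) := by
    rw [gam_apply, gam_apply, psl_semi_mul, psl_semi_mul, one_mul, map_one, mul_one]
    rfl
  rw [h1, mul_left_inj]
  constructor
  · intro h
    rw [gam_apply, gam_apply] at h
    obtain ⟨_, c, hc, hc'⟩ := semi_inj hn h.symm
    exact ⟨c, hc, hc'⟩
  · rintro ⟨l, _, hl⟩
    exact (semi_congr (RingEquiv.refl F) (g := gm σ g) (h := g) (c := l) hl (by omega)).symm

theorem fixed_matrix {F₀ : Type*} [Field F₀] (σ : RingAut F) (j : F₀ →+* F) (hj : ∀ x, σ x = x ↔ ∃ y, j y = x)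
    (g : GL (Fin n) F) (hg : (g.1).map σ = g.1) : ∃ h : GL (Fin n) F₀, Matrix.GeneralLinearGroup.map j h = g := by
  have h1 : ∀ a b, ∃ y, j y = g.1 a b := fun a b => (hj _).1 (congrFun (congrFun hg a) b)
  choose h hh using h1
  have h2 : (Matrix.of h).map j = g.1 := by
    ext a b
    exact hh a b
  have h3 : j (Matrix.of h).det = g.1.det := by
    rw [RingHom.map_det, ← h2]; rfl
  have h4 : (Matrix.of h).det ≠ 0 := by
    intro h0
    rw [h0, map_zero] at h3
    exact ((Matrix.isUnit_iff_isUnit_det _).1 g.isUnit).ne_zero h3.symm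
  refine ⟨Matrix.GeneralLinearGroup.mkOfDetNeZero _ h4, ?_⟩
  apply Units.ext
  exact h2

theorem gam_comm_iff' [Finite F] (hn : 2 ≤ n) {F₀ : Type*} [Field F₀] (σ : RingAut F) (j : F₀ →+* F)
    (hj : ∀ x, σ x = x ↔ ∃ y, j y = x) (g : GL (Fin n) F) :
    gam g * psl (semi 1 σ) = psl (semi 1 σ) * gam g ↔
      ∃ (c : F) (h : GL (Fin n) F₀), c ≠ 0 ∧ g.1 = c • (Matrix.GeneralLinearGroup.map j h).1 := by
  rw [gam_comm_iff hn]
  constructor
  · rintro ⟨l, hl, hg⟩
    have h1 : ∀ i, g.1.map (σ ^ i : RingAut F) = (∏ k ∈ Finset.range i, (σ ^ k) l) • g.1 := by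
      intro i
      induction i with
      | zero => rw [pow_zero, Finset.prod_range_zero, one_smul]; ext a b; rfl
      | succ i ih =>
        have e1 : g.1.map (σ ^ (i + 1) : RingAut F) = (g.1.map σ).map (σ ^ i : RingAut F) := by
          rw [pow_succ]; ext a b; rfl
        rw [e1, hg, Finset.prod_range_succ]
        have e2 : (l • g.1).map (σ ^ i : RingAut F) = (σ ^ i) l • g.1.map (σ ^ i : RingAut F) := by
          ext a b; simp
        rw [e2, ih, smul_smul, mul_comm]
    have h2 := h1 (orderOf σ)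
    rw [pow_orderOf_eq_one] at h2
    have h3 : g.1.map (1 : RingAut F) = g.1 := by ext i j; rfl
    rw [h3] at h2
    have h4 : ∏ k ∈ Finset.range (orderOf σ), (σ ^ k) l = 1 := by
      have h5 : (∏ k ∈ Finset.range (orderOf σ), (σ ^ k) l - 1) • g.1 = 0 := by rw [sub_smul, one_smul, ← h2, sub_self]
      have h6 := congrArg (fun M => M * (g⁻¹).1) h5
      have h7 : g.1 * (g⁻¹).1 = 1 := g.mul_inv
      simp only [Matrix.smul_mul, h7, Matrix.zero_mul] at h6
      have h8 := congrFun (congrFun h6 ⟨0, by omega⟩) ⟨0, by omega⟩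
      rw [Matrix.smul_apply, one_apply_eq, smul_eq_mul, mul_one] at h8
      exact sub_eq_zero.1 h8
    obtain ⟨c, hc, hc'⟩ := hilbert90 σ h4
    let g' : GL (Fin n) F := Matrix.GeneralLinearGroup.mkOfDetNeZero (c • g.1) (by
      rw [det_smul]
      exact mul_ne_zero (pow_ne_zero _ hc) ((Matrix.isUnit_iff_isUnit_det _).1 g.isUnit).ne_zero)
    have hg'1 : g'.1 = c • g.1 := rfl
    obtain ⟨h, hh⟩ := fixed_matrix σ j hj g' (by
      rw [hg'1]
      have e2 : (c • g.1).map σ = σ c • g.1.map σ := by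
        ext a b; simp
      rw [e2, hg, smul_smul, mul_comm, hc'])
    refine ⟨c⁻¹, h, inv_ne_zero hc, ?_⟩
    rw [hh, hg'1, smul_smul, inv_mul_cancel₀ hc, one_smul]
  · rintro ⟨c, h, hc, hg⟩
    refine ⟨σ c * c⁻¹, mul_ne_zero ((map_ne_zero σ).2 hc) (inv_ne_zero hc), ?_⟩
    rw [hg]
    have e2 : (c • (Matrix.GeneralLinearGroup.map j h).1).map σ = σ c • (Matrix.GeneralLinearGroup.map j h).1 := by
      ext a b
      rw [Matrix.map_apply, Matrix.smul_apply, Matrix.smul_apply, smul_eq_mul, smul_eq_mul, map_mul]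
      congr 1
      exact (hj _).2 ⟨_, rfl⟩
    rw [e2, smul_smul, mul_assoc, inv_mul_cancel₀ hc, mul_one]

/-- centralizers of standard field automorphisms -/
theorem field_centralizer [Finite F] (hn : 2 ≤ n) {F₀ : Type*} [Field F₀] (σ : RingAut F) (j : F₀ →+* F)
    (hj : ∀ x, σ x = x ↔ ∃ y, j y = x) :
    Nonempty (↥((gam : GL (Fin n) F →* _).range ⊓ Subgroup.centralizer {psl (semi 1 σ)}) ≃*
      GL (Fin n) F₀ ⧸ Subgroup.center (GL (Fin n) F₀)) := by
  let ρ : GL (Fin n) F₀ →* MulAut (Matrix.ProjectiveSpecialLinearGroup (Fin n) F) := gam.comp (Matrix.GeneralLinearGroup.map j)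
  have hrange : ρ.range = (gam : GL (Fin n) F →* _).range ⊓ Subgroup.centralizer {psl (semi 1 σ)} := by
    ext x
    constructor
    · rintro ⟨h, rfl⟩
      refine ⟨⟨_, rfl⟩, ?_⟩
      show ρ h ∈ Subgroup.centralizer {psl (semi 1 σ)}
      rw [Subgroup.mem_centralizer_iff]
      rintro _ rfl
      exact ((gam_comm_iff' hn σ j hj _).2 ⟨1, h, one_ne_zero, by rw [one_smul]⟩).symm
    · rintro ⟨⟨g, rfl⟩, hg⟩
      have h1 := Subgroup.mem_centralizer_iff.1 hg _ rfl
      obtain ⟨c, h, _, hc⟩ := (gam_comm_iff' hn σ j hj g).1 h1.symm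
      exact ⟨h, (semi_congr (RingEquiv.refl F) hc (by omega)).symm⟩
  have hker : ρ.ker = Subgroup.center (GL (Fin n) F₀) := by
    ext h
    rw [MonoidHom.mem_ker, mem_center_GL]
    constructor
    · intro hh
      obtain ⟨_, c, _, hc⟩ := psl_semi_eq_one hn (σ := 1) hh
      refine ⟨h.1 ⟨0, by omega⟩ ⟨0, by omega⟩, ?_⟩
      have h1 : ∀ a b, j (h.1 a b) = c * (1 : Matrix (Fin n) (Fin n) F) a b := fun a b => congrFun (congrFun hc a) b
      ext a b
      apply j.injective
      rw [h1, Matrix.smul_apply, smul_eq_mul, map_mul, h1, one_apply_eq, mul_one, one_apply, one_apply]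
      split_ifs <;> simp
    · rintro ⟨c, hc⟩
      have h1 : (Matrix.GeneralLinearGroup.map j h).1 = j c • (1 : GL (Fin n) F).1 := by
        show h.1.map j = _
        rw [hc]
        ext a b
        rw [Matrix.map_apply, Matrix.smul_apply, Matrix.smul_apply, smul_eq_mul, smul_eq_mul, map_mul, Units.val_one]
        congr 1
        rw [one_apply, one_apply]
        split_ifs <;> simp
      have h2 := semi_congr (RingEquiv.refl F) h1 (by omega)
      show psl (semi (Matrix.GeneralLinearGroup.map j h) (RingEquiv.refl F)) = 1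
      rw [h2]
      exact psl_semi_one
  exact ⟨(MulEquiv.subgroupCongr hrange).symm.trans ((QuotientGroup.quotientKerEquivRange ρ).symm.trans
    (QuotientGroup.quotientMulEquivOfEq hker))⟩

theorem exists_GL_det {K : Type*} [Field K] (hn : 2 ≤ n) (c : Kˣ) : ∃ g : GL (Fin n) K, Matrix.GeneralLinearGroup.det g = c := by
  have h0n : 0 < n := by omega
  let A : Matrix (Fin n) (Fin n) K := diagonal (Function.update (fun _ => (1 : K)) ⟨0, h0n⟩ (c : K))
  have hA : A.det = c := by
    rw [det_diagonal, Finset.prod_update_of_mem (Finset.mem_univ _)]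
    simp
  exact ⟨Matrix.GeneralLinearGroup.mkOfDetNeZero A (by rw [hA]; exact c.ne_zero), Units.ext hA⟩

/-- splitting of the class of a field automorphism -/
theorem field_split [Fintype F] (hn : 2 ≤ n) {F₀ : Type*} [Field F₀] [Fintype F₀] (σ : RingAut F) (j : F₀ →+* F)
    (hj : ∀ x, σ x = x ↔ ∃ y, j y = x) :
    Cfsg.splitClassCount (gam : GL (Fin n) F →* _).range (Cfsg.Inn (Matrix.ProjectiveSpecialLinearGroup (Fin n) F)) (psl (semi 1 σ)) =
      Nat.gcd n ((Fintype.card F - 1) / (Fintype.card F₀ - 1)) := by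
  let S : Subgroup Fˣ := (Units.map (j : F₀ →* F)).range
  let D : GL (Fin n) F →* Fˣ ⧸ ((powMonoidHom n : Fˣ →* Fˣ).range ⊔ S) :=
    (QuotientGroup.mk' _).comp Matrix.GeneralLinearGroup.det
  have hDiff : ∀ g : GL (Fin n) F, D g = 1 ↔ Matrix.GeneralLinearGroup.det g ∈ (powMonoidHom n : Fˣ →* Fˣ).range ⊔ S := by
    intro g
    exact QuotientGroup.eq_one_iff _
  have hD : Function.Surjective D := by
    intro x
    obtain ⟨c, rfl⟩ := QuotientGroup.mk_surjective x
    obtain ⟨g, hg⟩ := exists_GL_det hn c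
    exact ⟨g, by show QuotientGroup.mk _ = _; rw [hg]⟩
  have hdetmap : ∀ h : GL (Fin n) F₀, Matrix.GeneralLinearGroup.det (Matrix.GeneralLinearGroup.map j h) =
      Units.map (j : F₀ →* F) (Matrix.GeneralLinearGroup.det h) := by
    intro h
    apply Units.ext
    exact (RingHom.map_det j h.1).symm
  have hcard : Nat.card S = Fintype.card F₀ - 1 := by
    have h1 : Nat.card S = Nat.card F₀ˣ :=
      (Nat.card_congr (MonoidHom.ofInjective (f := Units.map (j : F₀ →* F)) (Units.map_injective j.injective)).toEquiv).symm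
    rw [h1, Nat.card_units, Nat.card_eq_fintype_card]
  have hK : Cfsg.Inn (Matrix.ProjectiveSpecialLinearGroup (Fin n) F) ≤ (gam : GL (Fin n) F →* _).range := by
    rintro _ ⟨x, rfl⟩
    obtain ⟨s, rfl⟩ := QuotientGroup.mk_surjective x
    exact ⟨_, (conj_eq s).symm⟩
  rw [split_eq gam D hD _ hK]
  · have h1 := index_sup (C := Fˣ) n S
    rw [hcard, Nat.card_units, Nat.card_eq_fintype_card] at h1
    exact h1
  · intro g
    rw [hDiff]
    constructor
    · intro hg
      obtain ⟨a, ha, b, ⟨b0, rfl⟩, hab⟩ := Subgroup.mem_sup.1 hg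
      obtain ⟨h0, hh0⟩ := exists_GL_det hn b0
      set h := Matrix.GeneralLinearGroup.map j h0 with hh
      have hdet : Matrix.GeneralLinearGroup.det (g * h⁻¹) = a := by
        rw [map_mul, map_inv, hh, hdetmap, hh0, ← hab, mul_inv_cancel_right]
      refine ⟨gam (g * h⁻¹), (gam_mem_inn_iff hn _).2 (by rw [hdet]; exact ha), gam h, ⟨h, rfl⟩, ?_, ?_⟩
      · exact (gam_comm_iff' hn σ j hj _).2 ⟨1, h0, one_ne_zero, by rw [one_smul]⟩
      · rw [← map_mul, inv_mul_cancel_right]
    · rintro ⟨k, hk, _, ⟨h, rfl⟩, hc, hgk⟩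
      have h1 : k = gam (g * h⁻¹) := by rw [map_mul, map_inv, hgk, mul_inv_cancel_right]
      rw [h1, gam_mem_inn_iff hn] at hk
      obtain ⟨c, h0, hc0, hch⟩ := (gam_comm_iff' hn σ j hj h).1 hc
      have h2 : Matrix.GeneralLinearGroup.det h = (Units.mk0 c hc0) ^ n * Units.map (j : F₀ →* F) (Matrix.GeneralLinearGroup.det h0) := by
        rw [← hdetmap]
        apply Units.ext
        show h.1.det = c ^ n * (Matrix.GeneralLinearGroup.map j h0).1.det
        rw [hch, det_smul, Fintype.card_fin]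
      have h3 : Matrix.GeneralLinearGroup.det g = Matrix.GeneralLinearGroup.det (g * h⁻¹) * Matrix.GeneralLinearGroup.det h := by
        rw [← map_mul, inv_mul_cancel_right]
      rw [h3, h2]
      refine mul_mem (Subgroup.mem_sup_left hk) (mul_mem (Subgroup.mem_sup_left ?_) (Subgroup.mem_sup_right ?_))
      · exact ⟨Units.mk0 c hc0, rfl⟩
      · exact ⟨_, rfl⟩

end CfsgLib.AutPSL
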