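import Cfsg.Agent.Lib.AutPSL12
import Cfsg.Prelude.Def_LieClassical

/-!
# Automorphisms of `PSL_n(F)`, part 13: involutory graph-field automorphisms.
-/

set_option autoImplicit false

namespace CfsgLib.AutPSL

open Matrix

universe u

variable {F : Type u} [Field F] {n : ℕ}

theorem gf_inv_mul (σ : RingAut F) (g : GL (Fin n) F) : (gm σ (git g)).1 * (g.1.map σ).transpose = 1 := by
  show ((g⁻¹).1.transpose).map σ * (g.1.map σ).transpose = 1
  have e1 : ((g⁻¹).1.transpose).map σ = (((g⁻¹).1).map σ).transpose := by ext i j; rfl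
  have e2 : ∀ A B : Matrix (Fin n) (Fin n) F, (A * B).map σ = A.map σ * B.map σ := fun A B => Matrix.map_mul (f := (σ : F →+* F))
  have e3 : g.1 * (g⁻¹).1 = 1 := g.mul_inv
  rw [e1, ← transpose_mul, ← e2, e3, Matrix.map_one _ (map_zero σ) (map_one σ), transpose_one]

theorem gf_comm_iff (hn : 2 ≤ n) (σ : RingAut F) (g : GL (Fin n) F) :
    gam g * (psl (semi 1 σ) * psl invTr) = (psl (semi 1 σ) * psl invTr) * gam g ↔
      ∃ l : F, l ≠ 0 ∧ g.1 * (g.1.map σ).transpose = l • 1 := by
  have h1 : (psl (semi 1 σ) * psl invTr) * gam g = gam (gm σ (git g)) * (psl (semi 1 σ) * psl invTr) := by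
    rw [gam_apply, gam_apply, mul_assoc, psl_invTr_mul_semi, ← mul_assoc, ← mul_assoc, psl_semi_mul, psl_semi_mul, one_mul, map_one, mul_one]
    rfl
  rw [h1, mul_left_inj]
  have h2 := gf_inv_mul σ g
  have h2' : (g.1.map σ).transpose * (gm σ (git g)).1 = 1 := mul_eq_one_comm.1 h2
  constructor
  · intro h
    rw [gam_apply, gam_apply] at h
    obtain ⟨_, c, hc, hc'⟩ := semi_inj hn h
    refine ⟨c, hc, ?_⟩
    calc g.1 * (g.1.map σ).transpose = (c • (gm σ (git g)).1) * (g.1.map σ).transpose := by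
          congr 1
      _ = c • 1 := by rw [Matrix.smul_mul, h2]
  · rintro ⟨l, _, hl⟩
    refine semi_congr (RingEquiv.refl F) (c := l) ?_ (by omega)
    rw [← mul_one g.1, ← h2', ← mul_assoc, hl, Matrix.smul_mul, one_mul]

theorem gf_comm_iff' [Finite F] (hn : 2 ≤ n) (σ : RingAut F) (hσ : orderOf σ = 2) (g : GL (Fin n) F) :
    gam g * (psl (semi 1 σ) * psl invTr) = (psl (semi 1 σ) * psl invTr) * gam g ↔
      ∃ (c : F) (h : GL (Fin n) F), c ≠ 0 ∧ h.1 * (h.1.map σ).transpose = 1 ∧ g.1 = c • h.1 := by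
  have h0n : 0 < n := by omega
  have hσσ : ∀ x, σ (σ x) = x := by
    intro x
    have := pow_orderOf_eq_one σ
    rw [hσ] at this
    exact DFunLike.congr_fun this x
  rw [gf_comm_iff hn]
  constructor
  · rintro ⟨l, hl, hg⟩
    have h1 : σ l = l := by
      have h2 : ((g.1 * (g.1.map σ).transpose).map σ).transpose = g.1 * (g.1.map σ).transpose := by
        have e2 : ∀ A B : Matrix (Fin n) (Fin n) F, (A * B).map σ = A.map σ * B.map σ := fun A B => Matrix.map_mul (f := (σ : F →+* F))
        rw [e2, transpose_mul]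
        have e3 : (((g.1.map σ).transpose).map σ).transpose = g.1 := by
          ext i j; simp [hσσ]
        rw [e3]
      rw [hg] at h2
      have h3 := congrFun (congrFun h2 ⟨0, h0n⟩) ⟨0, h0n⟩
      simpa using h3
    obtain ⟨m, hm⟩ := CfsgLib.Descent.exists_nrm σ h1
    rw [hσ, Finset.prod_range_succ, Finset.prod_range_one, pow_one] at hm
    have hm' : m * σ m = l := hm
    have hm0 : m ≠ 0 := by rintro rfl; rw [zero_mul] at hm'; exact hl hm'.symm
    have hsm0 : σ m ≠ 0 := (map_ne_zero σ).2 hm0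
    let h : GL (Fin n) F := Matrix.GeneralLinearGroup.mkOfDetNeZero (m⁻¹ • g.1) (by
      rw [det_smul]
      exact mul_ne_zero (pow_ne_zero _ (inv_ne_zero hm0)) ((Matrix.isUnit_iff_isUnit_det _).1 g.isUnit).ne_zero)
    have hh : h.1 = m⁻¹ • g.1 := rfl
    refine ⟨m, h, hm0, ?_, ?_⟩
    · rw [hh]
      have e4 : ((m⁻¹ • g.1).map σ).transpose = (σ m)⁻¹ • (g.1.map σ).transpose := by
        ext i j; simp
      rw [e4, Matrix.smul_mul, Matrix.mul_smul, hg, smul_smul, smul_smul]
      have : m⁻¹ * ((σ m)⁻¹ * l) = 1 := by rw [← hm']; field_simp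
      rw [← mul_assoc] at this
      rw [this, one_smul]
    · rw [hh, smul_smul, mul_inv_cancel₀ hm0, one_smul]
  · rintro ⟨c, h, hc, hh, hg⟩
    refine ⟨c * σ c, mul_ne_zero hc ((map_ne_zero σ).2 hc), ?_⟩
    rw [hg]
    have e4 : ((c • h.1).map σ).transpose = (σ c) • (h.1.map σ).transpose := by
      ext i j; simp
    rw [e4, Matrix.smul_mul, Matrix.mul_smul, hh, smul_smul]

theorem mem_GU_iff {q : ℕ} (σ : RingAut F) (hq : ∀ x, σ x = x ^ q) (g : GL (Fin n) F) :
    g ∈ Cfsg.GU n F q ↔ g.1 * (g.1.map σ).transpose = 1 := by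
  have hform : ∀ u v : Fin n → F, Cfsg.hermForm n F q u v = u ⬝ᵥ (fun i => σ (v i)) := by
    intro u v
    unfold Cfsg.hermForm dotProduct
    exact Finset.sum_congr rfl fun i _ => by rw [← hq]
  have hmv : ∀ v : Fin n → F, (fun i => σ ((g.1 *ᵥ v) i)) = (g.1.map σ) *ᵥ (fun i => σ (v i)) := by
    intro v
    exact CfsgLib.Descent.map_mulVec σ g.1 v
  constructor
  · intro h
    have h1 : ∀ u v : Fin n → F, Cfsg.hermForm n F q (g.1 *ᵥ u) (g.1 *ᵥ v) = Cfsg.hermForm n F q u v := h
    have h2 : g.1.transpose * g.1.map σ = 1 := by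
      ext i j
      have h3 := h1 (Pi.single i 1) (Pi.single j 1)
      rw [hform, hform, hmv] at h3
      have h4 : (fun k => σ ((Pi.single j 1 : Fin n → F) k)) = Pi.single j 1 := by
        ext k
        by_cases hk : k = j
        · subst hk; simp
        · simp [hk]
      rw [h4] at h3
      rw [mul_apply]
      simp only [mulVec_single_one, single_one_dotProduct] at h3
      have h5 : (g.1.col i) ⬝ᵥ (g.1.map σ).col j = ∑ k, g.1.transpose i k * (g.1.map σ) k j := rfl
      rw [← h5, h3, one_apply, Pi.single_apply]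
    have h3 : ((g.1.map σ).transpose) * g.1 = 1 := by
      have := congrArg transpose h2
      rwa [transpose_mul, transpose_transpose, transpose_one] at this
    exact mul_eq_one_comm.1 h3
  · intro h u v
    show Cfsg.hermForm n F q (g.1 *ᵥ u) (g.1 *ᵥ v) = Cfsg.hermForm n F q u v
    have h2 : (g.1.map σ).transpose * g.1 = 1 := mul_eq_one_comm.1 h
    have h3 : g.1.transpose * g.1.map σ = 1 := by
      have := congrArg transpose h2
      rwa [transpose_mul, transpose_transpose, transpose_one] at this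
    rw [hform, hform, hmv, dotProduct_mulVec, ← mulVec_transpose, mulVec_mulVec]
    have h4 : (g.1.map σ).transpose * g.1 = 1 := h2
    rw [h4, one_mulVec]

theorem gf_centralizer [Finite F] (hn : 2 ≤ n) {q : ℕ} (σ : RingAut F) (hσ : orderOf σ = 2) (hq : ∀ x, σ x = x ^ q) :
    Nonempty (↥((gam : GL (Fin n) F →* _).range ⊓ Subgroup.centralizer {psl (semi 1 σ) * psl invTr}) ≃*
      Cfsg.PGU n F q) := by
  let ρ : Cfsg.GU n F q →* MulAut (Matrix.ProjectiveSpecialLinearGroup (Fin n) F) := gam.comp (Cfsg.GU n F q).subtype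
  have hrange : ρ.range = (gam : GL (Fin n) F →* _).range ⊓ Subgroup.centralizer {psl (semi 1 σ) * psl invTr} := by
    ext x
    constructor
    · rintro ⟨⟨h, hh⟩, rfl⟩
      refine ⟨⟨h, rfl⟩, ?_⟩
      show gam h ∈ Subgroup.centralizer {psl (semi 1 σ) * psl invTr}
      rw [Subgroup.mem_centralizer_iff]
      rintro _ rfl
      refine ((gf_comm_iff' hn σ hσ _).2 ⟨1, h, one_ne_zero, ?_, by rw [one_smul]⟩).symm
      exact (mem_GU_iff σ hq h).1 hh
    · rintro ⟨⟨g, rfl⟩, hg⟩
      have h1 := Subgroup.mem_centralizer_iff.1 hg _ rfl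
      obtain ⟨c, h, _, hh, hc⟩ := (gf_comm_iff' hn σ hσ g).1 h1.symm
      exact ⟨⟨h, (mem_GU_iff σ hq h).2 hh⟩, (semi_congr (RingEquiv.refl F) hc (by omega)).symm⟩
  have hker : ρ.ker = (Cfsg.Geo.scalars (Fin n) F).subgroupOf (Cfsg.GU n F q) := by
    ext ⟨h, hh⟩
    rw [MonoidHom.mem_ker, Subgroup.mem_subgroupOf]
    show gam h = 1 ↔ h ∈ Cfsg.Geo.scalars (Fin n) F
    rw [Cfsg.Geo.mem_scalars_iff]
    constructor
    · intro hh
      obtain ⟨_, c, hc0, hc⟩ := psl_semi_eq_one hn (σ := 1) hh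
      exact ⟨Units.mk0 c hc0, hc⟩
    · rintro ⟨c, hc⟩
      have h2 := semi_congr (h := (1 : GL (Fin n) F)) (RingEquiv.refl F) hc (by omega)
      show psl (semi h (RingEquiv.refl F)) = 1
      rw [h2]
      exact psl_semi_one
  exact ⟨(MulEquiv.subgroupCongr hrange).symm.trans ((QuotientGroup.quotientKerEquivRange ρ).symm.trans
    (QuotientGroup.quotientMulEquivOfEq hker))⟩

theorem exists_GU_det [Finite F] (hn : 2 ≤ n) {q : ℕ} (σ : RingAut F) (hq : ∀ x, σ x = x ^ q) (c : Fˣ) (hc : c ^ (q + 1) = 1) :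
    ∃ g : GL (Fin n) F, Matrix.GeneralLinearGroup.det g = c ∧ g.1 * (g.1.map σ).transpose = 1 := by
  have h0n : 0 < n := by omega
  let A : Matrix (Fin n) (Fin n) F := diagonal (Function.update (fun _ => (1 : F)) ⟨0, h0n⟩ (c : F))
  have hA : A.det = c := by
    rw [det_diagonal, Finset.prod_update_of_mem (Finset.mem_univ _)]
    simp
  refine ⟨Matrix.GeneralLinearGroup.mkOfDetNeZero A (by rw [hA]; exact c.ne_zero), Units.ext hA, ?_⟩
  show A * (A.map σ).transpose = 1
  have hcc : (c : F) * σ c = 1 := by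
    rw [hq, ← pow_succ']
    have := congrArg Units.val hc
    simpa using this
  have h1 : (A.map σ).transpose = diagonal (fun i => σ (Function.update (fun _ => (1 : F)) ⟨0, h0n⟩ (c : F) i)) := by
    rw [diagonal_map (map_zero σ), diagonal_transpose]
  rw [h1, diagonal_mul_diagonal, ← diagonal_one]
  congr 1
  ext i
  by_cases hi : i = ⟨0, h0n⟩
  · subst hi; simp [hcc]
  · simp [hi]

/-- splitting of the class of an involutory graph-field automorphism -/
theorem gf_split [Fintype F] (hn : 2 ≤ n) {q : ℕ} (σ : RingAut F) (hσ : orderOf σ = 2) (hq : ∀ x, σ x = x ^ q)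
    (hF : Fintype.card F = q ^ 2) :
    Cfsg.splitClassCount (gam : GL (Fin n) F →* _).range (Cfsg.Inn (Matrix.ProjectiveSpecialLinearGroup (Fin n) F))
      (psl (semi 1 σ) * psl invTr) = Nat.gcd n (q - 1) := by
  have hq1 : 1 < q := by
    have h1 : 1 < Fintype.card F := Fintype.one_lt_card
    rw [hF] at h1
    by_contra h
    have : q = 0 ∨ q = 1 := by omega
    rcases this with rfl | rfl <;> norm_num at h1
  let S : Subgroup Fˣ := (powMonoidHom (q + 1) : Fˣ →* Fˣ).ker
  let D : GL (Fin n) F →* Fˣ ⧸ ((powMonoidHom n : Fˣ →* Fˣ).range ⊔ S) :=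
    (QuotientGroup.mk' _).comp Matrix.GeneralLinearGroup.det
  have hDiff : ∀ g : GL (Fin n) F, D g = 1 ↔ Matrix.GeneralLinearGroup.det g ∈ (powMonoidHom n : Fˣ →* Fˣ).range ⊔ S := by
    intro g
    exact QuotientGroup.eq_one_iff _
  have hD : Function.Surjective D := by
    intro x
    obtain ⟨c, rfl⟩ := QuotientGroup.mk_surjective x
    obtain ⟨g, hg⟩ := exists_GL_det hn c
    exact ⟨g, by show QuotientGroup.mk _ = _; rw [hg]⟩
  have hUcard : Nat.card Fˣ = (q - 1) * (q + 1) := by
    rw [Nat.card_units, Nat.card_eq_fintype_card, hF]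
    obtain ⟨k, rfl⟩ : ∃ k, q = k + 1 := ⟨q - 1, by omega⟩
    rw [Nat.add_sub_cancel]
    have : (k + 1) ^ 2 = k * (k + 1 + 1) + 1 := by ring
    rw [this, Nat.add_sub_cancel]
  have hcard : Nat.card S = q + 1 := by
    show Nat.card (powMonoidHom (q + 1) : Fˣ →* Fˣ).ker = q + 1
    rw [IsCyclic.card_powMonoidHom_ker, hUcard]
    exact Nat.gcd_eq_right (Dvd.intro_left _ rfl)
  have hK : Cfsg.Inn (Matrix.ProjectiveSpecialLinearGroup (Fin n) F) ≤ (gam : GL (Fin n) F →* _).range := by
    rintro _ ⟨x, rfl⟩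
    obtain ⟨s, rfl⟩ := QuotientGroup.mk_surjective x
    exact ⟨_, (conj_eq s).symm⟩
  have hdetU : ∀ h : GL (Fin n) F, h.1 * (h.1.map σ).transpose = 1 → Matrix.GeneralLinearGroup.det h ∈ S := by
    intro h hh
    show (Matrix.GeneralLinearGroup.det h) ^ (q + 1) = 1
    apply Units.ext
    rw [Units.val_pow_eq_pow_val, Units.val_one]
    show h.1.det ^ (q + 1) = 1
    have h1 := congrArg det hh
    rw [det_mul, det_transpose, det_one] at h1
    have h2 : (h.1.map σ).det = σ h.1.det := (RingHom.map_det (σ : F →+* F) h.1).symm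
    rw [h2, hq, ← pow_succ'] at h1
    exact h1
  rw [split_eq gam D hD _ hK]
  · have h1 := index_sup (C := Fˣ) n S
    rw [hcard, hUcard, Nat.mul_div_cancel _ (Nat.succ_pos q)] at h1
    exact h1
  · intro g
    rw [hDiff]
    constructor
    · intro hg
      obtain ⟨a, ha, b, hb, hab⟩ := Subgroup.mem_sup.1 hg
      obtain ⟨h, hh0, hh⟩ := exists_GU_det hn σ hq b hb
      have hdet : Matrix.GeneralLinearGroup.det (g * h⁻¹) = a := by
        rw [map_mul, map_inv, hh0, ← hab, mul_inv_cancel_right]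
      refine ⟨gam (g * h⁻¹), (gam_mem_inn_iff hn _).2 (by rw [hdet]; exact ha), gam h, ⟨h, rfl⟩, ?_, ?_⟩
      · exact (gf_comm_iff' hn σ hσ _).2 ⟨1, h, one_ne_zero, hh, by rw [one_smul]⟩
      · rw [← map_mul, inv_mul_cancel_right]
    · rintro ⟨k, hk, _, ⟨h, rfl⟩, hc, hgk⟩
      have h1 : k = gam (g * h⁻¹) := by rw [map_mul, map_inv, hgk, mul_inv_cancel_right]
      rw [h1, gam_mem_inn_iff hn] at hk
      obtain ⟨c, h0, hc0, hh0, hch⟩ := (gf_comm_iff' hn σ hσ h).1 hc
      have h2 : Matrix.GeneralLinearGroup.det h = (Units.mk0 c hc0) ^ n * Matrix.GeneralLinearGroup.det h0 := by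
        apply Units.ext
        show h.1.det = c ^ n * h0.1.det
        rw [hch, det_smul, Fintype.card_fin]
      have h3 : Matrix.GeneralLinearGroup.det g = Matrix.GeneralLinearGroup.det (g * h⁻¹) * Matrix.GeneralLinearGroup.det h := by
        rw [← map_mul, inv_mul_cancel_right]
      rw [h3, h2]
      refine mul_mem (Subgroup.mem_sup_left hk) (mul_mem (Subgroup.mem_sup_left ?_) (Subgroup.mem_sup_right (hdetU _ hh0)))
      exact ⟨Units.mk0 c hc0, rfl⟩

/-- the involution of the automorphism group of a finite field -/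
theorem involution_pow [Fintype F] {p f : ℕ} [Fact p.Prime] (hF : Fintype.card F = p ^ f) (σ : RingAut F) (hσ : orderOf σ = 2) :
    Even f ∧ ∀ x, σ x = x ^ (p ^ (f / 2)) := by
  have hfin : Finite (RingAut F) := Finite.of_injective (fun σ : RingAut F => (σ : F → F)) DFunLike.coe_injective
  have h2f : 2 ∣ f := by
    rw [← hσ, ← ringAut_card hF]
    exact orderOf_dvd_natCard σ
  refine ⟨even_iff_two_dvd.2 h2f, ?_⟩
  obtain ⟨m, rfl⟩ := h2f
  rw [Nat.mul_div_cancel_left _ (by norm_num : 0 < 2)]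
  have hm : 0 < m := by
    rcases Nat.eq_zero_or_pos m with rfl | h
    · rw [mul_zero, pow_zero] at hF
      have : 1 < Fintype.card F := Fintype.one_lt_card
      omega
    · exact h
  have hchar : CharP F p := by
    obtain ⟨p', hp'⟩ := CharP.exists F
    have : Fact p'.Prime := ⟨CharP.char_is_prime F p'⟩
    obtain ⟨k, hk1, hk2⟩ := FiniteField.card F p'
    have : p' = p := by
      have h1 : p' ∣ p ^ (2 * m) := by
        rw [← hF, hk2]; exact dvd_pow_self _ (by exact k.ne_zero)
      exact (Nat.prime_dvd_prime_iff_eq Fact.out Fact.out).1 ((Fact.out : p'.Prime).dvd_of_dvd_pow h1)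
    subst this
    exact hp'
  let τ : RingAut F := RingEquiv.ofBijective (iterateFrobenius F p m) (bijective_iterateFrobenius F p m)
  have hτ : ∀ x, τ x = x ^ (p ^ m) := fun x => iterateFrobenius_def p m x
  have hτ2 : orderOf τ = 2 := by
    apply orderOf_eq_prime
    · apply RingEquiv.ext
      intro x
      show τ (τ x) = x
      rw [hτ, hτ, ← pow_mul, ← pow_add, ← two_mul, ← hF, FiniteField.pow_card]
    · intro h
      have h1 : ∀ x : F, x ^ (p ^ m) = x := by
        intro x
        rw [← hτ, h]; rfl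
      have hcyc : IsCyclic Fˣ := inferInstance
      obtain ⟨g, hg⟩ := IsCyclic.exists_generator (α := Fˣ)
      have h2 : orderOf g = p ^ (2 * m) - 1 := by
        rw [orderOf_eq_card_of_forall_mem_zpowers hg, Nat.card_units, Nat.card_eq_fintype_card, hF]
      have h3 : g ^ (p ^ m) = g := Units.ext (by rw [Units.val_pow_eq_pow_val]; exact h1 g)
      have hpm : 1 < p ^ m := Nat.one_lt_pow hm.ne' (Fact.out : p.Prime).one_lt
      have h4 : g ^ (p ^ m - 1) = 1 := by
        have : g ^ (p ^ m - 1) * g = g := by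
          rw [← pow_succ, Nat.sub_add_cancel hpm.le, h3]
        exact mul_eq_right.1 this
      have h5 : p ^ (2 * m) - 1 ≤ p ^ m - 1 := by
        rw [← h2]
        exact orderOf_le_of_pow_eq_one (by omega) h4
      have h6 : p ^ m < p ^ (2 * m) := Nat.pow_lt_pow_right (Fact.out : p.Prime).one_lt (by omega)
      omega
  have hcyc : IsCyclic (RingAut F) := ringAut_isCyclic
  have heq : σ = τ := by
    classical
    have : Fintype (RingAut F) := Fintype.ofFinite _
    by_contra hne
    have h := IsCyclic.card_pow_eq_one_le (α := RingAut F) (n := 2) (by norm_num)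
    have h1 : ({1, σ, τ} : Finset (RingAut F)) ⊆ Finset.univ.filter (fun a => a ^ 2 = 1) := by
      intro a ha
      simp only [Finset.mem_insert, Finset.mem_singleton] at ha
      simp only [Finset.mem_filter, Finset.mem_univ, true_and]
      rcases ha with rfl | rfl | rfl
      · exact one_pow _
      · rw [← hσ]; exact pow_orderOf_eq_one _
      · rw [← hτ2]; exact pow_orderOf_eq_one _
    have h2 : ({1, σ, τ} : Finset (RingAut F)).card = 3 := by
      rw [Finset.card_eq_three]
      refine ⟨1, σ, τ, ?_, ?_, hne, rfl⟩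
      · intro h3; rw [← h3, orderOf_one] at hσ; omega
      · intro h3; rw [← h3, orderOf_one] at hτ2; omega
    have h3 := Finset.card_le_card h1
    rw [h2] at h3
    omega
  intro x
  rw [heq, hτ]

end CfsgLib.AutPSL
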