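import Cfsg.Agent.Lib.AutPSL6
import Cfsg.Prelude.Def_LieTypeDatum

/-!
# Automorphisms of `PSL_n(F)`, part 7: the predicates of the problem statements.
-/

set_option autoImplicit false

namespace CfsgLib.AutPSL

open Matrix

universe u

variable {F : Type u} [Field F] {n : ℕ}

theorem isInduced_iff (g : GL (Fin n) F) (σ : F ≃+* F) (β : MulAut (Matrix.ProjectiveSpecialLinearGroup (Fin n) F)) :
    Cfsg.IsInducedBySemilinearPSL g σ β ↔ β = psl (semi g σ) := by
  constructor
  · intro h
    apply MulEquiv.ext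
    intro x
    obtain ⟨s, rfl⟩ := QuotientGroup.mk_surjective x
    exact h s (semi g σ s) rfl
  · rintro rfl s s' h
    have : s' = semi g σ s := Subtype.ext h
    rw [this]
    exact psl_mk _ _

theorem isInnerDiag_iff (β : MulAut (Matrix.ProjectiveSpecialLinearGroup (Fin n) F)) :
    Cfsg.IsInnerDiagonalAutPSL β ↔ ∃ g : GL (Fin n) F, β = psl (semi g (RingEquiv.refl F)) := by
  constructor
  · rintro ⟨g, h⟩
    refine ⟨g, ?_⟩
    rw [← isInduced_iff]
    exact h
  · rintro ⟨g, h⟩
    refine ⟨g, ?_⟩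
    rw [← isInduced_iff] at h
    exact h

theorem isStdField_iff (σ : F ≃+* F) (β : MulAut (Matrix.ProjectiveSpecialLinearGroup (Fin n) F)) :
    Cfsg.IsStdFieldAutPSL σ β ↔ β = psl (semi 1 σ) := by
  constructor
  · intro h
    apply MulEquiv.ext
    intro x
    obtain ⟨s, rfl⟩ := QuotientGroup.mk_surjective x
    refine h s (semi 1 σ s) ?_
    show ((semi 1 σ s : Matrix.SpecialLinearGroup (Fin n) F) : Matrix (Fin n) (Fin n) F) = _
    rw [semi_coe, inv_one, Units.val_one, one_mul, mul_one]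
  · rintro rfl s s' h
    have : s' = semi 1 σ s := by
      apply Subtype.ext
      show (s' : Matrix (Fin n) (Fin n) F) = ((semi 1 σ s : Matrix.SpecialLinearGroup (Fin n) F) : Matrix (Fin n) (Fin n) F)
      rw [semi_coe, inv_one, Units.val_one, one_mul, mul_one, h]
    rw [this]
    exact psl_mk _ _

theorem isInvTr_iff (β : MulAut (Matrix.ProjectiveSpecialLinearGroup (Fin n) F)) :
    Cfsg.IsInverseTransposeAutPSL β ↔ β = psl invTr := by
  constructor
  · intro h
    apply MulEquiv.ext
    intro x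
    obtain ⟨s, rfl⟩ := QuotientGroup.mk_surjective x
    exact h s (invTr s) rfl
  · rintro rfl s s' h
    have : s' = invTr s := Subtype.ext h
    rw [this]
    exact psl_mk _ _

theorem psl_semi_inv (g : GL (Fin n) F) :
    (psl (semi g (RingEquiv.refl F)))⁻¹ = psl (semi g⁻¹ (RingEquiv.refl F)) := by
  rw [inv_eq_iff_mul_eq_one, psl_semi_mul, gm_one, mul_inv_cancel]
  exact psl_semi_one

theorem mem_inndiag_iff (β : MulAut (Matrix.ProjectiveSpecialLinearGroup (Fin n) F)) :
    β ∈ Cfsg.inndiagPSL n F ↔ ∃ g : GL (Fin n) F, β = psl (semi g (RingEquiv.refl F)) := by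
  constructor
  · intro h
    induction h using Subgroup.closure_induction with
    | mem x hx => exact (isInnerDiag_iff x).1 hx
    | one => exact ⟨1, psl_semi_one.symm⟩
    | mul x y _ _ hx hy =>
      obtain ⟨g, rfl⟩ := hx
      obtain ⟨h, rfl⟩ := hy
      exact ⟨g * h, by rw [psl_semi_mul, gm_one]; rfl⟩
    | inv x _ hx =>
      obtain ⟨g, rfl⟩ := hx
      exact ⟨g⁻¹, psl_semi_inv g⟩
  · intro h
    exact Subgroup.subset_closure ((isInnerDiag_iff β).2 h)

theorem mem_inndiag (g : GL (Fin n) F) : psl (semi g (RingEquiv.refl F)) ∈ Cfsg.inndiagPSL n F :=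
  (mem_inndiag_iff _).2 ⟨g, rfl⟩

end CfsgLib.AutPSL
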