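import Cfsg.Agent.Lib.AutPSL8
import Cfsg.Agent.Lib.AutPSL7

/-!
# Automorphisms of `PSL_n(F)`, part 9: the outer automorphism group.
-/

set_option autoImplicit false

namespace CfsgLib.AutPSL

open Matrix

universe u

variable {F : Type u} [Field F] {n : ℕ}

/-- inner-diagonal automorphisms -/
def gam : GL (Fin n) F →* MulAut (Matrix.ProjectiveSpecialLinearGroup (Fin n) F) where
  toFun g := psl (semi g (RingEquiv.refl F))
  map_one' := psl_semi_one
  map_mul' g h := by rw [psl_semi_mul, gm_one]; rfl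

theorem gam_apply (g : GL (Fin n) F) : gam g = psl (semi g (RingEquiv.refl F)) := rfl

theorem inndiag_eq : Cfsg.inndiagPSL n F = (gam : GL (Fin n) F →* _).range := by
  ext β
  rw [mem_inndiag_iff]
  constructor
  · rintro ⟨g, rfl⟩; exact ⟨g, rfl⟩
  · rintro ⟨g, rfl⟩; exact ⟨g, rfl⟩

theorem conj_eq (s : Matrix.SpecialLinearGroup (Fin n) F) :
    MulAut.conj (QuotientGroup.mk s : Matrix.ProjectiveSpecialLinearGroup (Fin n) F) = gam (Matrix.SpecialLinearGroup.toGL s) := by
  apply MulEquiv.ext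
  intro x
  obtain ⟨t, rfl⟩ := QuotientGroup.mk_surjective x
  show (QuotientGroup.mk (s * t * s⁻¹) : Matrix.ProjectiveSpecialLinearGroup (Fin n) F) = QuotientGroup.mk (semi (Matrix.SpecialLinearGroup.toGL s) (RingEquiv.refl F) t)
  congr 1

theorem gam_mem_inn_iff (hn : 2 ≤ n) (g : GL (Fin n) F) :
    gam g ∈ Cfsg.Inn (Matrix.ProjectiveSpecialLinearGroup (Fin n) F) ↔
      Matrix.GeneralLinearGroup.det g ∈ (powMonoidHom n : Fˣ →* Fˣ).range := by
  constructor
  · rintro ⟨x, hx⟩
    obtain ⟨s, rfl⟩ := QuotientGroup.mk_surjective x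
    rw [conj_eq, gam_apply, gam_apply] at hx
    obtain ⟨_, c, hc, hc'⟩ := semi_inj hn hx
    have h1 : (Matrix.SpecialLinearGroup.toGL s).1.det = c ^ n * g.1.det := by
      rw [hc', det_smul, Fintype.card_fin]
    have h2 : (Matrix.SpecialLinearGroup.toGL s).1.det = 1 := s.2
    rw [h2] at h1
    refine ⟨(Units.mk0 c hc)⁻¹, ?_⟩
    apply Units.ext
    show (((Units.mk0 c hc)⁻¹ ^ n : Fˣ) : F) = g.1.det
    rw [Units.val_pow_eq_pow_val, Units.val_inv_eq_inv_val, Units.val_mk0, inv_pow]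
    exact inv_eq_of_mul_eq_one_right h1.symm
  · rintro ⟨c, hc⟩
    have hc1 : (c : F) ^ n = g.1.det := by
      have := congrArg Units.val hc
      rw [← Units.val_pow_eq_pow_val]
      exact this
    have hc0 : (c : F) ≠ 0 := c.ne_zero
    let s : Matrix.SpecialLinearGroup (Fin n) F := ⟨(c : F)⁻¹ • g.1, by
      rw [det_smul, Fintype.card_fin, ← hc1, inv_pow, inv_mul_cancel₀ (pow_ne_zero n hc0)]⟩
    refine ⟨QuotientGroup.mk s, ?_⟩
    rw [conj_eq, gam_apply, gam_apply]
    exact semi_congr (RingEquiv.refl F) (c := (c : F)⁻¹) rfl (by omega)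

/-- the kernel computation -/
theorem out_ker [Fintype F] (hn : 2 ≤ n) {H : Type*} [Group H]
    (φ : Cfsg.Out (Matrix.ProjectiveSpecialLinearGroup (Fin n) F) →* H)
    (hφ : ∀ α : MulAut (Matrix.ProjectiveSpecialLinearGroup (Fin n) F), φ (QuotientGroup.mk α) = 1 ↔ α ∈ (gam : GL (Fin n) F →* _).range) :
    IsCyclic φ.ker ∧ Nat.card φ.ker = Nat.gcd n (Fintype.card F - 1) := by
  let δ : GL (Fin n) F →* Cfsg.Out (Matrix.ProjectiveSpecialLinearGroup (Fin n) F) := (QuotientGroup.mk' _).comp gam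
  have hr : δ.range = φ.ker := by
    ext x
    constructor
    · rintro ⟨g, rfl⟩
      exact (hφ _).2 ⟨g, rfl⟩
    · intro hx
      obtain ⟨α, rfl⟩ := QuotientGroup.mk_surjective x
      obtain ⟨g, rfl⟩ := (hφ α).1 hx
      exact ⟨g, rfl⟩
  let D : GL (Fin n) F →* Fˣ ⧸ (powMonoidHom n : Fˣ →* Fˣ).range :=
    (QuotientGroup.mk' _).comp Matrix.GeneralLinearGroup.det
  have hker : δ.ker = D.ker := by
    ext g
    rw [MonoidHom.mem_ker, MonoidHom.mem_ker]
    show (QuotientGroup.mk (gam g) : Cfsg.Out (Matrix.ProjectiveSpecialLinearGroup (Fin n) F)) = 1 ↔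
      (QuotientGroup.mk (Matrix.GeneralLinearGroup.det g) : Fˣ ⧸ (powMonoidHom n : Fˣ →* Fˣ).range) = 1
    rw [QuotientGroup.eq_one_iff, QuotientGroup.eq_one_iff, gam_mem_inn_iff hn]
  have hD : Function.Surjective D := by
    intro x
    obtain ⟨c, rfl⟩ := QuotientGroup.mk_surjective x
    have h0n : 0 < n := by omega
    let A : Matrix (Fin n) (Fin n) F := diagonal (Function.update (fun _ => (1 : F)) ⟨0, h0n⟩ (c : F))
    have hA : A.det = c := by
      rw [det_diagonal, Finset.prod_update_of_mem (Finset.mem_univ _)]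
      simp
    refine ⟨Matrix.GeneralLinearGroup.mkOfDetNeZero A (by rw [hA]; exact c.ne_zero), ?_⟩
    show (QuotientGroup.mk _ : Fˣ ⧸ (powMonoidHom n : Fˣ →* Fˣ).range) = QuotientGroup.mk c
    congr 1
    apply Units.ext
    exact hA
  have e1 : GL (Fin n) F ⧸ δ.ker ≃* δ.range := QuotientGroup.quotientKerEquivRange δ
  have e2 : GL (Fin n) F ⧸ D.ker ≃* Fˣ ⧸ (powMonoidHom n : Fˣ →* Fˣ).range := QuotientGroup.quotientKerEquivOfSurjective D hD
  have e3 : φ.ker ≃* Fˣ ⧸ (powMonoidHom n : Fˣ →* Fˣ).range :=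
    (MulEquiv.subgroupCongr hr).symm.trans (e1.symm.trans ((QuotientGroup.quotientMulEquivOfEq hker).trans e2))
  have hcyc : IsCyclic (Fˣ ⧸ (powMonoidHom n : Fˣ →* Fˣ).range) :=
    isCyclic_of_surjective (QuotientGroup.mk' _) (QuotientGroup.mk'_surjective _)
  refine ⟨(MulEquiv.isCyclic e3).2 hcyc, ?_⟩
  rw [Nat.card_congr e3.toEquiv]
  have := IsCyclic.index_powMonoidHom_range (G := Fˣ) n
  rw [Nat.card_units, Nat.card_eq_fintype_card, Nat.gcd_comm] at this
  exact this

/-- the graph part -/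
noncomputable def T (e : Multiplicative (ZMod 2)) : MulAut (Matrix.ProjectiveSpecialLinearGroup (Fin n) F) :=
  open Classical in if e = 1 then 1 else psl invTr

theorem T_one : T (F := F) (n := n) 1 = 1 := by rw [T, if_pos rfl]

theorem T_mul (e e' : Multiplicative (ZMod 2)) : T (F := F) (n := n) (e * e') = T e * T e' := by
  have hall : ∀ x : Multiplicative (ZMod 2), x = 1 ∨ x = Multiplicative.ofAdd 1 := by decide
  have hne : Multiplicative.ofAdd (1 : ZMod 2) ≠ 1 := by decide
  have h2 : Multiplicative.ofAdd (1 : ZMod 2) * Multiplicative.ofAdd 1 = 1 := by decide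
  rcases hall e with rfl | rfl <;> rcases hall e' with rfl | rfl
  · rw [one_mul, T_one, one_mul]
  · rw [one_mul, T_one, one_mul]
  · rw [mul_one, T_one, mul_one]
  · rw [h2, T_one, T, if_neg hne, psl_invTr_sq]

theorem T_semi (e : Multiplicative (ZMod 2)) (g : GL (Fin n) F) (σ : F ≃+* F) :
    ∃ h : GL (Fin n) F, T e * psl (semi g σ) = psl (semi h σ) * T e := by
  by_cases h : e = 1
  · exact ⟨g, by rw [h, T_one, one_mul, mul_one]⟩
  · exact ⟨git g, by rw [T, if_neg h, psl_invTr_mul_semi]⟩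

theorem exists_rep [Finite F] (hn : 3 ≤ n) (α : MulAut (Matrix.ProjectiveSpecialLinearGroup (Fin n) F)) :
    ∃ x : RingAut F × Multiplicative (ZMod 2), ∃ g : GL (Fin n) F, α = psl (semi g x.1) * T x.2 := by
  have hne : Multiplicative.ofAdd (1 : ZMod 2) ≠ 1 := by decide
  rcases main' (by omega) α with ⟨g, σ, h⟩ | ⟨_, g, σ, h⟩
  · exact ⟨(σ, 1), g, by rw [T_one, mul_one, h]⟩
  · exact ⟨(σ, Multiplicative.ofAdd 1), g, by rw [T, if_neg hne, h]⟩

theorem rep_unique (hn : 3 ≤ n) {x y : RingAut F × Multiplicative (ZMod 2)} {g h : GL (Fin n) F}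
    (heq : psl (semi g x.1) * T x.2 = psl (semi h y.1) * T y.2) : x = y := by
  obtain ⟨σ, e⟩ := x
  obtain ⟨τ, e'⟩ := y
  have hall : ∀ x : Multiplicative (ZMod 2), x = 1 ∨ x = Multiplicative.ofAdd 1 := by decide
  have hne : Multiplicative.ofAdd (1 : ZMod 2) ≠ 1 := by decide
  rcases hall e with rfl | rfl <;> rcases hall e' with rfl | rfl
  · have h1 := mul_right_cancel heq
    have h2 : σ = τ := (semi_inj (by omega) h1).1
    rw [h2]
  · exfalso
    rw [T_one, mul_one, T, if_neg hne] at heq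
    exact invTr_ne hn _ _ _ _ heq
  · exfalso
    rw [T_one, mul_one, T, if_neg hne] at heq
    exact invTr_ne hn _ _ _ _ heq.symm
  · have h1 := mul_right_cancel heq
    have h2 : σ = τ := (semi_inj (by omega) h1).1
    rw [h2]

/-- the field and graph part of an automorphism -/
noncomputable def fg [Finite F] (hn : 3 ≤ n) :
    MulAut (Matrix.ProjectiveSpecialLinearGroup (Fin n) F) →* RingAut F × Multiplicative (ZMod 2) :=
  MonoidHom.mk' (fun α => (exists_rep hn α).choose) (by
    intro α β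
    obtain ⟨g, hg⟩ := (exists_rep hn α).choose_spec
    obtain ⟨h, hh⟩ := (exists_rep hn β).choose_spec
    obtain ⟨k, hk⟩ := (exists_rep hn (α * β)).choose_spec
    set x := (exists_rep hn α).choose
    set y := (exists_rep hn β).choose
    set z := (exists_rep hn (α * β)).choose
    obtain ⟨h', hh'⟩ := T_semi (n := n) (F := F) x.2 h y.1
    have h1 : α * β = psl (semi (g * gm x.1 h') (x * y).1) * T (x * y).2 := by
      conv_lhs => rw [hg, hh]
      rw [mul_assoc, ← mul_assoc (T x.2), hh', ← mul_assoc, ← mul_assoc, psl_semi_mul, mul_assoc, ← T_mul]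
      rfl
    exact rep_unique hn (hk.symm.trans h1))

theorem fg_spec [Finite F] (hn : 3 ≤ n) (α : MulAut (Matrix.ProjectiveSpecialLinearGroup (Fin n) F)) :
    ∃ g : GL (Fin n) F, α = psl (semi g (fg hn α).1) * T (fg hn α).2 := (exists_rep hn α).choose_spec

theorem fg_eq [Finite F] (hn : 3 ≤ n) (g : GL (Fin n) F) (x : RingAut F × Multiplicative (ZMod 2)) :
    fg hn (psl (semi g x.1) * T x.2) = x := by
  obtain ⟨h, hh⟩ := fg_spec hn (psl (semi g x.1) * T x.2)
  exact (rep_unique hn hh).symm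

theorem fg_surjective [Finite F] (hn : 3 ≤ n) : Function.Surjective (fg (F := F) hn) := fun x =>
  ⟨_, fg_eq hn 1 x⟩

theorem fg_eq_one_iff [Finite F] (hn : 3 ≤ n) (α : MulAut (Matrix.ProjectiveSpecialLinearGroup (Fin n) F)) :
    fg hn α = 1 ↔ α ∈ (gam : GL (Fin n) F →* _).range := by
  constructor
  · intro h
    obtain ⟨g, hg⟩ := fg_spec hn α
    rw [h, Prod.snd_one, T_one, mul_one] at hg
    exact ⟨g, hg.symm⟩
  · rintro ⟨g, rfl⟩
    have := fg_eq hn g (1 : RingAut F × Multiplicative (ZMod 2))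
    rw [Prod.snd_one, T_one, mul_one] at this
    exact this

/-- the field part of an automorphism, `n = 2` -/
theorem exists_rep2 [Finite F] (α : MulAut (Matrix.ProjectiveSpecialLinearGroup (Fin 2) F)) :
    ∃ x : RingAut F, ∃ g : GL (Fin 2) F, α = psl (semi g x) := by
  rcases main' le_rfl α with ⟨g, σ, h⟩ | ⟨h3, _⟩
  · exact ⟨σ, g, h⟩
  · omega

noncomputable def fg2 [Finite F] : MulAut (Matrix.ProjectiveSpecialLinearGroup (Fin 2) F) →* RingAut F :=
  MonoidHom.mk' (fun α => (exists_rep2 α).choose) (by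
    intro α β
    obtain ⟨g, hg⟩ := (exists_rep2 α).choose_spec
    obtain ⟨h, hh⟩ := (exists_rep2 β).choose_spec
    obtain ⟨k, hk⟩ := (exists_rep2 (α * β)).choose_spec
    set x := (exists_rep2 α).choose
    set y := (exists_rep2 β).choose
    set z := (exists_rep2 (α * β)).choose
    have h1 : α * β = psl (semi (g * gm x h) (x * y)) := by
      conv_lhs => rw [hg, hh]
      rw [psl_semi_mul]
      rfl
    exact (semi_inj le_rfl (hk.symm.trans h1)).1)

theorem fg2_spec [Finite F] (α : MulAut (Matrix.ProjectiveSpecialLinearGroup (Fin 2) F)) :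
    ∃ g : GL (Fin 2) F, α = psl (semi g (fg2 α)) := (exists_rep2 α).choose_spec

theorem fg2_eq [Finite F] (g : GL (Fin 2) F) (x : RingAut F) : fg2 (psl (semi g x)) = x := by
  obtain ⟨h, hh⟩ := fg2_spec (psl (semi g x))
  exact (semi_inj le_rfl hh).1.symm

theorem fg2_surjective [Finite F] : Function.Surjective (fg2 (F := F)) := fun x => ⟨_, fg2_eq 1 x⟩

theorem fg2_eq_one_iff [Finite F] (α : MulAut (Matrix.ProjectiveSpecialLinearGroup (Fin 2) F)) :
    fg2 α = 1 ↔ α ∈ (gam : GL (Fin 2) F →* _).range := by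
  constructor
  · intro h
    obtain ⟨g, hg⟩ := fg2_spec α
    rw [h] at hg
    exact ⟨g, hg.symm⟩
  · rintro ⟨g, rfl⟩
    exact fg2_eq g 1

/-- the automorphism group of a finite field -/
theorem ringAut_equiv [Fintype F] {p f : ℕ} [Fact p.Prime] (hF : Fintype.card F = p ^ f) :
    Nonempty (RingAut F ≃* Multiplicative (ZMod f)) := by
  have h1 : IsCyclic (RingAut F) := ringAut_isCyclic
  have h2 : Nat.card (RingAut F) = f := ringAut_card hF
  exact ⟨(zmodCyclicMulEquiv h1).symm.trans (by rw [h2])⟩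

end CfsgLib.AutPSL
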