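import Cfsg.Agent.Lib.Herm7
import Cfsg.Agent.Lib.Herm8

/-!
# Automorphisms of `PSU`, part 1: transvections and Siegel elements in `SUL B`.
-/

set_option autoImplicit false
set_option linter.unusedSimpArgs false
set_option linter.unusedSectionVars false

namespace CfsgLib.AutPSU

open Module CfsgLib.Herm

variable {F V : Type*} [Field F] [AddCommGroup V] [Module F V] [FiniteDimensional F V]
  {σ : F →+* F} {q : ℕ} {B : V →ₛₗ[σ] V →ₗ[F] F}

theorem K_ext {g h : SUL B} (hgh : ∀ v : V, g.1 v = h.1 v) : g = h := Subtype.ext (LinearEquiv.ext hgh)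

theorem mul_apply' (g h : SUL B) (v : V) : (g * h).1 v = g.1 (h.1 v) := rfl

theorem one_apply' (v : V) : (1 : SUL B).1 v = v := rfl

theorem inv_apply' (g : SUL B) (v : V) : (g⁻¹).1 (g.1 v) = v := by
  rw [← mul_apply', inv_mul_cancel, one_apply']

theorem apply_inv' (g : SUL B) (v : V) : g.1 ((g⁻¹).1 v) = v := by
  rw [← mul_apply', mul_inv_cancel, one_apply']

theorem pres (g : SUL B) (x y : V) : B (g.1 x) (g.1 y) = B x y := (mem_SUL.1 g.2).1 x y

theorem apply_ne_zero (g : SUL B) {x : V} (hx : x ≠ 0) : g.1 x ≠ 0 := (LinearEquiv.map_ne_zero_iff _).2 hx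

open Classical in
/-- transvections -/
noncomputable def tv (h : HForm B) (u : V) (c : F) : SUL B :=
  if H : B u u = 0 ∧ c + σ c = 0 then ⟨tvH h H.1 H.2, tvH_mem h H.1 H.2⟩ else 1

theorem tv_apply (h : HForm B) {u : V} {c : F} (hu : B u u = 0) (hc : c + σ c = 0) (x : V) :
    (tv h u c).1 x = x + (c * B u x) • u := by
  rw [tv, dif_pos ⟨hu, hc⟩]
  rfl

open Classical in
/-- Siegel elements -/
noncomputable def si (h : HForm B) (u y : V) (c : F) : SUL B :=
  if H : B u u = 0 ∧ B u y = 0 ∧ c + σ c + B y y = 0 then ⟨siH h H.1 H.2.1 H.2.2, siH_mem h H.1 H.2.1 H.2.2⟩ else 1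

theorem si_apply (h : HForm B) {u y : V} {c : F} (hu : B u u = 0) (hy : B u y = 0) (hc : c + σ c + B y y = 0) (x : V) :
    (si h u y c).1 x = x + B u x • y + (c * B u x - B y x) • u := by
  rw [si, dif_pos ⟨hu, hy, hc⟩]
  rfl

variable (h : HForm B)

include h

theorem comm0 {x y : V} (hxy : B x y = 0) : B y x = 0 := h.eq_zero_comm hxy

theorem conj_tv (g : SUL B) {u : V} {c : F} (hu : B u u = 0) (hc : c + σ c = 0) :
    g * tv h u c * g⁻¹ = tv h (g.1 u) c := by
  apply K_ext
  intro x
  rw [mul_apply', mul_apply', tv_apply h hu hc, tv_apply h (by rw [pres, hu]) hc, map_add, map_smul, apply_inv']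
  have h1 : B u ((g⁻¹).1 x) = B (g.1 u) x := by
    rw [← pres g, apply_inv']
  rw [h1]

theorem conj_si (g : SUL B) {u y : V} {c : F} (hu : B u u = 0) (hy : B u y = 0) (hc : c + σ c + B y y = 0) :
    g * si h u y c * g⁻¹ = si h (g.1 u) (g.1 y) c := by
  apply K_ext
  intro x
  rw [mul_apply', mul_apply', si_apply h hu hy hc,
    si_apply h (by rw [pres, hu]) (by rw [pres, hy]) (by rw [pres, hc]), map_add, map_add, map_smul, map_smul, apply_inv']
  have h1 : ∀ u, B u ((g⁻¹).1 x) = B (g.1 u) x := by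
    intro u
    rw [← pres g, apply_inv']
  rw [h1, h1]

theorem tv_mul {u : V} {c d : F} (hu : B u u = 0) (hc : c + σ c = 0) (hd : d + σ d = 0) :
    tv h u c * tv h u d = tv h u (c + d) := by
  apply K_ext
  intro x
  rw [mul_apply', tv_apply h hu hd, tv_apply h hu hc, tv_apply h hu (by rw [map_add]; linear_combination hc + hd)]
  simp only [map_add_right, map_smul_right, hu, mul_zero, add_zero]
  module

theorem tv_zero (u : V) : tv h u 0 = 1 := by
  by_cases hu : B u u = 0
  · apply K_ext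
    intro x
    rw [tv_apply h hu (by rw [map_zero, add_zero]), zero_mul, zero_smul, add_zero, one_apply']
  · rw [tv, dif_neg (fun H => hu H.1)]

theorem si_zero {u : V} {c : F} (hu : B u u = 0) (hc : c + σ c = 0) : si h u 0 c = tv h u c := by
  apply K_ext
  intro x
  rw [si_apply h hu (map_zero _) (by rw [map_zero, add_zero, hc]), tv_apply h hu hc, smul_zero, map_zero_left, sub_zero, add_zero]

theorem si_mul {u y y' : V} {c c' : F} (hu : B u u = 0) (hy : B u y = 0) (hc : c + σ c + B y y = 0)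
    (hy' : B u y' = 0) (hc' : c' + σ c' + B y' y' = 0) :
    si h u y c * si h u y' c' = si h u (y + y') (c + c' - B y y') := by
  have hyu : B y u = 0 := comm0 h hy
  have hyu' : B y' u = 0 := comm0 h hy'
  have h1 : c + c' - B y y' + σ (c + c' - B y y') + B (y + y') (y + y') = 0 := by
    rw [map_sub, map_add, h.symm y y', map_add_left, map_add_right, map_add_right]
    linear_combination hc + hc'
  apply K_ext
  intro x
  rw [mul_apply', si_apply h hu hy' hc', si_apply h hu hy hc, si_apply h hu (by rw [map_add_right, hy, hy', add_zero]) h1]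
  simp only [map_add_right, map_smul_right, map_add_left, map_sub_right, hu, hy, hy', hyu, hyu', mul_zero, add_zero, sub_zero]
  module

theorem mem_center_iff (hq : QConj σ q) (hV : 2 ≤ finrank F V) (g : SUL B) :
    g ∈ Subgroup.center (SUL B) ↔ ∃ a : F, ∀ x, g.1 x = a • x := by
  constructor
  · intro hg
    have h1 : ∀ (u : V) (c : F) (hu : B u u = 0) (hc : c + σ c = 0), g.1 * tvH h hu hc = tvH h hu hc * g.1 := by
      intro u c hu hc
      exact (congrArg Subtype.val (Subgroup.mem_center_iff.1 hg ⟨_, tvH_mem h hu hc⟩)).symm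
    obtain ⟨a, _, ha⟩ := scalar_of_fix hq h hV (mem_SUL.1 g.2).1 (fun u hu => fix_of_comm hq h h1 hu)
    exact ⟨a, ha⟩
  · rintro ⟨a, ha⟩
    rw [Subgroup.mem_center_iff]
    intro k
    apply K_ext
    intro x
    rw [mul_apply', mul_apply', ha, ha, map_smul]

theorem center_p [Nontrivial V] {p : ℕ} [Fact p.Prime] [CharP F p] (hq : QConj σ q) (hV : 2 ≤ finrank F V) {g : SUL B}
    (hg : g ∈ Subgroup.center (SUL B)) {k : ℕ} (hk : g ^ (p ^ k) = 1) : g = 1 := by
  obtain ⟨a, ha⟩ := (mem_center_iff h hq hV g).1 hg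
  have h1 : ∀ (n : ℕ) (v : V), (g ^ n).1 v = a ^ n • v := by
    intro n
    induction n with
    | zero => intro v; rw [pow_zero, pow_zero, one_apply', one_smul]
    | succ n ih => intro v; rw [pow_succ, mul_apply', ha, map_smul, ih, smul_smul, pow_succ, mul_comm]
  obtain ⟨v, hv⟩ := exists_ne (0 : V)
  have h2 : a ^ (p ^ k) = 1 := by
    have := h1 (p ^ k) v
    rw [hk, one_apply'] at this
    have h3 : (a ^ (p ^ k) - 1) • v = 0 := by
      rw [sub_smul, ← this, one_smul, sub_self]
    rcases smul_eq_zero.1 h3 with h4 | h4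
    · exact sub_eq_zero.1 h4
    · exact absurd h4 hv
  have h3 : a = 1 := by
    have h4 : (a - 1) ^ (p ^ k) = 0 := by
      rw [sub_pow_char_pow, h2, one_pow, sub_self]
    exact sub_eq_zero.1 (pow_eq_zero_iff (pow_ne_zero _ (Fact.out : p.Prime).ne_zero) |>.1 h4)
  apply K_ext
  intro v
  rw [ha, h3, one_smul, one_apply']

/-- a perpendicular vector in a space of dimension at least three -/
theorem exists_perp_two (hq : QConj σ q) (hV : 3 ≤ finrank F V) (v w : V) : ∃ e : V, e ≠ 0 ∧ B v e = 0 ∧ B w e = 0 := by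
  let L : V →ₗ[F] (Fin 2 → F) := LinearMap.pi ![B v, B w]
  have h1 := LinearMap.finrank_range_add_finrank_ker L
  have h2 : finrank F (LinearMap.range L) ≤ 2 := by
    have := Submodule.finrank_le (LinearMap.range L)
    rwa [Module.finrank_fin_fun] at this
  have h3 : LinearMap.ker L ≠ ⊥ := by
    intro h
    rw [h, finrank_bot] at h1
    omega
  obtain ⟨e, he, he0⟩ := Submodule.exists_mem_ne_zero_of_ne_bot h3
  rw [LinearMap.mem_ker] at he
  refine ⟨e, he0, ?_, ?_⟩
  · simpa [L] using congrFun he 0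
  · simpa [L] using congrFun he 1

omit [FiniteDimensional F V] in
theorem exists_B_one {v : V} (hv : v ≠ 0) : ∃ x : V, B v x = 1 := by
  by_contra! hcon
  apply hv
  apply h.nd
  intro y
  by_contra h0
  apply hcon ((B v y)⁻¹ • y)
  rw [map_smul_right, inv_mul_cancel₀ h0]

/-- the class of a transvection in the quotient by the centre -/
noncomputable def T (u : V) (c : F) : SUL B ⧸ Subgroup.center (SUL B) := QuotientGroup.mk (tv h u c)

theorem conj_T (g : SUL B) {u : V} {c : F} (hu : B u u = 0) (hc : c + σ c = 0) :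
    (QuotientGroup.mk g : SUL B ⧸ Subgroup.center (SUL B)) * T h u c * (QuotientGroup.mk g)⁻¹ = T h (g.1 u) c := by
  change (QuotientGroup.mk (g * tv h u c * g⁻¹) : SUL B ⧸ Subgroup.center (SUL B)) = _
  rw [conj_tv h g hu hc]
  rfl

theorem mk_eq_iff {a b : SUL B} : (QuotientGroup.mk a : SUL B ⧸ Subgroup.center (SUL B)) = QuotientGroup.mk b ↔
    ∃ z ∈ Subgroup.center (SUL B), b = a * z := by
  rw [QuotientGroup.eq]
  constructor
  · intro h
    exact ⟨_, h, by rw [mul_inv_cancel_left]⟩
  · rintro ⟨z, hz, rfl⟩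
    rwa [inv_mul_cancel_left]

theorem T_par (hq : QConj σ q) (hV : 3 ≤ finrank F V) {a b : V} {c d : F} (ha : B a a = 0) (hb : B b b = 0) (hb0 : b ≠ 0)
    (hc : c + σ c = 0) (hd : d + σ d = 0) (hd0 : d ≠ 0) (heq : T h a c = T h b d) : ∃ l : F, b = l • a := by
  obtain ⟨z, hz, hz'⟩ := (mk_eq_iff h).1 heq
  obtain ⟨l, hl⟩ := (mem_center_iff h hq (by omega) z).1 hz
  have h1 : ∀ x, x + (d * B b x) • b = l • (x + (c * B a x) • a) := by
    intro x
    rw [← tv_apply h hb hd, hz', mul_apply', hl, map_smul, tv_apply h ha hc]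
  obtain ⟨e, he0, hea, heb⟩ := exists_perp_two h hq hV a b
  have h2 := h1 e
  rw [hea, heb, mul_zero, mul_zero, zero_smul, zero_smul, add_zero] at h2
  have hl1 : l = 1 := by
    have h3 : (l - 1) • e = 0 := by rw [sub_smul, ← h2, one_smul, sub_self]
    rcases smul_eq_zero.1 h3 with h4 | h4
    · exact sub_eq_zero.1 h4
    · exact absurd h4 he0
  obtain ⟨x, hx⟩ := exists_B_one h hb0
  have h3 := h1 x
  rw [hl1, one_smul, add_right_inj, hx, mul_one] at h3
  refine ⟨d⁻¹ * (c * B a x), ?_⟩
  rw [mul_smul, ← h3, smul_smul, inv_mul_cancel₀ hd0, one_smul]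

theorem T_zero (u : V) : T h u 0 = 1 := by
  rw [T, tv_zero]
  rfl

theorem T_ne_one (hq : QConj σ q) (hV : 3 ≤ finrank F V) {u : V} (hu : B u u = 0) (hu0 : u ≠ 0) {c : F} (hc : c + σ c = 0)
    (hc0 : c ≠ 0) : T h u c ≠ 1 := by
  intro h1
  have h2 : T h 0 0 = T h u c := by rw [h1, T_zero]
  obtain ⟨l, hl⟩ := T_par h hq hV (map_zero _) hu hu0 (by rw [map_zero, add_zero]) hc hc0 h2
  exact hu0 (by rw [hl, smul_zero])

/-- commuting transvections -/
theorem T_comm (hq : QConj σ q) (hV : 3 ≤ finrank F V) {a b : V} {c d : F} (ha : B a a = 0) (hb : B b b = 0) (hb0 : b ≠ 0)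
    (hc : c + σ c = 0) (hc0 : c ≠ 0) (hd : d + σ d = 0) (hd0 : d ≠ 0) : T h a c * T h b d = T h b d * T h a c ↔ B a b = 0 := by
  constructor
  · intro h0
    have h1 : T h a c * T h b d * (T h a c)⁻¹ = T h b d := by rw [h0, mul_inv_cancel_right]
    rw [T, conj_T h _ hb hd, tv_apply h ha hc] at h1
    have hiso : B (b + (c * B a b) • a) (b + (c * B a b) • a) = 0 := by
      rw [← tv_apply h ha hc, pres, hb]
    obtain ⟨l, hl⟩ := T_par h hq hV hiso hb hb0 hd hd hd0 h1
    have h2 := congrArg (B a) hl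
    have h3 := congrArg (B b) hl
    rw [map_smul_right, map_add_right, map_smul_right, ha, mul_zero, add_zero] at h2
    rw [hb, map_smul_right, map_add_right, map_smul_right, hb, zero_add] at h3
    by_contra hne
    have hl1 : l = 1 := by
      have : (l - 1) * B a b = 0 := by rw [sub_mul, ← h2, one_mul, sub_self]
      rcases mul_eq_zero.1 this with h4 | h4
      · exact sub_eq_zero.1 h4
      · exact absurd h4 hne
    rw [hl1, one_mul] at h3
    have hne' : B b a ≠ 0 := fun h4 => hne (comm0 h h4)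
    exact mul_ne_zero (mul_ne_zero hc0 hne) hne' h3.symm
  · intro h0
    have h1 : T h a c * T h b d * (T h a c)⁻¹ = T h b d := by
      rw [T, conj_T h _ hb hd, tv_apply h ha hc, h0, mul_zero, zero_smul, add_zero]
    exact mul_inv_eq_iff_eq_mul.1 h1

end CfsgLib.AutPSU
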