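import Cfsg.Agent.Lib.BEasy23

/-!
# Groups with trivial-intersection Sylow subgroups and trivial cores
-/

set_option autoImplicit false
set_option linter.style.haveILetI false
set_option linter.unusedSectionVars false
set_option linter.unusedVariables false

open scoped Pointwise

namespace CfsgLib.TISimple

open Cfsg Subgroup

universe u

/-- trivial intersection, elementwise -/
def TI {G : Type u} [Group G] (S : Subgroup G) : Prop := ∀ g x : G, x ∈ S → x ≠ 1 → g * x * g⁻¹ ∈ S → g ∈ normalizer (S : Set G)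

/-- the hypothesis -/
structure Hyp (p : ℕ) (G : Type u) [Group G] : Prop where
  op : pCore p G = ⊥
  op' : pPrimeCore p G = ⊥
  ti : ∀ S : Sylow p G, TI (S : Subgroup G)
  nt : Nontrivial G

section

variable {G : Type u} [Group G] [Finite G] {p : ℕ} [hpf : Fact p.Prime]

theorem dvd_of_ne_bot (op' : pPrimeCore p G = ⊥) {K : Subgroup G} (hKn : K.Normal) (hK : K ≠ ⊥) : p ∣ Nat.card K := by
  by_contra hd
  apply hK
  rw [eq_bot_iff, ← op']
  exact CfsgLib.Core.le_pPrimeCore hKn (((Nat.Prime.coprime_iff_not_dvd hpf.out).mpr hd).symm)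

theorem Hyp.exists_mem (h : Hyp p G) {K : Subgroup G} (hKn : K.Normal) (hK : K ≠ ⊥) (S : Sylow p G) : ∃ x ∈ (S : Subgroup G), x ∈ K ∧ x ≠ 1 := by
  have hd := dvd_of_ne_bot h.op' hKn hK
  obtain ⟨y, hy⟩ := exists_prime_orderOf_dvd_card' p hd
  have hy' : orderOf (y : G) = p := by rw [Subgroup.orderOf_coe]; exact hy
  have h1 : IsPGroup p (zpowers (y : G)) := IsPGroup.of_card (n := 1) (by rw [Nat.card_zpowers, hy', pow_one])
  obtain ⟨T, hT⟩ := h1.exists_le_sylow
  obtain ⟨g, hg⟩ := MulAction.exists_smul_eq G T S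
  refine ⟨g * y * g⁻¹, ?_, hKn.conj_mem _ y.2 g, ?_⟩
  · rw [← hg, Sylow.coe_subgroup_smul]
    exact Subgroup.smul_mem_pointwise_smul (y : G) (MulAut.conj g) _ (hT (mem_zpowers _))
  · intro h2
    have h3 : (y : G) = 1 := by
      calc (y : G) = g⁻¹ * (g * y * g⁻¹) * g := by group
        _ = 1 := by rw [h2]; group
    rw [h3, orderOf_one] at hy'
    exact hpf.out.one_lt.ne hy'

theorem Hyp.inf_ne (h : Hyp p G) {K₁ K₂ : Subgroup G} (hn1 : K₁.Normal) (hn2 : K₂.Normal) (h1 : K₁ ≠ ⊥) (h2 : K₂ ≠ ⊥) : K₁ ⊓ K₂ ≠ ⊥ := by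
  intro hbot
  -- `K₂` normalizes every Sylow subgroup
  have hN : ∀ S : Sylow p G, K₂ ≤ normalizer ((S : Subgroup G) : Set G) := by
    intro S g hg
    obtain ⟨x, hxS, hxK, hx1⟩ := h.exists_mem hn1 h1 S
    apply h.ti S g x hxS hx1
    have h3 : g * x * g⁻¹ * x⁻¹ = 1 := by
      rw [← mem_bot, ← hbot]
      refine ⟨K₁.mul_mem (hn1.conj_mem x hxK g) (K₁.inv_mem hxK), ?_⟩
      have h4 : g * x * g⁻¹ * x⁻¹ = g * (x * g⁻¹ * x⁻¹) := by group
      rw [h4]
      exact K₂.mul_mem hg (hn2.conj_mem _ (K₂.inv_mem hg) x)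
    have h4 : g * x * g⁻¹ = x := mul_inv_eq_one.mp h3
    rw [h4]
    exact hxS
  obtain ⟨S⟩ : Nonempty (Sylow p G) := inferInstance
  obtain ⟨x, hxS, hxK, hx1⟩ := h.exists_mem hn2 h2 S
  apply hx1
  rw [← mem_bot, ← h.op, CfsgLib.Core.mem_pCore_iff]
  intro T
  have h5 := IsPGroup.inf_normalizer_sylow S.2 T
  have h6 : x ∈ (S : Subgroup G) ⊓ normalizer ((T : Subgroup G) : Set G) := ⟨hxS, hN T hxK⟩
  have h7 : x ∈ (S : Subgroup G) ⊓ (T : Subgroup G) := by rw [← h5]; exact h6
  exact h7.2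

theorem Hyp.exists_min (h : Hyp p G) : ∃ N : Subgroup G, N.Normal ∧ N ≠ ⊥ ∧ ∀ K : Subgroup G, K.Normal → K ≠ ⊥ → N ≤ K := by
  haveI := h.nt
  obtain ⟨N, ⟨hNn, hN⟩, hmin⟩ := Set.Finite.exists_minimalFor (fun K : Subgroup G => Nat.card K) {K : Subgroup G | K.Normal ∧ K ≠ ⊥} (Set.toFinite _)
    ⟨⊤, inferInstance, by
      intro h1
      have h2 := (Subgroup.nontrivial_iff_ne_bot (⊤ : Subgroup G)).mp inferInstance
      exact h2 h1⟩
  refine ⟨N, hNn, hN, ?_⟩
  intro K hKn hK
  have h1 := h.inf_ne hNn hKn hN hK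
  have h2 : Nat.card N ≤ Nat.card (N ⊓ K : Subgroup G) := by
    haveI := hNn
    haveI := hKn
    exact hmin ⟨inferInstance, h1⟩ (Subgroup.card_le_of_le inf_le_left)
  have h3 := Subgroup.eq_of_le_of_card_ge inf_le_left h2
  rw [← h3]
  exact inf_le_right

theorem Hyp.sub (h : Hyp p G) {N : Subgroup G} (hNn : N.Normal) (hN : N ≠ ⊥) : Hyp p N := by
  haveI := hNn
  refine ⟨?_, ?_, ?_, (Subgroup.nontrivial_iff_ne_bot N).mpr hN⟩
  · haveI : (pCore p N).Characteristic := CfsgLib.Core.pCore_characteristic p _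
    have h1 : ((pCore p N).map N.subtype).Normal := ConjAct.normal_of_characteristic_of_normal
    have h2 : (pCore p N).map N.subtype ≤ pCore p G := CfsgLib.Core.le_pCore h1 ((CfsgLib.Core.pCore_isPGroup p N).map _)
    rw [h.op, le_bot_iff, Subgroup.map_eq_bot_iff_of_injective _ N.subtype_injective] at h2
    exact h2
  · haveI : (pPrimeCore p N).Characteristic := CfsgLib.Core.pPrimeCore_characteristic p _
    have h1 : ((pPrimeCore p N).map N.subtype).Normal := ConjAct.normal_of_characteristic_of_normal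
    have h2 : (pPrimeCore p N).map N.subtype ≤ pPrimeCore p G := CfsgLib.Core.le_pPrimeCore h1 (by
      rw [Subgroup.card_map_of_injective N.subtype_injective]
      exact CfsgLib.Core.card_pPrimeCore_coprime p _)
    rw [h.op', le_bot_iff, Subgroup.map_eq_bot_iff_of_injective _ N.subtype_injective] at h2
    exact h2
  · intro Q g x hx hx1 hgx
    obtain ⟨S, hS⟩ := (Q.2.map N.subtype).exists_le_sylow
    have hQS : ∀ y : N, y ∈ (Q : Subgroup N) ↔ (y : G) ∈ (S : Subgroup G) := by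
      intro y
      constructor
      · intro hy
        exact hS ⟨y, hy, rfl⟩
      · intro hy
        have h1 : (Q : Subgroup N) = (S : Subgroup G).subgroupOf N := by
          have h2 : IsPGroup p ((S : Subgroup G).subgroupOf N) := S.2.comap_of_injective _ N.subtype_injective
          exact (Q.3 h2 (fun z hz => hS ⟨z, hz, rfl⟩)).symm
        rw [h1]
        exact hy
    have h1 : (g : G) ∈ normalizer ((S : Subgroup G) : Set G) := by
      apply h.ti S g x ((hQS x).mp hx) (fun h => hx1 (Subtype.ext h))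
      exact (hQS _).mp hgx
    rw [mem_normalizer_iff]
    intro y
    have h2 := (mem_normalizer_iff.mp h1 (y : G))
    change y ∈ (Q : Subgroup N) ↔ g * y * g⁻¹ ∈ (Q : Subgroup N)
    rw [hQS, hQS]
    exact h2

theorem Hyp.simple (h : Hyp p G) {N : Subgroup G} (hNn : N.Normal) (hN : N ≠ ⊥) (hmin : ∀ K : Subgroup G, K.Normal → K ≠ ⊥ → N ≤ K) : IsSimpleGroup N := by
  have hN' := h.sub hNn hN
  obtain ⟨K, hKn, hK, hKmin⟩ := hN'.exists_min
  -- `K` is normal in `G`
  have hK2 : (K.map N.subtype).Normal := by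
    constructor
    rintro _ ⟨k, hk, rfl⟩ g
    set K' : Subgroup N := K.comap (MulAut.conjNormal g⁻¹ : MulAut N).toMonoidHom with hK'
    have h1 : K'.Normal := hKn.comap _
    have hcard : Nat.card K' = Nat.card K := by
      apply Nat.card_congr
      exact ((MulAut.conjNormal g⁻¹ : MulAut N).toEquiv.subtypeEquiv (fun a => Iff.rfl))
    have h2 : K' ≠ ⊥ := by
      intro h3
      apply hK
      rw [← Subgroup.card_eq_one, ← hcard, h3, Subgroup.card_bot]
    have h3 := hKmin K' h1 h2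
    have h4 : K = K' := Subgroup.eq_of_le_of_card_ge h3 hcard.le
    have h5 : (MulAut.conjNormal g : MulAut N) k ∈ K' := by
      rw [hK', mem_comap]
      change (MulAut.conjNormal g⁻¹ : MulAut N) ((MulAut.conjNormal g : MulAut N) k) ∈ K
      have : (MulAut.conjNormal g⁻¹ : MulAut N) ((MulAut.conjNormal g : MulAut N) k) = k := by
        apply Subtype.ext
        rw [MulAut.conjNormal_apply, MulAut.conjNormal_apply]
        group
      rw [this]
      exact hk
    rw [← h4] at h5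
    exact ⟨_, h5, MulAut.conjNormal_apply g k⟩
  have hK3 : K.map N.subtype ≠ ⊥ := by
    rw [Ne, Subgroup.map_eq_bot_iff_of_injective _ N.subtype_injective]
    exact hK
  have hK4 := hmin _ hK2 hK3
  have hKtop : K = ⊤ := by
    rw [eq_top_iff]
    intro y _
    obtain ⟨z, hz, hzy⟩ := hK4 y.2
    have : z = y := Subtype.ext hzy
    rw [← this]; exact hz
  haveI := hN'.nt
  refine { eq_bot_or_eq_top_of_normal := ?_ }
  intro L hL
  by_cases h1 : L = ⊥
  · exact Or.inl h1
  · right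
    rw [eq_top_iff, ← hKtop]
    exact hKmin L hL h1

theorem Hyp.not_comm (h : Hyp p G) : ∃ a b : G, a * b ≠ b * a := by
  by_contra hc
  push Not at hc
  haveI := h.nt
  obtain ⟨S⟩ : Nonempty (Sylow p G) := inferInstance
  obtain ⟨x, hxS, -, hx1⟩ := h.exists_mem (K := ⊤) inferInstance (by
    intro h1
    have h2 := (Subgroup.nontrivial_iff_ne_bot (⊤ : Subgroup G)).mp inferInstance
    exact h2 h1) S
  apply hx1
  rw [← mem_bot, ← h.op, CfsgLib.Core.mem_pCore_iff]
  intro T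
  obtain ⟨g, hg⟩ := MulAction.exists_smul_eq G S T
  rw [← hg, Sylow.coe_subgroup_smul]
  have h1 := Subgroup.smul_mem_pointwise_smul x (MulAut.conj g) _ hxS
  have h2 : MulAut.conj g • x = x := by
    change g * x * g⁻¹ = x
    rw [hc g x]; group
  rwa [h2] at h1

theorem Hyp.centralizer (h : Hyp p G) {N : Subgroup G} (hNn : N.Normal) (hN : N ≠ ⊥) (hmin : ∀ K : Subgroup G, K.Normal → K ≠ ⊥ → N ≤ K) : Subgroup.centralizer (N : Set G) = ⊥ := by
  by_contra hc
  haveI := hNn
  have h1 := hmin _ (inferInstance : (Subgroup.centralizer (N : Set G)).Normal) hc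
  obtain ⟨a, b, hab⟩ := (h.sub hNn hN).not_comm
  apply hab
  apply Subtype.ext
  exact (mem_centralizer_iff.mp (h1 b.2) a a.2)

end

theorem s4620 {H : Type u} [Group H] [Finite H] {p : ℕ} [hpf : Fact p.Prime] (hOp : pCore p H = ⊥) (hOp' : pPrimeCore p H = ⊥) (P : Sylow p H) (hP1 : (P : Subgroup H) ≠ ⊥)
    (hTI : ∀ g : H, g ∉ normalizer ((P : Subgroup H) : Set H) → (P : Subgroup H) ⊓ (MulAut.conj g • (P : Subgroup H)) = ⊥) :
    ∃ N : Subgroup H, N.Normal ∧ N ≠ ⊥ ∧ (∀ K : Subgroup H, K.Normal → K ≠ ⊥ → N ≤ K) ∧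
      IsSimpleGroup N ∧ ¬ IsMulCommutative N ∧ Subgroup.centralizer (N : Set H) = ⊥ ∧
      ∀ Q : Sylow p N, (Q : Subgroup N) ≠ ⊥ ∧
        ∀ n : N, n ∉ normalizer ((Q : Subgroup N) : Set N) → (Q : Subgroup N) ⊓ (MulAut.conj n • (Q : Subgroup N)) = ⊥ := by
  have hP : TI (P : Subgroup H) := by
    intro g x hx hx1 hgx
    by_contra hg
    have h1 := hTI g hg
    apply hx1
    have h2 : g * x * g⁻¹ ∈ (P : Subgroup H) ⊓ (MulAut.conj g • (P : Subgroup H)) := ⟨hgx, Subgroup.smul_mem_pointwise_smul x (MulAut.conj g) _ hx⟩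
    rw [h1, mem_bot] at h2
    calc x = g⁻¹ * (g * x * g⁻¹) * g := by group
      _ = 1 := by rw [h2]; group
  have hall : ∀ S : Sylow p H, TI (S : Subgroup H) := by
    intro S
    obtain ⟨c, hc⟩ := MulAction.exists_smul_eq H P S
    have hmem : ∀ y : H, y ∈ (S : Subgroup H) ↔ c⁻¹ * y * c ∈ (P : Subgroup H) := by
      intro y
      rw [← hc, Sylow.coe_subgroup_smul, Subgroup.mem_pointwise_smul_iff_inv_smul_mem]
      have : (MulAut.conj c)⁻¹ • y = c⁻¹ * y * c := by
        rw [← map_inv]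
        change c⁻¹ * y * c⁻¹⁻¹ = _
        rw [inv_inv]
      rw [this]
    intro g x hx hx1 hgx
    rw [hmem] at hx hgx
    have h1 := hP (c⁻¹ * g * c) (c⁻¹ * x * c) hx (by
      intro h2
      apply hx1
      calc x = c * (c⁻¹ * x * c) * c⁻¹ := by group
        _ = 1 := by rw [h2]; group) (by
      have : c⁻¹ * g * c * (c⁻¹ * x * c) * (c⁻¹ * g * c)⁻¹ = c⁻¹ * (g * x * g⁻¹) * c := by group
      rw [this]
      exact hgx)
    rw [mem_normalizer_iff] at h1 ⊢
    intro y
    change y ∈ (S : Subgroup H) ↔ g * y * g⁻¹ ∈ (S : Subgroup H)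
    rw [hmem, hmem]
    have h2 := h1 (c⁻¹ * y * c)
    have h3 : c⁻¹ * g * c * (c⁻¹ * y * c) * (c⁻¹ * g * c)⁻¹ = c⁻¹ * (g * y * g⁻¹) * c := by group
    rw [h3] at h2
    exact h2
  have hyp : Hyp p H := by
    refine ⟨hOp, hOp', hall, ?_⟩
    obtain ⟨x, hx, hx1⟩ := (P : Subgroup H).bot_or_exists_ne_one.resolve_left hP1
    exact ⟨⟨x, 1, hx1⟩⟩
  obtain ⟨N, hNn, hN, hmin⟩ := hyp.exists_min
  have hN' := hyp.sub hNn hN
  refine ⟨N, hNn, hN, hmin, hyp.simple hNn hN hmin, ?_, hyp.centralizer hNn hN hmin, ?_⟩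
  · intro hc
    obtain ⟨a, b, hab⟩ := hN'.not_comm
    exact hab (hc.is_comm.comm a b)
  · intro Q
    constructor
    · intro h1
      haveI := hN'.nt
      obtain ⟨x, hxQ, -, hx1⟩ := hN'.exists_mem (K := ⊤) inferInstance (by
        intro h1
        have h2 := (Subgroup.nontrivial_iff_ne_bot (⊤ : Subgroup N)).mp inferInstance
        exact h2 h1) Q
      rw [h1, mem_bot] at hxQ
      exact hx1 hxQ
    · intro n hn
      rw [eq_bot_iff]
      rintro y ⟨hy1, hy2⟩
      rw [mem_bot]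
      by_contra hy
      apply hn
      have hy2' : y ∈ MulAut.conj n • (Q : Subgroup N) := hy2
      rw [Subgroup.mem_pointwise_smul_iff_inv_smul_mem] at hy2'
      have h3 : (MulAut.conj n)⁻¹ • y = n⁻¹ * y * n := by
        rw [← map_inv]
        change n⁻¹ * y * n⁻¹⁻¹ = _
        rw [inv_inv]
      rw [h3] at hy2'
      apply hN'.ti Q n (n⁻¹ * y * n) hy2'
      · intro h4
        apply hy
        calc y = n * (n⁻¹ * y * n) * n⁻¹ := by group
          _ = 1 := by rw [h4]; group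
      · have : n * (n⁻¹ * y * n) * n⁻¹ = y := by group
        rw [this]
        exact hy1

end CfsgLib.TISimple
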