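import Cfsg.Agent.Lib.BEasy39
import Cfsg.Agent.Lib.BGlau2
import Cfsg.Agent.Lib.CharFS

/-!
# Invariant real characters and classes
-/

set_option autoImplicit false
set_option linter.style.haveILetI false
set_option linter.unusedSectionVars false
set_option linter.unusedVariables false

open scoped ComplexConjugate Pointwise

namespace CfsgLib.RealInv

open Cfsg CfsgLib.CharBasic CfsgLib.CharInd CfsgLib.Block

universe u v w

section

variable {G : Type u} {A : Type w} [Group G] [Fintype G] [Group A] [Finite A] (φ : A →* MulAut G) {q : ℕ} {M : Ideal AlgInt}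

theorem ic_apply (χ : IrrCharacter G) : ∃ χ' : IrrCharacter G, ∀ g, (χ' : G → ℂ) g = conj ((χ : G → ℂ) g) := ⟨⟨_, IsIrrCharacter.conj χ.2⟩, fun _ => rfl⟩

/-- complex conjugate -/
noncomputable def ic (χ : IrrCharacter G) : IrrCharacter G := ⟨_, IsIrrCharacter.conj χ.2⟩

theorem ic_ap (χ : IrrCharacter G) (g : G) : (ic χ : G → ℂ) g = conj ((χ : G → ℂ) g) := rfl

theorem ic_eq_iff (χ : IrrCharacter G) : ic χ = χ ↔ ∀ g, ((χ : G → ℂ) g).im = 0 := by
  constructor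
  · intro h g
    apply Complex.conj_eq_iff_im.mp
    rw [← ic_ap, h]
  · intro h
    apply Subtype.ext
    funext g
    rw [ic_ap]
    exact Complex.conj_eq_iff_im.mpr (h g)

theorem real_chars (hM : IsPModular q M) (hA : IsPGroup q A) (hG : ¬ q ∣ Nat.card G) :
    Nat.card {χ : IrrCharacter G // (∀ g, ((χ : G → ℂ) g).im = 0) ∧ InvIrr φ χ} = Nat.card {β : IrrCharacter (fixS φ (⊤ : Subgroup A)) // ∀ c, ((β : fixS φ (⊤ : Subgroup A) → ℂ) c).im = 0} := by
  classical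
  letI := actB φ (⊤ : Subgroup A)
  haveI : Fintype (fixS φ (⊤ : Subgroup A)) := Fintype.ofFinite _
  have hg : GSet (fixS φ (⊤ : Subgroup A)).subtype q (⊤ : Subgroup A) := gset_fixS φ _ (hA.to_subgroup _) hG
  have hAB : ∀ χ : IrrCharacter G, InvIrr φ χ → AInv (⊤ : Subgroup A) (χ : G → ℂ) := fun χ h b g => h b g
  have hBA : ∀ χ : IrrCharacter G, AInv (⊤ : Subgroup A) (χ : G → ℂ) → InvIrr φ χ := fun χ h a g => h ⟨a, Subgroup.mem_top a⟩ g
  have hconj : ∀ (χ : IrrCharacter G) (β : IrrCharacter (fixS φ (⊤ : Subgroup A))) (n : ℕ),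
      rInner (fixS φ (⊤ : Subgroup A)).subtype (χ : G → ℂ) (β : fixS φ (⊤ : Subgroup A) → ℂ) = n →
      rInner (fixS φ (⊤ : Subgroup A)).subtype (ic χ : G → ℂ) (ic β : fixS φ (⊤ : Subgroup A) → ℂ) = n := by
    intro χ β n hn
    have h1 : rInner (fixS φ (⊤ : Subgroup A)).subtype (ic χ : G → ℂ) (ic β : fixS φ (⊤ : Subgroup A) → ℂ) = conj (rInner (fixS φ (⊤ : Subgroup A)).subtype (χ : G → ℂ) (β : fixS φ (⊤ : Subgroup A) → ℂ)) := by
      unfold rInner classInner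
      rw [map_mul, map_inv₀, Complex.conj_natCast, map_sum]
      congr 1
      apply Finset.sum_congr rfl
      intro c _
      rw [map_mul]
      rfl
    rw [h1, hn, Complex.conj_natCast]
  have hex : ∀ χ : {χ : IrrCharacter G // (∀ g, ((χ : G → ℂ) g).im = 0) ∧ InvIrr φ χ}, ∃ β : {β : IrrCharacter (fixS φ (⊤ : Subgroup A)) // ∀ c, ((β : fixS φ (⊤ : Subgroup A) → ℂ) c).im = 0},
      ∃ n : ℕ, rInner (fixS φ (⊤ : Subgroup A)).subtype (χ.1 : G → ℂ) (β.1 : fixS φ (⊤ : Subgroup A) → ℂ) = n ∧ ¬ q ∣ n := by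
    rintro ⟨χ, hr, hχ⟩
    obtain ⟨β, n, hn, hnq⟩ := glau_exists_beta hM hg χ
    refine ⟨⟨β, ?_⟩, n, hn, hnq⟩
    rw [← ic_eq_iff]
    have h1 := hconj χ β n hn
    rw [(ic_eq_iff χ).mpr hr] at h1
    exact glau_beta_unique hM hg (hAB χ hχ) h1 hnq hn hnq
  choose F hF using hex
  apply Nat.card_eq_of_bijective F
  constructor
  · intro χ χ' h
    obtain ⟨n, hn, hnq⟩ := hF χ
    obtain ⟨n', hn', hnq'⟩ := hF χ'
    rw [h] at hn
    exact Subtype.ext (glau_chi_unique hM hg (hAB _ χ.2.2) (hAB _ χ'.2.2) hn hnq hn' hnq')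
  · rintro ⟨β, hβ⟩
    obtain ⟨χ, n, hχB, hn, hnq⟩ := glau_exists_chi hM hg β
    have hχ : InvIrr φ χ := hBA χ hχB
    have hr : ∀ g, ((χ : G → ℂ) g).im = 0 := by
      rw [← ic_eq_iff]
      have h1 := hconj χ β n hn
      rw [(ic_eq_iff β).mpr hβ] at h1
      have h2 : AInv (⊤ : Subgroup A) (ic χ : G → ℂ) := by
        intro b x
        rw [ic_ap, ic_ap, hχB]
      exact glau_chi_unique hM hg h2 hχB h1 hnq hn hnq
    refine ⟨⟨χ, hr, hχ⟩, ?_⟩
    obtain ⟨n', hn', hnq'⟩ := hF ⟨χ, hr, hχ⟩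
    exact Subtype.ext (glau_beta_unique hM hg hχB hn' hnq' hn hnq)

/-- a fixed element in an invariant class -/
theorem exists_fixed_cls (hq : q.Prime) (hA : IsPGroup q A) (hG : ¬ q ∣ Nat.card G) {K : ConjClasses G} (hK : InvCls φ K) : ∃ x ∈ fixS φ (⊤ : Subgroup A), ConjClasses.mk x = K := by
  classical
  haveI : Fact q.Prime := ⟨hq⟩
  obtain ⟨g₀, hg₀⟩ := ConjClasses.mk_surjective K
  let X := {g : G // ConjClasses.mk g = K}
  letI : MulAction A X :=
    { smul := fun b x => ⟨φ b x.1, hK b x.1 x.2⟩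
      one_smul := fun x => Subtype.ext (by
        show φ (1 : A) x.1 = x.1
        rw [map_one]; rfl)
      mul_smul := fun b c x => Subtype.ext (by
        show φ ((b : A) * c) x.1 = φ b (φ c x.1)
        rw [map_mul]; rfl) }
  have hcard : Nat.card X ∣ Nat.card G := by
    have h1 : Nat.card X = Nat.card {x : G // IsConj g₀ x} := by
      apply Nat.card_congr
      apply Equiv.subtypeEquivRight
      intro x
      rw [← hg₀, ConjClasses.mk_eq_mk_iff_isConj]
      exact isConj_comm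
    rw [h1, card_isConj_eq_index]
    exact Subgroup.index_dvd_card _
  obtain ⟨x, hx⟩ := hA.nonempty_fixed_point_of_prime_not_dvd_card X (fun h => hG (h.trans hcard))
  exact ⟨x.1, fun b _ => congrArg Subtype.val (hx b), x.2⟩

theorem real_classes (hM : IsPModular q M) (hA : IsPGroup q A) (hG : ¬ q ∣ Nat.card G) :
    Nat.card {K : ConjClasses G // (∀ k, ConjClasses.mk k = K → IsConj k k⁻¹) ∧ InvCls φ K} = Nat.card {L : ConjClasses (fixS φ (⊤ : Subgroup A)) // ∀ c, ConjClasses.mk c = L → IsConj c c⁻¹} := by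
  classical
  letI := actB φ (⊤ : Subgroup A)
  haveI : Fact q.Prime := ⟨hM.1⟩
  haveI : Fintype (fixS φ (⊤ : Subgroup A)) := Fintype.ofFinite _
  have hg : GSet (fixS φ (⊤ : Subgroup A)).subtype q (⊤ : Subgroup A) := gset_fixS φ _ (hA.to_subgroup _) hG
  have hfus : ∀ c c' : fixS φ (⊤ : Subgroup A), IsConj (c : G) (c' : G) → IsConj c c' := fun c c' h => hg.fusion hM h
  have hmap : ∀ L : {L : ConjClasses (fixS φ (⊤ : Subgroup A)) // ∀ c, ConjClasses.mk c = L → IsConj c c⁻¹}, (∀ k, ConjClasses.mk k = ConjClasses.map (fixS φ (⊤ : Subgroup A)).subtype L.1 → IsConj k k⁻¹) ∧ InvCls φ (ConjClasses.map (fixS φ (⊤ : Subgroup A)).subtype L.1) := by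
    rintro ⟨L, hL⟩
    obtain ⟨c, rfl⟩ := ConjClasses.mk_surjective L
    have h0 : IsConj (c : G) (c : G)⁻¹ := MonoidHom.map_isConj (fixS φ (⊤ : Subgroup A)).subtype (hL c rfl)
    constructor
    · intro k hk
      have h1 : IsConj k (c : G) := ConjClasses.mk_eq_mk_iff_isConj.mp hk
      have h2 : IsConj (c : G)⁻¹ k⁻¹ := by
        obtain ⟨x, hx⟩ := isConj_iff.mp h1.symm
        rw [isConj_iff]
        refine ⟨x, ?_⟩
        rw [← hx]; group
      exact h1.trans (h0.trans h2)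
    · intro a g hgL
      have h1 : IsConj g (c : G) := ConjClasses.mk_eq_mk_iff_isConj.mp hgL
      show ConjClasses.mk (φ a g) = ConjClasses.mk (c : G)
      rw [ConjClasses.mk_eq_mk_iff_isConj]
      have h4 : IsConj (φ a g) (φ a (c : G)) := MonoidHom.map_isConj (φ a).toMonoidHom h1
      rw [c.2 a (Subgroup.mem_top a)] at h4
      exact h4
  symm
  apply Nat.card_eq_of_bijective (fun L => (⟨ConjClasses.map (fixS φ (⊤ : Subgroup A)).subtype L.1, hmap L⟩ : {K : ConjClasses G // (∀ k, ConjClasses.mk k = K → IsConj k k⁻¹) ∧ InvCls φ K}))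
  constructor
  · rintro ⟨L, hL⟩ ⟨L', hL'⟩ h
    have h1 := congrArg Subtype.val h
    simp only at h1
    apply Subtype.ext
    obtain ⟨c, rfl⟩ := ConjClasses.mk_surjective L
    obtain ⟨c', rfl⟩ := ConjClasses.mk_surjective L'
    have h2 : IsConj (c : G) (c' : G) := ConjClasses.mk_eq_mk_iff_isConj.mp h1
    exact ConjClasses.mk_eq_mk_iff_isConj.mpr (hfus c c' h2)
  · rintro ⟨K, hKr, hK⟩
    obtain ⟨x, hx, hxK⟩ := exists_fixed_cls φ hM.1 hA hG hK
    refine ⟨⟨ConjClasses.mk ⟨x, hx⟩, ?_⟩, Subtype.ext hxK⟩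
    intro c hc
    have h1 : IsConj c ⟨x, hx⟩ := ConjClasses.mk_eq_mk_iff_isConj.mp hc
    apply hfus
    have h2 : ConjClasses.mk (c : G) = K := by
      rw [← hxK, ConjClasses.mk_eq_mk_iff_isConj]
      exact MonoidHom.map_isConj (fixS φ (⊤ : Subgroup A)).subtype h1
    exact hKr _ h2

theorem main1 (hM : IsPModular q M) (hA : IsPGroup q A) (hG : ¬ q ∣ Nat.card G) :
    Nat.card {χ : IrrCharacter G // (∀ g, ((χ : G → ℂ) g).im = 0) ∧ InvIrr φ χ} = Nat.card {K : ConjClasses G // (∀ k, ConjClasses.mk k = K → IsConj k k⁻¹) ∧ InvCls φ K} := by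
  rw [real_chars φ hM hA hG, real_classes φ hM hA hG, CfsgLib.CharFS.card_real]

theorem main2 (hM : IsPModular q M) (hA : IsPGroup q A) (hG : ¬ q ∣ Nat.card G)
    (h : ∀ χ : IrrCharacter G, (∀ g, ((χ : G → ℂ) g).im = 0) → InvIrr φ χ) (k : G) (hk : IsConj k k⁻¹) : ∃ k' ∈ fixS φ (⊤ : Subgroup A), IsConj k k' := by
  classical
  have h1 := main1 φ hM hA hG
  have h2 : Nat.card {χ : IrrCharacter G // (∀ g, ((χ : G → ℂ) g).im = 0) ∧ InvIrr φ χ} = Nat.card {χ : IrrCharacter G // ∀ g, ((χ : G → ℂ) g).im = 0} := by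
    apply Nat.card_congr
    apply Equiv.subtypeEquivRight
    intro χ
    exact ⟨fun h => h.1, fun h' => ⟨h', h χ h'⟩⟩
  rw [h2, CfsgLib.CharFS.card_real] at h1
  -- every real class is invariant
  have h3 : ∀ K : ConjClasses G, (∀ k, ConjClasses.mk k = K → IsConj k k⁻¹) → InvCls φ K := by
    intro K hK
    let f : {K : ConjClasses G // (∀ k, ConjClasses.mk k = K → IsConj k k⁻¹) ∧ InvCls φ K} → {K : ConjClasses G // ∀ k, ConjClasses.mk k = K → IsConj k k⁻¹} := fun K => ⟨K.1, K.2.1⟩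
    have hf : Function.Injective f := by
      intro a b hab
      have h4 := congrArg Subtype.val hab
      exact Subtype.ext h4
    have hfs : Function.Surjective f := ((Nat.bijective_iff_injective_and_card f).mpr ⟨hf, h1.symm⟩).2
    obtain ⟨L, hL⟩ := hfs ⟨K, hK⟩
    have : L.1 = K := congrArg Subtype.val hL
    rw [← this]
    exact L.2.2
  have hreal : ∀ k', ConjClasses.mk k' = ConjClasses.mk k → IsConj k' k'⁻¹ := by
    intro k' hk'
    have h4 : IsConj k' k := ConjClasses.mk_eq_mk_iff_isConj.mp hk'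
    have h5 : IsConj k⁻¹ k'⁻¹ := by
      obtain ⟨x, hx⟩ := isConj_iff.mp h4.symm
      rw [isConj_iff]
      refine ⟨x, ?_⟩
      rw [← hx]; group
    exact h4.trans (hk.trans h5)
  obtain ⟨x, hx, hxK⟩ := exists_fixed_cls φ hM.1 hA hG (h3 (ConjClasses.mk k) hreal)
  exact ⟨x, hx, (ConjClasses.mk_eq_mk_iff_isConj.mp hxK).symm⟩

end

section

variable {G : Type u} [Group G] [Finite G] (P K : Subgroup G) (hPK : P ≤ Subgroup.normalizer (K : Set G))

/-- conjugation -/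
def act : P →* MulAut K where
  toFun x :=
    { toFun := fun k => ⟨x * k * (x : G)⁻¹, (Subgroup.mem_normalizer_iff.mp (hPK x.2) k).mp k.2⟩
      invFun := fun k => ⟨(x : G)⁻¹ * k * x, by
        have := (Subgroup.mem_normalizer_iff.mp (hPK (P.inv_mem x.2)) k).mp k.2
        rwa [inv_inv] at this⟩
      left_inv := fun k => Subtype.ext (by
        show (x : G)⁻¹ * (x * k * (x : G)⁻¹) * x = k
        group)
      right_inv := fun k => Subtype.ext (by
        show (x : G) * ((x : G)⁻¹ * k * x) * (x : G)⁻¹ = k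
        group)
      map_mul' := fun g h => Subtype.ext (by
        show (x : G) * (g * h) * (x : G)⁻¹ = (x * g * (x : G)⁻¹) * (x * h * (x : G)⁻¹)
        group) }
  map_one' := by
    ext k
    show ((1 : P) : G) * k * ((1 : P) : G)⁻¹ = k
    simp
  map_mul' := fun a b => by
    ext k
    show ((a * b : P) : G) * k * ((a * b : P) : G)⁻¹ = a * (b * k * (b : G)⁻¹) * (a : G)⁻¹
    push_cast
    group

theorem act_coe (x : P) (k : K) : ((act P K hPK x k : K) : G) = x * k * (x : G)⁻¹ := rfl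

include hPK in
theorem s4911 {p : ℕ} [Fact p.Prime] (hP : IsPGroup p ↥P) (hK : ¬ p ∣ Nat.card ↥K) : Nat.card {θ : IrrCharacter ↥K // (∀ k : ↥K, ((θ : ↥K → ℂ) k).im = 0) ∧ (∀ x ∈ P, ∀ k k' : ↥K, (k' : G) = x * (k : G) * x⁻¹ → (θ : ↥K → ℂ) k' = (θ : ↥K → ℂ) k)} = Nat.card {c : ConjClasses ↥K // (∀ k : ↥K, ConjClasses.mk k = c → IsConj k k⁻¹) ∧ ∀ k : ↥K, ConjClasses.mk k = c → ∀ x ∈ P, ∀ k' : ↥K, (k' : G) = x * (k : G) * x⁻¹ → ConjClasses.mk k' = c} ∧ ((∀ θ : IrrCharacter ↥K, (∀ k : ↥K, ((θ : ↥K → ℂ) k).im = 0) → (∀ x ∈ P, ∀ k k' : ↥K, (k' : G) = x * (k : G) * x⁻¹ → (θ : ↥K → ℂ) k' = (θ : ↥K → ℂ) k)) → ∀ k : ↥K, IsConj k k⁻¹ → ∃ k' : ↥K, IsConj k k' ∧ ∀ x ∈ P, x * (k' : G) * x⁻¹ = (k' : G)) := by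
  classical
  haveI : Fintype K := Fintype.ofFinite K
  obtain ⟨M, hM⟩ := exists_isPModular (Fact.out : p.Prime)
  have e1 : ∀ θ : IrrCharacter K, (∀ x ∈ P, ∀ k k' : ↥K, (k' : G) = x * (k : G) * x⁻¹ → (θ : ↥K → ℂ) k' = (θ : ↥K → ℂ) k) ↔ InvIrr (act P K hPK) θ := by
    intro θ
    constructor
    · intro h a g
      exact h a a.2 g _ rfl
    · intro h x hx k k' hk'
      have h1 := h ⟨x, hx⟩ k
      have h2 : act P K hPK ⟨x, hx⟩ k = k' := Subtype.ext hk'.symm
      rw [h2] at h1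
      exact h1
  have e2 : ∀ c : ConjClasses K, (∀ k : ↥K, ConjClasses.mk k = c → ∀ x ∈ P, ∀ k' : ↥K, (k' : G) = x * (k : G) * x⁻¹ → ConjClasses.mk k' = c) ↔ InvCls (act P K hPK) c := by
    intro c
    constructor
    · intro h a g hg
      exact h g hg a a.2 _ rfl
    · intro h k hk x hx k' hk'
      have h1 := h ⟨x, hx⟩ k hk
      have h2 : act P K hPK ⟨x, hx⟩ k = k' := Subtype.ext hk'.symm
      rw [h2] at h1
      exact h1
  constructor
  · have h1 := main1 (act P K hPK) hM hP hK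
    have h2 : Nat.card {θ : IrrCharacter ↥K // (∀ k : ↥K, ((θ : ↥K → ℂ) k).im = 0) ∧ (∀ x ∈ P, ∀ k k' : ↥K, (k' : G) = x * (k : G) * x⁻¹ → (θ : ↥K → ℂ) k' = (θ : ↥K → ℂ) k)} = Nat.card {χ : IrrCharacter K // (∀ g, ((χ : K → ℂ) g).im = 0) ∧ InvIrr (act P K hPK) χ} := by
      apply Nat.card_congr
      apply Equiv.subtypeEquivRight
      intro θ
      rw [e1 θ]
    have h3 : Nat.card {c : ConjClasses ↥K // (∀ k : ↥K, ConjClasses.mk k = c → IsConj k k⁻¹) ∧ ∀ k : ↥K, ConjClasses.mk k = c → ∀ x ∈ P, ∀ k' : ↥K, (k' : G) = x * (k : G) * x⁻¹ → ConjClasses.mk k' = c} = Nat.card {K' : ConjClasses K // (∀ k, ConjClasses.mk k = K' → IsConj k k⁻¹) ∧ InvCls (act P K hPK) K'} := by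
      apply Nat.card_congr
      apply Equiv.subtypeEquivRight
      intro c
      rw [e2 c]
    rw [h2, h3, h1]
  · intro h k hk
    obtain ⟨k', hk', hc⟩ := main2 (act P K hPK) hM hP hK (fun χ hχ => (e1 χ).mp (h χ hχ)) k hk
    refine ⟨k', hc, fun x hx => ?_⟩
    exact congrArg Subtype.val (hk' ⟨x, hx⟩ (Subgroup.mem_top _))

end

end CfsgLib.RealInv
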