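import Cfsg.Agent.Lib.BEasy38
import Cfsg.Agent.Lib.CharClifford

/-!
# Galois action of p-power order on constituents of a restriction
-/

set_option autoImplicit false
set_option linter.style.haveILetI false
set_option linter.unusedSectionVars false
set_option linter.unusedVariables false

open scoped ComplexConjugate Pointwise commutatorElement

namespace CfsgLib.Lam

open Cfsg CfsgLib.CharBasic CfsgLib.CharGalois

universe u v

theorem inner_pw {K : Type v} [Group K] [Fintype K] {k : ℕ} (hk : Nat.Coprime k (Nat.card K)) (f : K → ℂ) (hf : ∀ x, f (x ^ k) = f x) (ψ : IrrCharacter K) :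
    classInner f (pw k hk ψ : K → ℂ) = classInner f (ψ : K → ℂ) := by
  rw [classInner, classInner]
  congr 1
  have hbij : Function.Bijective (fun x : K => x ^ k) := Finite.surjective_iff_bijective.mp (fun g => pow_surj hk g)
  rw [← Function.Bijective.sum_comp hbij (fun x => f x * conj ((ψ : K → ℂ) x))]
  apply Finset.sum_congr rfl
  intro x _
  simp only [hf]
  rfl

theorem pw_iter {K : Type v} [Group K] [Fintype K] {k : ℕ} (hk : Nat.Coprime k (Nat.card K)) (σ : Equiv.Perm (IrrCharacter K)) (hσ : ∀ ψ, σ ψ = pw k hk ψ) (m : ℕ) (ψ : IrrCharacter K) (x : K) : (((σ ^ m) ψ : IrrCharacter K) : K → ℂ) x = (ψ : K → ℂ) (x ^ (k ^ m)) := by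
  induction m generalizing x with
  | zero => simp
  | succ m ih =>
    rw [pow_succ', Equiv.Perm.mul_apply, hσ]
    change (((σ ^ m) ψ : IrrCharacter K) : K → ℂ) (x ^ k) = _
    rw [ih, ← pow_mul, ← pow_succ']

theorem s4518 {G : Type u} [Group G] [Fintype G] (p : ℕ) [Fact p.Prime] (N : Subgroup G) [hN : N.Normal] [Fintype N] (hidx : ¬ p ∣ N.index) (k e : ℕ) (hk : Nat.Coprime k (Nat.card G)) (hke : k ^ (p ^ e) ≡ 1 [MOD Nat.card G]) (χ : IrrCharacter G) (hχ : ∀ g : G, (χ : G → ℂ) (g ^ k) = (χ : G → ℂ) g) (θ : IrrCharacter N) (hθ : classInner (fun n : N => (χ : G → ℂ) n) (θ : N → ℂ) ≠ 0) : ∀ n : N, (θ : N → ℂ) (n ^ k) = (θ : N → ℂ) n := by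
  classical
  have hkN : Nat.Coprime k (Nat.card N) := hk.coprime_dvd_right (Subgroup.card_subgroup_dvd_card N)
  have hinv : ∀ ψ : IrrCharacter N, classInner (fun n : N => (χ : G → ℂ) n) (pw k hkN ψ : N → ℂ) = classInner (fun n : N => (χ : G → ℂ) n) (ψ : N → ℂ) := fun ψ => inner_pw hkN _ (fun x => by simpa using hχ x) ψ
  obtain ⟨σ, hσ⟩ : ∃ σ : Equiv.Perm (IrrCharacter N), ∀ ψ, σ ψ = pw k hkN ψ := ⟨Equiv.ofBijective (pw k hkN) (Finite.injective_iff_bijective.mp (pw_injective hkN)), fun ψ => rfl⟩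
  have hpow : ∀ ψ, (σ ^ (p ^ e)) ψ = ψ := by
    intro ψ
    apply Subtype.ext
    funext x
    rw [pw_iter hkN σ hσ]
    have : x ^ (k ^ (p ^ e)) = x := by
      have h1 : (k ^ (p ^ e)) ≡ 1 [MOD orderOf x] := hke.of_dvd ((orderOf_dvd_natCard x).trans (Subgroup.card_subgroup_dvd_card N))
      have h2 := (pow_eq_pow_iff_modEq (x := x)).mpr h1
      rwa [pow_one] at h2
    rw [this]
  have hP : ∀ ψ : IrrCharacter N, classInner (fun n : N => (χ : G → ℂ) n) (σ ψ : N → ℂ) ≠ 0 ↔ classInner (fun n : N => (χ : G → ℂ) n) (ψ : N → ℂ) ≠ 0 := by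
    intro ψ
    rw [hσ, hinv]
  have hcard : Fintype.card {ψ : IrrCharacter N // classInner (fun n : N => (χ : G → ℂ) n) (ψ : N → ℂ) ≠ 0} = (CfsgLib.CharClifford.orb (G := G) (θ : N → ℂ)).card := by
    rw [Fintype.card_subtype]
    congr 1
    ext ψ
    rw [Finset.mem_filter, CfsgLib.CharClifford.mem_orb]
    constructor
    · rintro ⟨-, h⟩
      exact CfsgLib.CharClifford.conj_of_constituents χ.2 θ.2 ψ.2 hθ h
    · rintro ⟨g, hg⟩
      refine ⟨Finset.mem_univ _, ?_⟩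
      rw [← hg, CfsgLib.CharClifford.inner_res_conjFn (irr_isClassFunction χ)]
      exact hθ
  have hnp : ¬ p ∣ Fintype.card {ψ : IrrCharacter N // classInner (fun n : N => (χ : G → ℂ) n) (ψ : N → ℂ) ≠ 0} := by
    rw [hcard, CfsgLib.CharClifford.card_orb θ.2]
    intro h
    exact hidx (h.trans (Subgroup.index_dvd_of_le (CfsgLib.CharClifford.le_inertia (irr_isClassFunction θ))))
  obtain ⟨τ, hτ⟩ : ∃ τ : Equiv.Perm {ψ : IrrCharacter N // classInner (fun n : N => (χ : G → ℂ) n) (ψ : N → ℂ) ≠ 0}, ∀ ψ, ((τ ψ : _) : IrrCharacter N) = σ ψ.1 := ⟨σ.subtypePerm hP, fun ψ => rfl⟩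
  have hτm : ∀ (m : ℕ) ψ, (((τ ^ m) ψ : _) : IrrCharacter N) = (σ ^ m) ψ.1 := by
    intro m
    induction m with
    | zero => intro ψ; simp
    | succ m ih =>
      intro ψ
      rw [pow_succ', Equiv.Perm.mul_apply, hτ, ih, pow_succ', Equiv.Perm.mul_apply]
  have hτ1 : τ ^ p ^ e = 1 := by
    apply Equiv.ext
    intro ψ
    apply Subtype.ext
    rw [hτm, hpow]
    rfl
  obtain ⟨⟨ψ, hψ⟩, hfix⟩ := Equiv.Perm.exists_fixed_point_of_prime (p := p) (n := e) hnp hτ1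
  have hψfix : pw k hkN ψ = ψ := by
    rw [← hσ, ← hτ ⟨ψ, hψ⟩, hfix]
  obtain ⟨g, hg⟩ := CfsgLib.CharClifford.conj_of_constituents χ.2 ψ.2 θ.2 hψ hθ
  intro n
  rw [← hg, CfsgLib.CharClifford.conjFn_apply, CfsgLib.CharClifford.conjFn_apply]
  have h1 : (ψ : N → ℂ) ((⟨g * n * g⁻¹, hN.conj_mem n n.2 g⟩ : N) ^ k) = (ψ : N → ℂ) ⟨g * n * g⁻¹, hN.conj_mem n n.2 g⟩ := congrFun (congrArg Subtype.val hψfix) _
  rw [← h1]
  apply congrArg (ψ : N → ℂ)
  apply Subtype.ext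
  simp [conj_pow]

end CfsgLib.Lam
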