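import Cfsg.Agent.Lib.BEasy38
import Cfsg.Agent.Lib.CharClifford

/-!
# The principal block of a central product with `p`-group intersection
-/

set_option autoImplicit false
set_option linter.style.haveILetI false
set_option linter.unusedSectionVars false
set_option linter.unusedVariables false

open scoped ComplexConjugate Pointwise commutatorElement

namespace CfsgLib.CProd

open Cfsg CfsgLib.CharBasic CfsgLib.Block CfsgLib.Lam

universe u v

variable {G : Type u} [Group G] [Fintype G] {p : ℕ} {M : Ideal AlgInt} {U V : Subgroup G}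

/-- multiplication -/
def mulHom (hcomm : ∀ u ∈ U, ∀ v ∈ V, u * v = v * u) : U × V →* G where
  toFun x := (x.1 : G) * (x.2 : G)
  map_one' := by simp
  map_mul' := by
    rintro ⟨a, b⟩ ⟨c, d⟩
    show ((a : G) * c) * ((b : G) * d) = (a : G) * b * ((c : G) * d)
    rw [mul_assoc, ← mul_assoc (c : G) (b : G) (d : G), hcomm c c.2 b b.2]
    simp only [mul_assoc]

theorem mulHom_apply (hcomm : ∀ u ∈ U, ∀ v ∈ V, u * v = v * u) (a : U) (b : V) : mulHom hcomm (a, b) = (a : G) * b := rfl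

theorem mulHom_surj (hcomm : ∀ u ∈ U, ∀ v ∈ V, u * v = v * u) (hgen : U ⊔ V = ⊤) : Function.Surjective (mulHom hcomm) := by
  have h1 : (mulHom hcomm).range = ⊤ := by
    rw [eq_top_iff, ← hgen, sup_le_iff]
    constructor
    · intro u hu
      exact ⟨(⟨u, hu⟩, 1), by rw [mulHom_apply]; simp⟩
    · intro v hv
      exact ⟨(1, ⟨v, hv⟩), by rw [mulHom_apply]; simp⟩
  exact MonoidHom.range_eq_top.mp h1

theorem comap_centralizer (hcomm : ∀ u ∈ U, ∀ v ∈ V, u * v = v * u) (hZ : IsPGroup p ↥(U ⊓ V)) (hp : p.Prime) (u : U) (v : V) (hu : ¬ p ∣ orderOf u) (hv : ¬ p ∣ orderOf v) :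
    (Subgroup.centralizer ({(u : G) * v} : Set G)).comap (mulHom hcomm) = (Subgroup.centralizer ({u} : Set U)).prod (Subgroup.centralizer ({v} : Set V)) := by
  ext ⟨a, b⟩
  rw [Subgroup.mem_comap, mulHom_apply, Subgroup.mem_prod, Subgroup.mem_centralizer_singleton_iff, Subgroup.mem_centralizer_singleton_iff, Subgroup.mem_centralizer_singleton_iff]
  simp only
  have hab := hcomm a a.2 b b.2
  have hav := hcomm a a.2 v v.2
  have hub := hcomm u u.2 b b.2
  have huv := hcomm u u.2 v v.2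
  have e1 : (a : G) * b * (u * v) = (a * u) * (b * v) := by
    rw [mul_assoc, ← mul_assoc (b : G) (u : G) (v : G), ← hub]; simp only [mul_assoc]
  have e2 : (u : G) * v * (a * b) = (u * a) * (v * b) := by
    rw [mul_assoc, ← mul_assoc (v : G) (a : G) (b : G), ← hav]; simp only [mul_assoc]
  constructor
  · intro h
    rw [e1, e2] at h
    obtain ⟨z, hz⟩ : ∃ z : G, z = ((u : G) * a)⁻¹ * ((a : G) * u) := ⟨_, rfl⟩
    have hzU : z ∈ U := by rw [hz]; exact U.mul_mem (U.inv_mem (U.mul_mem u.2 a.2)) (U.mul_mem a.2 u.2)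
    have hz' : z = ((v : G) * b) * ((b : G) * v)⁻¹ := by
      rw [hz, eq_mul_inv_iff_mul_eq, mul_assoc, h, inv_mul_cancel_left]
    have hzV : z ∈ V := by rw [hz']; exact V.mul_mem (V.mul_mem v.2 b.2) (V.inv_mem (V.mul_mem b.2 v.2))
    have hau : (a : G) * u = u * a * z := by rw [hz, mul_inv_cancel_left]
    have hbv : (v : G) * b = z * (b * v) := by rw [hz', inv_mul_cancel_right]
    have hza : (a : G) * z = z * a := hcomm a a.2 z hzV
    have hzu : (u : G) * z = z * u := hcomm u u.2 z hzV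
    have hconj : (a : G) * u * (a : G)⁻¹ = u * z := by
      rw [hau, mul_assoc (u : G) (a : G) z, hza]
      group
    have hzn : z ^ orderOf u = 1 := by
      have h1 : ((a : G) * u * (a : G)⁻¹) ^ orderOf u = 1 := by
        rw [conj_pow, ← Subgroup.coe_pow, pow_orderOf_eq_one]
        simp
      rw [hconj, (show Commute (u : G) z from hzu).mul_pow, ← Subgroup.coe_pow, pow_orderOf_eq_one, Subgroup.coe_one, one_mul] at h1
      exact h1
    have hz1 : z = 1 := by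
      obtain ⟨k, hk⟩ := hZ ⟨z, hzU, hzV⟩
      have hk' : z ^ p ^ k = 1 := congrArg Subtype.val hk
      have h2 : orderOf z ∣ orderOf u := orderOf_dvd_of_pow_eq_one hzn
      have h3 : orderOf z ∣ p ^ k := orderOf_dvd_of_pow_eq_one hk'
      obtain ⟨j, -, hj⟩ := (Nat.dvd_prime_pow hp).mp h3
      have hj0 : j = 0 := by
        by_contra h
        exact hu ((dvd_pow_self p h).trans (hj ▸ h2))
      rw [hj0, pow_zero] at hj
      exact orderOf_eq_one_iff.mp hj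
    rw [hz1, mul_one] at hau
    rw [hz1, one_mul] at hbv
    exact ⟨Subtype.ext hau, Subtype.ext hbv.symm⟩
  · rintro ⟨h1, h2⟩
    have h1' : (a : G) * u = u * a := congrArg Subtype.val h1
    have h2' : (b : G) * v = v * b := congrArg Subtype.val h2
    rw [e1, e2, h1', h2']

theorem index_eq (hcomm : ∀ u ∈ U, ∀ v ∈ V, u * v = v * u) (hgen : U ⊔ V = ⊤) (hZ : IsPGroup p ↥(U ⊓ V)) (hp : p.Prime) (u : U) (v : V) (hu : ¬ p ∣ orderOf u) (hv : ¬ p ∣ orderOf v) :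
    (Subgroup.centralizer ({(u : G) * v} : Set G)).index = (Subgroup.centralizer ({u} : Set U)).index * (Subgroup.centralizer ({v} : Set V)).index := by
  rw [← Subgroup.index_comap_of_surjective _ (mulHom_surj hcomm hgen), comap_centralizer hcomm hZ hp u v hu hv, Subgroup.index_prod]

theorem char_eq [Fintype U] [Fintype V] (hcomm : ∀ u ∈ U, ∀ v ∈ V, u * v = v * u) (hgen : U ⊔ V = ⊤) (χ : IrrCharacter G) (ψ₁ : IrrCharacter U) (ψ₂ : IrrCharacter V)
    (h₁ : classInner (fun u : U => (χ : G → ℂ) u) (ψ₁ : U → ℂ) ≠ 0) (h₂ : classInner (fun u : V => (χ : G → ℂ) u) (ψ₂ : V → ℂ) ≠ 0) (u : U) (v : V) :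
    (χ : G → ℂ) (u * v) = (ψ₁ : U → ℂ) u * (ψ₂ : V → ℂ) v := by
  have h := IsIrrCharacter.comp χ.2 (mulHom hcomm) (mulHom_surj hcomm hgen)
  obtain ⟨φ, ψ, hφ, hψ, he⟩ := (isIrr_prod_iff _).mp h
  have hval : ∀ (u : U) (v : V), (χ : G → ℂ) (u * v) = φ u * ψ v := fun u v => congrFun he (u, v)
  have hφ1 : (⟨φ, hφ⟩ : IrrCharacter U) = ψ₁ := by
    by_contra hne
    apply h₁
    have h3 : (fun u : U => (χ : G → ℂ) u) = ψ 1 • ((⟨φ, hφ⟩ : IrrCharacter U) : U → ℂ) := by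
      funext u
      have := hval u 1
      rw [Subgroup.coe_one, mul_one] at this
      rw [this, Pi.smul_apply, smul_eq_mul, mul_comm]
    rw [h3, classInner_smul_left, irr_inner, if_neg hne, mul_zero]
  have hψ1 : (⟨ψ, hψ⟩ : IrrCharacter V) = ψ₂ := by
    by_contra hne
    apply h₂
    have h3 : (fun u : V => (χ : G → ℂ) u) = φ 1 • ((⟨ψ, hψ⟩ : IrrCharacter V) : V → ℂ) := by
      funext u
      have := hval 1 u
      rw [Subgroup.coe_one, one_mul] at this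
      rw [this, Pi.smul_apply, smul_eq_mul]
    rw [h3, classInner_smul_left, irr_inner, if_neg hne, mul_zero]
  rw [hval, ← hφ1, ← hψ1]

theorem cc_eq [Fintype U] [Fintype V] (hcomm : ∀ u ∈ U, ∀ v ∈ V, u * v = v * u) (hgen : U ⊔ V = ⊤) (hZ : IsPGroup p ↥(U ⊓ V)) (hp : p.Prime) (χ : IrrCharacter G) (ψ₁ : IrrCharacter U) (ψ₂ : IrrCharacter V)
    (h₁ : classInner (fun u : U => (χ : G → ℂ) u) (ψ₁ : U → ℂ) ≠ 0) (h₂ : classInner (fun u : V => (χ : G → ℂ) u) (ψ₂ : V → ℂ) ≠ 0) (u : U) (v : V) (hu : ¬ p ∣ orderOf u) (hv : ¬ p ∣ orderOf v) :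
    centralChar (χ : G → ℂ) (u * v) = centralChar (ψ₁ : U → ℂ) u * centralChar (ψ₂ : V → ℂ) v := by
  have h1 : (χ : G → ℂ) 1 = (ψ₁ : U → ℂ) 1 * (ψ₂ : V → ℂ) 1 := by
    rw [← char_eq hcomm hgen χ ψ₁ ψ₂ h₁ h₂]
    simp
  rw [centralChar, centralChar, centralChar, index_eq hcomm hgen hZ hp u v hu hv, char_eq hcomm hgen χ ψ₁ ψ₂ h₁ h₂, h1]
  push_cast
  have h2 : (ψ₁ : U → ℂ) 1 ≠ 0 := IsIrrCharacter.one_ne_zero ψ₁.2
  have h3 : (ψ₂ : V → ℂ) 1 ≠ 0 := IsIrrCharacter.one_ne_zero ψ₂.2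
  field_simp

theorem cc_one (hcomm : ∀ u ∈ U, ∀ v ∈ V, u * v = v * u) (hgen : U ⊔ V = ⊤) (hZ : IsPGroup p ↥(U ⊓ V)) (hp : p.Prime) (u : U) (v : V) (hu : ¬ p ∣ orderOf u) (hv : ¬ p ∣ orderOf v) :
    centralChar (fun _ : G => (1 : ℂ)) (u * v) = centralChar (fun _ : U => (1 : ℂ)) u * centralChar (fun _ : V => (1 : ℂ)) v := by
  rw [centralChar, centralChar, centralChar, index_eq hcomm hgen hZ hp u v hu hv]
  push_cast
  ring

theorem cc_at_one {K : Type v} [Group K] {f : K → ℂ} (hf : f 1 ≠ 0) : centralChar f 1 = 1 := by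
  rw [centralChar]
  have : Subgroup.centralizer ({1} : Set K) = ⊤ := by
    ext x
    simp [Subgroup.mem_centralizer_singleton_iff]
  rw [this, Subgroup.index_top, Nat.cast_one, one_mul, div_self hf]

theorem decomp (hcomm : ∀ u ∈ U, ∀ v ∈ V, u * v = v * u) (hgen : U ⊔ V = ⊤) (hp : p.Prime) (g : G) (hg : ¬ p ∣ orderOf g) : ∃ (u : U) (v : V), ¬ p ∣ orderOf u ∧ ¬ p ∣ orderOf v ∧ g = u * v := by
  obtain ⟨⟨u, v⟩, huv⟩ := mulHom_surj hcomm hgen g
  rw [mulHom_apply] at huv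
  obtain ⟨a, m, hm, hn⟩ := Nat.exists_eq_pow_mul_and_not_dvd (n := Nat.card G) (Nat.card_pos.ne') p hp.one_lt.ne'
  have hcop : (p ^ a).Coprime (orderOf g) := Nat.Coprime.pow_left _ ((Nat.Prime.coprime_iff_not_dvd hp).mpr hg)
  obtain ⟨j, hj⟩ := exists_pow_eq_self_of_coprime hcop
  have hC : Commute (u : G) (v : G) := hcomm u u.2 v v.2
  refine ⟨(u ^ (p ^ a)) ^ j, (v ^ (p ^ a)) ^ j, ?_, ?_, ?_⟩
  · intro h
    apply hm
    apply h.trans
    apply orderOf_dvd_of_pow_eq_one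
    have h1 : u ^ Nat.card G = 1 := by
      apply Subtype.ext
      rw [Subgroup.coe_pow, Subgroup.coe_one, pow_card_eq_one']
    rw [← pow_mul, ← pow_mul, show p ^ a * (j * m) = (Nat.card G) * j by rw [hn]; ring, pow_mul, h1, one_pow]
  · intro h
    apply hm
    apply h.trans
    apply orderOf_dvd_of_pow_eq_one
    have h1 : v ^ Nat.card G = 1 := by
      apply Subtype.ext
      rw [Subgroup.coe_pow, Subgroup.coe_one, pow_card_eq_one']
    rw [← pow_mul, ← pow_mul, show p ^ a * (j * m) = (Nat.card G) * j by rw [hn]; ring, pow_mul, h1, one_pow]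
  · rw [← hj, ← huv, hC.mul_pow, (hC.pow_pow _ _).mul_pow]
    push_cast
    rfl

theorem s4521 [Fact p.Prime] (hM : IsPModular p M) (U V : Subgroup G) [Fintype U] [Fintype V] (hcomm : ∀ u ∈ U, ∀ v ∈ V, u * v = v * u) (hgen : U ⊔ V = ⊤) (hZ : IsPGroup p ↥(U ⊓ V)) (χ : IrrCharacter G) (ψ₁ : IrrCharacter U) (ψ₂ : IrrCharacter V)
    (h₁ : classInner (fun u : U => (χ : G → ℂ) u) (ψ₁ : U → ℂ) ≠ 0) (h₂ : classInner (fun u : V => (χ : G → ℂ) u) (ψ₂ : V → ℂ) ≠ 0) : χ ∈ principalBlock M G ↔ (ψ₁ ∈ principalBlock M U ∧ ψ₂ ∈ principalBlock M V) := by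
  have hp : p.Prime := Fact.out
  rw [mem_principal_iff, mem_principal_iff, mem_principal_iff]
  have hU1 : ¬ p ∣ orderOf (1 : U) := by
    rw [orderOf_one]; exact fun h => hp.one_lt.ne' (Nat.dvd_one.mp h)
  have hV1 : ¬ p ∣ orderOf (1 : V) := by
    rw [orderOf_one]; exact fun h => hp.one_lt.ne' (Nat.dvd_one.mp h)
  have hψ1 : (ψ₁ : U → ℂ) 1 ≠ 0 := IsIrrCharacter.one_ne_zero ψ₁.2
  have hψ2 : (ψ₂ : V → ℂ) 1 ≠ 0 := IsIrrCharacter.one_ne_zero ψ₂.2
  constructor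
  · intro h
    constructor
    · refine sameBlock_of_regular (χ := (⟨fun _ : U => (1 : ℂ), isIrr_one'⟩ : IrrCharacter U)) (ψ := ψ₁) hM ?_
      intro u hu
      have h2 := h ((u : G) * ((1 : V) : G))
      rw [cc_eq hcomm hgen hZ hp χ ψ₁ ψ₂ h₁ h₂ u 1 hu hV1, cc_one hcomm hgen hZ hp u 1 hu hV1, cc_at_one hψ2, cc_at_one one_ne_zero, mul_one, mul_one] at h2
      exact h2
    · refine sameBlock_of_regular (χ := (⟨fun _ : V => (1 : ℂ), isIrr_one'⟩ : IrrCharacter V)) (ψ := ψ₂) hM ?_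
      intro v hv
      have h2 := h (((1 : U) : G) * (v : G))
      rw [cc_eq hcomm hgen hZ hp χ ψ₁ ψ₂ h₁ h₂ 1 v hU1 hv, cc_one hcomm hgen hZ hp 1 v hU1 hv, cc_at_one hψ1, cc_at_one one_ne_zero, one_mul, one_mul] at h2
      exact h2
  · rintro ⟨ha, hb⟩
    refine sameBlock_of_regular (χ := (⟨fun _ : G => (1 : ℂ), isIrr_one'⟩ : IrrCharacter G)) (ψ := χ) hM ?_
    intro g hg
    obtain ⟨u, v, hu, hv, rfl⟩ := decomp hcomm hgen hp g hg
    change MemLocalIdeal M (centralChar (fun _ : G => (1 : ℂ)) _ - _)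
    rw [cc_one hcomm hgen hZ hp u v hu hv, cc_eq hcomm hgen hZ hp χ ψ₁ ψ₂ h₁ h₂ u v hu hv]
    have m1 : centralChar (fun _ : V => (1 : ℂ)) v ∈ locRing hM := centralChar_mem_locRing hM isIrr_one' v
    have m2 : centralChar (ψ₁ : U → ℂ) u ∈ locRing hM := centralChar_mem_locRing hM ψ₁.2 u
    exact locIdeal_mul_sub_mul hM (ha u) (hb v) m1 m2

end CfsgLib.CProd
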