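import Mathlib.LinearAlgebra.FreeModule.PID
import Cfsg.Agent.Lib.BContr7

/-!
# The lattice of generalized Brauer characters of a block
-/

set_option autoImplicit false
set_option linter.style.haveILetI false
set_option linter.unusedSectionVars false
set_option linter.unusedVariables false

open scoped ComplexConjugate

namespace CfsgLib.Block

open Cfsg CfsgLib.CharBasic CfsgLib.CharInd CfsgLib.BrauerInd8 CfsgLib.BrauerInd9

universe u v w

section lattice

variable {K : Type u} [Group K] [Fintype K] {p : ℕ} {M : Ideal AlgInt}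

theorem rI_add_left (θ θ' η : K → ℂ) : rI p (θ + θ') η = rI p θ η + rI p θ' η := by
  have := rI_sum_left (p := p) (Finset.univ : Finset (Fin 2)) (fun _ => 1) ![θ, θ'] η
  simpa using this

theorem rI_smul_left (c : ℂ) (θ η : K → ℂ) : rI p (c • θ) η = c * rI p θ η := by
  have := rI_sum_left (p := p) (Finset.univ : Finset (Fin 1)) (fun _ => c) ![θ] η
  simpa using this

theorem rI_zero_left (η : K → ℂ) : rI p 0 η = 0 := by
  have := rI_smul_left (p := p) 0 (0 : K → ℂ) η
  simpa using this

theorem rI_add_right (η θ θ' : K → ℂ) : rI p η (θ + θ') = rI p η θ + rI p η θ' := by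
  rw [← rI_symm, rI_add_left, map_add, rI_symm, rI_symm]

theorem rI_smul_right (c : ℂ) (η θ : K → ℂ) : rI p η (c • θ) = conj c * rI p η θ := by
  rw [← rI_symm, rI_smul_left, map_mul, rI_symm]

theorem rI_zero_right (η : K → ℂ) : rI p η 0 = 0 := by
  rw [← rI_symm, rI_zero_left, map_zero]

/-- The lattice spanned by the regular parts. -/
noncomputable def regLat (p : ℕ) (b : Set (IrrCharacter K)) : Submodule ℤ (K → ℂ) :=
  Submodule.span ℤ ((fun χ : IrrCharacter K => pRegularPart p (χ : K → ℂ)) '' b)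

theorem rI_pReg_left (θ η : K → ℂ) : rI p (pRegularPart p θ) η = rI p θ η :=
  rI_congr (fun g hg => pRegularPart_apply_of_regular hg) (fun _ _ => rfl)

theorem rI_pReg_right (θ η : K → ℂ) : rI p η (pRegularPart p θ) = rI p η θ :=
  rI_congr (fun _ _ => rfl) (fun g hg => pRegularPart_apply_of_regular hg)

theorem regLat_induction {b : Set (IrrCharacter K)} {P : (K → ℂ) → Prop} (h1 : ∀ ξ ∈ b, P (pRegularPart p (ξ : K → ℂ))) (h0 : P 0)
    (hadd : ∀ x y, P x → P y → P (x + y)) (hsmul : ∀ (n : ℤ) x, P x → P ((n : ℂ) • x)) {x : K → ℂ} (hx : x ∈ regLat p b) : P x := by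
  unfold regLat at hx
  refine Submodule.span_induction (p := fun x _ => P x) ?_ h0 (fun x y _ _ => hadd x y) ?_ hx
  · rintro _ ⟨ξ, hξ, rfl⟩
    exact h1 ξ hξ
  · intro n x _ hx
    have : n • x = (n : ℂ) • x := by
      funext g
      rw [Pi.smul_apply, Pi.smul_apply, smul_eq_mul, zsmul_eq_mul]
    rw [this]
    exact hsmul n x hx

theorem rI_lat (hM : IsPModular p M) {b : Set (IrrCharacter K)} (hb : IsPBlock M b) {v w : K → ℂ} (hv : v ∈ regLat p b) (hw : w ∈ regLat p b) :
    ∃ e : ℤ, (p : ℂ) ^ blockDefect p b * rI p v w = e := by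
  refine regLat_induction (P := fun v => ∃ e : ℤ, (p : ℂ) ^ blockDefect p b * rI p v w = e) ?_ ?_ ?_ ?_ hv
  · intro ξ hξ
    refine regLat_induction (P := fun w => ∃ e : ℤ, (p : ℂ) ^ blockDefect p b * rI p (pRegularPart p (ξ : K → ℂ)) w = e) ?_ ?_ ?_ ?_ hw
    · intro η hη
      exact ⟨aInt p b ξ η, by rw [rI_pReg_left, rI_pReg_right, rI_irr_irr hM hb hξ hη]⟩
    · exact ⟨0, by rw [rI_zero_right, mul_zero, Int.cast_zero]⟩
    · rintro x y ⟨e, he⟩ ⟨f, hf⟩
      exact ⟨e + f, by rw [rI_add_right, mul_add, he, hf]; push_cast; rfl⟩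
    · rintro n x ⟨e, he⟩
      refine ⟨n * e, ?_⟩
      rw [rI_smul_right, map_intCast]; push_cast; rw [← he]; ring
  · exact ⟨0, by rw [rI_zero_left, mul_zero, Int.cast_zero]⟩
  · rintro x y ⟨e, he⟩ ⟨f, hf⟩
    exact ⟨e + f, by rw [rI_add_left, mul_add, he, hf]; push_cast; rfl⟩
  · rintro n x ⟨e, he⟩
    refine ⟨n * e, ?_⟩
    rw [rI_smul_left]; push_cast; rw [← he]; ring

theorem regLat_singular {b : Set (IrrCharacter K)} {v : K → ℂ} (hv : v ∈ regLat p b) {g : K} (hg : p ∣ orderOf g) : v g = 0 := by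
  refine regLat_induction (P := fun v => v g = 0) ?_ rfl ?_ ?_ hv
  · intro ξ _; exact pRegularPart_apply_of_singular hg
  · intro x y hx hy; rw [Pi.add_apply, hx, hy, add_zero]
  · intro n x hx; rw [Pi.smul_apply, hx, smul_zero]

theorem isClassFunction_pReg {θ : K → ℂ} (hθ : IsClassFunction K θ) : IsClassFunction K (pRegularPart p θ) := by
  intro g x
  by_cases hg : p ∣ orderOf g
  · rw [pRegularPart_apply_of_singular hg, pRegularPart_apply_of_singular (by rwa [orderOf_conj_eq])]
  · rw [pRegularPart_apply_of_regular hg, pRegularPart_apply_of_regular (by rwa [orderOf_conj_eq]), hθ]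

theorem regLat_class {b : Set (IrrCharacter K)} {v : K → ℂ} (hv : v ∈ regLat p b) : IsClassFunction K v := by
  refine regLat_induction (P := fun v => IsClassFunction K v) ?_ ?_ ?_ ?_ hv
  · intro ξ _; exact isClassFunction_pReg (irr_isClassFunction ξ)
  · intro g x; rfl
  · intro x y hx hy g c; rw [Pi.add_apply, Pi.add_apply, hx, hy]
  · intro n x hx g c; rw [Pi.smul_apply, Pi.smul_apply, hx]

theorem eq_zero_of_rI {v : K → ℂ} (hv : ∀ g, p ∣ orderOf g → v g = 0) (h : rI p v v = 0) : v = 0 := by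
  have h0 : (Nat.card K : ℂ)⁻¹ ≠ 0 := inv_ne_zero (by exact_mod_cast (Nat.card_pos (α := K)).ne')
  rw [rI_eq] at h
  have h1 := (mul_eq_zero.mp h).resolve_left h0
  have h2 : ((∑ g : K, ‖v g‖ ^ 2 : ℝ) : ℂ) = 0 := by
    rw [← h1]
    push_cast
    apply Finset.sum_congr rfl
    intro g _
    split_ifs with hg
    · rw [hv g hg, norm_zero]; simp
    · have := norm_sq_eq (v g)
      push_cast at this
      exact this
  have h3 : ∑ g : K, ‖v g‖ ^ 2 = 0 := by exact_mod_cast h2
  funext g
  have h4 := (Finset.sum_eq_zero_iff_of_nonneg (fun g _ => by positivity)).mp h3 g (Finset.mem_univ g)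
  have h5 : ‖v g‖ = 0 := by
    rcases pow_eq_zero_iff (two_ne_zero) |>.mp h4 with h
    exact h
  exact norm_eq_zero.mp h5

/-- the reproducing property -/
theorem regLat_repro (hM : IsPModular p M) {b : Set (IrrCharacter K)} (hb : IsPBlock M b) [DecidablePred (· ∈ b)] {v : K → ℂ} (hv : v ∈ regLat p b) :
    v = ∑ ξ ∈ Finset.univ.filter (fun ξ : IrrCharacter K => ξ ∈ b), rI p v (ξ : K → ℂ) • pRegularPart p (ξ : K → ℂ) := by
  have h1 : regInd p * v = v := by
    funext g
    rw [Pi.mul_apply, regInd]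
    split_ifs with hg
    · rw [zero_mul, regLat_singular hv hg]
    · rw [one_mul]
  have h2 : ∀ ξ : IrrCharacter K, classInner v (ξ : K → ℂ) = rI p v (ξ : K → ℂ) := by
    intro ξ
    rw [rI, h1]
  have h3 : ∀ ξ : IrrCharacter K, ξ ∉ b → rI p v (ξ : K → ℂ) = 0 := by
    intro ξ hξ
    refine regLat_induction (P := fun v => rI p v (ξ : K → ℂ) = 0) ?_ (rI_zero_left _) ?_ ?_ hv
    · intro η hη
      rw [rI_pReg_left, rI_irr, cForm_eq_zero_of_not_sameBlock hM, mul_zero]
      intro h
      exact hξ (IsPBlock.mem_of_sameBlock hM hb hη h)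
    · intro x y hx hy; rw [rI_add_left, hx, hy, add_zero]
    · intro n x hx; rw [rI_smul_left, hx, mul_zero]
  funext g
  rw [Finset.sum_apply]
  by_cases hg : p ∣ orderOf g
  · rw [regLat_singular hv hg]
    symm
    apply Finset.sum_eq_zero
    intro ξ _
    rw [Pi.smul_apply, pRegularPart_apply_of_singular hg, smul_zero]
  · conv_lhs => rw [eq_sum_inner (regLat_class hv), Finset.sum_apply]
    rw [Finset.sum_filter]
    apply Finset.sum_congr rfl
    intro ξ _
    rw [Pi.smul_apply, h2]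
    split_ifs with h
    · rw [Pi.smul_apply, pRegularPart_apply_of_regular hg]
    · rw [h3 ξ h, zero_smul]

/-- A basis of the lattice. -/
structure LBas (p : ℕ) (b : Set (IrrCharacter K)) (n : ℕ) where
  v : Fin n → K → ℂ
  mem : ∀ i, v i ∈ regLat p b
  m : IrrCharacter K → Fin n → ℤ
  hm : ∀ ξ ∈ b, pRegularPart p (ξ : K → ℂ) = ∑ i, (m ξ i : ℂ) • v i
  li : LinearIndependent ℂ v

theorem li_complex (hM : IsPModular p M) {b : Set (IrrCharacter K)} (hb : IsPBlock M b) {n : ℕ} (φ : Module.Basis (Fin n) ℤ (regLat p b)) :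
    LinearIndependent ℂ (fun i => (φ i : K → ℂ)) := by
  classical
  have hE : ∀ i j, ∃ e : ℤ, (p : ℂ) ^ blockDefect p b * rI p (φ i : K → ℂ) (φ j : K → ℂ) = e := fun i j => rI_lat hM hb (φ i).2 (φ j).2
  choose E hE using hE
  have hp0 : ((p : ℂ) ^ blockDefect p b) ≠ 0 := pow_ne_zero _ (by exact_mod_cast hM.1.ne_zero)
  have hdet : (Matrix.of E).det ≠ 0 := by
    intro h
    obtain ⟨m, hm0, hm⟩ := Matrix.exists_mulVec_eq_zero_iff.mpr h
    apply hm0
    set v : K → ℂ := ∑ j, (m j : ℂ) • (φ j : K → ℂ) with hv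
    have hvmem : v = ((∑ j, m j • φ j : regLat p b) : K → ℂ) := by
      rw [hv]
      push_cast
      apply Finset.sum_congr rfl
      intro j _
      funext g
      rw [Pi.smul_apply, Pi.smul_apply, smul_eq_mul, zsmul_eq_mul]
    have h1 : ∀ i, (p : ℂ) ^ blockDefect p b * rI p (φ i : K → ℂ) v = 0 := by
      intro i
      rw [hv, rI_sum_right, Finset.mul_sum]
      have h2 := congrFun hm i
      rw [Matrix.mulVec, Pi.zero_apply] at h2
      have h3 : ((∑ j, E i j * m j : ℤ) : ℂ) = 0 := by exact_mod_cast h2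
      push_cast at h3
      rw [← h3]
      apply Finset.sum_congr rfl
      intro j _
      rw [map_intCast, ← hE]
      ring
    have h2 : rI p v v = 0 := by
      conv_lhs => rw [hv]
      rw [rI_sum_left]
      apply Finset.sum_eq_zero
      intro i _
      rw [(mul_eq_zero.mp (h1 i)).resolve_left hp0, mul_zero]
    have h3 : v = 0 := eq_zero_of_rI (fun g hg => by rw [hvmem]; exact regLat_singular (Subtype.mem _) hg) h2
    rw [hvmem] at h3
    have h4 : (∑ j, m j • φ j : regLat p b) = 0 := Subtype.ext h3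
    have h5 := Fintype.linearIndependent_iff.mp φ.linearIndependent m h4
    funext j
    exact h5 j
  rw [Fintype.linearIndependent_iff]
  intro c hc
  have h1 : Matrix.vecMul c ((Matrix.of E).map (Int.castRingHom ℂ)) = 0 := by
    funext j
    rw [Matrix.vecMul, Pi.zero_apply]
    show ∑ i, c i * ((E i j : ℤ) : ℂ) = 0
    have h2 : (p : ℂ) ^ blockDefect p b * rI p (∑ i, c i • (φ i : K → ℂ)) (φ j : K → ℂ) = 0 := by
      rw [hc, rI_zero_left, mul_zero]
    rw [rI_sum_left, Finset.mul_sum] at h2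
    rw [← h2]
    apply Finset.sum_congr rfl
    intro i _
    rw [← hE]; ring
  have h2 : ((Matrix.of E).map (Int.castRingHom ℂ)).det ≠ 0 := by
    rw [← RingHom.mapMatrix_apply, ← RingHom.map_det]
    intro h
    apply hdet
    have : (((Matrix.of E).det : ℤ) : ℂ) = 0 := h
    exact_mod_cast this
  have h3 := Matrix.eq_zero_of_vecMul_eq_zero h2 h1
  intro i
  exact congrFun h3 i

theorem exists_lbas (hM : IsPModular p M) {b : Set (IrrCharacter K)} (hb : IsPBlock M b) : Nonempty (LBas p b (blockRank p b)) := by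
  classical
  haveI : Module.Finite ℤ (regLat p b) := by
    unfold regLat
    exact Module.Finite.span_of_finite ℤ (Set.Finite.image _ (Set.toFinite b))
  obtain ⟨n, φ⟩ : Σ n, Module.Basis (Fin n) ℤ (regLat p b) := Module.basisOfFiniteTypeTorsionFree'
  have hli := li_complex hM hb φ
  have hspan : Submodule.span ℂ (Set.range (fun i => (φ i : K → ℂ))) = regSpan p b := by
    apply le_antisymm
    · rw [Submodule.span_le]
      rintro _ ⟨i, rfl⟩
      show (φ i : K → ℂ) ∈ regSpan p b
      refine regLat_induction (P := fun v => v ∈ regSpan p b) ?_ (Submodule.zero_mem _) ?_ ?_ (φ i).2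
      · intro ξ hξ; exact Submodule.subset_span ⟨ξ, hξ, rfl⟩
      · intro x y hx hy; exact Submodule.add_mem _ hx hy
      · intro n x hx; exact Submodule.smul_mem _ _ hx
    · unfold regSpan
      rw [Submodule.span_le]
      rintro _ ⟨ξ, hξ, rfl⟩
      show pRegularPart p (ξ : K → ℂ) ∈ _
      have h1 : pRegularPart p (ξ : K → ℂ) ∈ regLat p b := Submodule.subset_span ⟨ξ, hξ, rfl⟩
      have h2 := φ.sum_repr ⟨_, h1⟩
      have h3 : pRegularPart p (ξ : K → ℂ) = ∑ i, ((φ.repr ⟨_, h1⟩ i : ℤ) : ℂ) • (φ i : K → ℂ) := by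
        have h4 := congrArg Subtype.val h2
        refine Eq.trans h4.symm ?_
        push_cast
        apply Finset.sum_congr rfl
        intro j _
        funext g
        rw [Pi.smul_apply, Pi.smul_apply, smul_eq_mul, zsmul_eq_mul]
      rw [h3]
      apply Submodule.sum_mem
      intro i _
      exact Submodule.smul_mem _ _ (Submodule.subset_span ⟨i, rfl⟩)
  have hn : n = blockRank p b := by
    rw [blockRank_eq, ← hspan, finrank_span_eq_card hli, Fintype.card_fin]
  subst hn
  refine ⟨{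
    v := fun i => (φ i : K → ℂ)
    mem := fun i => (φ i).2
    m := fun ξ i => if h : ξ ∈ b then φ.repr ⟨pRegularPart p (ξ : K → ℂ), Submodule.subset_span ⟨ξ, h, rfl⟩⟩ i else 0
    hm := ?_
    li := hli }⟩
  intro ξ hξ
  simp only [dif_pos hξ]
  have h1 : pRegularPart p (ξ : K → ℂ) ∈ regLat p b := Submodule.subset_span ⟨ξ, hξ, rfl⟩
  have h4 := congrArg Subtype.val (φ.sum_repr ⟨_, h1⟩)
  refine Eq.trans h4.symm ?_
  push_cast
  apply Finset.sum_congr rfl
  intro j _
  funext g
  rw [Pi.smul_apply, Pi.smul_apply, smul_eq_mul, zsmul_eq_mul]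

end lattice

end CfsgLib.Block
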