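import Cfsg.Agent.Lib.BLat

/-!
# The lattice of generalized Brauer characters of a block, II
-/

set_option autoImplicit false
set_option linter.style.haveILetI false
set_option linter.unusedSectionVars false
set_option linter.unusedVariables false

open scoped ComplexConjugate

namespace CfsgLib.Block

open Cfsg CfsgLib.CharBasic CfsgLib.CharInd CfsgLib.BrauerInd8 CfsgLib.BrauerInd9

universe u v w

section lattice

variable {K : Type u} [Group K] [Fintype K] {p : ℕ} {M : Ideal AlgInt} {b : Set (IrrCharacter K)} {n : ℕ}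

open scoped Classical in
/-- the integral Gram matrix -/
noncomputable def LBas.E (L : LBas p b n) (i j : Fin n) : ℤ :=
  if h : ∃ e : ℤ, (p : ℂ) ^ blockDefect p b * rI p (L.v i) (L.v j) = e then h.choose else 0

theorem LBas.hE (hM : IsPModular p M) (hb : IsPBlock M b) (L : LBas p b n) (i j : Fin n) :
    (p : ℂ) ^ blockDefect p b * rI p (L.v i) (L.v j) = L.E i j := by
  have h := rI_lat hM hb (L.mem i) (L.mem j)
  rw [LBas.E, dif_pos h]
  exact h.choose_spec

theorem LBas.E_symm (hM : IsPModular p M) (hb : IsPBlock M b) (L : LBas p b n) (i j : Fin n) : L.E i j = L.E j i := by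
  have h1 := L.hE hM hb i j
  have h2 := congrArg (starRingEnd ℂ) h1
  rw [map_mul, map_pow, Complex.conj_natCast, rI_symm, L.hE hM hb j i, map_intCast] at h2
  exact_mod_cast h2.symm

theorem LBas.v_ne (L : LBas p b n) (i : Fin n) : L.v i ≠ 0 := L.li.ne_zero i

theorem rI_self_re (v : K → ℂ) : ∃ r : ℝ, 0 ≤ r ∧ rI p v v = r := by
  refine ⟨(Nat.card K : ℝ)⁻¹ * ∑ g : K, if p ∣ orderOf g then 0 else ‖v g‖ ^ 2, ?_, ?_⟩
  · apply mul_nonneg (by positivity)
    apply Finset.sum_nonneg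
    intro g _
    split_ifs
    · exact le_rfl
    · positivity
  · rw [rI_eq]
    push_cast
    congr 1
    apply Finset.sum_congr rfl
    intro g _
    split_ifs
    · rfl
    · exact (norm_sq_eq (v g)).symm

theorem LBas.E_pos (hM : IsPModular p M) (hb : IsPBlock M b) (L : LBas p b n) (i : Fin n) : 0 < L.E i i := by
  obtain ⟨r, hr, h⟩ := rI_self_re (p := p) (L.v i)
  have h1 := L.hE hM hb i i
  rw [h] at h1
  have h2 : (p : ℝ) ^ blockDefect p b * r = (L.E i i : ℝ) := by exact_mod_cast h1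
  have hp : (0 : ℝ) < (p : ℝ) ^ blockDefect p b := by have := hM.1.pos; positivity
  have h3 : 0 ≤ (L.E i i : ℝ) := by rw [← h2]; positivity
  have h4 : 0 ≤ L.E i i := by exact_mod_cast h3
  rcases h4.lt_or_eq with h5 | h5
  · exact h5
  · exfalso
    rw [← h5] at h2
    have h6 : r = 0 := by
      rcases mul_eq_zero.mp (h2.trans (by norm_num)) with h | h
      · exact absurd h hp.ne'
      · exact h
    rw [h6] at h
    exact L.v_ne i (eq_zero_of_rI (fun g hg => regLat_singular (L.mem i) hg) (by rw [h]; simp))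

/-- the Cartan-type matrix -/
noncomputable def LBas.C (L : LBas p b n) [DecidablePred (· ∈ b)] (i j : Fin n) : ℤ :=
  ∑ ξ ∈ Finset.univ.filter (fun ξ : IrrCharacter K => ξ ∈ b), L.m ξ i * L.m ξ j

variable [DecidablePred (· ∈ b)]

/-- `E * C = p ^ d`. -/
theorem LBas.E_mul_C (hM : IsPModular p M) (hb : IsPBlock M b) (L : LBas p b n) (i k : Fin n) :
    ∑ j, L.E i j * L.C j k = if i = k then (p : ℤ) ^ blockDefect p b else 0 := by
  classical
  have h1 := regLat_repro hM hb (L.mem i)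
  have h2 : (p : ℂ) ^ blockDefect p b • L.v i = ∑ k, ((∑ j, L.E i j * L.C j k : ℤ) : ℂ) • L.v k := by
    conv_lhs => rw [h1]
    rw [Finset.smul_sum]
    have h3 : ∀ ξ ∈ Finset.univ.filter (fun ξ : IrrCharacter K => ξ ∈ b),
        (p : ℂ) ^ blockDefect p b • (rI p (L.v i) (ξ : K → ℂ) • pRegularPart p (ξ : K → ℂ)) =
          ∑ k, ((∑ j, (L.m ξ j : ℂ) * (L.E i j : ℂ)) * (L.m ξ k : ℂ)) • L.v k := by
      intro ξ hξ
      have hξb := (Finset.mem_filter.mp hξ).2
      have h4 : (p : ℂ) ^ blockDefect p b * rI p (L.v i) (ξ : K → ℂ) = ∑ j, (L.m ξ j : ℂ) * (L.E i j : ℂ) := by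
        rw [← rI_pReg_right, L.hm ξ hξb, rI_sum_right, Finset.mul_sum]
        apply Finset.sum_congr rfl
        intro j _
        rw [map_intCast, ← L.hE hM hb]; ring
      rw [smul_smul, h4, L.hm ξ hξb, Finset.smul_sum]
      apply Finset.sum_congr rfl
      intro k _
      rw [smul_smul]
    rw [Finset.sum_congr rfl h3, Finset.sum_comm]
    apply Finset.sum_congr rfl
    intro k _
    rw [← Finset.sum_smul]
    congr 1
    push_cast [LBas.C]
    simp only [Finset.sum_mul, Finset.mul_sum]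
    rw [Finset.sum_comm]
    apply Finset.sum_congr rfl
    intro j _
    apply Finset.sum_congr rfl
    intro ξ _
    ring
  have h3 : ∑ k, (((∑ j, L.E i j * L.C j k : ℤ) : ℂ) - (if i = k then (p : ℂ) ^ blockDefect p b else 0)) • L.v k = 0 := by
    simp only [sub_smul, Finset.sum_sub_distrib, ite_smul, zero_smul, Finset.sum_ite_eq, Finset.mem_univ, if_true]
    rw [← h2, sub_self]
  have h4 := Fintype.linearIndependent_iff.mp L.li _ h3 k
  have h5 := sub_eq_zero.mp h4
  split_ifs with h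
  · rw [if_pos h] at h5
    exact_mod_cast h5
  · rw [if_neg h] at h5
    exact_mod_cast h5

/-- The form is of rank one modulo `M`. -/
theorem lat_rank_one (hM : IsPModular p M) (hb : IsPBlock M b) {v : K → ℂ} (hv : v ∈ regLat p b) :
    ∃ g ∈ locRing hM, ∀ w ∈ regLat p b, (p : ℂ) ^ blockDefect p b * ((Nat.card K : ℂ)⁻¹ * w 1) ∈ locRing hM ∧
      MemLocalIdeal M ((p : ℂ) ^ blockDefect p b * rI p v w - g * ((p : ℂ) ^ blockDefect p b * ((Nat.card K : ℂ)⁻¹ * w 1))) := by
  have h1reg : ¬ p ∣ orderOf (1 : K) := by rw [orderOf_one]; exact fun h => hM.1.one_lt.ne' (Nat.dvd_one.mp h)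
  have hW : ∀ w ∈ regLat p b, (p : ℂ) ^ blockDefect p b * ((Nat.card K : ℂ)⁻¹ * w 1) ∈ locRing hM := by
    intro w hw
    refine regLat_induction (P := fun w => (p : ℂ) ^ blockDefect p b * ((Nat.card K : ℂ)⁻¹ * w 1) ∈ locRing hM) ?_ ?_ ?_ ?_ hw
    · intro ξ hξ
      have := weight_mem hM hξ
      rw [pRegularPart_apply_of_regular h1reg, one_eq_charDegree (irr_isCharacter ξ)]
      rw [div_eq_inv_mul] at this
      exact this
    · rw [Pi.zero_apply, mul_zero, mul_zero]; exact (locRing hM).zero_mem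
    · intro x y hx hy
      rw [Pi.add_apply, mul_add, mul_add]; exact add_mem hx hy
    · intro n x hx
      rw [Pi.smul_apply, smul_eq_mul]
      have := mul_mem (intCast_mem_locRing hM n) hx
      have e : (p : ℂ) ^ blockDefect p b * ((Nat.card K : ℂ)⁻¹ * ((n : ℂ) * x 1)) = (n : ℂ) * ((p : ℂ) ^ blockDefect p b * ((Nat.card K : ℂ)⁻¹ * x 1)) := by ring
      rw [e]; exact this
  obtain ⟨η₀, hη₀⟩ := IsPBlock.nonempty hM hb
  refine regLat_induction (P := fun v => ∃ g ∈ locRing hM, ∀ w ∈ regLat p b, (p : ℂ) ^ blockDefect p b * ((Nat.card K : ℂ)⁻¹ * w 1) ∈ locRing hM ∧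
      MemLocalIdeal M ((p : ℂ) ^ blockDefect p b * rI p v w - g * ((p : ℂ) ^ blockDefect p b * ((Nat.card K : ℂ)⁻¹ * w 1)))) ?_ ?_ ?_ ?_ hv
  · intro ξ hξ
    have hgm : omega (η₀ : K → ℂ) (sReg p (ξ : K → ℂ)) ∈ locRing hM :=
      omega_mem_locRing hM η₀.2 (isCen_sReg (irr_isClassFunction ξ)) (inS_sReg hM (irr_isCharacter ξ))
    refine ⟨omega (η₀ : K → ℂ) (sReg p (ξ : K → ℂ)), hgm, fun w hw => ⟨hW w hw, ?_⟩⟩
    refine regLat_induction (P := fun w => MemLocalIdeal M ((p : ℂ) ^ blockDefect p b * rI p (pRegularPart p (ξ : K → ℂ)) w -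
      omega (η₀ : K → ℂ) (sReg p (ξ : K → ℂ)) * ((p : ℂ) ^ blockDefect p b * ((Nat.card K : ℂ)⁻¹ * w 1)))) ?_ ?_ ?_ ?_ hw
    · intro η hη
      have h1 := SameBlock.omega hM η.2 η₀.2 (IsPBlock.sameBlock hM hb hη hη₀) (isCen_sReg (p := p) (irr_isClassFunction ξ)) (inS_sReg hM (irr_isCharacter ξ))
      have h2 := locIdeal_mul_left hM (weight_mem hM hη) h1
      rw [rI_pReg_left, rI_pReg_right, rI_weight, pRegularPart_apply_of_regular h1reg, one_eq_charDegree (irr_isCharacter η)]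
      convert h2 using 1
      ring
    · rw [rI_zero_right, Pi.zero_apply]; simp only [mul_zero, sub_zero]; exact locIdeal_zero hM
    · intro x y hx hy
      have := locIdeal_add hM hx hy
      rw [rI_add_right, Pi.add_apply]
      convert this using 1
      ring
    · intro n x hx
      have := locIdeal_mul_left hM (intCast_mem_locRing hM n) hx
      rw [rI_smul_right, Pi.smul_apply, smul_eq_mul, map_intCast]
      convert this using 1
      ring
  · refine ⟨0, (locRing hM).zero_mem, fun w hw => ⟨hW w hw, ?_⟩⟩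
    rw [rI_zero_left]; simp only [mul_zero, zero_mul, sub_zero]; exact locIdeal_zero hM
  · rintro x y ⟨g, hg, hx⟩ ⟨g', hg', hy⟩
    refine ⟨g + g', add_mem hg hg', fun w hw => ⟨hW w hw, ?_⟩⟩
    have := locIdeal_add hM (hx w hw).2 (hy w hw).2
    rw [rI_add_left]
    convert this using 1
    ring
  · rintro n x ⟨g, hg, hx⟩
    refine ⟨n * g, mul_mem (intCast_mem_locRing hM n) hg, fun w hw => ⟨hW w hw, ?_⟩⟩
    have := locIdeal_mul_left hM (intCast_mem_locRing hM n) (hx w hw).2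
    rw [rI_smul_left]
    convert this using 1
    ring

/-- The two by two minors are divisible by `p`. -/
theorem LBas.minor_dvd (hM : IsPModular p M) (hb : IsPBlock M b) (L : LBas p b n) (i i' j j' : Fin n) :
    (p : ℤ) ∣ L.E i j * L.E i' j' - L.E i j' * L.E i' j := by
  obtain ⟨g, hg, h⟩ := lat_rank_one hM hb (L.mem i)
  obtain ⟨g', hg', h'⟩ := lat_rank_one hM hb (L.mem i')
  have h1 := h _ (L.mem j)
  have h2 := h _ (L.mem j')
  have h3 := h' _ (L.mem j)
  have h4 := h' _ (L.mem j')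
  rw [L.hE hM hb] at h1 h2 h3 h4
  set W := (p : ℂ) ^ blockDefect p b * ((Nat.card K : ℂ)⁻¹ * L.v j 1)
  set W' := (p : ℂ) ^ blockDefect p b * ((Nat.card K : ℂ)⁻¹ * L.v j' 1)
  rw [← locIdeal_int_iff hM]
  have e1 := locIdeal_mul_sub_mul hM h1.2 h4.2 (intCast_mem_locRing hM _) (mul_mem hg h1.1)
  have e2 := locIdeal_mul_sub_mul hM h2.2 h3.2 (intCast_mem_locRing hM _) (mul_mem hg h2.1)
  have e3 := locIdeal_sub hM e1 e2
  push_cast
  convert e3 using 1
  ring

/-- Not all entries are divisible by `p`. -/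
theorem LBas.exists_not_dvd (hM : IsPModular p M) (hb : IsPBlock M b) (L : LBas p b n) : ∃ i j, ¬ (p : ℤ) ∣ L.E i j := by
  by_contra hcon
  push Not at hcon
  obtain ⟨ξ, hξ, h0⟩ := exists_height_zero hM hb
  have h1 := (aInt_spec hM hb hξ hξ).2.2.1 h0
  rw [h0, zero_add, pow_one] at h1
  apply h1
  have h2 : aInt p b ξ ξ = ∑ i, ∑ j, L.m ξ i * L.m ξ j * L.E i j := by
    have h3 : ((aInt p b ξ ξ : ℤ) : ℂ) = ((∑ i, ∑ j, L.m ξ i * L.m ξ j * L.E i j : ℤ) : ℂ) := by
      rw [← rI_irr_irr hM hb hξ hξ, ← rI_pReg_left, ← rI_pReg_right, L.hm ξ hξ, rI_sum_left, Finset.mul_sum]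
      push_cast
      apply Finset.sum_congr rfl
      intro i _
      rw [rI_sum_right, Finset.mul_sum, Finset.mul_sum]
      apply Finset.sum_congr rfl
      intro j _
      rw [map_intCast, ← L.hE hM hb]; ring
    exact_mod_cast h3
  rw [h2]
  apply Finset.dvd_sum
  intro i _
  apply Finset.dvd_sum
  intro j _
  exact Dvd.dvd.mul_left (hcon i j) _

end lattice

section sub

variable {G : Type u} [Group G] [Fintype G] {p : ℕ} {M : Ideal AlgInt} {B : Set (IrrCharacter G)}

local notation "𝐂" u => (Subgroup.centralizer ({u} : Set _))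

variable {u : G} [Fintype (𝐂 u)] {b : Set (IrrCharacter (𝐂 u))} {n : ℕ} [DecidablePred (· ∈ b)]

/-- The generalized decomposition numbers. -/
noncomputable def LBas.D (L : LBas p b n) (χ : G → ℂ) (i : Fin n) : ℂ :=
  ∑ ξ ∈ Finset.univ.filter (fun ξ : IrrCharacter (𝐂 u) => ξ ∈ b), classInner (transl u χ) (ξ : (𝐂 u) → ℂ) * (L.m ξ i : ℂ)

theorem LBas.dgen_eq (L : LBas p b n) (χ : G → ℂ) : pRegularPart p (dgen u b χ) = ∑ i, L.D χ i • L.v i := by
  have h1 : pRegularPart p (dgen u b χ) = ∑ ξ ∈ Finset.univ.filter (fun ξ : IrrCharacter (𝐂 u) => ξ ∈ b),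
      classInner (transl u χ) (ξ : (𝐂 u) → ℂ) • pRegularPart p (ξ : (𝐂 u) → ℂ) := by
    rw [dgen_eq_sum, ← regLin_apply, map_sum]
    apply Finset.sum_congr rfl
    intro ξ _
    rw [map_smul, regLin_apply]
  rw [h1]
  have h2 : ∀ ξ ∈ Finset.univ.filter (fun ξ : IrrCharacter (𝐂 u) => ξ ∈ b),
      classInner (transl u χ) (ξ : (𝐂 u) → ℂ) • pRegularPart p (ξ : (𝐂 u) → ℂ) = ∑ i, (classInner (transl u χ) (ξ : (𝐂 u) → ℂ) * (L.m ξ i : ℂ)) • L.v i := by
    intro ξ hξ
    rw [L.hm ξ (Finset.mem_filter.mp hξ).2, Finset.smul_sum]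
    apply Finset.sum_congr rfl
    intro i _
    rw [smul_smul]
  rw [Finset.sum_congr rfl h2, Finset.sum_comm]
  apply Finset.sum_congr rfl
  intro i _
  rw [LBas.D, Finset.sum_smul]

theorem LBas.mc_eq (hM : IsPModular p M) (hb : IsPBlock M b) (L : LBas p b n) (χ ψ : G → ℂ) :
    (p : ℂ) ^ blockDefect p b * mc p u b χ ψ = ∑ i, ∑ j, L.D χ i * conj (L.D ψ j) * (L.E i j : ℂ) := by
  rw [mc, ← rI_pReg_left, ← rI_pReg_right, L.dgen_eq, L.dgen_eq, rI_sum_left, Finset.mul_sum]
  apply Finset.sum_congr rfl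
  intro i _
  rw [rI_sum_right, Finset.mul_sum, Finset.mul_sum]
  apply Finset.sum_congr rfl
  intro j _
  rw [← L.hE hM hb]; ring

/-- Orthogonality of the generalized decomposition numbers. -/
theorem LBas.sum_D (hM : IsPModular p M) (hu : ∃ k, orderOf u = p ^ k) (hb : IsPBlock M b) (L : LBas p b n) (i j : Fin n) :
    ∑ χ : IrrCharacter G, L.D (χ : G → ℂ) i * conj (L.D (χ : G → ℂ) j) = (L.C i j : ℂ) := by
  classical
  set N : Fin n → Fin n → ℂ := fun i j => ∑ χ : IrrCharacter G, L.D (χ : G → ℂ) i * conj (L.D (χ : G → ℂ) j) - (L.C i j : ℂ) with hN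
  have key : ∀ s t : (𝐂 u), ∑ i, (∑ j, N i j * conj (L.v j t)) * L.v i s = 0 := by
    intro s t
    by_cases hs : p ∣ orderOf s
    · apply Finset.sum_eq_zero
      intro i _
      rw [regLat_singular (L.mem i) hs, mul_zero]
    by_cases ht : p ∣ orderOf t
    · apply Finset.sum_eq_zero
      intro i _
      rw [Finset.sum_eq_zero, zero_mul]
      intro j _
      rw [regLat_singular (L.mem j) ht, map_zero, mul_zero]
    have h1 := sum_dgen_dgen hM hu hb hb hs ht
    rw [if_pos rfl, colSum] at h1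
    have h2 : ∀ (χ : G → ℂ) (s : 𝐂 u), ¬ p ∣ orderOf s → dgen u b χ s = ∑ i, L.D χ i * L.v i s := by
      intro χ s hs
      have := congrFun (L.dgen_eq χ) s
      rw [pRegularPart_apply_of_regular hs, Finset.sum_apply] at this
      rw [this]; rfl
    have h3 : ∀ (ξ : IrrCharacter (𝐂 u)) (s : 𝐂 u), ξ ∈ b → ¬ p ∣ orderOf s → (ξ : (𝐂 u) → ℂ) s = ∑ i, (L.m ξ i : ℂ) * L.v i s := by
      intro ξ s hξ hs
      have := congrFun (L.hm ξ hξ) s
      rw [pRegularPart_apply_of_regular hs, Finset.sum_apply] at this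
      rw [this]; rfl
    have h4 : ∑ χ : IrrCharacter G, dgen u b (χ : G → ℂ) s * conj (dgen u b (χ : G → ℂ) t) =
        ∑ i, ∑ j, (∑ χ : IrrCharacter G, L.D (χ : G → ℂ) i * conj (L.D (χ : G → ℂ) j)) * conj (L.v j t) * L.v i s := by
      have h5 : ∀ χ : IrrCharacter G, dgen u b (χ : G → ℂ) s * conj (dgen u b (χ : G → ℂ) t) =
          ∑ i, ∑ j, (L.D (χ : G → ℂ) i * conj (L.D (χ : G → ℂ) j)) * conj (L.v j t) * L.v i s := by
        intro χ
        rw [h2 _ s hs, h2 _ t ht, map_sum, Finset.sum_mul_sum]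
        apply Finset.sum_congr rfl
        intro i _
        apply Finset.sum_congr rfl
        intro j _
        rw [map_mul]; ring
      rw [Finset.sum_congr rfl (fun χ _ => h5 χ), Finset.sum_comm]
      apply Finset.sum_congr rfl
      intro i _
      rw [Finset.sum_comm]
      apply Finset.sum_congr rfl
      intro j _
      rw [Finset.sum_mul, Finset.sum_mul]
    have h6 : (∑ ξ : IrrCharacter (𝐂 u), if ξ ∈ b then (ξ : (𝐂 u) → ℂ) s * conj ((ξ : (𝐂 u) → ℂ) t) else 0) =
        ∑ i, ∑ j, (L.C i j : ℂ) * conj (L.v j t) * L.v i s := by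
      rw [← Finset.sum_filter]
      have h5 : ∀ ξ ∈ Finset.univ.filter (fun ξ : IrrCharacter (𝐂 u) => ξ ∈ b), (ξ : (𝐂 u) → ℂ) s * conj ((ξ : (𝐂 u) → ℂ) t) =
          ∑ i, ∑ j, ((L.m ξ i : ℂ) * (L.m ξ j : ℂ)) * conj (L.v j t) * L.v i s := by
        intro ξ hξ
        have hξb := (Finset.mem_filter.mp hξ).2
        rw [h3 ξ s hξb hs, h3 ξ t hξb ht, map_sum, Finset.sum_mul_sum]
        apply Finset.sum_congr rfl
        intro i _
        apply Finset.sum_congr rfl
        intro j _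
        rw [map_mul, map_intCast]; ring
      rw [Finset.sum_congr rfl h5, Finset.sum_comm]
      apply Finset.sum_congr rfl
      intro i _
      rw [Finset.sum_comm]
      apply Finset.sum_congr rfl
      intro j _
      push_cast [LBas.C]
      rw [Finset.sum_mul, Finset.sum_mul]
    have h7 := sub_eq_zero.mpr (h4.symm.trans (h1.trans (Eq.trans (Finset.sum_congr rfl (fun ξ _ => by by_cases hξ : ξ ∈ b <;> simp [hξ])) h6)))
    rw [← Finset.sum_sub_distrib] at h7
    rw [← h7]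
    apply Finset.sum_congr rfl
    intro i _
    rw [← Finset.sum_sub_distrib, Finset.sum_mul]
    apply Finset.sum_congr rfl
    intro j _
    rw [hN]; ring
  have h1 : ∀ (t : 𝐂 u) (i : Fin n), ∑ j, N i j * conj (L.v j t) = 0 := by
    intro t
    apply Fintype.linearIndependent_iff.mp L.li
    funext s
    rw [Finset.sum_apply, Pi.zero_apply, ← key s t]
    rfl
  have h2 : ∀ i j, conj (N i j) = 0 := by
    intro i
    apply Fintype.linearIndependent_iff.mp L.li
    funext t
    rw [Finset.sum_apply, Pi.zero_apply]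
    have h3 := congrArg (starRingEnd ℂ) (h1 t i)
    rw [map_sum, map_zero] at h3
    rw [← h3]
    apply Finset.sum_congr rfl
    intro j _
    rw [map_mul, Complex.conj_conj]; rfl
  have h3 := h2 i j
  rw [map_eq_zero] at h3
  exact sub_eq_zero.mp h3

theorem LBas.D_integral (L : LBas p b n) (χ : IrrCharacter G) (i : Fin n) : IsIntegral ℤ (L.D (χ : G → ℂ) i) := by
  rw [LBas.D]
  apply IsIntegral.sum
  intro ξ _
  exact IsIntegral.mul ((AIC_transl u χ).2 ξ) (isIntegral_algebraMap (R := ℤ) (x := L.m ξ i))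

theorem LBas.D_mem_cycF (L : LBas p b n) (χ : IrrCharacter G) (i : Fin n) {N : ℕ} (hN : u ^ N = 1) : L.D (χ : G → ℂ) i ∈ cycF N := by
  rw [LBas.D]
  apply sum_mem
  intro ξ _
  obtain ⟨k, c, hc, h1⟩ := inner_transl u hN χ ξ
  rw [h1]
  exact (cycF N).mul_mem ((cycF N).mul_mem (natCast_mem _ _) (cycF_root hc)) (intCast_mem _ _)

/-- Galois conjugates are congruent -/
theorem LBas.D_gal (hM : IsPModular p M) (L : LBas p b n) (χ : IrrCharacter G) (i : Fin n) {m : ℕ} (hm : u ^ (p ^ m) = 1) (σ : ℂ →+* ℂ) :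
    MemLocalIdeal M (σ (L.D (χ : G → ℂ) i) - L.D (χ : G → ℂ) i) := by
  rw [LBas.D, map_sum, ← Finset.sum_sub_distrib]
  apply locIdeal_sum hM
  intro ξ _
  obtain ⟨k, c, hc, h1⟩ := inner_transl u hm χ ξ
  rw [h1, map_mul, map_mul, map_natCast, map_intCast]
  have h2 : σ c ^ (p ^ m) = 1 := by rw [← map_pow, hc, map_one]
  have h3 := locIdeal_sub hM (locIdeal_root_sub_one hM h2) (locIdeal_root_sub_one hM hc)
  have h4 := locIdeal_mul_left hM (mul_mem (natCast_mem_locRing hM k) (intCast_mem_locRing hM (L.m ξ i))) h3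
  convert h4 using 1
  ring

end sub

end CfsgLib.Block
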