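import Cfsg.Agent.Lib.BLat2
import Cfsg.Agent.Lib.BContr8

/-!
# Major subsections of rank at most two
-/

set_option autoImplicit false
set_option linter.style.haveILetI false
set_option linter.unusedSectionVars false
set_option linter.unusedVariables false

open scoped ComplexConjugate

namespace CfsgLib.Block

open Cfsg CfsgLib.CharBasic CfsgLib.CharInd CfsgLib.BrauerInd8 CfsgLib.BrauerInd9

universe u v w

section arith

variable {p : ℕ} {M : Ideal AlgInt}

theorem gal_one {n : ℕ} (hn : 0 < n) {z : ℂ} (hz : z ∈ cycF n) : gal hn 1 z = z := by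
  have h := gal_mul hn 1 1 hz
  rw [mul_one] at h
  exact (gal hn 1).injective h

theorem prod_gal_int {n : ℕ} [NeZero n] {z : ℂ} (hz : z ∈ cycF n) (hi : IsIntegral ℤ z) :
    ∃ m : ℤ, ∏ k : (ZMod n)ˣ, gal (NeZero.pos n) k z = m := by
  have hn := NeZero.pos n
  obtain ⟨q, hq⟩ := CfsgLib.CharGalois.rat_of_fixed (n := n) hn (z := ∏ k : (ZMod n)ˣ, gal hn k z)
    ((cycF n).prod_mem (fun k _ => cycF_map (gal hn k : ℂ →+* ℂ) hz)) (by
      intro τ
      rw [map_prod]
      obtain ⟨l, hl⟩ := exists_gal hn (τ : ℂ →+* ℂ)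
      have h1 : ∀ k : (ZMod n)ˣ, τ (gal hn k z) = gal hn (l * k) z := by
        intro k
        have h2 := hl (gal hn k z) (cycF_map (gal hn k : ℂ →+* ℂ) hz)
        rw [← gal_mul hn l k hz, ← h2]
        rfl
      rw [Finset.prod_congr rfl (fun k _ => h1 k)]
      exact Fintype.prod_equiv (Equiv.mulLeft l) _ _ (fun _ => rfl))
  have hint : IsIntegral ℤ (q : ℂ) := by
    rw [← hq]
    exact IsIntegral.prod _ (fun k _ => isIntegral_map (gal hn k : ℂ →+* ℂ) hi)
  have hint' : IsIntegral ℤ q := by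
    have h2 : IsIntegral ℤ (algebraMap ℚ ℂ q) := by simpa using hint
    exact (isIntegral_algebraMap_iff (algebraMap ℚ ℂ).injective).mp h2
  obtain ⟨m, hm⟩ := IsIntegrallyClosed.isIntegral_iff.mp hint'
  have hm' : (m : ℚ) = q := by simpa using hm
  refine ⟨m, ?_⟩
  rw [hq, ← hm']
  push_cast; rfl

theorem div_p_integral (hM : IsPModular p M) {n : ℕ} [NeZero n] {a c : ℂ} (ha : a ∈ cycF n) (hai : IsIntegral ℤ a) (hci : IsIntegral ℤ c)
    (hσ : ∀ σ : ℂ →+* ℂ, MemLocalIdeal M (σ a - a)) (hu : ¬ MemLocalIdeal M a) (h : IsIntegral ℤ (a * c / p)) : IsIntegral ℤ (c / p) := by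
  classical
  obtain ⟨m, hm⟩ := prod_gal_int ha hai
  have hn := NeZero.pos n
  have hp0 : (p : ℂ) ≠ 0 := by exact_mod_cast hM.1.ne_zero
  have hunit : ∀ k : (ZMod n)ˣ, ¬ MemLocalIdeal M (gal hn k a) := by
    intro k hk
    apply hu
    have h1 := locIdeal_sub hM hk (hσ (gal hn k : ℂ →+* ℂ))
    have h2 : gal hn k a - ((gal hn k : ℂ →+* ℂ) a - a) = a := by
      show gal hn k a - (gal hn k a - a) = a
      ring
    rwa [h2] at h1
  have hloc : ∀ k : (ZMod n)ˣ, gal hn k a ∈ locRing hM := fun k => isIntegral_mem_locRing hM (isIntegral_map (gal hn k : ℂ →+* ℂ) hai)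
  have hprod : ∀ s : Finset (ZMod n)ˣ, ¬ MemLocalIdeal M (∏ k ∈ s, gal hn k a) := by
    intro s
    induction s using Finset.induction_on with
    | empty => rw [Finset.prod_empty]; exact one_notMem_locIdeal hM
    | insert k s hk ih => rw [Finset.prod_insert hk]; exact not_locIdeal_mul hM (hloc k) (hunit k) ih
  have hpm : ¬ (p : ℤ) ∣ m := by
    intro hd
    apply hprod Finset.univ
    rw [hm]
    exact (locIdeal_int_iff hM m).mpr hd
  have h1 : (m : ℂ) = a * ∏ k ∈ Finset.univ.erase (1 : (ZMod n)ˣ), gal hn k a := by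
    rw [← hm, ← Finset.mul_prod_erase Finset.univ _ (Finset.mem_univ (1 : (ZMod n)ˣ)), gal_one hn ha]
  have h2 : IsIntegral ℤ ((m : ℂ) * c / p) := by
    have h3 : (m : ℂ) * c / p = (a * c / p) * ∏ k ∈ Finset.univ.erase (1 : (ZMod n)ˣ), gal hn k a := by
      rw [h1]; ring
    rw [h3]
    exact IsIntegral.mul h (IsIntegral.prod _ (fun k _ => isIntegral_map (gal hn k : ℂ →+* ℂ) hai))
  have hcop : IsCoprime (p : ℤ) m := (Prime.coprime_iff_not_dvd (Nat.prime_iff_prime_int.mp hM.1)).mpr hpm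
  obtain ⟨s, t, hst⟩ := hcop
  have h3 : c / p = (s : ℂ) * c + (t : ℂ) * ((m : ℂ) * c / p) := by
    have h4 : (s : ℂ) * p + (t : ℂ) * m = 1 := by exact_mod_cast hst
    field_simp
    linear_combination (-c) * h4
  rw [h3]
  exact (IsIntegral.mul (isIntegral_algebraMap (R := ℤ) (x := s)) hci).add (IsIntegral.mul (isIntegral_algebraMap (R := ℤ) (x := t)) h2)

theorem avgR_div_p {n : ℕ} [NeZero n] (hp : p.Prime) {c : ℂ} (hc : c ∈ cycF n) (hci : IsIntegral ℤ (c / p)) (h0 : c ≠ 0) :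
    (p : ℝ) ^ 2 ≤ avgR n (c * conj c) := by
  have hp0 : (p : ℂ) ≠ 0 := by exact_mod_cast hp.ne_zero
  have hY : c / p ∈ cycF n := (cycF n).div_mem hc (natCast_mem (cycF n) p)
  have h2 := one_le_avgR_normSq hY hci (div_ne_zero h0 hp0)
  have h3 : c * conj c = ((p ^ 2 : ℕ) : ℂ) * ((c / p) * conj (c / p)) := by
    rw [map_div₀, Complex.conj_natCast]
    push_cast
    field_simp
  rw [h3, avgR_natCast_mul]
  push_cast
  have h4 : (0 : ℝ) < (p : ℝ) ^ 2 := by have := hp.pos; positivity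
  nlinarith

end arith

section lattice

variable {K : Type u} [Group K] [Fintype K] {p : ℕ} {M : Ideal AlgInt} {b : Set (IrrCharacter K)}

/-- change of basis -/
noncomputable def LBas.add (L : LBas p b 2) (ε : ℤ) : LBas p b 2 where
  v := ![L.v 0, L.v 1 + (ε : ℂ) • L.v 0]
  mem := by
    intro i
    fin_cases i
    · exact L.mem 0
    · have h : (ε : ℂ) • L.v 0 = ε • L.v 0 := by
        funext g
        rw [Pi.smul_apply, Pi.smul_apply, smul_eq_mul, zsmul_eq_mul]
      show L.v 1 + (ε : ℂ) • L.v 0 ∈ _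
      rw [h]
      exact Submodule.add_mem _ (L.mem 1) (Submodule.smul_mem _ _ (L.mem 0))
  m := fun ξ => ![L.m ξ 0 - ε * L.m ξ 1, L.m ξ 1]
  hm := by
    intro ξ hξ
    rw [L.hm ξ hξ, Fin.sum_univ_two, Fin.sum_univ_two]
    show _ = (((L.m ξ 0 - ε * L.m ξ 1 : ℤ)) : ℂ) • L.v 0 + ((L.m ξ 1 : ℤ) : ℂ) • (L.v 1 + (ε : ℂ) • L.v 0)
    push_cast
    rw [smul_add, smul_smul, sub_smul, mul_comm (ε : ℂ)]
    abel
  li := by
    rw [LinearIndependent.pair_iff]
    intro s t hst
    have h1 := LinearIndependent.pair_iff.mp (show LinearIndependent ℂ ![L.v 0, L.v 1] from by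
      have : ![L.v 0, L.v 1] = L.v := by
        funext i
        fin_cases i <;> rfl
      rw [this]; exact L.li) (s + t * ε) t (by
        rw [← hst, smul_add, smul_smul, add_smul]; abel)
    refine ⟨?_, h1.2⟩
    have h2 := h1.1
    rw [h1.2, zero_mul, add_zero] at h2
    exact h2

noncomputable def LBas.swap (L : LBas p b 2) : LBas p b 2 where
  v := ![L.v 1, L.v 0]
  mem := by
    intro i
    fin_cases i
    · exact L.mem 1
    · exact L.mem 0
  m := fun ξ => ![L.m ξ 1, L.m ξ 0]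
  hm := by
    intro ξ hξ
    rw [L.hm ξ hξ, Fin.sum_univ_two, Fin.sum_univ_two, add_comm]
    rfl
  li := by
    rw [LinearIndependent.pair_iff]
    intro s t hst
    have h1 := LinearIndependent.pair_iff.mp (show LinearIndependent ℂ ![L.v 0, L.v 1] from by
      have : ![L.v 0, L.v 1] = L.v := by
        funext i
        fin_cases i <;> rfl
      rw [this]; exact L.li) t s (by rw [← hst, add_comm])
    exact ⟨h1.2, h1.1⟩

theorem LBas.add_E (hM : IsPModular p M) (hb : IsPBlock M b) (L : LBas p b 2) (ε : ℤ) :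
    (L.add ε).E 0 0 = L.E 0 0 ∧ (L.add ε).E 1 1 = L.E 1 1 + 2 * ε * L.E 0 1 + ε * ε * L.E 0 0 := by
  constructor
  · have h1 := (L.add ε).hE hM hb 0 0
    have h2 := L.hE hM hb 0 0
    have h3 : (L.add ε).v 0 = L.v 0 := rfl
    rw [h3, h2] at h1
    exact_mod_cast h1.symm
  · have h1 := (L.add ε).hE hM hb 1 1
    have h3 : (L.add ε).v 1 = L.v 1 + (ε : ℂ) • L.v 0 := rfl
    rw [h3, rI_add_left, rI_add_right, rI_add_right, rI_smul_left, rI_smul_left, rI_smul_right, rI_smul_right, map_intCast] at h1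
    have h4 := L.hE hM hb 0 0
    have h5 := L.hE hM hb 0 1
    have h6 := L.hE hM hb 1 0
    have h7 := L.hE hM hb 1 1
    rw [L.E_symm hM hb 1 0] at h6
    have h8 : (((L.add ε).E 1 1 : ℤ) : ℂ) = ((L.E 1 1 + 2 * ε * L.E 0 1 + ε * ε * L.E 0 0 : ℤ) : ℂ) := by
      rw [← h1]; push_cast
      linear_combination h7 + (ε : ℂ) * h6 + (ε : ℂ) * h5 + (ε : ℂ) * ε * h4
    exact_mod_cast h8

theorem LBas.swap_E (hM : IsPModular p M) (hb : IsPBlock M b) (L : LBas p b 2) :
    L.swap.E 0 0 = L.E 1 1 ∧ L.swap.E 1 1 = L.E 0 0 ∧ L.swap.E 0 1 = L.E 0 1 := by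
  have h1 := L.swap.hE hM hb 0 0
  have h2 := L.swap.hE hM hb 1 1
  have h3 := L.swap.hE hM hb 0 1
  have e0 : L.swap.v 0 = L.v 1 := rfl
  have e1 : L.swap.v 1 = L.v 0 := rfl
  rw [e0, L.hE hM hb] at h1
  rw [e1, L.hE hM hb] at h2
  rw [e0, e1, L.hE hM hb, L.E_symm hM hb 1 0] at h3
  exact ⟨by exact_mod_cast h1.symm, by exact_mod_cast h2.symm, by exact_mod_cast h3.symm⟩

theorem LBas.exists_reduced (hM : IsPModular p M) (hb : IsPBlock M b) (L : LBas p b 2) :
    ∃ L' : LBas p b 2, 2 * |L'.E 0 1| ≤ L'.E 0 0 ∧ 2 * |L'.E 0 1| ≤ L'.E 1 1 := by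
  have key : ∀ N : ℕ, ∀ L : LBas p b 2, L.E 0 0 + L.E 1 1 ≤ N → ∃ L' : LBas p b 2, 2 * |L'.E 0 1| ≤ L'.E 0 0 ∧ 2 * |L'.E 0 1| ≤ L'.E 1 1 := by
    intro N
    induction N with
    | zero =>
      intro L hL
      have h1 := L.E_pos hM hb 0
      have h2 := L.E_pos hM hb 1
      push_cast at hL
      omega
    | succ N ih =>
      intro L hL
      by_cases h0 : 2 * |L.E 0 1| ≤ L.E 0 0
      · by_cases h1 : 2 * |L.E 0 1| ≤ L.E 1 1
        · exact ⟨L, h0, h1⟩
        · -- reduce the first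
          push Not at h1
          obtain ⟨s0, s1, s2⟩ := L.swap_E hM hb
          rcases le_or_gt 0 (L.E 0 1) with hs | hs
          · apply ih (L.swap.add (-1))
            obtain ⟨e0, e1⟩ := L.swap.add_E hM hb (-1)
            rw [e0, e1, s0, s1, s2]
            rw [abs_of_nonneg hs] at h1
            push_cast at hL ⊢
            nlinarith
          · apply ih (L.swap.add 1)
            obtain ⟨e0, e1⟩ := L.swap.add_E hM hb 1
            rw [e0, e1, s0, s1, s2]
            rw [abs_of_neg hs] at h1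
            push_cast at hL ⊢
            nlinarith
      · push Not at h0
        rcases le_or_gt 0 (L.E 0 1) with hs | hs
        · apply ih (L.add (-1))
          obtain ⟨e0, e1⟩ := L.add_E hM hb (-1)
          rw [e0, e1]
          rw [abs_of_nonneg hs] at h0
          push_cast at hL ⊢
          nlinarith
        · apply ih (L.add 1)
          obtain ⟨e0, e1⟩ := L.add_E hM hb 1
          rw [e0, e1]
          rw [abs_of_neg hs] at h0
          push_cast at hL ⊢
          nlinarith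
  have h1 := L.E_pos hM hb 0
  have h2 := L.E_pos hM hb 1
  exact key (L.E 0 0 + L.E 1 1).toNat L (by omega)

end lattice

end CfsgLib.Block
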