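import Cfsg.Agent.Lib.BLat3

/-!
# Major subsections of rank at most two, II
-/

set_option autoImplicit false
set_option linter.style.haveILetI false
set_option linter.unusedSectionVars false
set_option linter.unusedVariables false

open scoped ComplexConjugate

namespace CfsgLib.Block

open Cfsg CfsgLib.CharBasic CfsgLib.CharInd CfsgLib.BrauerInd8 CfsgLib.BrauerInd9

universe u v w

section sub

variable {G : Type u} [Group G] [Fintype G] {p : ℕ} {M : Ideal AlgInt} {B : Set (IrrCharacter G)}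

local notation "𝐂" u => (Subgroup.centralizer ({u} : Set _))

variable {u : G} [Fintype (𝐂 u)] {b : Set (IrrCharacter (𝐂 u))} {n : ℕ} [DecidablePred (· ∈ b)]

theorem LBas.D_eq_zero (hM : IsPModular p M) (hu : ∃ k, orderOf u = p ^ k) (hi : IsInducedBlock M (𝐂 u) b B) (L : LBas p b n)
    {χ : IrrCharacter G} (hχ : χ ∉ B) (i : Fin n) : L.D (χ : G → ℂ) i = 0 := by
  apply Fintype.linearIndependent_iff.mp L.li
  rw [← L.dgen_eq]
  funext g
  by_cases hg : p ∣ orderOf g
  · rw [pRegularPart_apply_of_singular hg]; rfl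
  · rw [pRegularPart_apply_of_regular hg]
    exact dgen_eq_zero hM hu hi hχ hg

theorem LBas.D_ne_zero (hM : IsPModular p M) (hu : ∃ k, orderOf u = p ^ k) (hi : IsInducedBlock M (𝐂 u) b B)
    (hmaj : blockDefect p b = blockDefect p B) (L : LBas p b n) {χ : IrrCharacter G} (hχ : χ ∈ B) : ∃ i, L.D (χ : G → ℂ) i ≠ 0 := by
  by_contra hcon
  push Not at hcon
  obtain ⟨ψ, hψ, h0⟩ := exists_height_zero hM hi.2.1
  apply major_ne_zero hM hu hi hmaj hψ hχ h0
  have h1 := L.mc_eq hM hi.1 (ψ : G → ℂ) (χ : G → ℂ)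
  have hp0 : ((p : ℂ) ^ blockDefect p b) ≠ 0 := pow_ne_zero _ (by exact_mod_cast hM.1.ne_zero)
  have h2 : (p : ℂ) ^ blockDefect p b * mc p u b (ψ : G → ℂ) (χ : G → ℂ) = 0 := by
    rw [h1]
    apply Finset.sum_eq_zero
    intro i _
    apply Finset.sum_eq_zero
    intro j _
    rw [hcon j, map_zero, mul_zero, zero_mul]
  exact (mul_eq_zero.mp h2).resolve_left hp0

theorem LBas.sum_D_block (hM : IsPModular p M) (hu : ∃ k, orderOf u = p ^ k) (hi : IsInducedBlock M (𝐂 u) b B) (L : LBas p b n)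
    [DecidablePred (· ∈ B)] (i j : Fin n) :
    ∑ χ ∈ Finset.univ.filter (fun χ : IrrCharacter G => χ ∈ B), L.D (χ : G → ℂ) i * conj (L.D (χ : G → ℂ) j) = (L.C i j : ℂ) := by
  rw [← L.sum_D hM hu hi.1]
  apply Finset.sum_subset (Finset.subset_univ _)
  intro χ _ hχ
  rw [L.D_eq_zero hM hu hi (fun h => hχ (Finset.mem_filter.mpr ⟨Finset.mem_univ _, h⟩)), zero_mul]

theorem LBas.sum_avg_D (hM : IsPModular p M) (hu : ∃ k, orderOf u = p ^ k) (hi : IsInducedBlock M (𝐂 u) b B) (L : LBas p b n)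
    [DecidablePred (· ∈ B)] (i j : Fin n) {N : ℕ} [NeZero N] :
    ∑ χ ∈ Finset.univ.filter (fun χ : IrrCharacter G => χ ∈ B), avgR N (L.D (χ : G → ℂ) i * conj (L.D (χ : G → ℂ) j)) = (L.C i j : ℝ) := by
  rw [← avgR_sum, L.sum_D_block hM hu hi, avgR_intCast]

/-- rank one -/
theorem card_le_of_lbas_one (hM : IsPModular p M) (hu : ∃ k, orderOf u = p ^ k) (hi : IsInducedBlock M (𝐂 u) b B)
    (hmaj : blockDefect p b = blockDefect p B) (L : LBas p b 1) : Nat.card B ≤ p ^ blockDefect p B := by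
  classical
  set N := Nat.card G with hN
  haveI : NeZero N := ⟨Nat.card_pos.ne'⟩
  have huN : u ^ N = 1 := pow_card_eq_one'
  set t := Finset.univ.filter (fun χ : IrrCharacter G => χ ∈ B) with ht
  have hcardB : Nat.card B = t.card := by
    rw [Nat.card_eq_fintype_card, Fintype.card_subtype]
  have h1 : (t.card : ℝ) ≤ (L.C 0 0 : ℝ) := by
    rw [← L.sum_avg_D hM hu hi 0 0 (N := N)]
    calc (t.card : ℝ) = ∑ χ ∈ t, (1 : ℝ) := by simp
      _ ≤ _ := by
        apply Finset.sum_le_sum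
        intro χ hχ
        obtain ⟨i, hi0⟩ := L.D_ne_zero hM hu hi hmaj (Finset.mem_filter.mp hχ).2
        rw [Subsingleton.elim i 0] at hi0
        exact one_le_avgR_normSq (L.D_mem_cycF χ 0 huN) (L.D_integral χ 0) hi0
  have h2 : (t.card : ℤ) ≤ L.C 0 0 := by exact_mod_cast h1
  have h3 := L.E_mul_C hM hi.1 0 0
  rw [Fin.sum_univ_one, if_pos rfl] at h3
  have h4 := L.E_pos hM hi.1 0
  have h5 : (t.card : ℤ) ≤ (p : ℤ) ^ blockDefect p b := by
    rw [← h3]
    nlinarith [Int.natCast_nonneg t.card]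
  rw [hcardB, ← hmaj]
  exact_mod_cast h5

set_option maxHeartbeats 1000000 in
/-- degenerate case -/
theorem card_le_of_diag (hM : IsPModular p M) (hu : ∃ k, orderOf u = p ^ k) (hi : IsInducedBlock M (𝐂 u) b B)
    (hmaj : blockDefect p b = blockDefect p B) (L : LBas p b 2) (h01 : L.E 0 1 = 0) (h0 : ¬ (p : ℤ) ∣ L.E 0 0) (h1 : (p : ℤ) ∣ L.E 1 1) :
    Nat.card B ≤ p ^ blockDefect p B := by
  classical
  obtain ⟨k, hk⟩ := id hu
  set N := p ^ k with hN
  haveI : NeZero N := ⟨pow_ne_zero _ hM.1.ne_zero⟩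
  have huN : u ^ N = 1 := by rw [← hk]; exact pow_orderOf_eq_one u
  set t := Finset.univ.filter (fun χ : IrrCharacter G => χ ∈ B) with ht
  have hcardB : Nat.card B = t.card := by
    rw [Nat.card_eq_fintype_card, Fintype.card_subtype]
  have hmt : ∀ χ ∈ t, χ ∈ B := fun χ hχ => (Finset.mem_filter.mp hχ).2
  have hE0 := L.E_pos hM hi.1 0
  have hE1 := L.E_pos hM hi.1 1
  have hp0 : (p : ℂ) ≠ 0 := by exact_mod_cast hM.1.ne_zero
  have hp2 : 2 ≤ p := hM.1.two_le
  have h10 : L.E 1 0 = 0 := by rw [L.E_symm hM hi.1, h01]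
  have hC0 := L.E_mul_C hM hi.1 0 0
  have hC1 := L.E_mul_C hM hi.1 1 1
  rw [Fin.sum_univ_two, if_pos rfl, h01, zero_mul, add_zero] at hC0
  rw [Fin.sum_univ_two, if_pos rfl, h10, zero_mul, zero_add] at hC1
  have hpd : (0 : ℤ) < (p : ℤ) ^ blockDefect p b := by have := hM.1.pos; positivity
  -- `E 0 0 = 1`
  have hE00 : L.E 0 0 = 1 := by
    have hd : L.E 0 0 ∣ (p : ℤ) ^ blockDefect p b := ⟨_, hC0.symm⟩
    have hcop : IsCoprime (L.E 0 0) ((p : ℤ) ^ blockDefect p b) :=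
      IsCoprime.pow_right ((Prime.coprime_iff_not_dvd (Nat.prime_iff_prime_int.mp hM.1)).mpr h0).symm
    have hu1 : IsUnit (L.E 0 0) := hcop.isUnit_of_dvd' dvd_rfl hd
    rcases Int.isUnit_iff.mp hu1 with h | h
    · exact h
    · omega
  rw [hE00, one_mul] at hC0
  obtain ⟨g', hg'⟩ := h1
  set Y : IrrCharacter G → ℂ := fun χ => L.D (χ : G → ℂ) 0 with hY
  set X : IrrCharacter G → ℂ := fun χ => L.D (χ : G → ℂ) 1 with hX
  have hmc : ∀ χ ψ : IrrCharacter G, (p : ℂ) ^ blockDefect p b * mc p u b (χ : G → ℂ) (ψ : G → ℂ) = Y χ * conj (Y ψ) + (p : ℂ) * (g' : ℂ) * (X χ * conj (X ψ)) := by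
    intro χ ψ
    rw [L.mc_eq hM hi.1, Fin.sum_univ_two, Fin.sum_univ_two, Fin.sum_univ_two, h01, h10, hE00, hg']
    push_cast; ring
  have hYi : ∀ χ, IsIntegral ℤ (Y χ) := fun χ => L.D_integral χ 0
  have hXi : ∀ χ, IsIntegral ℤ (X χ) := fun χ => L.D_integral χ 1
  have hYc : ∀ χ, Y χ ∈ cycF N := fun χ => L.D_mem_cycF χ 0 huN
  have hXc : ∀ χ, X χ ∈ cycF N := fun χ => L.D_mem_cycF χ 1 huN
  have hconjint : ∀ z : ℂ, IsIntegral ℤ z → IsIntegral ℤ (conj z) := fun z hz => isIntegral_map (starRingEnd ℂ) hz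
  have hg'i : IsIntegral ℤ (g' : ℂ) := isIntegral_algebraMap (R := ℤ) (x := g')
  have hpi : IsIntegral ℤ (p : ℂ) := isIntegral_natCast p
  -- the values at height zero are units
  have hunit : ∀ χ ∈ t, blockHeight p B (χ : G → ℂ) = 0 → ¬ MemLocalIdeal M (Y χ) := by
    intro χ hχ h hcon
    apply mc_not_mem hM hu hi (hmt χ hχ) (hmt χ hχ) h h
    rw [hmc]
    apply locIdeal_add hM
    · exact locIdeal_mul_right hM hcon (isIntegral_mem_locRing hM (hconjint _ (hYi χ)))
    · rw [mul_assoc]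
      exact locIdeal_mul_right hM (locIdeal_p hM) (isIntegral_mem_locRing hM (hg'i.mul ((hXi χ).mul (hconjint _ (hXi χ)))))
  have hYne : ∀ χ ∈ t, blockHeight p B (χ : G → ℂ) = 0 → Y χ ≠ 0 := fun χ hχ h => ne_zero_of_not_locIdeal hM (hunit χ hχ h)
  -- partition
  set S0 := t.filter (fun χ : IrrCharacter G => blockHeight p B (χ : G → ℂ) = 0) with hS0
  set P1 := t.filter (fun χ : IrrCharacter G => blockHeight p B (χ : G → ℂ) ≠ 0 ∧ Y χ ≠ 0) with hP1
  set Z := t.filter (fun χ : IrrCharacter G => blockHeight p B (χ : G → ℂ) ≠ 0 ∧ Y χ = 0) with hZ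
  have hcount : t.card = (S0.card + Z.card) + P1.card := by
    have e1 : Disjoint S0 Z := by
      rw [hS0, hZ, Finset.disjoint_filter]; intro χ _ h h'; exact h'.1 h
    have e2 : Disjoint (S0 ∪ Z) P1 := by
      rw [Finset.disjoint_union_left, hS0, hZ, hP1]
      constructor
      · rw [Finset.disjoint_filter]; intro χ _ h h'; exact h'.1 h
      · rw [Finset.disjoint_filter]; intro χ _ h h'; exact h'.2 h.2
    rw [← Finset.card_union_of_disjoint e1, ← Finset.card_union_of_disjoint e2]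
    congr 1
    ext χ
    simp only [hS0, hZ, hP1, Finset.mem_union, Finset.mem_filter]
    tauto
  have hsumY : ∑ χ ∈ t, avgR N (Y χ * conj (Y χ)) = (p : ℝ) ^ blockDefect p b := by
    rw [L.sum_avg_D hM hu hi 0 0 (N := N), hC0]; push_cast; rfl
  have hsumX : ∑ χ ∈ t, avgR N (X χ * conj (X χ)) = (L.C 1 1 : ℝ) := L.sum_avg_D hM hu hi 1 1 (N := N)
  rw [hcardB, ← hmaj]
  rcases Finset.eq_empty_or_nonempty Z with hZe | ⟨ψ, hψ⟩
  · -- all values nonzero
    have h2 : ∀ χ ∈ t, Y χ ≠ 0 := by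
      intro χ hχ h
      by_cases h0 : blockHeight p B (χ : G → ℂ) = 0
      · exact hYne χ hχ h0 h
      · have : χ ∈ Z := Finset.mem_filter.mpr ⟨hχ, h0, h⟩
        rw [hZe] at this
        exact absurd this (Finset.notMem_empty _)
    have h3 : (t.card : ℝ) ≤ (p : ℝ) ^ blockDefect p b := by
      rw [← hsumY]
      calc (t.card : ℝ) = ∑ χ ∈ t, (1 : ℝ) := by simp
        _ ≤ _ := Finset.sum_le_sum (fun χ hχ => one_le_avgR_normSq (hYc χ) (hYi χ) (h2 χ hχ))
    exact_mod_cast h3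
  · have hψ' := Finset.mem_filter.mp hψ
    obtain ⟨χ₀, hχ₀, h00⟩ := exists_height_zero hM hi.2.1
    have hχ₀t : χ₀ ∈ t := Finset.mem_filter.mpr ⟨Finset.mem_univ _, hχ₀⟩
    have hXne : ∀ χ ∈ S0 ∪ Z, X χ ≠ 0 := by
      intro χ hχ h
      rcases Finset.mem_union.mp hχ with h1 | h1
      · have h1' := Finset.mem_filter.mp h1
        have h2 := major_ne_zero hM hu hi hmaj (hmt χ h1'.1) (hmt ψ hψ'.1) h1'.2
        apply h2
        have h3 := hmc χ ψ
        rw [hψ'.2.2, h] at h3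
        simp only [map_zero, mul_zero, zero_mul, add_zero] at h3
        exact (mul_eq_zero.mp h3).resolve_left (pow_ne_zero _ hp0)
      · have h1' := Finset.mem_filter.mp h1
        have h2 := major_ne_zero hM hu hi hmaj hχ₀ (hmt χ h1'.1) h00
        apply h2
        have h3 := hmc χ₀ χ
        rw [h1'.2.2, h] at h3
        simp only [map_zero, mul_zero, add_zero] at h3
        exact (mul_eq_zero.mp h3).resolve_left (pow_ne_zero _ hp0)
    have hsub : S0 ∪ Z ⊆ t := Finset.union_subset (Finset.filter_subset _ _) (Finset.filter_subset _ _)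
    have hdisj : Disjoint S0 Z := by
      rw [hS0, hZ, Finset.disjoint_filter]; intro χ _ h h'; exact h'.1 h
    have h3 : ((S0.card + Z.card : ℕ) : ℝ) ≤ (L.C 1 1 : ℝ) := by
      rw [← hsumX, ← Finset.card_union_of_disjoint hdisj]
      calc ((S0 ∪ Z).card : ℝ) = ∑ χ ∈ S0 ∪ Z, (1 : ℝ) := by simp
        _ ≤ ∑ χ ∈ S0 ∪ Z, avgR N (X χ * conj (X χ)) := Finset.sum_le_sum (fun χ hχ => one_le_avgR_normSq (hXc χ) (hXi χ) (hXne χ hχ))
        _ ≤ _ := Finset.sum_le_sum_of_subset_of_nonneg hsub (fun χ _ _ => avgR_normSq_nonneg (hXc χ))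
    have h4 : ((S0.card + Z.card : ℕ) : ℤ) ≤ L.C 1 1 := by exact_mod_cast h3
    have h5 : 2 * L.C 1 1 ≤ (p : ℤ) ^ blockDefect p b := by
      rw [← hC1]
      have h6 : 0 < L.C 1 1 := by
        by_contra h
        push Not at h
        nlinarith
      have h7 : 2 ≤ L.E 1 1 := by
        rw [hg']
        have h8 : 0 < g' := by
          rw [hg'] at hE1
          exact pos_of_mul_pos_right hE1 (by positivity)
        have : (2 : ℤ) ≤ p := by exact_mod_cast hp2
        nlinarith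
      nlinarith
    -- the part of positive height
    have h6 : ∀ χ ∈ P1, (4 : ℝ) ≤ avgR N (Y χ * conj (Y χ)) := by
      intro χ hχ
      have hχ' := Finset.mem_filter.mp hχ
      have h7 := major_integral hM hu hi hmaj χ₀ (hmt χ hχ'.1)
      have h8 : IsIntegral ℤ (Y χ₀ * conj (Y χ) / p) := by
        have h9 : Y χ₀ * conj (Y χ) / p = (p : ℂ) ^ (blockHeight p B (χ : G → ℂ) - 1) *
            ((p : ℂ) ^ blockDefect p b * mc p u b (χ₀ : G → ℂ) (χ : G → ℂ) / (p : ℂ) ^ blockHeight p B (χ : G → ℂ)) - (g' : ℂ) * (X χ₀ * conj (X χ)) := by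
          rw [hmc]
          obtain ⟨h, hh⟩ := Nat.exists_eq_succ_of_ne_zero hχ'.2.1
          rw [hh, Nat.succ_sub_one, Nat.succ_eq_add_one, pow_succ]
          have := pow_ne_zero h hp0
          field_simp
          ring
        rw [h9]
        exact ((hpi.pow _).mul h7).sub (hg'i.mul ((hXi χ₀).mul (hconjint _ (hXi χ))))
      have h9 := div_p_integral hM (n := N) (hYc χ₀) (hYi χ₀) (hconjint _ (hYi χ)) (fun σ => L.D_gal hM χ₀ 0 (by rw [← hN]; exact huN) σ) (hunit χ₀ hχ₀t h00) h8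
      have h10 : IsIntegral ℤ (Y χ / p) := by
        have := hconjint _ h9
        rwa [map_div₀, Complex.conj_conj, Complex.conj_natCast] at this
      have h11 := avgR_div_p hM.1 (hYc χ) h10 hχ'.2.2
      have h12 : (2 : ℝ) ≤ p := by exact_mod_cast hp2
      nlinarith
    have h7 : 4 * (P1.card : ℝ) ≤ (p : ℝ) ^ blockDefect p b := by
      rw [← hsumY]
      calc 4 * (P1.card : ℝ) = ∑ χ ∈ P1, (4 : ℝ) := by simp [mul_comm]
        _ ≤ ∑ χ ∈ P1, avgR N (Y χ * conj (Y χ)) := Finset.sum_le_sum h6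
        _ ≤ _ := Finset.sum_le_sum_of_subset_of_nonneg (Finset.filter_subset _ _) (fun χ _ _ => avgR_normSq_nonneg (hYc χ))
    have h8 : 4 * P1.card ≤ p ^ blockDefect p b := by exact_mod_cast h7
    have h9 : 2 * (S0.card + Z.card) ≤ p ^ blockDefect p b := by
      have h10 : 2 * ((S0.card + Z.card : ℕ) : ℤ) ≤ (p : ℤ) ^ blockDefect p b := le_trans (by linarith) h5
      exact_mod_cast h10
    rw [hcount]
    omega

/-- the generic case -/
theorem card_le_of_offdiag (hM : IsPModular p M) (hu : ∃ k, orderOf u = p ^ k) (hi : IsInducedBlock M (𝐂 u) b B)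
    (hmaj : blockDefect p b = blockDefect p B) (L : LBas p b 2) (h01 : L.E 0 1 ≠ 0) (h0 : 2 * |L.E 0 1| ≤ L.E 0 0) (h1 : 2 * |L.E 0 1| ≤ L.E 1 1) :
    Nat.card B ≤ p ^ blockDefect p B := by
  classical
  set N := Nat.card G with hN
  haveI : NeZero N := ⟨Nat.card_pos.ne'⟩
  have huN : u ^ N = 1 := pow_card_eq_one'
  set t := Finset.univ.filter (fun χ : IrrCharacter G => χ ∈ B) with ht
  have hcardB : Nat.card B = t.card := by
    rw [Nat.card_eq_fintype_card, Fintype.card_subtype]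
  obtain ⟨s, hs1, hs2⟩ : ∃ s : ℤ, (s = 1 ∨ s = -1) ∧ s * L.E 0 1 = |L.E 0 1| := by
    rcases le_or_gt 0 (L.E 0 1) with h | h
    · exact ⟨1, Or.inl rfl, by rw [abs_of_nonneg h]; ring⟩
    · exact ⟨-1, Or.inr rfl, by rw [abs_of_neg h]; ring⟩
  have hss : s * s = 1 := by rcases hs1 with h | h <;> rw [h] <;> norm_num
  set e := L.E 0 0
  set f := L.E 0 1
  set g := L.E 1 1
  have hf : 1 ≤ |f| := Int.one_le_abs h01
  have h10 : L.E 1 0 = f := L.E_symm hM hi.1 1 0
  have c00 := L.E_mul_C hM hi.1 0 0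
  have c01 := L.E_mul_C hM hi.1 0 1
  have c10 := L.E_mul_C hM hi.1 1 0
  have c11 := L.E_mul_C hM hi.1 1 1
  rw [Fin.sum_univ_two] at c00 c01 c10 c11
  rw [if_pos rfl] at c00 c11
  rw [if_neg (by decide)] at c01 c10
  rw [h10] at c10 c11
  have hCs : L.C 1 0 = L.C 0 1 := by
    rw [LBas.C, LBas.C]
    exact Finset.sum_congr rfl (fun ξ _ => mul_comm _ _)
  have hff : f * f = |f| * |f| := (abs_mul_abs_self f).symm
  have hΔ : e + g - |f| ≤ e * g - f * f := by
    rw [hff]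
    nlinarith [mul_nonneg (by linarith : (0 : ℤ) ≤ e - 2 * |f|) (by linarith : (0 : ℤ) ≤ g - 2 * |f|)]
  have hΔpos : 0 < e * g - f * f := by linarith
  have hW : L.C 0 0 + L.C 1 1 + s * L.C 0 1 ≤ (p : ℤ) ^ blockDefect p b := by
    have e1 : (e * g - f * f) * (L.C 0 0 + L.C 1 1 + s * L.C 0 1) = (p : ℤ) ^ blockDefect p b * (e + g - |f|) := by
      have d0 : (e * g - f * f) * L.C 0 0 = (p : ℤ) ^ blockDefect p b * g := by linear_combination g * c00 - f * c10
      have d1 : (e * g - f * f) * L.C 1 1 = (p : ℤ) ^ blockDefect p b * e := by linear_combination e * c11 - f * c01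
      have d2 : (e * g - f * f) * L.C 0 1 = -(p : ℤ) ^ blockDefect p b * f := by linear_combination g * c01 - f * c11
      rw [← hs2]
      linear_combination d0 + d1 + s * d2
    have hpd : (0 : ℤ) < (p : ℤ) ^ blockDefect p b := by have := hM.1.pos; positivity
    have e2 : (p : ℤ) ^ blockDefect p b * (e + g - |f|) ≤ (p : ℤ) ^ blockDefect p b * (e * g - f * f) := mul_le_mul_of_nonneg_left hΔ hpd.le
    rw [← e1] at e2
    have e3 : (e * g - f * f) * (L.C 0 0 + L.C 1 1 + s * L.C 0 1) ≤ (e * g - f * f) * (p : ℤ) ^ blockDefect p b := by linarith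
    exact le_of_mul_le_mul_left e3 hΔpos
  -- the averages
  set X : IrrCharacter G → ℂ := fun χ => L.D (χ : G → ℂ) 0 with hX
  set Y : IrrCharacter G → ℂ := fun χ => L.D (χ : G → ℂ) 1 with hY
  set W : IrrCharacter G → ℂ := fun χ => X χ + (s : ℂ) * Y χ with hWd
  have hXc : ∀ χ, X χ ∈ cycF N := fun χ => L.D_mem_cycF χ 0 huN
  have hYc : ∀ χ, Y χ ∈ cycF N := fun χ => L.D_mem_cycF χ 1 huN
  have hWc : ∀ χ, W χ ∈ cycF N := fun χ => (cycF N).add_mem (hXc χ) ((cycF N).mul_mem (intCast_mem _ _) (hYc χ))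
  have hXi : ∀ χ, IsIntegral ℤ (X χ) := fun χ => L.D_integral χ 0
  have hYi : ∀ χ, IsIntegral ℤ (Y χ) := fun χ => L.D_integral χ 1
  have hWi : ∀ χ, IsIntegral ℤ (W χ) := fun χ => (hXi χ).add ((isIntegral_algebraMap (R := ℤ) (x := s)).mul (hYi χ))
  have hs0 : (s : ℂ) ≠ 0 := by rcases hs1 with h | h <;> rw [h] <;> norm_num
  have hsum : ∑ χ ∈ t, (avgR N (X χ * conj (X χ)) + avgR N (Y χ * conj (Y χ)) + avgR N (W χ * conj (W χ))) =
      2 * ((L.C 0 0 + L.C 1 1 + s * L.C 0 1 : ℤ) : ℝ) := by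
    have h3 : ∀ χ, W χ * conj (W χ) = X χ * conj (X χ) + Y χ * conj (Y χ) + ((s : ℤ) : ℂ) * (X χ * conj (Y χ)) + ((s : ℤ) : ℂ) * (Y χ * conj (X χ)) := by
      intro χ
      have h4 : (s : ℂ) * s = 1 := by exact_mod_cast hss
      show (X χ + (s : ℂ) * Y χ) * conj (X χ + (s : ℂ) * Y χ) = _
      rw [map_add, map_mul, map_intCast]
      linear_combination (Y χ * conj (Y χ)) * h4
    have h4 : ∀ χ, avgR N (X χ * conj (X χ)) + avgR N (Y χ * conj (Y χ)) + avgR N (W χ * conj (W χ)) =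
        2 * avgR N (X χ * conj (X χ)) + 2 * avgR N (Y χ * conj (Y χ)) + s * avgR N (X χ * conj (Y χ)) + s * avgR N (Y χ * conj (X χ)) := by
      intro χ
      rw [h3, avgR_add, avgR_add, avgR_add, avgR_intCast_mul, avgR_intCast_mul]; ring
    rw [Finset.sum_congr rfl (fun χ _ => h4 χ), Finset.sum_add_distrib, Finset.sum_add_distrib, Finset.sum_add_distrib,
      ← Finset.mul_sum, ← Finset.mul_sum, ← Finset.mul_sum, ← Finset.mul_sum, L.sum_avg_D hM hu hi 0 0 (N := N), L.sum_avg_D hM hu hi 1 1 (N := N),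
      L.sum_avg_D hM hu hi 0 1 (N := N), L.sum_avg_D hM hu hi 1 0 (N := N), hCs]
    push_cast; ring
  have hge : ∀ χ ∈ t, (2 : ℝ) ≤ avgR N (X χ * conj (X χ)) + avgR N (Y χ * conj (Y χ)) + avgR N (W χ * conj (W χ)) := by
    intro χ hχ
    obtain ⟨i, hi0⟩ := L.D_ne_zero hM hu hi hmaj (Finset.mem_filter.mp hχ).2
    have hXY : X χ ≠ 0 ∨ Y χ ≠ 0 := by
      fin_cases i
      · exact Or.inl hi0
      · exact Or.inr hi0
    have nX := avgR_normSq_nonneg (hXc χ)
    have nY := avgR_normSq_nonneg (hYc χ)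
    have nW := avgR_normSq_nonneg (hWc χ)
    by_cases hx : X χ = 0
    · have hy : Y χ ≠ 0 := by tauto
      have hw : W χ ≠ 0 := by
        show X χ + (s : ℂ) * Y χ ≠ 0
        rw [hx, zero_add]; exact mul_ne_zero hs0 hy
      have a1 := one_le_avgR_normSq (hYc χ) (hYi χ) hy
      have a2 := one_le_avgR_normSq (hWc χ) (hWi χ) hw
      linarith
    · have a0 := one_le_avgR_normSq (hXc χ) (hXi χ) hx
      by_cases hy : Y χ = 0
      · have hw : W χ ≠ 0 := by
          show X χ + (s : ℂ) * Y χ ≠ 0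
          rw [hy, mul_zero, add_zero]; exact hx
        have a2 := one_le_avgR_normSq (hWc χ) (hWi χ) hw
        linarith
      · have a1 := one_le_avgR_normSq (hYc χ) (hYi χ) hy
        linarith
  have h2 : 2 * (t.card : ℝ) ≤ 2 * ((L.C 0 0 + L.C 1 1 + s * L.C 0 1 : ℤ) : ℝ) := by
    rw [← hsum]
    calc 2 * (t.card : ℝ) = ∑ χ ∈ t, (2 : ℝ) := by simp [mul_comm]
      _ ≤ _ := Finset.sum_le_sum hge
  have h3 : (t.card : ℤ) ≤ L.C 0 0 + L.C 1 1 + s * L.C 0 1 := by
    have : (t.card : ℝ) ≤ ((L.C 0 0 + L.C 1 1 + s * L.C 0 1 : ℤ) : ℝ) := by linarith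
    exact_mod_cast this
  have h4 : (t.card : ℤ) ≤ (p : ℤ) ^ blockDefect p b := le_trans h3 hW
  rw [hcardB, ← hmaj]
  exact_mod_cast h4

end sub

section final

variable {G : Type u} [Group G] [Fintype G] {p : ℕ} {M : Ideal AlgInt} {B : Set (IrrCharacter G)}

local notation "𝐂" u => (Subgroup.centralizer ({u} : Set _))

theorem card_le_of_rank_le_two (hM : IsPModular p M) {u : G} (hu : ∃ k, orderOf u = p ^ k) {b : Set (IrrCharacter (𝐂 u))}
    (hi : IsInducedBlock M (𝐂 u) b B) (hmaj : blockDefect p b = blockDefect p B) (hl : blockRank p b ≤ 2) :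
    Nat.card B ≤ p ^ blockDefect p B := by
  classical
  haveI : Fintype (𝐂 u) := Fintype.ofFinite _
  obtain ⟨L⟩ := exists_lbas hM hi.1
  have hcases : blockRank p b = 0 ∨ blockRank p b = 1 ∨ blockRank p b = 2 := by omega
  rcases hcases with h | h | h
  · rw [h] at L
    exfalso
    obtain ⟨ξ, hξ⟩ := IsPBlock.nonempty hM hi.1
    have h1 := congrFun (L.hm ξ hξ) 1
    have h1reg : ¬ p ∣ orderOf (1 : 𝐂 u) := by rw [orderOf_one]; exact fun h => hM.1.one_lt.ne' (Nat.dvd_one.mp h)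
    rw [pRegularPart_apply_of_regular h1reg] at h1
    simp only [Finset.univ_eq_empty, Finset.sum_empty, Pi.zero_apply] at h1
    exact IsIrrCharacter.one_ne_zero ξ.2 h1
  · rw [h] at L
    exact card_le_of_lbas_one hM hu hi hmaj L
  · rw [h] at L
    obtain ⟨L, h0, h1⟩ := L.exists_reduced hM hi.1
    by_cases h01 : L.E 0 1 = 0
    · have hmin := L.minor_dvd hM hi.1 0 1 0 1
      rw [h01, zero_mul, sub_zero] at hmin
      obtain ⟨i, j, hij⟩ := L.exists_not_dvd hM hi.1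
      have h10 : L.E 1 0 = 0 := by rw [L.E_symm hM hi.1, h01]
      rcases (Nat.prime_iff_prime_int.mp hM.1).dvd_or_dvd hmin with hd | hd
      · -- `p ∣ E 0 0`
        have hnd : ¬ (p : ℤ) ∣ L.E 1 1 := by
          intro hd'
          apply hij
          fin_cases i <;> fin_cases j
          · exact hd
          · show (p : ℤ) ∣ L.E 0 1; rw [h01]; exact dvd_zero _
          · show (p : ℤ) ∣ L.E 1 0; rw [h10]; exact dvd_zero _
          · exact hd'
        obtain ⟨s0, s1, s2⟩ := L.swap_E hM hi.1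
        exact card_le_of_diag hM hu hi hmaj L.swap (by rw [s2, h01]) (by rw [s0]; exact hnd) (by rw [s1]; exact hd)
      · have hnd : ¬ (p : ℤ) ∣ L.E 0 0 := by
          intro hd'
          apply hij
          fin_cases i <;> fin_cases j
          · exact hd'
          · show (p : ℤ) ∣ L.E 0 1; rw [h01]; exact dvd_zero _
          · show (p : ℤ) ∣ L.E 1 0; rw [h10]; exact dvd_zero _
          · exact hd
        exact card_le_of_diag hM hu hi hmaj L h01 hnd hd
    · exact card_le_of_offdiag hM hu hi hmaj L h01 h0 h1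

end final

end CfsgLib.Block
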