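import Mathlib

set_option autoImplicit false

/-! Complemented subgroup lattices. -/
namespace CfsgLib.CM2

variable {G : Type*} [Group G]

theorem exists_compl [Finite G] (T X M : Subgroup G) (hTX : T ≤ X)
    (hint : ∀ Y : Subgroup G, T ≤ Y → Y ≤ X → ∃ C : Subgroup G, T ≤ C ∧ C ≤ X ∧ Y ⊔ C = X ∧ Y ⊓ C = T)
    (huniq : ∀ M' : Subgroup G, IsCoatom M' → X ≤ M' → M' = M)
    (H : Subgroup G) (hH : ¬ H ≤ M) (hHT : H ⊓ T = ⊥) :
    ∃ C : Subgroup G, H ⊔ C = ⊤ ∧ H ⊓ C = ⊥ := by
  obtain ⟨C, hTC, hCX, hsup, hinf⟩ := hint ((H ⊓ X) ⊔ T) le_sup_right (sup_le inf_le_right hTX)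
  refine ⟨C, ?_, ?_⟩
  · by_contra hne
    obtain ⟨M', hM', hle⟩ := (eq_top_or_exists_le_coatom (H ⊔ C)).resolve_left hne
    have hTle : T ≤ H ⊔ C := hTC.trans le_sup_right
    have hXle : X ≤ H ⊔ C := by
      rw [← hsup]
      exact sup_le (sup_le (inf_le_left.trans le_sup_left) hTle) le_sup_right
    have := huniq M' hM' (hXle.trans hle)
    subst this
    exact hH (le_sup_left.trans hle)
  · rw [eq_bot_iff, ← hHT]
    refine le_inf inf_le_left ?_
    rw [← hinf]
    exact le_inf ((le_inf inf_le_left (inf_le_right.trans hCX)).trans le_sup_left) inf_le_right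

/-- transport of the complement by conjugation -/
theorem compl_conj (g : G) (H : Subgroup G)
    (h : ∃ C : Subgroup G, H.map (MulAut.conj g).toMonoidHom ⊔ C = ⊤ ∧ H.map (MulAut.conj g).toMonoidHom ⊓ C = ⊥) :
    ∃ C : Subgroup G, H ⊔ C = ⊤ ∧ H ⊓ C = ⊥ := by
  obtain ⟨C, h1, h2⟩ := h
  refine ⟨C.comap (MulAut.conj g).toMonoidHom, ?_, ?_⟩
  · apply Subgroup.map_injective (f := (MulAut.conj g).toMonoidHom) (MulAut.conj g).injective
    rw [Subgroup.map_sup, Subgroup.map_comap_eq_self_of_surjective (MulAut.conj g).surjective, h1]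
    exact (Subgroup.map_top_of_surjective _ (MulAut.conj g).surjective).symm
  · apply Subgroup.map_injective (f := (MulAut.conj g).toMonoidHom) (MulAut.conj g).injective
    rw [Subgroup.map_inf _ _ _ (MulAut.conj g).injective, Subgroup.map_comap_eq_self_of_surjective (MulAut.conj g).surjective, h2]
    exact (Subgroup.map_bot _).symm

/-- complements in a quotient -/
theorem compl_quot (N : Subgroup G) [N.Normal] (K : Subgroup (G ⧸ N))
    (h : ∃ C : Subgroup G, K.comap (QuotientGroup.mk' N) ⊔ C = ⊤ ∧ K.comap (QuotientGroup.mk' N) ⊓ C = ⊥) :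
    ∃ C : Subgroup (G ⧸ N), IsCompl K C := by
  obtain ⟨C, h1, h2⟩ := h
  refine ⟨C.map (QuotientGroup.mk' N), ?_⟩
  rw [isCompl_iff, disjoint_iff, codisjoint_iff]
  constructor
  · rw [eq_bot_iff]
    rintro x ⟨hx, c, hc, rfl⟩
    have h3 : c ∈ K.comap (QuotientGroup.mk' N) ⊓ C := ⟨hx, hc⟩
    rw [h2, Subgroup.mem_bot] at h3
    rw [h3, map_one]
    exact one_mem _
  · have h3 := congrArg (Subgroup.map (QuotientGroup.mk' N)) h1
    rw [Subgroup.map_sup, Subgroup.map_comap_eq_self_of_surjective (QuotientGroup.mk'_surjective N), Subgroup.map_top_of_surjective _ (QuotientGroup.mk'_surjective N)] at h3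
    exact h3

end CfsgLib.CM2
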