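import Mathlib

set_option autoImplicit false

/-! Subgroups of index `n` in the symmetric group of degree `n`. -/
namespace CfsgLib.CM4

open Equiv Equiv.Perm Subgroup
open scoped Nat

universe u

variable {Ω : Type u} [Fintype Ω] [DecidableEq Ω]

/-- normal subgroups of small order are trivial -/
theorem normal_trivial (h3 : 3 ≤ Fintype.card Ω) (K : Subgroup (Perm Ω)) (hK : K.Normal)
    (hcard : Nat.card K ∣ (Fintype.card Ω - 1)!) : K = ⊥ := by
  classical
  by_contra hne
  have hnt : Nontrivial K := (Subgroup.nontrivial_iff_ne_bot K).2 hne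
  have hcA : 2 * Nat.card (alternatingGroup Ω) = (Fintype.card Ω)! := by
    haveI : Nontrivial Ω := Fintype.one_lt_card_iff_nontrivial.1 (by omega)
    rw [nat_card_alternatingGroup, Nat.card_eq_fintype_card]
    have h2 : 2 ∣ (Fintype.card Ω)! := Nat.dvd_factorial (by norm_num) (by omega)
    omega
  have hfac : (Fintype.card Ω)! = Fintype.card Ω * (Fintype.card Ω - 1)! := (Nat.mul_factorial_pred (by omega)).symm
  have hpos := Nat.factorial_pos (Fintype.card Ω - 1)
  have hnotA : ¬ alternatingGroup Ω ≤ K := by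
    intro hle
    have h1 := Nat.le_of_dvd hpos ((Subgroup.card_dvd_of_le hle).trans hcard)
    have h2 : 3 * (Fintype.card Ω - 1)! ≤ Fintype.card Ω * (Fintype.card Ω - 1)! := Nat.mul_le_mul_right _ h3
    omega
  rcases Nat.lt_or_ge (Fintype.card Ω) 5 with h5 | h5
  · -- n = 3 or 4
    by_cases h3c : ∃ g ∈ K, g.IsThreeCycle
    · obtain ⟨g, hg, hg3⟩ := h3c
      apply hnotA
      rw [← closure_three_cycles_eq_alternating, Subgroup.closure_le]
      intro h hh
      have h1 : IsConj g h := by
        rw [isConj_iff_cycleType_eq, hg3.cycleType, (show h.IsThreeCycle from hh).cycleType]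
      obtain ⟨c, hc⟩ := isConj_iff.1 h1
      rw [← hc]
      exact hK.conj_mem g hg c
    · -- K is a 2-group, of order 2
      obtain ⟨g, hg, hg1⟩ := (Subgroup.ne_bot_iff_exists_ne_one.1 hne).elim (fun a ha => (⟨a.1, a.2, fun h => ha (Subtype.ext h)⟩ : ∃ x, x ∈ K ∧ x ≠ 1))
      have hno3 : ¬ 3 ∣ Nat.card K := by
        intro h
        haveI : Fact (Nat.Prime 3) := ⟨Nat.prime_three⟩
        obtain ⟨x, hx⟩ := exists_prime_orderOf_dvd_card' (G := K) 3 h
        apply h3c
        have hx' : orderOf (x : Perm Ω) = 3 := by rw [Subgroup.orderOf_coe, hx]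
        refine ⟨x, x.2, ?_⟩
        obtain ⟨m, hm⟩ := cycleType_prime_order (by rw [hx']; exact Nat.prime_three : (orderOf (x : Perm Ω)).Prime)
        rw [hx'] at hm
        have h4 := sum_cycleType (x : Perm Ω)
        have h5' := (x : Perm Ω).support.card_le_univ
        rw [hm, Multiset.sum_replicate, smul_eq_mul] at h4
        have hm0 : m = 0 := by omega
        rw [hm0] at hm
        exact hm
      have hK2 : Nat.card K = 2 := by
        have hd6 : Nat.card K ∣ 6 := by
          refine hcard.trans ?_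
          have : Fintype.card Ω = 3 ∨ Fintype.card Ω = 4 := by omega
          rcases this with h | h <;> rw [h] <;> decide
        have hle : Nat.card K ≤ 6 := Nat.le_of_dvd (by norm_num) hd6
        have hgt : 1 < Nat.card K := Finite.one_lt_card
        obtain ⟨c, hc⟩ := hd6
        interval_cases hk : Nat.card K
        · rfl
        · exact absurd (by norm_num) hno3
        · omega
        · omega
        · exact absurd (by norm_num) hno3
      -- g is central
      have hcent : ∀ x : Perm Ω, x * g * x⁻¹ = g := by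
        intro x
        have h1 := hK.conj_mem g hg x
        have h2 : x * g * x⁻¹ ≠ 1 := by
          intro h
          apply hg1
          rw [mul_inv_eq_one] at h
          exact mul_eq_left.1 h
        obtain ⟨a, b, hab, huniv⟩ := Nat.card_eq_two_iff.1 hK2
        have h3 : ∀ y z : K, y ≠ 1 → z ≠ 1 → y = z := by
          intro y z hy hz
          have hy' : y ∈ ({a, b} : Set K) := by rw [huniv]; exact Set.mem_univ y
          have hz' : z ∈ ({a, b} : Set K) := by rw [huniv]; exact Set.mem_univ z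
          have h1' : (1 : K) ∈ ({a, b} : Set K) := by rw [huniv]; exact Set.mem_univ 1
          rcases hy' with rfl | hy' <;> rcases hz' with rfl | hz' <;> rcases h1' with h1' | h1'
          all_goals first | rfl | (simp_all)
        have := h3 ⟨_, h1⟩ ⟨g, hg⟩ (fun h => h2 (congrArg Subtype.val h)) (fun h => hg1 (congrArg Subtype.val h))
        exact congrArg Subtype.val this
      -- contradiction with three points
      obtain ⟨x, hx⟩ : ∃ x, g x ≠ x := by
        by_contra hcon
        push Not at hcon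
        exact hg1 (Equiv.ext hcon)
      obtain ⟨z, hz1, hz2⟩ : ∃ z, z ≠ x ∧ z ≠ g x := by
        by_contra hcon
        push Not at hcon
        have h1 : (Finset.univ : Finset Ω) ⊆ {x, g x} := by
          intro z _
          rw [Finset.mem_insert, Finset.mem_singleton]
          by_cases hzx : z = x
          · exact Or.inl hzx
          · exact Or.inr (hcon z hzx)
        have h2 := Finset.card_le_card h1
        rw [Finset.card_univ] at h2
        have h4 := Finset.card_le_two (a := x) (b := g x)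
        omega
      have h1 := hcent (swap (g x) z)
      have h2 : (swap (g x) z * g * (swap (g x) z)⁻¹) x = z := by
        rw [Perm.mul_apply, Perm.mul_apply, swap_inv, swap_apply_of_ne_of_ne hx.symm hz1.symm, swap_apply_left]
      rw [h1] at h2
      exact hz2 h2.symm
  · haveI := hK
    exact hnotA (alternatingGroup_le_of_normal (by rw [Nat.card_eq_fintype_card]; exact h5) hnt)

/-- the automorphism attached to a subgroup of index `n` -/
theorem exists_aut (h3 : 3 ≤ Fintype.card Ω) (H : Subgroup (Perm Ω)) (hH : H.index = Fintype.card Ω) :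
    ∃ (α : Perm Ω ≃* Perm Ω) (x₀ : Ω), ∀ g, g ∈ H ↔ α g x₀ = x₀ := by
  classical
  have hcard : Nat.card H * Fintype.card Ω = (Fintype.card Ω)! := by
    rw [← hH, H.card_mul_index, Nat.card_eq_fintype_card, Fintype.card_perm, hH]
  have hH1 : Nat.card H = (Fintype.card Ω - 1)! := by
    rw [(Nat.mul_factorial_pred (by omega : Fintype.card Ω ≠ 0)).symm, mul_comm] at hcard
    exact Nat.eq_of_mul_eq_mul_left (by omega) hcard
  have hcore : H.normalCore = ⊥ := by
    apply normal_trivial h3 _ inferInstance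
    rw [← hH1]
    exact Subgroup.card_dvd_of_le H.normalCore_le
  have hquot : Nat.card (Perm Ω ⧸ H) = Nat.card Ω := by
    rw [Nat.card_eq_fintype_card (α := Ω), ← hH]; rfl
  haveI : Finite (Perm Ω ⧸ H) := inferInstance
  obtain ⟨e⟩ : Nonempty ((Perm Ω ⧸ H) ≃ Ω) := (Finite.card_eq).1 hquot
  let ph : Perm Ω →* Perm (Perm Ω ⧸ H) := MulAction.toPermHom (Perm Ω) (Perm Ω ⧸ H)
  have hph : Function.Injective ph := by
    rw [← MonoidHom.ker_eq_bot_iff, ← hcore, normalCore_eq_ker]
  let ps : Perm (Perm Ω ⧸ H) ≃* Perm Ω := e.permCongrHom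
  have hinj : Function.Injective (ps.toMonoidHom.comp ph) := ps.injective.comp hph
  let α : Perm Ω ≃* Perm Ω := MulEquiv.ofBijective (ps.toMonoidHom.comp ph) (Finite.injective_iff_bijective.1 hinj)
  refine ⟨α, e (QuotientGroup.mk 1), fun g => ?_⟩
  have h1 : α g (e (QuotientGroup.mk 1)) = e (g • (QuotientGroup.mk 1 : Perm Ω ⧸ H)) := by
    change e (ph g (e.symm (e (QuotientGroup.mk 1)))) = _
    rw [e.symm_apply_apply]
    rfl
  rw [h1, e.injective.eq_iff]
  change _ ↔ (QuotientGroup.mk (g * 1) : Perm Ω ⧸ H) = QuotientGroup.mk 1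
  rw [mul_one, QuotientGroup.eq, mul_one, inv_mem_iff]

/-- automorphisms preserve orders of centralizers -/
theorem card_centralizer_aut (α : Perm Ω ≃* Perm Ω) (g : Perm Ω) :
    Nat.card (centralizer {α g}) = Nat.card (centralizer {g}) := by
  symm
  apply Nat.card_congr
  refine ⟨fun x => ⟨α x.1, ?_⟩, fun x => ⟨α.symm x.1, ?_⟩, fun x => Subtype.ext (α.symm_apply_apply _), fun x => Subtype.ext (α.apply_symm_apply _)⟩
  · rw [mem_centralizer_singleton_iff, ← map_mul, ← map_mul, mem_centralizer_singleton_iff.1 x.2]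
  · rw [mem_centralizer_singleton_iff]
    apply α.injective
    rw [map_mul, map_mul, α.apply_symm_apply]
    exact mem_centralizer_singleton_iff.1 x.2

theorem fact_ineq {n k : ℕ} (hk : 1 ≤ k) (hn : 2 * k ≤ n) (h6 : ¬ (n = 6 ∧ k = 3))
    (h : (n - 2 * k)! * 2 ^ k * k ! = (n - 2)! * 2) : k = 1 := by
  by_contra hk1
  have h2 : 2 ≤ k := by omega
  -- (n-2)! ≥ (n-2k)! (2k-2)!
  have hdesc : (n - 2 * k)! * (2 * k - 2)! ≤ (n - 2)! := by
    have h3 := Nat.factorial_mul_factorial_dvd_factorial_add (n - 2 * k) (2 * k - 2)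
    have h4 : n - 2 * k + (2 * k - 2) = n - 2 := by omega
    rw [h4] at h3
    exact Nat.le_of_dvd (Nat.factorial_pos _) h3
  have hpos := Nat.factorial_pos (n - 2 * k)
  rcases Nat.lt_or_ge k 4 with h4 | h4
  · have hk23 : k = 2 ∨ k = 3 := by omega
    rcases hk23 with rfl | rfl
    · -- k = 2
      obtain ⟨m, rfl⟩ : ∃ m, n = m + 4 := ⟨n - 4, by omega⟩
      have e1 : m + 4 - 2 * 2 = m := by omega
      have e2 : m + 4 - 2 = m + 2 := by omega
      rw [e1, e2, Nat.factorial_succ (m + 1), Nat.factorial_succ m, Nat.factorial_two] at h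
      rw [e1] at hpos
      have h5 : (m !) * 8 = (m !) * (2 * ((m + 2) * (m + 1))) := by
        calc (m !) * 8 = m ! * 2 ^ 2 * 2 := by ring
          _ = _ := by rw [h]; ring
      have h6 := Nat.eq_of_mul_eq_mul_left hpos h5
      rcases Nat.eq_zero_or_pos m with rfl | hm
      · norm_num at h6
      · nlinarith
    · obtain ⟨m, rfl⟩ : ∃ m, n = m + 6 := ⟨n - 6, by omega⟩
      have hm : m ≠ 0 := by rintro rfl; exact h6 ⟨rfl, rfl⟩
      have e1 : m + 6 - 2 * 3 = m := by omega
      have e2 : m + 6 - 2 = m + 4 := by omega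
      rw [e1, e2, Nat.factorial_succ (m + 3), Nat.factorial_succ (m + 2), Nat.factorial_succ (m + 1), Nat.factorial_succ m, (by decide : (3)! = 6)] at h
      rw [e1] at hpos
      have h5 : (m !) * 48 = (m !) * (2 * ((m + 4) * ((m + 3) * ((m + 2) * (m + 1))))) := by
        calc (m !) * 48 = m ! * 2 ^ 3 * 6 := by ring
          _ = _ := by rw [h]; ring
      have h6 := Nat.eq_of_mul_eq_mul_left hpos h5
      have hm1 : 1 ≤ m := by omega
      have : (5 : ℕ) * (4 * (3 * 2)) ≤ (m + 4) * ((m + 3) * ((m + 2) * (m + 1))) :=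
        Nat.mul_le_mul (by omega) (Nat.mul_le_mul (by omega) (Nat.mul_le_mul (by omega) (by omega)))
      omega
  · -- k ≥ 4
    have key : ∀ k, 4 ≤ k → 2 ^ k * k ! < 2 * (2 * k - 2)! := by
      intro k hk
      induction k, hk using Nat.le_induction with
      | base => decide
      | succ k hk ih =>
        have e1 : 2 * (k + 1) - 2 = (2 * k - 2) + 2 := by omega
        rw [e1, Nat.factorial_succ, Nat.factorial_succ, Nat.factorial_succ, pow_succ]
        have h7 : 2 * (k + 1) ≤ (2 * k - 2 + 1 + 1) * (2 * k - 2 + 1) := by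
          obtain ⟨j, rfl⟩ : ∃ j, k = j + 4 := ⟨k - 4, by omega⟩
          have : 2 * (j + 4) - 2 = 2 * j + 6 := by omega
          rw [this]
          nlinarith
        calc 2 ^ k * 2 * ((k + 1) * k !) = (2 * (k + 1)) * (2 ^ k * k !) := by ring
          _ < (2 * (k + 1)) * (2 * (2 * k - 2)!) := Nat.mul_lt_mul_of_pos_left ih (by omega)
          _ ≤ ((2 * k - 2 + 1 + 1) * (2 * k - 2 + 1)) * (2 * (2 * k - 2)!) := Nat.mul_le_mul_right _ h7
          _ = _ := by ring
    have h5 := key k h4
    have h6 : (n - 2 * k)! * (2 ^ k * k !) < (n - 2 * k)! * (2 * (2 * k - 2)!) := Nat.mul_lt_mul_of_pos_left h5 hpos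
    have h7 : (n - 2 * k)! * (2 * (2 * k - 2)!) ≤ (n - 2)! * 2 := by
      calc _ = ((n - 2 * k)! * (2 * k - 2)!) * 2 := by ring
        _ ≤ _ := Nat.mul_le_mul_right _ hdesc
    rw [← mul_assoc, h] at h6
    omega

theorem card_centralizer_two {g : Perm Ω} {k : ℕ} (hk : 1 ≤ k) (hg : g.cycleType = Multiset.replicate k 2) :
    Nat.card (centralizer {g}) = (Fintype.card Ω - 2 * k)! * 2 ^ k * k ! := by
  rw [nat_card_centralizer, hg, Multiset.sum_replicate, Multiset.prod_replicate, Multiset.toFinset_replicate, if_neg (by omega),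
    Finset.prod_singleton, Multiset.count_replicate_self, smul_eq_mul, mul_comm k 2]

/-- automorphisms on transpositions -/
theorem aut_swap (α : Perm Ω ≃* Perm Ω) (t : Perm Ω) (ht : t.IsSwap) :
    (α t).IsSwap ∨ (Fintype.card Ω = 6 ∧ (α t).cycleType = Multiset.replicate 3 2) := by
  have hord : orderOf (α t) = 2 := by rw [MulEquiv.orderOf_eq, ht.orderOf]
  obtain ⟨m, hm⟩ := cycleType_prime_order (by rw [hord]; exact Nat.prime_two : (orderOf (α t)).Prime)
  rw [hord] at hm
  have h1 := card_centralizer_aut α t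
  have ht' : t.cycleType = Multiset.replicate 1 2 := (isSwap_iff_cycleType.1 ht).trans rfl
  rw [card_centralizer_two (by omega) hm, card_centralizer_two (le_refl 1) ht'] at h1
  have hsum : 2 * (m + 1) ≤ Fintype.card Ω := by
    have h2 := sum_cycleType (α t)
    rw [hm, Multiset.sum_replicate, smul_eq_mul] at h2
    have h3 := (α t).support.card_le_univ
    omega
  by_cases h6 : Fintype.card Ω = 6 ∧ m + 1 = 3
  · right
    refine ⟨h6.1, ?_⟩
    rw [hm, h6.2]
  · left
    have h2 := fact_ineq (by omega) hsum h6 (by simpa using h1)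
    rw [isSwap_iff_cycleType, hm, h2]
    rfl

/-- subgroups of index `n` all of whose swaps come from swaps -/
theorem point_of_swaps (h3 : 3 ≤ Fintype.card Ω) (H : Subgroup (Perm Ω)) (hH : H.index = Fintype.card Ω)
    (α : Perm Ω ≃* Perm Ω) (x₀ : Ω) (hα : ∀ g, g ∈ H ↔ α g x₀ = x₀) (hsw : ∀ t : Perm Ω, t.IsSwap → (α t).IsSwap) :
    ∃ x : Ω, H = MulAction.stabilizer (Perm Ω) x := by
  classical
  -- the number of swaps outside H is at most n - 1
  have hT : Nat.card {t : Perm Ω // t.IsSwap ∧ t ∉ H} ≤ Fintype.card Ω - 1 := by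
    have h1 : Nat.card {y : Ω // y ≠ x₀} = Fintype.card Ω - 1 := by
      rw [Nat.card_eq_fintype_card, Fintype.card_subtype_compl, Fintype.card_subtype_eq]
    rw [← h1]
    have hne : ∀ t : {t : Perm Ω // t.IsSwap ∧ t ∉ H}, α t.1 x₀ ≠ x₀ := fun t h => t.2.2 ((hα _).2 h)
    apply Nat.card_le_card_of_injective (fun t => (⟨α t.1 x₀, hne t⟩ : {y : Ω // y ≠ x₀}))
    intro s t hst
    have h2 : α s.1 x₀ = α t.1 x₀ := congrArg (fun z : {y : Ω // y ≠ x₀} => z.1) hst
    apply Subtype.ext
    apply α.injective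
    have h4 : ∀ u : Perm Ω, u.IsSwap → u x₀ ≠ x₀ → u = swap x₀ (u x₀) := by
      rintro u ⟨a, b, hab, rfl⟩ hu
      have : x₀ = a ∨ x₀ = b := by
        by_contra hcon
        push Not at hcon
        exact hu (swap_apply_of_ne_of_ne hcon.1 hcon.2)
      rcases this with rfl | rfl
      · rw [swap_apply_left]
      · rw [swap_apply_right, swap_comm]
    rw [h4 _ (hsw _ s.2.1) (hne s), h4 _ (hsw _ t.2.1) (hne t), h2]
  -- some swap is outside H
  have hHtop : H ≠ ⊤ := by
    rintro rfl
    rw [Subgroup.index_top] at hH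
    omega
  obtain ⟨c, d, hcd, hcdH⟩ : ∃ c d : Ω, c ≠ d ∧ swap c d ∉ H := by
    by_contra hcon
    push Not at hcon
    apply hHtop
    rw [eq_top_iff, ← closure_isSwap, Subgroup.closure_le]
    rintro _ ⟨a, b, hab, rfl⟩
    exact hcon a b hab
  -- the relation
  have htrans : ∀ a b e : Ω, swap a b ∈ H → swap b e ∈ H → swap a e ∈ H := by
    intro a b e h1 h2
    by_cases hae : a = e
    · rw [hae, swap_self]; exact one_mem H
    by_cases hab : a = b
    · rw [hab]; exact h2
    by_cases hbe : b = e
    · rw [← hbe]; exact h1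
    · have h5 : swap a e = swap b e * swap a b * (swap b e)⁻¹ := by
        rw [← swap_apply_apply, swap_apply_of_ne_of_ne hab hae, swap_apply_left]
      rw [h5]
      exact mul_mem (mul_mem h2 h1) (inv_mem h2)
  have hsymm : ∀ a b : Ω, swap a b ∈ H → swap b a ∈ H := fun a b h => by rwa [swap_comm]
  let C : Finset Ω := Finset.univ.filter (fun a => swap c a ∈ H)
  have hC : ∀ a, a ∈ C ↔ swap c a ∈ H := fun a => by simp [C]
  have hcC : c ∈ C := by rw [hC, swap_self]; exact one_mem H
  have hdC : d ∉ C := by rw [hC]; exact hcdH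
  have hprod : C.card * (Fintype.card Ω - C.card) ≤ Fintype.card Ω - 1 := by
    refine le_trans ?_ hT
    have h1 : C.card * (Fintype.card Ω - C.card) = Nat.card (C × (Cᶜ : Finset Ω)) := by
      rw [Nat.card_prod, Nat.card_eq_fintype_card, Nat.card_eq_fintype_card, Fintype.card_coe, Fintype.card_coe, Finset.card_compl]
    rw [h1]
    have hout : ∀ q : C × (Cᶜ : Finset Ω), q.1.1 ≠ q.2.1 ∧ swap q.1.1 q.2.1 ∉ H := by
      intro q
      have h2 := (hC _).1 q.1.2
      have h4 : swap c q.2.1 ∉ H := fun h => (Finset.mem_compl.1 q.2.2) ((hC _).2 h)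
      constructor
      · intro h
        rw [← h] at h4
        exact h4 h2
      · intro h
        exact h4 (htrans _ _ _ h2 h)
    apply Nat.card_le_card_of_injective (fun q : C × (Cᶜ : Finset Ω) => (⟨swap q.1.1 q.2.1, ⟨q.1.1, q.2.1, (hout q).1, rfl⟩, (hout q).2⟩ : {t : Perm Ω // t.IsSwap ∧ t ∉ H}))
    intro q q' hqq
    have h2 : swap q.1.1 q.2.1 = swap q'.1.1 q'.2.1 := congrArg (fun z : {t : Perm Ω // t.IsSwap ∧ t ∉ H} => z.1) hqq
    have h4 : swap q'.1.1 q'.2.1 q.1.1 = q.2.1 := by rw [← h2, swap_apply_left]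
    have h5 : q.1.1 = q'.1.1 := by
      by_contra hne
      by_cases hne2 : q.1.1 = q'.2.1
      · apply Finset.mem_compl.1 q'.2.2
        rw [← hne2]
        exact q.1.2
      · rw [swap_apply_of_ne_of_ne hne hne2] at h4
        exact (hout q).1 h4
    rw [h5, swap_apply_left] at h4
    exact Prod.ext (Subtype.ext h5) (Subtype.ext h4.symm)
  have hCle : C.card + 1 ≤ Fintype.card Ω := by
    have h1 := Finset.card_lt_univ_of_notMem hdC
    omega
  have hCpos : 1 ≤ C.card := Finset.card_pos.2 ⟨c, hcC⟩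
  have hC1 : C.card = 1 ∨ C.card = Fintype.card Ω - 1 := by
    by_contra hcon
    push Not at hcon
    obtain ⟨h1, h2⟩ := hcon
    obtain ⟨u, hu⟩ : ∃ u, C.card = u + 2 := ⟨C.card - 2, by omega⟩
    obtain ⟨v, hv⟩ : ∃ v, Fintype.card Ω - C.card = v + 2 := ⟨Fintype.card Ω - C.card - 2, by omega⟩
    rw [hv, hu] at hprod
    have : Fintype.card Ω = u + v + 4 := by omega
    rw [this] at hprod
    have h5 : (u + 2) * (v + 2) = u * v + 2 * u + 2 * v + 4 := by ring
    omega
  -- there is an isolated point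
  obtain ⟨e, he⟩ : ∃ e : Ω, ∀ a, a ≠ e → swap e a ∉ H := by
    rcases hC1 with h | h
    · refine ⟨c, fun a ha haH => ?_⟩
      obtain ⟨b, hb⟩ := Finset.card_eq_one.1 h
      have h1 : a ∈ C := (hC a).2 haH
      rw [hb, Finset.mem_singleton] at h1 hcC
      exact ha (h1.trans hcC.symm)
    · refine ⟨d, fun a ha haH => ?_⟩
      have h1 : Cᶜ.card = 1 := by rw [Finset.card_compl]; omega
      obtain ⟨b, hb⟩ := Finset.card_eq_one.1 h1
      have h2 : a ∈ Cᶜ := by
        rw [Finset.mem_compl, hC]
        intro h4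
        exact hcdH (htrans _ _ _ h4 (hsymm _ _ haH))
      have h4 : d ∈ Cᶜ := Finset.mem_compl.2 hdC
      rw [hb, Finset.mem_singleton] at h2 h4
      exact ha (h2.trans h4.symm)
  -- all other swaps are in H
  have hall : ∀ a b : Ω, a ≠ b → a ≠ e → b ≠ e → swap a b ∈ H := by
    intro a b hab hae hbe
    by_contra hno
    have h1 : Fintype.card Ω ≤ Nat.card {t : Perm Ω // t.IsSwap ∧ t ∉ H} := by
      have h2 : Nat.card (Option {y : Ω // y ≠ e}) = Fintype.card Ω := by
        rw [Finite.card_option, Nat.card_eq_fintype_card, Fintype.card_subtype_compl, Fintype.card_subtype_eq]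
        omega
      rw [← h2]
      let F : Option {y : Ω // y ≠ e} → {t : Perm Ω // t.IsSwap ∧ t ∉ H} := fun o => match o with
        | none => ⟨swap a b, ⟨a, b, hab, rfl⟩, hno⟩
        | some y => ⟨swap e y.1, ⟨e, y.1, y.2.symm, rfl⟩, he y.1 y.2⟩
      have hF0 : (F none).1 = swap a b := rfl
      have hF1 : ∀ y, (F (some y)).1 = swap e y.1 := fun y => rfl
      apply Nat.card_le_card_of_injective F
      have hno2 : ∀ y : {y : Ω // y ≠ e}, F none ≠ F (some y) := by
        intro y h
        have h4 : swap a b e = swap e y.1 e := by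
          rw [← hF0, ← hF1, h]
        rw [swap_apply_left, swap_apply_of_ne_of_ne hae.symm hbe.symm] at h4
        exact y.2 h4.symm
      rintro (_ | y) (_ | y') h
      · rfl
      · exact absurd h (hno2 y')
      · exact absurd h.symm (hno2 y)
      · have h4 : swap e y.1 e = swap e y'.1 e := by
          rw [← hF1, ← hF1, h]
        rw [swap_apply_left, swap_apply_left] at h4
        rw [Subtype.ext h4]
    omega
  refine ⟨e, ?_⟩
  symm
  have hle : MulAction.stabilizer (Perm Ω) e ≤ H := by
    intro g hg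
    have hg' : g e = e := hg
    let g' : Perm {x : Ω // x ≠ e} := g.subtypePerm (fun x => by
      constructor
      · intro h h1; rw [h1, hg'] at h; exact h rfl
      · intro h h1; exact h (g.injective (by rw [h1, hg'])))
    have hg'' : Equiv.Perm.ofSubtype g' = g := by
      apply Equiv.Perm.ofSubtype_subtypePerm
      intro x hx h
      rw [h, hg'] at hx
      exact hx rfl
    rw [← hg'']
    have h1 : g' ∈ Subgroup.closure {σ : Perm {x : Ω // x ≠ e} | IsSwap σ} := by
      rw [closure_isSwap]; exact Subgroup.mem_top _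
    have h2 : Subgroup.closure {σ : Perm {x : Ω // x ≠ e} | IsSwap σ} ≤ H.comap Equiv.Perm.ofSubtype := by
      rw [Subgroup.closure_le]
      rintro _ ⟨a, b, hab, rfl⟩
      change Equiv.Perm.ofSubtype (swap a b) ∈ H
      rw [Equiv.Perm.ofSubtype_swap_eq]
      exact hall a.1 b.1 (fun h => hab (Subtype.ext h)) a.2 b.2
    exact h2 h1
  apply Subgroup.eq_of_le_of_card_ge hle
  have h1 : (MulAction.stabilizer (Perm Ω) e).index = H.index := by
    rw [hH, MulAction.index_stabilizer_of_transitive, Nat.card_eq_fintype_card]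
  have h2 := (MulAction.stabilizer (Perm Ω) e).card_mul_index
  have h4 := H.card_mul_index
  rw [h1, ← h4] at h2
  have h5 : 0 < H.index := by rw [hH]; omega
  exact (Nat.eq_of_mul_eq_mul_right h5 h2).ge

end CfsgLib.CM4
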