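import Mathlib
import Cfsg.Agent.Lib.CM4

set_option autoImplicit false
set_option maxRecDepth 20000

/-! The exceptional subgroups of index 6 of `S₆`. -/
namespace CfsgLib.CM5

open Equiv Equiv.Perm Subgroup
open scoped Nat

/-- tables -/
def tab : Nat → Nat
  | 0 => 1155983316719064808762147104622678096323623451847219893582939103431635080408629993613188151769190492489873172454338038529161154548548700824754554261144676457179297908790
  | 1 => 1155983316704007639098509985828710998711936360638169762361096485725359084813531784617342751400819774470972481323655860413444873628513368367955888719865505981642785908790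
  | 2 => 1155983148020367218600035695752711610358399702677412835400434312124572493198752049440403788602816207319178871905215162567797706636039060342984341797773812352482557908790
  | 3 => 1155983045684751281730297314455292055293923205349552874172608145980402482445304436636427719973994900676849114666266585611451686354038100590650773164304323381778941908790
  | 4 => 1155983147988534042303406383489842225053021267717569844114761054651244364742492156095279578822377993767436068059356458904435902316269552582423929122990323765376441908790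
  | 5 => 1155983045667975826515352382463368388426568193249253468662421561782905858006274984462631403654626697267526845424470879621644186130701394769294352813213176160830265908790
  | _ => 0

/-- the ternary operation of the `i`-th total -/
def m (i a b c : Fin 6) : Fin 6 := ⟨(tab i.val / 6 ^ (36 * a.val + 6 * b.val + c.val)) % 6, Nat.mod_lt _ (by norm_num)⟩

theorem swaps_m : ∀ x y i : Fin 6, ∃ j : Fin 6, ∀ a b c : Fin 6, swap x y (m i a b c) = m j (swap x y a) (swap x y b) (swap x y c) := by
  decide +kernel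

theorem rot_m : ∀ a b c : Fin 6, finRotate 6 (m 0 a b c) = m 0 (finRotate 6 a) (finRotate 6 b) (finRotate 6 c) := by
  decide +kernel

theorem swap_m : ¬ ∀ a b c : Fin 6, swap 0 1 (m 0 a b c) = m 0 (swap 0 1 a) (swap 0 1 b) (swap 0 1 c) := by
  decide +kernel

theorem three_m : ¬ ∀ a b c : Fin 6, (swap 0 1 * swap 1 2 : Perm (Fin 6)) (m 0 a b c) = m 0 ((swap 0 1 * swap 1 2 : Perm (Fin 6)) a) ((swap 0 1 * swap 1 2 : Perm (Fin 6)) b) ((swap 0 1 * swap 1 2 : Perm (Fin 6)) c) := by
  decide +kernel

/-- the exotic subgroup -/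
def X6 : Subgroup (Perm (Fin 6)) where
  carrier := {g | ∀ a b c : Fin 6, g (m 0 a b c) = m 0 (g a) (g b) (g c)}
  one_mem' := fun a b c => rfl
  mul_mem' := fun {g h} hg hh a b c => by
    rw [Perm.mul_apply, Perm.mul_apply, Perm.mul_apply, Perm.mul_apply, hh, hg]
  inv_mem' := fun {g} hg a b c => by
    apply g.injective
    rw [hg, ← Perm.mul_apply, ← Perm.mul_apply, ← Perm.mul_apply, ← Perm.mul_apply, mul_inv_cancel]
    rfl

theorem act_m (g : Perm (Fin 6)) : ∀ i : Fin 6, ∃ j : Fin 6, ∀ a b c : Fin 6, g (m i a b c) = m j (g a) (g b) (g c) := by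
  induction g using Equiv.Perm.swap_induction_on with
  | one => exact fun i => ⟨i, fun a b c => rfl⟩
  | swap_mul f x y hxy ih =>
    intro i
    obtain ⟨j, hj⟩ := ih i
    obtain ⟨k, hk⟩ := swaps_m x y j
    exact ⟨k, fun a b c => by rw [Perm.mul_apply, Perm.mul_apply, Perm.mul_apply, Perm.mul_apply, hj, hk]⟩

theorem X6_index_le : X6.index ≤ 6 := by
  choose J hJ using fun g : Perm (Fin 6) => act_m g 0
  have hF : Function.Injective (fun q : Perm (Fin 6) ⧸ X6 => J q.out) := by
    intro q r h
    have h1 : ∀ a b c : Fin 6, q.out (m 0 a b c) = m (J q.out) (q.out a) (q.out b) (q.out c) := hJ q.out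
    have h2 : ∀ a b c : Fin 6, r.out (m 0 a b c) = m (J r.out) (r.out a) (r.out b) (r.out c) := hJ r.out
    have h3 : J q.out = J r.out := h
    rw [h3] at h1
    have h4 : q.out⁻¹ * r.out ∈ X6 := by
      intro a b c
      apply q.out.injective
      rw [h1, Perm.mul_apply, Perm.mul_apply, Perm.mul_apply, Perm.mul_apply, ← Perm.mul_apply, ← Perm.mul_apply q.out, ← Perm.mul_apply q.out, ← Perm.mul_apply q.out, mul_inv_cancel]
      exact h2 a b c
    rw [← q.out_eq', ← r.out_eq']
    exact QuotientGroup.eq.2 h4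
  have h1 := Nat.card_le_card_of_injective _ hF
  rw [Nat.card_fin] at h1
  exact h1

theorem index_ge (H : Subgroup (Perm (Fin 6))) (hH : H ≠ ⊤) (hA : H ≠ alternatingGroup (Fin 6)) : 6 ≤ H.index := by
  by_contra hlt
  push Not at hlt
  have hi0 : H.index ≠ 0 := Subgroup.index_ne_zero_of_finite
  have hi1 : H.index ≠ 1 := fun h => hH (Subgroup.index_eq_one.1 h)
  have hi2 : H.index ≠ 2 := fun h => hA (Equiv.Perm.eq_alternatingGroup_of_index_eq_two h)
  by_cases hnt : Nontrivial H.normalCore
  · have h1 := Equiv.Perm.alternatingGroup_le_of_normal (α := Fin 6) (by rw [Nat.card_fin]; norm_num) hnt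
    have h2 : alternatingGroup (Fin 6) ≤ H := h1.trans H.normalCore_le
    have h3 := Subgroup.index_dvd_of_le h2
    rw [alternatingGroup.index_eq_two] at h3
    have := Nat.le_of_dvd (by norm_num) h3
    omega
  · rw [Subgroup.nontrivial_iff_ne_bot, not_not, Subgroup.normalCore_eq_ker, MonoidHom.ker_eq_bot_iff] at hnt
    have h1 := Nat.card_le_card_of_injective _ hnt
    rw [Nat.card_eq_fintype_card, Fintype.card_perm, Fintype.card_fin] at h1
    haveI : Fintype (Equiv.Perm (Fin 6) ⧸ H) := Fintype.ofFinite _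
    classical
    rw [Nat.card_eq_fintype_card, Fintype.card_perm, ← Nat.card_eq_fintype_card] at h1
    change (6).factorial ≤ H.index.factorial at h1
    have h2 : H.index.factorial < (6).factorial := Nat.factorial_lt_of_lt (by omega) hlt
    omega

theorem X6_index : X6.index = 6 := by
  apply le_antisymm X6_index_le
  apply index_ge
  · intro h
    apply swap_m
    have : swap 0 1 ∈ X6 := by rw [h]; exact Subgroup.mem_top _
    exact this
  · intro h
    apply three_m
    have : swap 0 1 * swap 1 2 ∈ X6 := by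
      rw [h, Equiv.Perm.mem_alternatingGroup, map_mul, sign_swap (by decide), sign_swap (by decide)]
      norm_num
    exact this

theorem rot_ne : ∀ x : Fin 6, finRotate 6 x ≠ x := by decide

theorem X6_not_point (x : Fin 6) : X6 ≠ MulAction.stabilizer (Perm (Fin 6)) x := by
  intro h
  have h1 : finRotate 6 ∈ X6 := rot_m
  rw [h] at h1
  have h2 : finRotate 6 x = x := h1
  exact rot_ne x h2

/-- type 2^3 -/
def T3 {Ω : Type*} [Fintype Ω] [DecidableEq Ω] (g : Perm Ω) : Prop := g.cycleType = Multiset.replicate 3 2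

variable {Ω : Type*} [Fintype Ω] [DecidableEq Ω]

theorem aut_dichotomy (h6 : Fintype.card Ω = 6) (α : Perm Ω ≃* Perm Ω) :
    (∀ t : Perm Ω, t.IsSwap → (α t).IsSwap) ∨ ((∀ t : Perm Ω, t.IsSwap → T3 (α t)) ∧ (∀ t : Perm Ω, T3 t → (α t).IsSwap)) := by
  by_cases h : ∀ t : Perm Ω, t.IsSwap → (α t).IsSwap
  · exact Or.inl h
  right
  push Not at h
  obtain ⟨t0, ht0, ht0'⟩ := h
  have hT0 : T3 (α t0) := ((CfsgLib.CM4.aut_swap α t0 ht0).resolve_left ht0').2
  have hconj : ∀ s t : Perm Ω, IsConj s t → IsConj (α s) (α t) := by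
    intro s t hst
    obtain ⟨c, hc⟩ := isConj_iff.1 hst
    refine isConj_iff.2 ⟨α c, ?_⟩
    rw [← map_mul, ← map_inv, ← map_mul, hc]
  constructor
  · intro t ht
    have h1 : IsConj t0 t := by
      rw [isConj_iff_cycleType_eq, isSwap_iff_cycleType.1 ht0, isSwap_iff_cycleType.1 ht]
    have h2 := (isConj_iff_cycleType_eq).1 (hconj _ _ h1)
    unfold T3
    rw [← h2]
    exact hT0
  · intro t ht
    have hord : orderOf (α t) = 2 := by
      rw [MulEquiv.orderOf_eq, ← lcm_cycleType, ht]
      rfl
    obtain ⟨m, hm⟩ := cycleType_prime_order (by rw [hord]; exact Nat.prime_two : (orderOf (α t)).Prime)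
    rw [hord] at hm
    have h1 := CfsgLib.CM4.card_centralizer_aut α t
    rw [CfsgLib.CM4.card_centralizer_two (by omega) hm, CfsgLib.CM4.card_centralizer_two (by norm_num : 1 ≤ 3) ht, h6] at h1
    have hsum : 2 * (m + 1) ≤ Fintype.card Ω := by
      have h2 := sum_cycleType (α t)
      rw [hm, Multiset.sum_replicate, smul_eq_mul] at h2
      have h3 := (α t).support.card_le_univ
      omega
    have hm3 : m = 0 ∨ m = 1 ∨ m = 2 := by omega
    rcases hm3 with rfl | rfl | rfl
    · rw [isSwap_iff_cycleType, hm]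
      rfl
    · exfalso
      revert h1
      decide
    · exfalso
      have h2 : IsConj (α t0) (α t) := by
        rw [isConj_iff_cycleType_eq, hT0, hm]
      have h3 : IsConj t0 t := by
        obtain ⟨c, hc⟩ := isConj_iff.1 h2
        refine isConj_iff.2 ⟨α.symm c, ?_⟩
        apply α.injective
        rw [map_mul, map_mul, map_inv, α.apply_symm_apply, hc]
      rw [isConj_iff_cycleType_eq, isSwap_iff_cycleType.1 ht0, ht] at h3
      have := congrArg Multiset.card h3
      simp at this

/-- classification of subgroups of index 6 -/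
theorem classify (h6 : Fintype.card Ω = 6) (H₂ : Subgroup (Perm Ω)) (hi : H₂.index = 6)
    (hnp : ∀ x : Ω, H₂ ≠ MulAction.stabilizer (Perm Ω) x) :
    ∃ (θ : Perm Ω ≃* Perm Ω) (x₀ : Ω), (∀ g, g ∈ H₂ ↔ θ g x₀ = x₀) ∧
      ∀ H : Subgroup (Perm Ω), H.index = 6 → (∃ x : Ω, H = MulAction.stabilizer (Perm Ω) x) ∨
        (∃ y : Ω, H = (MulAction.stabilizer (Perm Ω) y).comap θ.toMonoidHom) := by
  obtain ⟨θ, x₀, hθ⟩ := CfsgLib.CM4.exists_aut (by omega) H₂ (by rw [hi, h6])
  refine ⟨θ, x₀, hθ, fun H hH => ?_⟩
  have hθ2 : (∀ t : Perm Ω, t.IsSwap → T3 (θ t)) ∧ (∀ t : Perm Ω, T3 t → (θ t).IsSwap) := by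
    rcases aut_dichotomy h6 θ with h | h
    · exfalso
      obtain ⟨x, hx⟩ := CfsgLib.CM4.point_of_swaps (by omega) H₂ (by rw [hi, h6]) θ x₀ hθ h
      exact hnp x hx
    · exact h
  obtain ⟨β, x₁, hβ⟩ := CfsgLib.CM4.exists_aut (by omega) H (by rw [hH, h6])
  rcases aut_dichotomy h6 β with h | ⟨h1, h2⟩
  · left
    exact CfsgLib.CM4.point_of_swaps (by omega) H (by rw [hH, h6]) β x₁ hβ h
  · right
    -- θ(H)
    have hmap : (H.map θ.toMonoidHom).index = Fintype.card Ω := by
      rw [Subgroup.index_map_of_bijective θ.bijective, hH, h6]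
    obtain ⟨y, hy⟩ := CfsgLib.CM4.point_of_swaps (by omega) (H.map θ.toMonoidHom) hmap (θ.symm.trans β) x₁ (by
      intro g
      rw [MulEquiv.trans_apply, ← hβ]
      constructor
      · rintro ⟨k, hk, rfl⟩
        have : θ.symm (θ k) = k := θ.symm_apply_apply k
        change θ.symm (θ k) ∈ H
        rw [this]
        exact hk
      · intro hg
        exact ⟨θ.symm g, hg, θ.apply_symm_apply g⟩) (by
      intro t ht
      rw [MulEquiv.trans_apply]
      -- θ.symm of a swap is T3
      apply h2
      -- θ.symm t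
      have hd := aut_dichotomy h6 θ.symm
      rcases hd with hd | hd
      · exfalso
        have h3 := hθ2.1 _ (hd t ht)
        rw [θ.apply_symm_apply] at h3
        have h4 := isSwap_iff_cycleType.1 ht
        have h5 : t.cycleType = Multiset.replicate 3 2 := h3
        rw [h4] at h5
        have := congrArg Multiset.card h5
        simp at this
      · exact hd.1 t ht)
    refine ⟨y, ?_⟩
    rw [← hy]
    exact (Subgroup.comap_map_eq_self_of_injective θ.injective H).symm

/-- conjugation of the twisted stabilisers -/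
theorem comap_conj (θ : Perm Ω ≃* Perm Ω) (x y : Ω) : ∃ g : Perm Ω,
    ((MulAction.stabilizer (Perm Ω) x).comap θ.toMonoidHom).map (MulAut.conj g).toMonoidHom = (MulAction.stabilizer (Perm Ω) y).comap θ.toMonoidHom := by
  let c : Perm Ω := swap x y
  refine ⟨θ.symm c, ?_⟩
  have hc : c x = y := swap_apply_left _ _
  have hc' : c⁻¹ y = x := by rw [← hc, ← Perm.mul_apply, inv_mul_cancel]; rfl
  ext h
  constructor
  · rintro ⟨k, hk, rfl⟩
    have hk' : θ k x = x := hk
    change θ (θ.symm c * k * (θ.symm c)⁻¹) y = y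
    rw [map_mul, map_mul, map_inv, θ.apply_symm_apply, Perm.mul_apply, Perm.mul_apply, hc', hk', hc]
  · intro hh
    have hh' : θ h y = y := hh
    refine ⟨(θ.symm c)⁻¹ * h * θ.symm c, ?_, ?_⟩
    · change θ ((θ.symm c)⁻¹ * h * θ.symm c) x = x
      rw [map_mul, map_mul, map_inv, θ.apply_symm_apply, Perm.mul_apply, Perm.mul_apply, hc, hh', hc']
    · change θ.symm c * ((θ.symm c)⁻¹ * h * θ.symm c) * (θ.symm c)⁻¹ = h
      group

theorem stab_conj (g : Perm Ω) (x : Ω) :
    (MulAction.stabilizer (Perm Ω) x).map (MulAut.conj g).toMonoidHom = MulAction.stabilizer (Perm Ω) (g x) :=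
  (MulAction.stabilizer_smul_eq_stabilizer_map_conj g x).symm

/-- the twisted stabilisers are not point stabilisers -/
theorem comap_not_point (θ : Perm Ω ≃* Perm Ω) (x₀ : Ω) (H₂ : Subgroup (Perm Ω)) (hθ : ∀ g, g ∈ H₂ ↔ θ g x₀ = x₀)
    (hnp : ∀ x : Ω, H₂ ≠ MulAction.stabilizer (Perm Ω) x) (x y : Ω) :
    (MulAction.stabilizer (Perm Ω) y).comap θ.toMonoidHom ≠ MulAction.stabilizer (Perm Ω) x := by
  intro h
  obtain ⟨g, hg⟩ := comap_conj θ y x₀
  rw [h, stab_conj] at hg
  apply hnp (g x)
  rw [hg]
  ext k
  exact hθ k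

/-- point stabilisers are symmetric groups -/
theorem stab_iso (x : Ω) : Nonempty (MulAction.stabilizer (Perm Ω) x ≃* Perm {y : Ω // y ≠ x}) := by
  have hφ : Function.Injective (Equiv.Perm.ofSubtype : Perm {y : Ω // y ≠ x} →* Perm Ω) := Equiv.Perm.ofSubtype_injective
  have hr : (Equiv.Perm.ofSubtype : Perm {y : Ω // y ≠ x} →* Perm Ω).range = MulAction.stabilizer (Perm Ω) x := by
    ext g
    constructor
    · rintro ⟨a, rfl⟩
      change Equiv.Perm.ofSubtype a x = x
      exact Equiv.Perm.ofSubtype_apply_of_not_mem a (by simp)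
    · intro hg
      have hg' : g x = x := hg
      refine ⟨g.subtypePerm (p := fun y => y ≠ x) (fun y => ?_), ?_⟩
      · rw [not_iff_not]
        constructor
        · intro h; exact g.injective (by rw [h, hg'])
        · intro h; rw [h, hg']
      · apply Equiv.Perm.ofSubtype_subtypePerm
        intro y hy h
        rw [h, hg'] at hy
        exact hy rfl
  rw [← hr]
  exact ⟨(MonoidHom.ofInjective hφ).symm⟩

end CfsgLib.CM5
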