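import Cfsg.Agent.Lib.ChermakDelgado
import Cfsg.Prelude.Def_BaumannBlocks

/-!
# Centrally large subgroups (Glauberman), via the Chermak–Delgado measure

Namespace `CfsgLib.CL`.
-/

set_option autoImplicit false
set_option linter.unusedSectionVars false
open Pointwise CfsgLib.CD
open scoped commutatorElement

namespace CfsgLib.CL

variable {G : Type*} [Group G] [Finite G]

theorem sSup_range_eq_iff {f : Subgroup G → ℕ} (R : Subgroup G) :
    f R = sSup {k : ℕ | ∃ R : Subgroup G, f R = k} ↔ ∀ K, f K ≤ f R := by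
  have hb : BddAbove {k : ℕ | ∃ R : Subgroup G, f R = k} := (Set.finite_range f).bddAbove
  have hne : {k : ℕ | ∃ R : Subgroup G, f R = k}.Nonempty := ⟨f ⊥, ⊥, rfl⟩
  constructor
  · intro h K
    rw [h]
    exact le_csSup hb ⟨K, rfl⟩
  · intro h
    apply le_antisymm
    · exact le_csSup hb ⟨R, rfl⟩
    · obtain ⟨K, hK⟩ := Nat.sSup_mem hne hb
      rw [← hK]; exact h K

theorem isCentralizerLarge_iff {R : Subgroup G} : Cfsg.IsCentralizerLarge R ↔ IsLarge R :=
  sSup_range_eq_iff (f := fun R : Subgroup G => Nat.card R * Nat.card (Subgroup.centralizer (R : Set G))) R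

theorem card_center (R : Subgroup G) : Nat.card (Subgroup.center R) = Nat.card (R ⊓ Subgroup.centralizer (R : Set G) : Subgroup G) := by
  have h : (Subgroup.center R).map R.subtype = R ⊓ Subgroup.centralizer (R : Set G) := by
    ext x
    simp only [Subgroup.mem_map, Subgroup.mem_center_iff, Subgroup.coe_subtype, Subtype.exists, Subgroup.mem_inf,
      Subgroup.mem_centralizer_iff]
    constructor
    · rintro ⟨a, ha, h, rfl⟩
      exact ⟨ha, fun y hy => congrArg Subtype.val (h ⟨y, hy⟩)⟩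
    · rintro ⟨hx, h⟩
      exact ⟨x, hx, fun y => Subtype.ext (h y y.2), rfl⟩
  rw [← h, Subgroup.card_map_of_injective R.subtype_injective]

theorem center_prod_le (R : Subgroup G) : Nat.card R * Nat.card (Subgroup.center R) ≤ meas R := by
  rw [card_center]
  exact Nat.mul_le_mul_left _ (Subgroup.card_le_of_le inf_le_right)

theorem center_prod_eq {R : Subgroup G} (h : Subgroup.centralizer (R : Set G) ≤ R) :
    Nat.card R * Nat.card (Subgroup.center R) = meas R := by
  rw [card_center, inf_eq_right.mpr h]; rfl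

theorem isCentrallyLarge_iff' {R : Subgroup G} : Cfsg.IsCentrallyLarge R ↔
    ∀ K : Subgroup G, Nat.card K * Nat.card (Subgroup.center K) ≤ Nat.card R * Nat.card (Subgroup.center R) :=
  sSup_range_eq_iff (f := fun R : Subgroup G => Nat.card R * Nat.card (Subgroup.center R)) R

theorem isCentrallyLarge_iff {R : Subgroup G} : Cfsg.IsCentrallyLarge R ↔
    IsLarge R ∧ Subgroup.centralizer (R : Set G) ≤ R := by
  rw [isCentrallyLarge_iff']
  constructor
  · intro h
    obtain ⟨Q, hQ⟩ := exists_isLarge (G := G)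
    obtain ⟨h1, h2⟩ := hQ.sup_centralizer
    have h3 := h (Q ⊔ Subgroup.centralizer (Q : Set G))
    rw [center_prod_eq h2] at h3
    have h4 := center_prod_le R
    have h5 : IsLarge R := h1.of_ge (h3.trans h4)
    refine ⟨h5, ?_⟩
    have h6 := h1.eq h5
    rw [h6] at h3
    have h7 : Nat.card R * Nat.card (Subgroup.centralizer (R : Set G)) ≤ Nat.card R * Nat.card (Subgroup.center R) := h3
    rw [card_center] at h7
    have h8 := Nat.le_of_mul_le_mul_left h7 Nat.card_pos
    have h9 := Subgroup.eq_of_le_of_card_ge (inf_le_right : R ⊓ Subgroup.centralizer (R : Set G) ≤ _) h8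
    rw [← h9]; exact inf_le_left
  · rintro ⟨h1, h2⟩ K
    rw [center_prod_eq h2]
    exact (center_prod_le K).trans (h1 K)

theorem cl_sup {Q R : Subgroup G} (hQ : Cfsg.IsCentrallyLarge Q) (hR : IsLarge R) : Cfsg.IsCentrallyLarge (Q ⊔ R) := by
  rw [isCentrallyLarge_iff] at hQ ⊢
  refine ⟨hQ.1.sup hR, ?_⟩
  rw [centralizer_sup]
  exact inf_le_left.trans (hQ.2.trans le_sup_left)

theorem exists_cl_le {Q : Subgroup G} (hQ : IsLarge Q) (P : Subgroup G) (hQP : Q ≤ P) (hP : Subgroup.centralizer (Q : Set G) ≤ P) :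
    ∃ R ≤ P, Cfsg.IsCentrallyLarge R :=
  ⟨Q ⊔ Subgroup.centralizer (Q : Set G), sup_le hQP hP, isCentrallyLarge_iff.mpr hQ.sup_centralizer⟩

theorem exists_minimal_le {R : Subgroup G} (hR : Cfsg.IsCentrallyLarge R) : ∃ Q ≤ R, Cfsg.IsMinimalCentrallyLarge Q := by
  obtain ⟨Q, ⟨hQ, hQR⟩, hmin⟩ := (Set.toFinite {Q : Subgroup G | Cfsg.IsCentrallyLarge Q ∧ Q ≤ R}).exists_minimal
    ⟨R, hR, le_rfl⟩
  exact ⟨Q, hQR, hQ, fun R' h1 h2 => le_antisymm h1 (hmin ⟨h2, h1.trans hQR⟩ h1)⟩

theorem exists_cl : ∃ R : Subgroup G, Cfsg.IsCentrallyLarge R := by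
  obtain ⟨Q, hQ⟩ := exists_isLarge (G := G)
  obtain ⟨R, -, hR⟩ := exists_cl_le hQ ⊤ le_top le_top
  exact ⟨R, hR⟩

theorem exists_minimal : ∃ R : Subgroup G, Cfsg.IsMinimalCentrallyLarge R := by
  obtain ⟨R, hR⟩ := exists_cl (G := G)
  obtain ⟨Q, -, hQ⟩ := exists_minimal_le hR
  exact ⟨Q, hQ⟩

theorem cl_sSup {S : Set (Subgroup G)} (hS : S.Nonempty) (h : ∀ A ∈ S, Cfsg.IsCentrallyLarge A) :
    Cfsg.IsCentrallyLarge (sSup S) := by
  rw [isCentrallyLarge_iff]
  refine ⟨isLarge_sSup hS fun A hA => (isCentrallyLarge_iff.mp (h A hA)).1, ?_⟩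
  obtain ⟨A, hA⟩ := hS
  have h1 := (isCentrallyLarge_iff.mp (h A hA)).2
  have h2 : A ≤ sSup S := le_sSup hA
  exact (Subgroup.centralizer_le (SetLike.coe_subset_coe.mpr h2)).trans (h1.trans h2)

theorem mem_mul_of_le {A B : Subgroup G} {x : G} (h : ((A ⊔ B : Subgroup G) : Set G) = (A : Set G) * (B : Set G)) (hx : x ∈ A ⊔ B) :
    ∃ a ∈ A, ∃ b ∈ B, a * b = x := by
  have : x ∈ ((A ⊔ B : Subgroup G) : Set G) := hx
  rw [h] at this
  exact Set.mem_mul.mp this

/-- minimal centrally large subgroups `Q, R`: `Q = (Q ∩ R) Z(Q)` -/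
theorem minimal_eq {Q R : Subgroup G} (hQ : Cfsg.IsMinimalCentrallyLarge Q) (hR : Cfsg.IsMinimalCentrallyLarge R) :
    (Q ⊓ R) ⊔ Subgroup.centralizer (Q : Set G) = Q := by
  obtain ⟨hQl, hQc⟩ := isCentrallyLarge_iff.mp hQ.1
  obtain ⟨hRl, hRc⟩ := isCentrallyLarge_iff.mp hR.1
  apply hQ.2 _ (sup_le inf_le_left hQc)
  rw [isCentrallyLarge_iff]
  refine ⟨(hQl.inf hRl).sup hQl.centralizer, ?_⟩
  rw [centralizer_sup, hQl.centralizer_centralizer]
  obtain ⟨-, h2, h3⟩ := hQl.mul_eq hRl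
  rw [h3]
  intro x hx
  obtain ⟨a, ha, b, hb, rfl⟩ := mem_mul_of_le h2 hx.1
  refine Subgroup.mul_mem _ (Subgroup.mem_sup_right ha) (Subgroup.mem_sup_left ⟨?_, hRc hb⟩)
  have := Q.mul_mem (Q.inv_mem (hQc ha)) hx.2
  simpa using this

theorem minimal_card_eq {Q R : Subgroup G} (hQ : Cfsg.IsMinimalCentrallyLarge Q) (hR : Cfsg.IsMinimalCentrallyLarge R) :
    Nat.card Q = Nat.card R ∧ Nat.card (Subgroup.centralizer (Q : Set G)) = Nat.card (Subgroup.centralizer (R : Set G)) := by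
  obtain ⟨hQl, hQc⟩ := isCentrallyLarge_iff.mp hQ.1
  obtain ⟨hRl, hRc⟩ := isCentrallyLarge_iff.mp hR.1
  have e1 := minimal_eq hQ hR
  have e2 := minimal_eq hR hQ
  have l1 := ((hQl.inf hRl).mul_eq hQl.centralizer).1
  have l2 := ((hRl.inf hQl).mul_eq hRl.centralizer).1
  have c1 := card_sup_mul_card_inf _ _ l1
  have c2 := card_sup_mul_card_inf _ _ l2
  rw [e1] at c1
  rw [e2] at c2
  have key : ∀ {Q R : Subgroup G}, Subgroup.centralizer (R : Set G) ≤ R → (R ⊓ Q) ⊔ Subgroup.centralizer (R : Set G) = R →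
      Subgroup.centralizer (Q : Set G) ≤ Q →
      (Q ⊓ R) ⊓ Subgroup.centralizer (Q : Set G) ≤ (R ⊓ Q) ⊓ Subgroup.centralizer (R : Set G) := by
    intro Q R hR e hQ x hx
    refine ⟨⟨hx.1.2, hx.1.1⟩, ?_⟩
    have h1 : R ≤ Subgroup.centralizer ({x} : Set G) := by
      rw [← e]
      refine sup_le ?_ ?_
      · intro y hy
        rw [Subgroup.mem_centralizer_singleton_iff]
        exact (Subgroup.mem_centralizer_iff.mp hx.2 y hy.2)
      · intro y hy
        rw [Subgroup.mem_centralizer_singleton_iff]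
        exact (Subgroup.mem_centralizer_iff.mp hy x hx.1.2).symm
    show x ∈ Subgroup.centralizer (R : Set G)
    rw [Subgroup.mem_centralizer_iff]
    intro y hy
    exact Subgroup.mem_centralizer_singleton_iff.mp (h1 hy)
  have hD : (Q ⊓ R) ⊓ Subgroup.centralizer (Q : Set G) = (R ⊓ Q) ⊓ Subgroup.centralizer (R : Set G) :=
    le_antisymm (key hRc e2 hQc) (key hQc e1 hRc)
  rw [hD] at c1
  rw [inf_comm R Q] at c1 c2
  have hm : Nat.card Q * Nat.card (Subgroup.centralizer (Q : Set G)) =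
    Nat.card R * Nat.card (Subgroup.centralizer (R : Set G)) := hQl.eq hRl
  have hp1 : 0 < Nat.card (Subgroup.centralizer (Q : Set G)) := Nat.card_pos
  have hp2 : 0 < Nat.card (Subgroup.centralizer (R : Set G)) := Nat.card_pos
  have hp3 : 0 < Nat.card (Q ⊓ R ⊓ Subgroup.centralizer (R : Set G) : Subgroup G) := Nat.card_pos
  set q := Nat.card Q
  set r := Nat.card R
  set cq := Nat.card (Subgroup.centralizer (Q : Set G))
  set cr := Nat.card (Subgroup.centralizer (R : Set G))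
  set d := Nat.card (Q ⊓ R ⊓ Subgroup.centralizer (R : Set G) : Subgroup G)
  set i := Nat.card (Q ⊓ R : Subgroup G)
  -- q d = i cq, r d = i cr, q cq = r cr
  have h1 : q * cr = r * cq := by
    have : d * (q * cr) = d * (r * cq) := by
      calc d * (q * cr) = (q * d) * cr := by ring
        _ = (i * cq) * cr := by rw [c1]
        _ = (i * cr) * cq := by ring
        _ = (r * d) * cq := by rw [c2]
        _ = _ := by ring
    exact Nat.eq_of_mul_eq_mul_left hp3 this
  have h2 : cq * cq = cr * cr := by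
    have hr : 0 < r := Nat.card_pos
    have : (r * cr) * (cq * cq) = (r * cr) * (cr * cr) := by
      calc (r * cr) * (cq * cq) = (r * cq) * (cr * cq) := by ring
        _ = (q * cr) * (cr * cq) := by rw [h1]
        _ = (q * cq) * (cr * cr) := by ring
        _ = _ := by rw [hm]
    exact Nat.eq_of_mul_eq_mul_left (Nat.mul_pos hr hp2) this
  have h3 : cq = cr := Nat.mul_self_inj.mp h2
  refine ⟨?_, h3⟩
  rw [h3] at hm
  exact Nat.eq_of_mul_eq_mul_right hp2 hm

theorem commutator_le_of_sup_centralizer {I Q : Subgroup G} (hI : I ≤ Q) (h : I ⊔ Subgroup.centralizer (Q : Set G) = Q) :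
    ⁅Q, Q⁆ = ⁅I, I⁆ := by
  apply le_antisymm _ (Subgroup.commutator_mono hI hI)
  rw [Subgroup.commutator_le]
  have hn : ∀ x ∈ Q, ∃ a ∈ I, ∃ c ∈ Subgroup.centralizer (Q : Set G), a * c = x := by
    intro x hx
    have h1 : ((I ⊔ Subgroup.centralizer (Q : Set G) : Subgroup G) : Set G) = (I : Set G) * (Subgroup.centralizer (Q : Set G) : Set G) := by
      apply Subgroup.coe_mul_of_left_le_normalizer_right
      exact (hI.trans (Subgroup.le_centralizer_iff.mp le_rfl)).trans (Subgroup.centralizer_le_normalizer _)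
    exact mem_mul_of_le h1 (h.symm ▸ hx)
  intro x hx y hy
  obtain ⟨a, ha, c, hc, rfl⟩ := hn x hx
  obtain ⟨b, hb, d, hd, rfl⟩ := hn y hy
  have hc' := Subgroup.mem_centralizer_iff.mp hc
  have hd' := Subgroup.mem_centralizer_iff.mp hd
  have e : ⁅a * c, b * d⁆ = ⁅a, b⁆ := by
    have k1 := hc' (b * d) hy
    have k2 := hd' a (hI ha)
    rw [commutatorElement_def, commutatorElement_def, mul_inv_rev, mul_inv_rev]
    have : c * (b * d) * c⁻¹ = b * d := by rw [← k1]; group
    calc a * c * (b * d) * (c⁻¹ * a⁻¹) * (d⁻¹ * b⁻¹) = a * (c * (b * d) * c⁻¹) * a⁻¹ * (d⁻¹ * b⁻¹) := by group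
      _ = a * b * (d * a⁻¹ * d⁻¹) * b⁻¹ := by rw [this]; group
      _ = a * b * a⁻¹ * b⁻¹ := by
        have : d * a⁻¹ * d⁻¹ = a⁻¹ := by
          have k3 := hd' a⁻¹ (Q.inv_mem (hI ha))
          rw [← k3]; group
        rw [this]
  rw [e]
  exact Subgroup.commutator_mem_commutator ha hb


/-! ### abelian subgroups of maximal order -/

theorem isMulCommutative_iff {A : Subgroup G} : IsMulCommutative A ↔ A ≤ Subgroup.centralizer (A : Set G) :=
  Subgroup.le_centralizer_iff_isMulCommutative.symm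

theorem maxAb_centralizer {A : Subgroup G} (hA : A ∈ Cfsg.maxAbelianSubgroups G) :
    Subgroup.centralizer (A : Set G) = A := by
  obtain ⟨h1, h2⟩ := hA
  have hA' := isMulCommutative_iff.mp h1
  apply le_antisymm _ hA'
  intro x hx
  have hx' : Subgroup.zpowers x ≤ Subgroup.centralizer (A : Set G) := by rwa [Subgroup.zpowers_le]
  have h3 : IsMulCommutative (A ⊔ Subgroup.zpowers x : Subgroup G) := by
    rw [isMulCommutative_iff, centralizer_sup]
    refine sup_le (le_inf hA' (Subgroup.le_centralizer_iff.mp hx')) (le_inf hx' ?_)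
    exact isMulCommutative_iff.mp inferInstance
  have h4 := Subgroup.eq_of_le_of_card_ge (le_sup_left : A ≤ A ⊔ Subgroup.zpowers x) (h2 _ h3)
  rw [h4]
  exact Subgroup.mem_sup_right (Subgroup.mem_zpowers x)

theorem exists_maxAb : ∃ A : Subgroup G, A ∈ Cfsg.maxAbelianSubgroups G := by
  obtain ⟨A, hA, hmax⟩ := Set.exists_max_image {A : Subgroup G | IsMulCommutative A} (fun A => Nat.card A) (Set.toFinite _)
    ⟨⊥, by exact isMulCommutative_iff.mpr bot_le⟩
  exact ⟨A, hA, hmax⟩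

/-- `Q` centrally large, `A` abelian of maximal order: `QA` is centrally large, `Z(Q)(Q ∩ A)` has order `|A|`. -/
theorem sup_maxAb {Q A : Subgroup G} (hQ : Cfsg.IsCentrallyLarge Q) (hA : A ∈ Cfsg.maxAbelianSubgroups G) :
    ((Q ⊔ A : Subgroup G) : Set G) = (Q : Set G) * (A : Set G) ∧ Cfsg.IsCentrallyLarge (Q ⊔ A) ∧
    (Q ⊓ A) ⊔ Subgroup.centralizer (Q : Set G) ∈ Cfsg.maxAbelianSubgroups G := by
  obtain ⟨hQl, hQc⟩ := isCentrallyLarge_iff.mp hQ
  have hAc := maxAb_centralizer hA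
  have hA' : A ≤ Subgroup.centralizer (A : Set G) := hAc.ge
  set Z := Subgroup.centralizer (Q : Set G) with hZ
  have hZZ : Z ≤ Subgroup.centralizer (Z : Set G) := by
    rw [hZ, hQl.centralizer_centralizer]; exact hQc
  have hB : IsMulCommutative ((Q ⊓ A) ⊔ Z : Subgroup G) := by
    rw [isMulCommutative_iff, centralizer_sup]
    refine sup_le (le_inf ?_ ?_) (le_inf ?_ hZZ)
    · exact inf_le_right.trans (hA'.trans (Subgroup.centralizer_le (SetLike.coe_subset_coe.mpr inf_le_right)))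
    · rw [hZ, hQl.centralizer_centralizer]; exact inf_le_left
    · exact Subgroup.centralizer_le (SetLike.coe_subset_coe.mpr inf_le_left)
  have hBc := hA.2 _ hB
  have hmul : (((Q ⊓ A) ⊔ Z : Subgroup G) : Set G) = ((Q ⊓ A : Subgroup G) : Set G) * (Z : Set G) := by
    apply Subgroup.coe_mul_of_left_le_normalizer_right
    exact (inf_le_left.trans (Subgroup.le_centralizer_iff.mp le_rfl)).trans (Subgroup.centralizer_le_normalizer _)
  have c1 := card_sup_mul_card_inf _ _ hmul
  have c2 := card_mul_card Q A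
  have hinf : (Q ⊓ A) ⊓ Z = Z ⊓ A := by
    rw [inf_assoc, inf_comm A Z, ← inf_assoc, inf_eq_right.mpr hQc]
  rw [hinf] at c1
  -- meas (Q ⊔ A) ≥ |Q A| |Z ∩ A|
  have hms : meas (Q ⊔ A) = Nat.card (Q ⊔ A : Subgroup G) * Nat.card (Z ⊓ A : Subgroup G) := by
    unfold meas; rw [centralizer_sup, hAc]
  have hsub : Nat.card ((Q : Set G) * (A : Set G) : Set G) ≤ Nat.card (Q ⊔ A : Subgroup G) :=
    Nat.card_mono (Set.toFinite _) (mul_subset_sup Q A)
  have hQm : meas Q = Nat.card Q * Nat.card Z := rfl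
  have hle := hQl (Q ⊔ A)
  rw [hms, hQm] at hle
  set q := Nat.card Q
  set a := Nat.card A
  set z := Nat.card Z
  set s := Nat.card (Q ⊔ A : Subgroup G)
  set qa := Nat.card ((Q : Set G) * (A : Set G) : Set G)
  set i := Nat.card (Q ⊓ A : Subgroup G) with hi
  set d := Nat.card (Z ⊓ A : Subgroup G) with hd
  set b := Nat.card ((Q ⊓ A) ⊔ Z : Subgroup G)
  have hip : 0 < i := Nat.card_pos
  have hdp : 0 < d := Nat.card_pos
  have hqp : 0 < q := Nat.card_pos
  -- c1 : b * d = i * z ; c2 : q * a = qa * i ; hBc : b ≤ a; hsub : qa ≤ s; hle : s * d ≤ q * z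
  have e1 : i * (qa * d) = q * a * d := by rw [c2]; ring
  have e2 : i * (q * z) = q * b * d := by
    calc i * (q * z) = q * (i * z) := by ring
      _ = q * (b * d) := by rw [c1]
      _ = _ := by ring
  have h1 : qa * d ≤ q * z := (Nat.mul_le_mul_right d hsub).trans hle
  have h2 : q * a * d ≤ q * b * d := by rw [← e1, ← e2]; exact Nat.mul_le_mul_left i h1
  have h3 : a ≤ b := by
    have := Nat.le_of_mul_le_mul_right h2 hdp
    exact Nat.le_of_mul_le_mul_left this hqp
  have hab : a = b := le_antisymm h3 hBc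
  have h4 : q * z = qa * d := by
    have : i * (q * z) = i * (qa * d) := by rw [e1, e2, hab]
    exact Nat.eq_of_mul_eq_mul_left hip this
  have h5 : s ≤ qa := by
    rw [h4] at hle
    exact Nat.le_of_mul_le_mul_right hle hdp
  refine ⟨?_, ?_, hB, ?_⟩
  · exact (Set.eq_of_subset_of_ncard_le (mul_subset_sup Q A) h5 (Set.toFinite _)).symm
  · rw [isCentrallyLarge_iff]
    refine ⟨hQl.of_ge ?_, ?_⟩
    · rw [hms, hQm, h4]; exact Nat.mul_le_mul_right d hsub
    · rw [centralizer_sup]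
      exact inf_le_left.trans (hQc.trans le_sup_left)
  · intro B hB'
    exact (hA.2 B hB').trans h3

theorem thompsonA_le_of {R : Subgroup G} (h : ∀ A ∈ Cfsg.maxAbelianSubgroups G, A ≤ R) : Cfsg.thompsonSubgroupA G ≤ R :=
  sSup_le h

theorem le_thompsonA {A : Subgroup G} (h : A ∈ Cfsg.maxAbelianSubgroups G) : A ≤ Cfsg.thompsonSubgroupA G :=
  le_sSup h

theorem centralizer_thompsonA_le : Subgroup.centralizer (Cfsg.thompsonSubgroupA G : Set G) ≤ Cfsg.thompsonSubgroupA G := by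
  obtain ⟨A, hA⟩ := exists_maxAb (G := G)
  have h1 := Subgroup.centralizer_le (SetLike.coe_subset_coe.mpr (le_thompsonA hA))
  rw [maxAb_centralizer hA] at h1
  exact h1.trans (le_thompsonA hA)

/-- `Q J(G)` is centrally large, for `Q` centrally large -/
theorem cl_sup_thompsonA {Q : Subgroup G} (hQ : Cfsg.IsCentrallyLarge Q) :
    Cfsg.IsCentrallyLarge (Q ⊔ Cfsg.thompsonSubgroupA G) := by
  have h : Q ⊔ Cfsg.thompsonSubgroupA G = sSup ((fun A => Q ⊔ A) '' Cfsg.maxAbelianSubgroups G) := by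
    apply le_antisymm
    · obtain ⟨A, hA⟩ := exists_maxAb (G := G)
      refine sup_le (le_sup_left.trans (le_sSup ⟨A, hA, rfl⟩)) (sSup_le fun B hB => ?_)
      exact le_sup_right.trans (le_sSup ⟨B, hB, rfl⟩)
    · rw [sSup_le_iff]
      rintro _ ⟨A, hA, rfl⟩
      exact sup_le_sup_left (le_thompsonA hA) Q
  rw [h]
  apply cl_sSup
  · obtain ⟨A, hA⟩ := exists_maxAb (G := G)
    exact ⟨_, A, hA, rfl⟩
  · rintro _ ⟨A, hA, rfl⟩
    exact (sup_maxAb hQ hA).2.1

theorem centralizer_center_thompsonA_le {Q : Subgroup G} (hQ : Cfsg.IsCentrallyLarge Q) :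
    Subgroup.centralizer ((Cfsg.thompsonSubgroupA G ⊓ Subgroup.centralizer (Cfsg.thompsonSubgroupA G : Set G) : Subgroup G) : Set G) ≤
      Q ⊔ Cfsg.thompsonSubgroupA G := by
  obtain ⟨h1, h2⟩ := isCentrallyLarge_iff.mp (cl_sup_thompsonA hQ)
  apply h1.le_of_centralizer_le
  apply Subgroup.centralizer_le
  rw [inf_eq_right.mpr centralizer_thompsonA_le]
  exact Subgroup.centralizer_le (SetLike.coe_subset_coe.mpr le_sup_right)

end CfsgLib.CL
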