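import Cfsg.Agent.Lib.ChevIn8
set_option autoImplicit false
set_option linter.style.haveILetI false
set_option linter.unusedSectionVars false

/-! Centralizers of involutions of Chevalley groups in characteristic two. -/

namespace CfsgLib.Chev
open Cfsg.Lie Matrix CfsgLib.BNP

/-- pairwise commuting root subgroups -/
def CmI (D : ChevalleyDatum) (F : Type*) [Field F] (I : List ℕ) : Prop :=
  ∀ k ∈ I, ∀ l ∈ I, ∀ t u : F, xg D k t * xg D l u = xg D l u * xg D k t

/-- the product of root elements over a list of roots -/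
noncomputable def PI (D : ChevalleyDatum) (F : Type*) [Field F] (I : List ℕ) (c : ℕ → F) : GL D.Idx F := wg D (I.map fun k => (k, c k))

section
variable {D : ChevalleyDatum} {F : Type*} [Field F]

theorem PI_nil (c : ℕ → F) : PI D F [] c = 1 := rfl
theorem PI_cons (k : ℕ) (I : List ℕ) (c : ℕ → F) : PI D F (k :: I) c = xg D k (c k) * PI D F I c := by
  unfold PI; rw [List.map_cons, wg_cons]
theorem PI_append (I I' : List ℕ) (c : ℕ → F) : PI D F (I ++ I') c = PI D F I c * PI D F I' c := by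
  unfold PI; rw [List.map_append, wg_append]

theorem PI_congr {I : List ℕ} {c c' : ℕ → F} (h : ∀ k ∈ I, c k = c' k) : PI D F I c = PI D F I c' := by
  unfold PI
  congr 1
  exact List.map_congr_left fun k hk => by rw [h k hk]

theorem PI_perm {I I' : List ℕ} (h : I.Perm I') (hc : CmI D F I) (c : ℕ → F) : PI D F I c = PI D F I' c := by
  unfold PI wg
  apply List.Perm.prod_eq' ((h.map _).map _)
  rw [List.pairwise_map, List.pairwise_map]
  exact List.Pairwise.imp_of_mem (R := fun _ _ => True) (fun ha hb _ => hc _ ha _ hb _ _) (List.pairwise_of_forall fun _ _ => trivial)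

end

namespace CG
variable {D : ChevalleyDatum} {F : Type*} [Field F] (M : CG D F)
include M

theorem PI_zero {I : List ℕ} {c : ℕ → F} (h : ∀ k ∈ I, c k = 0) : PI D F I c = 1 := by
  induction I with
  | nil => rfl
  | cons k I ih => rw [PI_cons, h k (by simp), M.xg_zero, one_mul, ih fun k' hk' => h k' (by simp [hk'])]

theorem PI_filter (I : List ℕ) (c : ℕ → F) (R : List ℕ) :
    wg D (R.map fun r => (r, if r ∈ I then c r else 0)) = PI D F (R.filter fun r => decide (r ∈ I)) c := by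
  induction R with
  | nil => rfl
  | cons r R ih =>
    rw [List.map_cons, wg_cons, ih, List.filter_cons]
    by_cases h : r ∈ I
    · rw [if_pos h, if_pos (by simpa using h), PI_cons]
    · rw [if_neg h, if_neg (by simpa using h), M.xg_zero, one_mul]

theorem PI_sort {I : List ℕ} (hI : I.Nodup) (hlt : ∀ k ∈ I, k < D.nroots ∧ k ∈ PosS D) (hc : CmI D F I) (c : ℕ → F) :
    PI D F I c = wg D ((List.range' (D.nroots / 2) (D.nroots / 2)).map fun r => (r, if r ∈ I then c r else 0)) := by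
  rw [M.PI_filter]
  apply PI_perm _ hc
  rw [List.perm_ext_iff_of_nodup hI ((List.nodup_range' (step := 1)).filter _)]
  intro k
  rw [List.mem_filter, List.mem_range'_1]
  constructor
  · intro hk
    have h1 := hlt k hk
    have h2 : D.nroots / 2 ≤ k := h1.2
    have := M.N.even
    exact ⟨⟨h2, by omega⟩, by simpa using hk⟩
  · rintro ⟨-, hk⟩
    simpa using hk

theorem PI_unique {I I' : List ℕ} (hI : I.Nodup) (hlt : ∀ k ∈ I, k < D.nroots ∧ k ∈ PosS D) (hc : CmI D F I)
    (hI' : I'.Nodup) (hlt' : ∀ k ∈ I', k < D.nroots ∧ k ∈ PosS D) (hc' : CmI D F I') {c c' : ℕ → F} (h : PI D F I c = PI D F I' c')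
    {r : ℕ} (hr : r < D.nroots) (hp : r ∈ PosS D) : (if r ∈ I then c r else 0) = (if r ∈ I' then c' r else 0) := by
  rw [M.PI_sort hI hlt hc, M.PI_sort hI' hlt' hc'] at h
  have he := M.N.even
  exact M.form_unique (D.nroots / 2) (D.nroots / 2) le_rfl (by omega) _ _ h r hp (by omega)

theorem PI_conj [CharP F 2] {l : List ℕ} (hl : Wd D l) {I : List ℕ} (hlt : ∀ k ∈ I, k < D.nroots) (c : ℕ → F) :
    nl D F l * PI D F I c * (nl D F l)⁻¹ = PI D F (I.map (rl D l)) (fun r => c (rl D l.reverse r)) := by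
  induction I with
  | nil => rw [PI_nil, List.map_nil, PI_nil]; group
  | cons k I ih =>
    rw [List.map_cons, PI_cons, PI_cons, ← ih fun k' hk' => hlt k' (by simp [hk']), M.rl_reverse hl (hlt k (by simp)), ← M.nl_xg2 hl (hlt k (by simp))]
    group

theorem CmI_map [CharP F 2] {l : List ℕ} (hl : Wd D l) {I : List ℕ} (hlt : ∀ k ∈ I, k < D.nroots) (hc : CmI D F I) : CmI D F (I.map (rl D l)) := by
  intro a ha b hb t u
  obtain ⟨k, hk, rfl⟩ := List.mem_map.mp ha
  obtain ⟨k', hk', rfl⟩ := List.mem_map.mp hb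
  rw [← M.nl_xg2 hl (hlt k hk), ← M.nl_xg2 hl (hlt k' hk')]
  have := hc k hk k' hk' t u
  calc nl D F l * xg D k t * (nl D F l)⁻¹ * (nl D F l * xg D k' u * (nl D F l)⁻¹) = nl D F l * (xg D k t * xg D k' u) * (nl D F l)⁻¹ := by group
    _ = _ := by rw [this]; group

theorem nodup_map {l : List ℕ} (hl : Wd D l) {I : List ℕ} (hI : I.Nodup) (hlt : ∀ k ∈ I, k < D.nroots) : (I.map (rl D l)).Nodup := by
  refine (List.nodup_map_iff_inj_on hI).mpr ?_
  intro a ha b hb h
  exact M.rl_inj hl (hlt a ha) (hlt b hb) h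

theorem PI_mem {I : List ℕ} {S : Set ℕ} (h : ∀ k ∈ I, k ∈ S) (c : ℕ → F) : PI D F I c ∈ XS D F S := by
  apply M.wg_mem
  intro p hp
  obtain ⟨k, hk, rfl⟩ := List.mem_map.mp hp
  exact Or.inl (h k hk)

/-- matching two products of commuting root elements -/
theorem comm_match [CharP F 2] {I : List ℕ} (hI : I.Nodup) (hlt : ∀ k ∈ I, k < D.nroots ∧ k ∈ PosS D) (hc : CmI D F I)
    {l : List ℕ} (hl : Wd D l) {c d : ℕ → F} (he : nl D F l * PI D F I c * (nl D F l)⁻¹ = PI D F I d) :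
    ∀ s ∈ I, c s ≠ 0 → rl D l s ∈ I ∧ d (rl D l s) = c s := by
  classical
  set p : ℕ → Bool := fun k => decide (rl D l k ∈ PosS D) with hp
  set Ip := I.filter p with hIp
  set In := I.filter (fun k => !(p k)) with hIn
  have hlt0 : ∀ k ∈ I, k < D.nroots := fun k hk => (hlt k hk).1
  have hpm : ∀ k ∈ Ip, k ∈ I ∧ rl D l k ∈ PosS D := by
    intro k hk
    rw [hIp, List.mem_filter] at hk
    exact ⟨hk.1, by simpa [hp] using hk.2⟩
  have hnm : ∀ k ∈ In, k ∈ I ∧ rl D l k ∉ PosS D := by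
    intro k hk
    rw [hIn, List.mem_filter] at hk
    exact ⟨hk.1, by simpa [hp] using hk.2⟩
  have hperm : I.Perm (Ip ++ In) := (List.filter_append_perm p I).symm
  have hcp : CmI D F Ip := fun k hk k' hk' => hc k (hpm k hk).1 k' (hpm k' hk').1
  have hcn : CmI D F In := fun k hk k' hk' => hc k (hnm k hk).1 k' (hnm k' hk').1
  have h1 : PI D F I c = PI D F Ip c * PI D F In c := by rw [PI_perm hperm hc c, PI_append]
  -- the negative part
  have h2 : PI D F In c = 1 := by
    have h3 : nl D F l * PI D F In c * (nl D F l)⁻¹ ∈ D.borelSubgroup F ⊓ D.negUnipotent F := by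
      refine ⟨?_, ?_⟩
      · have h4 : nl D F l * PI D F In c * (nl D F l)⁻¹ = (nl D F l * PI D F Ip c * (nl D F l)⁻¹)⁻¹ * PI D F I d := by
          rw [← he, h1]; group
        rw [h4, M.PI_conj hl fun k hk => hlt0 k (hpm k hk).1]
        apply GD.U_le_B
        rw [M.U_eq]
        refine mul_mem (inv_mem (M.PI_mem ?_ _)) (M.PI_mem (fun k hk => (hlt k hk).2) _)
        intro k hk
        obtain ⟨k', hk', rfl⟩ := List.mem_map.mp hk
        exact (hpm k' hk').2
      · rw [M.PI_conj hl fun k hk => hlt0 k (hnm k hk).1, M.V_eq]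
        refine M.PI_mem ?_ _
        intro k hk
        obtain ⟨k', hk', rfl⟩ := List.mem_map.mp hk
        exact GD.notPos_iff.mp (hnm k' hk').2
    rw [M.B_inf_V, Subgroup.mem_bot, mul_inv_eq_one] at h3
    exact mul_left_cancel (h3.trans (mul_one _).symm)
  have h5 : ∀ k ∈ In, c k = 0 := by
    obtain ⟨l0, hl0, h0⟩ := M.exists_w0'
    have hw : Wd D (l0 ++ l) := by
      intro i hi
      rcases List.mem_append.mp hi with h | h
      · exact hl0 i h
      · exact hl i h
    have h6 := M.PI_conj (F := F) hw (I := In) (fun k hk => hlt0 k (hnm k hk).1) c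
    rw [h2, mul_one, mul_inv_cancel] at h6
    have hpos : ∀ k ∈ In.map (rl D (l0 ++ l)), k < D.nroots ∧ k ∈ PosS D := by
      intro k hk
      obtain ⟨k', hk', rfl⟩ := List.mem_map.mp hk
      refine ⟨M.rl_lt hw (hlt0 _ (hnm k' hk').1), ?_⟩
      rw [rl_append]
      exact (h0 _ (M.rl_lt hl (hlt0 _ (hnm k' hk').1))).mpr (hnm k' hk').2
    intro k hk
    have hk0 := hlt0 k (hnm k hk).1
    have hk1 : rl D (l0 ++ l) k ∈ In.map (rl D (l0 ++ l)) := List.mem_map.mpr ⟨k, hk, rfl⟩
    have h7 := M.PI_unique (I := []) (I' := In.map (rl D (l0 ++ l))) (by simp) (by simp) (fun k hk => by simp at hk)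
      (M.nodup_map hw (hI.filter _) fun k hk => hlt0 k (hnm k hk).1) hpos
      (M.CmI_map hw (fun k hk => hlt0 k (hnm k hk).1) hcn) (c := fun _ => 0) (by rw [PI_nil]; exact h6) (hpos _ hk1).1 (hpos _ hk1).2
    rw [if_pos hk1, M.rl_reverse hw hk0] at h7
    simpa using h7.symm
  have h8 : PI D F (Ip.map (rl D l)) (fun r => c (rl D l.reverse r)) = PI D F I d := by
    rw [← M.PI_conj hl fun k hk => hlt0 k (hpm k hk).1, ← he, h1, h2, mul_one]
  intro s hs hcs
  have hsp : s ∈ Ip := by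
    by_contra hn
    have : s ∈ In := by
      rcases List.mem_append.mp (hperm.mem_iff.mp hs) with h | h
      · exact absurd h hn
      · exact h
    exact hcs (h5 s this)
  have hmem : rl D l s ∈ Ip.map (rl D l) := List.mem_map.mpr ⟨s, hsp, rfl⟩
  have hpos : ∀ k ∈ Ip.map (rl D l), k < D.nroots ∧ k ∈ PosS D := by
    intro k hk
    obtain ⟨k', hk', rfl⟩ := List.mem_map.mp hk
    exact ⟨M.rl_lt hl (hlt0 _ (hpm k' hk').1), (hpm k' hk').2⟩
  have h9 := M.PI_unique (M.nodup_map hl (hI.filter _) fun k hk => hlt0 k (hpm k hk).1) hpos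
    (M.CmI_map hl (fun k hk => hlt0 k (hpm k hk).1) hcp) hI hlt hc h8 (hpos _ hmem).1 (hpos _ hmem).2
  rw [if_pos hmem, M.rl_reverse hl (hlt0 s hs)] at h9
  by_cases hin : rl D l s ∈ I
  · rw [if_pos hin] at h9
    exact ⟨hin, h9.symm⟩
  · rw [if_neg hin] at h9
    exact absurd h9 hcs

/-- a parabolic subgroup is `B ⬝ K` -/
theorem par_split {J : List ℕ} (hJ : ∀ j ∈ J, j < D.rank) {K : Subgroup (GL D.Idx F)}
    (hn : ∀ j ∈ J, ni D F j ∈ K) (hx : ∀ j ∈ J, ∀ t : F, xg D (D.simple j) t ∈ K) {g : GL D.Idx F}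
    (hg : g ∈ D.borelSubgroup F ⊔ Subgroup.closure {g | ∃ j ∈ J, g = ni D F j}) : ∃ κ ∈ K, g * κ ∈ D.borelSubgroup F := by
  have key : ∀ j ∈ J, ∀ z : GL D.Idx F, z ∈ K → z ∈ Subgroup.normalizer (XS D F (PosI D j) : Set (GL D.Idx F)) →
      (∀ h ∈ D.diagonalSubgroup F, z * h * z⁻¹ ∈ D.diagonalSubgroup F) → ∀ y : GL D.Idx F, (∃ κ ∈ K, y * κ ∈ D.borelSubgroup F) →
      ∃ κ ∈ K, z * y * κ ∈ D.borelSubgroup F := by
    rintro j hj z hz hzn hzh y ⟨κ, hκ, hy⟩
    obtain ⟨u, hu, t, h, hh, he⟩ := M.mem_B' (hJ j hj) hy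
    obtain ⟨ω, hω, hωe⟩ := M.exists_wt hh
    have h1 := M.dgg_xg hω.inv (M.N.simple_lt j (hJ j hj)) t
    rw [map_inv, inv_inv, ← hωe] at h1
    set t' : F := ((ω⁻¹ (D.simple j) : Fˣ) : F) * t with ht'
    have e1 : xg D (D.simple j) t * h = h * xg D (D.simple j) t' := by
      rw [← h1]; group
    refine ⟨κ * (z * xg D (D.simple j) t')⁻¹, mul_mem hκ (inv_mem (mul_mem hz (hx j hj t'))), ?_⟩
    have e2 : z * y * (κ * (z * xg D (D.simple j) t')⁻¹) = (z * u * z⁻¹) * (z * h * z⁻¹) := by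
      have : y = u * (h * xg D (D.simple j) t') * κ⁻¹ := by rw [← e1, ← mul_assoc u, ← he]; group
      rw [this]; group
    rw [e2]
    refine mul_mem (GD.U_le_B (M.Ui_le_U j ((Subgroup.mem_normalizer_iff.mp hzn u).mp hu))) (GD.H_le_B (hzh h hh))
  rw [← Subgroup.closure_eq (D.borelSubgroup F), ← Subgroup.closure_union] at hg
  induction hg using Subgroup.closure_induction_left with
  | one => exact ⟨1, one_mem _, by rw [one_mul]; exact one_mem _⟩
  | mul_left x hx' y _ ih =>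
    rcases hx' with hx' | ⟨j, hj, rfl⟩
    · obtain ⟨κ, hκ, hy⟩ := ih
      exact ⟨κ, hκ, by rw [mul_assoc]; exact mul_mem hx' hy⟩
    · exact key j hj _ (hn j hj) (M.ni_norm_Ui (hJ j hj)) (fun h hh => (Subgroup.mem_normalizer_iff.mp (M.mono_le_norm (M.ni_mem (hJ j hj))) h).mp hh) y ih
  | inv_mul_cancel x hx' y _ ih =>
    rcases hx' with hx' | ⟨j, hj, rfl⟩
    · obtain ⟨κ, hκ, hy⟩ := ih
      exact ⟨κ, hκ, by rw [mul_assoc]; exact mul_mem (inv_mem hx') hy⟩
    · exact key j hj _ (inv_mem (hn j hj)) (inv_mem (M.ni_norm_Ui (hJ j hj))) (fun h hh => by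
        have := (Subgroup.mem_normalizer_iff.mp (inv_mem (M.mono_le_norm (M.ni_mem (hJ j hj)))) h).mp hh
        exact this) y ih

end CG
end CfsgLib.Chev
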