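import Cfsg.Agent.Lib.ChevCt1
set_option autoImplicit false
set_option linter.style.haveILetI false
set_option linter.unusedSectionVars false

/-! Centralizers of involutions of Chevalley groups in characteristic two, II: the general theorem. -/

namespace CfsgLib.Chev
open Cfsg.Lie Matrix CfsgLib.BNP

/-- the check for the orbit of a product under `U` -/
def orbChk (D : ChevalleyDatum) (V I : List ℕ) : Bool :=
  decide (V ++ I).Nodup && ((V ++ I).all fun k => decide (k < D.nroots) && decide (D.nroots / 2 ≤ k)) &&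
  ((V ++ I).all fun k => (V ++ I).all fun l => k == l || evC D 2 l k) &&
  ((List.range D.nroots).all fun r => !(decide (D.nroots / 2 ≤ r)) || (V ++ I).all fun k => k == r ||
    (D.commTerms r k).all fun c => c.2.1 % 2 == 0 || I.contains c.1)

namespace CG
variable {D : ChevalleyDatum} {F : Type*} [Field F] (M : CG D F)
include M

/-- the stabiliser of several roots with a dominant combination -/
theorem stab_gen {V J : List ℕ} {m : ℕ → ℤ} (hV : ∀ s ∈ V, s < D.nroots) (hdom : ∀ i < D.rank, 0 ≤ (V.map fun s => m s * D.cartan i s).sum)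
    (hz : ∀ i < D.rank, (V.map fun s => m s * D.cartan i s).sum = 0 → i ∈ J ∧ ∀ s ∈ V, D.cartan i s = 0) :
    ∀ (k : ℕ) (l : List ℕ), l.length ≤ k → Wd D l → (∀ s ∈ V, rl D l s = s) →
      nl D F l ∈ D.diagonalSubgroup F ⊔ Subgroup.closure {g | ∃ j ∈ J, g = ni D F j} := by
  intro k
  induction k with
  | zero =>
    intro l hk _ _
    rw [Nat.le_zero, List.length_eq_zero_iff] at hk
    subst hk
    rw [nl_nil]
    exact one_mem _
  | succ k ih =>
    intro l hk hl hlr
    by_cases hpos : ∀ s < D.nroots, s ∈ PosS D → rl D l s ∈ PosS D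
    · exact Subgroup.mem_sup_left (M.nl_mem_H l.length l le_rfl hl hpos).1
    · obtain ⟨i, hi, hneg⟩ := M.exists_simple_neg hl hpos
      have hp := M.N.simple_lt i hi
      set t := rl D l (D.simple i) with ht
      have htlt : t < D.nroots := M.rl_lt hl hp
      have h1 : (V.map fun s => m s * D.cartan i s).sum = (V.map fun s => m s * D.pairing t s).sum := by
        congr 1
        apply List.map_congr_left
        intro s hs
        have e1 := M.pairing_rl hl hp (hV s hs)
        rw [hlr s hs, M.pairing_simple hi (hV s hs)] at e1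
        rw [← e1]
      have h2 : (V.map fun s => m s * D.pairing t s).sum = ∑ j ∈ Finset.range D.rank, (D.coroot.getD t #[]).getD j 0 * (V.map fun s => m s * D.cartan j s).sum := by
        clear h1 hz hdom hlr hk ih
        induction V with
        | nil => simp
        | cons s V ihV =>
          rw [List.map_cons, List.sum_cons, ihV fun s' hs' => hV s' (by simp [hs'])]
          simp only [List.map_cons, List.sum_cons, mul_add, Finset.sum_add_distrib]
          congr 1
          unfold ChevalleyDatum.pairing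
          rw [sum_range_list, Finset.mul_sum]
          refine Finset.sum_congr rfl fun j _ => by ring
      have h3 : (V.map fun s => m s * D.cartan i s).sum ≤ 0 := by
        rw [h1, h2]
        apply Finset.sum_nonpos
        intro j hj
        have hj := Finset.mem_range.mp hj
        apply mul_nonpos_of_nonpos_of_nonneg _ (hdom j hj)
        have h4 := ((M.N.neg_iff htlt).mpr (GD.notPos_iff.mp hneg)).2
        have h5 : (D.coroot.getD t #[]).getD j 0 ∈ (D.coroot.getD t #[]).toList ∨ (D.coroot.getD t #[]).getD j 0 = 0 := by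
          generalize D.coroot.getD t #[] = A
          by_cases hlt : j < A.size
          · left
            rw [Array.getD_eq_getD_getElem?, Array.getElem?_eq_getElem hlt, Option.getD_some]
            exact Array.getElem_mem_toList _
          · right
            rw [Array.getD_eq_getD_getElem?, Array.getElem?_eq_none (Nat.le_of_not_lt hlt), Option.getD_none]
        rcases h5 with h5 | h5
        · exact h4 _ h5
        · rw [h5]
      obtain ⟨hiJ, h0⟩ := hz i hi (le_antisymm h3 (hdom i hi))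
      have hir : ∀ r ∈ V, D.reflectRoot i r = r := by
        intro r hr
        apply M.a_inj (M.N.refl_lt hi (hV r hr)) (hV r hr)
        intro m' hm'
        rw [M.a_refl hi hm' (hV r hr), h0 r hr]
        split_ifs <;> ring
      obtain ⟨l', hl', hlen, hrl, h, hh, he⟩ := M.exch (F := F) l hl hi hneg
      have h2 : ∀ r ∈ V, rl D l' r = r := by
        intro r hr
        rw [← hrl r (hV r hr), rl_append, rl_cons, rl_nil, hir r hr, hlr r hr]
      have h3 := ih l' (by omega) hl' h2
      have h4 : nl D F l = h * nl D F l' * (ni D F i)⁻¹ := by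
        rw [← he, nl_append, nl_cons, nl_nil, mul_one, mul_inv_cancel_right]
      rw [h4]
      refine mul_mem (mul_mem (Subgroup.mem_sup_left hh) h3) (inv_mem (Subgroup.mem_sup_right (Subgroup.subset_closure ⟨i, hiJ, rfl⟩)))

theorem W1_eq_PI {V I : List ℕ} (hI : (V ++ I).Nodup) : W1 D F V = PI D F (V ++ I) (fun k => if k ∈ V then 1 else 0) := by
  rw [PI_append, M.PI_zero (I := I) (fun k hk => by
    rw [if_neg]
    intro h
    exact (List.nodup_append.mp hI).2.2 k h k hk rfl), mul_one]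
  rw [PI_congr (c' := fun _ => 1) (fun k hk => by rw [if_pos hk])]
  unfold PI
  exact (M.wg_eq_W1 V).symm

theorem comm_of_chk [CharP F 2] {V I : List ℕ} (h : orbChk D V I = true) : CmI D F (V ++ I) := by
  unfold orbChk at h
  simp only [Bool.and_eq_true, List.all_eq_true, decide_eq_true_eq, Bool.or_eq_true, beq_iff_eq] at h
  obtain ⟨⟨⟨h1, h2⟩, h3⟩, h4⟩ := h
  intro k hk l hl t u
  exact M.comm_of_ev (h2 l hl).1 (h2 k hk).1 (M.a_pos_ne_neg (h2 l hl).1 (h2 k hk).1 (h2 l hl).2 (h2 k hk).2)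
    (m := 2) (by exact_mod_cast CharTwo.two_eq_zero) (h3 k hk l hl) u t

theorem xg_conj_mem [CharP F 2] {r k : ℕ} (hr : r < D.nroots) (hk : k < D.nroots) (h2 : k ≠ D.neg r) {I : List ℕ}
    (h : k = r ∨ ((D.commTerms r k).all fun c => c.2.1 % 2 == 0 || I.contains c.1) = true) (t c : F) :
    ∃ a ∈ XS D F {k | k ∈ I}, xg D r t * xg D k c * (xg D r t)⁻¹ = xg D k c * a := by
  rcases eq_or_ne k r with rfl | hne
  · refine ⟨1, one_mem _, ?_⟩
    rw [M.xg_add, add_comm, ← M.xg_add]; group
  · have h := h.resolve_left hne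
    have h3 := M.comm_xg hr hk hne h2 (-t) c
    refine ⟨wg D (D.commWord F r k (-t) c), ?_, ?_⟩
    · unfold ChevalleyDatum.commWord
      rw [List.all_eq_true] at h
      generalize D.commTerms r k = L at h
      induction L with
      | nil => exact one_mem _
      | cons w L ih =>
        rw [List.map_cons, wg_cons]
        refine mul_mem ?_ (ih fun x hx => h x (by simp [hx]))
        have h4 := h w (by simp)
        rw [Bool.or_eq_true, beq_iff_eq, List.contains_iff_mem] at h4
        rcases h4 with h4 | h4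
        · have hc : ((w.2.1 : ℤ) : F) = 0 := by
            obtain ⟨d, hd⟩ := Int.dvd_of_emod_eq_zero h4
            rw [hd, Int.cast_mul]
            have : ((2 : ℤ) : F) = 0 := by exact_mod_cast CharTwo.two_eq_zero
            rw [this, zero_mul]
          change xg D w.1 (((w.2.1 : ℤ) : F) * (-(-t)) ^ w.2.2.1 * c ^ w.2.2.2) ∈ _
          rw [hc, zero_mul, zero_mul, M.xg_zero]
          exact one_mem _
        · by_cases hlt : w.1 < D.nroots
          · exact xg_mem_XS D h4 hlt _
          · have := M.wg_mem (S := {k | k ∈ I}) (W := [(w.1, ((w.2.1 : ℤ) : F) * (-(-t)) ^ w.2.2.1 * c ^ w.2.2.2)]) (by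
              intro p hp
              rw [List.mem_singleton] at hp
              rw [hp]; exact Or.inr hlt)
            rwa [wg_cons, wg_nil, mul_one] at this
    · have e1 : xg D r t = (xg D r (-t))⁻¹ := by rw [M.xg_neg, inv_inv]
      rw [e1, inv_inv, mul_assoc, h3]; group

theorem mem_XS_I {I : List ℕ} (hI : I.Nodup) (hc : CmI D F I) {a : GL D.Idx F} (ha : a ∈ XS D F {k | k ∈ I}) : ∃ c : ℕ → F, a = PI D F I c := by
  have hupd : ∀ k ∈ I, ∀ (t : F) (c : ℕ → F), xg D k t * PI D F I c = PI D F I (Function.update c k (t + c k)) := by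
    intro k hk t c
    have hp : I.Perm (k :: I.erase k) := List.perm_cons_erase hk
    rw [PI_perm hp hc, PI_perm hp hc, PI_cons, PI_cons, ← mul_assoc, M.xg_add, Function.update_self]
    congr 1
    apply PI_congr
    intro k' hk'
    rw [Function.update_of_ne]
    rintro rfl
    exact (List.Nodup.not_mem_erase hI) hk'
  unfold XS at ha
  induction ha using Subgroup.closure_induction_left with
  | one => exact ⟨fun _ => 0, (M.PI_zero fun _ _ => rfl).symm⟩
  | mul_left x hx y _ ih =>
    obtain ⟨r, t, hr, hr', rfl⟩ := hx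
    obtain ⟨c, rfl⟩ := ih
    exact ⟨_, hupd r hr t c⟩
  | inv_mul_cancel x hx y _ ih =>
    obtain ⟨r, t, hr, hr', rfl⟩ := hx
    obtain ⟨c, rfl⟩ := ih
    rw [← M.xg_neg]
    exact ⟨_, hupd r hr (-t) c⟩

/-- the orbit of a product of root elements under `U` -/
theorem orb_of_chk [CharP F 2] {V I : List ℕ} (h : orbChk D V I = true) {u : GL D.Idx F} (hu : u ∈ D.posUnipotent F) :
    ∃ c : ℕ → F, u * W1 D F V * u⁻¹ = PI D F (V ++ I) c ∧ ∀ s ∈ V, c s = 1 := by
  have hcm := M.comm_of_chk h
  unfold orbChk at h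
  simp only [Bool.and_eq_true, List.all_eq_true, decide_eq_true_eq, List.mem_range] at h
  obtain ⟨⟨⟨h1, h2⟩, h3⟩, h4⟩ := h
  have h2 : ∀ k ∈ V ++ I, k < D.nroots ∧ k ∈ PosS D := h2
  have h4' : ∀ r < D.nroots, r ∈ PosS D → ∀ k ∈ V ++ I, k = r ∨ ((D.commTerms r k).all fun c => c.2.1 % 2 == 0 || I.contains c.1) = true := by
    intro r hr hp k hk
    have h5 := h4 r hr
    rw [Bool.or_eq_true, Bool.not_eq_true', decide_eq_false_iff_not] at h5
    have h6 := List.all_eq_true.mp (h5.resolve_left (fun h => h hp)) k hk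
    rwa [Bool.or_eq_true, beq_iff_eq] at h6
  set A := XS D F {k | k ∈ I} with hA
  set v := W1 D F V with hv
  have hAc : ∀ a ∈ A, ∀ s ∈ V, a * xg D s (1 : F) = xg D s 1 * a := by
    intro a ha s hs
    have : A ≤ Subgroup.centralizer {xg D s (1 : F)} := by
      rw [hA]
      unfold XS
      refine (Subgroup.closure_le _).mpr ?_
      rintro _ ⟨k, t, hk, -, rfl⟩
      rw [SetLike.mem_coe, Subgroup.mem_centralizer_singleton_iff]
      exact hcm k (List.mem_append_right _ hk) s (List.mem_append_left _ hs) t 1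
    exact Subgroup.mem_centralizer_singleton_iff.mp (this ha)
  have hAv : ∀ V' : List ℕ, (∀ s ∈ V', s ∈ V) → ∀ a ∈ A, a * W1 D F V' = W1 D F V' * a := by
    intro V'
    induction V' with
    | nil => intro _ a _; rw [W1_nil]; group
    | cons s V' ih =>
      intro hs a ha
      rw [W1_cons, ← mul_assoc, hAc a ha s (hs s (by simp)), mul_assoc, ih (fun s' hs' => hs s' (by simp [hs'])) a ha, mul_assoc]
  -- generators
  have hnorm : D.posUnipotent F ≤ Subgroup.normalizer (A : Set (GL D.Idx F)) := by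
    rw [M.U_eq]
    unfold XS
    refine (Subgroup.closure_le _).mpr ?_
    rintro _ ⟨r, t, hr', hr, rfl⟩
    apply GD.XS_inv_conj
    · intro k hk hk' c
      obtain ⟨a, ha, he⟩ := M.xg_conj_mem hr hk' (M.a_pos_ne_neg hr hk' hr' (h2 k (List.mem_append_right _ hk)).2) (h4' r hr hr' k (List.mem_append_right _ hk)) t c
      rw [he]
      exact mul_mem (xg_mem_XS D hk hk' c) ha
    · intro k hk hk' c
      obtain ⟨a, ha, he⟩ := M.xg_conj_mem hr hk' (M.a_pos_ne_neg hr hk' hr' (h2 k (List.mem_append_right _ hk)).2) (h4' r hr hr' k (List.mem_append_right _ hk)) (-t) c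
      rw [M.xg_neg, inv_inv] at he
      rw [he]
      exact mul_mem (xg_mem_XS D hk hk' c) ha
  have hgen : ∀ r < D.nroots, r ∈ PosS D → ∀ t : F, v⁻¹ * (xg D r t * v * (xg D r t)⁻¹) ∈ A := by
    intro r hr hp t
    have : ∀ V' : List ℕ, (∀ s ∈ V', s ∈ V) → ∃ a ∈ A, xg D r t * W1 D F V' * (xg D r t)⁻¹ = W1 D F V' * a := by
      intro V'
      induction V' with
      | nil => intro _; exact ⟨1, one_mem _, by rw [W1_nil]; group⟩
      | cons s V' ih =>
        intro hs
        obtain ⟨a, ha, he⟩ := ih fun s' hs' => hs s' (by simp [hs'])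
        have hsV := hs s (by simp)
        obtain ⟨b, hb, he'⟩ := M.xg_conj_mem hr (h2 s (List.mem_append_left _ hsV)).1 (M.a_pos_ne_neg hr (h2 s (List.mem_append_left _ hsV)).1 hp (h2 s (List.mem_append_left _ hsV)).2)
          (h4' r hr hp s (List.mem_append_left _ hsV)) t 1
        refine ⟨b * a, mul_mem hb ha, ?_⟩
        rw [W1_cons]
        calc xg D r t * (xg D s 1 * W1 D F V') * (xg D r t)⁻¹ = (xg D r t * xg D s 1 * (xg D r t)⁻¹) * (xg D r t * W1 D F V' * (xg D r t)⁻¹) := by group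
          _ = xg D s 1 * (b * W1 D F V') * a := by rw [he, he']; group
          _ = _ := by rw [hAv V' (fun s' hs' => hs s' (by simp [hs'])) b hb]; group
    obtain ⟨a, ha, he⟩ := this V fun s hs => hs
    rw [he, inv_mul_cancel_left]; exact ha
  have hall : ∀ u ∈ D.posUnipotent F, v⁻¹ * (u * v * u⁻¹) ∈ A := by
    intro u hu
    have hu0 := hu
    rw [M.U_eq] at hu
    unfold XS at hu
    induction hu using Subgroup.closure_induction with
    | mem g hg =>
      obtain ⟨r, t, hr', hr, rfl⟩ := hg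
      exact hgen r hr hr' t
    | one => simp
    | mul x y hx hy ihx ihy =>
      have hxU : x ∈ D.posUnipotent F := by rw [M.U_eq]; exact hx
      have hyU : y ∈ D.posUnipotent F := by rw [M.U_eq]; exact hy
      have h5 := ihx hxU
      have h6 := (Subgroup.mem_normalizer_iff.mp (hnorm hxU) _).mp (ihy hyU)
      have e : v⁻¹ * (x * y * v * (x * y)⁻¹) = (v⁻¹ * (x * v * x⁻¹)) * (x * (v⁻¹ * (y * v * y⁻¹)) * x⁻¹) := by group
      rw [e]; exact mul_mem h5 h6
    | inv x hx ihx =>
      have hxU : x ∈ D.posUnipotent F := by rw [M.U_eq]; exact hx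
      have h5 := (Subgroup.mem_normalizer_iff.mp (hnorm (inv_mem hxU)) _).mp (inv_mem (ihx hxU))
      have e : v⁻¹ * (x⁻¹ * v * x⁻¹⁻¹) = x⁻¹ * (v⁻¹ * (x * v * x⁻¹))⁻¹ * x⁻¹⁻¹ * (x⁻¹ * (v⁻¹ * (x * v * x⁻¹)) * x * (v⁻¹ * (x⁻¹ * v * x))) := by group
      have h8 : x⁻¹ * (v⁻¹ * (x * v * x⁻¹)) * x * (v⁻¹ * (x⁻¹ * v * x)) = 1 := by
        have h9 : v⁻¹ * (x * v * x⁻¹) * (x * v⁻¹ * x⁻¹) = v⁻¹ := by group
        have h10 : x⁻¹ * (v⁻¹ * (x * v * x⁻¹)) * x * (v⁻¹ * (x⁻¹ * v * x)) = x⁻¹ * (v⁻¹ * (x * v * x⁻¹) * (x * v⁻¹ * x⁻¹) * v) * x := by group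
        rw [h10, h9]; group
      rw [e, h8, mul_one]; exact h5
  obtain ⟨c, hc⟩ := M.mem_XS_I (List.nodup_append.mp h1).2.1 (fun k hk l hl => hcm k (List.mem_append_right _ hk) l (List.mem_append_right _ hl)) (hall u hu)
  classical
  refine ⟨fun k => if k ∈ V then 1 else c k, ?_, fun s hs => by simp only; rw [if_pos hs]⟩
  have h5 : u * v * u⁻¹ = v * PI D F I c := by rw [← hc]; group
  rw [h5, PI_append]
  congr 1
  · rw [PI_congr (c' := fun _ => 1) (fun k hk => by rw [if_pos hk])]
    unfold PI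
    exact (M.wg_eq_W1 V).symm
  · apply PI_congr
    intro k hk
    rw [if_neg]
    intro h
    exact (List.nodup_append.mp h1).2.2 k h k hk rfl

theorem hpr_wt {c : ℕ → Fˣ} : IsWt D M.T (fun s => ∏ i ∈ Finset.range D.rank, c i ^ D.cartan i s) := by
  have h7 : GD.hpr D c ∈ D.diagonalSubgroup F := M.mem_H.mpr ⟨c, rfl⟩
  obtain ⟨ω', hω', he⟩ := M.exists_wt h7
  have h8 := dgg_inj D he
  refine ⟨fun a ha => ?_, fun a b k ha hb hk hne hcf => ?_⟩
  · rw [h8 a ha, h8 _ (M.N.neg_lt ha)]; exact hω'.neg a ha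
  · rw [h8 a ha, h8 b hb, h8 k hk]; exact hω'.add a b k ha hb hk hne hcf

theorem PI_dgg {ω : ℕ → Fˣ} (hω : IsWt D M.T ω) {I : List ℕ} (hlt : ∀ k ∈ I, k < D.nroots) (c : ℕ → F) :
    dgg D ω * PI D F I c * (dgg D ω)⁻¹ = PI D F I (fun k => (ω k : F) * c k) := by
  induction I with
  | nil => rw [PI_nil, PI_nil]; group
  | cons k I ih =>
    rw [PI_cons, PI_cons, ← ih fun k' hk' => hlt k' (by simp [hk']), ← M.dgg_xg hω (hlt k (by simp))]
    group

/-- **the general theorem on centralizers** -/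
theorem cent_gen [CharP F 2] {V I J : List ℕ} {K : Subgroup (GL D.Idx F)} (hchk : orbChk D V I = true)
    (hW : ∀ l, Wd D l → (∀ s ∈ V, rl D l s ∈ V ++ I) → ∀ s ∈ V, rl D l s = s)
    (hst : ∀ l, Wd D l → (∀ s ∈ V, rl D l s = s) → nl D F l ∈ D.diagonalSubgroup F ⊔ Subgroup.closure {g | ∃ j ∈ J, g = ni D F j})
    (hJ : ∀ j ∈ J, j < D.rank) (hKG : K ≤ D.group F) (hKC : K ≤ Subgroup.centralizer {W1 D F V})
    (hKx : ∀ j ∈ J, ∀ t : F, xg D (D.simple j) t ∈ K ∧ xg D (D.neg (D.simple j)) t ∈ K)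
    (hHc : ∀ c : ℕ → Fˣ, (∀ s ∈ V, ∏ i ∈ Finset.range D.rank, c i ^ D.cartan i s = 1) → ∀ i < D.rank, i ∉ J → c i = 1)
    (hCU : ∀ u ∈ D.posUnipotent F, u * W1 D F V * u⁻¹ = W1 D F V → u ∈ K) :
    D.group F ⊓ Subgroup.centralizer {W1 D F V} = K := by
  classical
  have hcm := M.comm_of_chk hchk
  have horb := fun u hu => M.orb_of_chk (u := u) hchk hu
  have hchk' := hchk
  unfold orbChk at hchk'
  simp only [Bool.and_eq_true, List.all_eq_true, decide_eq_true_eq, List.mem_range] at hchk'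
  obtain ⟨⟨⟨h1, h2⟩, -⟩, -⟩ := hchk'
  have h2 : ∀ k ∈ V ++ I, k < D.nroots ∧ k ∈ PosS D := h2
  have h2' : ∀ k ∈ V ++ I, k < D.nroots := fun k hk => (h2 k hk).1
  have hVI : ∀ s ∈ V, s ∈ V ++ I := fun s hs => List.mem_append_left _ hs
  set v := W1 D F V with hv
  have hwK : ∀ i ∈ J, ∀ c : F, ng D (D.simple i) c ∈ K := by
    intro i hi c
    rw [M.ng_eq]
    exact mul_mem (mul_mem (hKx i hi _).1 (hKx i hi _).2) (hKx i hi _).1
  have hniK : ∀ i ∈ J, ni D F i ∈ K := fun i hi => hwK i hi 1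
  have hhK : ∀ i ∈ J, ∀ c : Fˣ, dgg D (fun s => c ^ D.cartan i s) ∈ K := by
    intro i hi c
    have h1 := M.ng_mul_ng (F := F) (M.N.simple_lt i (hJ i hi)) c
    have h2 : dgg D (fun s => c ^ D.cartan i s) = ng D (D.simple i) (c : F) * (ng D (D.simple i) (1 : F))⁻¹ := by
      rw [h1, mul_inv_cancel_right]
      apply dgg_congr
      intro s hs
      rw [M.pairing_simple (hJ i hi) hs]
    rw [h2]
    exact mul_mem (hwK i hi _) (inv_mem (hwK i hi _))
  have hKv : ∀ k ∈ K, k * v = v * k := fun k hk => Subgroup.mem_centralizer_singleton_iff.mp (hKC hk)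
  apply le_antisymm
  · rintro g ⟨hgG, hgC⟩
    have hgC' := Subgroup.mem_centralizer_singleton_iff.mp hgC
    obtain ⟨b, hb, n, hn, b', hb', rfl⟩ := M.bruhat hgG
    obtain ⟨u', hu', h', hh', rfl⟩ := M.mem_B.mp hb'
    obtain ⟨h1', hh1, l, hl, rfl⟩ := M.mem_N hn
    obtain ⟨u, hu, h2h, hh2, rfl⟩ := M.mem_B.mp hb
    obtain ⟨u3, hu3, he3⟩ : ∃ u3 ∈ D.posUnipotent F, u' * h' = h' * u3 := by
      refine ⟨h'⁻¹ * u' * h', ?_, by group⟩
      have := (Subgroup.mem_normalizer_iff.mp (M.H_norm_U (inv_mem hh'))) u'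
      rw [inv_inv] at this
      exact this.mp hu'
    obtain ⟨h4, hh4, he4⟩ : ∃ h4 ∈ D.diagonalSubgroup F, nl D F l * h' = h4 * nl D F l := by
      refine ⟨nl D F l * h' * (nl D F l)⁻¹, M.nl_norm_H hl hh', by group⟩
    have hform : u * h2h * (h1' * nl D F l) * (u' * h') = u * (h2h * h1' * h4) * nl D F l * u3 := by
      rw [he3]
      calc u * h2h * (h1' * nl D F l) * (h' * u3) = u * h2h * h1' * (nl D F l * h') * u3 := by group
        _ = _ := by rw [he4]; group
    rw [hform] at hgC' ⊢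
    set h := h2h * h1' * h4 with hh
    have hhH : h ∈ D.diagonalSubgroup F := mul_mem (mul_mem hh2 hh1) hh4
    obtain ⟨ω, hω, hωe⟩ := M.exists_wt hhH
    obtain ⟨c, hc, hc1⟩ := horb u3 hu3
    obtain ⟨c', hc', -⟩ := horb u⁻¹ (inv_mem hu)
    rw [inv_inv] at hc'
    have hmatch : nl D F l * PI D F (V ++ I) c * (nl D F l)⁻¹ = PI D F (V ++ I) (fun k => ((ω⁻¹ k : Fˣ) : F) * c' k) := by
      rw [← M.PI_dgg hω.inv h2', ← hc, ← hc', map_inv, inv_inv, ← hωe]
      have e : nl D F l * (u3 * v * u3⁻¹) * (nl D F l)⁻¹ = h⁻¹ * (u⁻¹ * ((u * h * nl D F l * u3 * v) * (u * h * nl D F l * u3)⁻¹) * u) * h := by group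
      rw [e, hgC']; group
    have hm := M.comm_match h1 h2 hcm hl hmatch
    have hfix := hW l hl fun s hs => (hm s (hVI s hs) (by rw [hc1 s hs]; exact one_ne_zero)).1
    have hnl := hst l hl hfix
    have hgP : u * h * nl D F l * u3 ∈ D.borelSubgroup F ⊔ Subgroup.closure {g | ∃ j ∈ J, g = ni D F j} := by
      refine mul_mem (mul_mem (mul_mem (Subgroup.mem_sup_left (GD.U_le_B hu)) (Subgroup.mem_sup_left (GD.H_le_B hhH))) ?_) (Subgroup.mem_sup_left (GD.U_le_B hu3))
      have hle : D.diagonalSubgroup F ⊔ Subgroup.closure {g : GL D.Idx F | ∃ j ∈ J, g = ni D F j} ≤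
          D.borelSubgroup F ⊔ Subgroup.closure {g : GL D.Idx F | ∃ j ∈ J, g = ni D F j} := sup_le_sup_right GD.H_le_B _
      exact hle hnl
    obtain ⟨κ, hκ, hgκ⟩ := M.par_split hJ hniK (fun j hj t => (hKx j hj t).1) hgP
    obtain ⟨u5, hu5, h5, hh5, he5⟩ := M.mem_B.mp hgκ
    obtain ⟨d, rfl⟩ := M.mem_H.mp hh5
    have hwt := M.hpr_wt (c := d)
    have hxC : (u5 * GD.hpr D d) * v = v * (u5 * GD.hpr D d) := by
      rw [← he5, mul_assoc, hKv κ hκ, ← mul_assoc, hgC', mul_assoc]
    -- weights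
    obtain ⟨u6, hu6, he6⟩ : ∃ u6 ∈ D.posUnipotent F, u5 * GD.hpr D d = GD.hpr D d * u6 := by
      refine ⟨(GD.hpr D d)⁻¹ * u5 * GD.hpr D d, ?_, by group⟩
      have := (Subgroup.mem_normalizer_iff.mp (M.H_norm_U (inv_mem hh5))) u5
      rw [inv_inv] at this
      exact this.mp hu5
    obtain ⟨e, hee, he1⟩ := horb u6 hu6
    have hv1 : v = PI D F (V ++ I) (fun k => if k ∈ V then 1 else 0) := M.W1_eq_PI h1
    have hval : PI D F (V ++ I) (fun k => ((∏ i ∈ Finset.range D.rank, d i ^ D.cartan i k : Fˣ) : F) * e k) = PI D F (V ++ I) (fun k => if k ∈ V then 1 else 0) := by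
      rw [← M.PI_dgg hwt h2', ← hee, ← hv1]
      change GD.hpr D d * (u6 * v * u6⁻¹) * (GD.hpr D d)⁻¹ = v
      have e8 : GD.hpr D d * (u6 * v * u6⁻¹) * (GD.hpr D d)⁻¹ = (GD.hpr D d * u6) * v * (GD.hpr D d * u6)⁻¹ := by group
      rw [e8, ← he6, hxC]; group
    have hone : ∀ s ∈ V, ∏ i ∈ Finset.range D.rank, d i ^ D.cartan i s = 1 := by
      intro s hs
      have h9 := M.PI_unique h1 h2 hcm h1 h2 hcm hval (h2 s (hVI s hs)).1 (h2 s (hVI s hs)).2
      rw [if_pos (hVI s hs), if_pos (hVI s hs), if_pos hs, he1 s hs, mul_one] at h9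
      exact Units.ext h9
    have hd := hHc d hone
    have hdK : GD.hpr D d ∈ K := by
      have h15 : ∀ k ≤ D.rank, dgg D (fun s => ∏ i ∈ Finset.range k, d i ^ D.cartan i s) ∈ K := by
        intro k
        induction k with
        | zero =>
          intro _
          simp only [Finset.range_zero, Finset.prod_empty]
          have : dgg D (fun _ => (1 : Fˣ)) = 1 := map_one (dgg D)
          rw [this]; exact one_mem _
        | succ k ihk =>
          intro hk'
          have : dgg D (fun s => ∏ i ∈ Finset.range (k + 1), d i ^ D.cartan i s) =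
              dgg D (fun s => ∏ i ∈ Finset.range k, d i ^ D.cartan i s) * dgg D (fun s => d k ^ D.cartan k s) := by
            rw [← map_mul]
            congr 1
            ext s
            simp [Finset.prod_range_succ]
          rw [this]
          refine mul_mem (ihk (by omega)) ?_
          by_cases hki : k ∈ J
          · exact hhK k hki _
          · rw [hd k (by omega) hki]
            have : dgg D (fun s => (1 : Fˣ) ^ D.cartan k s) = 1 := by
              have e : (fun s => (1 : Fˣ) ^ D.cartan k s) = 1 := by ext s; simp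
              rw [e, map_one]
            rw [this]; exact one_mem _
      exact h15 D.rank le_rfl
    have hu5K : u5 ∈ K := by
      apply hCU u5 hu5
      have h10 : u5 * v = v * u5 := by
        have h11 : u5 = (u5 * GD.hpr D d) * (GD.hpr D d)⁻¹ := by group
        rw [h11, mul_assoc, hKv _ (inv_mem hdK), ← mul_assoc, hxC, mul_assoc]
      rw [h10]; group
    have hfin : u * h * nl D F l * u3 = u5 * GD.hpr D d * κ⁻¹ := by rw [← he5]; group
    rw [hfin]
    exact mul_mem (mul_mem hu5K hdK) (inv_mem hκ)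
  · exact le_inf hKG hKC

end CG
end CfsgLib.Chev
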