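import Cfsg.Agent.Lib.ChevCt2
set_option autoImplicit false
set_option linter.style.haveILetI false
set_option linter.unusedSectionVars false

/-! Centralizers of involutions of Chevalley groups in characteristic two, III: tools for the examples. -/

namespace CfsgLib.Chev
open Cfsg.Lie Matrix CfsgLib.BNP

/-- long roots -/
def lgB (D : ChevalleyDatum) (r : ℕ) : Bool := (List.range D.nroots).all fun t => t == r || decide (D.pairing r t ≤ 1)

theorem root_le_iff {D : ChevalleyDatum} {F : Type*} [Field F] (M : CG D F) {r : ℕ} {K : Subgroup (GL D.Idx F)} :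
    D.rootSubgroup F r ≤ K ↔ ∀ t : F, xg D r t ∈ K := by
  unfold ChevalleyDatum.rootSubgroup
  rw [Subgroup.closure_le]
  constructor
  · intro h t
    exact h ⟨t, M.coe_xg r t⟩
  · rintro h g ⟨t, ht⟩
    rw [M.eq_xg.mp ht]
    exact h t

namespace CG
variable {D : ChevalleyDatum} {F : Type*} [Field F] (M : CG D F)
include M

theorem xg_mem_root (r : ℕ) (t : F) : xg D r t ∈ D.rootSubgroup F r := (root_le_iff M).mp le_rfl t

theorem lgB_rl {l : List ℕ} (hl : Wd D l) {r : ℕ} (hr : r < D.nroots) : lgB D (rl D l r) = lgB D r := by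
  have key : ∀ (l : List ℕ), Wd D l → ∀ r < D.nroots, lgB D r = true → lgB D (rl D l r) = true := by
    intro l hl r hr h
    unfold lgB at h ⊢
    simp only [List.all_eq_true, List.mem_range, Bool.or_eq_true, beq_iff_eq, decide_eq_true_eq] at h ⊢
    intro t ht
    have hl' : Wd D l.reverse := fun i hi => hl i (List.mem_reverse.mp hi)
    have e1 : rl D l (rl D l.reverse t) = t := by
      have := M.rl_reverse hl' ht
      rwa [List.reverse_reverse] at this
    rcases h _ (M.rl_lt hl' ht) with h1 | h1
    · left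
      rw [← h1, e1]
    · right
      have h2 := M.pairing_rl hl hr (M.rl_lt hl' ht)
      rw [e1] at h2
      rw [h2]; exact h1
  rw [Bool.eq_iff_iff]
  constructor
  · intro h
    have hl' : Wd D l.reverse := fun i hi => hl i (List.mem_reverse.mp hi)
    have h1 := key l.reverse hl' _ (M.rl_lt hl hr) h
    rwa [M.rl_reverse hl hr] at h1
  · exact key l hl r hr

theorem rcp_none [CharP F 2] {s r : ℕ} (h : rc D s r none = true) (t u : F) : xg D s u * xg D r t = xg D r t * xg D s u := by
  unfold rc at h
  simp only [Bool.and_eq_true, decide_eq_true_eq, Bool.not_eq_true', beq_eq_false_iff_ne, Bool.or_eq_true, beq_iff_eq] at h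
  obtain ⟨⟨⟨h1, h2⟩, h3⟩, h4⟩ := h
  exact M.comm_of_ev h1 h2 h3 (m := 2) (by exact_mod_cast CharTwo.two_eq_zero) h4 t u

theorem rcp_some [CharP F 2] {s r k : ℕ} (h : rc D s r (some k) = true) (t u : F) : xg D s u * xg D r t = xg D r t * (xg D s u * xg D k (t * u)) := by
  unfold rc at h
  simp only [Bool.and_eq_true, decide_eq_true_eq, Bool.not_eq_true', beq_eq_false_iff_ne] at h
  obtain ⟨⟨⟨h1, h2⟩, h3⟩, h4, h5⟩ := h
  have h6 := M.comm_xg h1 h2 h4 h3 t u
  rw [h6, mul_assoc]
  congr 2
  unfold ChevalleyDatum.commWord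
  split at h5
  · rename_i k' c i j hL
    simp only [Bool.and_eq_true, beq_iff_eq] at h5
    obtain ⟨⟨⟨h7, h8⟩, h9⟩, h10⟩ := h5
    rw [hL, h7, h9, h10]
    simp only [List.map_cons, List.map_nil]
    rw [wg_cons, wg_nil, mul_one]
    simp only
    congr 1
    have hc : ((c : ℤ) : F) = 1 := by
      obtain ⟨d, hd⟩ : ∃ d, c = 2 * d + 1 := ⟨c / 2, by omega⟩
      rw [hd]; push_cast
      rw [CharTwo.two_eq_zero]; ring
    rw [hc, M.neg_eq_char2]; ring
  · exact absurd h5 (by simp)

/-- conjugation by a root element -/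
theorem cn_none [CharP F 2] {s r : ℕ} (h : rc D s r none = true) (t u : F) : xg D s u * xg D r t * (xg D s u)⁻¹ = xg D r t := by
  rw [M.rcp_none h]; group

theorem cn_some [CharP F 2] {s r k : ℕ} (h : rc D s r (some k) = true) (h' : rc D s k none = true) (t u : F) :
    xg D s u * xg D r t * (xg D s u)⁻¹ = xg D r t * xg D k (t * u) := by
  rw [M.rcp_some h, M.rcp_none h']; group

theorem root_comm [CharP F 2] {V : List ℕ} {r : ℕ} (h : (V.all fun s => rc D r s none) = true) : D.rootSubgroup F r ≤ Subgroup.centralizer {W1 D F V} := by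
  rw [root_le_iff M]
  intro t
  rw [Subgroup.mem_centralizer_singleton_iff]
  simp only [List.all_eq_true] at h
  induction V with
  | nil => rw [W1_nil]; group
  | cons s V ih =>
    rw [W1_cons, ← mul_assoc, M.rcp_none (h s (by simp)), mul_assoc, ih fun s' hs' => h s' (by simp [hs']), mul_assoc]

end CG
end CfsgLib.Chev
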