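import Cfsg.Agent.Lib.ChevFx2
set_option autoImplicit false
set_option linter.style.haveILetI false
set_option linter.unusedSectionVars false

/-! Groups between the group over a subfield and its normalizer. -/

namespace CfsgLib.Chev
open Cfsg.Lie Matrix CfsgLib.BNP

namespace CG
variable {D : ChevalleyDatum} {F : Type*} [Field F] (M : CG D F) (σ : F ≃+* F)
include M

theorem conj_mid {K : Subgroup (GL D.Idx F)} (hKG : K ≤ D.group F) (hLK : Lf D σ ≤ K) (hfix : ∀ k ∈ K, mapGL D σ k = k)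
    {g : GL D.Idx F} (hg : g ∈ D.group F) (hσ : mapGL D σ g = g) {k : GL D.Idx F} (hk : k ∈ K) : g * k * g⁻¹ ∈ K := by
  obtain ⟨y, hy, h, hh, hhσ, rfl⟩ := M.fix_G σ hg hσ
  obtain ⟨y1, hy1, h1, hh1, hhσ1, rfl⟩ := M.fix_G σ (hKG hk) (hfix k hk)
  have hh1K : h1 ∈ K := by
    have : h1 = y1⁻¹ * (y1 * h1) := by group
    rw [this]; exact mul_mem (inv_mem (hLK hy1)) hk
  have hcomm := M.H_comm hh hh1
  have e : y * h * (y1 * h1) * (y * h)⁻¹ = (y * (h * y1 * h⁻¹) * (h1 * y⁻¹ * h1⁻¹)) * h1 := by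
    calc y * h * (y1 * h1) * (y * h)⁻¹ = y * (h * y1 * h⁻¹) * (h * h1) * h⁻¹ * y⁻¹ := by group
      _ = _ := by rw [hcomm]; group
  rw [e]
  refine mul_mem (hLK (mul_mem (mul_mem hy (M.H_norm_Lf σ hh hhσ hy1)) (M.H_norm_Lf σ hh1 hhσ1 (inv_mem hy)))) hh1K

theorem norm_iff {K : Subgroup (GL D.Idx F)} (hKG : K ≤ D.group F) (hLK : Lf D σ ≤ K) (hfix : ∀ k ∈ K, mapGL D σ k = k)
    {g : GL D.Idx F} (hg : g ∈ D.group F) : g ∈ Subgroup.normalizer (K : Set (GL D.Idx F)) ↔ mapGL D σ g = g := by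
  constructor
  · intro h
    rw [Subgroup.mem_normalizer_iff] at h
    have h1 : ∀ k ∈ K, g⁻¹ * mapGL D σ g * k = k * (g⁻¹ * mapGL D σ g) := by
      intro k hk
      have h2 := hfix _ ((h k).mp hk)
      rw [map_mul, map_mul, map_inv, hfix k hk] at h2
      have : g⁻¹ * (mapGL D σ g * k * (mapGL D σ g)⁻¹) * mapGL D σ g = g⁻¹ * (g * k * g⁻¹) * mapGL D σ g := by rw [h2]
      calc g⁻¹ * mapGL D σ g * k = g⁻¹ * (mapGL D σ g * k * (mapGL D σ g)⁻¹) * mapGL D σ g := by group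
        _ = _ := by rw [this]; group
    have hG : mapGL D σ g ∈ D.group F := by
      have := M.G_eq (F := F)
      rw [this] at hg ⊢
      exact M.mg_XS σ hg
    have h3 := M.cent_simple (mul_mem (inv_mem hg) hG)
      (fun i _ => h1 _ (hLK (M.xg_Lf σ _ (map_one σ)))) (fun i _ => h1 _ (hLK (M.xg_Lf σ _ (map_one σ))))
    exact (inv_mul_eq_one.mp h3).symm
  · intro hσ
    rw [Subgroup.mem_normalizer_iff]
    intro k
    refine ⟨fun hk => M.conj_mid σ hKG hLK hfix hg hσ hk, fun hk => ?_⟩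
    have h1 := M.conj_mid σ hKG hLK hfix (inv_mem hg) (by rw [map_inv, hσ]) hk
    convert h1 using 1
    group

theorem cent_mid {K : Subgroup (GL D.Idx F)} (hLK : Lf D σ ≤ K) : D.group F ⊓ Subgroup.centralizer (K : Set (GL D.Idx F)) = ⊥ := by
  rw [eq_bot_iff]
  rintro g ⟨hg, hc⟩
  rw [Subgroup.mem_bot]
  have hc' := Subgroup.mem_centralizer_iff.mp hc
  exact M.cent_simple hg (fun i _ => (hc' _ (hLK (M.xg_Lf σ _ (map_one σ)))).symm) (fun i _ => (hc' _ (hLK (M.xg_Lf σ _ (map_one σ)))).symm)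

end CG

/-- the entry condition -/
theorem fix_iff {D : ChevalleyDatum} {F : Type*} [Field F] (σ : F ≃+* F) {m : ℕ} (hσ : ∀ x, σ x = x ^ m) (g : GL D.Idx F) :
    (∀ i j : D.Idx, ((g : Matrix D.Idx D.Idx F) i j) ^ m = (g : Matrix D.Idx D.Idx F) i j) ↔ mapGL D σ g = g := by
  constructor
  · intro h
    apply Units.ext
    ext i j
    change σ ((g : Matrix D.Idx D.Idx F) i j) = _
    rw [hσ, h]
  · intro h i j
    rw [← hσ]
    exact congrArg (fun x : GL D.Idx F => (x : Matrix D.Idx D.Idx F) i j) h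

theorem Lf_eq {D : ChevalleyDatum} {F : Type*} [Field F] (M : CG D F) (σ : F ≃+* F) {m : ℕ} (hσ : ∀ x, σ x = x ^ m) :
    Subgroup.closure {g : GL D.Idx F | ∃ (s : ℕ) (t : F), t ^ m = t ∧ (g : Matrix D.Idx D.Idx F) = D.x F s t} = Lf D σ := by
  unfold Lf
  congr 1
  ext g
  constructor
  · rintro ⟨s, t, ht, hg⟩
    exact ⟨s, t, by rw [hσ, ht], M.eq_xg.mp hg⟩
  · rintro ⟨s, t, ht, rfl⟩
    exact ⟨s, t, by rw [← hσ, ht], M.coe_xg s t⟩

/-- the `q`-power map of an algebraically closed field -/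
theorem exists_frob (k : Type*) [Field k] [IsAlgClosed k] (p : ℕ) [Fact p.Prime] [CharP k p] (a : ℕ) :
    ∃ σ : k ≃+* k, ∀ x, σ x = x ^ (p ^ a) := by
  haveI : ExpChar k p := ExpChar.prime Fact.out
  haveI : PerfectRing k p := PerfectField.toPerfectRing p
  exact ⟨iterateFrobeniusEquiv k p a, fun x => iterateFrobeniusEquiv_apply k p a x⟩

end CfsgLib.Chev
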