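import Cfsg.Agent.Lib.ChevRk3
import Cfsg.Agent.Lib.ChevIn6
import Cfsg.Agent.Lib.ChevCe2
set_option autoImplicit false
set_option linter.style.haveILetI false
set_option linter.unusedSectionVars false

/-! Involutions of Chevalley groups in characteristic two, VIII: word identities by kernel computation; conjugate root elements. -/

namespace CfsgLib.Chev
open Cfsg.Lie Matrix CfsgLib.BNP

/-- equality modulo two of two products of root elements -/
noncomputable def eqW (D : ChevalleyDatum) (T : Tab) (R R' : List ℕ) : Bool :=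
  (R.all fun r => Nat.ble (r + 1) D.nroots) && (R'.all fun r => Nat.ble (r + 1) D.nroots) &&
  colF D T R fun f => colF D T R' fun f' => ball (dim D) fun x => Nat.beq (maskOf (f x)) (maskOf (f' x))

namespace CG
variable {D : ChevalleyDatum} {F : Type*} [Field F] (M : CG D F)
include M

theorem W1_eq_of [CharP F 2] {R R' : List ℕ} (h : eqW D M.T R R' = true) : W1 D F R = W1 D F R' := by
  unfold eqW at h
  simp only [Bool.and_eq_true, List.all_eq_true, colF_eq] at h
  obtain ⟨⟨h1, h2⟩, h3⟩ := h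
  have hR : ∀ r ∈ R, r < D.nroots := fun r hr => Nat.le_of_ble_eq_true (h1 r hr)
  have hR' : ∀ r ∈ R', r < D.nroots := fun r hr => Nat.le_of_ble_eq_true (h2 r hr)
  apply Units.ext
  rw [W1_val M R hR, W1_val M R' hR']
  ext i j
  have h4 : maskOf (colW D M.T R (code D j)) = maskOf (colW D M.T R' (code D j)) := Nat.eq_of_beq_eq_true (ball_spec h3 _ (code_lt D j))
  change ((matOf D (colW D M.T R) i j : ℤ) : F) = ((matOf D (colW D M.T R') i j : ℤ) : F)
  rw [matOf_apply, matOf_apply, ← bv_maskOf, ← bv_maskOf, h4]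

theorem cj_of_eqW [CharP F 2] {G R R' : List ℕ} (h : eqW D M.T (G ++ R) (R' ++ G) = true) : Cj D F R R' := by
  refine ⟨W1 D F G, M.W1_mem_G G, ?_⟩
  rw [mul_inv_eq_iff_eq_mul, ← W1_append, ← W1_append]
  exact M.W1_eq_of h

/-- a chain of conjugations -/
noncomputable def _root_.CfsgLib.Chev.chainB (D : ChevalleyDatum) (T : Tab) : List (Bool × ℕ × List ℕ) → List ℕ → List ℕ → Bool
  | [], S, R => eqW D T S R
  | (false, i, S') :: W, S, R => decide (i < D.rank) && (S.all fun s => decide (s < D.nroots)) && decide (S.map (D.reflectRoot i) = S') &&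
      chainB D T W S' R
  | (true, g, S') :: W, S, R => eqW D T (g :: S) (S' ++ [g]) && chainB D T W S' R

theorem cj_of_chain [CharP F 2] : ∀ {W : List (Bool × ℕ × List ℕ)} {S R : List ℕ}, chainB D M.T W S R = true → Cj D F S R := by
  intro W
  induction W with
  | nil =>
    intro S R h
    exact ⟨1, one_mem _, by rw [M.W1_eq_of (R := S) (R' := R) h]; group⟩
  | cons w W ih =>
    intro S R h
    obtain ⟨b, i, S'⟩ := w
    cases b with
    | false =>
      have h : (decide (i < D.rank) && (S.all fun s => decide (s < D.nroots)) && decide (S.map (D.reflectRoot i) = S') && chainB D M.T W S' R) = true := h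
      simp only [Bool.and_eq_true, decide_eq_true_eq, List.all_eq_true] at h
      have h3 := M.cj_rl (F := F) (l := [i]) (fun j hj => by rw [List.mem_singleton] at hj; rw [hj]; exact h.1.1.1) (R := S) h.1.1.2
      have e : S.map (rl D [i]) = S' := by rw [← h.1.2]; rfl
      rw [e] at h3
      exact h3.trans (ih h.2)
    | true =>
      have h : (eqW D M.T (i :: S) (S' ++ [i]) && chainB D M.T W S' R) = true := h
      rw [Bool.and_eq_true] at h
      exact (M.cj_of_eqW (G := [i]) h.1).trans (ih h.2)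

/-- the first two parts of the classification -/
theorem classes_of2 [Finite F] [CharP F 2] (hO : OC D F) (Sts : List (List ℕ)) (hnil : [] ∈ Sts)
    (hG : ∀ B ∈ Sts, ∃ J cands, stChk D B J cands = true ∧ ∀ c ∈ cands, Absorb D F B c ∨ B ++ [c] ∈ Sts)
    (Y : List (List ℕ)) (hS : ∀ S ∈ Sts, S = [] ∨ ∃ R ∈ Y, Cj D F S R) :
    ∀ g ∈ D.group F, orderOf g = 2 → ∃ R ∈ Y, ∃ h ∈ D.group F, h * g * h⁻¹ = W1 D F R := by
  intro g hg h2
  have hgg : (⟨g, hg⟩ : ↥(D.group F)) * ⟨g, hg⟩ = 1 := by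
    apply Subtype.ext
    change g * g = 1
    rw [← pow_two, ← h2]; exact pow_orderOf_eq_one g
  obtain ⟨R, h3, h4, k, hk, hk'⟩ := M.inv_orth hO hgg
  rw [M.wg_eq_W1] at hk'
  obtain ⟨S, hSm, k2, hk2, hk2'⟩ := M.mach Sts hG R.length R le_rfl [] hnil h4 (by simp) h3
  rw [List.nil_append] at hk2'
  rcases hS S hSm with rfl | ⟨R', hR', k3, hk3, hk3'⟩
  · exfalso
    have h5 : g = 1 := by
      have e : g = (k2 * k)⁻¹ * (k2 * (k * g * k⁻¹) * k2⁻¹) * (k2 * k) := by group
      change k * g * k⁻¹ = _ at hk'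
      rw [e, hk', hk2', W1_nil]; group
    rw [h5, orderOf_one] at h2
    exact absurd h2 (by norm_num)
  · refine ⟨R', hR', k3 * k2 * k, mul_mem (mul_mem hk3 hk2) hk, ?_⟩
    rw [← hk3', ← hk2', ← hk']
    change k3 * k2 * k * g * (k3 * k2 * k)⁻¹ = k3 * (k2 * (k * g * k⁻¹) * k2⁻¹) * k3⁻¹
    group

/-- conjugate root elements, the first central in `U`, belong to conjugate roots -/
theorem root_conj {r s : ℕ} (hr : r < D.nroots) (hs : s < D.nroots) (hps : s ∈ PosS D)
    (hcU : ∀ k < D.nroots, k ∈ PosS D → ∀ t u : F, xg D k u * xg D r t = xg D r t * xg D k u) {a b : F} (ha : a ≠ 0) (hb : b ≠ 0)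
    {g : GL D.Idx F} (hg : g ∈ D.group F) (he : g * xg D r a * g⁻¹ = xg D s b) : ∃ l, Wd D l ∧ rl D l r = s := by
  have hU : ∀ u ∈ D.posUnipotent F, ∀ t : F, u * xg D r t = xg D r t * u := by
    intro u hu t
    have : D.posUnipotent F ≤ Subgroup.centralizer {xg D r t} := by
      rw [M.U_eq]
      refine (Subgroup.closure_le _).mpr ?_
      rintro _ ⟨s, v, hs, hs', rfl⟩
      rw [SetLike.mem_coe, Subgroup.mem_centralizer_singleton_iff]
      exact hcU s hs' hs t v
    exact (Subgroup.mem_centralizer_singleton_iff.mp (this hu))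
  obtain ⟨b1, hb1, n, hn, b2, hb2, rfl⟩ := M.bruhat hg
  obtain ⟨u2, hu2, h2, hh2, rfl⟩ := M.mem_B.mp hb2
  obtain ⟨u1, hu1, h1, hh1, rfl⟩ := M.mem_B.mp hb1
  obtain ⟨h0, hh0, l, hl, rfl⟩ := M.mem_N hn
  obtain ⟨ω2, hω2, hωe2⟩ := M.exists_wt hh2
  obtain ⟨ω, hω, hωe⟩ := M.exists_wt (mul_mem hh1 hh0)
  have hk := M.rl_lt hl hr
  refine ⟨l, hl, ?_⟩
  set k := rl D l r with hkdef
  -- the inner conjugate
  obtain ⟨c, hc, e1⟩ : ∃ c : F, c ≠ 0 ∧ (h1 * (h0 * nl D F l) * (u2 * h2)) * xg D r a * (h1 * (h0 * nl D F l) * (u2 * h2))⁻¹ = xg D k c := by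
    have e2 : h2 * xg D r a * h2⁻¹ = xg D r ((ω2 r : F) * a) := by rw [hωe2]; exact M.dgg_xg hω2 hr a
    have e3 : u2 * xg D r ((ω2 r : F) * a) * u2⁻¹ = xg D r ((ω2 r : F) * a) := by rw [hU u2 hu2]; group
    have e4 : ∀ t : F, t ≠ 0 → ∃ t' : F, t' ≠ 0 ∧ nl D F l * xg D r t * (nl D F l)⁻¹ = xg D k t' := by
      intro t ht
      rcases M.nl_xg (F := F) l hl hr with h | h
      · exact ⟨t, ht, h t⟩
      · exact ⟨-t, neg_ne_zero.mpr ht, h t⟩
    obtain ⟨t', ht', e5⟩ := e4 ((ω2 r : F) * a) (mul_ne_zero (Units.ne_zero _) ha)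
    have e6 : (h1 * h0) * xg D k t' * (h1 * h0)⁻¹ = xg D k ((ω k : F) * t') := by rw [hωe]; exact M.dgg_xg hω hk t'
    refine ⟨(ω k : F) * t', mul_ne_zero (Units.ne_zero _) ht', ?_⟩
    rw [← e6, ← e5]
    rw [← e3, ← e2]
    group
  have e7 : u1 * xg D k c * u1⁻¹ = xg D s b := by
    rw [← he, ← e1]; group
  by_cases hp : k ∈ PosS D
  · rcases lt_trichotomy k s with h | h | h
    · exfalso
      have h3 : xg D k c ∈ XS D F (Set.Ici s) := by
        have e8 : xg D k c = u1⁻¹ * xg D s b * u1⁻¹⁻¹ := by rw [← e7]; group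
        rw [e8]
        exact (Subgroup.mem_normalizer_iff.mp (M.X_norm_Ici (F := F) hps (inv_mem hu1)) _).mp (xg_mem_XS D (Set.mem_Ici.mpr le_rfl) hs b)
      have h4 : xg D k c ∈ XS D F (Set.Ici (k + 1)) := by
        refine XS_mono D F (fun x hx _ => ?_) h3
        exact Set.mem_Ici.mpr (le_trans h (Set.mem_Ici.mp hx))
      exact hc (M.Ici_inter hp hk h4)
    · exact h
    · exfalso
      have h3 : xg D s b ∈ XS D F (Set.Ici k) := by
        rw [← e7]
        exact (Subgroup.mem_normalizer_iff.mp (M.X_norm_Ici (F := F) hp hu1) _).mp (xg_mem_XS D (Set.mem_Ici.mpr le_rfl) hk c)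
      have h4 : xg D s b ∈ XS D F (Set.Ici (s + 1)) := by
        refine XS_mono D F (fun x hx _ => ?_) h3
        exact Set.mem_Ici.mpr (le_trans h (Set.mem_Ici.mp hx))
      exact hb (M.Ici_inter hps hs h4)
  · exfalso
    have h3 : xg D k c ∈ D.borelSubgroup F ⊓ D.negUnipotent F := by
      refine ⟨?_, by rw [M.V_eq]; exact xg_mem_XS D (GD.notPos_iff.mp hp) hk c⟩
      have e8 : xg D k c = u1⁻¹ * xg D s b * u1 := by rw [← e7]; group
      rw [e8]
      have h5 : xg D s b ∈ D.posUnipotent F := by rw [M.U_eq]; exact xg_mem_XS D hps hs b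
      exact Subgroup.mem_sup_left (mul_mem (mul_mem (inv_mem hu1) h5) hu1)
    rw [M.B_inf_V, Subgroup.mem_bot, ← M.xg_zero k] at h3
    exact hc (M.xg_inj hk h3)

/-- roots in different orbits -/
theorem no_rl {r s s0 : ℕ} (hr : r < D.nroots) (hs0 : s0 < D.nroots) (h1 : ((List.range D.nroots).all fun t => t == r || decide (D.pairing r t ≤ 1)) = true)
    (h2 : 2 ≤ D.pairing s s0) (h3 : s0 ≠ s) : ¬ ∃ l, Wd D l ∧ rl D l r = s := by
  rintro ⟨l, hl, rfl⟩
  have hl' : Wd D l.reverse := fun i hi => hl i (List.mem_reverse.mp hi)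
  have ht : rl D l.reverse s0 < D.nroots := M.rl_lt hl' hs0
  have e1 : ∀ (l : List ℕ), Wd D l → ∀ s < D.nroots, rl D l (rl D l.reverse s) = s := by
    intro l
    induction l with
    | nil => intro _ s _; rfl
    | cons i l ih =>
      intro hl s hs
      have hl1 : Wd D l := fun j hj => hl j (by simp [hj])
      have hi := hl i (by simp)
      rw [List.reverse_cons, rl_append, rl_cons, ih hl1 _ (M.rl_lt (fun j hj => by rw [List.mem_singleton] at hj; rw [hj]; exact hi) hs)]
      change D.reflectRoot i (D.reflectRoot i s) = s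
      exact M.N.refl_refl hi hs
  have e2 := M.pairing_rl hl hr ht
  rw [e1 l hl s0 hs0] at e2
  rw [e2] at h2
  simp only [List.all_eq_true, List.mem_range, Bool.or_eq_true, beq_iff_eq, decide_eq_true_eq] at h1
  rcases h1 _ ht with h | h
  · apply h3
    rw [← h, e1 l hl s0 hs0]
  · omega

end CG

theorem cU_of_chk {D : ChevalleyDatum} {F : Type*} [Field F] (M : CG D F) {m : ℤ} (hm : (m : F) = 0) {r i0 : ℕ} (h : ceChk D m r i0 = true) :
    ∀ k < D.nroots, k ∈ PosS D → ∀ t u : F, xg D k u * xg D r t = xg D r t * xg D k u := by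
  unfold ceChk at h
  simp only [Bool.and_eq_true, decide_eq_true_eq, List.all_eq_true, List.mem_range] at h
  obtain ⟨⟨⟨⟨⟨h1, h2⟩, h3⟩, h4⟩, h5⟩, h6⟩ := h
  intro s hs hp t u
  have h7 := h5 s hs
  rw [Bool.or_eq_true, Bool.or_eq_true, Bool.not_eq_true', decide_eq_false_iff_not, beq_iff_eq] at h7
  rcases h7 with (h7 | h7) | h7
  · exact absurd hp h7
  · exact M.comm_of_ev h1 hs (M.a_pos_ne_neg h1 hs h2 hp) hm (Or.inl h7) t u
  · exact M.comm_of_ev h1 hs (M.a_pos_ne_neg h1 hs h2 hp) hm (Or.inr h7) t u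

/-- two root elements that are not conjugate -/
theorem CG.not_conj {D : ChevalleyDatum} {F : Type*} [Field F] (M : CG D F) [CharP F 2] {r i0 s s0 : ℕ} (h : ceChk D 2 r i0 = true)
    (hs : s < D.nroots) (hps : s ∈ PosS D) (hs0 : s0 < D.nroots) (h1 : ((List.range D.nroots).all fun t => t == r || decide (D.pairing r t ≤ 1)) = true)
    (h2 : 2 ≤ D.pairing s s0) (h3 : s0 ≠ s) : ¬ Cj D F [r] [s] := by
  rintro ⟨g, hg, he⟩
  have hr : r < D.nroots := by
    unfold ceChk at h
    simp only [Bool.and_eq_true, decide_eq_true_eq] at h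
    exact h.1.1.1.1.1
  rw [W1_cons, W1_cons, W1_nil, mul_one, mul_one] at he
  exact M.no_rl hr hs0 h1 h2 h3 (M.root_conj hr hs hps (cU_of_chk M (by exact_mod_cast CharTwo.two_eq_zero) h) one_ne_zero one_ne_zero hg he)

end CfsgLib.Chev
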