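import Cfsg.Agent.Lib.ChevIn6
set_option autoImplicit false
set_option maxRecDepth 1000000

/-! Involution classes of the Chevalley group of type E6 in characteristic two. -/

namespace CfsgLib.Chev
open Cfsg.Lie

theorem ocE6 : ocChk chevE6 = true := by decide +kernel
theorem stE6_0 : stChk chevE6 [] [0, 1, 2, 3, 4, 5] [71] = true := by decide +kernel
theorem stE6_1 : stChk chevE6 [71] [0, 2, 3, 4, 5] [60] = true := by decide +kernel
theorem stE6_2 : stChk chevE6 [71, 60] [2, 3, 4] [44] = true := by decide +kernel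
theorem stE6_3 : stChk chevE6 [71, 60, 44] [3] [39] = true := by decide +kernel
theorem qdE6_0 : quadChk chevE6 [71, 60, 44] [] 39 47 20 8 65 53 25 70 71 60 44 = true := by decide +kernel
def stsE6 : List (List ℕ) := [[], [71], [71, 60], [71, 60, 44]]

theorem mchE6 {F : Type*} [Field F] [CharP F 2] (M : CG chevE6 F) : ∀ B ∈ stsE6, ∃ J cands, stChk chevE6 B J cands = true ∧
    ∀ c ∈ cands, Absorb chevE6 F B c ∨ B ++ [c] ∈ stsE6 := by
  intro B hB
  unfold stsE6 at hB
  simp only [List.mem_cons, List.not_mem_nil, or_false] at hB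
  rcases hB with rfl | rfl | rfl | rfl
  · refine ⟨[0, 1, 2, 3, 4, 5], [71], stE6_0, fun c hc => ?_⟩
    simp only [List.mem_cons, List.not_mem_nil, or_false] at hc
    subst hc
    · exact Or.inr (by decide)
  · refine ⟨[0, 2, 3, 4, 5], [60], stE6_1, fun c hc => ?_⟩
    simp only [List.mem_cons, List.not_mem_nil, or_false] at hc
    subst hc
    · exact Or.inr (by decide)
  · refine ⟨[2, 3, 4], [44], stE6_2, fun c hc => ?_⟩
    simp only [List.mem_cons, List.not_mem_nil, or_false] at hc
    subst hc
    · exact Or.inr (by decide)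
  · refine ⟨[3], [39], stE6_3, fun c hc => ?_⟩
    simp only [List.mem_cons, List.not_mem_nil, or_false] at hc
    subst hc
    · exact Or.inl (M.absorb_of_quad ocE6 qdE6_0)
theorem wdE6_0 : wdChk chevE6 [] [71] [71] = true := by decide +kernel
theorem wdE6_1 : wdChk chevE6 [1, 3, 4] [68, 66] [71, 60] = true := by decide +kernel
theorem wdE6_2 : wdChk chevE6 [0, 1, 3, 2, 0] [55, 65, 67] [71, 60, 44] = true := by decide +kernel
theorem rkE6_0 : rkChk chevE6 gdE6.T [71] 22 = true := by decide +kernel
theorem rkE6_1 : rkChk chevE6 gdE6.T [68, 66] 32 = true := by decide +kernel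
theorem rkE6_2 : rkChk chevE6 gdE6.T [55, 65, 67] 38 = true := by decide +kernel

end CfsgLib.Chev
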