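import Cfsg.Agent.Lib.ChevIn7
import Cfsg.Agent.Lib.ChevCD
set_option autoImplicit false
set_option maxRecDepth 1000000

/-! Involution classes of the Chevalley group of type E7 in characteristic two: kernel checks. -/

namespace CfsgLib.Chev
open Cfsg.Lie

noncomputable def mgE7 (F : Type*) [Field F] : CG chevE7 F := ⟨⟨gdE7, nzE7⟩, commE7 F⟩
theorem cdE7 (F : Type*) [Field F] : Cd (mgE7 F).toGD rcE7.get CLE7 := Cd.of_rvc (fun _ _ => rfl) rvcE7 (by decide)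

theorem stE7_0F : stF 7 126 rcE7.get CLE7 [] [0, 1, 2, 3, 4, 5, 6] [125] [] [[2, 0, -1, 0, 0, 0, 0], [0, 2, 0, -1, 0, 0, 0], [-1, 0, 2, -1, 0, 0, 0], [0, -1, -1, 2, -1, 0, 0], [0, 0, 0, -1, 2, -1, 0], [0, 0, 0, 0, -1, 2, -1], [0, 0, 0, 0, 0, -1, 2]] = true := by decide +kernel
theorem stE7_0 : stChk chevE7 [] [0, 1, 2, 3, 4, 5, 6] [125] = true := (cdE7 ℚ).stChk_of_F stE7_0F
theorem stE7_1F : stF 7 126 rcE7.get CLE7 [125] [1, 2, 3, 4, 5, 6] [92] [[1, 0, 0, 0, 0, 0, 0]] [[0, 2, 0, -1, 0, 0, 0], [-1, 0, 2, -1, 0, 0, 0], [0, -1, -1, 2, -1, 0, 0], [0, 0, 0, -1, 2, -1, 0], [0, 0, 0, 0, -1, 2, -1], [0, 0, 0, 0, 0, -1, 2]] = true := by decide +kernel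
theorem stE7_1 : stChk chevE7 [125] [1, 2, 3, 4, 5, 6] [92] = true := (cdE7 ℚ).stChk_of_F stE7_1F
theorem stE7_2F : stF 7 126 rcE7.get CLE7 [125, 92] [1, 2, 3, 4, 6] [63, 87] [[1, 0, 0, 0, 0, 0, 0], [-1, 0, 0, 0, 0, 1, 0]] [[0, 2, 0, -1, 0, 0, 0], [-1, 0, 2, -1, 0, 0, 0], [0, -1, -1, 2, -1, 0, 0], [0, 0, 0, -1, 2, -1, 0], [0, 0, 0, 0, 0, -1, 2]] = true := by decide +kernel
theorem stE7_2 : stChk chevE7 [125, 92] [1, 2, 3, 4, 6] [63, 87] = true := (cdE7 ℚ).stChk_of_F stE7_2F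
theorem stE7_3F : stF 7 126 rcE7.get CLE7 [125, 92, 63] [1, 2, 3, 4] [87] [[1, 0, 0, 0, 0, 0, 0], [-1, 0, 0, 0, 0, 1, 0], [0, 0, 0, 0, 0, -1, 2]] [[0, 2, 0, -1, 0, 0, 0], [-1, 0, 2, -1, 0, 0, 0], [0, -1, -1, 2, -1, 0, 0], [0, 0, 0, -1, 2, -1, 0]] = true := by decide +kernel
theorem stE7_3 : stChk chevE7 [125, 92, 63] [1, 2, 3, 4] [87] = true := (cdE7 ℚ).stChk_of_F stE7_3F
theorem stE7_4F : stF 7 126 rcE7.get CLE7 [125, 92, 87] [1, 2, 4, 6] [63, 66, 73, 78] [[1, 0, 0, 0, 0, 0, 0], [-1, 0, 0, 0, 0, 1, 0], [-1, 0, 0, 1, 0, -1, 0]] [[0, 2, 0, -1, 0, 0, 0], [-1, 0, 2, -1, 0, 0, 0], [0, 0, 0, -1, 2, -1, 0], [0, 0, 0, 0, 0, -1, 2]] = true := by decide +kernel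
theorem stE7_4 : stChk chevE7 [125, 92, 87] [1, 2, 4, 6] [63, 66, 73, 78] = true := (cdE7 ℚ).stChk_of_F stE7_4F
theorem stE7_5F : stF 7 126 rcE7.get CLE7 [125, 92, 63, 87] [1, 2, 4] [66, 73, 78] [[1, 0, 0, 0, 0, 0, 0], [-1, 0, 0, 0, 0, 1, 0], [0, 0, 0, 0, 0, -1, 2], [-1, 0, 0, 1, 0, -1, 0]] [[0, 2, 0, -1, 0, 0, 0], [-1, 0, 2, -1, 0, 0, 0], [0, 0, 0, -1, 2, -1, 0]] = true := by decide +kernel
theorem stE7_5 : stChk chevE7 [125, 92, 63, 87] [1, 2, 4] [66, 73, 78] = true := (cdE7 ℚ).stChk_of_F stE7_5F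
theorem stE7_6F : stF 7 126 rcE7.get CLE7 [125, 92, 87, 63] [1, 2, 4] [66, 73, 78] [[1, 0, 0, 0, 0, 0, 0], [-1, 0, 0, 0, 0, 1, 0], [-1, 0, 0, 1, 0, -1, 0], [0, 0, 0, 0, 0, -1, 2]] [[0, 2, 0, -1, 0, 0, 0], [-1, 0, 2, -1, 0, 0, 0], [0, 0, 0, -1, 2, -1, 0]] = true := by decide +kernel
theorem stE7_6 : stChk chevE7 [125, 92, 87, 63] [1, 2, 4] [66, 73, 78] = true := (cdE7 ℚ).stChk_of_F stE7_6F
theorem stE7_7F : stF 7 126 rcE7.get CLE7 [125, 92, 87, 66] [1, 2, 6] [63, 73, 78] [[1, 0, 0, 0, 0, 0, 0], [-1, 0, 0, 0, 0, 1, 0], [-1, 0, 0, 1, 0, -1, 0], [0, 0, 0, -1, 2, -1, 0]] [[0, 2, 0, -1, 0, 0, 0], [-1, 0, 2, -1, 0, 0, 0], [0, 0, 0, 0, 0, -1, 2]] = true := by decide +kernel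
theorem stE7_7 : stChk chevE7 [125, 92, 87, 66] [1, 2, 6] [63, 73, 78] = true := (cdE7 ℚ).stChk_of_F stE7_7F
theorem stE7_8F : stF 7 126 rcE7.get CLE7 [125, 92, 87, 78] [2, 4, 6] [63, 66, 73] [[1, 0, 0, 0, 0, 0, 0], [-1, 0, 0, 0, 0, 1, 0], [-1, 0, 0, 1, 0, -1, 0], [0, 2, 0, -1, 0, 0, 0]] [[-1, 0, 2, -1, 0, 0, 0], [0, 0, 0, -1, 2, -1, 0], [0, 0, 0, 0, 0, -1, 2]] = true := by decide +kernel
theorem stE7_8 : stChk chevE7 [125, 92, 87, 78] [2, 4, 6] [63, 66, 73] = true := (cdE7 ℚ).stChk_of_F stE7_8F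
theorem leE7F : leF 126 rcE7.get CLE7 125 [1, 0, 0, 0, 0, 0, 0] = true := by decide +kernel
theorem leE7 : ∀ r < chevE7.nroots, ∀ s < chevE7.nroots, s ≠ r → chevE7.pairing r s ≤ 1 := (cdE7 ℚ).le1 stE7_0 leE7F
theorem ocE7 : ocChk chevE7 = true := (cdE7 ℚ).ocChk_of leE7
theorem qdE7_0F : quadF chevE7 7 126 rcE7.get CLE7 [125, 92, 87] [] 73 94 22 17 114 109 32 124 125 92 87 = true := by decide +kernel
theorem qdE7_0 : quadChk chevE7 [125, 92, 87] [] 73 94 22 17 114 109 32 124 125 92 87 = true := (cdE7 ℚ).quadChk_of leE7 qdE7_0F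
theorem qdE7_1F : quadF chevE7 7 126 rcE7.get CLE7 [125, 92, 63, 87] [125] 66 67 37 60 68 90 61 91 92 63 87 = true := by decide +kernel
theorem qdE7_1 : quadChk chevE7 [125, 92, 63, 87] [125] 66 67 37 60 68 90 61 91 92 63 87 = true := (cdE7 ℚ).quadChk_of leE7 qdE7_1F
theorem qdE7_2F : quadF chevE7 7 126 rcE7.get CLE7 [125, 92, 63, 87] [63] 73 94 22 17 114 109 32 124 125 92 87 = true := by decide +kernel
theorem qdE7_2 : quadChk chevE7 [125, 92, 63, 87] [63] 73 94 22 17 114 109 32 124 125 92 87 = true := (cdE7 ℚ).quadChk_of leE7 qdE7_2F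
theorem qdE7_3F : quadF chevE7 7 126 rcE7.get CLE7 [125, 92, 63, 87] [92] 78 101 10 27 102 119 28 120 125 63 87 = true := by decide +kernel
theorem qdE7_3 : quadChk chevE7 [125, 92, 63, 87] [92] 78 101 10 27 102 119 28 120 125 63 87 = true := (cdE7 ℚ).quadChk_of leE7 qdE7_3F
theorem qdE7_4F : quadF chevE7 7 126 rcE7.get CLE7 [125, 92, 87, 63] [125] 66 67 60 37 90 68 61 91 92 87 63 = true := by decide +kernel
theorem qdE7_4 : quadChk chevE7 [125, 92, 87, 63] [125] 66 67 60 37 90 68 61 91 92 87 63 = true := (cdE7 ℚ).quadChk_of leE7 qdE7_4F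
theorem qdE7_5F : quadF chevE7 7 126 rcE7.get CLE7 [125, 92, 87, 63] [63] 73 94 22 17 114 109 32 124 125 92 87 = true := by decide +kernel
theorem qdE7_5 : quadChk chevE7 [125, 92, 87, 63] [63] 73 94 22 17 114 109 32 124 125 92 87 = true := (cdE7 ℚ).quadChk_of leE7 qdE7_5F
theorem qdE7_6F : quadF chevE7 7 126 rcE7.get CLE7 [125, 92, 87, 63] [92] 78 101 27 10 119 102 28 120 125 87 63 = true := by decide +kernel
theorem qdE7_6 : quadChk chevE7 [125, 92, 87, 63] [92] 78 101 27 10 119 102 28 120 125 87 63 = true := (cdE7 ℚ).quadChk_of leE7 qdE7_6F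
theorem qdE7_7F : quadF chevE7 7 126 rcE7.get CLE7 [125, 92, 87, 66] [125] 63 65 58 37 89 68 61 91 92 87 66 = true := by decide +kernel
theorem qdE7_7 : quadChk chevE7 [125, 92, 87, 66] [125] 63 65 58 37 89 68 61 91 92 87 66 = true := (cdE7 ℚ).quadChk_of leE7 qdE7_7F
theorem qdE7_8F : quadF chevE7 7 126 rcE7.get CLE7 [125, 92, 87, 66] [66] 73 94 22 17 114 109 32 124 125 92 87 = true := by decide +kernel
theorem qdE7_8 : quadChk chevE7 [125, 92, 87, 66] [66] 73 94 22 17 114 109 32 124 125 92 87 = true := (cdE7 ℚ).quadChk_of leE7 qdE7_8F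
theorem qdE7_9F : quadF chevE7 7 126 rcE7.get CLE7 [125, 92, 87, 66] [87] 78 99 29 8 121 100 30 122 125 92 66 = true := by decide +kernel
theorem qdE7_9 : quadChk chevE7 [125, 92, 87, 66] [87] 78 99 29 8 121 100 30 122 125 92 66 = true := (cdE7 ℚ).quadChk_of leE7 qdE7_9F
theorem qdE7_10F : quadF chevE7 7 126 rcE7.get CLE7 [125, 92, 87, 78] [92] 63 98 24 10 116 102 28 120 125 87 78 = true := by decide +kernel
theorem qdE7_10 : quadChk chevE7 [125, 92, 87, 78] [92] 63 98 24 10 116 102 28 120 125 87 78 = true := (cdE7 ℚ).quadChk_of leE7 qdE7_10F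
theorem qdE7_11F : quadF chevE7 7 126 rcE7.get CLE7 [125, 92, 87, 78] [87] 66 96 26 8 118 100 30 122 125 92 78 = true := by decide +kernel
theorem qdE7_11 : quadChk chevE7 [125, 92, 87, 78] [87] 66 96 26 8 118 100 30 122 125 92 78 = true := (cdE7 ℚ).quadChk_of leE7 qdE7_11F
theorem qdE7_12F : quadF chevE7 7 126 rcE7.get CLE7 [125, 92, 87, 78] [78] 73 94 22 17 114 109 32 124 125 92 87 = true := by decide +kernel
theorem qdE7_12 : quadChk chevE7 [125, 92, 87, 78] [78] 73 94 22 17 114 109 32 124 125 92 87 = true := (cdE7 ℚ).quadChk_of leE7 qdE7_12F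
def stsE7 : List (List ℕ) := [[], [125], [125, 92], [125, 92, 63], [125, 92, 87], [125, 92, 63, 87], [125, 92, 87, 63], [125, 92, 87, 66], [125, 92, 87, 78]]

theorem mchE7 {F : Type*} [Field F] [CharP F 2] (M : CG chevE7 F) : ∀ B ∈ stsE7, ∃ J cands, stChk chevE7 B J cands = true ∧
    ∀ c ∈ cands, Absorb chevE7 F B c ∨ B ++ [c] ∈ stsE7 := by
  intro B hB
  unfold stsE7 at hB
  simp only [List.mem_cons, List.not_mem_nil, or_false] at hB
  rcases hB with rfl | rfl | rfl | rfl | rfl | rfl | rfl | rfl | rfl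
  · refine ⟨[0, 1, 2, 3, 4, 5, 6], [125], stE7_0, fun c hc => ?_⟩
    simp only [List.mem_cons, List.not_mem_nil, or_false] at hc
    subst hc
    · exact Or.inr (by decide)
  · refine ⟨[1, 2, 3, 4, 5, 6], [92], stE7_1, fun c hc => ?_⟩
    simp only [List.mem_cons, List.not_mem_nil, or_false] at hc
    subst hc
    · exact Or.inr (by decide)
  · refine ⟨[1, 2, 3, 4, 6], [63, 87], stE7_2, fun c hc => ?_⟩
    simp only [List.mem_cons, List.not_mem_nil, or_false] at hc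
    rcases hc with rfl | rfl
    · exact Or.inr (by decide)
    · exact Or.inr (by decide)
  · refine ⟨[1, 2, 3, 4], [87], stE7_3, fun c hc => ?_⟩
    simp only [List.mem_cons, List.not_mem_nil, or_false] at hc
    subst hc
    · exact Or.inr (by decide)
  · refine ⟨[1, 2, 4, 6], [63, 66, 73, 78], stE7_4, fun c hc => ?_⟩
    simp only [List.mem_cons, List.not_mem_nil, or_false] at hc
    rcases hc with rfl | rfl | rfl | rfl
    · exact Or.inr (by decide)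
    · exact Or.inr (by decide)
    · exact Or.inl (M.absorb_of_quad ocE7 qdE7_0)
    · exact Or.inr (by decide)
  · refine ⟨[1, 2, 4], [66, 73, 78], stE7_5, fun c hc => ?_⟩
    simp only [List.mem_cons, List.not_mem_nil, or_false] at hc
    rcases hc with rfl | rfl | rfl
    · exact Or.inl (M.absorb_of_quad ocE7 qdE7_1)
    · exact Or.inl (M.absorb_of_quad ocE7 qdE7_2)
    · exact Or.inl (M.absorb_of_quad ocE7 qdE7_3)
  · refine ⟨[1, 2, 4], [66, 73, 78], stE7_6, fun c hc => ?_⟩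
    simp only [List.mem_cons, List.not_mem_nil, or_false] at hc
    rcases hc with rfl | rfl | rfl
    · exact Or.inl (M.absorb_of_quad ocE7 qdE7_4)
    · exact Or.inl (M.absorb_of_quad ocE7 qdE7_5)
    · exact Or.inl (M.absorb_of_quad ocE7 qdE7_6)
  · refine ⟨[1, 2, 6], [63, 73, 78], stE7_7, fun c hc => ?_⟩
    simp only [List.mem_cons, List.not_mem_nil, or_false] at hc
    rcases hc with rfl | rfl | rfl
    · exact Or.inl (M.absorb_of_quad ocE7 qdE7_7)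
    · exact Or.inl (M.absorb_of_quad ocE7 qdE7_8)
    · exact Or.inl (M.absorb_of_quad ocE7 qdE7_9)
  · refine ⟨[2, 4, 6], [63, 66, 73], stE7_8, fun c hc => ?_⟩
    simp only [List.mem_cons, List.not_mem_nil, or_false] at hc
    rcases hc with rfl | rfl | rfl
    · exact Or.inl (M.absorb_of_quad ocE7 qdE7_10)
    · exact Or.inl (M.absorb_of_quad ocE7 qdE7_11)
    · exact Or.inl (M.absorb_of_quad ocE7 qdE7_12)
theorem wdE7_0F : wdF 7 126 rcE7.get CLE7 [] [125] [125] = true := by decide +kernel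
theorem wdE7_0 {F : Type*} [Field F] [CharP F 2] : Cj chevE7 F [125] [125] := (cdE7 F).cj_of_F wdE7_0F
theorem wdE7_1F : wdF 7 126 rcE7.get CLE7 [] [125, 92] [125, 92] = true := by decide +kernel
theorem wdE7_1 {F : Type*} [Field F] [CharP F 2] : Cj chevE7 F [125, 92] [125, 92] := (cdE7 F).cj_of_F wdE7_1F
theorem wdE7_2F : wdF 7 126 rcE7.get CLE7 [] [125, 92, 63] [125, 92, 63] = true := by decide +kernel
theorem wdE7_2 {F : Type*} [Field F] [CharP F 2] : Cj chevE7 F [125, 92, 63] [125, 92, 63] := (cdE7 F).cj_of_F wdE7_2F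
theorem wdE7_3F : wdF 7 126 rcE7.get CLE7 [] [125, 92, 87] [125, 92, 87] = true := by decide +kernel
theorem wdE7_3 {F : Type*} [Field F] [CharP F 2] : Cj chevE7 F [125, 92, 87] [125, 92, 87] := (cdE7 F).cj_of_F wdE7_3F
theorem wdE7_4F : wdF 7 126 rcE7.get CLE7 [] [125, 92, 63, 87] [125, 92, 63, 87] = true := by decide +kernel
theorem wdE7_4 {F : Type*} [Field F] [CharP F 2] : Cj chevE7 F [125, 92, 63, 87] [125, 92, 63, 87] := (cdE7 F).cj_of_F wdE7_4F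

end CfsgLib.Chev
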