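import Cfsg.Agent.Lib.ChevIn8
import Cfsg.Agent.Lib.ChevCe2
set_option autoImplicit false
set_option maxRecDepth 1000000
set_option maxHeartbeats 4000000

/-! Involution classes of the Chevalley group of type G2 in characteristic two: kernel checks. -/

namespace CfsgLib.Chev
open Cfsg.Lie

noncomputable def mgG2 (F : Type*) [Field F] : CG chevG2 F := ⟨⟨gdG2, nzG2⟩, commG2 F⟩
theorem ocG2 : ocChk chevG2 = true := by decide +kernel
theorem stG2_0 : stChk chevG2 [] [0, 1] [9, 11] = true := by decide +kernel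
theorem stG2_1 : stChk chevG2 [9] [1] [6] = true := by decide +kernel
theorem stG2_2 : stChk chevG2 [11] [0] [7] = true := by decide +kernel
theorem stG2_3 : stChk chevG2 [9, 6] [] [] = true := by decide +kernel
theorem stG2_4 : stChk chevG2 [11, 7] [] [] = true := by decide +kernel
def stsG2 : List (List ℕ) := [[], [9], [11], [9, 6], [11, 7]]
def jcG2 : List (List ℕ × List ℕ) := [([0, 1], [9, 11]), ([1], [6]), ([0], [7]), ([], []), ([], [])]

theorem mchG2 (F : Type*) [Field F] : ∀ B ∈ stsG2, ∃ J cands, stChk chevG2 B J cands = true ∧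
    ∀ c ∈ cands, Absorb chevG2 F B c ∨ B ++ [c] ∈ stsG2 := by
  have key : ∀ B J cands, stChk chevG2 B J cands = true → (∀ c ∈ cands, B ++ [c] ∈ stsG2) → ∃ J cands, stChk chevG2 B J cands = true ∧
    ∀ c ∈ cands, Absorb chevG2 F B c ∨ B ++ [c] ∈ stsG2 := fun B J cands h1 h2 => ⟨J, cands, h1, fun c hc => Or.inr (h2 c hc)⟩
  intro B hB
  unfold stsG2 at hB
  simp only [List.mem_cons, List.not_mem_nil, or_false] at hB
  rcases hB with rfl | rfl | rfl | rfl | rfl
  · exact key _ _ _ stG2_0 (by decide)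
  · exact key _ _ _ stG2_1 (by decide)
  · exact key _ _ _ stG2_2 (by decide)
  · exact key _ _ _ stG2_3 (by decide)
  · exact key _ _ _ stG2_4 (by decide)
theorem cjG2_1F : chainB chevG2 gdG2.T [] [9] [9] = true := by decide +kernel
theorem cjG2_1 (F : Type*) [Field F] [CharP F 2] : Cj chevG2 F [9] [9] := (mgG2 F).cj_of_chain cjG2_1F
theorem cjG2_2F : chainB chevG2 gdG2.T [] [11] [11] = true := by decide +kernel
theorem cjG2_2 (F : Type*) [Field F] [CharP F 2] : Cj chevG2 F [11] [11] := (mgG2 F).cj_of_chain cjG2_2F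
theorem cjG2_3F : chainB chevG2 gdG2.T [(true, 4, [9, 11]), (true, 8, [9])] [9, 6] [9] = true := by decide +kernel
theorem cjG2_3 (F : Type*) [Field F] [CharP F 2] : Cj chevG2 F [9, 6] [9] := (mgG2 F).cj_of_chain cjG2_3F
theorem cjG2_4F : chainB chevG2 gdG2.T [(false, 1, [10, 8]), (false, 0, [6, 9]), (true, 4, [9, 11]), (true, 8, [9])] [11, 7] [9] = true := by decide +kernel
theorem cjG2_4 (F : Type*) [Field F] [CharP F 2] : Cj chevG2 F [11, 7] [9] := (mgG2 F).cj_of_chain cjG2_4F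

theorem cjsG2 (F : Type*) [Field F] [CharP F 2] : ∀ S ∈ stsG2, S = [] ∨ ∃ R ∈ ([[11], [9]] : List (List ℕ)), Cj chevG2 F S R := by
  have key : ∀ S R, Cj chevG2 F S R → R ∈ ([[11], [9]] : List (List ℕ)) → S = [] ∨ ∃ R ∈ ([[11], [9]] : List (List ℕ)), Cj chevG2 F S R :=
    fun S R h1 h2 => Or.inr ⟨R, h2, h1⟩
  intro B hB
  unfold stsG2 at hB
  simp only [List.mem_cons, List.not_mem_nil, or_false] at hB
  rcases hB with rfl | rfl | rfl | rfl | rfl
  · exact Or.inl rfl
  · exact key _ _ (cjG2_1 F) (by decide)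
  · exact key _ _ (cjG2_2 F) (by decide)
  · exact key _ _ (cjG2_3 F) (by decide)
  · exact key _ _ (cjG2_4 F) (by decide)
theorem sqG2_0F : eqW chevG2 gdG2.T [11, 11] [] = true := by decide +kernel
theorem sqG2_0 (F : Type*) [Field F] [CharP F 2] : W1 chevG2 F [11, 11] = 1 := (mgG2 F).W1_eq_of sqG2_0F
def gkG2_0 : List (List ℕ) := [[0, 6, 8, 9, 10, 11, 12, 13], [1, 2], [3], [4], [5], [7]]
theorem rkG2_0F : rkB chevG2 gdG2.T [11] gkG2_0 6 = true := by decide +kernel
theorem rkG2_0 (F : Type*) [Field F] [CharP F 2] : Matrix.rank (((W1 chevG2 F [11] : GL (ChevalleyDatum.Idx chevG2) F) : Matrix (ChevalleyDatum.Idx chevG2) (ChevalleyDatum.Idx chevG2) F) - 1) = 6 := (mgG2 F).rk_of_B (Cs := gkG2_0) (by decide) rkG2_0F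
theorem sqG2_1F : eqW chevG2 gdG2.T [9, 9] [] = true := by decide +kernel
theorem sqG2_1 (F : Type*) [Field F] [CharP F 2] : W1 chevG2 F [9, 9] = 1 := (mgG2 F).W1_eq_of sqG2_1F
def gkG2_1 : List (List ℕ) := [[1, 7, 8, 11, 12, 13], [0, 4], [2, 5, 9], [3, 6, 10]]
theorem rkG2_1F : rkB chevG2 gdG2.T [9] gkG2_1 6 = true := by decide +kernel
theorem rkG2_1 (F : Type*) [Field F] [CharP F 2] : Matrix.rank (((W1 chevG2 F [9] : GL (ChevalleyDatum.Idx chevG2) F) : Matrix (ChevalleyDatum.Idx chevG2) (ChevalleyDatum.Idx chevG2) F) - 1) = 6 := (mgG2 F).rk_of_B (Cs := gkG2_1) (by decide) rkG2_1F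

end CfsgLib.Chev
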