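import Cfsg.Agent.Lib.ThmA9
import Cfsg.Agent.Lib.Coprime2
import Cfsg.Agent.Lib.Invol
import Cfsg.Agent.Lib.JA1
import Cfsg.Prelude.Def_DStar
/-! The subgroup `D*(S)`. -/
set_option autoImplicit false
set_option linter.style.haveILetI false
set_option linter.unusedSectionVars false

universe u v

namespace CfsgLib.DSt
open CfsgLib.ThmA CfsgLib.CF CfsgLib.ZJ3 CfsgLib.ZJ4 CfsgLib.PSt CfsgLib.PSt2
open CfsgLib CfsgLib.Coprime CfsgLib.SylBridge
open scoped commutatorElement Pointwise

variable {G : Type u} [Group G]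

theorem class_two_of_gens {s : Set G} (h : ∀ a ∈ s, ∀ b ∈ s, ∀ c ∈ s, c * ⁅a, b⁆ = ⁅a, b⁆ * c) :
    ⁅⁅Subgroup.closure s, Subgroup.closure s⁆, Subgroup.closure s⁆ = ⊥ := by
  set K := Subgroup.closure s with hK
  have hE : ∀ z : G, (∀ c ∈ s, c * z = z * c) → ∀ k ∈ K, k * z = z * k := by
    intro z hz k hk
    have h1 : K ≤ Subgroup.centralizer ({z} : Set G) := by
      rw [hK, Subgroup.closure_le]
      intro c hc
      rw [SetLike.mem_coe, Subgroup.mem_centralizer_iff]
      intro y hy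
      rw [Set.mem_singleton_iff] at hy
      rw [hy]; exact (hz c hc).symm
    exact ((Subgroup.mem_centralizer_iff.mp (h1 hk)) z (Set.mem_singleton z)).symm
  -- step 1
  have h1 : ∀ b ∈ s, ∀ k ∈ K, ∀ c ∈ K, c * ⁅k, b⁆ = ⁅k, b⁆ * c := by
    intro b hb k hk
    induction hk using Subgroup.closure_induction with
    | mem x hx => exact hE _ (fun c hc => h x hx b hb c hc)
    | one => intro c _; simp
    | mul x y hx hy ihx ihy =>
      intro c hc
      have e1 : ⁅x * y, b⁆ = ⁅y, b⁆ * ⁅x, b⁆ := by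
        have e2 : ⁅x * y, b⁆ = x * ⁅y, b⁆ * x⁻¹ * ⁅x, b⁆ := by simp only [commutatorElement_def]; group
        rw [e2, ihy x hx, mul_assoc _ x, mul_inv_cancel, mul_one]
      rw [e1, ← mul_assoc, ihy c hc, mul_assoc, ihx c hc, mul_assoc]
    | inv x hx ih =>
      intro c hc
      have e1 : ⁅x⁻¹, b⁆ = ⁅x, b⁆⁻¹ := by
        have e2 : ⁅x⁻¹, b⁆ = x⁻¹ * ⁅x, b⁆⁻¹ * x := by simp only [commutatorElement_def]; group
        have e3 : ⁅x, b⁆⁻¹ * x = x * ⁅x, b⁆⁻¹ := by
          rw [inv_mul_eq_iff_eq_mul, ← mul_assoc, ← ih x hx, mul_assoc, mul_inv_cancel, mul_one]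
        rw [e2, mul_assoc, e3, inv_mul_cancel_left]
      rw [e1]
      have := ih c hc
      rw [mul_inv_eq_iff_eq_mul, mul_assoc, this, inv_mul_cancel_left]
  have h2 : ∀ k ∈ K, ∀ l ∈ K, ∀ c ∈ K, c * ⁅k, l⁆ = ⁅k, l⁆ * c := by
    intro k hk l hl
    induction hl using Subgroup.closure_induction with
    | mem x hx => exact h1 x hx k hk
    | one => intro c _; simp
    | mul x y hx hy ihx ihy =>
      intro c hc
      have e1 : ⁅k, x * y⁆ = ⁅k, x⁆ * ⁅k, y⁆ := by
        have e2 : ⁅k, x * y⁆ = ⁅k, x⁆ * (x * ⁅k, y⁆ * x⁻¹) := by simp only [commutatorElement_def]; group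
        rw [e2, ihy x hx, mul_assoc _ x, mul_inv_cancel, mul_one]
      rw [e1, ← mul_assoc, ihx c hc, mul_assoc, ihy c hc, mul_assoc]
    | inv x hx ih =>
      intro c hc
      have e1 : ⁅k, x⁻¹⁆ = ⁅k, x⁆⁻¹ := by
        have e2 : ⁅k, x⁻¹⁆ = x⁻¹ * ⁅k, x⁆⁻¹ * x := by simp only [commutatorElement_def]; group
        have e3 : ⁅k, x⁆⁻¹ * x = x * ⁅k, x⁆⁻¹ := by
          rw [inv_mul_eq_iff_eq_mul, ← mul_assoc, ← ih x hx, mul_assoc, mul_inv_cancel, mul_one]
        rw [e2, mul_assoc, e3, inv_mul_cancel_left]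
      rw [e1]
      have := ih c hc
      rw [mul_inv_eq_iff_eq_mul, mul_assoc, this, inv_mul_cancel_left]
  rw [eq_bot_iff, Subgroup.commutator_le]
  intro z hz c hc
  have h3 : ⁅K, K⁆ ≤ Subgroup.centralizer (K : Set G) := by
    rw [Subgroup.commutator_le]
    intro k hk l hl
    rw [Subgroup.mem_centralizer_iff]
    intro c hc
    exact h2 k hk l hl c hc
  rw [Subgroup.mem_bot, commutatorElement_eq_one_iff_mul_comm]
  exact ((Subgroup.mem_centralizer_iff.mp (h3 hz)) c hc).symm

/-- the family, inside an ambient group -/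
def DF (S : Subgroup G) : Set (Subgroup G) :=
  {A | A ≤ S ∧ (∀ a ∈ A, ∀ b ∈ A, a * b = b * a) ∧ ∀ x ∈ S,
    ⁅⁅A ⊔ Subgroup.zpowers x, A ⊔ Subgroup.zpowers x⁆, A ⊔ Subgroup.zpowers x⁆ = ⊥ → ∀ a ∈ A, a * x = x * a}

theorem DF_mono {S T A : Subgroup G} (hA : A ∈ DF S) (hTS : T ≤ S) (hAT : A ≤ T) : A ∈ DF T :=
  ⟨hAT, hA.2.1, fun x hx h => hA.2.2 x (hTS hx) h⟩

theorem DF_smul {S A : Subgroup G} (hA : A ∈ DF S) (g : G) : (MulAut.conj g • A : Subgroup G) ∈ DF (MulAut.conj g • S : Subgroup G) := by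
  refine ⟨smul_le_smul hA.1, ?_, ?_⟩
  · intro a ha b hb
    rw [mem_smul] at ha hb
    have h1 := hA.2.1 _ ha _ hb
    have h2 : g⁻¹ * (a * b) * g = g⁻¹ * (b * a) * g := by
      calc g⁻¹ * (a * b) * g = (g⁻¹ * a * g) * (g⁻¹ * b * g) := by group
        _ = (g⁻¹ * b * g) * (g⁻¹ * a * g) := h1
        _ = _ := by group
    exact mul_left_cancel (mul_right_cancel h2)
  · intro x hx h a ha
    rw [mem_smul] at hx ha
    have h1 : MulAut.conj g⁻¹ • (MulAut.conj g • A ⊔ Subgroup.zpowers x : Subgroup G) = A ⊔ Subgroup.zpowers (g⁻¹ * x * g) := by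
      rw [← map_conj_eq, Subgroup.map_sup, map_conj_eq, inv_smul_smul', MonoidHom.map_zpowers]
      congr 2
      show g⁻¹ * x * g⁻¹⁻¹ = _
      rw [inv_inv]
    have h2 := congrArg (fun K : Subgroup G => MulAut.conj g⁻¹ • K) h
    beta_reduce at h2
    rw [smul_commutator, smul_commutator, h1, smul_bot] at h2
    have h3 := hA.2.2 _ hx h2 _ ha
    have h4 : g⁻¹ * (a * x) * g = g⁻¹ * (x * a) * g := by
      calc g⁻¹ * (a * x) * g = (g⁻¹ * a * g) * (g⁻¹ * x * g) := by group
        _ = (g⁻¹ * x * g) * (g⁻¹ * a * g) := h3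
        _ = _ := by group
    exact mul_left_cancel (mul_right_cancel h4)

variable [Finite G] {p : ℕ} [hp : Fact p.Prime]

/-- a member centralizes every abelian subgroup it normalizes -/
theorem DF_centralizes {S A B : Subgroup G} (hS : IsPGroup p S) (hA : A ∈ DF S) (hBS : B ≤ S)
    (hB : ∀ a ∈ B, ∀ b ∈ B, a * b = b * a) (hAB : A ≤ Subgroup.normalizer (B : Set G)) : B ≤ Subgroup.centralizer (A : Set G) := by
  by_contra hcon
  have hfin : {U : Subgroup G | U ≤ B ∧ A ≤ Subgroup.normalizer (U : Set G) ∧ ¬ U ≤ Subgroup.centralizer (A : Set G)}.Finite := Set.toFinite _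
  obtain ⟨U, hU⟩ := hfin.exists_minimal ⟨B, le_rfl, hAB, hcon⟩
  obtain ⟨hUB, hAU, hUn⟩ := hU.1
  have hU0 : U ≠ ⊥ := by
    rintro rfl
    exact hUn bot_le
  have hUp := hS.to_le (hUB.trans hBS)
  have hlt : ⁅U, A⁆ < U := commutator_lt_of_isPGroup hUp (hS.to_le hA.1) hAU hU0
  have hAW : A ≤ Subgroup.normalizer ((⁅U, A⁆ : Subgroup G) : Set G) := by
    intro a ha
    apply mem_normalizer_of_smul_eq
    rw [smul_commutator, smul_eq_of_mem_normalizer (hAU ha), smul_eq_of_mem ha]
  have hW : ⁅U, A⁆ ≤ Subgroup.centralizer (A : Set G) := by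
    by_contra h
    have := hU.2 (y := ⁅U, A⁆) ⟨hlt.le.trans hUB, hAW, h⟩ hlt.le
    exact absurd hlt (not_lt_of_ge this)
  apply hUn
  intro x hx
  have hxS : x ∈ S := hBS (hUB hx)
  rw [Subgroup.mem_centralizer_iff]
  intro a ha
  apply hA.2.2 x hxS _ a ha
  -- class two
  have e1 : A ⊔ Subgroup.zpowers x = Subgroup.closure ((A : Set G) ∪ {x}) := by
    rw [Subgroup.closure_union, Subgroup.closure_eq, Subgroup.zpowers_eq_closure]
  rw [e1]
  apply class_two_of_gens
  have key : ∀ a ∈ A, ∀ c ∈ (A : Set G) ∪ {x}, c * ⁅x, a⁆ = ⁅x, a⁆ * c := by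
    intro a ha c hc
    have h1 : ⁅x, a⁆ ∈ ⁅U, A⁆ := Subgroup.commutator_mem_commutator hx ha
    rcases hc with hc | hc
    · exact (Subgroup.mem_centralizer_iff.mp (hW h1)) c hc
    · rw [Set.mem_singleton_iff] at hc
      rw [hc]
      exact hB x (hUB hx) _ (hUB (hlt.le h1))
  intro a ha b hb c hc
  rcases ha with ha | ha <;> rcases hb with hb | hb
  · rw [(commutatorElement_eq_one_iff_mul_comm).mpr (hA.2.1 a ha b hb)]; simp
  · rw [Set.mem_singleton_iff] at hb
    rw [hb, ← commutatorElement_inv x a]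
    have := key a ha c hc
    rw [mul_inv_eq_iff_eq_mul, mul_assoc, this, inv_mul_cancel_left]
  · rw [Set.mem_singleton_iff] at ha
    rw [ha]
    exact key b hb c hc
  · rw [Set.mem_singleton_iff] at ha hb
    rw [ha, hb, commutatorElement_self]; simp

omit [Finite G] in
/-- `D*` -/
def Dst (S : Subgroup G) : Subgroup G := sSup (DF S)

omit [Finite G] in
theorem Dst_le (S : Subgroup G) : Dst S ≤ S := sSup_le fun _ h => h.1

theorem comm_sup {W A : Subgroup G} (hW : ∀ a ∈ W, ∀ b ∈ W, a * b = b * a) (hA : ∀ a ∈ A, ∀ b ∈ A, a * b = b * a)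
    (h : W ≤ Subgroup.centralizer (A : Set G)) : ∀ a ∈ W ⊔ A, ∀ b ∈ W ⊔ A, a * b = b * a := by
  have h1 : W ⊔ A ≤ Subgroup.centralizer ((W ⊔ A : Subgroup G) : Set G) := by
    refine sup_le ?_ ?_
    · rw [Subgroup.le_centralizer_iff]
      refine sup_le ?_ ?_
      · intro a ha
        rw [Subgroup.mem_centralizer_iff]
        intro b hb
        exact hW b hb a ha
      · rw [Subgroup.le_centralizer_iff]; exact h
    · rw [Subgroup.le_centralizer_iff]
      refine sup_le h ?_
      intro a ha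
      rw [Subgroup.mem_centralizer_iff]
      intro b hb
      exact hA b hb a ha
  intro a ha b hb
  exact (Subgroup.mem_centralizer_iff.mp (h1 hb)) a ha

theorem Dst_main {S : Subgroup G} (hS : IsPGroup p S) : (∀ a ∈ Dst S, ∀ b ∈ Dst S, a * b = b * a) ∧ S ≤ Subgroup.normalizer (Dst S : Set G) := by
  have hfin : {W : Subgroup G | (∀ a ∈ W, ∀ b ∈ W, a * b = b * a) ∧ ∃ X : Set (Subgroup G), X ⊆ DF S ∧ W = sSup X}.Finite := Set.toFinite _
  obtain ⟨W, hWmax⟩ := hfin.exists_maximal ⟨⊥, by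
    refine ⟨?_, ∅, Set.empty_subset _, by rw [sSup_empty]⟩
    intro a ha b hb
    rw [Subgroup.mem_bot] at ha hb
    rw [ha, hb]⟩
  obtain ⟨hWab, X, hX, hWX⟩ := hWmax.1
  have hWS : W ≤ S := by rw [hWX]; exact sSup_le fun A hA => (hX hA).1
  have hle : ∀ A ∈ DF S, A ≤ Subgroup.normalizer (W : Set G) → A ≤ W := by
    intro A hA hAW
    have h1 := DF_centralizes hS hA hWS hWab hAW
    have h2 := hWmax.2 (y := W ⊔ A) ⟨comm_sup hWab hA.2.1 h1, insert A X, Set.insert_subset hA hX, by
      rw [sSup_insert, ← hWX, sup_comm]⟩ le_sup_left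
    exact le_sup_right.trans h2
  have hWn : W ≤ S ⊓ Subgroup.normalizer (W : Set G) := le_inf hWS Subgroup.le_normalizer
  have hSN : S ≤ Subgroup.normalizer (W : Set G) := by
    by_contra hcon
    have hne : S ⊓ Subgroup.normalizer (W : Set G) ≠ S := fun h => hcon (by rw [← h]; exact inf_le_right)
    obtain ⟨s, hsS, hsN, hs⟩ := CfsgLib.Invol.exists_mem_normalizer hS inf_le_left hne
    apply hsN
    refine ⟨hsS, ?_⟩
    have hsW : MulAut.conj s • W ≤ W := by
      rw [hWX, sSup_eq_iSup, smul_iSup]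
      refine iSup_le fun A => ?_
      rw [smul_iSup]
      refine iSup_le fun hA => ?_
      rw [← sSup_eq_iSup, ← hWX]
      have hAW : A ≤ W := by rw [hWX]; exact le_sSup hA
      have h1 : (MulAut.conj s • A : Subgroup G) ∈ DF S := by
        have := DF_smul (hX hA) s
        rwa [smul_eq_of_mem hsS] at this
      apply hle _ h1
      have h2 : MulAut.conj s • A ≤ MulAut.conj s • (S ⊓ Subgroup.normalizer (W : Set G) : Subgroup G) := smul_le_smul (hAW.trans hWn)
      rw [smul_eq_of_mem_normalizer hs] at h2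
      exact h2.trans inf_le_right
    apply mem_normalizer_of_smul_eq
    exact Subgroup.eq_of_le_of_card_ge hsW (CfsgLib.CD.card_smul _ _).ge
  have hW : Dst S = W := by
    apply le_antisymm
    · exact sSup_le fun A hA => hle A hA (hA.1.trans hSN)
    · rw [hWX]; exact sSup_le_sSup hX
  rw [hW]
  exact ⟨hWab, hSN⟩

theorem class_two_mono {K L : Subgroup G} (h : K ≤ L) (hL : ⁅⁅L, L⁆, L⁆ = ⊥) : ⁅⁅K, K⁆, K⁆ = ⊥ := by
  rw [eq_bot_iff, ← hL]
  exact Subgroup.commutator_mono (Subgroup.commutator_mono h h) h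

theorem Dst_mem {S : Subgroup G} (hS : IsPGroup p S) : Dst S ∈ DF S := by
  refine ⟨Dst_le S, (Dst_main hS).1, ?_⟩
  intro x hx h
  have h1 : Dst S ≤ Subgroup.centralizer ({x} : Set G) := by
    refine sSup_le fun A hA => ?_
    intro a ha
    rw [Subgroup.mem_centralizer_iff]
    intro y hy
    rw [Set.mem_singleton_iff] at hy
    rw [hy]
    exact (hA.2.2 x hx (class_two_mono (sup_le_sup_right (le_sSup hA) _) h) a ha).symm
  intro a ha
  exact ((Subgroup.mem_centralizer_iff.mp (h1 ha)) x (Set.mem_singleton x)).symm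

omit [Finite G] in
theorem le_Dst {S A : Subgroup G} (hA : A ∈ DF S) : A ≤ Dst S := le_sSup hA

theorem Dst_smul (S : Subgroup G) (g : G) : MulAut.conj g • Dst S = Dst (MulAut.conj g • S : Subgroup G) := by
  apply le_antisymm
  · rw [Dst, sSup_eq_iSup, smul_iSup]
    refine iSup_le fun A => ?_
    rw [smul_iSup]
    refine iSup_le fun hA => le_Dst (DF_smul hA g)
  · refine sSup_le fun A hA => ?_
    have h1 := DF_smul hA g⁻¹
    rw [inv_smul_smul'] at h1
    have h2 := smul_le_smul (g := g) (le_Dst h1)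
    rwa [smul_inv_smul'] at h2

/-- the D*-theorem -/
theorem Dst_normal (hc : Subgroup.centralizer (Cfsg.pCore p G : Set G) ≤ Cfsg.pCore p G) (hst : Stab p G) (S : Sylow p G) :
    (Dst (S : Subgroup G)).Normal := by
  classical
  set Q := Cfsg.pCore p G with hQ
  haveI hQn : Q.Normal := CfsgLib.Core.pCore_normal p G
  have hQp : IsPGroup p Q := CfsgLib.Core.pCore_isPGroup p G
  have hQS : Q ≤ (S : Subgroup G) := CfsgLib.Core.pCore_le_sylow S
  set D := Dst (S : Subgroup G) with hD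
  have hDS : D ≤ (S : Subgroup G) := Dst_le _
  have hDF : D ∈ DF (S : Subgroup G) := Dst_mem S.2
  have hDab := (Dst_main S.2).1
  have hSD : (S : Subgroup G) ≤ Subgroup.normalizer (D : Set G) := (Dst_main S.2).2
  -- D ≤ Q
  have hLQ : LP p (Subgroup.centralizer (Q : Set G)) ≤ Q := by
    apply CfsgLib.Core.le_pCore (LP_normal p _)
    intro ⟨x, hx⟩
    obtain ⟨E, -, hxE, hE⟩ := mem_LP_iff.mp hx
    obtain ⟨n, hn⟩ := hE x hxE
    obtain ⟨m, hm⟩ := hQp ⟨_, hc hn⟩
    refine ⟨n + m, ?_⟩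
    apply Subtype.ext
    have h1 : (x ^ p ^ n) ^ p ^ m = 1 := congrArg Subtype.val hm
    show x ^ p ^ (n + m) = 1
    rw [pow_add, pow_mul]; exact h1
  have hDQ : D ≤ Q := by
    intro d hd
    apply hLQ
    apply hst Q hQp d
    -- quadratic
    rw [eq_bot_iff]
    have hdD : Subgroup.zpowers d ≤ D := by rwa [Subgroup.zpowers_le]
    have h1 : ⁅Q, Subgroup.zpowers d⁆ ≤ D := by
      refine (Subgroup.commutator_mono le_rfl hdD).trans ?_
      rw [Subgroup.commutator_le]
      intro q hq e he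
      rw [commutatorElement_def]
      exact D.mul_mem ((Subgroup.mem_normalizer_iff.mp (hSD (hQS hq)) e).mp he) (D.inv_mem he)
    refine (Subgroup.commutator_mono h1 hdD).trans ?_
    rw [Subgroup.commutator_le]
    intro a ha b hb
    rw [Subgroup.mem_bot, commutatorElement_eq_one_iff_mul_comm]
    exact hDab a ha b hb
  -- the normal closure
  set E : Subgroup G := ⨆ g : G, (MulAut.conj g • D : Subgroup G) with hE
  have hEn : E.Normal := by
    rw [← Subgroup.normalizer_eq_top_iff, eq_top_iff]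
    intro g _
    apply mem_normalizer_of_smul_eq
    apply Subgroup.eq_of_le_of_card_ge
    · rw [hE, smul_iSup]
      refine iSup_le fun h => ?_
      rw [← smul_mul]
      exact le_iSup (fun g : G => (MulAut.conj g • D : Subgroup G)) (g * h)
    · exact (CfsgLib.CD.card_smul _ _).ge
  have hconj : ∀ g : G, (MulAut.conj g • D : Subgroup G) ≤ Q := by
    intro g
    have h1 := smul_le_smul (g := g) hDQ
    rwa [smul_eq_of_mem_normalizer (H := Q) (by rw [Subgroup.normalizer_eq_top_iff.2 hQn]; trivial)] at h1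
  have hEQ : E ≤ Dst Q := by
    refine iSup_le fun g => le_Dst ?_
    have h1 := DF_smul hDF g
    refine DF_mono h1 ?_ (hconj g)
    have h2 := smul_le_smul (g := g) hQS
    rwa [smul_eq_of_mem_normalizer (H := Q) (by rw [Subgroup.normalizer_eq_top_iff.2 hQn]; trivial)] at h2
  have hEab : ∀ a ∈ E, ∀ b ∈ E, a * b = b * a := fun a ha b hb => (Dst_main hQp).1 a (hEQ ha) b (hEQ hb)
  have hEQ' : E ≤ Q := hEQ.trans (Dst_le Q)
  have hEp : IsPGroup p E := hQp.to_le hEQ'
  -- E ∈ DF S
  have hEDF : E ∈ DF (S : Subgroup G) := by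
    refine ⟨hEQ'.trans hQS, hEab, ?_⟩
    intro x hx hcl
    -- x acts quadratically on E
    have hq : ⁅⁅E, Subgroup.zpowers x⁆, Subgroup.zpowers x⁆ = ⊥ := by
      rw [eq_bot_iff, ← hcl]
      exact Subgroup.commutator_mono (Subgroup.commutator_mono le_sup_left le_sup_right) le_sup_right
    have hxL := hst E hEp x hq
    set C := Subgroup.centralizer (E : Set G) with hC
    haveI hCn : C.Normal := inferInstance
    -- x centralizes each conjugate of D
    have hxD : ∀ g : G, ∀ a ∈ (MulAut.conj g • D : Subgroup G), a * x = x * a := by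
      intro g
      obtain ⟨n, hn, c, hc', hgn⟩ := exists_mul C S g
      have hcD : (MulAut.conj c • D : Subgroup G) = D := by
        apply smul_eq_of_mem_normalizer
        apply mem_normalizer_of_conj_mem
        intro d hd
        have hdE : d ∈ E := by
          have h1 : D ≤ E := by
            have h2 := le_iSup (fun g : G => (MulAut.conj g • D : Subgroup G)) 1
            beta_reduce at h2
            rwa [smul_one'] at h2
          exact h1 hd
        rw [← (Subgroup.mem_centralizer_iff.mp hc') d hdE, mul_assoc, mul_inv_cancel, mul_one]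
        exact hd
      have hgD : (MulAut.conj g • D : Subgroup G) = MulAut.conj n • D := by
        rw [hgn, smul_mul, hcD]
      rw [hgD]
      have h1 := DF_smul hDF n
      apply h1.2.2 x
      · have h2 : x ∈ (S : Subgroup G) ⊓ LP p C := ⟨hx, hxL⟩
        have h3 : (MulAut.conj n • ((S : Subgroup G) ⊓ LP p C) : Subgroup G) = (S : Subgroup G) ⊓ LP p C := smul_eq_of_mem_normalizer hn
        rw [← h3] at h2
        exact smul_le_smul inf_le_left h2
      · refine class_two_mono ?_ hcl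
        apply sup_le_sup_right
        exact le_iSup (fun g : G => (MulAut.conj g • D : Subgroup G)) n
    intro a ha
    have h4 : E ≤ Subgroup.centralizer ({x} : Set G) := by
      refine iSup_le fun g => ?_
      intro a ha
      rw [Subgroup.mem_centralizer_iff]
      intro y hy
      rw [Set.mem_singleton_iff] at hy
      rw [hy]
      exact (hxD g a ha).symm
    exact ((Subgroup.mem_centralizer_iff.mp (h4 ha)) x (Set.mem_singleton x)).symm
  have hED : E ≤ D := le_Dst hEDF
  have hDE : D ≤ E := by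
    have h2 := le_iSup (fun g : G => (MulAut.conj g • D : Subgroup G)) 1
    beta_reduce at h2
    rwa [smul_one'] at h2
  have : D = E := le_antisymm hDE hED
  rw [this]; exact hEn

omit [Finite G] hp in
theorem isMulComm_iff {A : Subgroup G} : IsMulCommutative A ↔ ∀ a ∈ A, ∀ b ∈ A, a * b = b * a := by
  constructor
  · intro h a ha b hb
    exact CfsgLib.PGrp.mul_comm_of_isMulCommutative h ha hb
  · intro h
    exact ⟨⟨fun a b => Subtype.ext (h a a.2 b b.2)⟩⟩

omit [Finite G] hp in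
theorem family_top : Cfsg.dStarFamily G = DF (⊤ : Subgroup G) := by
  ext A
  constructor
  · rintro ⟨h1, h2⟩
    exact ⟨le_top, isMulComm_iff.mp h1, fun x _ h => h2 x h⟩
  · rintro ⟨-, h1, h2⟩
    exact ⟨isMulComm_iff.mpr h1, fun x h => h2 x trivial h⟩

omit [Finite G] hp in
theorem dStar_eq : Cfsg.dStar G = Dst (⊤ : Subgroup G) := by
  rw [Cfsg.dStar, family_top, Dst]

omit [Finite G] hp in
theorem mem_DF_map {S : Subgroup G} {A : Subgroup S} : A.map S.subtype ∈ DF S ↔ A ∈ DF (⊤ : Subgroup S) := by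
  have key : ∀ x : S, (⁅⁅A ⊔ Subgroup.zpowers x, A ⊔ Subgroup.zpowers x⁆, A ⊔ Subgroup.zpowers x⁆ = ⊥) ↔
      ⁅⁅A.map S.subtype ⊔ Subgroup.zpowers (x : G), A.map S.subtype ⊔ Subgroup.zpowers (x : G)⁆, A.map S.subtype ⊔ Subgroup.zpowers (x : G)⁆ = ⊥ := by
    intro x
    have e1 : A.map S.subtype ⊔ Subgroup.zpowers (x : G) = (A ⊔ Subgroup.zpowers x).map S.subtype := by
      rw [Subgroup.map_sup, MonoidHom.map_zpowers]; rfl
    rw [e1, ← Subgroup.map_commutator, ← Subgroup.map_commutator, Subgroup.map_eq_bot_iff_of_injective _ S.subtype_injective]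
  constructor
  · rintro ⟨-, h2, h3⟩
    refine ⟨le_top, ?_, ?_⟩
    · intro a ha b hb
      exact Subtype.ext (h2 a ⟨a, ha, rfl⟩ b ⟨b, hb, rfl⟩)
    · intro x _ h a ha
      exact Subtype.ext (h3 x x.2 ((key x).mp h) a ⟨a, ha, rfl⟩)
  · rintro ⟨-, h2, h3⟩
    refine ⟨Subgroup.map_subtype_le A, ?_, ?_⟩
    · rintro _ ⟨a, ha, rfl⟩ _ ⟨b, hb, rfl⟩
      exact congrArg Subtype.val (h2 a ha b hb)
    · rintro x hx h _ ⟨a, ha, rfl⟩
      exact congrArg Subtype.val (h3 ⟨x, hx⟩ trivial ((key ⟨x, hx⟩).mpr h) a ha)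

omit [Finite G] hp in
theorem dStarOf_eq (S : Subgroup G) : Cfsg.dStarOf S = Dst S := by
  rw [Cfsg.dStarOf, dStar_eq]
  apply le_antisymm
  · rw [Dst, sSup_eq_iSup, Subgroup.map_iSup]
    refine iSup_le fun A => ?_
    rw [Subgroup.map_iSup]
    refine iSup_le fun hA => ?_
    exact le_Dst (mem_DF_map.mpr hA)
  · refine sSup_le fun A hA => ?_
    have h1 : (A.subgroupOf S).map S.subtype = A := Subgroup.map_subgroupOf_eq_of_le hA.1
    rw [← h1] at hA ⊢
    exact Subgroup.map_mono (le_Dst (mem_DF_map.mp hA))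

theorem s3061 (hG : IsPGroup p G) : Cfsg.dStar G ∈ Cfsg.dStarFamily G := by
  rw [dStar_eq, family_top]
  exact Dst_mem (p := p) (hG.to_subgroup _)

theorem s3062 (hG : IsPGroup p G) : Subgroup.center G ≤ Cfsg.dStar G ∧
    Cfsg.dStar G ≤ Cfsg.thompsonSubgroupA G ⊓ Subgroup.centralizer (Cfsg.thompsonSubgroupA G : Set G) ∧
    ∀ A : Subgroup G, A.Normal → IsMulCommutative A →
      (∀ B : Subgroup G, B.Normal → IsMulCommutative B → A ≤ B → B = A) → Cfsg.dStar G ≤ A := by
  have hS : IsPGroup p (⊤ : Subgroup G) := hG.to_subgroup _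
  obtain ⟨hDab, hDn⟩ := Dst_main hS
  have hD := Dst_mem hS
  rw [dStar_eq]
  set D := Dst (⊤ : Subgroup G) with hDdef
  refine ⟨?_, ?_, ?_⟩
  · apply le_Dst
    refine ⟨le_top, ?_, ?_⟩
    · intro a ha b _
      exact ((Subgroup.mem_center_iff.mp ha) b).symm
    · intro x _ _ a ha
      exact ((Subgroup.mem_center_iff.mp ha) x).symm
  · rw [CfsgLib.JA.JA_top_eq]
    have hA : ∀ A ∈ MA 0 (⊤ : Subgroup G), A ≤ Subgroup.centralizer (D : Set G) := by
      by_contra hcon
      push Not at hcon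
      obtain ⟨A, hA, hAD, hDA⟩ := CfsgLib.JA.exists_quadratic (Q := Subgroup.centralizer (D : Set G)) hS (le_top : D ≤ ⊤) hDab (by
        intro x hx y hy
        exact (Subgroup.mem_centralizer_iff.mp hy) x hx) hDn hcon
      apply hAD
      have hAab := isMulComm_iff.mp hA.2.1.1
      intro x hx
      rw [Subgroup.mem_centralizer_iff]
      intro d hd
      apply hD.2.2 x trivial _ d hd
      have e1 : D ⊔ Subgroup.zpowers x = Subgroup.closure ((D : Set G) ∪ {x}) := by
        rw [Subgroup.closure_union, Subgroup.closure_eq, Subgroup.zpowers_eq_closure]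
      rw [e1]
      apply class_two_of_gens
      have key : ∀ d ∈ D, ∀ c ∈ (D : Set G) ∪ {x}, c * ⁅d, x⁆ = ⁅d, x⁆ * c := by
        intro d hd c hc
        have h1 : ⁅d, x⁆ ∈ D := by
          rw [commutatorElement_def, mul_assoc, mul_assoc, ← mul_assoc x]
          exact D.mul_mem hd ((Subgroup.mem_normalizer_iff.mp (hDn (Subgroup.mem_top x)) _).mp (D.inv_mem hd))
        have h2 : ⁅d, x⁆ ∈ A := by
          rw [commutatorElement_def]
          exact A.mul_mem ((Subgroup.mem_normalizer_iff.mp (hDA hd) x).mp hx) (A.inv_mem hx)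
        rcases hc with hc | hc
        · exact hDab c hc _ h1
        · rw [Set.mem_singleton_iff] at hc
          rw [hc]
          exact hAab x hx _ h2
      intro a ha b hb c hc
      rcases ha with ha | ha <;> rcases hb with hb | hb
      · rw [(commutatorElement_eq_one_iff_mul_comm).mpr (hDab a ha b hb)]; simp
      · rw [Set.mem_singleton_iff] at hb
        rw [hb]
        exact key a ha c hc
      · rw [Set.mem_singleton_iff] at ha
        rw [ha, ← commutatorElement_inv b x]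
        have := key b hb c hc
        rw [mul_inv_eq_iff_eq_mul, mul_assoc, this, inv_mul_cancel_left]
      · rw [Set.mem_singleton_iff] at ha hb
        rw [ha, hb, commutatorElement_self]; simp
    refine le_inf ?_ ?_
    · obtain ⟨A, hA'⟩ := MA_nonempty 0 (⊤ : Subgroup G)
      refine le_trans ?_ (CfsgLib.JA.le_JA hA')
      intro d hd
      refine mem_of_MA hA' (Subgroup.mem_top d) ?_ (pow_zero d)
      intro a ha
      exact ((Subgroup.mem_centralizer_iff.mp (hA A hA' ha)) d hd).symm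
    · rw [Subgroup.le_centralizer_iff]
      exact sSup_le fun A hA' => hA A hA'
  · intro A hAn hAab hAmax
    have hAab' := isMulComm_iff.mp hAab
    have h1 := DF_centralizes hS hD (le_top : A ≤ ⊤) hAab' (by rw [Subgroup.normalizer_eq_top_iff.2 hAn]; exact le_top)
    have hDnorm : D.Normal := Subgroup.normalizer_eq_top_iff.mp (top_le_iff.mp hDn)
    have h2 := hAmax (A ⊔ D) inferInstance (isMulComm_iff.mpr (comm_sup hAab' hDab h1)) le_sup_left
    rw [← h2]; exact le_sup_right

end CfsgLib.DSt
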