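import Mathlib

/-!
# Galois descent (Hilbert 90) for `GL_n` over a cyclic extension; surjectivity of the norm for finite fields.
-/

set_option autoImplicit false

namespace CfsgLib.Descent

open Matrix

variable {F : Type*} [Field F]

theorem pow_fixed (σ : RingAut F) {l : F} (hl : σ l = l) (i : ℕ) : (σ ^ i) l = l := by
  induction i with
  | zero => rfl
  | succ i ih => rw [pow_succ]; show (σ ^ i) (σ l) = l; rw [hl, ih]

/-- the norm of a finite field over the fixed field of an automorphism is surjective -/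
theorem exists_nrm [Finite F] (σ : RingAut F) {l : F} (hl : σ l = l) :
    ∃ m : F, ∏ i ∈ Finset.range (orderOf σ), (σ ^ i) m = l := by
  classical
  have hfin : Finite (RingAut F) := Finite.of_injective (fun σ : RingAut F => (σ : F → F)) DFunLike.coe_injective
  have hof : IsOfFinOrder σ := isOfFinOrder_of_finite σ
  let G := Subgroup.zpowers σ
  have hff : FaithfulSMul G F := by
    refine ⟨fun {g h} hgh => ?_⟩
    apply Subtype.ext
    apply RingEquiv.ext
    intro x
    exact hgh x
  let K := FixedPoints.subfield G F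
  have hlK : l ∈ K := by
    rintro ⟨g, hg⟩
    obtain ⟨i, _, rfl⟩ := hof.mem_zpowers_iff_mem_range_orderOf.1 hg |> Finset.mem_image.1
    exact pow_fixed σ hl i
  obtain ⟨m, hm⟩ := FiniteField.norm_surjective K F ⟨l, hlK⟩
  refine ⟨m, ?_⟩
  have h1 := congrArg (algebraMap K F) hm
  have : Fintype G := Fintype.ofFinite G
  rw [Algebra.norm_eq_prod_automorphisms, ← (FixedPoints.toAlgAutMulEquiv G F).toEquiv.prod_comp,
    ← (finEquivZPowers hof).prod_comp] at h1
  rw [← Fin.prod_univ_eq_prod_range (fun i => (σ ^ i) m) (orderOf σ)]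
  exact h1

variable {n : ℕ}

/-- `σ` applied to the entries of a matrix -/
theorem map_mulVec (σ : RingAut F) (g : Matrix (Fin n) (Fin n) F) (v : Fin n → F) :
    (fun i => σ ((g *ᵥ v) i)) = g.map σ *ᵥ (fun i => σ (v i)) := by
  ext i
  simp only [mulVec, dotProduct, map_sum, map_mul, Matrix.map_apply]

/-- partial norms -/
def nm (σ : RingAut F) (g : Matrix (Fin n) (Fin n) F) : ℕ → Matrix (Fin n) (Fin n) F
  | 0 => 1
  | (i + 1) => g * (nm σ g i).map σ

theorem nm_succ' (σ : RingAut F) (g : Matrix (Fin n) (Fin n) F) (i : ℕ) :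
    nm σ g (i + 1) = nm σ g i * g.map (σ ^ i) := by
  induction i with
  | zero =>
    show g * (1 : Matrix (Fin n) (Fin n) F).map σ = 1 * g.map ⇑(σ ^ 0 : RingAut F)
    rw [Matrix.map_one _ (map_zero σ) (map_one σ), mul_one, one_mul]
    ext i j; rfl
  | succ i ih =>
    have e1 : ∀ A B : Matrix (Fin n) (Fin n) F, (A * B).map σ = A.map σ * B.map σ := fun A B => Matrix.map_mul (f := (σ : F →+* F))
    have e2 : (g.map (σ ^ i)).map σ = g.map (σ ^ (i + 1)) := by
      rw [pow_succ']
      ext i j; rfl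
    show g * (nm σ g (i + 1)).map σ = (g * (nm σ g i).map σ) * g.map (σ ^ (i + 1))
    rw [ih, e1, e2, mul_assoc]

theorem nm_smul (σ : RingAut F) (c : F) (g : Matrix (Fin n) (Fin n) F) (i : ℕ) :
    nm σ (c • g) i = (∏ j ∈ Finset.range i, (σ ^ j) c) • nm σ g i := by
  induction i with
  | zero => show (1 : Matrix (Fin n) (Fin n) F) = _ • 1; simp
  | succ i ih =>
    rw [nm_succ', nm_succ', ih, Finset.prod_range_succ]
    have : (c • g).map (σ ^ i) = (σ ^ i) c • g.map (σ ^ i) := by
      ext a b; simp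
    rw [this, Matrix.smul_mul, Matrix.mul_smul, smul_smul]

/-- **Galois descent** -/
theorem descent (σ : RingAut F) (hσ : IsOfFinOrder σ) (g : Matrix (Fin n) (Fin n) F)
    (hg : nm σ g (orderOf σ) = 1) : ∃ h : GL (Fin n) F, g * h.1.map σ = h.1 := by
  classical
  set r := orderOf σ with hr
  have hr0 : 0 < r := orderOf_pos_iff.2 hσ
  -- the fixed vectors
  let S : Set (Fin n → F) := {w | g *ᵥ (fun i => σ (w i)) = w}
  have hfix : ∀ (v : Fin n → F) (c : F), (∑ i ∈ Finset.range r, (σ ^ i) c • (nm σ g i *ᵥ (fun k => (σ ^ i) (v k)))) ∈ S := by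
    intro v c
    show g *ᵥ (fun k => σ ((∑ i ∈ Finset.range r, (σ ^ i) c • (nm σ g i *ᵥ (fun k => (σ ^ i) (v k)))) k)) = _
    have h1 : (fun k => σ ((∑ i ∈ Finset.range r, (σ ^ i) c • (nm σ g i *ᵥ (fun k => (σ ^ i) (v k)))) k)) =
        ∑ i ∈ Finset.range r, (σ ^ (i + 1)) c • ((nm σ g i).map σ *ᵥ (fun k => (σ ^ (i + 1)) (v k))) := by
      ext k
      rw [Finset.sum_apply, Finset.sum_apply, map_sum]
      apply Finset.sum_congr rfl
      intro i _
      rw [Pi.smul_apply, Pi.smul_apply, smul_eq_mul, smul_eq_mul, map_mul]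
      have h2 := congrFun (map_mulVec σ (nm σ g i) (fun k => (σ ^ i) (v k))) k
      have h3 : ∀ x, σ ((σ ^ i) x) = (σ ^ (i + 1)) x := fun x => by rw [pow_succ']; rfl
      simp only [h3] at h2
      rw [h2, h3]
    rw [h1, mulVec_sum]
    have h2 : ∀ i, g *ᵥ ((σ ^ (i + 1)) c • ((nm σ g i).map σ *ᵥ (fun k => (σ ^ (i + 1)) (v k)))) =
        (σ ^ (i + 1)) c • (nm σ g (i + 1) *ᵥ (fun k => (σ ^ (i + 1)) (v k))) := by
      intro i
      rw [mulVec_smul, mulVec_mulVec]
      rfl
    simp only [h2]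
    have h3 := Finset.sum_range_succ' (fun i => (σ ^ i) c • (nm σ g i *ᵥ (fun k => (σ ^ i) (v k)))) r
    have h4 := Finset.sum_range_succ (fun i => (σ ^ i) c • (nm σ g i *ᵥ (fun k => (σ ^ i) (v k)))) r
    rw [h3] at h4
    have h5 : (σ ^ r) c • (nm σ g r *ᵥ (fun k => (σ ^ r) (v k))) = (σ ^ 0) c • (nm σ g 0 *ᵥ (fun k => (σ ^ 0) (v k))) := by
      rw [hg, hr, pow_orderOf_eq_one, pow_zero]
      rfl
    rw [h5] at h4
    exact add_right_cancel h4
  have hspan : Submodule.span F S = ⊤ := by
    by_contra hne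
    obtain ⟨f, hf0, hf⟩ := Submodule.exists_le_ker_of_lt_top _ (lt_top_iff_ne_top.2 hne)
    apply hf0
    apply LinearMap.ext
    intro v
    -- independence of characters
    have hind : LinearIndependent F (fun i : Fin r => (fun x : F => (σ ^ (i : ℕ)) x)) := by
      have h1 := linearIndependent_monoidHom F F
      let φ : Fin r → (F →* F) := fun i => ((σ ^ (i : ℕ) : RingAut F) : F →+* F).toMonoidHom
      have hinj : Function.Injective φ := by
        intro i j hij
        have h2 : σ ^ (i : ℕ) = σ ^ (j : ℕ) := RingEquiv.ext fun x => DFunLike.congr_fun hij x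
        exact Fin.ext (pow_injOn_Iio_orderOf (x := σ) i.2 j.2 h2)
      exact h1.comp φ hinj
    have h2 : ∑ i : Fin r, f (nm σ g i *ᵥ (fun k => (σ ^ (i : ℕ)) (v k))) • (fun x : F => (σ ^ (i : ℕ)) x) = 0 := by
      ext c
      rw [Finset.sum_apply]
      have h3 := hf (Submodule.subset_span (hfix v c))
      rw [LinearMap.mem_ker, map_sum, ← Fin.sum_univ_eq_sum_range (fun i => f ((σ ^ i) c • (nm σ g i *ᵥ (fun k => (σ ^ i) (v k))))) r] at h3
      rw [Pi.zero_apply, ← h3]
      apply Finset.sum_congr rfl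
      intro i _
      rw [Pi.smul_apply, smul_eq_mul, map_smul, smul_eq_mul, mul_comm]
    have h4 := Fintype.linearIndependent_iff.1 hind _ h2 ⟨0, hr0⟩
    have h5 : nm σ g ((⟨0, hr0⟩ : Fin r) : ℕ) *ᵥ (fun k => (σ ^ ((⟨0, hr0⟩ : Fin r) : ℕ)) (v k)) = v := by
      show (1 : Matrix (Fin n) (Fin n) F) *ᵥ (fun k => (σ ^ 0) (v k)) = v
      rw [one_mulVec, pow_zero]; rfl
    rw [h5] at h4
    exact h4
  let b := Module.Basis.ofSpan hspan.ge
  have hbS : ∀ i, b i ∈ S := fun i => Module.Basis.ofSpan_subset hspan.ge ⟨i, rfl⟩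
  have hcard : Module.finrank F (Fin n → F) = n := Module.finrank_fin_fun F
  have hfin : Finite (hspan.ge |> fun h => ((linearIndepOn_empty F id).extend (Set.empty_subset S) : Set (Fin n → F))) :=
    Module.Finite.finite_basis b
  have : Fintype _ := Fintype.ofFinite (hspan.ge |> fun h => ((linearIndepOn_empty F id).extend (Set.empty_subset S) : Set (Fin n → F)))
  have hc : Fintype.card (hspan.ge |> fun h => ((linearIndepOn_empty F id).extend (Set.empty_subset S) : Set (Fin n → F))) = n := by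
    rw [← Module.finrank_eq_card_basis b, hcard]
  let b' := b.reindex (Fintype.equivFinOfCardEq hc)
  have hb'S : ∀ i, b' i ∈ S := fun i => by
    rw [Module.Basis.reindex_apply]
    exact hbS _
  let A : Matrix (Fin n) (Fin n) F := Matrix.of fun i j => b' j i
  have hA : IsUnit A := by
    have h1 : A = (Pi.basisFun F (Fin n)).toMatrix b' := by
      ext i j
      simp [A, Module.Basis.toMatrix_apply]
    rw [h1]
    have := (Pi.basisFun F (Fin n)).invertibleToMatrix b'
    exact isUnit_of_invertible _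
  obtain ⟨h, hh⟩ := hA
  refine ⟨h, ?_⟩
  rw [hh]
  ext i j
  have h1 := congrFun (hb'S j) i
  rw [mul_apply]
  exact h1

end CfsgLib.Descent
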