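import Cfsg.Agent.Lib.TW12
set_option autoImplicit false
set_option linter.style.haveILetI false

/-! Kernel evaluation of words in root elements modulo `p`. -/

namespace CfsgLib.Chev.EV
open Cfsg.Lie Matrix CfsgLib.Chev CfsgLib.Chev.GA

abbrev SN := List (ℕ × ℕ)

noncomputable def coefN (c : ℕ) (v : SN) : ℕ :=
  List.rec (motive := fun _ => ℕ) 0 (fun p _ ih => Bool.rec ih (Nat.add p.2 ih) (Nat.beq p.1 c)) v

theorem coefN_nil (c : ℕ) : coefN c [] = 0 := rfl

theorem coefN_cons (c : ℕ) (p : ℕ × ℕ) (v : SN) : coefN c (p :: v) = (if p.1 = c then p.2 else 0) + coefN c v := by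
  change Bool.rec (motive := fun _ => ℕ) (coefN c v) (Nat.add p.2 (coefN c v)) (Nat.beq p.1 c) = _
  by_cases h : p.1 = c
  · have : Nat.beq p.1 c = true := by rw [Nat.beq_eq]; exact h
    rw [this, if_pos h]; rfl
  · have : Nat.beq p.1 c = false := by
      rw [← Bool.not_eq_true, Nat.beq_eq]; exact h
    rw [this, if_neg h, zero_add]

/-- residue of an integer -/
def toN (p : ℕ) (b : ℤ) : ℕ := (b % (p : ℤ)).toNat

noncomputable def addC (p a : ℕ) (v : SV) (w : SN) : SN :=
  List.rec (motive := fun _ => SN) w (fun q _ ih => (q.1, Nat.mul a (toN p q.2)) :: ih) v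

variable (D : ChevalleyDatum) (T : Tab)

/-- action of a root element -/
noncomputable def actN (p r t : ℕ) (u : SN) : SN :=
  List.rec (motive := fun _ => SN) [] (fun q _ ih => (q.1, q.2) :: addC p (Nat.mul t q.2) (br1 D T (D.rank + r) q.1)
    (addC p (Nat.mul (Nat.mul t t) q.2) (br2 T (D.rank + r) q.1)
      (addC p (Nat.mul (Nat.mul (Nat.mul t t) t) q.2) (br3 T (D.rank + r) q.1) ih))) u

/-- normalisation -/
noncomputable def nrmA (p : ℕ) (v : SN) (n : ℕ) : SN → SN :=
  Nat.rec (motive := fun _ => SN → SN) (fun acc => acc)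
    (fun j ih acc => Bool.rec (ih ((j, coefN j v % p) :: acc)) (ih acc) (Nat.beq (coefN j v % p) 0)) n

noncomputable def nrmK {α : Type} (p : ℕ) (v : SN) (n : ℕ) (k : SN → α) : SN → α :=
  Nat.rec (motive := fun _ => SN → α) k
    (fun j ih acc => force (Nat.mod (coefN j v) p) fun c => Bool.rec (ih ((j, c) :: acc)) (ih acc) (Nat.beq c 0)) n

theorem nrmK_eq {α : Type} (p : ℕ) (v : SN) (n : ℕ) (k : SN → α) (acc : SN) : nrmK p v n k acc = k (nrmA p v n acc) := by
  induction n generalizing acc with
  | zero => rfl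
  | succ n ih =>
    change force (Nat.mod (coefN n v) p) (fun c => Bool.rec (nrmK p v n k ((n, c) :: acc)) (nrmK p v n k acc) (Nat.beq c 0)) =
      k (Bool.rec (nrmA p v n ((n, coefN n v % p) :: acc)) (nrmA p v n acc) (Nat.beq (coefN n v % p) 0))
    rw [force_eq]
    change (Bool.rec (nrmK p v n k ((n, coefN n v % p) :: acc)) (nrmK p v n k acc) (Nat.beq (coefN n v % p) 0) : α) = _
    rcases Nat.beq (coefN n v % p) 0 with _ | _
    · exact ih _
    · exact ih _

theorem coefN_nrmA (p : ℕ) (v : SN) (n : ℕ) (acc : SN) (z : ℕ) :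
    coefN z (nrmA p v n acc) = (if z < n then coefN z v % p else 0) + coefN z acc := by
  induction n generalizing acc with
  | zero => simp [nrmA]
  | succ n ih =>
    change coefN z (Bool.rec (nrmA p v n ((n, coefN n v % p) :: acc)) (nrmA p v n acc) (Nat.beq (coefN n v % p) 0)) = _
    rcases hb : Nat.beq (coefN n v % p) 0 with _ | _
    · change coefN z (nrmA p v n ((n, coefN n v % p) :: acc)) = _
      rw [ih, coefN_cons]
      by_cases h1 : z < n
      · have hne : ¬ n = z := by omega
        have hlt : z < n + 1 := by omega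
        rw [if_pos h1, if_pos hlt, if_neg hne]; omega
      · rw [if_neg h1]
        by_cases h2 : n = z
        · subst h2
          rw [if_pos rfl, if_pos (by omega)]; omega
        · have hlt : ¬ z < n + 1 := by omega
          rw [if_neg h2, if_neg hlt]; omega
    · change coefN z (nrmA p v n acc) = _
      rw [ih]
      by_cases h1 : z < n
      · rw [if_pos h1, if_pos (by omega)]
      · rw [if_neg h1]
        by_cases h2 : z = n
        · subst h2
          rw [if_pos (by omega)]
          have := Nat.eq_of_beq_eq_true hb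
          rw [this]
        · rw [if_neg (by omega)]

theorem keys_nrmA (p : ℕ) (v : SN) (n m : ℕ) (acc : SN) (hm : n ≤ m) (hacc : ∀ q ∈ acc, q.1 < m) :
    ∀ q ∈ nrmA p v n acc, q.1 < m := by
  induction n generalizing acc with
  | zero => exact hacc
  | succ n ih =>
    change ∀ q ∈ (Bool.rec (nrmA p v n ((n, coefN n v % p) :: acc)) (nrmA p v n acc) (Nat.beq (coefN n v % p) 0) : SN), q.1 < m
    rcases Nat.beq (coefN n v % p) 0 with _ | _
    · apply ih _ (by omega)
      intro q hq
      rcases List.mem_cons.mp hq with rfl | hq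
      · change n < m; omega
      · exact hacc q hq
    · exact ih _ (by omega) hacc

/-- evaluation of a word -/
noncomputable def evN (p n : ℕ) (W : List (ℕ × ℕ)) (v : SN) : SN :=
  List.rec (motive := fun _ => SN) v (fun q _ ih => nrmA p (actN D T p q.1 q.2 ih) n []) W

noncomputable def evK {α : Type} (p n : ℕ) (W : List (ℕ × ℕ)) (v : SN) : (SN → α) → α :=
  List.rec (motive := fun _ => (SN → α) → α) (fun k => k v)
    (fun q _ ih k => ih fun u => nrmK p (actN D T p q.1 q.2 u) n k []) W

theorem evK_eq {α : Type} (p n : ℕ) (W : List (ℕ × ℕ)) (v : SN) (k : SN → α) : evK D T p n W v k = k (evN D T p n W v) := by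
  induction W generalizing k with
  | nil => rfl
  | cons q W ih =>
    change evK D T p n W v (fun u => nrmK p (actN D T p q.1 q.2 u) n k []) = _
    rw [ih, nrmK_eq]
    rfl

/-- comparison of two words -/
noncomputable def wEq (p : ℕ) (W W' : List (ℕ × ℕ)) : Bool :=
  (W.all fun q => decide (q.1 < D.nroots)) && (W'.all fun q => decide (q.1 < D.nroots)) &&
  ball (dim D) fun c => evK D T p (dim D) W [(c, 1)] fun u => evK D T p (dim D) W' [(c, 1)] fun u' => decide (u = u')

section sem
variable {D T} {K : Type*} [Field K] {p : ℕ} (hp : (p : K) = 0)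

/-- the vector attached to a list -/
noncomputable def vecN (K : Type*) [Field K] (D : ChevalleyDatum) (u : SN) : D.Idx → K := fun x => ((coefN (code D x) u : ℕ) : K)

include hp

theorem toN_cast (hp0 : p ≠ 0) (b : ℤ) : ((toN p b : ℕ) : K) = (b : K) := by
  unfold toN
  have h1 : (0 : ℤ) ≤ b % (p : ℤ) := Int.emod_nonneg _ (by exact_mod_cast hp0)
  have h2 : (((b % (p : ℤ)).toNat : ℤ) : K) = ((b % (p : ℤ) : ℤ) : K) := by rw [Int.toNat_of_nonneg h1]
  rw [Int.cast_natCast] at h2
  rw [h2]
  conv_rhs => rw [← Int.emod_add_mul_ediv b p]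
  push_cast
  rw [hp]; ring

theorem coefN_addC (hp0 : p ≠ 0) (z a : ℕ) (v : SV) (w : SN) :
    ((coefN z (addC p a v w) : ℕ) : K) = (a : K) * ((coef z v : ℤ) : K) + ((coefN z w : ℕ) : K) := by
  induction v with
  | nil => simp [addC]
  | cons q v ih =>
    change ((coefN z ((q.1, Nat.mul a (toN p q.2)) :: addC p a v w) : ℕ) : K) = _
    rw [coefN_cons, coef_cons]
    by_cases h : q.1 = z
    · rw [if_pos h, if_pos h]
      change ((a * toN p q.2 + coefN z (addC p a v w) : ℕ) : K) = _
      rw [Nat.cast_add, ih, Nat.cast_mul, toN_cast hp hp0]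
      push_cast; ring
    · rw [if_neg h, if_neg h]
      simp only [zero_add]
      exact ih

theorem XR_mulVec (hp0 : p ≠ 0) (r t : ℕ) (u : SN) (hu : ∀ q ∈ u, q.1 < dim D) :
    XR D T K r (t : K) *ᵥ vecN K D u = vecN K D (actN D T p r t u) := by
  classical
  induction u with
  | nil =>
    have : vecN K D [] = 0 := by
      funext x
      change ((0 : ℕ) : K) = 0
      simp
    rw [this, Matrix.mulVec_zero]
    exact this.symm
  | cons q u ih =>
    have ih := ih (fun q hq => hu q (List.mem_cons_of_mem _ hq))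
    obtain ⟨y, hy⟩ := exists_code D (hu q (by simp))
    have h1 : vecN K D (q :: u) = (q.2 : K) • Pi.single y (1 : K) + vecN K D u := by
      funext x
      change ((coefN (code D x) (q :: u) : ℕ) : K) = (q.2 : K) * (Pi.single y (1 : K) : D.Idx → K) x + ((coefN (code D x) u : ℕ) : K)
      rw [coefN_cons, Nat.cast_add]
      congr 1
      by_cases h : x = y
      · subst h
        rw [if_pos hy.symm, Pi.single_eq_same, mul_one]
      · rw [if_neg, Pi.single_eq_of_ne h, mul_zero, Nat.cast_zero]
        intro h'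
        exact h (code_inj D (by rw [hy, h']))
    rw [h1, Matrix.mulVec_add, Matrix.mulVec_smul, Matrix.mulVec_single_one, ih]
    funext x
    rw [Pi.add_apply, Pi.smul_apply, smul_eq_mul]
    change (q.2 : K) * XR D T K r (t : K) x y + ((coefN (code D x) (actN D T p r t u) : ℕ) : K) =
      ((coefN (code D x) ((q.1, q.2) :: addC p (Nat.mul t q.2) (br1 D T (D.rank + r) q.1)
    (addC p (Nat.mul (Nat.mul t t) q.2) (br2 T (D.rank + r) q.1)
      (addC p (Nat.mul (Nat.mul (Nat.mul t t) t) q.2) (br3 T (D.rank + r) q.1) (actN D T p r t u)))) : ℕ) : K)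
    rw [coefN_cons, Nat.cast_add, coefN_addC hp hp0, coefN_addC hp hp0, coefN_addC hp hp0, XR_apply, hy]
    have e : ((if q.1 = code D x then q.2 else 0 : ℕ) : K) = (q.2 : K) * (if x = y then 1 else 0) := by
      by_cases h : x = y
      · subst h
        rw [if_pos hy.symm, if_pos rfl, mul_one]
      · rw [if_neg h, if_neg, Nat.cast_zero, mul_zero]
        intro h'
        exact h (code_inj D (by rw [hy, h']))
    rw [e]
    have m1 : ((Nat.mul t q.2 : ℕ) : K) = (t : K) * q.2 := Nat.cast_mul t q.2
    have m2 : ((Nat.mul (Nat.mul t t) q.2 : ℕ) : K) = (t : K) * t * q.2 := by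
      change ((t * t * q.2 : ℕ) : K) = _
      push_cast; ring
    have m3 : ((Nat.mul (Nat.mul (Nat.mul t t) t) q.2 : ℕ) : K) = (t : K) * t * t * q.2 := by
      change ((t * t * t * q.2 : ℕ) : K) = _
      push_cast; ring
    rw [m1, m2, m3]
    ring

theorem vecN_nrm (u : SN) : vecN K D (nrmA p u (dim D) []) = vecN K D u := by
  funext x
  change ((coefN (code D x) (nrmA p u (dim D) []) : ℕ) : K) = ((coefN (code D x) u : ℕ) : K)
  rw [coefN_nrmA, if_pos (code_lt D x), coefN_nil, add_zero]
  conv_rhs => rw [← Nat.mod_add_div (coefN (code D x) u) p]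
  push_cast
  rw [hp]; ring

end sem

section word
variable {D} {K : Type*} [Field K] (M : CG D K) {p : ℕ} (hp : (p : K) = 0)

/-- a word with natural coefficients in the field -/
def castW (K : Type*) [Field K] (W : List (ℕ × ℕ)) : List (ℕ × K) := W.map fun q => (q.1, (q.2 : K))

include M hp

theorem wg_mulVec (hp0 : p ≠ 0) (W : List (ℕ × ℕ)) (hW : ∀ q ∈ W, q.1 < D.nroots) (u : SN) (hu : ∀ q ∈ u, q.1 < dim D) :
    (wg D (castW K W) : Matrix D.Idx D.Idx K) *ᵥ vecN K D u = vecN K D (evN D M.T p (dim D) W u) ∧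
      ∀ q ∈ evN D M.T p (dim D) W u, q.1 < dim D := by
  induction W with
  | nil =>
    refine ⟨?_, hu⟩
    change (1 : Matrix D.Idx D.Idx K) *ᵥ vecN K D u = vecN K D u
    rw [Matrix.one_mulVec]
  | cons q W ih =>
    obtain ⟨h1, h2⟩ := ih (fun q hq => hW q (List.mem_cons_of_mem _ hq))
    constructor
    · change ((xg D q.1 (q.2 : K) * wg D (castW K W) : GL D.Idx K) : Matrix D.Idx D.Idx K) *ᵥ vecN K D u =
        vecN K D (nrmA p (actN D M.T p q.1 q.2 (evN D M.T p (dim D) W u)) (dim D) [])
      rw [Units.val_mul, ← Matrix.mulVec_mulVec, h1, vecN_nrm hp, M.coe_xg, M.N.x_eq (hW q (by simp)),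
        XR_mulVec hp hp0 _ _ _ h2]
    · exact keys_nrmA _ _ _ _ _ le_rfl (by simp)

theorem wg_eq_of_wEq (hp0 : p ≠ 0) {W W' : List (ℕ × ℕ)} (h : wEq D M.T p W W' = true) : wg D (castW K W) = wg D (castW K W') := by
  classical
  unfold wEq at h
  obtain ⟨h12, h3⟩ := and_true h
  obtain ⟨h1, h2⟩ := and_true h12
  rw [List.all_eq_true] at h1 h2
  have h4 := ball_spec h3
  apply Units.ext
  apply Matrix.ext_of_mulVec_single
  intro y
  have h5 := h4 (code D y) (code_lt D y)
  rw [evK_eq, evK_eq] at h5
  have h6 := of_decide_eq_true h5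
  have hs : (Pi.single y (1 : K) : D.Idx → K) = vecN K D [(code D y, 1)] := by
    funext x
    change _ = ((coefN (code D x) [(code D y, 1)] : ℕ) : K)
    rw [coefN_cons, coefN_nil]
    by_cases hxy : x = y
    · subst hxy; simp
    · rw [Pi.single_eq_of_ne hxy, if_neg (fun h' => hxy (code_inj D h').symm)]; simp
  have hk : ∀ q ∈ [(code D y, 1)], q.1 < dim D := by
    intro q hq
    rw [List.mem_singleton] at hq
    subst hq
    exact code_lt D y
  rw [hs, (wg_mulVec M hp hp0 W (fun q hq => of_decide_eq_true (h1 q hq)) _ hk).1,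
    (wg_mulVec M hp hp0 W' (fun q hq => of_decide_eq_true (h2 q hq)) _ hk).1, h6]

end word

end CfsgLib.Chev.EV
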