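import Cfsg.Agent.Lib.EV1
set_option autoImplicit false
set_option linter.style.haveILetI false

/-! Words for the monomial elements. -/

namespace CfsgLib.Chev.EV
open Cfsg.Lie Matrix CfsgLib.Chev CfsgLib.Chev.GA

variable {D : ChevalleyDatum} {K : Type*} [Field K] (M : CG D K) {p : ℕ} (hp : (p : K) = 0)

theorem castW_append (W W' : List (ℕ × ℕ)) : castW K (W ++ W') = castW K W ++ castW K W' := List.map_append

theorem wg_cast_append (W W' : List (ℕ × ℕ)) : wg D (castW K (W ++ W')) = wg D (castW K W) * wg D (castW K W') := by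
  rw [castW_append, wg_append]

theorem wg_cast_nil : wg D (castW K []) = 1 := rfl

/-- the word of a monomial element -/
def niW (D : ChevalleyDatum) (p i : ℕ) : List (ℕ × ℕ) := [(D.simple i, 1), (D.neg (D.simple i), p - 1), (D.simple i, 1)]

def nlW (D : ChevalleyDatum) (p : ℕ) : List ℕ → List (ℕ × ℕ)
  | [] => []
  | i :: l => niW D p i ++ nlW D p l

include M hp

theorem ni_word (hp1 : 1 ≤ p) (i : ℕ) : ni D K i = wg D (castW K (niW D p i)) := by
  unfold ni
  rw [M.ng_eq]
  have : ((p - 1 : ℕ) : K) = -1⁻¹ := by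
    rw [Nat.cast_sub hp1, hp]; simp
  change _ = xg D (D.simple i) ((1 : ℕ) : K) * (xg D (D.neg (D.simple i)) ((p - 1 : ℕ) : K) * (xg D (D.simple i) ((1 : ℕ) : K) * 1))
  rw [this, Nat.cast_one, mul_one, mul_assoc]

theorem nl_word (hp1 : 1 ≤ p) (l : List ℕ) : nl D K l = wg D (castW K (nlW D p l)) := by
  induction l with
  | nil => rfl
  | cons i l ih =>
    rw [nl_cons, ih, ni_word M hp hp1]
    change _ = wg D (castW K (niW D p i ++ nlW D p l))
    rw [wg_cast_append]

end CfsgLib.Chev.EV
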