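import Mathlib
import Cfsg.Agent.Lib.FusionAb
import Cfsg.Agent.Lib.FusionCore
/-!
Saturated fusion systems over abelian groups.
-/
set_option autoImplicit false
set_option maxHeartbeats 400000

namespace CfsgLib.Fusion

open Cfsg Cfsg.FusionSystem
open scoped commutatorElement

universe u

variable {Ω : Type u} [Group Ω] {S : Subgroup Ω}

theorem center_sup_foc_of_abelian {F : FusionSystem S} [Finite S] {p : ℕ} [hp : Fact p.Prime]
    (hS : IsPGroup p S) (hF : F.IsSaturated p) (hab : ∀ x ∈ S, ∀ y ∈ S, x * y = y * x) :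
    F.center ⊔ F.focalSubgroup = S := by
  classical
  apply le_antisymm (sup_le (center_le F) foc_le)
  letI : CommGroup S :=
    { (inferInstance : Group S) with
      mul_comm := fun a b => Subtype.ext (hab a a.2 b b.2) }
  have hfin := finite_autGroup F S
  letI := Fintype.ofFinite (F.autGroup S)
  set A := F.autGroup S with hA
  -- `|A|` is prime to `p`
  have hSn : F.IsFullyNormalized S := ⟨le_rfl, fun Q hQ => by
    have hNS : normalizerIn S S = S := inf_eq_left.2 Subgroup.le_normalizer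
    rw [hNS]; exact card_le_of_le inf_le_left⟩
  obtain ⟨-, R, hR⟩ := (Saturated.of_fullyNormalized hS hF hSn).1
  have hRbot : (R : Subgroup A) = ⊥ := by
    rw [hR, eq_bot_iff]
    intro α hα
    obtain ⟨g, hg, h⟩ := mem_autInducedBy_iff.1 hα
    rw [Subgroup.mem_bot]
    apply Subtype.ext
    apply MulEquiv.ext
    intro x
    apply Subtype.ext
    have h1 : ((α : MulAut S) x : Ω) = g * (x : Ω) * g⁻¹ := h x
    rw [h1, hab g hg x x.2, mul_inv_cancel_right]; rfl
  have hcard : ¬ p ∣ Nat.card A := by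
    have h1 := R.not_dvd_index
    rwa [hRbot, Subgroup.index_bot] at h1
  -- the averaging map
  let e : S → S := fun x => ∏ α : A, (α : MulAut S) x
  have hefix : ∀ (β : A) (x : S), (β : MulAut S) (e x) = e x := by
    intro β x
    show (β : MulAut S) (∏ α : A, (α : MulAut S) x) = ∏ α : A, (α : MulAut S) x
    rw [map_prod]
    exact Fintype.prod_equiv (Equiv.mulLeft β) _ _ (fun α => rfl)
  have hecen : ∀ x : S, (e x : Ω) ∈ F.center := by
    intro x
    have h1 : F.IsCentral (Subgroup.zpowers (e x : Ω)) := by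
      rw [isCentral_iff]
      have hle : Subgroup.zpowers (e x : Ω) ≤ S := by
        rw [Subgroup.zpowers_le]; exact (e x).2
      refine ⟨hle, fun P f hf => ?_⟩
      obtain ⟨g, hg, hgf⟩ := extend_of_abelian hS hF hab hf
      have hPS := hf.le
      refine ⟨g, hg.restrict (sup_le hPS hle), hgf, ?_⟩
      obtain ⟨α, hα, hαg⟩ := hg.exists_aut_of_mapsTo (fun x hx => hg.mapsTo hx)
      have h2 : g (e x : Ω) = e x := by
        rw [← hαg, hefix ⟨α, hα⟩ x]
      intro y hy
      obtain ⟨k, rfl⟩ := Subgroup.mem_zpowers_iff.1 hy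
      rw [hg.map_zpow (e x).2, h2]
    rw [isCentral_iff_le] at h1
    exact h1 (Subgroup.mem_zpowers _)
  have hpow : ∀ x : S, ((x ^ Nat.card A : S) : Ω) ∈ F.center ⊔ F.focalSubgroup := by
    intro x
    have h1 : ∀ α : A, (((α : MulAut S) x)⁻¹ * x : S) ∈ F.focalSubgroup.subgroupOf S := by
      intro α
      have hf := (mem_autGroup_iff' le_rfl _).1 α.2
      have h2 := foc_mem hf x.2
      rw [aext_apply] at h2
      have h3 := Subgroup.inv_mem _ h2
      have e1 : ((x : Ω)⁻¹ * ((α : MulAut S) x : S))⁻¹ = (((α : MulAut S) x : S) : Ω)⁻¹ * x := by group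
      rw [e1] at h3
      exact h3
    have h2 : x ^ Nat.card A = e x * ∏ α : A, (((α : MulAut S) x)⁻¹ * x) := by
      show x ^ Nat.card A = (∏ α : A, (α : MulAut S) x) * ∏ α : A, (((α : MulAut S) x)⁻¹ * x)
      rw [← Finset.prod_mul_distrib]
      simp only [mul_inv_cancel_left]
      rw [Finset.prod_const, Nat.card_eq_fintype_card, Finset.card_univ]
    rw [h2]
    refine Subgroup.mul_mem _ (Subgroup.mem_sup_left (hecen x)) (Subgroup.mem_sup_right ?_)
    exact Subgroup.prod_mem (F.focalSubgroup.subgroupOf S) (fun α _ => h1 α)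
  intro x hx
  obtain ⟨k, hk⟩ := hS ⟨x, hx⟩
  have hcop : (Nat.card A).Coprime (p ^ k) :=
    Nat.Coprime.pow_right k ((Nat.Prime.coprime_iff_not_dvd hp.out).2 hcard).symm
  obtain ⟨m, hm⟩ := exists_pow_eq_self_of_coprime (x := (⟨x, hx⟩ : S))
    (n := Nat.card A) (Nat.Coprime.coprime_dvd_right (orderOf_dvd_of_pow_eq_one hk) hcop)
  have h3 := hpow ⟨x, hx⟩
  have h4 := Subgroup.pow_mem _ h3 m
  have h5 : ((((⟨x, hx⟩ : S) ^ Nat.card A : S) : Ω)) ^ m = x := by
    have := congrArg (Subtype.val) hm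
    exact this
  rwa [h5] at h4

end CfsgLib.Fusion
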