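import Mathlib
import Cfsg.Agent.Lib.FusionSimple
import Cfsg.Agent.Lib.FusionGroup

/-!
Data implying the simplicity of a fusion system; transfer.
-/

set_option autoImplicit false

namespace CfsgLib.Fusion

open Cfsg Cfsg.FusionSystem

/-- a self-normalizing Sylow subgroup without proper nontrivial strongly closed subgroups -/
structure FData (p : ℕ) {A : Type*} [Group A] (S0 : Subgroup A) (n : ℕ) : Prop where
  pos : 0 < n
  card : Nat.card S0 = p ^ n
  fac : (Nat.card A).factorization p = n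
  norm : ∀ g, (∀ x, x ∈ S0 ↔ g * x * g⁻¹ ∈ S0) → g ∈ S0
  sc : ∀ T : Subgroup A, T ≤ S0 → T ≠ ⊥ → (∀ x ∈ T, ∀ k, k * x * k⁻¹ ∈ S0 → k * x * k⁻¹ ∈ T) → T = S0

theorem conj_iff_of_le' {A : Type*} [Group A] {S0 : Subgroup A} [Finite S0] {h : A} (hh : ∀ x ∈ S0, h * x * h⁻¹ ∈ S0) (x : A) :
    x ∈ S0 ↔ h * x * h⁻¹ ∈ S0 := by
  refine ⟨hh x, fun hx => ?_⟩
  let f : S0 → S0 := fun y => ⟨h * y * h⁻¹, hh y y.2⟩
  have hf : Function.Injective f := by
    intro a b hab
    have h1 : h * (a : A) * h⁻¹ = h * b * h⁻¹ := congrArg Subtype.val hab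
    exact Subtype.ext (mul_left_cancel (mul_right_cancel h1))
  obtain ⟨y, hy⟩ := (Finite.surjective_of_injective hf) ⟨_, hx⟩
  have h1 : h * (y : A) * h⁻¹ = h * x * h⁻¹ := congrArg Subtype.val hy
  rw [← mul_left_cancel (mul_right_cancel h1)]
  exact y.2

theorem FData.simple {A : Type*} [Group A] [Finite A] {p : ℕ} [Fact p.Prime] {S0 : Subgroup A} {n : ℕ} (h : FData p S0 n)
    (S : Sylow p A) : (groupFusionSystem (S : Subgroup A)).IsSimple p := by
  classical
  let P0 : Sylow p A := Sylow.ofCard S0 (by rw [h.card, h.fac])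
  obtain ⟨c, hc⟩ := MulAction.exists_smul_eq A P0 S
  have hmem : ∀ x : A, x ∈ (S : Subgroup A) ↔ c⁻¹ * x * c ∈ S0 := by
    intro x
    rw [← hc, Sylow.coe_subgroup_smul, Subgroup.mem_pointwise_smul_iff_inv_smul_mem, ← map_inv, MulAut.smul_def,
      MulAut.conj_apply, inv_inv]
    exact Iff.rfl
  apply simple_of_inner_aut (groupFusionSystem_saturated p S)
  · intro hS
    have h1 := S.card_eq_multiplicity
    have h2 : Nat.card (S : Subgroup A) = 1 := by rw [hS]; exact Subgroup.card_bot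
    have h3 : Nat.card S = 1 := h2
    rw [h3, h.fac] at h1
    have h4 : 1 < p ^ n := Nat.one_lt_pow h.pos.ne' (Fact.out : p.Prime).one_lt
    omega
  · intro f hf
    rw [FMap_group_iff] at hf
    obtain ⟨-, h1, g, hg⟩ := hf
    refine ⟨g, ?_, hg⟩
    rw [hmem]
    apply h.norm
    apply conj_iff_of_le'
    intro x hx
    have hy : c * x * c⁻¹ ∈ (S : Subgroup A) := by
      rw [hmem]
      have e : c⁻¹ * (c * x * c⁻¹) * c = x := by group
      rw [e]; exact hx
    have h2 := h1 _ hy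
    rw [hg _ hy, hmem] at h2
    have e : c⁻¹ * (g * (c * x * c⁻¹) * g⁻¹) * c = c⁻¹ * g * c * x * (c⁻¹ * g * c)⁻¹ := by group
    rw [e] at h2
    exact h2
  · intro T hT
    by_cases hT1 : T = ⊥
    · exact Or.inl hT1
    right
    let T0 : Subgroup A := T.comap (MulAut.conj c).toMonoidHom
    have hT0 : ∀ x : A, x ∈ T0 ↔ c * x * c⁻¹ ∈ T := fun x => Iff.rfl
    have h1 : T0 = S0 := by
      apply h.sc
      · intro x hx
        rw [hT0] at hx
        have h2 := hT.1 hx
        rw [hmem] at h2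
        have e : c⁻¹ * (c * x * c⁻¹) * c = x := by group
        rwa [e] at h2
      · intro hbot
        apply hT1
        rw [eq_bot_iff]
        intro y hy
        have h2 : c⁻¹ * y * c ∈ T0 := by
          rw [hT0]
          have e : c * (c⁻¹ * y * c) * c⁻¹ = y := by group
          rw [e]; exact hy
        rw [hbot, Subgroup.mem_bot] at h2
        rw [Subgroup.mem_bot]
        have e : y = c * (c⁻¹ * y * c) * c⁻¹ := by group
        rw [e, h2]; group
      · intro x hx k hkx
        rw [hT0] at hx ⊢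
        have e : c * (k * x * k⁻¹) * c⁻¹ = (c * k * c⁻¹) * (c * x * c⁻¹) * (c * k * c⁻¹)⁻¹ := by group
        have hKX : (c * k * c⁻¹) * (c * x * c⁻¹) * (c * k * c⁻¹)⁻¹ ∈ (S : Subgroup A) := by
          rw [← e, hmem]
          have e2 : c⁻¹ * (c * (k * x * k⁻¹) * c⁻¹) * c = k * x * k⁻¹ := by group
          rw [e2]; exact hkx
        rw [e]
        set X := c * x * c⁻¹ with hX
        set K := c * k * c⁻¹ with hK
        have hle : Subgroup.zpowers X ≤ T := by rw [Subgroup.zpowers_le]; exact hx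
        have hF : FMap (groupFusionSystem (S : Subgroup A)) (Subgroup.zpowers X) (fun y => K * y * K⁻¹) := by
          rw [FMap_group_iff]
          refine ⟨hle.trans hT.1, ?_, K, fun y _ => rfl⟩
          rintro y ⟨m, rfl⟩
          show K * X ^ m * K⁻¹ ∈ (S : Subgroup A)
          rw [← conj_zpow]
          exact zpow_mem hKX m
        obtain ⟨φ, hφ, hφX⟩ := hF
        have h2 := hT.2 _ hle φ hφ ⟨X, Subgroup.mem_zpowers X⟩
        rw [hφX] at h2
        exact h2
    apply le_antisymm hT.1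
    intro y hy
    rw [hmem, ← h1, hT0] at hy
    have e : c * (c⁻¹ * y * c) * c⁻¹ = y := by group
    rwa [e] at hy

theorem FData.of_sub {A : Type*} [Group A] {p : ℕ} {G S0 : Subgroup A} (h0 : S0 ≤ G) {n : ℕ} (hn : 0 < n)
    (hcard : Nat.card S0 = p ^ n) (hG : (Nat.card G).factorization p = n)
    (hnorm : ∀ g ∈ G, (∀ x, x ∈ S0 ↔ g * x * g⁻¹ ∈ S0) → g ∈ S0)
    (hsc : ∀ T : Subgroup A, T ≤ S0 → T ≠ ⊥ → (∀ x ∈ T, ∀ k ∈ G, k * x * k⁻¹ ∈ S0 → k * x * k⁻¹ ∈ T) → T = S0) :
    FData p (S0.subgroupOf G) n where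
  pos := hn
  card := by rw [Nat.card_congr (Subgroup.subgroupOfEquivOfLe h0).toEquiv, hcard]
  fac := hG
  norm := by
    intro g hg
    rw [Subgroup.mem_subgroupOf]
    apply hnorm g g.2
    intro x
    constructor
    · intro hx
      exact (hg ⟨x, h0 hx⟩).mp hx
    · intro hx
      have hxG : x ∈ G := by
        have e : x = (g : A)⁻¹ * (g * x * (g : A)⁻¹) * g := by group
        rw [e]; exact mul_mem (mul_mem (inv_mem g.2) (h0 hx)) g.2
      exact (hg ⟨x, hxG⟩).mpr hx
  sc := by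
    intro T hT hT1 hTc
    have h1 : T.map G.subtype = S0 := by
      apply hsc
      · rintro _ ⟨x, hx, rfl⟩
        exact hT hx
      · intro hb
        apply hT1
        rwa [Subgroup.map_eq_bot_iff_of_injective _ G.subtype_injective] at hb
      · rintro _ ⟨x, hx, rfl⟩ k hk hkx
        exact ⟨⟨k, hk⟩ * x * ⟨k, hk⟩⁻¹, hTc x hx ⟨k, hk⟩ hkx, rfl⟩
    rw [← h1]
    ext x
    rw [Subgroup.mem_subgroupOf]
    constructor
    · intro hx; exact ⟨x, hx, rfl⟩
    · rintro ⟨y, hy, hyx⟩
      rwa [← Subtype.ext hyx]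

/-- passing to an overgroup -/
theorem FData.up {A M : Type*} [Group A] [Group M] {p : ℕ} {S0 : Subgroup M} {n : ℕ} (h : FData p S0 n) (f : M →* A)
    (hf : Function.Injective f) (hA : (Nat.card A).factorization p = n)
    (hr : ∀ g : A, (∀ x, x ∈ S0.map f ↔ g * x * g⁻¹ ∈ S0.map f) → ∃ m, f m = g) : FData p (S0.map f) n where
  pos := h.pos
  card := by rw [← h.card]; exact (Nat.card_congr (S0.equivMapOfInjective f hf).toEquiv).symm
  fac := hA
  norm := by
    intro g hg
    obtain ⟨m, rfl⟩ := hr g hg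
    refine ⟨m, h.norm m ?_, rfl⟩
    intro x
    have h1 := hg (f x)
    rw [← map_inv, ← map_mul, ← map_mul] at h1
    constructor
    · intro hx
      obtain ⟨y, hy, hyx⟩ := h1.mp ⟨x, hx, rfl⟩
      rwa [← hf hyx]
    · intro hx
      obtain ⟨y, hy, hyx⟩ := h1.mpr ⟨_, hx, rfl⟩
      rwa [← hf hyx]
  sc := by
    intro T hT hT1 hTc
    have h1 : T.comap f = S0 := by
      apply h.sc
      · intro x hx
        obtain ⟨y, hy, hyx⟩ := hT hx
        rwa [← hf hyx]
      · intro hb
        apply hT1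
        rw [eq_bot_iff]
        intro y hy
        obtain ⟨x, hx, rfl⟩ := hT hy
        have h2 : x ∈ T.comap f := hy
        rw [hb, Subgroup.mem_bot] at h2
        rw [h2, map_one]; exact one_mem _
      · intro x hx k hkx
        show f (k * x * k⁻¹) ∈ T
        rw [map_mul, map_mul, map_inv]
        apply hTc _ hx
        refine ⟨k * x * k⁻¹, hkx, ?_⟩
        rw [map_mul, map_mul, map_inv]
    apply le_antisymm hT
    rw [← h1]
    rintro _ ⟨x, hx, rfl⟩
    exact hx

theorem FData.of_equiv {A M : Type*} [Group A] [Group M] {p : ℕ} {S0 : Subgroup M} {n : ℕ} (h : FData p S0 n) (e : M ≃* A) :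
    FData p (S0.map e.toMonoidHom) n :=
  h.up e.toMonoidHom e.injective (by rw [← Nat.card_congr e.toEquiv]; exact h.fac) (fun g _ => e.surjective g)

end CfsgLib.Fusion
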