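import Cfsg.Agent.Lib.FusionFunctor
/-!
Quadratic functors and `p`-th powers of central elements.
-/
set_option autoImplicit false

namespace CfsgLib.Fusion

open Cfsg Cfsg.FusionSystem CfsgLib.SylowIn CfsgLib.StronglyEmb

universe u

variable {p : ℕ} [Fact p.Prime]

theorem quadratic_pow {G : Type*} [Group G] {V : Subgroup G} (hV : ∀ v ∈ V, ∀ w ∈ V, v * w = w * v)
    {g : G} (hgV : ∀ v ∈ V, g * v * g⁻¹ ∈ V) (hgc : ∀ v ∈ V, g * (g * v * g⁻¹ * v⁻¹) = (g * v * g⁻¹ * v⁻¹) * g)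
    (hgp : ∀ v ∈ V, g ^ p * v = v * g ^ p) : ∀ v ∈ V, g * v ^ p = v ^ p * g := by
  intro v hv
  set c := g * v * g⁻¹ * v⁻¹ with hc
  have hcV : c ∈ V := V.mul_mem (hgV v hv) (V.inv_mem hv)
  have h1 : ∀ k : ℕ, g ^ k * v = c ^ k * v * g ^ k := by
    intro k
    induction k with
    | zero => simp
    | succ k ih =>
      have h2 : g * v = c * v * g := by rw [hc]; group
      have h3 : Commute g (c ^ k) := (show Commute g c from hgc v hv).pow_right k
      calc g ^ (k + 1) * v = g * (g ^ k * v) := by rw [pow_succ']; group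
        _ = (g * c ^ k) * v * g ^ k := by rw [ih]; group
        _ = c ^ k * (g * v) * g ^ k := by rw [h3.eq]; group
        _ = c ^ k * (c * v * g) * g ^ k := by rw [h2]
        _ = _ := by rw [pow_succ, pow_succ']; group
  have h2 : c ^ p = 1 := by
    have h3 := h1 p
    rw [hgp v hv] at h3
    have h4 : c ^ p * v = v := (mul_right_cancel h3).symm
    exact mul_eq_right.1 h4
  have h3 : g * v ^ p * g⁻¹ = v ^ p := by
    have h4 : g * v * g⁻¹ = c * v := by rw [hc]; group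
    rw [← conj_pow, h4, (show Commute c v from hV c hcV v hv).mul_pow, h2, one_mul]
  rw [mul_inv_eq_iff_eq_mul] at h3
  exact h3

theorem pow_central_aux {W : ∀ (Q : Type u) [Group Q], Subgroup Q}
    (hW2 : ∀ (Q R : Type u) [Group Q] [Group R] [Finite Q], IsPGroup p Q → ∀ φ : Q ≃* R,
      (W Q).map φ.toMonoidHom = W R)
    (hq : ∀ (G : Type u) [Group G] [Finite G] (P : Sylow p G), ¬ (((W ↥(P : Subgroup G)).map (P : Subgroup G).subtype : Subgroup G)).Normal → ∃ g : G, g ∈ (P : Subgroup G) ∧ g ∉ Cfsg.pCore p G ∧ ⁅⁅Subgroup.center ↥(Cfsg.pCore p G) |>.map (Cfsg.pCore p G).subtype, Subgroup.zpowers g⁆, Subgroup.zpowers g⁆ = ⊥) :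
    ∀ (n : ℕ) (G : Type u) [Group G] [Finite G] (P : Sylow p G), Nat.card G = n →
      Subgroup.centralizer ((pCore p G : Subgroup G) : Set G) ≤ pCore p G →
      ∀ z₀ : G, z₀ ∈ (P : Subgroup G) → (∀ g ∈ (P : Subgroup G), z₀ * g = g * z₀) →
      (∀ g ∈ Subgroup.normalizer (((W ↥(P : Subgroup G)).map (P : Subgroup G).subtype :
        Subgroup G) : Set G), g * z₀ ^ p = z₀ ^ p * g) → ∀ g, g * z₀ ^ p = z₀ ^ p * g := by
  intro n
  induction n using Nat.strong_induction_on with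
  | _ n ih =>
  intro G _ _ P hn hG z₀ hz₀ hz₀c hz₀N
  by_cases hnorm : (((W ↥(P : Subgroup G)).map (P : Subgroup G).subtype : Subgroup G)).Normal
  · rw [Subgroup.normalizer_eq_top_iff.2 hnorm] at hz₀N
    exact fun g => hz₀N g trivial
  obtain ⟨g, hgP, hgR, hgq⟩ := hq G P hnorm
  set R := pCore p G with hR
  have hRn : R.Normal := pCore_normal p
  have hRp : IsPGroup p R := pCore_isPGroup p
  have hRP : R ≤ P := StronglyEmb.pCore_le_sylow P
  set V : Subgroup G := (Subgroup.center ↥R).map R.subtype with hV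
  have hVmem : ∀ v, v ∈ V ↔ v ∈ R ∧ ∀ x ∈ R, v * x = x * v := by
    intro v
    constructor
    · rintro ⟨v', hv', rfl⟩
      refine ⟨v'.2, fun x hx => ?_⟩
      exact (congrArg Subtype.val (Subgroup.mem_center_iff.1 hv' ⟨x, hx⟩)).symm
    · rintro ⟨h1, h2⟩
      refine ⟨⟨v, h1⟩, ?_, rfl⟩
      rw [SetLike.mem_coe, Subgroup.mem_center_iff]
      intro x
      exact Subtype.ext (h2 x x.2).symm
  have hVn : ∀ (v) (_ : v ∈ V) (x : G), x * v * x⁻¹ ∈ V := by
    intro v hv x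
    rw [hVmem] at hv ⊢
    refine ⟨hRn.conj_mem v hv.1 x, fun y hy => ?_⟩
    have h1 := hv.2 (x⁻¹ * y * x) (by simpa using hRn.conj_mem y hy x⁻¹)
    calc x * v * x⁻¹ * y = x * (v * (x⁻¹ * y * x)) * x⁻¹ := by group
      _ = x * ((x⁻¹ * y * x) * v) * x⁻¹ := by rw [h1]
      _ = _ := by group
  have hVc : ∀ v ∈ V, ∀ w ∈ V, v * w = w * v := fun v hv w hw =>
    ((hVmem v).1 hv).2 w ((hVmem w).1 hw).1
  have hz₀V : z₀ ∈ V := by
    have h1 : z₀ ∈ R := by
      apply hG
      rw [Subgroup.mem_centralizer_iff]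
      intro x hx
      exact (hz₀c x (hRP hx)).symm
    rw [hVmem]
    exact ⟨h1, fun x hx => hz₀c x (hRP hx)⟩
  -- quadratic element
  have hquad : ∀ h ∈ Subgroup.zpowers g, ∀ v ∈ V,
      h * (h * v * h⁻¹ * v⁻¹) = (h * v * h⁻¹ * v⁻¹) * h := by
    intro h hh v hv
    have h1 : v * h * v⁻¹ * h⁻¹ ∈ ⁅V, Subgroup.zpowers g⁆ := Subgroup.commutator_mem_commutator hv hh
    have h2 : ⁅V, Subgroup.zpowers g⁆ ≤ Subgroup.centralizer (Subgroup.zpowers g : Set G) :=
      Subgroup.commutator_eq_bot_iff_le_centralizer.1 hgq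
    have h3 := Subgroup.mem_centralizer_iff.1 (h2 (Subgroup.inv_mem _ h1)) h hh
    have h4 : (v * h * v⁻¹ * h⁻¹)⁻¹ = h * v * h⁻¹ * v⁻¹ := by group
    rw [h4] at h3
    exact h3
  obtain ⟨g₁, hg₁z, hg₁R, hg₁p⟩ : ∃ g₁ ∈ Subgroup.zpowers g, g₁ ∉ R ∧ g₁ ^ p ∈ R := by
    classical
    have hex : ∃ k : ℕ, g ^ p ^ k ∈ R := by
      obtain ⟨k, hk⟩ := P.2 ⟨g, hgP⟩
      refine ⟨k, ?_⟩
      have : g ^ p ^ k = 1 := congrArg Subtype.val hk
      rw [this]; exact R.one_mem
    have hk := Nat.find_spec hex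
    have hk0 : Nat.find hex ≠ 0 := by
      intro h0
      rw [h0] at hk
      simp only [pow_zero, pow_one] at hk
      exact hgR hk
    obtain ⟨j, hj⟩ := Nat.exists_eq_succ_of_ne_zero hk0
    refine ⟨g ^ p ^ j, Subgroup.npow_mem_zpowers g _, Nat.find_min hex (by omega), ?_⟩
    rw [← pow_mul, ← pow_succ, ← Nat.succ_eq_add_one, ← hj]
    exact hk
  have hg₁P : g₁ ∈ (P : Subgroup G) := (Subgroup.zpowers_le.2 hgP) hg₁z
  have hfix := quadratic_pow (p := p) hVc (fun v hv => hVn v hv g₁) (hquad g₁ hg₁z) (fun v hv =>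
    (((hVmem v).1 hv).2 _ hg₁p).symm)
  -- the subgroup `D`
  set D : Subgroup G := Subgroup.centralizer {x | ∃ v ∈ V, x = v ^ p} with hD
  have hDmem : ∀ x, x ∈ D ↔ ∀ v ∈ V, x * v ^ p = v ^ p * x := by
    intro x
    rw [hD, Subgroup.mem_centralizer_iff]
    constructor
    · intro h v hv
      exact (h _ ⟨v, hv, rfl⟩).symm
    · rintro h _ ⟨v, hv, rfl⟩
      exact (h v hv).symm
  have hDn : D.Normal := by
    refine ⟨fun x hx y => ?_⟩
    rw [hDmem] at hx ⊢
    intro v hv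
    have h1 := hx (y⁻¹ * v * y) (by simpa using hVn v hv y⁻¹)
    have h2 : (y⁻¹ * v * y) ^ p = y⁻¹ * v ^ p * y := by
      have := conj_pow (i := p) (a := y⁻¹) (b := v)
      simpa using this
    rw [h2] at h1
    calc y * x * y⁻¹ * v ^ p = y * (x * (y⁻¹ * v ^ p * y)) * y⁻¹ := by group
      _ = y * ((y⁻¹ * v ^ p * y) * x) * y⁻¹ := by rw [h1]
      _ = _ := by group
  have hg₁D : g₁ ∈ D := (hDmem _).2 hfix
  have hRD : R ≤ D := by
    intro x hx
    rw [hDmem]
    intro v hv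
    exact (((hVmem _).1 (V.pow_mem hv p)).2 x hx).symm
  set T : Subgroup G := (P : Subgroup G) ⊓ D with hT
  have hPs : IsSylowIn p (P : Subgroup G) ⊤ := P.isSylowIn_top
  have hTs : IsSylowIn p T D := hPs.inf_normal le_top (by
    rw [Subgroup.normalizer_eq_top_iff.2 hDn])
  set H : Subgroup G := Subgroup.normalizer (T : Set G) with hH
  have hPH : (P : Subgroup G) ≤ H := by
    intro x hx
    rw [hH, Subgroup.mem_normalizer_iff]
    intro y
    constructor
    · intro hy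
      exact ⟨Subgroup.mul_mem _ (Subgroup.mul_mem _ hx hy.1) (Subgroup.inv_mem _ hx),
        hDn.conj_mem y hy.2 x⟩
    · intro hy
      have h1 := hy.1
      have h2 := hDn.conj_mem _ hy.2 x⁻¹
      refine ⟨?_, by simpa [mul_assoc] using h2⟩
      have h3 : y = x⁻¹ * (x * y * x⁻¹) * x := by group
      rw [h3]
      exact Subgroup.mul_mem _ (Subgroup.mul_mem _ (Subgroup.inv_mem _ hx) h1) hx
  have hHtop : H ≠ ⊤ := by
    intro h
    have hTn : T.Normal := Subgroup.normalizer_eq_top_iff.1 h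
    have hTR : T ≤ R := StronglyEmb.le_pCore hTn (P.2.to_le inf_le_left)
    exact hg₁R (hTR ⟨hg₁P, hg₁D⟩)
  have hRH : R ≤ H := hRP.trans hPH
  have hcard : Nat.card H < Nat.card G := by
    rcases lt_or_eq_of_le (Subgroup.card_le_card_group H) with h | h
    · exact h
    · exact absurd (Subgroup.eq_top_of_card_eq H h) hHtop
  let P' : Sylow p H := P.subtype hPH
  have hP' : (P' : Subgroup H) = (P : Subgroup G).subgroupOf H := rfl
  -- `H` is constrained
  have hRp' : R.subgroupOf H ≤ pCore p H := StronglyEmb.le_pCore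
    (hRn.comap H.subtype) (hRp.comap_of_injective _ H.subtype_injective)
  have hHc : Subgroup.centralizer ((pCore p H : Subgroup H) : Set H) ≤ pCore p H := by
    intro x hx
    apply hRp'
    show (x : G) ∈ R
    apply hG
    rw [Subgroup.mem_centralizer_iff] at hx ⊢
    intro y hy
    exact congrArg Subtype.val (hx ⟨y, hRH hy⟩ (hRp' hy))
  have hWmap : (((W ↥(P' : Subgroup H)).map (P' : Subgroup H).subtype : Subgroup H)).map H.subtype =
      ((W ↥(P : Subgroup G)).map (P : Subgroup G).subtype : Subgroup G) := by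
    rw [Subgroup.map_map]
    symm
    refine wS_hom hW2 (T := ↥(P' : Subgroup H)) (G := G) P'.2
      (H.subtype_injective.comp (P' : Subgroup H).subtype_injective) ?_
    ext x
    constructor
    · intro hx
      exact ⟨⟨⟨x, hPH hx⟩, hx⟩, rfl⟩
    · rintro ⟨⟨⟨x', hx'⟩, hx2⟩, rfl⟩
      exact hx2
  have hz₀H : z₀ ∈ H := hPH hz₀
  have hres := ih (Nat.card H) (hn ▸ hcard) H P' rfl hHc ⟨z₀, hz₀H⟩ hz₀
    (fun g hg => Subtype.ext (hz₀c g hg)) (by
      intro x hx
      have h1 : (x : G) ∈ Subgroup.normalizer (((W ↥(P : Subgroup G)).map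
          (P : Subgroup G).subtype : Subgroup G) : Set G) := by
        rw [← hWmap]
        exact Subgroup.le_normalizer_map H.subtype ⟨x, hx, rfl⟩
      exact Subtype.ext (hz₀N x h1))
  intro x
  obtain ⟨m, hm, hmx⟩ := hTs.frattini le_top (by rw [Subgroup.normalizer_eq_top_iff.2 hDn])
    (Subgroup.mem_top x)
  have h1 := congrArg Subtype.val (hres ⟨m * x, hmx⟩)
  have h1' : m * x * z₀ ^ p = z₀ ^ p * (m * x) := h1
  have h2 := (hDmem m).1 hm z₀ hz₀V
  calc x * z₀ ^ p = m⁻¹ * (m * x * z₀ ^ p) := by group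
    _ = m⁻¹ * (z₀ ^ p * m) * x := by rw [h1']; group
    _ = m⁻¹ * (m * z₀ ^ p) * x := by rw [h2]
    _ = _ := by group

end CfsgLib.Fusion

namespace CfsgLib.Fusion

open Cfsg Cfsg.FusionSystem CfsgLib.SylowIn CfsgLib.StronglyEmb

universe u

variable {p : ℕ} [Fact p.Prime]

/-- (S5253) -/
theorem pow_center_le {W : ∀ (Q : Type u) [Group Q], Subgroup Q}
    (hW2 : ∀ (Q R : Type u) [Group Q] [Group R] [Finite Q], IsPGroup p Q → ∀ φ : Q ≃* R,
      (W Q).map φ.toMonoidHom = W R)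
    (hWZ : ∀ (Q : Type u) [Group Q] [Finite Q], IsPGroup p Q → Subgroup.center Q ≤ W Q)
    (hq : ∀ (G : Type u) [Group G] [Finite G] (P : Sylow p G), ¬ (((W ↥(P : Subgroup G)).map (P : Subgroup G).subtype : Subgroup G)).Normal → ∃ g : G, g ∈ (P : Subgroup G) ∧ g ∉ Cfsg.pCore p G ∧ ⁅⁅Subgroup.center ↥(Cfsg.pCore p G) |>.map (Cfsg.pCore p G).subtype, Subgroup.zpowers g⁆, Subgroup.zpowers g⁆ = ⊥)
    {Ω : Type u} [Group Ω] {S : Subgroup Ω} [Finite S] (hS : IsPGroup p S) (F : FusionSystem S)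
    (hF : F.IsSaturated p) : Subgroup.closure ((fun z => z ^ p) ''
      ((S ⊓ Subgroup.centralizer (S : Set Ω) : Subgroup Ω) : Set Ω)) ⊓
      (normSys F (wS W S) (wS_le W S)).center ≤ F.center := by
  have hNf : Finite (normalizerIn S (wS W S)) := finite_of_le inf_le_left
  have hZ := isCentral_center (normSys F (wS W S) (wS_le W S))
  set Z := Subgroup.closure ((fun z => z ^ p) ''
      ((S ⊓ Subgroup.centralizer (S : Set Ω) : Subgroup Ω) : Set Ω)) ⊓
      (normSys F (wS W S) (wS_le W S)).center with hZdef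
  have hZS : Z ≤ S := inf_le_right.trans (hZ.1.trans inf_le_left)
  have hroot : ∀ z ∈ Subgroup.closure ((fun z => z ^ p) ''
      ((S ⊓ Subgroup.centralizer (S : Set Ω) : Subgroup Ω) : Set Ω)),
      ∃ z₀ ∈ S, (∀ s ∈ S, z₀ * s = s * z₀) ∧ z = z₀ ^ p := by
    intro z hz
    induction hz using Subgroup.closure_induction with
    | mem x hx =>
      obtain ⟨z₀, hz₀, rfl⟩ := hx
      exact ⟨z₀, hz₀.1, fun s hs => (Subgroup.mem_centralizer_iff.1 hz₀.2 s hs).symm, rfl⟩
    | one => exact ⟨1, S.one_mem, fun s _ => by simp, by simp⟩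
    | mul x y _ _ hx hy =>
      obtain ⟨a, ha1, ha2, rfl⟩ := hx
      obtain ⟨b, hb1, hb2, rfl⟩ := hy
      refine ⟨a * b, S.mul_mem ha1 hb1, fun s hs => ?_, ?_⟩
      · rw [mul_assoc, hb2 s hs, ← mul_assoc, ha2 s hs, mul_assoc]
      · exact ((show Commute a b from ha2 b hb1).mul_pow p).symm
    | inv x _ hx =>
      obtain ⟨a, ha1, ha2, rfl⟩ := hx
      refine ⟨a⁻¹, S.inv_mem ha1, fun s hs => ?_, by rw [inv_pow]⟩
      exact ((show Commute a s from ha2 s hs).inv_left)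
  have : F.IsCentral Z := by
    refine control_center p hW2 hWZ ?_ hS hF hZS (fun z hz => hroot z hz.1) ?_
    · intro G _ _ P hG
      exact pow_central_aux hW2 hq _ G P rfl hG
    · intro f hf hfw z hz
      have hfN := FMap_normSys_of_le (hQ := wS_le W S) hf le_rfl (le_normalizerIn (wS_le W S)) hfw
      obtain ⟨z₀, h1, h2, h3⟩ := hroot z hz.1
      refine IsCentral.fix hZ hfN hz.2 ?_
      rw [h3]
      apply Subgroup.pow_mem
      refine ⟨⟨z₀, h1⟩, hWZ ↥S hS ?_, rfl⟩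
      rw [Subgroup.mem_center_iff]
      intro g
      exact Subtype.ext (h2 g g.2).symm
  exact le_sSup this

end CfsgLib.Fusion
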