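import Cfsg.Agent.Lib.ZJ5

/-! An axiomatic form of the `ZJ`-theorem. -/

set_option autoImplicit false
set_option linter.style.haveILetI false
set_option linter.unusedVariables false
set_option maxHeartbeats 400000

namespace CfsgLib.H9Fam

universe u v
variable {G : Type u} [Group G]

open CfsgLib CfsgLib.Coprime CfsgLib.PL1 CfsgLib.PL2 CfsgLib.PL3 CfsgLib.ZJ CfsgLib.ZJ2 CfsgLib.ZJ3 CfsgLib.ZJ4
open scoped commutatorElement Pointwise

/-- the intersection of the members of the family inside `Q` -/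
def IF (𝒜 : Set (Subgroup G)) (Q : Subgroup G) : Subgroup G := sInf {A | A ∈ 𝒜 ∧ A ≤ Q}

theorem mem_IF {𝒜 : Set (Subgroup G)} {Q : Subgroup G} {x : G} :
    x ∈ IF 𝒜 Q ↔ ∀ A ∈ 𝒜, A ≤ Q → x ∈ A := by
  unfold IF
  rw [Subgroup.mem_sInf]
  exact ⟨fun h A hA hAQ => h A ⟨hA, hAQ⟩, fun h A hA => h A hA.1 hA.2⟩

/-- the axiomatic ZJ-theorem -/
theorem IF_normal [Finite G] {p : ℕ} [hp : Fact p.Prime]
    (hc : Subgroup.centralizer (Cfsg.pCore p G : Set G) ≤ Cfsg.pCore p G)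
    (hst : Stab p G) (S : Sylow p G) (𝒜 : Set (Subgroup G))
    (h𝒜 : ∀ A ∈ 𝒜, A ≤ (S : Subgroup G) ∧ IsMulCommutative A) (hne : 𝒜.Nonempty)
    (hinv : ∀ Q : Subgroup G, Q ≤ S → (∃ A ∈ 𝒜, A ≤ Q) → ∀ g ∈ Subgroup.normalizer (Q : Set G),
      ∀ x ∈ IF 𝒜 Q, g * x * g⁻¹ ∈ IF 𝒜 Q)
    (hrep : ∀ B : Subgroup G, B ≤ S → ⁅⁅B, B⁆, B⁆ = ⊥ → (∃ A ∈ 𝒜, ⁅B, B⁆ ≤ A ∧ ¬ B ≤ A) →
      ∃ A ∈ 𝒜, ⁅B, B⁆ ≤ A ∧ ¬ B ≤ A ∧ B ≤ Subgroup.normalizer (A : Set G)) :
    (IF 𝒜 (S : Subgroup G)).Normal := by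
  classical
  set Z := IF 𝒜 (S : Subgroup G) with hZ
  obtain ⟨A₀, hA₀⟩ := hne
  have hZS : Z ≤ S := fun x hx => (h𝒜 A₀ hA₀).1 (mem_IF.1 hx A₀ hA₀ (h𝒜 A₀ hA₀).1)
  have hSZ : (S : Subgroup G) ≤ Subgroup.normalizer (Z : Set G) := by
    intro s hs
    apply CfsgLib.H7Basic.mem_normalizer_of_conj_mem
    exact hinv S le_rfl ⟨A₀, hA₀, (h𝒜 A₀ hA₀).1⟩ s (Subgroup.le_normalizer hs)
  have hZcomm : ∀ x ∈ Z, ∀ y ∈ Z, x * y = y * x := fun x hx y hy =>
    comm_of (h𝒜 A₀ hA₀).2 (mem_IF.1 hx A₀ hA₀ (h𝒜 A₀ hA₀).1) (mem_IF.1 hy A₀ hA₀ (h𝒜 A₀ hA₀).1)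
  haveI hQn := CfsgLib.Core.pCore_normal p G
  set Q := Cfsg.pCore p G with hQ
  have hQp : IsPGroup p Q := CfsgLib.Core.pCore_isPGroup p G
  have hQS : Q ≤ S := CfsgLib.Core.pCore_le_sylow S
  -- Z ≤ Q
  have hZQ : Z ≤ Q := by
    intro z hz
    have h1 : ⁅⁅Q, Subgroup.zpowers z⁆, Subgroup.zpowers z⁆ = ⊥ := by
      have hzZ : Subgroup.zpowers z ≤ Z := by rwa [Subgroup.zpowers_le]
      have h2 : ⁅Q, Subgroup.zpowers z⁆ ≤ Z := by
        refine (Subgroup.commutator_mono hQS hzZ).trans ?_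
        rw [Subgroup.commutator_comm]
        exact commutator_le_left hSZ
      rw [Subgroup.commutator_eq_bot_iff_le_centralizer]
      intro x hx
      rw [Subgroup.mem_centralizer_iff]
      exact fun y hy => hZcomm y (hzZ hy) x (h2 hx)
    have h2 := hst Q hQp z h1
    haveI := LP_normal p (Subgroup.centralizer (Q : Set G))
    have h3 : LP p (Subgroup.centralizer (Q : Set G)) ≤ Q := by
      apply CfsgLib.Core.le_pCore inferInstance
      obtain ⟨k, hk⟩ := relIndex_LP (p := p) (Subgroup.centralizer (Q : Set G))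
      obtain ⟨j, hj⟩ := IsPGroup.iff_card.mp (hQp.to_le hc)
      apply IsPGroup.of_card (n := k + j)
      rw [← relIndex_mul_card (le_LP p (Subgroup.centralizer (Q : Set G))), hk, hj, pow_add]
    exact h3 h2
  by_contra hnot
  -- minimal B
  obtain ⟨B, ⟨hBn, hBp, hBZ⟩, hmin⟩ := Set.exists_min_image {B : Subgroup G | B.Normal ∧ IsPGroup p B ∧ ¬ (Z ⊓ B).Normal}
    (fun B => Nat.card B) (Set.toFinite _) ⟨Q, hQn, hQp, by rwa [inf_eq_left.mpr hZQ]⟩
  have hBQ : B ≤ Q := CfsgLib.Core.le_pCore hBn hBp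
  have hBS := hBQ.trans hQS
  have hBgen : Subgroup.normalClosure ((Z ⊓ B : Subgroup G) : Set G) = B := by
    have h1 : Subgroup.normalClosure ((Z ⊓ B : Subgroup G) : Set G) ≤ B := Subgroup.normalClosure_le_normal inf_le_right
    apply Subgroup.eq_of_le_of_card_ge h1
    apply hmin
    refine ⟨inferInstance, hBp.to_le h1, ?_⟩
    have h2 : Z ⊓ Subgroup.normalClosure ((Z ⊓ B : Subgroup G) : Set G) = Z ⊓ B :=
      le_antisymm (inf_le_inf_left _ h1) (le_inf inf_le_left Subgroup.le_normalClosure)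
    rw [h2]; exact hBZ
  have hBne : B ≠ ⊥ := by
    intro h
    apply hBZ
    rw [h, inf_bot_eq]
    infer_instance
  -- B'
  haveI hN₁ : (Z ⊓ ⁅B, B⁆ : Subgroup G).Normal := by
    by_contra hcon
    have h1 := hmin ⁅B, B⁆ ⟨inferInstance, hBp.to_le (commutator_lt_self hBp hBne).le, hcon⟩
    exact absurd (CfsgLib.H7Basic.card_lt_card_of_lt (commutator_lt_self hBp hBne)) (not_lt.mpr h1)
  have hB'Z : ⁅B, B⁆ ≤ Z := by
    set N₁ := Z ⊓ ⁅B, B⁆ with hN₁def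
    haveI : (B.map (QuotientGroup.mk' N₁)).Normal := hBn.map _ (QuotientGroup.mk'_surjective _)
    haveI hK : ((Subgroup.centralizer ((B.map (QuotientGroup.mk' N₁) : Subgroup (G ⧸ N₁)) : Set (G ⧸ N₁))).comap (QuotientGroup.mk' N₁)).Normal :=
      inferInstance
    have h1 : Subgroup.normalClosure ((Z ⊓ B : Subgroup G) : Set G) ≤
        (Subgroup.centralizer ((B.map (QuotientGroup.mk' N₁) : Subgroup (G ⧸ N₁)) : Set (G ⧸ N₁))).comap (QuotientGroup.mk' N₁) := by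
      apply Subgroup.normalClosure_le_normal
      intro x hx
      obtain ⟨hxZ, hxB⟩ := Subgroup.mem_inf.mp hx
      show QuotientGroup.mk' N₁ x ∈ Subgroup.centralizer ((B.map (QuotientGroup.mk' N₁) : Subgroup (G ⧸ N₁)) : Set (G ⧸ N₁))
      rw [Subgroup.mem_centralizer_iff]
      rintro _ ⟨y, hy, rfl⟩
      rw [← map_mul, ← map_mul]
      apply QuotientGroup.eq.mpr
      have h2 : (y * x)⁻¹ * (x * y) = x⁻¹ * y⁻¹ * x⁻¹⁻¹ * y⁻¹⁻¹ := by group
      rw [h2]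
      refine Subgroup.mem_inf.mpr ⟨?_, Subgroup.commutator_mem_commutator (inv_mem hxB) (inv_mem hy)⟩
      have h3 : x⁻¹ * y⁻¹ * x⁻¹⁻¹ * y⁻¹⁻¹ = x⁻¹ * (y⁻¹ * x * y⁻¹⁻¹) := by group
      rw [h3]
      exact mul_mem (inv_mem hxZ) (conj_mem (hSZ (hBS (inv_mem hy))) hxZ)
    rw [hBgen] at h1
    refine le_trans ?_ (inf_le_left : N₁ ≤ Z)
    rw [Subgroup.commutator_le]
    intro x hx y hy
    have h2 := (Subgroup.mem_centralizer_iff.mp (h1 hx)) _ (Subgroup.mem_map_of_mem _ hy)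
    rw [← QuotientGroup.eq_one_iff]
    show QuotientGroup.mk' N₁ ⁅x, y⁆ = 1
    rw [map_commutatorElement, commutatorElement_eq_one_iff_mul_comm]
    exact h2.symm
  -- class at most two
  have hBcl : ⁅⁅B, B⁆, B⁆ = ⊥ := by
    haveI hCn : (Subgroup.centralizer ((⁅B, B⁆ : Subgroup G) : Set G)).Normal := inferInstance
    have h1 : Subgroup.normalClosure ((Z ⊓ B : Subgroup G) : Set G) ≤ Subgroup.centralizer ((⁅B, B⁆ : Subgroup G) : Set G) := by
      apply Subgroup.normalClosure_le_normal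
      intro x hx
      rw [SetLike.mem_coe, Subgroup.mem_centralizer_iff]
      intro y hy
      exact hZcomm y (hB'Z hy) x hx.1
    rw [hBgen] at h1
    rw [Subgroup.commutator_comm, Subgroup.commutator_eq_bot_iff_le_centralizer]
    exact h1
  -- an element of the family not containing B
  obtain ⟨U, hU, hBU⟩ : ∃ U ∈ 𝒜, ¬ B ≤ U := by
    by_contra hcon
    push Not at hcon
    apply hBZ
    have h1 : B ≤ Z := fun x hx => mem_IF.2 fun A hA _ => hcon A hA hx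
    rw [inf_eq_right.mpr h1]
    exact hBn
  obtain ⟨A, hA, hAB', hBA, hBnA⟩ := hrep B hBS hBcl ⟨U, hU,
    fun x hx => mem_IF.1 (hB'Z hx) U hU (h𝒜 U hU).1, hBU⟩
  -- A acts quadratically
  have hquad : ∀ a ∈ A, a ∈ LP p (Subgroup.centralizer (B : Set G)) := by
    intro a ha
    apply hst B hBp
    have haA : Subgroup.zpowers a ≤ A := by rwa [Subgroup.zpowers_le]
    have h2 : ⁅B, Subgroup.zpowers a⁆ ≤ A := by
      refine (Subgroup.commutator_mono le_rfl haA).trans ?_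
      rw [Subgroup.commutator_comm]
      exact commutator_le_left hBnA
    rw [Subgroup.commutator_eq_bot_iff_le_centralizer]
    intro x hx
    rw [Subgroup.mem_centralizer_iff]
    exact fun y hy => comm_of (h𝒜 A hA).2 (haA hy) (h2 hx)
  set C := Subgroup.centralizer (B : Set G) with hC
  set T := (S : Subgroup G) ⊓ LP p C with hT
  have hAT : A ≤ T := le_inf (h𝒜 A hA).1 hquad
  have hZT : Z ≤ IF 𝒜 T := fun x hx => mem_IF.2 fun A' hA' hA'T => mem_IF.1 hx A' hA' (hA'T.trans inf_le_left)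
  apply hBA
  have h1 : Subgroup.normalClosure ((Z ⊓ B : Subgroup G) : Set G) ≤ IF 𝒜 T := by
    unfold Subgroup.normalClosure
    rw [Subgroup.closure_le]
    intro x hx
    obtain ⟨z, hz, hzx⟩ := Group.mem_conjugatesOfSet_iff.mp hx
    obtain ⟨g, rfl⟩ := isConj_iff.mp hzx
    obtain ⟨hzZ, hzB⟩ := Subgroup.mem_inf.mp hz
    obtain ⟨n, hn, c, hc', rfl⟩ := exists_mul C S g
    have h2 : c * z * c⁻¹ = z := mem_centralizer_iff'.mp hc' z hzB
    have h3 : n * c * z * (n * c)⁻¹ = n * (c * z * c⁻¹) * n⁻¹ := by group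
    rw [h3, h2]
    exact hinv T inf_le_left ⟨A, hA, hAT⟩ n hn z (hZT hzZ)
  rw [hBgen] at h1
  exact fun x hx => mem_IF.1 (h1 hx) A hA hAT

end CfsgLib.H9Fam
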