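import Cfsg.Agent.Lib.FusionNil4
import Cfsg.Agent.Lib.FusionReal
import Cfsg.Agent.Lib.H9Fam
/-!
The axiomatic Glauberman–Thompson criterion for fusion systems.
-/
set_option autoImplicit false
set_option maxHeartbeats 400000

namespace CfsgLib.Fusion

open Cfsg Cfsg.FusionSystem CfsgLib.SylowIn CfsgLib.StronglyEmb CfsgLib.H9NPC CfsgLib.ZJ4
open CfsgLib.ThompsonNPC CfsgLib.NPC CfsgLib.ZJ3 CfsgLib.H9Fam

universe u w

/-- stability when a Sylow subgroup is maximal. -/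
theorem stab_of_maximal {L : Type u} [Group L] [Finite L] {p : ℕ} [hp : Fact p.Prime] (hp2 : p ≠ 2)
    (T : Sylow p L) (hne : (T : Subgroup L) ≠ pCore p L) (htop : (T : Subgroup L) ≠ ⊤)
    (hmaxP : ∀ M : Subgroup L, (T : Subgroup L) ≤ M → M = T ∨ M = ⊤) : Stab p L := by
  haveI hHn := CfsgLib.Core.pCore_normal p L
  set H := Cfsg.pCore p L with hH
  have hHp : IsPGroup p H := CfsgLib.Core.pCore_isPGroup p L
  have hHT : H ≤ T := CfsgLib.Core.pCore_le_sylow T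
  have hmaxH : ∀ Q : Subgroup L, Q.Normal → IsPGroup p Q → Q ≤ H :=
    fun Q h1 h2 => CfsgLib.Core.le_pCore h1 h2
  have hsurj := QuotientGroup.mk'_surjective H
  have hker : (QuotientGroup.mk' H).ker = H := QuotientGroup.ker_mk' H
  -- the quotient is `p`-nilpotent
  have hq : NPC p (L ⧸ H) := by
    let Tb : Sylow p (L ⧸ H) := T.mapSurjective hsurj
    have hTb : (Tb : Subgroup (L ⧸ H)) = (T : Subgroup L).map (QuotientGroup.mk' H) := rfl
    refine npc_of_ZM hp2 (dvd_zero p) Tb (D := (Tb : Subgroup (L ⧸ H))) ⟨le_rfl, fun _ _ _ h => h⟩ ?_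
    set V := ZM 0 (Tb : Subgroup (L ⧸ H)) with hV
    have hTbb : (Tb : Subgroup (L ⧸ H)) ≠ ⊥ := by
      intro h
      apply hne
      apply le_antisymm _ hHT
      intro x hx
      have h1 : QuotientGroup.mk' H x ∈ (Tb : Subgroup (L ⧸ H)) := Subgroup.mem_map_of_mem _ hx
      rw [h, Subgroup.mem_bot] at h1
      exact (QuotientGroup.eq_one_iff x).1 h1
    have hVb : V ≠ ⊥ := CfsgLib.PSt2.ZM_ne_bot Tb.isPGroup' hTbb (dvd_zero p)
    have hVT : V ≤ Tb := ZM_le 0 _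
    have hVp : IsPGroup p V := Tb.isPGroup'.to_le hVT
    have hTN : (Tb : Subgroup (L ⧸ H)) ≤ Subgroup.normalizer (V : Set (L ⧸ H)) :=
      Subgroup.le_normalizer.trans (normalizer_le_normalizer_ZM 0 _)
    have hN : T ≤ (Subgroup.normalizer (V : Set (L ⧸ H))).comap (QuotientGroup.mk' H) := by
      rw [← Subgroup.map_le_iff_le_comap]; exact hTN
    rcases hmaxP _ hN with h | h
    · -- the normalizer is a `p`-group
      have h1 : IsPGroup p (Subgroup.normalizer (V : Set (L ⧸ H))) := by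
        rw [← Subgroup.map_comap_eq_self_of_surjective hsurj (Subgroup.normalizer (V : Set (L ⧸ H))), h]
        exact T.isPGroup'.map _
      exact npc_of_isPGroup h1
    · exfalso
      apply hVb
      have h1 : V.Normal := by
        rw [← Subgroup.normalizer_eq_top_iff, ← Subgroup.map_comap_eq_self_of_surjective hsurj
          (Subgroup.normalizer (V : Set (L ⧸ H))), h]
        exact Subgroup.map_top_of_surjective _ hsurj
      have h2 : (V.comap (QuotientGroup.mk' H)).Normal := h1.comap _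
      have h3 : IsPGroup p (V.comap (QuotientGroup.mk' H)) :=
        hVp.comap_of_ker_isPGroup _ (by rw [hker]; exact hHp)
      have h4 := hmaxH _ h2 h3
      rw [eq_bot_iff, ← Subgroup.map_comap_eq_self_of_surjective hsurj V]
      rintro _ ⟨x, hx, rfl⟩
      rw [Subgroup.mem_bot]
      exact (QuotientGroup.eq_one_iff x).2 (h4 hx)
  obtain ⟨K, hKn, hKc, k, hk⟩ := hq
  have hKP : K ⊔ (T : Subgroup L).map (QuotientGroup.mk' H) = ⊤ := by
    rw [← Subgroup.index_eq_one]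
    have h1 : (K ⊔ (T : Subgroup L).map (QuotientGroup.mk' H)).index ∣ p ^ k := by
      rw [← hk]; exact Subgroup.index_dvd_of_le le_sup_left
    have h2 : (K ⊔ (T : Subgroup L).map (QuotientGroup.mk' H)).index ∣ ((T : Subgroup L).map (QuotientGroup.mk' H)).index :=
      Subgroup.index_dvd_of_le le_sup_right
    have h3 : ¬ p ∣ ((T : Subgroup L).map (QuotientGroup.mk' H)).index :=
      (T.mapSurjective (QuotientGroup.mk'_surjective H)).not_dvd_index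
    obtain ⟨l, -, hl⟩ := (Nat.dvd_prime_pow hp.out).mp h1
    rcases Nat.eq_zero_or_pos l with h0 | h0
    · rw [hl, h0, pow_zero]
    · exfalso
      apply h3
      refine dvd_trans ?_ h2
      rw [hl]; exact dvd_pow_self p h0.ne'
  have hKb : K ≠ ⊥ := by
    rintro rfl
    apply htop
    rw [Subgroup.index_bot] at hk
    have h1 : IsPGroup p (L ⧸ H) := IsPGroup.of_card hk
    have h2 : IsPGroup p L := by
      intro y
      obtain ⟨a, ha⟩ := h1 (QuotientGroup.mk y)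
      have h3 : y ^ p ^ a ∈ H := by
        rw [← QuotientGroup.eq_one_iff, QuotientGroup.mk_pow]; exact ha
      obtain ⟨b, hb⟩ := hHp ⟨_, h3⟩
      refine ⟨a + b, ?_⟩
      rw [pow_add, pow_mul]; exact congrArg Subtype.val hb
    exact (T.is_maximal' (h2.of_equiv Subgroup.topEquiv.symm) le_top).symm
  exact H9GT.stab_of_conf hHp hmaxH T hHT hmaxP hKc hKP hp2 hKb

/-- In a model of a minimal noninner system the Sylow subgroup is maximal. -/
theorem maximal_of_minimal {Ω : Type*} [Group Ω] {S : Subgroup Ω} [Finite S] {p : ℕ}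
    [Fact p.Prime] (hS : IsPGroup p S) {E : FusionSystem S} {L : Type*} [Group L] [Finite L] {κ : S →* L}
    (hreal : E.IsRealizedBy κ) {T : Sylow p L} (hT : (T : Subgroup L) = κ.range)
    (hC : Subgroup.centralizer ((pCore p L : Subgroup L) : Set L) ≤ pCore p L)
    (hmin : ∀ E' : FusionSystem S, E'.IsSaturated p → E' ≤ E → ¬ E' ≤ innerFusionSystem S → E ≤ E') :
    ∀ M : Subgroup L, (T : Subgroup L) ≤ M → M = T ∨ M = ⊤ := by
  intro M hM
  obtain ⟨κ', hκ'e, hκ', hsat, hle, hrange⟩ := realSys_sub hreal hT hM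
  haveI hHn := CfsgLib.Core.pCore_normal p L
  have hHp : IsPGroup p (pCore p L) := CfsgLib.Core.pCore_isPGroup p L
  have hHT : pCore p L ≤ T := CfsgLib.Core.pCore_le_sylow T
  by_cases hin : realSys κ' hκ' ≤ innerFusionSystem S
  · left
    have h1 : NPC p M := by
      have h2 := npc_normalizer_of_inner hS (realSys_realized κ' hκ') hrange (V := ⊥) bot_le
        (by intro s _ v hv; rw [Subgroup.mem_bot] at hv ⊢; rw [hv]; group)
        (fun P f hf _ _ => (FMap_innerSys.1 (le_iff_FMap.1 hin P f hf)).2)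
      have e1 : (((⊥ : Subgroup Ω).subgroupOf S).map κ' : Subgroup M) = ⊥ := by
        rw [Subgroup.bot_subgroupOf, Subgroup.map_bot]
      rw [e1, Subgroup.normalizer_eq_top] at h2
      exact npc_top_iff.1 h2
    exact CfsgLib.NPCFun.sylow_maximal hHp hC T M hM h1
  · right
    have h1 := hmin _ hsat hle hin
    rw [eq_top_iff]
    intro g _
    -- the map induced by `g` on `O_p`
    let A : Subgroup Ω := ((pCore p L).comap κ).map S.subtype
    have hAS : A ≤ S := Subgroup.map_subtype_le _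
    obtain ⟨f, hf, hfx⟩ := Fusion.IsRealizedBy.exists_FMap hreal hAS g (by
      rintro x ⟨y, hy, rfl⟩
      have h2 : g * κ y * g⁻¹ ∈ κ.range := by
        rw [← hT]; exact hHT (hHn.conj_mem _ hy g)
      obtain ⟨z, hz⟩ := h2
      exact ⟨z, z.2, hz.symm⟩)
    obtain ⟨hP, hfS, m, hm⟩ := FMap_realSys.1 (le_iff_FMap.1 h1 A f hf)
    have h3 : (m : L)⁻¹ * g ∈ Subgroup.centralizer ((pCore p L : Subgroup L) : Set L) := by
      rw [Subgroup.mem_centralizer_iff]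
      intro x hx
      have hx' : x ∈ κ.range := by rw [← hT]; exact hHT hx
      obtain ⟨y, rfl⟩ := hx'
      have hyA : (y : Ω) ∈ A := ⟨y, hx, rfl⟩
      have h4 := congrArg Subtype.val (hm y hyA)
      rw [hκ'e, Subgroup.coe_mul, Subgroup.coe_mul, hκ'e, Subgroup.coe_inv] at h4
      have h5 := hfx y hyA (hfS y hyA)
      rw [h4] at h5
      have h6 : (m : L) * κ y * (m : L)⁻¹ = g * κ y * g⁻¹ := h5
      have h7 : κ y = (m : L)⁻¹ * (g * κ y * g⁻¹) * m := by rw [← h6]; group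
      calc κ y * ((m : L)⁻¹ * g) = ((m : L)⁻¹ * (g * κ y * g⁻¹) * m) * ((m : L)⁻¹ * g) := by rw [← h7]
        _ = (m : L)⁻¹ * g * κ y := by group
    have h8 := hM (hHT (hC h3))
    have e : g = (m : L) * ((m : L)⁻¹ * g) := by group
    rw [e]
    exact M.mul_mem m.2 h8

section
variable {Ω : Type*} [Group Ω] {S : Subgroup Ω} {L : Type*} [Group L] {κ : S →* L}

/-- transport to `L` -/
theorem comap_map_sub (hκ : Function.Injective κ) {A : Subgroup Ω} (hA : A ≤ S) :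
    (((A.subgroupOf S).map κ).comap κ).map S.subtype = A := by
  rw [Subgroup.comap_map_eq_self_of_injective hκ, Subgroup.map_subgroupOf_eq_of_le hA]

theorem map_comap_sub {B : Subgroup L} (hB : B ≤ κ.range) :
    ((((B.comap κ).map S.subtype).subgroupOf S).map κ) = B := by
  rw [Subgroup.subgroupOf, Subgroup.comap_map_eq_self_of_injective S.subtype_injective]
  exact Subgroup.map_comap_eq_self hB

theorem map_sub_le_iff (hκ : Function.Injective κ) {A B : Subgroup Ω} (hA : A ≤ S) (hB : B ≤ S) :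
    (A.subgroupOf S).map κ ≤ (B.subgroupOf S).map κ ↔ A ≤ B := by
  rw [Subgroup.map_le_map_iff_of_injective hκ]
  constructor
  · intro h x hx
    exact h (show (⟨x, hA hx⟩ : S) ∈ A.subgroupOf S from hx)
  · intro h x hx; exact h hx

end

theorem inner_of_family {Ω : Type u} [Group Ω] {S : Subgroup Ω} [Finite S] {p : ℕ}
    [Fact p.Prime] (hp2 : p ≠ 2) (hS : IsPGroup p S) {F : FusionSystem S} (hF : F.IsSaturated p)
    (𝒜 : Set (Subgroup Ω)) (h𝒜 : ∀ A ∈ 𝒜, A ≤ S ∧ IsMulCommutative A) (hne : 𝒜.Nonempty)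
    (hinv : ∀ Q : Subgroup Ω, Q ≤ S → (∃ A ∈ 𝒜, A ≤ Q) → ∀ f, FMap F Q f → img Q f = Q →
      ∀ x ∈ IF 𝒜 Q, f x ∈ IF 𝒜 Q)
    (hrep : ∀ B : Subgroup Ω, B ≤ S → ⁅⁅B, B⁆, B⁆ = ⊥ → (∃ A ∈ 𝒜, ⁅B, B⁆ ≤ A ∧ ¬ B ≤ A) →
      ∃ A ∈ 𝒜, ⁅B, B⁆ ≤ A ∧ ¬ B ≤ A ∧ B ≤ Subgroup.normalizer (A : Set Ω))
    (h : ∀ P f, FMap F P f → IF 𝒜 S ≤ P → (∀ x ∈ IF 𝒜 S, f x ∈ IF 𝒜 S) →
      ∃ s ∈ S, ∀ x ∈ P, f x = s * x * s⁻¹) : F ≤ innerFusionSystem S := by
  by_contra hneq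
  obtain ⟨E, hEF, ⟨hE, hEn⟩, hmin⟩ := exists_minimal_le F
    (fun E => E.IsSaturated p ∧ ¬ E ≤ innerFusionSystem S) ⟨hF, hneq⟩
  have hmin' : ∀ E' : FusionSystem S, E'.IsSaturated p → E' ≤ E → ¬ E' ≤ innerFusionSystem S → E ≤ E' :=
    fun E' h1 h2 h3 => hmin E' h2 ⟨h1, h3⟩
  obtain ⟨hsat, Q₀, hQ₀, hQ₀c⟩ := sparse_constrained (W := WT) WT1 WT2 (WT_hyp (p := p)) hS hE
    (Or.inl hp2) hEn hmin'
  obtain ⟨L, _, κ, hL, -⟩ := exists_model hS hE hQ₀ hQ₀c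
  obtain ⟨hLf, hreal, ⟨T, hT⟩, hLC⟩ := id hL
  have hκ := hreal.1
  have hle := le_iff_FMap.1 hEF
  have hmaxP := maximal_of_minimal hS hreal hT hLC hmin'
  obtain ⟨A₀, hA₀⟩ := id hne
  have hIS : IF 𝒜 S ≤ S := fun x hx => (h𝒜 A₀ hA₀).1 (mem_IF.1 hx A₀ hA₀ (h𝒜 A₀ hA₀).1)
  -- the family in `L`
  let ℬ : Set (Subgroup L) := {B | ∃ A ∈ 𝒜, B = (A.subgroupOf S).map κ}
  have hIF : ∀ Q : Subgroup Ω, Q ≤ S → (∃ A ∈ 𝒜, A ≤ Q) → IF ℬ ((Q.subgroupOf S).map κ) = ((IF 𝒜 Q).subgroupOf S).map κ := by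
    intro Q hQ hex
    obtain ⟨A₁, hA₁, hA₁Q⟩ := hex
    ext y
    rw [mem_IF]
    constructor
    · intro hy
      have h1 := hy _ ⟨A₁, hA₁, rfl⟩ ((map_sub_le_iff hκ (h𝒜 A₁ hA₁).1 hQ).2 hA₁Q)
      obtain ⟨s, hs, rfl⟩ := h1
      refine ⟨s, ?_, rfl⟩
      show (s : Ω) ∈ IF 𝒜 Q
      rw [mem_IF]
      intro A hA hAQ
      obtain ⟨t, ht, hts⟩ := hy _ ⟨A, hA, rfl⟩ ((map_sub_le_iff hκ (h𝒜 A hA).1 hQ).2 hAQ)
      have : t = s := hκ hts
      rw [← this]; exact ht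
    · rintro ⟨s, hs, rfl⟩ B ⟨A, hA, rfl⟩ hBQ
      have h1 := (map_sub_le_iff hκ (h𝒜 A hA).1 hQ).1 hBQ
      exact ⟨s, mem_IF.1 (show (s : Ω) ∈ IF 𝒜 Q from hs) A hA h1, rfl⟩
  have hSeq : (S.subgroupOf S).map κ = (T : Subgroup L) := by
    rw [Subgroup.subgroupOf_self, hT, MonoidHom.range_eq_map]
  have hℬ : ∀ B ∈ ℬ, B ≤ (T : Subgroup L) ∧ IsMulCommutative B := by
    rintro _ ⟨A, hA, rfl⟩
    refine ⟨by rw [hT]; exact Subgroup.map_le_range _ _, ?_⟩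
    apply CfsgLib.PL1.mul_comm_mk
    rintro _ ⟨x, hx, rfl⟩ _ ⟨y, hy, rfl⟩
    rw [← map_mul, ← map_mul]
    congr 1
    apply Subtype.ext
    exact CfsgLib.PL1.comm_of (h𝒜 A hA).2 hx hy
  have hinvL : ∀ Q : Subgroup L, Q ≤ T → (∃ A ∈ ℬ, A ≤ Q) → ∀ g ∈ Subgroup.normalizer (Q : Set L),
      ∀ x ∈ IF ℬ Q, g * x * g⁻¹ ∈ IF ℬ Q := by
    rintro Q hQT ⟨_, ⟨A, hA, rfl⟩, hAQ⟩ g hg x hx
    set Q' : Subgroup Ω := (Q.comap κ).map S.subtype with hQ'
    have hQ'S : Q' ≤ S := Subgroup.map_subtype_le _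
    have hQQ : (Q'.subgroupOf S).map κ = Q := map_comap_sub (by rw [← hT]; exact hQT)
    have hAQ' : A ≤ Q' := by
      rw [← map_sub_le_iff hκ (h𝒜 A hA).1 hQ'S, hQQ]; exact hAQ
    have hQ'f : Finite Q' := finite_of_le hQ'S
    have hmemQ : ∀ z (hz : z ∈ S), z ∈ Q' ↔ κ ⟨z, hz⟩ ∈ Q := by
      intro z hz
      constructor
      · rintro ⟨y, hy, rfl⟩; exact hy
      · intro h; exact ⟨⟨z, hz⟩, h, rfl⟩
    obtain ⟨f, hf, hfx⟩ := Fusion.IsRealizedBy.exists_FMap hreal hQ'S g (by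
      intro z hz
      have h1 : g * κ ⟨z, hQ'S hz⟩ * g⁻¹ ∈ Q :=
        (Subgroup.mem_normalizer_iff.1 hg _).1 ((hmemQ z (hQ'S hz)).1 hz)
      have h2 : g * κ ⟨z, hQ'S hz⟩ * g⁻¹ ∈ κ.range := by rw [← hT]; exact hQT h1
      obtain ⟨y, hy⟩ := h2
      exact ⟨y, y.2, hy.symm⟩)
    have hfQ : img Q' f = Q' := hf.img_eq_of_mapsTo fun z hz => by
      rw [hmemQ _ (hf.mapsTo hz), hfx z hz]
      exact (Subgroup.mem_normalizer_iff.1 hg _).1 ((hmemQ z (hQ'S hz)).1 hz)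
    have hIQ := hIF Q' hQ'S ⟨A, hA, hAQ'⟩
    rw [hQQ] at hIQ
    rw [hIQ] at hx ⊢
    obtain ⟨z, hz, rfl⟩ := hx
    have hzI : (z : Ω) ∈ IF 𝒜 Q' := hz
    have hzQ : (z : Ω) ∈ Q' := hAQ' (mem_IF.1 hzI A hA hAQ')
    have h3 := hinv Q' hQ'S ⟨A, hA, hAQ'⟩ f (hle _ _ hf) hfQ z hzI
    exact ⟨⟨f z, hf.mapsTo hzQ⟩, h3, hfx z hzQ _⟩
  have hrepL : ∀ B : Subgroup L, B ≤ T → ⁅⁅B, B⁆, B⁆ = ⊥ → (∃ A ∈ ℬ, ⁅B, B⁆ ≤ A ∧ ¬ B ≤ A) →
      ∃ A ∈ ℬ, ⁅B, B⁆ ≤ A ∧ ¬ B ≤ A ∧ B ≤ Subgroup.normalizer (A : Set L) := by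
    rintro B hBT hBc ⟨_, ⟨A, hA, rfl⟩, hA1, hA2⟩
    set B' : Subgroup S := B.comap κ with hB'
    have hBB : B'.map κ = B := Subgroup.map_comap_eq_self (by rw [← hT]; exact hBT)
    set B₁ : Subgroup Ω := B'.map S.subtype with hB₁
    have hB₁S : B₁ ≤ S := Subgroup.map_subtype_le _
    have hB₁sub : B₁.subgroupOf S = B' := by
      rw [hB₁, Subgroup.subgroupOf, Subgroup.comap_map_eq_self_of_injective S.subtype_injective]
    have hcomm : ∀ A : Subgroup Ω, A ≤ S → (⁅B₁, B₁⁆ ≤ A ↔ ⁅B, B⁆ ≤ (A.subgroupOf S).map κ) := by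
      intro A hA
      rw [hB₁, ← Subgroup.map_commutator, ← hBB, ← Subgroup.map_commutator,
        Subgroup.map_le_map_iff_of_injective hκ, Subgroup.map_le_iff_le_comap]
      rfl
    have hle' : ∀ A : Subgroup Ω, A ≤ S → (B₁ ≤ A ↔ B ≤ (A.subgroupOf S).map κ) := by
      intro A hA
      rw [← map_sub_le_iff hκ hB₁S hA, hB₁sub, hBB]
    have hcl : ⁅⁅B₁, B₁⁆, B₁⁆ = ⊥ := by
      have h1 : ⁅⁅B', B'⁆, B'⁆ = ⊥ := by
        rw [← Subgroup.map_eq_bot_iff_of_injective _ hκ, Subgroup.map_commutator, Subgroup.map_commutator, hBB]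
        exact hBc
      rw [hB₁, ← Subgroup.map_commutator, ← Subgroup.map_commutator, h1, Subgroup.map_bot]
    have hAS := (h𝒜 A hA).1
    obtain ⟨A', hA', h1, h2, h3⟩ := hrep B₁ hB₁S hcl ⟨A, hA, (hcomm A hAS).2 hA1,
      fun hh => hA2 ((hle' A hAS).1 hh)⟩
    have hA'S := (h𝒜 A' hA').1
    refine ⟨_, ⟨A', hA', rfl⟩, (hcomm A' hA'S).1 h1, fun hh => h2 ((hle' A' hA'S).2 hh), ?_⟩
    intro b hb
    rw [← hBB] at hb
    obtain ⟨s, hs, rfl⟩ := hb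
    apply CfsgLib.H7Basic.mem_normalizer_of_conj_mem
    rintro _ ⟨a, ha, rfl⟩
    have hsB : (s : Ω) ∈ B₁ := ⟨s, hs, rfl⟩
    refine ⟨s * a * s⁻¹, (Subgroup.mem_normalizer_iff.1 (h3 hsB) (a : Ω)).1 ha, ?_⟩
    rw [map_mul, map_mul, map_inv]
  have hexS : ∃ A ∈ 𝒜, A ≤ S := ⟨A₀, hA₀, (h𝒜 A₀ hA₀).1⟩
  -- normality
  have hnormal : (IF ℬ (T : Subgroup L)).Normal := by
    by_cases hcore : (T : Subgroup L) = pCore p L
    · haveI hHn := CfsgLib.Core.pCore_normal p L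
      refine ⟨fun x hx g => ?_⟩
      refine hinvL T le_rfl ⟨_, ⟨A₀, hA₀, rfl⟩, (hℬ _ ⟨A₀, hA₀, rfl⟩).1⟩ g ?_ x hx
      rw [hcore, Subgroup.normalizer_eq_top]; trivial
    · by_cases htop : (T : Subgroup L) = ⊤
      · refine ⟨fun x hx g => ?_⟩
        refine hinvL T le_rfl ⟨_, ⟨A₀, hA₀, rfl⟩, (hℬ _ ⟨A₀, hA₀, rfl⟩).1⟩ g ?_ x hx
        rw [htop, Subgroup.normalizer_eq_top]; trivial
      · exact IF_normal hLC (stab_of_maximal hp2 T hcore htop hmaxP) T ℬ hℬ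
          ⟨_, A₀, hA₀, rfl⟩ hinvL hrepL
  rw [← hSeq, hIF S le_rfl hexS] at hnormal
  have hnE := IsRealizedBy.isNormal_of_normal hreal hIS hnormal
  apply hEn
  rw [le_iff_FMap]
  intro P f hf
  obtain ⟨g, hg, hgP, hgI⟩ := (isNormal_iff.1 hnE).2 P f hf
  obtain ⟨s, hs, hsg⟩ := h _ g (hle _ _ hg) le_sup_right (fun x hx => by
    rw [← hgI]; exact apply_mem_img hx)
  rw [FMap_innerSys]
  exact ⟨hf.le, s, hs, fun x hx => by rw [← hgP x hx]; exact hsg x (Subgroup.mem_sup_left hx)⟩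

end CfsgLib.Fusion
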