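import Cfsg.Agent.Lib.FusionPSt2
import Cfsg.Agent.Lib.FusionGroup

/-!
`p`-stability of groups and of fusion systems.
-/
set_option autoImplicit false
set_option maxHeartbeats 400000

namespace CfsgLib.Fusion

open Cfsg Cfsg.FusionSystem CfsgLib.SylowIn CfsgLib.StronglyEmb
open scoped commutatorElement

section core

theorem mem_pCore_of_ker {p : ℕ} {N A B : Type*} [Group N] [Group A] [Group B] [Finite A] (π₁ : N →* A) (π₂ : N →* B)
    (h2 : Function.Surjective π₂) (hk : π₁.ker = π₂.ker) {x : N}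
    (hx : π₁ x ∈ pCore p A) : π₂ x ∈ pCore p B := by
  have h : (((pCore p A).comap π₁).map π₂) ≤ pCore p B := by
    apply le_pCore
    · have h3 : ((pCore p A).comap π₁).Normal := Subgroup.Normal.comap (Cfsg.pCore_normal p A) π₁
      exact Subgroup.Normal.map h3 π₂ h2
    · rintro ⟨_, y, hy, rfl⟩
      obtain ⟨k, hk'⟩ := (pCore_isPGroup (X := A) p) ⟨π₁ y, hy⟩
      refine ⟨k, Subtype.ext ?_⟩
      show π₂ y ^ p ^ k = 1
      have h4 : π₁ y ^ p ^ k = 1 := congrArg Subtype.val hk'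
      rw [← map_pow] at h4 ⊢
      have h5 : y ^ p ^ k ∈ π₁.ker := h4
      rw [hk] at h5
      exact h5
  exact h ⟨x, hx, rfl⟩

end core

variable {G : Type*} [Group G]

theorem comm_eq_bot_iff [Finite G] {Q : Subgroup G} {g : G} (hg : g ∈ Subgroup.normalizer (Q : Set G)) :
    ⁅⁅Q, Subgroup.zpowers g⁆, Subgroup.zpowers g⁆ = ⊥ ↔ Quad (conjAut Q g hg) := by
  set χ := conjAut Q g hg with hχ
  have hχa : ∀ a : Q, ((χ a : Q) : G) = g * a * g⁻¹ := fun a => rfl
  constructor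
  · intro h a
    have h1 : (a : G)⁻¹ * (g * a * g⁻¹) ∈ ⁅Q, Subgroup.zpowers g⁆ := by
      have := Subgroup.commutator_mem_commutator (H₁ := Q) (H₂ := Subgroup.zpowers g) (Q.inv_mem a.2)
        (Subgroup.mem_zpowers g)
      rw [commutatorElement_def] at this
      have e : (a : G)⁻¹ * (g * a * g⁻¹) = (a : G)⁻¹ * g * ((a : G)⁻¹)⁻¹ * g⁻¹ := by group
      rw [e]; exact this
    have h2 := Subgroup.commutator_mem_commutator h1 (Subgroup.mem_zpowers g)
    rw [h, Subgroup.mem_bot, commutatorElement_def] at h2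
    apply Subtype.ext
    show g * (a : G)⁻¹ * g⁻¹ * a * (g * (a : G)⁻¹ * g⁻¹) * (g * (g * a * g⁻¹) * g⁻¹) = 1
    have h3 : (a : G)⁻¹ * (g * a * g⁻¹) * g = g * ((a : G)⁻¹ * (g * a * g⁻¹)) := by
      rw [mul_inv_eq_one, mul_inv_eq_iff_eq_mul] at h2
      exact h2
    have h4 : g * (a : G)⁻¹ * g⁻¹ * a * (g * (a : G)⁻¹ * g⁻¹) * (g * (g * a * g⁻¹) * g⁻¹) =
      g * (a : G)⁻¹ * g⁻¹ * a * (g * ((a : G)⁻¹ * (g * a * g⁻¹))) * g⁻¹ := by group
    rw [h4, ← h3]
    group
  · intro h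
    rw [Subgroup.commutator_eq_bot_iff_le_centralizer, Subgroup.commutator_le]
    intro a ha b hb
    have hfin : IsOfFinOrder g := isOfFinOrder_of_finite g
    obtain ⟨n, rfl⟩ := (hfin.mem_powers_iff_mem_zpowers.2 hb)
    have hc : ∀ a, χ (a⁻¹ * χ a) = a⁻¹ * χ a := by
      intro a
      have h1 := h a
      rw [map_inv] at h1
      rw [_root_.map_mul, map_inv]
      have h2 : χ (χ a) = χ a * a⁻¹ * χ a := by
        rw [mul_eq_one_iff_eq_inv'] at h1
        rw [h1]; group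
      rw [h2]; group
    have h1 := h.pow ⟨a, ha⟩⁻¹ n
    have h2 : ∀ (n : ℕ) (b : Q), (((χ ^ n) b : Q) : G) = g ^ n * b * (g ^ n)⁻¹ := by
      intro n
      induction n with
      | zero => intro b; simp
      | succ n ih =>
        intro b
        rw [pow_succ']
        show ((χ ((χ ^ n) b) : Q) : G) = _
        rw [hχa, ih, pow_succ']
        group
    have h3 := congrArg Subtype.val h1
    rw [h2] at h3
    have h4 : ⁅a, g ^ n⁆ = (((⟨a, ha⟩⁻¹⁻¹ * χ ⟨a, ha⟩⁻¹ : Q) ^ n : Q) : G) := by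
      rw [commutatorElement_def]
      have e1 : ((⟨a, ha⟩ : Q)⁻¹ : G) = a⁻¹ := rfl
      have h5 : g ^ n * a⁻¹ * (g ^ n)⁻¹ = a⁻¹ * (((⟨a, ha⟩⁻¹⁻¹ * χ ⟨a, ha⟩⁻¹ : Q) ^ n : Q) : G) := h3
      rw [mul_assoc, mul_assoc, ← mul_assoc (g ^ n), h5]
      group
    rw [Subgroup.mem_centralizer_iff]
    rintro c hc'
    obtain ⟨m, rfl⟩ := Subgroup.mem_zpowers_iff.1 hc'
    show Commute (g ^ m) _
    apply Commute.zpow_left
    show Commute g ⁅a, g ^ n⁆
    rw [h4]
    have h6 : χ ((⟨a, ha⟩⁻¹⁻¹ * χ ⟨a, ha⟩⁻¹ : Q) ^ n) = (⟨a, ha⟩⁻¹⁻¹ * χ ⟨a, ha⟩⁻¹ : Q) ^ n := by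
      rw [map_pow, hc]
    have h7 := congrArg Subtype.val h6
    rw [hχa, mul_inv_eq_iff_eq_mul] at h7
    exact h7

theorem mk_mem_pCore_iff [Finite G] {p : ℕ} {S Q : Subgroup G} (hQ : Q ≤ S) {g : G}
    (hg : g ∈ Subgroup.normalizer (Q : Set G)) :
    (QuotientGroup.mk (s := (Subgroup.centralizer (Q : Set G)).subgroupOf (Subgroup.normalizer (Q : Set G)))
          (⟨g, hg⟩ : ↥(Subgroup.normalizer (Q : Set G)))) ∈
        pCore p (↥(Subgroup.normalizer (Q : Set G)) ⧸
          (Subgroup.centralizer (Q : Set G)).subgroupOf (Subgroup.normalizer (Q : Set G))) ↔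
      conjAut Q g hg ∈ OpA (groupFusionSystem S) p Q := by
  have hA : (groupFusionSystem S).autGroup Q = autInducedBy ⊤ Q := by
    rw [groupFusionSystem_eq, autGroup_sub_eq hQ]
  have hmem : ∀ x : Subgroup.normalizer (Q : Set G), Q.normalizerMonoidHom x ∈ (groupFusionSystem S).autGroup Q := by
    intro x
    rw [hA, mem_autInducedBy_iff]
    exact ⟨x, trivial, fun y => rfl⟩
  let π₂ : Subgroup.normalizer (Q : Set G) →* ↥((groupFusionSystem S).autGroup Q) :=
    Q.normalizerMonoidHom.codRestrict _ hmem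
  let π₁ := QuotientGroup.mk' ((Subgroup.centralizer (Q : Set G)).subgroupOf (Subgroup.normalizer (Q : Set G)))
  have hk : π₁.ker = π₂.ker := by
    rw [QuotientGroup.ker_mk']
    ext x
    rw [Subgroup.mem_subgroupOf, MonoidHom.mem_ker, Subgroup.mem_centralizer_iff]
    constructor
    · intro h
      apply Subtype.ext
      ext y
      show (x : G) * y * (x : G)⁻¹ = y
      rw [← h y y.2, mul_inv_cancel_right]
    · intro h y hy
      have h1 := congrArg (fun α : ↥((groupFusionSystem S).autGroup Q) => (((α : MulAut Q) ⟨y, hy⟩ : Q) : G)) h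
      have h2 : (x : G) * y * (x : G)⁻¹ = y := h1
      rw [mul_inv_eq_iff_eq_mul] at h2
      exact h2.symm
  have hs2 : Function.Surjective π₂ := by
    rintro ⟨α, hα⟩
    rw [hA, mem_autInducedBy_iff] at hα
    obtain ⟨y, -, hy⟩ := hα
    refine ⟨⟨y, autInducedBy_mem_normalizer hy⟩, Subtype.ext ?_⟩
    ext z
    exact (hy z).symm
  have hs1 : Function.Surjective π₁ := QuotientGroup.mk'_surjective _
  have hfin : Finite ↥((groupFusionSystem S).autGroup Q) := inferInstance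
  constructor
  · intro h
    refine ⟨π₂ ⟨g, hg⟩, mem_pCore_of_ker π₁ π₂ hs2 hk h, ?_⟩
    ext x
    rfl
  · rintro ⟨β, hβ, hβe⟩
    have : β = π₂ ⟨g, hg⟩ := Subtype.ext (by
      rw [show (β : MulAut Q) = conjAut Q g hg from hβe]
      ext x
      rfl)
    rw [this] at hβ
    exact mem_pCore_of_ker π₂ π₁ hs1 hk.symm hβ

theorem normalizerPStable_iff [Finite G] {p : ℕ} [Fact p.Prime] (P : Sylow p G) :
    IsNormalizerPStable p G ↔ PStab (groupFusionSystem (P : Subgroup G)) p := by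
  constructor
  · intro h Q hQ χ hχ hq
    have hχ' := hχ
    rw [groupFusionSystem_eq, autGroup_sub_eq hQ.1, mem_autInducedBy_iff] at hχ'
    obtain ⟨g, -, hg⟩ := hχ'
    have hgN := autInducedBy_mem_normalizer hg
    have he : χ = conjAut Q g hgN := by
      ext x; exact hg x
    rw [he] at hq ⊢
    rw [← mk_mem_pCore_iff hQ.1]
    exact h Q (P.isPGroup'.to_le hQ.1) g hgN ((comm_eq_bot_iff hgN).2 hq)
  · intro h Q hQ g hg hc
    rw [comm_eq_bot_iff hg] at hc
    obtain ⟨x, hx⟩ : ∃ x : G, cj x Q ≤ (P : Subgroup G) := by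
      obtain ⟨R, hR⟩ := hQ.exists_le_sylow
      obtain ⟨x, hx⟩ := MulAction.exists_smul_eq G R P
      refine ⟨x, ?_⟩
      rw [← hx]
      rintro _ ⟨y, hy, rfl⟩
      exact ⟨y, hR hy, rfl⟩
    have hf : FMap (groupFusionSystem (⊤ : Subgroup G)) Q (fun y => x * y * x⁻¹) :=
      FMap_group_iff.2 ⟨le_top, fun _ _ => trivial, x, fun _ _ => rfl⟩
    obtain ⟨e, he⟩ := hf.exists_equiv (img_conj fun _ _ => rfl)
    obtain ⟨f', hf', hfe'⟩ := hf.symm_equiv e he
    have hcj : (groupFusionSystem (P : Subgroup G)).autGroup (cj x Q) =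
        (groupFusionSystem (⊤ : Subgroup G)).autGroup (cj x Q) := by
      rw [groupFusionSystem_eq, autGroup_sub_eq hx, groupFusionSystem_eq, autGroup_sub_eq le_top]
    have hm : MulAut.congr e (conjAut Q g hg) ∈ (groupFusionSystem (⊤ : Subgroup G)).autGroup (cj x Q) := by
      apply congr_mem_autGroup hf e he
      rw [groupFusionSystem_eq, autGroup_sub_eq le_top, mem_autInducedBy_iff]
      exact ⟨g, trivial, fun _ => rfl⟩
    have h1 := h.all hx (χ := MulAut.congr e (conjAut Q g hg)) (by rw [hcj]; exact hm) (hc.congr e)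
    rw [OpA_congr hcj] at h1
    have h2 := congr_mem_OpA (p := p) hf' e.symm hfe' h1
    have h3 : MulAut.congr e.symm (MulAut.congr e (conjAut Q g hg)) = conjAut Q g hg := by
      ext y
      simp [MulAut.congr]
    rw [h3] at h2
    exact (mk_mem_pCore_iff le_top hg).2 h2

end CfsgLib.Fusion
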