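import Cfsg.Agent.Lib.FusionPSt
import Cfsg.Agent.Lib.FusionSub1

/-!
Centric subgroups whose intersection with a strongly closed subgroup is not centric.
-/
set_option autoImplicit false
set_option maxHeartbeats 400000

namespace CfsgLib.Fusion

open Cfsg Cfsg.FusionSystem CfsgLib.SylowIn CfsgLib.StronglyEmb

variable {Ω : Type*} [Group Ω] {S : Subgroup Ω}

theorem exists_core_elt {F : FusionSystem S} [Finite S] {p : ℕ} [Fact p.Prime] (hS : IsPGroup p S)
    (hF : F.IsSaturated p) {T : Subgroup Ω} (hT : F.StronglyClosed T) {P : Subgroup Ω} (hP : P ≤ S)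
    {R : Subgroup Ω} (hR : F.IsConj (P ⊓ T) R) (hCR : ¬ centralizerIn T R ≤ R) :
    ∃ f x, FMap F P f ∧ x ∉ img P f ∧ ∃ hx : x ∈ normalizerIn S (img P f), conjAut (img P f) x hx.2 ∈ OpA F p (img P f) := by
  have hTS : T ≤ S := hT.1
  have hT' : ∀ s ∈ S, ∀ x ∈ T, s * x * s⁻¹ ∈ T := fun s hs x hx => StronglyClosed.conj_mem hT hs hx
  set Q₀ := P ⊓ T with hQ₀
  have hQ₀S : Q₀ ≤ S := inf_le_left.trans hP
  have hPN : P ≤ normalizerIn S Q₀ := by
    have : Finite Q₀ := finite_of_le hQ₀S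
    intro g hg
    exact ⟨hP hg, mem_normalizer_of_conj_mem fun x hx =>
      ⟨P.mul_mem (P.mul_mem hg hx.1) (P.inv_mem hg), hT' g (hP hg) x hx.2⟩⟩
  obtain ⟨N, hN1, hN2⟩ := exists_fullyNormalized F hQ₀S
  obtain ⟨hNa, hNr⟩ := Saturated.of_fullyNormalized hS hF hN2
  obtain ⟨f, hf, hfN, -⟩ := exists_map_normalizer hS hNa hNr hN1
  have hfP := hf.restrict hPN
  have hP'S : img P f ≤ S := hfP.img_le
  -- `f(P) ∩ T = N`
  have hNeq : N = img P f ⊓ T := by
    rw [← hfN]
    apply le_antisymm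
    · rw [img_le_iff]
      intro x hx
      exact ⟨apply_mem_img hx.1, StronglyClosed.map_mem hT hfP hx.1 hx.2⟩
    · rintro y ⟨hy, hyT⟩
      obtain ⟨x, hx, rfl⟩ := hfP.mem_img.1 hy
      apply apply_mem_img
      refine ⟨hx, ?_⟩
      obtain ⟨c, hc, hcf, -⟩ := hfP.exists_inv
      have := StronglyClosed.map_mem hT hc (apply_mem_img hx) hyT
      rwa [hcf x hx] at this
  -- the centralizer of `N` in `T`
  have hCN : ¬ centralizerIn T N ≤ img P f := by
    intro hcon
    apply hCR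
    have hRN : F.IsConj R N := isConj_trans (isConj_symm hR) hN1
    obtain ⟨g, hg, hgN⟩ := FMap.isConj_iff.1 hRN
    obtain ⟨g', hg', hgg'⟩ := Receptive.exists_extend_centralizer hNr hg hgN
    intro x hx
    have hxT := (mem_centralizerIn.1 hx).1
    have hxC : x ∈ centralizerIn S R := mem_centralizerIn.2 ⟨hTS hxT, (mem_centralizerIn.1 hx).2⟩
    have hxd : x ∈ R ⊔ centralizerIn S R := Subgroup.mem_sup_right hxC
    have h1 : g' x ∈ centralizerIn T N := by
      refine mem_centralizerIn.2 ⟨StronglyClosed.map_mem hT hg' hxd hxT, fun y hy => ?_⟩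
      rw [← hgN] at hy
      obtain ⟨z, hz, rfl⟩ := hg.mem_img.1 hy
      have hzd : z ∈ R ⊔ centralizerIn S R := Subgroup.mem_sup_left hz
      rw [← hgg' z hz, ← hg'.map_mul hxd hzd, ← hg'.map_mul hzd hxd, (mem_centralizerIn.1 hx).2 z hz]
    have h2 : g' x ∈ N := by
      rw [hNeq]
      exact ⟨hcon h1, (mem_centralizerIn.1 h1).1⟩
    rw [← hgN] at h2
    obtain ⟨z, hz, hzx⟩ := hg.mem_img.1 h2
    rw [← hgg' z hz] at hzx
    have h3 := hg'.injOn (Subgroup.mem_sup_left hz) hxd hzx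
    rwa [← h3]
  obtain ⟨b, hb, hbN, hbP⟩ := exists_mem_normalizer' hS hP'S
    (le_trans (fun x hx => (mem_centralizerIn.1 hx).1) hTS : centralizerIn T N ≤ S) (by
      intro s hs x hx
      replace hx := mem_centralizerIn.1 hx
      refine mem_centralizerIn.2 ⟨hT' s (hP'S hs) x hx.1, fun y hy => ?_⟩
      have h1 : s⁻¹ * y * s⁻¹⁻¹ ∈ N := by
        rw [hNeq] at hy ⊢
        exact ⟨(img P f).mul_mem ((img P f).mul_mem ((img P f).inv_mem hs) hy.1) ((img P f).inv_mem ((img P f).inv_mem hs)),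
          hT' _ (S.inv_mem (hP'S hs)) _ hy.2⟩
      have h2 := hx.2 _ h1
      calc s * x * s⁻¹ * y = s * (x * (s⁻¹ * y * s⁻¹⁻¹)) * s⁻¹ := by group
        _ = s * ((s⁻¹ * y * s⁻¹⁻¹) * x) * s⁻¹ := by rw [h2]
        _ = y * (s * x * s⁻¹) := by group) hCN
  refine ⟨f, b, hfP, hbP, hbN, ?_⟩
  have hP'f : Finite (img P f) := finite_of_le hP'S
  have hB : ∀ i ≤ 2, ∀ α ∈ F.autGroup (img P f), ∀ x : img P f,
      (x : Ω) ∈ (fun i => if i = 0 then (⊥ : Subgroup Ω) else if i = 1 then N else ⊤) i →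
      (α x : Ω) ∈ (fun i => if i = 0 then (⊥ : Subgroup Ω) else if i = 1 then N else ⊤) i := by
    intro i hi α hα x hx
    have hi' : i = 0 ∨ i = 1 ∨ i = 2 := by omega
    have hαF := (mem_autGroup_iff' hP'S α).1 hα
    rcases hi' with rfl | rfl | rfl
    · simp only [if_true, Subgroup.mem_bot] at hx ⊢
      have : x = 1 := Subtype.ext hx
      rw [this, map_one]; rfl
    · simp only [one_ne_zero, if_false, if_true] at hx ⊢
      rw [hNeq] at hx ⊢
      refine ⟨(α x).2, ?_⟩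
      have := StronglyClosed.map_mem hT hαF x.2 hx.2
      rwa [aext_apply] at this
    · simp
  have h1 : stabD F (img P f) 2 _ hB ≤ OpA F p (img P f) :=
    mem_OpA_of (fun α hα => (mem_stabD.1 hα).1) (stabD_isPGroup hS hP'S (by simp) (by simp)) stabD_normal
  apply h1
  refine mem_stabD.2 ⟨autInducedBy_le_autGroup F hP'S (conjAut_mem_autInducedBy hbN.1 hbN.2), fun i hi x hx => ?_⟩
  have hi' : i = 0 ∨ i = 1 := by omega
  have hbx : ((conjAut (img P f) b hbN.2 x : img P f) : Ω) = b * x * b⁻¹ := rfl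
  rcases hi' with rfl | rfl
  · simp only [zero_add, one_ne_zero, if_false, if_true] at hx
    simp only [if_true, Subgroup.mem_bot]
    rw [hbx, (mem_centralizerIn.1 hb).2 x hx]
    group
  · simp only [one_ne_zero, if_false, if_true]
    rw [hNeq]
    refine ⟨(img P f).mul_mem ((img P f).inv_mem x.2) (conjAut (img P f) b hbN.2 x).2, ?_⟩
    have hbT := (mem_centralizerIn.1 hb).1
    rw [hbx]
    have h2 := hT' _ (S.inv_mem (hP'S x.2)) _ hbT
    have e : (x : Ω)⁻¹ * (b * x * b⁻¹) = ((x : Ω)⁻¹ * b * (x : Ω)⁻¹⁻¹) * b⁻¹ := by group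
    rw [e]
    exact T.mul_mem h2 (T.inv_mem hbT)

end CfsgLib.Fusion
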