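import Cfsg.Agent.Lib.FusionReal
import Cfsg.Agent.Lib.FusionStab
import Cfsg.Agent.Lib.FusionLocal
import Cfsg.Agent.Lib.FusionSimple
import Cfsg.Agent.Lib.FusionHyp

/-!
Extremely sparse systems.
-/
set_option autoImplicit false
set_option maxHeartbeats 400000

namespace CfsgLib.Fusion

open Cfsg Cfsg.FusionSystem CfsgLib.SylowIn CfsgLib.StronglyEmb

variable {Ω : Type*} [Group Ω] {S : Subgroup Ω}

/-- the system of `P ⋊ ⟨α⟩`. -/
theorem exists_semi {F : FusionSystem S} [Finite S] {p : ℕ} [hp : Fact p.Prime] (hS : IsPGroup p S)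
    {P : Subgroup Ω} (hP : P ≤ S) {α : MulAut P} (hα : α ∈ F.autGroup P) (hco : (orderOf α).Coprime p) :
    ∃ E : FusionSystem P, E.IsSaturated p ∧ E.IsSubsystemOf F ∧
      ∀ Q f, FMap E Q f ↔ Q ≤ P ∧ (∀ x ∈ Q, f x ∈ P) ∧ ∃ s ∈ P, ∃ k : ℤ, ∀ x (hx : x ∈ P), x ∈ Q →
        f x = s * ((α ^ k) ⟨x, hx⟩ : P) * s⁻¹ := by
  have hPf : Finite P := finite_of_le hP
  let A := Subgroup.zpowers α
  let L := P ⋊[A.subtype] A
  have hAf : Finite A := inferInstance
  have hLf : Finite L :=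
    Finite.of_injective (fun x : L => (x.left, x.right)) (fun x y hxy => by
      have h1 := (Prod.mk.inj hxy).1
      have h2 := (Prod.mk.inj hxy).2
      exact SemidirectProduct.ext h1 h2)
  let κ : P →* L := SemidirectProduct.inl
  have hκ : Function.Injective κ := SemidirectProduct.inl_injective
  have hsyl : ∃ T : Sylow p L, (T : Subgroup L) = κ.range := by
    have h1 : IsPGroup p κ.range := by
      rintro ⟨_, x, rfl⟩
      obtain ⟨k, hk⟩ := hS.to_le hP x
      exact ⟨k, Subtype.ext (by show κ x ^ p ^ k = 1; rw [← map_pow, hk, map_one])⟩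
    have h2 : ¬ p ∣ κ.range.index := by
      have h3 : κ.range = (SemidirectProduct.rightHom : L →* A).ker := by
        show (SemidirectProduct.inl : P →* L).range = _
        rw [SemidirectProduct.range_inl_eq_ker_rightHom]
      have h4 : (SemidirectProduct.rightHom : L →* A).range = ⊤ :=
        MonoidHom.range_eq_top.2 SemidirectProduct.rightHom_surjective
      rw [h3, Subgroup.index_ker, h4, Subgroup.card_top, Nat.card_zpowers]
      rw [← Nat.Prime.coprime_iff_not_dvd hp.out]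
      exact hco.symm
    exact ⟨h1.toSylow h2, rfl⟩
  have hconj : ∀ (g : L) (x : P), g * κ x * g⁻¹ = κ (g.left * ((g.right : MulAut P) x) * g.left⁻¹) := by
    intro g x
    have h1 : g = SemidirectProduct.inl g.left * SemidirectProduct.inr g.right :=
      (SemidirectProduct.inl_left_mul_inr_right g).symm
    have h2 := SemidirectProduct.inl_aut (φ := A.subtype) g.right x
    conv_lhs => rw [h1]
    rw [map_mul, map_mul, map_inv]
    show _ = SemidirectProduct.inl g.left * SemidirectProduct.inl (A.subtype g.right x) * (SemidirectProduct.inl g.left)⁻¹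
    rw [h2, map_inv, mul_inv_rev]
    show SemidirectProduct.inl g.left * SemidirectProduct.inr g.right * SemidirectProduct.inl x * _ = _
    group
  have hE : ∀ Q f, FMap (realSys κ hκ) Q f ↔ Q ≤ P ∧ (∀ x ∈ Q, f x ∈ P) ∧ ∃ s ∈ P, ∃ k : ℤ,
      ∀ x (hx : x ∈ P), x ∈ Q → f x = s * ((α ^ k) ⟨x, hx⟩ : P) * s⁻¹ := by
    intro Q f
    rw [FMap_realSys]
    constructor
    · rintro ⟨hQ, hf, g, hg⟩
      obtain ⟨k, hk⟩ := Subgroup.mem_zpowers_iff.1 g.right.2
      refine ⟨hQ, hf, g.left, g.left.2, k, fun x hx hxQ => ?_⟩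
      have h1 := hg x hxQ
      rw [hconj] at h1
      have h2 := congrArg Subtype.val (hκ h1)
      rw [hk]
      exact h2
    · rintro ⟨hQ, hf, s, hs, k, h⟩
      refine ⟨hQ, hf, ⟨⟨s, hs⟩, ⟨α ^ k, Subgroup.zpow_mem _ (Subgroup.mem_zpowers α) k⟩⟩, fun x hx => ?_⟩
      rw [hconj]
      congr 1
      apply Subtype.ext
      exact h x (hQ hx) hx
  refine ⟨realSys κ hκ, IsRealizedBy.saturated (realSys_realized κ hκ) hsyl, ?_, hE⟩
  rw [isSubsystem_iff]
  intro Q f hf
  obtain ⟨hQ, hfQ, s, hs, k, h⟩ := (hE Q f).1 hf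
  have h1 : α ^ k ∈ F.autGroup P := (F.autGroup P).zpow_mem hα k
  rw [mem_autGroup_iff' hP] at h1
  refine ((h1.restrict hQ).comp (FMap.conj hP (hP hs)) fun x hx => aext_mem _ (hQ hx)).congr fun x hx => ?_
  show s * aext (α ^ k) x * s⁻¹ = f x
  rw [aext_of_mem _ (hQ hx), h x (hQ hx) hx]

/-- a nontrivial `p'`-automorphism gives a subsystem that is not inner. -/
theorem not_inner_of_semi [Finite S] {p : ℕ} [hp : Fact p.Prime] (hS : IsPGroup p S)
    {P : Subgroup Ω} (hP : P ≤ S) {α : MulAut P} (hco : (orderOf α).Coprime p) (hα1 : α ≠ 1)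
    {E : FusionSystem P} (hE : FMap E P (aext α)) :
    ¬ ∀ Q : Subgroup Ω, E.Hom Q = (innerFusionSystem P).Hom Q := by
  intro h
  have hPf : Finite P := finite_of_le hP
  have h1 := le_iff_FMap.1 (eq_inner_iff.1 h) P _ hE
  rw [FMap_innerSys] at h1
  obtain ⟨-, s, hs, hsx⟩ := h1
  apply hα1
  have h2 : α ∈ Inn P := by
    refine ⟨⟨s, hs⟩, ?_⟩
    ext x
    rw [← aext_apply α x, hsx x x.2]; rfl
  have h3 := isPGroup_inn (hS.to_le hP)
  obtain ⟨k, hk⟩ := h3 ⟨α, h2⟩
  have h4 : α ^ p ^ k = 1 := congrArg Subtype.val hk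
  have h5 := orderOf_dvd_of_pow_eq_one h4
  have h6 : (orderOf α).Coprime (p ^ k) := hco.pow_right k
  rw [← orderOf_eq_one_iff]
  exact Nat.eq_one_of_dvd_coprimes h6 dvd_rfl h5

theorem mem_pResidual_of_coprime {X : Type*} [Group X] [Finite X] {p : ℕ} [Fact p.Prime] {x : X}
    (h : (orderOf x).Coprime p) : x ∈ pResidual p X := by
  have hn := CfsgLib.Transfer.pResidual_normal (G := X) p
  obtain ⟨k, hk⟩ := CfsgLib.Transfer.pResidual_index (G := X) p
  rw [← QuotientGroup.eq_one_iff, ← orderOf_eq_one_iff]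
  apply Nat.eq_one_of_dvd_coprimes (h.pow_right k)
  · exact orderOf_map_dvd (QuotientGroup.mk' (pResidual p X)) x
  · rw [← hk, Subgroup.index_eq_card]
    exact orderOf_dvd_natCard _

theorem sparse {F : FusionSystem S} [Finite S] {p : ℕ} [hp : Fact p.Prime] (hS : IsPGroup p S)
    (hF : F.IsSaturated p) (hxs : ¬ (∀ P : Subgroup Ω, F.Hom P = (innerFusionSystem S).Hom P) ∧
      ∀ (T : Subgroup Ω) (E : FusionSystem T), E.IsSaturated p → E.IsSubsystemOf F →
        (T = S ∧ ∀ P : Subgroup Ω, E.Hom P = F.Hom P) ∨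
          (∀ P : Subgroup Ω, E.Hom P = (innerFusionSystem T).Hom P)) :
    F.IsNormal S ∧ F.focalSubgroup = S ∧ F.hyperfocalSubgroup p = S ∧
      ∃ (q : ℕ) (β : MulAut S), q.Prime ∧ q ≠ p ∧ β ∈ F.autGroup S ∧ orderOf β = q ∧
        (F.autGroup S : Subgroup (MulAut S)) = Inn S ⊔ Subgroup.zpowers β := by
  obtain ⟨hni, hsp⟩ := hxs
  -- a nontrivial `p'`-automorphism of prime order
  have key : ∀ (P : Subgroup Ω) (hP : P ≤ S) (α : MulAut P), α ∈ F.autGroup P → (orderOf α).Coprime p →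
      α ≠ 1 → P = S ∧ ∀ Q f, FMap F Q f → ∃ s ∈ P, ∃ k : ℤ, ∀ x (hx : x ∈ P), x ∈ Q →
        f x = s * ((α ^ k) ⟨x, hx⟩ : P) * s⁻¹ := by
    intro P hP α hα hco hα1
    obtain ⟨E, hEs, hEF, hE⟩ := exists_semi hS hP hα hco
    have hEα : FMap E P (aext α) := by
      rw [hE]
      refine ⟨le_rfl, fun x hx => aext_mem α hx, 1, P.one_mem, 1, fun x hx _ => ?_⟩
      rw [aext_of_mem α hx, zpow_one]; group
    rcases hsp P E hEs hEF with ⟨rfl, h2⟩ | h2
    · refine ⟨rfl, fun Q f hf => ?_⟩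
      have h3 : E = F := ext_hom h2
      rw [← h3] at hf
      exact ((hE Q f).1 hf).2.2
    · exact absurd h2 (not_inner_of_semi hS hP hco hα1 hEα)
  obtain ⟨P, hP, hPn⟩ : ∃ P : Subgroup Ω, P ≤ S ∧ ¬ IsPGroup p (F.autGroup P) := by
    by_contra hc
    push Not at hc
    exact hni (eq_inner_iff.2 (le_inner_of_isPGroup hS hF hc))
  have hPf : Finite P := finite_of_le hP
  have hAf := finite_autGroup F P
  obtain ⟨q, hq, hqp, ⟨β, hβ⟩, hβo⟩ : ∃ q : ℕ, q.Prime ∧ q ≠ p ∧ ∃ β : F.autGroup P, orderOf β = q := by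
    by_contra hc
    push Not at hc
    apply hPn
    rw [IsPGroup.iff_card]
    refine ⟨_, Nat.eq_prime_pow_of_unique_prime_dvd Nat.card_pos.ne' fun {d} hd hdc => ?_⟩
    by_contra hne
    have : Fact d.Prime := ⟨hd⟩
    obtain ⟨x, hx⟩ := exists_prime_orderOf_dvd_card' d hdc
    exact hc d hd hne x hx
  rw [Subgroup.orderOf_mk] at hβo
  have hqc : q.Coprime p := (Nat.coprime_primes hq hp.out).2 hqp
  have hβ1 : β ≠ 1 := by
    rintro rfl
    rw [orderOf_one] at hβo
    exact hq.one_lt.ne hβo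
  obtain ⟨rfl, hmaps⟩ := key P hP β hβ (by rw [hβo]; exact hqc) hβ1
  have hFβ := (mem_autGroup_iff' le_rfl β).1 hβ
  have hpow : ∀ k : ℤ, FMap F P (aext (β ^ k)) := fun k =>
    (mem_autGroup_iff' le_rfl _).1 ((F.autGroup P).zpow_mem hβ k)
  -- the commutator
  let T : Subgroup Ω := Subgroup.closure {y | ∃ x : P, y = (x : Ω)⁻¹ * (β x : P)}
  have hTP : T ≤ P := by
    rw [Subgroup.closure_le]
    rintro _ ⟨x, rfl⟩
    exact P.mul_mem (P.inv_mem x.2) (β x).2
  have hTh : T ≤ F.hyperfocalSubgroup p := by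
    rw [Subgroup.closure_le]
    rintro _ ⟨x, rfl⟩
    have h1 : (⟨β, hβ⟩ : F.autGroup P) ∈ pResidual p (F.autGroup P) := by
      apply mem_pResidual_of_coprime
      rw [Subgroup.orderOf_mk, hβo]; exact hqc
    exact hyp_mem le_rfl h1 x
  have hTβ : ∀ y ∈ T, aext β y ∈ T := by
    have h1 : T ≤ (T.subgroupOf P).map (P.subtype.comp β.symm.toMonoidHom) := by
      rw [Subgroup.closure_le]
      rintro _ ⟨x, rfl⟩
      refine ⟨β (x⁻¹ * β x), ?_, ?_⟩
      · rw [SetLike.mem_coe, Subgroup.mem_subgroupOf]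
        refine Subgroup.subset_closure ⟨β x, ?_⟩
        rw [map_mul, map_inv]; rfl
      · show ((β.symm (β (x⁻¹ * β x)) : P) : Ω) = _
        rw [MulEquiv.symm_apply_apply]; rfl
    intro y hy
    obtain ⟨z, hz, hzy⟩ := h1 hy
    have h2 : (⟨y, hTP hy⟩ : P) = β.symm z := Subtype.ext hzy.symm
    rw [aext_of_mem β (hTP hy), h2, MulEquiv.apply_symm_apply]
    exact hz
  have hTf : Finite T := finite_of_le hTP
  obtain ⟨γ, hγ, hγβ⟩ := (hFβ.restrict hTP).exists_aut_of_mapsTo hTβ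
  have hγβ' : ∀ y : T, ((γ y : T) : Ω) = (β ⟨y, hTP y.2⟩ : P) := by
    intro y; rw [hγβ, aext_of_mem β (hTP y.2)]
  have hγpow : ∀ n : ℕ, ∀ y : T, (((γ ^ n) y : T) : Ω) = ((β ^ n) ⟨y, hTP y.2⟩ : P) := by
    intro n
    induction n with
    | zero => intro y; rfl
    | succ n ih =>
      intro y
      rw [pow_succ', pow_succ']
      show ((γ ((γ ^ n) y) : T) : Ω) = ((β ((β ^ n) ⟨y, hTP y.2⟩) : P) : Ω)
      rw [hγβ']
      congr 2
      exact Subtype.ext (ih y)
  have hγo : orderOf γ ∣ q := by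
    apply orderOf_dvd_of_pow_eq_one
    ext y
    rw [hγpow, ← hβo, pow_orderOf_eq_one]; rfl
  have hγ1 : γ ≠ 1 := by
    intro h1
    apply hβ1
    have h2 : ∀ y (hy : y ∈ T), β ⟨y, hTP hy⟩ = ⟨y, hTP hy⟩ := by
      intro y hy
      apply Subtype.ext
      rw [← hγβ' ⟨y, hy⟩, h1]; rfl
    have h3 := fix_of_stab (hS) (α := β) hqc (by rw [← hβo]; exact pow_orderOf_eq_one β) 2
      (fun i => if i = 0 then ⊥ else if i = 1 then T.subgroupOf P else ⊤) (by simp) (by
        intro i hi x hx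
        interval_cases i
        · simp only [zero_add, if_true, one_ne_zero, if_false] at hx ⊢
          rw [Subgroup.mem_bot, h2 x hx, inv_mul_cancel]
        · simp only [one_ne_zero, if_false, if_true] at hx ⊢
          rw [Subgroup.mem_subgroupOf]
          exact Subgroup.subset_closure ⟨x, rfl⟩)
    ext x
    rw [h3 2 le_rfl x (by simp)]; rfl
  have hTS := (key T hTP γ hγ (Nat.Coprime.coprime_dvd_left hγo hqc) hγ1).1
  rw [hTS] at hTh
  have hhyp : F.hyperfocalSubgroup p = P := le_antisymm hyp_le hTh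
  refine ⟨?_, le_antisymm foc_le (hTh.trans hyp_le_foc), hhyp, q, β, hq, hqp, hβ, hβo, ?_⟩
  · rw [isNormal_iff]
    refine ⟨le_rfl, fun Q f hf => ?_⟩
    obtain ⟨s, hs, k, hk⟩ := hmaps Q f hf
    have h1 := (hpow k).comp (FMap.conj le_rfl hs) fun x hx => aext_mem _ hx
    refine ⟨_, by rw [sup_eq_right.2 hf.le]; exact h1, fun x hx => ?_, h1.img_eq_of_mapsTo fun x hx => h1.mapsTo hx⟩
    show s * aext (β ^ k) x * s⁻¹ = f x
    rw [aext_of_mem _ (hf.le hx), hk x (hf.le hx) hx]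
  · apply le_antisymm
    · intro α hα
      obtain ⟨s, hs, k, hk⟩ := hmaps P _ ((mem_autGroup_iff' le_rfl α).1 hα)
      have h1 : α = MulAut.conj ⟨s, hs⟩ * β ^ k := by
        ext x
        have := hk x x.2 x.2
        rw [aext_apply] at this
        exact this
      rw [h1]
      exact Subgroup.mul_mem_sup ⟨_, rfl⟩ (Subgroup.zpow_mem _ (Subgroup.mem_zpowers β) k)
    · exact sup_le (inn_le_autGroup F le_rfl) (by rw [Subgroup.zpowers_le]; exact hβ)

end CfsgLib.Fusion
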