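import Mathlib
set_option autoImplicit false
set_option linter.style.haveILetI false
set_option linter.unusedSectionVars false

/-! Element orders of affine groups. -/

namespace CfsgLib.AffOrd

variable {K : Type} [Field K] [Finite K]

/-- the action of a group of scalars -/
def phi (C : Subgroup Kˣ) : C →* MulAut (Multiplicative K) :=
  (MulAutMultiplicative K).symm.toMonoidHom.comp ((DistribMulAction.toAddAut Kˣ K).comp C.subtype)

theorem phi_apply (C : Subgroup Kˣ) (c : C) (v : K) : phi C c (Multiplicative.ofAdd v) = Multiplicative.ofAdd ((((c : Kˣ) : K)) * v) := rfl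

abbrev Aff (C : Subgroup Kˣ) := Multiplicative K ⋊[phi C] C

instance (C : Subgroup Kˣ) : Finite (Aff C) := Finite.of_equiv _ SemidirectProduct.equivProd.symm

theorem solv (C : Subgroup Kˣ) : Group.IsSolvable (Aff C) := by
  apply Group.isSolvable_of_ker_le_range (SemidirectProduct.inl : Multiplicative K →* Aff C) (SemidirectProduct.rightHom : Aff C →* C)
  rw [SemidirectProduct.range_inl_eq_ker_rightHom]

theorem conj_inr (C : Subgroup Kˣ) (c : C) (hc : c ≠ 1) (v : Multiplicative K) : ∃ w : Aff C, w * SemidirectProduct.inr c * w⁻¹ = ⟨v, c⟩ := by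
  have h1 : (1 : K) - ((c : Kˣ) : K) ≠ 0 := by
    intro h
    apply hc
    apply Subtype.ext
    apply Units.ext
    exact (sub_eq_zero.mp h).symm
  refine ⟨SemidirectProduct.inl (Multiplicative.ofAdd (Multiplicative.toAdd v / (1 - ((c : Kˣ) : K)))), ?_⟩
  rw [mul_inv_eq_iff_eq_mul]
  apply SemidirectProduct.ext
  · rw [SemidirectProduct.mul_left, SemidirectProduct.mul_left]
    simp only [SemidirectProduct.left_inl, SemidirectProduct.left_inr, SemidirectProduct.right_inl, map_one, mul_one, phi_apply]
    apply Multiplicative.toAdd.injective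
    rw [toAdd_mul, toAdd_ofAdd, toAdd_ofAdd]
    field_simp
    ring
  · rw [SemidirectProduct.mul_right, SemidirectProduct.mul_right]
    simp

theorem order_of_ne (C : Subgroup Kˣ) (c : C) (hc : c ≠ 1) (v : Multiplicative K) : orderOf (⟨v, c⟩ : Aff C) = orderOf c := by
  obtain ⟨w, hw⟩ := conj_inr C c hc v
  rw [← hw, ← MulAut.conj_apply, MulEquiv.orderOf_eq, orderOf_injective _ SemidirectProduct.inr_injective]

theorem order_of_one (p : ℕ) [Fact p.Prime] [CharP K p] (C : Subgroup Kˣ) (v : Multiplicative K) : orderOf (⟨v, 1⟩ : Aff C) ∣ p := by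
  apply orderOf_dvd_of_pow_eq_one
  have : (⟨v, 1⟩ : Aff C) = SemidirectProduct.inl v := rfl
  rw [this, ← map_pow]
  have h2 : v ^ p = 1 := by
    apply Multiplicative.toAdd.injective
    rw [toAdd_pow, toAdd_one, nsmul_eq_mul, CharP.cast_eq_zero, zero_mul]
  rw [h2, map_one]

theorem exists_group (p : ℕ) [hp : Fact p.Prime] [CharP K p] (n : ℕ) (hn : n ∣ Nat.card Kˣ) : ∃ (H : Type) (_ : Group H) (_ : Finite H), Group.IsSolvable H ∧
    Set.range (orderOf : H → ℕ) = {m : ℕ | m ∣ p ∨ m ∣ n} := by
  obtain ⟨g, hg⟩ := IsCyclic.exists_generator (α := Kˣ)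
  have hog : orderOf g = Nat.card Kˣ := orderOf_eq_card_of_forall_mem_zpowers hg
  have hN : 0 < Nat.card Kˣ := Nat.card_pos
  have key : ∀ m, m ∣ Nat.card Kˣ → orderOf (g ^ (Nat.card Kˣ / m)) = m := by
    intro m hm
    have hm0 : 0 < m := Nat.pos_of_dvd_of_pos hm hN
    have h1 : Nat.card Kˣ / m ≠ 0 := (Nat.div_pos (Nat.le_of_dvd hN hm) hm0).ne'
    rw [orderOf_pow' _ h1, hog, Nat.gcd_eq_right (Nat.div_dvd_of_dvd hm), Nat.div_div_self hm hN.ne']
  refine ⟨Aff (Subgroup.zpowers (g ^ (Nat.card Kˣ / n))), inferInstance, inferInstance, solv _, ?_⟩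
  set C := Subgroup.zpowers (g ^ (Nat.card Kˣ / n)) with hC
  have hcC : Nat.card C = n := by rw [hC, Nat.card_zpowers, key n hn]
  ext m
  constructor
  · rintro ⟨⟨v, c⟩, rfl⟩
    by_cases hc : c = 1
    · left; rw [hc]; exact order_of_one p C v
    · right; rw [order_of_ne C c hc v, ← hcC]; exact orderOf_dvd_natCard c
  · rintro (hm | hm)
    · rcases (Nat.dvd_prime hp.out).mp hm with h | h
      · exact ⟨1, by rw [h, orderOf_one]⟩
      · refine ⟨⟨Multiplicative.ofAdd 1, 1⟩, ?_⟩
        rcases (Nat.dvd_prime hp.out).mp (order_of_one p C (Multiplicative.ofAdd (1 : K))) with h1 | h1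
        · exfalso
          rw [orderOf_eq_one_iff] at h1
          have := congrArg (fun x : Aff C => Multiplicative.toAdd x.left) h1
          exact one_ne_zero (α := K) this
        · rw [h1, h]
    · by_cases hm1 : m = 1
      · exact ⟨1, by rw [hm1, orderOf_one]⟩
      · obtain ⟨c, hc⟩ : ∃ c : C, orderOf c = m := by
          have hmem : g ^ (Nat.card Kˣ / m) ∈ C := by
            rw [hC]
            obtain ⟨k, hk⟩ := hm
            obtain ⟨l, hl⟩ := hn
            have hk0 : 0 < k := by
              rcases Nat.eq_zero_or_pos k with h0 | h0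
              · rw [h0, mul_zero] at hk; rw [hk, zero_mul] at hl; omega
              · exact h0
            have hm0 : 0 < m := by
              rcases Nat.eq_zero_or_pos m with h0 | h0
              · rw [h0, zero_mul] at hk; rw [hk, zero_mul] at hl; omega
              · exact h0
            have e1 : Nat.card Kˣ / m = (Nat.card Kˣ / n) * k := by
              rw [hl, hk, Nat.mul_div_cancel_left _ (Nat.mul_pos hm0 hk0), mul_assoc, Nat.mul_div_cancel_left _ hm0, mul_comm]
            rw [e1, pow_mul]
            exact Subgroup.pow_mem _ (Subgroup.mem_zpowers _) _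
          refine ⟨⟨_, hmem⟩, ?_⟩
          rw [Subgroup.orderOf_mk, key m (hm.trans hn)]
        refine ⟨⟨1, c⟩, ?_⟩
        rw [order_of_ne C c _ 1, hc]
        intro h1
        rw [h1, orderOf_one] at hc
        exact hm1 hc.symm

end CfsgLib.AffOrd
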