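import Cfsg.Agent.Lib.Linear
set_option autoImplicit false
set_option linter.style.haveILetI false
set_option linter.unusedSectionVars false
set_option linter.unusedSimpArgs false
set_option linter.unusedVariables false

/-! Generation of `SL_n` over a finite field by regular unipotent elements: transvections in a subgroup. -/

namespace CfsgLib.GU
open Matrix

section R
variable {F : Type*} [Field F] {ι : Type*} [Fintype ι] [DecidableEq ι]

theorem cm (a b : SpecialLinearGroup ι F) : ((a * b : SpecialLinearGroup ι F) : Matrix ι ι F) = (a : Matrix ι ι F) * (b : Matrix ι ι F) := rfl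

theorem c1 : ((1 : SpecialLinearGroup ι F) : Matrix ι ι F) = 1 := rfl

theorem cinv (g : SpecialLinearGroup ι F) : ((g⁻¹ : SpecialLinearGroup ι F) : Matrix ι ι F) * (g : Matrix ι ι F) = 1 := by
  rw [← cm, inv_mul_cancel, c1]

theorem cinv' (g : SpecialLinearGroup ι F) : (g : Matrix ι ι F) * ((g⁻¹ : SpecialLinearGroup ι F) : Matrix ι ι F) = 1 := by
  rw [← cm, mul_inv_cancel, c1]

/-- the matrix `1 + v φ` lies in the subgroup -/
def R (H : Subgroup (SpecialLinearGroup ι F)) (v φ : ι → F) : Prop :=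
  ∃ h ∈ H, (h : Matrix ι ι F) = 1 + vecMulVec v φ

variable {H : Subgroup (SpecialLinearGroup ι F)} {v w φ ψ : ι → F}

theorem vmv_mul (v φ w ψ : ι → F) : vecMulVec v φ * vecMulVec w ψ = (φ ⬝ᵥ w) • vecMulVec v ψ := by
  ext i j
  rw [Matrix.mul_apply, Matrix.smul_apply]
  simp only [vecMulVec_apply, dotProduct, smul_eq_mul, Finset.sum_mul]
  refine Finset.sum_congr rfl fun k _ => ?_
  ring

theorem vmv_add (v w φ : ι → F) : vecMulVec (v + w) φ = vecMulVec v φ + vecMulVec w φ := by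
  ext i j
  simp [vecMulVec_apply, add_mul]

theorem R_zero (φ : ι → F) : R H 0 φ := ⟨1, one_mem _, by
  ext i j
  simp [vecMulVec_apply, Matrix.one_apply]⟩

theorem R_add (hw : φ ⬝ᵥ w = 0) (h1 : R H v φ) (h2 : R H w φ) : R H (v + w) φ := by
  obtain ⟨a, ha, ea⟩ := h1
  obtain ⟨b, hb, eb⟩ := h2
  refine ⟨a * b, mul_mem ha hb, ?_⟩
  rw [cm, ea, eb, Matrix.add_mul, Matrix.mul_add, Matrix.mul_add, vmv_mul, hw, zero_smul, vmv_add,
    Matrix.one_mul, Matrix.one_mul, Matrix.mul_one, add_zero]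
  abel

theorem inv_mat {g : SpecialLinearGroup ι F} {X : Matrix ι ι F} (h : (g : Matrix ι ι F) * X = 1) :
    ((g⁻¹ : SpecialLinearGroup ι F) : Matrix ι ι F) = X := by
  have h1 := cinv g
  calc ((g⁻¹ : SpecialLinearGroup ι F) : Matrix ι ι F) = ((g⁻¹ : SpecialLinearGroup ι F) : Matrix ι ι F) * ((g : Matrix ι ι F) * X) := by
        rw [h, Matrix.mul_one]
    _ = X := by rw [← Matrix.mul_assoc, h1, Matrix.one_mul]

theorem R_neg (hv : φ ⬝ᵥ v = 0) (h1 : R H v φ) : R H (-v) φ := by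
  obtain ⟨a, ha, ea⟩ := h1
  refine ⟨a⁻¹, inv_mem ha, inv_mat ?_⟩
  have e : vecMulVec (-v) φ = - vecMulVec v φ := by
    ext i j
    simp [vecMulVec_apply]
  rw [ea, e, Matrix.add_mul, Matrix.mul_add, Matrix.mul_add, Matrix.mul_neg, Matrix.mul_neg, vmv_mul, hv, zero_smul]
  simp

theorem R_sub (hv : φ ⬝ᵥ v = 0) (hw : φ ⬝ᵥ w = 0) (h1 : R H v φ) (h2 : R H w φ) : R H (v - w) φ := by
  rw [sub_eq_add_neg]
  exact R_add (by rw [dotProduct_neg, hw, neg_zero]) h1 (R_neg hw h2)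

/-- conjugation; `ψ g = φ` -/
theorem R_conj {g : SpecialLinearGroup ι F} (hg : g ∈ H) (hψ : ψ ᵥ* (g : Matrix ι ι F) = φ) (h1 : R H v φ) :
    R H ((g : Matrix ι ι F) *ᵥ v) ψ := by
  obtain ⟨a, ha, ea⟩ := h1
  refine ⟨g * a * g⁻¹, mul_mem (mul_mem hg ha) (inv_mem hg), ?_⟩
  have h2 := cinv' g
  rw [cm, cm, ea]
  have h3 : (g : Matrix ι ι F) * (1 + vecMulVec v φ) = (1 + vecMulVec ((g : Matrix ι ι F) *ᵥ v) ψ) * (g : Matrix ι ι F) := by
    rw [Matrix.mul_add, Matrix.add_mul, Matrix.mul_one, Matrix.one_mul]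
    congr 1
    ext i j
    rw [Matrix.mul_apply, Matrix.mul_apply]
    simp only [vecMulVec_apply]
    have e1 : ∑ x, (g : Matrix ι ι F) i x * (v x * φ j) = ((g : Matrix ι ι F) *ᵥ v) i * φ j := by
      rw [Matrix.mulVec, dotProduct, Finset.sum_mul]
      exact Finset.sum_congr rfl fun k _ => by ring
    have e2 : ∑ x, ((g : Matrix ι ι F) *ᵥ v) i * ψ x * (g : Matrix ι ι F) x j = ((g : Matrix ι ι F) *ᵥ v) i * (ψ ᵥ* (g : Matrix ι ι F)) j := by
      rw [Matrix.vecMul, dotProduct, Finset.mul_sum]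
      exact Finset.sum_congr rfl fun k _ => by ring
    rw [e1, e2, hψ]
  rw [h3, Matrix.mul_assoc, h2, Matrix.mul_one]

/-- commutators of transvections -/
theorem R_comm {v₁ φ₁ v₂ φ₂ : ι → F} (h11 : φ₁ ⬝ᵥ v₁ = 0) (h22 : φ₂ ⬝ᵥ v₂ = 0) (h21 : φ₂ ⬝ᵥ v₁ = 0) (h1 : R H v₁ φ₁) (h2 : R H v₂ φ₂) :
    R H ((φ₁ ⬝ᵥ v₂) • v₁) φ₂ := by
  obtain ⟨a, ha, ea⟩ := id h1
  have e1 : φ₂ ᵥ* (a : Matrix ι ι F) = φ₂ := by
    funext j
    rw [ea, Matrix.vecMul_add, Matrix.vecMul_one, Pi.add_apply]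
    have : (φ₂ ᵥ* vecMulVec v₁ φ₁) j = (φ₂ ⬝ᵥ v₁) * φ₁ j := by
      rw [Matrix.vecMul, dotProduct, dotProduct, Finset.sum_mul]
      refine Finset.sum_congr rfl fun k _ => ?_
      rw [vecMulVec_apply]; ring
    rw [this, h21, zero_mul, add_zero]
  have h3 := R_conj ha e1 h2
  have e2 : (a : Matrix ι ι F) *ᵥ v₂ = v₂ + (φ₁ ⬝ᵥ v₂) • v₁ := by
    funext i
    rw [ea, Matrix.add_mulVec, Matrix.one_mulVec, Pi.add_apply, Pi.add_apply, Pi.smul_apply]
    congr 1
    rw [Matrix.mulVec, dotProduct, dotProduct, smul_eq_mul, Finset.sum_mul]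
    refine Finset.sum_congr rfl fun k _ => ?_
    rw [vecMulVec_apply]; ring
  rw [e2] at h3
  have h4 := R_sub (v := v₂ + (φ₁ ⬝ᵥ v₂) • v₁) (w := v₂) (by
    rw [dotProduct_add, dotProduct_smul, h22, h21, smul_zero, add_zero]) h22 h3 h2
  rwa [add_sub_cancel_left] at h4

/-- all transvections with a given functional -/
def Full (H : Subgroup (SpecialLinearGroup ι F)) (φ : ι → F) : Prop := ∀ v, φ ⬝ᵥ v = 0 → R H v φ

theorem Full.smul (h : Full H φ) (a : F) : Full H (a • φ) := by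
  intro v hv
  by_cases ha : a = 0
  · subst ha
    refine ⟨1, one_mem _, ?_⟩
    ext i j
    simp [vecMulVec_apply, Matrix.one_apply]
  · have h1 : φ ⬝ᵥ v = 0 := by
      rw [smul_dotProduct, smul_eq_mul] at hv
      exact (mul_eq_zero.mp hv).resolve_left ha
    obtain ⟨g, hg, eg⟩ := h (a • v) (by rw [dotProduct_smul, h1, smul_zero])
    refine ⟨g, hg, ?_⟩
    rw [eg]
    congr 1
    ext i j
    simp only [vecMulVec_apply, Pi.smul_apply, smul_eq_mul]
    ring

theorem Full.conj (h : Full H φ) {g : SpecialLinearGroup ι F} (hg : g ∈ H) (hψ : ψ ᵥ* (g : Matrix ι ι F) = φ) : Full H ψ := by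
  intro v hv
  have e1 : (g : Matrix ι ι F) *ᵥ (((g⁻¹ : SpecialLinearGroup ι F) : Matrix ι ι F) *ᵥ v) = v := by
    rw [Matrix.mulVec_mulVec, cinv', Matrix.one_mulVec]
  have h1 : φ ⬝ᵥ (((g⁻¹ : SpecialLinearGroup ι F) : Matrix ι ι F) *ᵥ v) = 0 := by
    rw [← hψ, ← Matrix.dotProduct_mulVec, e1, hv]
  have h2 := R_conj hg hψ (h _ h1)
  rwa [e1] at h2

theorem Full.add (h : Full H φ) (h' : Full H ψ) : Full H (φ + ψ) := by
  by_cases hd : ∃ v, φ ⬝ᵥ v = 0 ∧ ψ ⬝ᵥ v = -1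
  · obtain ⟨v, hv1, hv2⟩ := hd
    obtain ⟨g, hg, eg⟩ := h v hv1
    refine h'.conj hg ?_
    -- (φ+ψ) g = ψ
    funext j
    rw [eg, Matrix.vecMul_add, Matrix.vecMul_one, Pi.add_apply]
    have : ((φ + ψ) ᵥ* vecMulVec v φ) j = ((φ + ψ) ⬝ᵥ v) * φ j := by
      rw [Matrix.vecMul, dotProduct, dotProduct, Finset.sum_mul]
      refine Finset.sum_congr rfl fun k _ => ?_
      rw [vecMulVec_apply]; ring
    rw [this, add_dotProduct, hv1, hv2, Pi.add_apply]
    ring
  · push Not at hd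
    have hd' : ∀ v, φ ⬝ᵥ v = 0 → ψ ⬝ᵥ v = 0 := by
      intro v hv
      by_contra hne
      refine hd ((-(ψ ⬝ᵥ v)⁻¹) • v) (by rw [dotProduct_smul, hv, smul_zero]) ?_
      rw [dotProduct_smul, smul_eq_mul, neg_mul, inv_mul_cancel₀ hne]
    -- ψ is a multiple of φ
    by_cases hφ : φ = 0
    · rw [hφ, zero_add]; exact h'
    · obtain ⟨i, hi⟩ : ∃ i, φ i ≠ 0 := by
        by_contra hc
        push Not at hc
        exact hφ (funext hc)
      have e : ψ = (ψ i * (φ i)⁻¹) • φ := by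
        funext j
        have h3 := hd' (Pi.single j 1 - (φ j * (φ i)⁻¹) • Pi.single i 1) (by
          rw [dotProduct_sub, dotProduct_smul, dotProduct_single, dotProduct_single, smul_eq_mul]
          field_simp
          ring)
        rw [dotProduct_sub, dotProduct_smul, dotProduct_single, dotProduct_single, smul_eq_mul, mul_one, mul_one] at h3
        rw [Pi.smul_apply, smul_eq_mul]
        linear_combination h3
      rw [e, show φ + (ψ i * (φ i)⁻¹) • φ = (1 + ψ i * (φ i)⁻¹) • φ by module]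
      exact h.smul _

theorem eq_top_of_full [Nontrivial ι] (h : ∀ j : ι, Full H (Pi.single j 1)) : H = ⊤ := by
  apply CfsgLib.Linear.le_of_transvections_mem
  intro i j hij c
  obtain ⟨g, hg, eg⟩ := h j (c • Pi.single i 1) (by
    rw [dotProduct_smul, single_one_dotProduct, Pi.single_eq_of_ne (Ne.symm hij), smul_zero])
  have : SpecialLinearGroup.transvection hij c = g := by
    apply Subtype.ext
    rw [eg, SpecialLinearGroup.transvection_coe]
    congr 1
    ext a b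
    rw [vecMulVec_apply, Pi.smul_apply, smul_eq_mul, Matrix.single_apply, Pi.single_apply, Pi.single_apply]
    by_cases h1 : a = i
    · by_cases h2 : b = j
      · simp [h1, h2]
      · simp [h2, Ne.symm h2]
    · simp [h1, Ne.symm h1]
  rw [this]
  exact hg

end R

end CfsgLib.GU
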