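import Cfsg.Agent.Lib.GU1
set_option autoImplicit false
set_option linter.style.haveILetI false
set_option linter.unusedSectionVars false
set_option linter.unusedSimpArgs false
set_option linter.unusedVariables false

/-! Generation of `SL_n` over a finite field by regular unipotent elements: upper and lower regular unipotent matrices. -/

namespace CfsgLib.GU
open Matrix

section M
variable {F : Type*} [Field F] {m : ℕ}

/-- the superdiagonal -/
def NN (F : Type*) [Field F] (m : ℕ) : Matrix (Fin (m + 1)) (Fin (m + 1)) F := Matrix.of fun i j => if (j : ℕ) = i + 1 then 1 else 0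

/-- a subdiagonal -/
def LL (c : Fin (m + 1) → F) : Matrix (Fin (m + 1)) (Fin (m + 1)) F := Matrix.of fun i j => if (i : ℕ) = j + 1 then c i else 0

/-- basis vector -/
abbrev ee (F : Type*) [Field F] {m : ℕ} (i : Fin (m + 1)) : Fin (m + 1) → F := Pi.single i 1

theorem ee_same (i : Fin (m + 1)) : ee F i i = 1 := Pi.single_eq_same i 1
theorem ee_ne {i j : Fin (m + 1)} (h : j ≠ i) : ee F i j = 0 := Pi.single_eq_of_ne h 1

theorem Y_mulVec (c : Fin (m + 1) → F) (j : Fin m) : (1 + LL c) *ᵥ ee F j.castSucc = ee F j.castSucc + c j.succ • ee F j.succ := by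
  rw [Matrix.add_mulVec, Matrix.one_mulVec]
  congr 1
  rw [Matrix.mulVec_single_one]
  funext i
  change (if (i : ℕ) = (j.castSucc : ℕ) + 1 then c i else 0) = c j.succ * (Pi.single j.succ (1 : F) : Fin (m + 1) → F) i
  by_cases h : i = j.succ
  · subst h
    simp
  · have h' : ¬ (i : ℕ) = (j.castSucc : ℕ) + 1 := by
      intro h2
      apply h
      apply Fin.ext
      simpa using h2
    rw [if_neg h', Pi.single_eq_of_ne h, mul_zero]

theorem Y_last (c : Fin (m + 1) → F) : (1 + LL c) *ᵥ ee F (Fin.last m) = ee F (Fin.last m) := by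
  rw [Matrix.add_mulVec, Matrix.one_mulVec]
  conv_rhs => rw [← add_zero (ee F (Fin.last m))]
  congr 1
  rw [Matrix.mulVec_single_one]
  funext i
  change (if (i : ℕ) = (Fin.last m : ℕ) + 1 then c i else 0) = 0
  rw [if_neg]
  have := i.2
  simp
  omega

theorem vecMul_Y (c : Fin (m + 1) → F) (j : Fin m) : ee F j.succ ᵥ* (1 + LL c) = ee F j.succ + c j.succ • ee F j.castSucc := by
  rw [Matrix.vecMul_add, Matrix.vecMul_one]
  congr 1
  rw [Matrix.single_one_vecMul]
  funext i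
  change (if (j.succ : ℕ) = (i : ℕ) + 1 then c j.succ else 0) = c j.succ * (Pi.single j.castSucc (1 : F) : Fin (m + 1) → F) i
  by_cases h : i = j.castSucc
  · subst h
    simp
  · have h' : ¬ (j.succ : ℕ) = (i : ℕ) + 1 := by
      intro h2
      apply h
      apply Fin.ext
      simp at h2 ⊢
      omega
    rw [if_neg h', Pi.single_eq_of_ne h, mul_zero]

theorem X_zero : (1 + NN F m) *ᵥ ee F 0 = ee F 0 := by
  rw [Matrix.add_mulVec, Matrix.one_mulVec]
  conv_rhs => rw [← add_zero (ee F (0 : Fin (m + 1)))]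
  congr 1
  rw [Matrix.mulVec_single_one]
  funext i
  change (if ((0 : Fin (m + 1)) : ℕ) = (i : ℕ) + 1 then (1 : F) else 0) = 0
  rw [if_neg]
  simp

theorem X_succ (j : Fin m) : (1 + NN F m) *ᵥ ee F j.succ = ee F j.succ + ee F j.castSucc := by
  rw [Matrix.add_mulVec, Matrix.one_mulVec]
  congr 1
  rw [Matrix.mulVec_single_one]
  funext i
  change (if (j.succ : ℕ) = (i : ℕ) + 1 then (1 : F) else 0) = (Pi.single j.castSucc (1 : F) : Fin (m + 1) → F) i
  by_cases h : i = j.castSucc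
  · subst h
    simp
  · have h' : ¬ (j.succ : ℕ) = (i : ℕ) + 1 := by
      intro h2
      apply h
      apply Fin.ext
      simp at h2 ⊢
      omega
    rw [if_neg h', Pi.single_eq_of_ne h]

theorem vecMul_X : ee F (Fin.last m) ᵥ* (1 + NN F m) = ee F (Fin.last m) := by
  rw [Matrix.vecMul_add, Matrix.vecMul_one]
  conv_rhs => rw [← add_zero (ee F (Fin.last m))]
  congr 1
  rw [Matrix.single_one_vecMul]
  funext i
  change (if (i : ℕ) = (Fin.last m : ℕ) + 1 then (1 : F) else 0) = 0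
  rw [if_neg]
  have := i.2
  simp
  omega

theorem N_pow (k : ℕ) (i j : Fin (m + 1)) : ((NN F m) ^ k) i j = if (j : ℕ) = i + k then 1 else 0 := by
  induction k generalizing i j with
  | zero =>
    rw [pow_zero, Matrix.one_apply, add_zero]
    by_cases h : i = j
    · rw [if_pos h, if_pos (by rw [h])]
    · rw [if_neg h, if_neg (fun h' => h (Fin.ext h'.symm))]
  | succ k ih =>
    rw [pow_succ, Matrix.mul_apply]
    simp only [ih]
    by_cases h : (j : ℕ) = i + (k + 1)
    · rw [if_pos h]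
      have hk : (i : ℕ) + k < m + 1 := by have := j.2; omega
      rw [Finset.sum_eq_single ⟨(i : ℕ) + k, hk⟩]
      · rw [if_pos rfl, one_mul]
        change (if (j : ℕ) = (i : ℕ) + k + 1 then (1 : F) else 0) = 1
        rw [if_pos (by omega)]
      · intro b _ hb
        rw [if_neg (fun h' => hb (Fin.ext h')), zero_mul]
      · intro h'; exact absurd (Finset.mem_univ _) h'
    · rw [if_neg h]
      apply Finset.sum_eq_zero
      intro b _
      by_cases h1 : (b : ℕ) = i + k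
      · rw [if_pos h1, one_mul]
        change (if (j : ℕ) = (b : ℕ) + 1 then (1 : F) else 0) = 0
        rw [if_neg (by omega)]
      · rw [if_neg h1, zero_mul]

theorem N_nil : IsNilpotent (NN F m) := by
  refine ⟨m + 1, ?_⟩
  ext i j
  rw [N_pow, if_neg (by have := j.2; omega)]
  rfl

theorem N_ne : (NN F m) ^ m ≠ 0 := by
  intro h
  have := congrFun (congrFun h 0) (Fin.last m)
  rw [N_pow, if_pos (by simp)] at this
  exact one_ne_zero this

theorem det_X : (1 + NN F m).det = 1 := by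
  rw [Matrix.det_of_isUpperTriangular]
  · apply Finset.prod_eq_one
    intro i _
    rw [Matrix.add_apply, Matrix.one_apply_eq]
    change 1 + (if (i : ℕ) = (i : ℕ) + 1 then (1 : F) else 0) = 1
    rw [if_neg (by omega), add_zero]
  · intro i j hij
    have hij' : (j : ℕ) < i := hij
    rw [Matrix.add_apply, Matrix.one_apply_ne (by intro h; rw [h] at hij'; omega)]
    change 0 + (if (j : ℕ) = (i : ℕ) + 1 then (1 : F) else 0) = 0
    rw [if_neg (by omega), add_zero]

/-- the upper regular unipotent element -/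
def xs (F : Type*) [Field F] (m : ℕ) : SpecialLinearGroup (Fin (m + 1)) F := ⟨1 + NN F m, det_X⟩

end M

section gen
variable {F : Type*} [Field F] {k : ℕ}

/-- the space of vectors giving transvections -/
def Wsub (H : Subgroup (SpecialLinearGroup (Fin (k + 3)) F)) (φ : Fin (k + 3) → F) : Submodule F (Fin (k + 3) → F) where
  carrier := {v | φ ⬝ᵥ v = 0 ∧ ∀ a : F, R H (a • v) φ}
  zero_mem' := ⟨by simp, fun a => by rw [smul_zero]; exact R_zero φ⟩
  add_mem' := by
    rintro v w ⟨h1, h2⟩ ⟨h3, h4⟩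
    refine ⟨by rw [dotProduct_add, h1, h3, add_zero], fun a => ?_⟩
    rw [smul_add]
    exact R_add (by rw [dotProduct_smul, h3, smul_zero]) (h2 a) (h4 a)
  smul_mem' := by
    rintro b v ⟨h1, h2⟩
    refine ⟨by rw [dotProduct_smul, h1, smul_zero], fun a => ?_⟩
    rw [smul_smul]
    exact h2 _

theorem gen {x y : SpecialLinearGroup (Fin (k + 3)) F} (hx : (x : Matrix (Fin (k + 3)) (Fin (k + 3)) F) = 1 + NN F (k + 2))
    {c : Fin (k + 3) → F} (hy : (y : Matrix (Fin (k + 3)) (Fin (k + 3)) F) = 1 + LL c) (hc : ∀ i, c i ≠ 0) :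
    ∃ κ : F, κ ≠ 0 ∧ ∀ H : Subgroup (SpecialLinearGroup (Fin (k + 3)) F), x ∈ H → y ∈ H →
      ∀ ζ : Fˣ, (∀ u : Fˣ, ∃ n : ℕ, ζ ^ (n + 1) = u) → R H ((κ⁻¹ * (ζ : F)) • ee F (0 : Fin (k + 3))) (ee F (Fin.last (k + 2))) → H = ⊤ := by
  set φ0 : Fin (k + 3) → F := ee F (Fin.last (k + 2)) with hφ0
  set φ1 : Fin (k + 3) → F := φ0 ᵥ* ((y⁻¹ : SpecialLinearGroup (Fin (k + 3)) F) : Matrix _ _ F) with hφ1
  have h10 : φ1 ᵥ* (y : Matrix (Fin (k + 3)) (Fin (k + 3)) F) = φ0 := by
    rw [hφ1, Matrix.vecMul_vecMul, cinv, Matrix.vecMul_one]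
  have hfne : ∀ j, φ1 j ≠ 0 := by
    intro j
    induction j using Fin.reverseInduction with
    | last =>
      have h1 : φ1 ⬝ᵥ ((y : Matrix (Fin (k + 3)) (Fin (k + 3)) F) *ᵥ ee F (Fin.last (k + 2))) = φ0 ⬝ᵥ ee F (Fin.last (k + 2)) := by
        rw [Matrix.dotProduct_mulVec, h10]
      rw [hy, Y_last, dotProduct_single_one, dotProduct_single_one] at h1
      rw [h1, hφ0, ee_same]
      exact one_ne_zero
    | cast j ih =>
      have h1 : φ1 ⬝ᵥ ((y : Matrix (Fin (k + 3)) (Fin (k + 3)) F) *ᵥ ee F j.castSucc) = φ0 ⬝ᵥ ee F j.castSucc := by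
        rw [Matrix.dotProduct_mulVec, h10]
      rw [hy, Y_mulVec, dotProduct_add, dotProduct_smul, dotProduct_single_one, dotProduct_single_one, dotProduct_single_one,
        hφ0, ee_ne (Fin.castSucc_ne_last j), smul_eq_mul] at h1
      intro h0
      rw [h0, zero_add] at h1
      exact (mul_ne_zero (hc _) ih) h1
  refine ⟨φ1 0 * c 1, mul_ne_zero (hfne 0) (hc 1), fun H hxH hyH ζ hζ hR => ?_⟩
  have h0last : (0 : Fin (k + 3)) ≠ Fin.last (k + 2) := by
    intro h; have := congrArg Fin.val h; simp at this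
  have h1last : (1 : Fin (k + 3)) ≠ Fin.last (k + 2) := by
    intro h; have := congrArg Fin.val h; simp at this
  have z0 : φ0 ⬝ᵥ ee F (0 : Fin (k + 3)) = 0 := by rw [hφ0, single_one_dotProduct, ee_ne (Ne.symm h0last)]
  have z1 : φ0 ⬝ᵥ ee F (1 : Fin (k + 3)) = 0 := by rw [hφ0, single_one_dotProduct, ee_ne (Ne.symm h1last)]
  have S1 : ∀ (v : Fin (k + 3) → F) (b : F), φ0 ⬝ᵥ v = 0 → φ0 ⬝ᵥ ((y : Matrix (Fin (k + 3)) (Fin (k + 3)) F) *ᵥ v) = 0 → R H v φ0 → R H (b • ee F (0 : Fin (k + 3))) φ0 →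
      R H ((b * φ1 0) • ((y : Matrix (Fin (k + 3)) (Fin (k + 3)) F) *ᵥ v)) φ0 := by
    intro v b hv hyv h1 h2
    have h3 := R_conj hyH h10 h1
    have h4 := R_comm (by rw [Matrix.dotProduct_mulVec, h10, hv]) (by rw [dotProduct_smul, z0, smul_zero]) hyv h3 h2
    rwa [dotProduct_smul, dotProduct_single_one, smul_eq_mul] at h4
  have hye0 : (y : Matrix (Fin (k + 3)) (Fin (k + 3)) F) *ᵥ ee F (0 : Fin (k + 3)) = ee F (0 : Fin (k + 3)) + c 1 • ee F (1 : Fin (k + 3)) := by
    rw [hy]; exact Y_mulVec c (0 : Fin (k + 2))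
  have hxe0 : (x : Matrix (Fin (k + 3)) (Fin (k + 3)) F) *ᵥ ee F (0 : Fin (k + 3)) = ee F (0 : Fin (k + 3)) := by rw [hx]; exact X_zero
  have hxe1 : (x : Matrix (Fin (k + 3)) (Fin (k + 3)) F) *ᵥ ee F (1 : Fin (k + 3)) = ee F (1 : Fin (k + 3)) + ee F (0 : Fin (k + 3)) := by rw [hx]; exact X_succ (0 : Fin (k + 2))
  have hφx : φ0 ᵥ* (x : Matrix (Fin (k + 3)) (Fin (k + 3)) F) = φ0 := by rw [hx]; exact vecMul_X
  have S2 : ∀ a b : F, R H (a • ee F (0 : Fin (k + 3))) φ0 → R H (b • ee F (0 : Fin (k + 3))) φ0 → R H (((φ1 0 * c 1) * (a * b)) • ee F (0 : Fin (k + 3))) φ0 := by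
    intro a b ha hb
    have hz : φ0 ⬝ᵥ ((b * φ1 0) • ((y : Matrix (Fin (k + 3)) (Fin (k + 3)) F) *ᵥ (a • ee F (0 : Fin (k + 3))))) = 0 := by
      rw [Matrix.mulVec_smul, hye0, dotProduct_smul, dotProduct_smul, dotProduct_add, dotProduct_smul, z0, z1]
      simp
    have h1 := S1 (a • ee F (0 : Fin (k + 3))) b (by rw [dotProduct_smul, z0, smul_zero])
      (by rw [Matrix.mulVec_smul, hye0, dotProduct_smul, dotProduct_add, dotProduct_smul, z0, z1]; simp) ha hb
    have h2 := R_conj hxH hφx h1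
    have hz2 : φ0 ⬝ᵥ ((x : Matrix (Fin (k + 3)) (Fin (k + 3)) F) *ᵥ ((b * φ1 0) • ((y : Matrix (Fin (k + 3)) (Fin (k + 3)) F) *ᵥ (a • ee F (0 : Fin (k + 3)))))) = 0 := by
      rw [Matrix.dotProduct_mulVec, hφx, hz]
    have h3 := R_sub hz2 hz h2 h1
    have e : (x : Matrix (Fin (k + 3)) (Fin (k + 3)) F) *ᵥ ((b * φ1 0) • ((y : Matrix (Fin (k + 3)) (Fin (k + 3)) F) *ᵥ (a • ee F (0 : Fin (k + 3))))) - (b * φ1 0) • ((y : Matrix (Fin (k + 3)) (Fin (k + 3)) F) *ᵥ (a • ee F (0 : Fin (k + 3)))) =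
        ((φ1 0 * c 1) * (a * b)) • ee F (0 : Fin (k + 3)) := by
      rw [Matrix.mulVec_smul, Matrix.mulVec_smul, hye0, Matrix.mulVec_smul, Matrix.mulVec_add, Matrix.mulVec_smul, hxe0, hxe1]
      module
    rwa [e] at h3
  set κ := φ1 0 * c 1 with hκ
  have hκ0 : κ ≠ 0 := mul_ne_zero (hfne 0) (hc 1)
  have S3 : ∀ n : ℕ, R H ((κ⁻¹ * (ζ : F) ^ (n + 1)) • ee F (0 : Fin (k + 3))) φ0 := by
    intro n
    induction n with
    | zero => rw [zero_add, pow_one]; exact hR
    | succ n ih =>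
      have := S2 _ _ ih hR
      rwa [show κ * (κ⁻¹ * (ζ : F) ^ (n + 1) * (κ⁻¹ * (ζ : F))) = κ⁻¹ * (ζ : F) ^ (n + 1 + 1) by field_simp; rw [← pow_succ]] at this
  have S3' : ∀ a : F, R H (a • ee F (0 : Fin (k + 3))) φ0 := by
    intro a
    by_cases ha : a = 0
    · rw [ha, zero_smul]; exact R_zero φ0
    · obtain ⟨n, hn⟩ := hζ (Units.mk0 (κ * a) (mul_ne_zero hκ0 ha))
      have h1 : (ζ : F) ^ (n + 1) = κ * a := by
        rw [← Units.val_pow_eq_pow_val, hn]; rfl
      have := S3 n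
      rwa [h1, inv_mul_cancel_left₀ hκ0] at this
  have W0 : ee F (0 : Fin (k + 3)) ∈ Wsub H φ0 := ⟨z0, S3'⟩
  have Wy : ∀ v ∈ Wsub H φ0, φ0 ⬝ᵥ ((y : Matrix (Fin (k + 3)) (Fin (k + 3)) F) *ᵥ v) = 0 → (y : Matrix (Fin (k + 3)) (Fin (k + 3)) F) *ᵥ v ∈ Wsub H φ0 := by
    rintro v ⟨h1, h2⟩ h3
    refine ⟨h3, fun a => ?_⟩
    have h4 := S1 (a • v) (φ1 0)⁻¹ (by rw [dotProduct_smul, h1, smul_zero]) (by rw [Matrix.mulVec_smul, dotProduct_smul, h3, smul_zero])
      (h2 a) (S3' _)
    rwa [inv_mul_cancel₀ (hfne 0), one_smul, Matrix.mulVec_smul] at h4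
  have zc : ∀ j : Fin (k + 2), φ0 ⬝ᵥ ee F j.castSucc = 0 := fun j => by
    rw [hφ0, single_one_dotProduct, ee_ne (Ne.symm (Fin.castSucc_ne_last j))]
  have W1 : ∀ j : Fin (k + 2), ee F j.castSucc ∈ Wsub H φ0 := by
    intro j
    induction j using Fin.induction with
    | zero => exact W0
    | succ j ih =>
      have h1 : (y : Matrix (Fin (k + 3)) (Fin (k + 3)) F) *ᵥ ee F j.castSucc.castSucc = ee F j.castSucc.castSucc + c j.castSucc.succ • ee F j.castSucc.succ := by
        rw [hy]; exact Y_mulVec c _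
      have h2 : (j.castSucc.succ : Fin (k + 3)) = j.succ.castSucc := (Fin.succ_castSucc j)
      have h3 := Wy _ ih (by rw [h1, h2, dotProduct_add, dotProduct_smul, zc, zc, smul_zero, add_zero])
      rw [h1, h2] at h3
      have h4 := Submodule.sub_mem _ h3 ih
      rw [add_sub_cancel_left] at h4
      have h5 := Submodule.smul_mem _ (c j.succ.castSucc)⁻¹ h4
      rwa [smul_smul, inv_mul_cancel₀ (hc _), one_smul] at h5
  have W2 : Full H φ0 := by
    intro v hv
    have h1 : v ∈ Wsub H φ0 := by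
      have e : v = ∑ j : Fin (k + 2), v j.castSucc • ee F j.castSucc := by
        conv_lhs => rw [pi_eq_sum_univ' v, Fin.sum_univ_castSucc]
        have h2 : v (Fin.last (k + 2)) = 0 := by
          rw [hφ0, single_one_dotProduct] at hv; exact hv
        rw [h2, zero_smul, add_zero]
      rw [e]
      exact Submodule.sum_mem _ fun j _ => Submodule.smul_mem _ _ (W1 j)
    have := h1.2 1
    rwa [one_smul] at this
  have W3 : ∀ j : Fin (k + 3), Full H (ee F j) := by
    intro j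
    induction j using Fin.reverseInduction with
    | last => exact W2
    | cast j ih =>
      have h1 : Full H (ee F j.succ ᵥ* (y : Matrix (Fin (k + 3)) (Fin (k + 3)) F)) := by
        refine ih.conj (inv_mem hyH) ?_
        rw [Matrix.vecMul_vecMul, cinv', Matrix.vecMul_one]
      rw [hy, vecMul_Y] at h1
      have h2 := h1.add (ih.smul (-1))
      have h3 := h2.smul (c j.succ)⁻¹
      have e : (c j.succ)⁻¹ • (ee F j.succ + c j.succ • ee F j.castSucc + (-1 : F) • ee F j.succ) = ee F j.castSucc := by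
        rw [show ee F j.succ + c j.succ • ee F j.castSucc + (-1 : F) • ee F j.succ = c j.succ • ee F j.castSucc by module, smul_smul,
          inv_mul_cancel₀ (hc _), one_smul]
      rwa [e] at h3
  exact eq_top_of_full W3

end gen

end CfsgLib.GU
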