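import Cfsg.Agent.Lib.GU2
set_option autoImplicit false
set_option linter.style.haveILetI false
set_option linter.unusedSectionVars false
set_option linter.unusedSimpArgs false
set_option linter.unusedVariables false

/-! Generation of `SL_3` over a finite field by two conjugate regular unipotent elements. -/

namespace CfsgLib.GU
open Matrix

section field
variable {F : Type*} [Field F] [Fintype F]

theorem pow_closed {P : F → Prop} (hmul : ∀ a b, P a → P b → P (a * b)) {z : F} (hz : P z) : ∀ n : ℕ, P (z ^ (n + 1)) := by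
  intro n
  induction n with
  | zero => rwa [zero_add, pow_one]
  | succ n ih => rw [pow_succ]; exact hmul _ _ ih hz

theorem one_closed {P : F → Prop} (hmul : ∀ a b, P a → P b → P (a * b)) {z : F} (hz : P z) (h0 : z ≠ 0) : P 1 ∧ P z⁻¹ := by
  classical
  have h1 := FiniteField.pow_card_sub_one_eq_one z h0
  have h2 : 2 ≤ Fintype.card F := Fintype.one_lt_card
  constructor
  · obtain ⟨n, hn⟩ : ∃ n, Fintype.card F - 1 = n + 1 := ⟨Fintype.card F - 2, by omega⟩
    rw [← h1, hn]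
    exact pow_closed hmul hz n
  · obtain ⟨n, hn⟩ : ∃ n, 2 * (Fintype.card F - 1) = n + 2 := ⟨2 * (Fintype.card F - 1) - 2, by omega⟩
    have h3 : z ^ (n + 1) = z⁻¹ := by
      have h4 : z ^ (n + 1) * z = 1 := by
        rw [← pow_succ, ← hn, mul_comm 2, pow_mul, h1, one_pow]
      exact eq_inv_of_mul_eq_one_left h4
    rw [← h3]
    exact pow_closed hmul hz n

end field

section R3
variable {F : Type*} [Field F] {ι : Type*} [Fintype ι] [DecidableEq ι] {H : Subgroup (SpecialLinearGroup ι F)}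

theorem R_conj_inv {g : SpecialLinearGroup ι F} (hg : g ∈ H) {v w φ ψ : ι → F} (hψ : φ ᵥ* (g : Matrix ι ι F) = ψ)
    (hw : (g : Matrix ι ι F) *ᵥ w = v) (h : R H v φ) : R H w ψ := by
  have h1 := R_conj (g := g⁻¹) (ψ := ψ) (inv_mem hg) (by rw [← hψ, Matrix.vecMul_vecMul, cinv', Matrix.vecMul_one]) h
  rwa [← hw, Matrix.mulVec_mulVec, cinv, Matrix.one_mulVec] at h1

theorem R_negneg {v φ : ι → F} (h : R H v (-φ)) : R H (-v) φ := by
  obtain ⟨g, hg, e⟩ := h
  refine ⟨g, hg, ?_⟩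
  rw [e]
  congr 1
  ext i j
  simp [vecMulVec_apply]

end R3

section three
variable {F : Type*} [Field F]

/-- companion matrix -/
def X3 (F : Type*) [Field F] : SpecialLinearGroup (Fin 3) F := ⟨!![0, 0, 1; 1, 0, -3; 0, 1, 3], by
  simp [Matrix.det_fin_three]⟩

/-- the second generator -/
def Y3 (κ : F) : SpecialLinearGroup (Fin 3) F :=
  ⟨!![-3, 1 + 3 * κ, 24 + 8 * κ; 3, -3 * κ, -19 - 9 * κ; -1, κ, 6 + 3 * κ], by
    simp [Matrix.det_fin_three]; ring⟩

/-- the conjugating element -/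
def H3 (κ : F) : SpecialLinearGroup (Fin 3) F :=
  ⟨!![1, -3, κ - 12; 0, 3, 10; 0, -1, -3], by
    simp [Matrix.det_fin_three]; ring⟩

theorem H3_conj (κ : F) : H3 κ * X3 F * (H3 κ)⁻¹ = Y3 κ := by
  rw [mul_inv_eq_iff_eq_mul]
  apply Subtype.ext
  change (!![1, -3, κ - 12; 0, 3, 10; 0, -1, -3] : Matrix (Fin 3) (Fin 3) F) * !![0, 0, 1; 1, 0, -3; 0, 1, 3] =
    !![-3, 1 + 3 * κ, 24 + 8 * κ; 3, -3 * κ, -19 - 9 * κ; -1, κ, 6 + 3 * κ] * !![1, -3, κ - 12; 0, 3, 10; 0, -1, -3]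
  ext i j
  fin_cases i <;> fin_cases j <;> simp [Matrix.mul_apply, Fin.sum_univ_three] <;> ring

theorem T3_coe (κ : F) : (((X3 F * Y3 κ) * (X3 F * Y3 κ) : SpecialLinearGroup (Fin 3) F) : Matrix (Fin 3) (Fin 3) F) =
    1 + vecMulVec ![-12 - κ ^ 2, 0, 0] ![0, 0, 1] := by
  change ((!![0, 0, 1; 1, 0, -3; 0, 1, 3] : Matrix (Fin 3) (Fin 3) F) *
    !![-3, 1 + 3 * κ, 24 + 8 * κ; 3, -3 * κ, -19 - 9 * κ; -1, κ, 6 + 3 * κ]) * (!![0, 0, 1; 1, 0, -3; 0, 1, 3] *
    !![-3, 1 + 3 * κ, 24 + 8 * κ; 3, -3 * κ, -19 - 9 * κ; -1, κ, 6 + 3 * κ]) = _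
  ext i j
  fin_cases i <;> fin_cases j <;> simp [Matrix.mul_apply, Fin.sum_univ_three, vecMulVec_apply, Matrix.one_apply] <;> ring

theorem gen3 [Fintype F] {κ : F} (hκ : ∀ z : F, z ≠ 0 → ∃ n : ℕ, κ ^ (n + 1) = z) (h0 : κ ≠ 0) (h12 : κ ^ 2 + 12 ≠ 0) (h2 : (2 : F) ≠ 0)
    {H : Subgroup (SpecialLinearGroup (Fin 3) F)} (hx : X3 F ∈ H) (hy : Y3 κ ∈ H) : H = ⊤ := by
  have ex : (X3 F : Matrix (Fin 3) (Fin 3) F) = !![0, 0, 1; 1, 0, -3; 0, 1, 3] := rfl
  have ey : (Y3 κ : Matrix (Fin 3) (Fin 3) F) = !![-3, 1 + 3 * κ, 24 + 8 * κ; 3, -3 * κ, -19 - 9 * κ; -1, κ, 6 + 3 * κ] := rfl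
  have Rcast : ∀ {v w φ : Fin 3 → F}, v = w → R H v φ → R H w φ := fun h h' => h ▸ h'
  have AA : ∀ a b : F, R H ![a, 0, 0] ![0, 0, 1] → R H ![b, 0, 0] ![0, 0, 1] → R H ![0, a * b, 0] ![0, 0, 1] := by
    intro a b ha hb
    have h1 := R_conj (ψ := ![1, 0, 0]) hx (by
      rw [ex]; ext i; fin_cases i <;> simp [Matrix.vecMul, dotProduct, Fin.sum_univ_three]) ha
    have h2 := R_comm (v₁ := (X3 F : Matrix (Fin 3) (Fin 3) F) *ᵥ ![a, 0, 0]) (φ₁ := ![1, 0, 0]) (v₂ := ![b, 0, 0]) (φ₂ := ![0, 0, 1])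
      (by rw [ex]; simp [Matrix.mulVec, dotProduct, Fin.sum_univ_three]) (by simp [dotProduct, Fin.sum_univ_three])
      (by rw [ex]; simp [Matrix.mulVec, dotProduct, Fin.sum_univ_three]) h1 hb
    refine Rcast ?_ h2
    rw [ex]
    ext i; fin_cases i <;> simp [Matrix.mulVec, dotProduct, Fin.sum_univ_three, mul_comm]
  have C1 : ∀ b : F, R H ![0, b, 0] ![0, 0, 1] → R H ![b, 0, 0] ![0, 1, 3] := by
    intro b hb
    refine R_conj_inv hx ?_ ?_ hb
    · rw [ex]; ext i; fin_cases i <;> simp [Matrix.vecMul, dotProduct, Fin.sum_univ_three]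
    · rw [ex]; ext i; fin_cases i <;> simp [Matrix.mulVec, dotProduct, Fin.sum_univ_three]
  have BB : ∀ a b : F, R H ![0, a, 0] ![0, 0, 1] → R H ![0, b, 0] ![0, 0, 1] → R H ![a * b, 0, 0] ![0, 0, 1] := by
    intro a b ha hb
    have h2 := R_comm (v₁ := ![a, 0, 0]) (φ₁ := ![0, 1, 3]) (v₂ := ![0, b, 0]) (φ₂ := ![0, 0, 1])
      (by simp [dotProduct, Fin.sum_univ_three]) (by simp [dotProduct, Fin.sum_univ_three])
      (by simp [dotProduct, Fin.sum_univ_three]) (C1 a ha) hb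
    refine Rcast ?_ h2
    ext i; fin_cases i <;> simp [dotProduct, Fin.sum_univ_three, mul_comm]
  have Aneg : ∀ a : F, R H ![a, 0, 0] ![0, 0, 1] → R H ![-a, 0, 0] ![0, 0, 1] := by
    intro a ha
    refine Rcast ?_ (R_neg (by simp [dotProduct, Fin.sum_univ_three]) ha)
    ext i; fin_cases i <;> simp
  have Aadd : ∀ a b : F, R H ![a, 0, 0] ![0, 0, 1] → R H ![b, 0, 0] ![0, 0, 1] → R H ![a + b, 0, 0] ![0, 0, 1] := by
    intro a b ha hb
    refine Rcast ?_ (R_add (by simp [dotProduct, Fin.sum_univ_three]) ha hb)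
    ext i; fin_cases i <;> simp
  have KB : ∀ b : F, R H ![0, b, 0] ![0, 0, 1] → R H ![κ * b, 0, 0] ![0, 0, 1] := by
    intro b hb
    have h1 := R_conj (ψ := -![0, 1, 3]) hy (by
      rw [ey]; ext i; fin_cases i <;> simp [Matrix.vecMul, dotProduct, Fin.sum_univ_three] <;> ring) hb
    have e1 : (Y3 κ : Matrix (Fin 3) (Fin 3) F) *ᵥ ![0, b, 0] = ![b * (1 + 3 * κ), -3 * κ * b, κ * b] := by
      rw [ey]; ext i; fin_cases i <;> simp [Matrix.mulVec, dotProduct, Fin.sum_univ_three] <;> ring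
    rw [e1] at h1
    have h2 := R_negneg h1
    have h3 := R_add (by simp [dotProduct, Fin.sum_univ_three]) h2 (C1 b hb)
    have e2 : -![b * (1 + 3 * κ), -3 * κ * b, κ * b] + ![b, 0, 0] = ![-3 * κ * b, 3 * κ * b, -κ * b] := by
      ext i; fin_cases i <;> simp <;> ring
    rw [e2] at h3
    have h4 := R_conj (ψ := ![0, 0, 1]) hx (by
      rw [ex]; ext i; fin_cases i <;> simp [Matrix.vecMul, dotProduct, Fin.sum_univ_three]) h3
    have e3 : (X3 F : Matrix (Fin 3) (Fin 3) F) *ᵥ ![-3 * κ * b, 3 * κ * b, -κ * b] = ![-κ * b, 0, 0] := by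
      rw [ex]; ext i; fin_cases i <;> simp [Matrix.mulVec, dotProduct, Fin.sum_univ_three] <;> ring
    rw [e3] at h4
    have h5 := R_neg (by simp [dotProduct, Fin.sum_univ_three]) h4
    refine Rcast ?_ h5
    ext i; fin_cases i <;> simp
  have hT : R H ![-12 - κ ^ 2, 0, 0] ![0, 0, 1] := ⟨_, mul_mem (mul_mem hx hy) (mul_mem hx hy), T3_coe κ⟩
  -- the subfield
  set P : F → Prop := fun z => R H ![κ⁻¹ * z, 0, 0] ![0, 0, 1] with hP
  have Padd : ∀ a b, P a → P b → P (a + b) := by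
    intro a b ha hb
    have := Aadd _ _ ha hb
    rwa [← mul_add] at this
  have Pneg : ∀ a, P a → P (-a) := by
    intro a ha
    have := Aneg _ ha
    rwa [← mul_neg] at this
  have Pmul : ∀ a b, P a → P b → P (a * b) := by
    intro a b ha hb
    have h1 := KB _ (AA _ _ ha hb)
    rwa [show κ * (κ⁻¹ * a * (κ⁻¹ * b)) = κ⁻¹ * (a * b) by field_simp] at h1
  have Pz : P (κ * (-12 - κ ^ 2)) := by
    change R H ![κ⁻¹ * (κ * (-12 - κ ^ 2)), 0, 0] ![0, 0, 1]
    rwa [inv_mul_cancel_left₀ h0]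
  have hz0 : κ * (-12 - κ ^ 2) ≠ 0 := by
    apply mul_ne_zero h0
    intro h
    apply h12
    linear_combination -h
  obtain ⟨P1, -⟩ := one_closed Pmul Pz hz0
  have Pinv : ∀ z, z ≠ 0 → P z → P z⁻¹ := fun z h h' => (one_closed Pmul h' h).2
  have P3 : P (κ ^ 3) := by
    have a1 : R H ![κ⁻¹ * 1, 0, 0] ![0, 0, 1] := P1
    have a2 := AA _ _ a1 a1
    have a3 := BB _ _ a2 a2
    have a4 : P ((κ ^ 3)⁻¹) := by
      change R H ![κ⁻¹ * (κ ^ 3)⁻¹, 0, 0] ![0, 0, 1]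
      rwa [show κ⁻¹ * 1 * (κ⁻¹ * 1) * (κ⁻¹ * 1 * (κ⁻¹ * 1)) = κ⁻¹ * (κ ^ 3)⁻¹ by field_simp] at a3
    have := Pinv _ (inv_ne_zero (pow_ne_zero 3 h0)) a4
    rwa [inv_inv] at this
  have Pκ : P κ := by
    by_cases h3 : (3 : F) = 0
    · have hdvd : 3 ∣ Fintype.card F := by
        haveI : CharP F 3 := by
          have := CharP.charP_iff_prime_eq_zero (R := F) Nat.prime_three
          exact this.mpr (by exact_mod_cast h3)
        obtain ⟨n, -, hn⟩ := FiniteField.card F 3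
        rw [hn]
        exact dvd_pow_self 3 n.2.ne'
      obtain ⟨m, hm⟩ := hdvd
      have hm0 : 0 < m := by
        have := Fintype.one_lt_card (α := F)
        omega
      obtain ⟨n, rfl⟩ : ∃ n, m = n + 1 := ⟨m - 1, by omega⟩
      have h5 := pow_closed Pmul P3 n
      rwa [← pow_mul, ← hm, FiniteField.pow_card] at h5
    · have h5 : P (κ * 12) := by
        have := Padd _ _ (Pneg _ Pz) (Pneg _ P3)
        rwa [show -(κ * (-12 - κ ^ 2)) + -κ ^ 3 = κ * 12 by ring] at this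
      have h6 : P 2 := by have := Padd _ _ P1 P1; rwa [one_add_one_eq_two] at this
      have h7 : P 3 := by have := Padd _ _ h6 P1; rwa [two_add_one_eq_three] at this
      have h8 : P 12 := by
        have := Pmul _ _ (Pmul _ _ h6 h6) h7
        rwa [show (2 : F) * 2 * 3 = 12 by norm_num] at this
      have h9 : (12 : F) ≠ 0 := by
        rw [show (12 : F) = 2 * 2 * 3 by norm_num]
        exact mul_ne_zero (mul_ne_zero h2 h2) h3
      have h10 := Pmul _ _ h5 (Pinv _ h9 h8)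
      rwa [mul_assoc, mul_inv_cancel₀ h9, mul_one] at h10
  have Pall : ∀ z, P z := by
    intro z
    by_cases hz : z = 0
    · subst hz
      have := Padd _ _ Pκ (Pneg _ Pκ)
      rwa [add_neg_cancel] at this
    · obtain ⟨n, hn⟩ := hκ z hz
      rw [← hn]
      exact pow_closed Pmul Pκ n
  have Aall : ∀ a : F, R H ![a, 0, 0] ![0, 0, 1] := by
    intro a
    have : R H ![κ⁻¹ * (κ * a), 0, 0] ![0, 0, 1] := Pall (κ * a)
    rwa [inv_mul_cancel_left₀ h0] at this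
  have Ball : ∀ b : F, R H ![0, b, 0] ![0, 0, 1] := by
    intro b
    have := AA b 1 (Aall _) (Aall _)
    rwa [mul_one] at this
  have F2 : Full H (![0, 0, 1] : Fin 3 → F) := by
    intro v hv
    have hv2 : v 2 = 0 := by simpa [dotProduct, Fin.sum_univ_three] using hv
    refine Rcast ?_ (R_add (by simp [dotProduct, Fin.sum_univ_three]) (Aall (v 0)) (Ball (v 1)))
    ext i; fin_cases i <;> simp [hv2]
  have F0 : Full H (![1, 0, 0] : Fin 3 → F) := F2.conj (g := X3 F) hx (by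
    rw [ex]; ext i; fin_cases i <;> simp [Matrix.vecMul, dotProduct, Fin.sum_univ_three])
  have F1' : Full H (![0, 1, 3] : Fin 3 → F) := F2.conj (g := (X3 F)⁻¹) (inv_mem hx) (by
    have : (![0, 1, 3] : Fin 3 → F) = ![0, 0, 1] ᵥ* (X3 F : Matrix (Fin 3) (Fin 3) F) := by
      rw [ex]; ext i; fin_cases i <;> simp [Matrix.vecMul, dotProduct, Fin.sum_univ_three]
    rw [this, Matrix.vecMul_vecMul, cinv', Matrix.vecMul_one])
  have F1 : Full H (![0, 1, 0] : Fin 3 → F) := by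
    have := F1'.add (F2.smul (-3))
    have e : (![0, 1, 3] : Fin 3 → F) + (-3 : F) • ![0, 0, 1] = ![0, 1, 0] := by
      ext i; fin_cases i <;> simp
    rwa [e] at this
  apply eq_top_of_full
  intro j
  fin_cases j
  · have e : (Pi.single (0 : Fin 3) (1 : F) : Fin 3 → F) = ![1, 0, 0] := by
      ext i; fin_cases i <;> simp
    change Full H (Pi.single (0 : Fin 3) (1 : F) : Fin 3 → F)
    rw [e]; exact F0
  · have e : (Pi.single (1 : Fin 3) (1 : F) : Fin 3 → F) = ![0, 1, 0] := by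
      ext i; fin_cases i <;> simp
    change Full H (Pi.single (1 : Fin 3) (1 : F) : Fin 3 → F)
    rw [e]; exact F1
  · have e : (Pi.single (2 : Fin 3) (1 : F) : Fin 3 → F) = ![0, 0, 1] := by
      ext i; fin_cases i <;> simp
    change Full H (Pi.single (2 : Fin 3) (1 : F) : Fin 3 → F)
    rw [e]; exact F2

end three

end CfsgLib.GU
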