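import Mathlib
import Cfsg.Agent.Lib.H3Zas1
import Cfsg.Agent.Lib.H3Zas2

/-!
# Derived length of linear `p`-groups, characteristic different from `p`
-/

set_option autoImplicit false
set_option maxHeartbeats 1000000

namespace CfsgLib.H3Dl

open Module

universe u v w

theorem dle {P : Type u} [Group P] (C : Subgroup P) (hC : commutator P ≤ C) (k : ℕ) :
    derivedSeries P (k + 1) ≤ (derivedSeries C k).map C.subtype := by
  induction k with
  | zero =>
    rw [zero_add, derivedSeries_one, derivedSeries_zero, ← MonoidHom.range_eq_map, Subgroup.range_subtype]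
    exact hC
  | succ k ih =>
    rw [derivedSeries_succ P (k + 1), derivedSeries_succ C k, Subgroup.map_commutator]
    exact Subgroup.commutator_mono ih ih

section Rep

variable {K : Type w} [Field K] {P : Type u} [Group P] {V : Type v} [AddCommGroup V] [Module K V] (ρ : P →* Module.End K V)

theorem inv_mul' (g : P) : ρ g⁻¹ * ρ g = 1 := by rw [← map_mul, inv_mul_cancel, map_one]

theorem mul_inv' (g : P) : ρ g * ρ g⁻¹ = 1 := by rw [← map_mul, mul_inv_cancel, map_one]

theorem inj (g : P) : Function.Injective (ρ g) := by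
  intro a b hab
  have h1 : ∀ x, ρ g⁻¹ (ρ g x) = x := fun x => congrArg (fun f : Module.End K V => f x) (inv_mul' ρ g)
  rw [← h1 a, hab, h1]

/-- quotient representation -/
def quo (W : Submodule K V) (hW : ∀ g, ∀ w ∈ W, ρ g w ∈ W) : P →* Module.End K (V ⧸ W) where
  toFun g := W.mapQ W (ρ g) (hW g)
  map_one' := by
    refine LinearMap.ext fun a => ?_
    obtain ⟨x, rfl⟩ := Submodule.mkQ_surjective W a
    rw [Submodule.mkQ_apply, Submodule.mapQ_apply, map_one]; rfl
  map_mul' g h := by
    refine LinearMap.ext fun a => ?_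
    obtain ⟨x, rfl⟩ := Submodule.mkQ_surjective W a
    rw [Module.End.mul_apply, Submodule.mkQ_apply, Submodule.mapQ_apply, Submodule.mapQ_apply, Submodule.mapQ_apply, map_mul]; rfl

theorem quo_apply (W : Submodule K V) (hW : ∀ g, ∀ w ∈ W, ρ g w ∈ W) (g : P) (x : V) :
    quo ρ W hW g (Submodule.Quotient.mk x) = Submodule.Quotient.mk (ρ g x) := rfl

theorem unip {x : P} {W : Submodule K V} (h1 : ∀ w ∈ W, ρ x w = w) (h2 : ∀ v, ρ x v - v ∈ W) (m : ℕ) (hm : x ^ m = 1) (hmK : (m : K) ≠ 0) :
    ρ x = 1 := by
  have key : ∀ k : ℕ, ∀ v, (ρ x ^ k) v = v + (k : K) • (ρ x v - v) := by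
    intro k v
    induction k with
    | zero => simp
    | succ k ih =>
      rw [pow_succ', Module.End.mul_apply, ih, map_add, _root_.map_smul, h1 _ (h2 v), Nat.cast_add, Nat.cast_one, add_smul, one_smul]
      abel
  refine LinearMap.ext fun v => ?_
  have h3 := key m v
  rw [← map_pow, hm, map_one] at h3
  have h4 : (m : K) • (ρ x v - v) = 0 := by
    have h5 : v = v + (m : K) • (ρ x v - v) := h3
    exact (add_eq_left (a := v)).1 h5.symm
  have h5 := (smul_eq_zero.1 h4).resolve_left hmK
  exact sub_eq_zero.1 h5

end Rep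

/-- a non-central element that is central modulo the centre -/
theorem exists_second {Q : Type u} [Group Q] [Finite Q] {p : ℕ} [Fact p.Prime] (hQ : IsPGroup p Q) (hna : ¬ ∀ x y : Q, x * y = y * x) :
    ∃ a : Q, (∃ g, g * a ≠ a * g) ∧ ∀ g h : Q, (g * a * g⁻¹ * a⁻¹) * h = h * (g * a * g⁻¹ * a⁻¹) := by
  haveI : Nontrivial (Q ⧸ Subgroup.center Q) := by
    rw [QuotientGroup.nontrivial_iff]
    intro h
    apply hna
    intro x y
    have : y ∈ Subgroup.center Q := h ▸ Subgroup.mem_top y
    exact Subgroup.mem_center_iff.1 this x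
  have hQ2 : IsPGroup p (Q ⧸ Subgroup.center Q) := hQ.to_quotient _
  haveI := hQ2.center_nontrivial
  obtain ⟨b, hb⟩ := exists_ne (1 : Subgroup.center (Q ⧸ Subgroup.center Q))
  obtain ⟨a, ha⟩ := QuotientGroup.mk'_surjective (Subgroup.center Q) (b : Q ⧸ Subgroup.center Q)
  have haZ : a ∉ Subgroup.center Q := by
    intro h
    apply hb
    apply Subtype.ext
    rw [← ha]
    exact (QuotientGroup.eq_one_iff a).2 h
  refine ⟨a, ?_, ?_⟩
  · by_contra hno
    push Not at hno
    exact haZ (Subgroup.mem_center_iff.2 hno)
  · intro g h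
    have h1 : g * a * g⁻¹ * a⁻¹ ∈ Subgroup.center Q := by
      rw [← QuotientGroup.eq_one_iff]
      have h2 := Subgroup.mem_center_iff.1 b.2 (QuotientGroup.mk' (Subgroup.center Q) g)
      rw [← ha] at h2
      change QuotientGroup.mk' (Subgroup.center Q) (g * a * g⁻¹ * a⁻¹) = 1
      rw [map_mul, map_mul, map_mul, map_inv, map_inv, h2, mul_assoc, mul_assoc, mul_inv_cancel_left, mul_inv_cancel]
    exact ((Subgroup.mem_center_iff.1 h1) h).symm

theorem T {K : Type w} [Field K] [IsAlgClosed K] {p : ℕ} [Fact p.Prime] (hpK : (p : K) ≠ 0) (N : ℕ) :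
    ∀ {P : Type u} [Group P] [Finite P] (_ : IsPGroup p P) {V : Type v} [AddCommGroup V] [Module K V] [FiniteDimensional K V]
      (ρ : P →* Module.End K V), finrank K V ≤ N → ∀ d, finrank K V < 2 ^ d → ∀ x ∈ derivedSeries P d, ρ x = 1 := by
  classical
  induction N with
  | zero =>
    intro P _ _ hP V _ _ _ ρ hN d hd x hx
    have h0 : finrank K V = 0 := by omega
    haveI : Subsingleton V := Module.finrank_zero_iff.1 h0
    exact LinearMap.ext fun v => Subsingleton.elim _ _
  | succ N ih =>
    intro P _ _ hP V _ _ _ ρ hN d hd x hx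
    by_cases hV0 : Nontrivial V
    swap
    · rw [not_nontrivial_iff_subsingleton] at hV0
      exact LinearMap.ext fun v => Subsingleton.elim _ _
    by_cases hred : ∃ W : Submodule K V, W ≠ ⊥ ∧ W ≠ ⊤ ∧ ∀ g, ∀ w ∈ W, ρ g w ∈ W
    · -- reducible
      obtain ⟨W, hW1, hW2, hW⟩ := hred
      have hlt : finrank K W < finrank K V := Submodule.finrank_lt hW2
      have hadd := Submodule.finrank_quotient_add_finrank W
      have hpos : 0 < finrank K W := by
        haveI := (Submodule.nontrivial_iff_ne_bot).2 hW1
        exact finrank_pos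
      have e1 := ih hP (CfsgLib.H3Zas.restr ρ W hW) (by omega) d (by omega) x hx
      have e2 := ih hP (quo ρ W hW) (by omega) d (by omega) x hx
      obtain ⟨k, hk⟩ := hP x
      refine unip ρ (W := W) ?_ ?_ (p ^ k) hk (by rw [Nat.cast_pow]; exact pow_ne_zero _ hpK)
      · intro w hw
        have := congrArg (fun f : Module.End K W => ((f ⟨w, hw⟩ : W) : V)) e1
        exact this
      · intro v
        have h3 := congrArg (fun f : Module.End K (V ⧸ W) => f (Submodule.Quotient.mk v)) e2
        have h4 : (Submodule.Quotient.mk (ρ x v) : V ⧸ W) = Submodule.Quotient.mk v := h3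
        exact (Submodule.Quotient.eq W).1 h4
    · have hirr : ∀ W : Submodule K V, W ≠ ⊥ → (∀ g, ∀ w ∈ W, ρ g w ∈ W) → W = ⊤ := by
        intro W hW1 hW
        by_contra hW2
        exact hred ⟨W, hW1, hW2, hW⟩
      have hdpos : d ≠ 0 := by
        rintro rfl
        have : 0 < finrank K V := finrank_pos
        rw [pow_zero] at hd
        omega
      obtain ⟨d, rfl⟩ : ∃ d', d = d' + 1 := ⟨d - 1, by omega⟩
      by_cases hab : ∀ g h : P, ρ (g * h) = ρ (h * g)
      · -- abelian image
        have hle : derivedSeries P (d + 1) ≤ ρ.ker := by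
          refine (derivedSeries_antitone P (show 1 ≤ d + 1 by omega)).trans ?_
          rw [derivedSeries_one, commutator_def, Subgroup.commutator_le]
          intro g _ h _
          rw [MonoidHom.mem_ker, commutatorElement_def]
          have e1 : ρ (g * h * g⁻¹ * h⁻¹) = ρ (g * h) * ρ (g⁻¹ * h⁻¹) := by rw [← map_mul]; congr 1; group
          rw [e1, hab g h, ← map_mul]
          have e2 : h * g * (g⁻¹ * h⁻¹) = 1 := by group
          rw [e2, map_one]
        exact hle hx
      -- second centre element
      have hπ : ∀ g h : P, QuotientGroup.mk' ρ.ker g = QuotientGroup.mk' ρ.ker h ↔ ρ g = ρ h := by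
        intro g h
        rw [QuotientGroup.mk'_apply, QuotientGroup.mk'_apply, QuotientGroup.eq, MonoidHom.mem_ker, map_mul]
        constructor
        · intro h1
          have h2 : ρ g * (ρ g⁻¹ * ρ h) = ρ g := by rw [h1, mul_one]
          rw [← mul_assoc, mul_inv', one_mul] at h2
          exact h2.symm
        · intro h1
          rw [← h1, inv_mul']
      obtain ⟨a', ⟨g0', hg0'⟩, ha2'⟩ := exists_second (Q := P ⧸ ρ.ker) (hP.to_quotient _) (by
        intro h
        apply hab
        intro g k
        rw [← hπ, map_mul, map_mul]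
        exact h _ _)
      obtain ⟨a, rfl⟩ := QuotientGroup.mk'_surjective _ a'
      obtain ⟨g0, rfl⟩ := QuotientGroup.mk'_surjective _ g0'
      have hg0 : ρ (g0 * a) ≠ ρ (a * g0) := by
        rw [Ne, ← hπ, map_mul, map_mul]; exact hg0'
      have ha2 : ∀ g h, ρ ((g * a * g⁻¹ * a⁻¹) * h) = ρ (h * (g * a * g⁻¹ * a⁻¹)) := by
        intro g h
        rw [← hπ]
        simp only [map_mul, map_inv]
        exact ha2' _ _
      -- Schur
      have hsc : ∀ z : P, (∀ h, ρ (z * h) = ρ (h * z)) → ∃ μ : K, ρ z = μ • (1 : Module.End K V) := by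
        intro z hz
        obtain ⟨μ, hμ⟩ := Module.End.exists_eigenvalue (ρ z)
        refine ⟨μ, ?_⟩
        have h1 := hirr (Module.End.eigenspace (ρ z) μ) hμ (by
          intro g w hw
          rw [Module.End.mem_eigenspace_iff] at hw ⊢
          have h2 := congrArg (fun f : Module.End K V => f w) (hz g)
          simp only [map_mul, Module.End.mul_apply] at h2
          rw [h2, hw, _root_.map_smul])
        refine LinearMap.ext fun v => ?_
        have h2 : v ∈ Module.End.eigenspace (ρ z) μ := h1 ▸ trivial
        rw [Module.End.mem_eigenspace_iff] at h2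
        exact h2
      have hc : ∀ g, ∃ μ : K, ρ (g * a * g⁻¹ * a⁻¹) = μ • (1 : Module.End K V) := fun g => hsc _ (ha2 g)
      choose c hc using hc
      have hT : ∀ g, ρ g * ρ a * ρ g⁻¹ = c g • ρ a := by
        intro g
        have h1 : ρ g * ρ a * ρ g⁻¹ = ρ (g * a * g⁻¹ * a⁻¹) * ρ a := by
          rw [← map_mul, ← map_mul, ← map_mul]; congr 1; group
        rw [h1, hc g, smul_mul_assoc, one_mul]
      have ha0 : ρ a ≠ 0 := by
        intro h
        have := mul_inv' ρ a
        rw [h, zero_mul] at this
        exact one_ne_zero this.symm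
      have hsmul : ∀ s t : K, s • ρ a = t • ρ a → s = t := fun s t h => smul_left_injective K ha0 h
      let χ : P →* K :=
        { toFun := c
          map_one' := by
            apply hsmul
            rw [← hT 1, one_smul, inv_one, map_one, one_mul, mul_one]
          map_mul' := fun g h => by
            apply hsmul
            have e1 : ρ (g * h) * ρ a * ρ (g * h)⁻¹ = ρ g * (ρ h * ρ a * ρ h⁻¹) * ρ g⁻¹ := by
              rw [mul_inv_rev, map_mul, map_mul]; noncomm_ring
            rw [← hT (g * h), e1, hT h, mul_smul_comm, smul_mul_assoc, hT g, smul_smul, mul_comm] }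
      have hχ : ∀ g, χ g = c g := fun _ => rfl
      let C : Subgroup P := χ.ker
      have hCc : commutator P ≤ C := by
        have h1 := Abelianization.commutator_subset_ker χ.toHomUnits
        intro y hy
        have h2 := MonoidHom.mem_ker.1 (h1 hy)
        rw [MonoidHom.mem_ker]
        have := congrArg (fun u : Kˣ => (u : K)) h2
        exact this
      haveI : C.Normal := inferInstance
      have hCa : ∀ y ∈ C, ρ y * ρ a = ρ a * ρ y := by
        intro y hy
        have h1 : c y = 1 := MonoidHom.mem_ker.1 hy
        have h2 := hT y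
        rw [h1, one_smul] at h2
        calc ρ y * ρ a = (ρ y * ρ a * ρ y⁻¹) * ρ y := by rw [mul_assoc (ρ y * ρ a), inv_mul', mul_one]
          _ = ρ a * ρ y := by rw [h2]
      have hcg0 : c g0 ≠ 1 := by
        intro h1
        apply hg0
        rw [map_mul, map_mul]
        exact hCa g0 (MonoidHom.mem_ker.2 h1)
      obtain ⟨l, hl⟩ := Module.End.exists_eigenvalue (ρ a)
      obtain ⟨W, hWe⟩ : ∃ W, W = Module.End.eigenspace (ρ a) l := ⟨_, rfl⟩
      have hWm : ∀ w, w ∈ W ↔ ρ a w = l • w := fun w => by rw [hWe]; exact Module.End.mem_eigenspace_iff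
      have hW0 : W ≠ ⊥ := hWe ▸ hl
      have hl0 : l ≠ 0 := by
        rintro rfl
        obtain ⟨w, hw, hw0⟩ := (Submodule.ne_bot_iff W).1 hW0
        rw [hWm, zero_smul] at hw
        exact hw0 (inj ρ a (by rw [hw, map_zero]))
      have hdisj : Disjoint W (W.map (ρ g0)) := by
        rw [Submodule.disjoint_def]
        rintro w hw ⟨y, hy, rfl⟩
        rw [hWm] at hw
        have hy' := (hWm y).1 hy
        have h1 : ρ g0 * ρ a = c g0 • (ρ a * ρ g0) := by
          have h2 := hT g0
          calc ρ g0 * ρ a = (ρ g0 * ρ a * ρ g0⁻¹) * ρ g0 := by rw [mul_assoc (ρ g0 * ρ a), inv_mul', mul_one]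
            _ = _ := by rw [h2, smul_mul_assoc]
        have h2 := congrArg (fun f : Module.End K V => f y) h1
        simp only [Module.End.mul_apply, LinearMap.smul_apply] at h2
        rw [hy', hw, _root_.map_smul, smul_smul] at h2
        have h3 : (l - c g0 * l) • ρ g0 y = 0 := by rw [sub_smul, h2, sub_self]
        refine (smul_eq_zero.1 h3).resolve_left ?_
        intro h4
        have h5 : (1 - c g0) * l = 0 := by linear_combination h4
        rcases mul_eq_zero.1 h5 with h6 | h6
        · exact hcg0 (sub_eq_zero.1 h6).symm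
        · exact hl0 h6
      have hdim : 2 * finrank K W ≤ finrank K V := by
        have h1 := Submodule.finrank_add_finrank_le_of_disjoint hdisj
        have h2 : finrank K (W.map (ρ g0)) = finrank K W := (Submodule.equivMapOfInjective (ρ g0) (inj ρ g0) W).finrank_eq.symm
        rw [h2] at h1
        omega
      have hWpos : 0 < finrank K W := by
        haveI := (Submodule.nontrivial_iff_ne_bot).2 hW0
        exact finrank_pos
      have hWC : ∀ y : C, ∀ w ∈ W, (ρ.comp C.subtype) y w ∈ W := by
        intro y w hw
        rw [hWm] at hw ⊢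
        have h1 := congrArg (fun f : Module.End K V => f w) (hCa y y.2)
        simp only [Module.End.mul_apply] at h1
        change ρ a (ρ y w) = l • ρ y w
        rw [← h1, hw, _root_.map_smul]
      rw [pow_succ] at hd
      have hIH := ih (hP.to_subgroup C) (CfsgLib.H3Zas.restr (ρ.comp C.subtype) W hWC) (by omega) d (by omega)
      obtain ⟨D, hD⟩ : ∃ D, D = (derivedSeries C d).map C.subtype := ⟨_, rfl⟩
      haveI hDn : D.Normal := by rw [hD]; exact ConjAct.normal_of_characteristic_of_normal
      have hDW : ∀ y ∈ D, ∀ w ∈ W, ρ y w = w := by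
        intro y hy w hw
        rw [hD] at hy
        obtain ⟨y, hy, rfl⟩ := hy
        have := congrArg (fun f : Module.End K W => ((f ⟨w, hw⟩ : W) : V)) (hIH y hy)
        exact this
      let F : Submodule K V :=
        { carrier := {v | ∀ y ∈ D, ρ y v = v}
          zero_mem' := fun y _ => map_zero _
          add_mem' := fun {u v} hu hv y hy => by rw [map_add, hu y hy, hv y hy]
          smul_mem' := fun s v hv y hy => by rw [_root_.map_smul, hv y hy] }
      have hF : F = ⊤ := by
        apply hirr
        · intro h0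
          apply hW0
          rw [eq_bot_iff, ← h0]
          intro w hw y hy
          exact hDW y hy w hw
        · intro g v hv y hy
          have h1 : ρ (g⁻¹ * y * g) v = v := hv _ (by
            have := hDn.conj_mem y hy g⁻¹
            rwa [inv_inv] at this)
          have h2 : ρ y * ρ g = ρ g * ρ (g⁻¹ * y * g) := by rw [← map_mul, ← map_mul]; congr 1; group
          have h3 := congrArg (fun f : Module.End K V => f v) h2
          simp only [Module.End.mul_apply] at h3
          rw [h3, h1]
      have hxD : x ∈ D := by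
        rw [hD]
        exact dle C hCc d hx
      refine LinearMap.ext fun v => ?_
      have h1 : v ∈ F := hF ▸ trivial
      exact h1 x hxD

end CfsgLib.H3Dl
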