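import Mathlib
import Cfsg.Agent.Lib.H3Zas1
import Cfsg.Agent.Lib.H3Zas2
import Cfsg.Agent.Lib.H3Fld3
import Cfsg.Agent.Lib.H3Dl1

/-!
# Derived length of linear `p`-groups
-/

set_option autoImplicit false
set_option maxHeartbeats 1000000

namespace CfsgLib.H3Dl

open Module
open scoped TensorProduct

universe u v w

theorem T_any {K : Type w} [Field K] {p : ℕ} [Fact p.Prime] (hpK : (p : K) ≠ 0)
    {P : Type u} [Group P] [Finite P] (hP : IsPGroup p P) {V : Type v} [AddCommGroup V] [Module K V] [FiniteDimensional K V]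
    (ρ : P →* Module.End K V) (d : ℕ) (hd : finrank K V < 2 ^ d) : ∀ x ∈ derivedSeries P d, ρ x = 1 := by
  intro x hx
  let L := AlgebraicClosure K
  let σ : P →* Module.End L (L ⊗[K] V) := ((Module.End.baseChangeHom K L V : Module.End K V →ₐ[K] Module.End L (L ⊗[K] V)) : Module.End K V →* Module.End L (L ⊗[K] V)).comp ρ
  have hpL : (p : L) ≠ 0 := by
    intro h
    apply hpK
    apply (algebraMap K L).injective
    rw [map_natCast, map_zero]; exact h
  have h1 := T hpL (finrank L (L ⊗[K] V)) hP σ le_rfl d (by rw [Module.finrank_baseChange]; exact hd) x hx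
  have hinj : Function.Injective (fun v : V => (1 : L) ⊗ₜ[K] v) := Module.FaithfullyFlat.tensorProduct_mk_injective (A := K) (B := L) V
  refine LinearMap.ext fun v => ?_
  apply hinj
  have h2 := congrArg (fun f : Module.End L (L ⊗[K] V) => f ((1 : L) ⊗ₜ[K] v)) h1
  exact h2

theorem fixv {K : Type w} [Field K] {p : ℕ} [Fact p.Prime] (hpK : (p : K) = 0)
    {P : Type u} [Group P] [Finite P] (hP : IsPGroup p P) {V : Type v} [AddCommGroup V] [Module K V] [Nontrivial V]
    (ρ : P →* Module.End K V) : ∃ v : V, v ≠ 0 ∧ ∀ g, ρ g v = v := by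
  classical
  have hp : p.Prime := Fact.out
  obtain ⟨v0, hv0⟩ := exists_ne (0 : V)
  have htors : ∀ v : V, p • v = 0 := by
    intro v
    rw [← Nat.cast_smul_eq_nsmul K, hpK, zero_smul]
  let A : Submodule ℤ V := Submodule.span ℤ (Set.range (fun g : P => ρ g v0))
  have hv0A : v0 ∈ A := Submodule.subset_span ⟨1, by change ρ 1 v0 = v0; rw [map_one]; rfl⟩
  haveI : Module.Finite ℤ A := Module.Finite.span_of_finite ℤ (Set.finite_range _)
  haveI : Finite A := CfsgLib.H3Fld.finite_of_tors hp.pos (fun x => Subtype.ext (htors x))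
  have hA : ∀ g : P, ∀ a ∈ A, ρ g a ∈ A := by
    intro g a ha
    induction ha using Submodule.span_induction with
    | mem x hx =>
      obtain ⟨h, rfl⟩ := hx
      exact Submodule.subset_span ⟨g * h, by change ρ (g * h) v0 = _; rw [map_mul]; rfl⟩
    | zero => rw [map_zero]; exact A.zero_mem
    | add x y _ _ hx hy => rw [map_add]; exact A.add_mem hx hy
    | smul c x _ hx => rw [map_zsmul]; exact A.smul_mem _ hx
  letI : MulAction P A :=
    { smul := fun g a => ⟨ρ g a, hA g a a.2⟩
      one_smul := fun a => Subtype.ext (by change ρ 1 a = a; rw [map_one]; rfl)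
      mul_smul := fun g h a => Subtype.ext (by change ρ (g * h) a = ρ g (ρ h a); rw [map_mul]; rfl) }
  have h0 : (0 : A) ∈ MulAction.fixedPoints P A := fun g => Subtype.ext (map_zero (ρ g))
  have hdvd : p ∣ Nat.card A := by
    have h1 : addOrderOf (⟨v0, hv0A⟩ : A) = p := by
      apply addOrderOf_eq_prime
      · exact Subtype.ext (htors v0)
      · intro h; exact hv0 (congrArg Subtype.val h)
    rw [← h1]; exact addOrderOf_dvd_natCard _
  obtain ⟨b, hb, hb0⟩ := hP.exists_fixed_point_of_prime_dvd_card_of_fixed_point A hdvd h0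
  exact ⟨b, fun h => hb0 (Subtype.ext h.symm), fun g => congrArg Subtype.val (hb g)⟩

theorem T' {K : Type w} [Field K] {p : ℕ} [Fact p.Prime] (hpK : (p : K) = 0) {P : Type u} [Group P] [Finite P] (hP : IsPGroup p P) (d : ℕ) :
    ∀ {V : Type v} [AddCommGroup V] [Module K V] [FiniteDimensional K V]
      (ρ : P →* Module.End K V), finrank K V ≤ 2 ^ d → ∀ x ∈ derivedSeries P d, ρ x = 1 := by
  classical
  induction d with
  | zero =>
    intro V _ _ _ ρ hd x _
    by_cases hV0 : Nontrivial V
    swap
    · rw [not_nontrivial_iff_subsingleton] at hV0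
      exact LinearMap.ext fun v => Subsingleton.elim _ _
    obtain ⟨v, hv, hfix⟩ := fixv hpK hP ρ
    have h1 : finrank K V = 1 := by
      have : 0 < finrank K V := finrank_pos
      rw [pow_zero] at hd
      omega
    refine LinearMap.ext fun y => ?_
    obtain ⟨c, rfl⟩ := (finrank_eq_one_iff_of_nonzero' v hv).1 h1 y
    rw [_root_.map_smul, hfix]; rfl
  | succ d ih =>
    intro V _ _ _ ρ hd x hx
    let S : Set (Submodule K V) := {W | (∀ g, ∀ w ∈ W, ρ g w ∈ W) ∧ finrank K W ≤ 2 ^ d}
    have hS : S.Nonempty := ⟨⊥, fun g w hw => by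
      rw [Submodule.mem_bot] at hw ⊢; rw [hw, map_zero], by rw [finrank_bot]; exact Nat.zero_le _⟩
    obtain ⟨W, ⟨hW, hWd⟩, hmax⟩ := WellFounded.has_min (wellFounded_gt (α := Submodule K V)) S hS
    have hQ : finrank K (V ⧸ W) ≤ 2 ^ d := by
      by_contra hlt
      push Not at hlt
      have hadd := Submodule.finrank_quotient_add_finrank W
      rw [pow_succ] at hd
      have hW1 : finrank K W + 1 ≤ 2 ^ d := by omega
      haveI : Nontrivial (V ⧸ W) := by
        apply Module.nontrivial_of_finrank_pos (R := K)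
        omega
      obtain ⟨q, hq, hfix⟩ := fixv hpK hP (quo ρ W hW)
      obtain ⟨v, rfl⟩ := Submodule.mkQ_surjective W q
      have hvW : v ∉ W := by
        intro h
        apply hq
        rw [Submodule.mkQ_apply, Submodule.Quotient.mk_eq_zero]; exact h
      have hfix' : ∀ g, ρ g v - v ∈ W := by
        intro g
        have h3 := hfix g
        rw [Submodule.mkQ_apply, quo_apply] at h3
        exact (Submodule.Quotient.eq W).1 h3
      refine hmax (W ⊔ Submodule.span K {v}) ⟨?_, ?_⟩ ?_
      · intro g w hw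
        obtain ⟨a, ha, b, hb, rfl⟩ := Submodule.mem_sup.1 hw
        obtain ⟨c, rfl⟩ := Submodule.mem_span_singleton.1 hb
        have e1 : ρ g (a + c • v) = (ρ g a + c • (ρ g v - v)) + c • v := by
          rw [map_add, _root_.map_smul, smul_sub]; abel
        rw [e1]
        exact Submodule.add_mem_sup (W.add_mem (hW g a ha) (W.smul_mem c (hfix' g))) (Submodule.smul_mem _ c (Submodule.mem_span_singleton_self v))
      · have h1 := Submodule.finrank_add_le_finrank_add_finrank W (Submodule.span K {v})
        have h2 : finrank K (Submodule.span K {v}) ≤ 1 := by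
          have := finrank_span_le_card (R := K) ({v} : Set V)
          simpa using this
        omega
      · refine lt_of_le_of_ne le_sup_left ?_
        intro h
        apply hvW
        have : v ∈ W ⊔ Submodule.span K {v} := Submodule.mem_sup_right (Submodule.mem_span_singleton_self v)
        rwa [← h] at this
    have key : ∀ y ∈ derivedSeries P d, (∀ w ∈ W, ρ y w = w) ∧ ∀ v, ρ y v - v ∈ W := by
      intro y hy
      have e1 := ih (CfsgLib.H3Zas.restr ρ W hW) hWd y hy
      have e2 := ih (quo ρ W hW) hQ y hy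
      constructor
      · intro w hw
        have := congrArg (fun f : Module.End K W => ((f ⟨w, hw⟩ : W) : V)) e1
        exact this
      · intro v
        have h3 := congrArg (fun f : Module.End K (V ⧸ W) => f (Submodule.Quotient.mk v)) e2
        have h4 : (Submodule.Quotient.mk (ρ y v) : V ⧸ W) = Submodule.Quotient.mk v := h3
        exact (Submodule.Quotient.eq W).1 h4
    have hle : derivedSeries P (d + 1) ≤ ρ.ker := by
      rw [derivedSeries_succ, Subgroup.commutator_le]
      intro y hy z hz
      obtain ⟨hy1, hy2⟩ := key y hy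
      obtain ⟨hz1, hz2⟩ := key z hz
      have hcomm : ρ (y * z) = ρ (z * y) := by
        refine LinearMap.ext fun v => ?_
        rw [map_mul, map_mul, Module.End.mul_apply, Module.End.mul_apply]
        have e1 : ρ y (ρ z v) = ρ y v + (ρ z v - v) := by
          have : ρ z v = v + (ρ z v - v) := by abel
          conv_lhs => rw [this]
          rw [map_add, hy1 _ (hz2 v)]
        have e2 : ρ z (ρ y v) = ρ z v + (ρ y v - v) := by
          have : ρ y v = v + (ρ y v - v) := by abel
          conv_lhs => rw [this]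
          rw [map_add, hz1 _ (hy2 v)]
        rw [e1, e2]; abel
      rw [MonoidHom.mem_ker, commutatorElement_def]
      have e1 : ρ (y * z * y⁻¹ * z⁻¹) = ρ (y * z) * ρ (y⁻¹ * z⁻¹) := by rw [← map_mul]; congr 1; group
      rw [e1, hcomm, ← map_mul]
      have e2 : z * y * (y⁻¹ * z⁻¹) = 1 := by group
      rw [e2, map_one]
    exact hle hx

/-- the matrix group as operators -/
noncomputable def toEnd {P : Type u} [Group P] {F : Type w} [Field F] {n : ℕ} (ρ : P →* Matrix.GeneralLinearGroup (Fin n) F) : P →* Module.End F (Fin n → F) :=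
  (((Matrix.toLinAlgEquiv' : Matrix (Fin n) (Fin n) F ≃ₐ[F] Module.End F (Fin n → F)) : Matrix (Fin n) (Fin n) F →* Module.End F (Fin n → F)).comp
    (Units.coeHom (Matrix (Fin n) (Fin n) F))).comp ρ

theorem toEnd_one {P : Type u} [Group P] {F : Type w} [Field F] {n : ℕ} (ρ : P →* Matrix.GeneralLinearGroup (Fin n) F) (x : P) (h : toEnd ρ x = 1) : ρ x = 1 := by
  apply Units.ext
  have h1 : (Matrix.toLinAlgEquiv' : Matrix (Fin n) (Fin n) F ≃ₐ[F] Module.End F (Fin n → F)) ((ρ x : Matrix.GeneralLinearGroup (Fin n) F) : Matrix (Fin n) (Fin n) F) = 1 := h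
  rw [← map_one (Matrix.toLinAlgEquiv' : Matrix (Fin n) (Fin n) F ≃ₐ[F] Module.End F (Fin n → F))] at h1
  exact (Matrix.toLinAlgEquiv' : Matrix (Fin n) (Fin n) F ≃ₐ[F] Module.End F (Fin n → F)).injective h1

theorem s4010 {P : Type u} [Group P] [Finite P] (p : ℕ) [Fact p.Prime] (hP : IsPGroup p P) (F : Type w) [Field F] (n : ℕ) (hn : 1 ≤ n)
    (ρ : P →* Matrix.GeneralLinearGroup (Fin n) F) (hρ : Function.Injective ρ) : derivedSeries P (Nat.log 2 n + 1) = ⊥ := by
  have hlt : n < 2 ^ (Nat.log 2 n + 1) := Nat.lt_pow_succ_log_self (by norm_num) n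
  have hfr : finrank F (Fin n → F) = n := by simp
  rw [eq_bot_iff]
  intro x hx
  rw [Subgroup.mem_bot]
  apply hρ
  rw [map_one]
  apply toEnd_one
  by_cases hpF : (p : F) = 0
  · exact T' hpF hP _ (toEnd ρ) (by rw [hfr]; exact hlt.le) x hx
  · exact T_any hpF hP (toEnd ρ) _ (by rw [hfr]; exact hlt) x hx

end CfsgLib.H3Dl
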