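import Mathlib
import Cfsg.Agent.Lib.H3Zas1
import Cfsg.Agent.Lib.H3Zas2
import Cfsg.Agent.Lib.H3Dl1
import Cfsg.Agent.Lib.H3Dl2

/-!
# Derived length of `p`-subgroups of `GL_n(q)`
-/

set_option autoImplicit false
set_option maxHeartbeats 1000000

namespace CfsgLib.H3Dl

open Module

universe u v w

theorem exists_central {P : Type u} [Group P] [Finite P] {p : ℕ} [Fact p.Prime] (hP : IsPGroup p P) {M : Type v} [Monoid M] (ρ : P →* M)
    (hne : ∃ x, ρ x ≠ 1) : ∃ z : P, ρ z ≠ 1 ∧ ρ z ^ p = 1 ∧ ∀ g, ρ g * ρ z = ρ z * ρ g := by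
  have hp : p.Prime := Fact.out
  have hπ : ∀ g : P, QuotientGroup.mk' ρ.ker g = 1 ↔ ρ g = 1 := by
    intro g
    rw [QuotientGroup.mk'_apply, QuotientGroup.eq_one_iff, MonoidHom.mem_ker]
  obtain ⟨x, hx⟩ := hne
  haveI : Nontrivial (P ⧸ ρ.ker) := ⟨⟨QuotientGroup.mk' ρ.ker x, 1, fun h => hx ((hπ x).1 h)⟩⟩
  have hQ : IsPGroup p (P ⧸ ρ.ker) := hP.to_quotient _
  haveI := hQ.center_nontrivial
  obtain ⟨n, hn⟩ := IsPGroup.iff_card.1 (hQ.to_subgroup (Subgroup.center (P ⧸ ρ.ker)))
  have hn0 : n ≠ 0 := by
    rintro rfl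
    rw [pow_zero] at hn
    have := Finite.one_lt_card (α := Subgroup.center (P ⧸ ρ.ker))
    omega
  obtain ⟨c, hc⟩ := exists_prime_orderOf_dvd_card' p (by rw [hn]; exact dvd_pow_self p hn0)
  have hco : orderOf (c : P ⧸ ρ.ker) = p := by rw [Subgroup.orderOf_coe, hc]
  obtain ⟨z, hz⟩ := QuotientGroup.mk'_surjective ρ.ker (c : P ⧸ ρ.ker)
  refine ⟨z, ?_, ?_, ?_⟩
  · intro h
    have h1 := (hπ z).2 h
    rw [hz] at h1
    rw [h1, orderOf_one] at hco
    exact hp.one_lt.ne hco
  · rw [← map_pow]
    apply (hπ _).1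
    rw [map_pow, hz, ← hco, pow_orderOf_eq_one]
  · intro g
    have h1 := Subgroup.mem_center_iff.1 c.2 (QuotientGroup.mk' ρ.ker g)
    rw [← hz, ← map_mul, ← map_mul] at h1
    have h2 : QuotientGroup.mk' ρ.ker ((z * g)⁻¹ * (g * z)) = 1 := by
      rw [map_mul, map_inv, h1, inv_mul_cancel]
    have h3 := (hπ _).1 h2
    rw [← map_mul, ← map_mul]
    have h4 : g * z = (z * g) * ((z * g)⁻¹ * (g * z)) := by group
    rw [h4, map_mul, h3, mul_one]

theorem T_e {F : Type w} [Field F] [Fintype F] {p : ℕ} [Fact p.Prime] (hpF : (p : F) ≠ 0) (e : ℕ) (he : e = orderOf ((Fintype.card F : ℕ) : ZMod p)) (N : ℕ) :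
    ∀ {P : Type u} [Group P] [Finite P] (_ : IsPGroup p P) {V : Type v} [AddCommGroup V] [Module F V] [FiniteDimensional F V]
      (ρ : P →* Module.End F V), finrank F V ≤ N → ∀ d, finrank F V < e * 2 ^ d → ∀ x ∈ derivedSeries P d, ρ x = 1 := by
  classical
  induction N with
  | zero =>
    intro P _ _ hP V _ _ _ ρ hN d hd x hx
    have h0 : finrank F V = 0 := by omega
    haveI : Subsingleton V := Module.finrank_zero_iff.1 h0
    exact LinearMap.ext fun v => Subsingleton.elim _ _
  | succ N ih =>
    intro P _ _ hP V _ _ _ ρ hN d hd x hx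
    by_cases hV0 : Nontrivial V
    swap
    · rw [not_nontrivial_iff_subsingleton] at hV0
      exact LinearMap.ext fun v => Subsingleton.elim _ _
    by_cases hred : ∃ W : Submodule F V, W ≠ ⊥ ∧ W ≠ ⊤ ∧ ∀ g, ∀ w ∈ W, ρ g w ∈ W
    · obtain ⟨W, hW1, hW2, hW⟩ := hred
      have hlt : finrank F W < finrank F V := Submodule.finrank_lt hW2
      have hadd := Submodule.finrank_quotient_add_finrank W
      have hpos : 0 < finrank F W := by
        haveI := (Submodule.nontrivial_iff_ne_bot).2 hW1
        exact finrank_pos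
      have e1 := ih hP (CfsgLib.H3Zas.restr ρ W hW) (by omega) d (by omega) x hx
      have e2 := ih hP (quo ρ W hW) (by omega) d (by omega) x hx
      obtain ⟨k, hk⟩ := hP x
      refine unip ρ (W := W) ?_ ?_ (p ^ k) hk (by rw [Nat.cast_pow]; exact pow_ne_zero _ hpF)
      · intro w hw
        have := congrArg (fun f : Module.End F W => ((f ⟨w, hw⟩ : W) : V)) e1
        exact this
      · intro v
        have h3 := congrArg (fun f : Module.End F (V ⧸ W) => f (Submodule.Quotient.mk v)) e2
        have h4 : (Submodule.Quotient.mk (ρ x v) : V ⧸ W) = Submodule.Quotient.mk v := h3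
        exact (Submodule.Quotient.eq W).1 h4
    by_cases htr : ∀ y, ρ y = 1
    · exact htr x
    push Not at htr
    obtain ⟨z, hz1, hzp, hzc⟩ := exists_central hP ρ htr
    have hirr : ∀ W : Submodule F V, W ≠ ⊥ → (∀ g, ∀ w ∈ W, ρ g w ∈ W) → W = ⊤ := by
      intro W hW1 hW
      by_contra hW2
      exact hred ⟨W, hW1, hW2, hW⟩
    let S : Subalgebra F (Module.End F V) := Algebra.adjoin F {ρ z}
    have hzS : ρ z ∈ S := Algebra.subset_adjoin rfl
    have hScomm : ∀ s ∈ S, ∀ g, ρ g * s = s * ρ g := by
      intro s hs g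
      induction hs using Algebra.adjoin_induction with
      | mem y hy => rw [Set.mem_singleton_iff.1 hy]; exact hzc g
      | algebraMap r => exact (Algebra.commutes r (ρ g)).symm
      | add a b _ _ ha hb => rw [mul_add, add_mul, ha, hb]
      | mul a b _ _ ha hb => rw [← mul_assoc, ha, mul_assoc, hb, mul_assoc]
    have hSS : ∀ s ∈ S, ∀ t ∈ S, s * t = t * s := by
      intro s hs t ht
      induction ht using Algebra.adjoin_induction with
      | mem y hy => rw [Set.mem_singleton_iff.1 hy]; exact (hScomm s hs z).symm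
      | algebraMap r => exact (Algebra.commutes r s).symm
      | add a b _ _ ha hb => rw [mul_add, add_mul, ha, hb]
      | mul a b _ _ ha hb => rw [← mul_assoc, ha, mul_assoc, hb, mul_assoc]
    have hinj : ∀ s ∈ S, s ≠ 0 → Function.Injective s := by
      intro s hs hs0
      rw [← LinearMap.ker_eq_bot]
      by_contra hk
      have h1 := hirr (LinearMap.ker s) hk (by
        intro g w hw
        rw [LinearMap.mem_ker] at hw ⊢
        have h2 := congrArg (fun f : Module.End F V => f w) (hScomm s hs g)
        simp only [Module.End.mul_apply] at h2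
        rw [← h2, hw, map_zero])
      apply hs0
      exact LinearMap.ker_eq_top.1 h1
    letI iCR : CommRing S := { (inferInstance : Ring S) with
      mul_comm := fun a b => Subtype.ext (hSS a a.2 b b.2) }
    haveI : Nontrivial S := ⟨⟨0, 1, fun h => by
      have h1 : (0 : Module.End F V) = 1 := congrArg Subtype.val h
      exact zero_ne_one h1⟩⟩
    haveI : NoZeroDivisors S := ⟨fun {a b} hab => by
      by_cases ha : a = 0
      · exact Or.inl ha
      · right
        apply Subtype.ext
        refine LinearMap.ext fun v => ?_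
        have h1 : (a : Module.End F V) * (b : Module.End F V) = 0 := congrArg Subtype.val hab
        have h2 := congrArg (fun f : Module.End F V => f v) h1
        apply hinj (a : Module.End F V) a.2 (fun h => ha (Subtype.ext h))
        change (a : Module.End F V) ((b : Module.End F V) v) = (a : Module.End F V) ((0 : Module.End F V) v)
        rw [LinearMap.zero_apply, map_zero]
        exact h2⟩
    haveI : IsDomain S := NoZeroDivisors.to_isDomain S
    haveI : Finite V := Module.finite_of_finite F
    haveI : Finite (Module.End F V) := Finite.of_injective (fun f : Module.End F V => (f : V → V)) DFunLike.coe_injective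
    haveI : Fintype S := Fintype.ofFinite S
    letI iF : Field S := Fintype.fieldOfDomain S
    haveI : Module.Finite S V := Module.Finite.of_finite
    let ρ' : P →* Module.End S V :=
      { toFun := fun g =>
          { toFun := ρ g
            map_add' := map_add (ρ g)
            map_smul' := fun s v => by
              have h2 := congrArg (fun f : Module.End F V => f v) (hScomm (s : Module.End F V) s.2 g)
              exact h2 }
        map_one' := by
          refine LinearMap.ext fun v => ?_
          change ρ 1 v = v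
          rw [map_one]; rfl
        map_mul' := fun g h => by
          refine LinearMap.ext fun v => ?_
          change ρ (g * h) v = ρ g (ρ h v)
          rw [map_mul]; rfl }
    have hpS : ((p : ℕ) : S) ≠ 0 := by
      intro h
      apply hpF
      have h1 : algebraMap F S (p : F) = algebraMap F S 0 := by
        rw [map_natCast, map_zero]; exact h
      exact (algebraMap F S).injective h1
    -- sizes
    obtain ⟨s, hs⟩ : ∃ s, s = finrank F S := ⟨_, rfl⟩
    have hcardS : Fintype.card S = Fintype.card F ^ s := by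
      rw [hs]; exact Module.card_eq_pow_finrank
    have hcardV : Nat.card V = Nat.card F ^ finrank F V := Module.natCard_eq_pow_finrank
    have hcardV2 : Nat.card V = Nat.card S ^ finrank S V := Module.natCard_eq_pow_finrank
    have hmul : finrank F V = s * finrank S V := by
      rw [hcardV, Nat.card_eq_fintype_card (α := S), hcardS, ← pow_mul, Nat.card_eq_fintype_card] at hcardV2
      exact Nat.pow_right_injective (Fintype.one_lt_card (α := F)) hcardV2
    have hes : e ∣ s := by
      obtain ⟨z0, hz0⟩ : ∃ z0 : S, z0 = ⟨ρ z, hzS⟩ := ⟨_, rfl⟩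
      have h1 : orderOf z0 = p := by
        apply orderOf_eq_prime
        · rw [hz0]; exact Subtype.ext hzp
        · intro h
          rw [hz0] at h
          exact hz1 (congrArg Subtype.val h)
      have hz00 : z0 ≠ 0 := by
        rintro h
        have h2 : z0 ^ p = 1 := by rw [← h1]; exact pow_orderOf_eq_one z0
        rw [h, zero_pow (Fact.out : p.Prime).ne_zero] at h2
        exact zero_ne_one h2
      have h2 : z0 ^ (Fintype.card S - 1) = 1 := FiniteField.pow_card_sub_one_eq_one z0 hz00
      have h3 := orderOf_dvd_of_pow_eq_one h2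
      rw [h1, hcardS] at h3
      rw [he]
      apply orderOf_dvd_of_pow_eq_one
      have h4 : ((Fintype.card F ^ s - 1 : ℕ) : ZMod p) = 0 := (ZMod.natCast_eq_zero_iff _ _).2 h3
      rw [Nat.cast_sub (Nat.one_le_pow _ _ Fintype.card_pos), Nat.cast_pow, Nat.cast_one, sub_eq_zero] at h4
      exact h4
    have hspos : 0 < s := by rw [hs]; exact finrank_pos
    have hle : e ≤ s := Nat.le_of_dvd hspos hes
    have hfin : finrank S V < 2 ^ d := by
      have h1 : s * finrank S V < s * 2 ^ d := by
        rw [← hmul]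
        exact lt_of_lt_of_le hd (Nat.mul_le_mul_right _ hle)
      exact Nat.lt_of_mul_lt_mul_left h1
    have h1 := T_any hpS hP ρ' d hfin x hx
    refine LinearMap.ext fun v => ?_
    exact congrArg (fun f : Module.End S V => f v) h1

theorem s4417 {F : Type w} [Field F] [Fintype F] (q : ℕ) (hF : Fintype.card F = q) (p : ℕ) [Fact p.Prime] (hpq : ¬ p ∣ q) (n e : ℕ)
    (he : e = orderOf (q : ZMod p)) (hen : e ≤ n) (P : Subgroup (GL (Fin n) F)) (hP : IsPGroup p P) : derivedSeries ↥P (Nat.log 2 (n / e) + 1) = ⊥ := by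
  have hp : p.Prime := Fact.out
  have hfr : finrank F (Fin n → F) = n := by simp
  have hpF : (p : F) ≠ 0 := by
    intro h
    obtain ⟨r, hr⟩ := CharP.exists F
    haveI := hr
    obtain ⟨k, hrp, hk⟩ := FiniteField.card F r
    have h1 : r ∣ p := (CharP.cast_eq_zero_iff F r p).1 h
    have h2 : r = p := (Nat.prime_dvd_prime_iff_eq hrp hp).1 h1
    apply hpq
    rw [← hF, hk, h2]
    exact dvd_pow_self p k.pos.ne'
  have hq0 : ((q : ℕ) : ZMod p) ≠ 0 := by
    rw [Ne, ZMod.natCast_eq_zero_iff]; exact hpq
  have hepos : 0 < e := by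
    rw [he, orderOf_pos_iff]
    exact isOfFinOrder_iff_pow_eq_one.2 ⟨p - 1, by have := hp.two_le; omega, ZMod.pow_card_sub_one_eq_one hq0⟩
  have hlt : n < e * 2 ^ (Nat.log 2 (n / e) + 1) := by
    have h1 : n / e < 2 ^ (Nat.log 2 (n / e) + 1) := Nat.lt_pow_succ_log_self (by norm_num) _
    have h2 := (Nat.div_lt_iff_lt_mul hepos).1 h1
    rwa [mul_comm] at h2
  rw [eq_bot_iff]
  intro x hx
  rw [Subgroup.mem_bot]
  apply Subtype.ext
  refine toEnd_one P.subtype x ?_
  exact T_e hpF e (by rw [he, hF]) n hP (toEnd P.subtype) (by rw [hfr]) _ (by rw [hfr]; exact hlt) x hx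

end CfsgLib.H3Dl
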