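import Mathlib
import Cfsg.Prelude.Def_Solvable
import Cfsg.Agent.Lib.Core
import Cfsg.Agent.Lib.CopElt
import Cfsg.Agent.Lib.H3Ti3
import Cfsg.Agent.Lib.H3Fld2
import Cfsg.Agent.Lib.H3Fld3

/-!
# Equal order pairs
-/

set_option autoImplicit false
set_option maxHeartbeats 1000000

namespace CfsgLib.H3Eop

open Subgroup CfsgLib.Core

universe u

variable {G : Type u} [Group G] [Finite G] {N : Subgroup G}

theorem cop (heq : ∀ x : G, x ∉ N → ∀ n ∈ N, orderOf (x * n) = orderOf x) {x n : G} (hx : x ∉ N) (hn : n ∈ N) (hc : x * n = n * x)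
    (hcop : (orderOf x).Coprime (orderOf n)) : n = 1 := by
  have h1 := (show Commute x n from hc).orderOf_mul_eq_mul_orderOf_of_coprime hcop
  rw [heq x hx n hn] at h1
  have h2 : 0 < orderOf x := orderOf_pos x
  have h3 : orderOf n = 1 := by
    have : orderOf x * 1 = orderOf x * orderOf n := by rw [mul_one]; exact h1
    exact (Nat.eq_of_mul_eq_mul_left h2 this).symm
  exact orderOf_eq_one_iff.1 h3

theorem ord {p : ℕ} [Fact p.Prime] {H : Subgroup G} (hH : IsPGroup p H) {x : G} (hx : x ∈ H) : ∃ k, orderOf x = p ^ k := by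
  obtain ⟨k, hk⟩ := (IsPGroup.iff_orderOf.1 hH) ⟨x, hx⟩
  rw [Subgroup.orderOf_mk] at hk
  exact ⟨k, hk⟩

theorem cop' {p q : ℕ} (hp : p.Prime) (hq : q.Prime) (hpq : p ≠ q) {x y : G} (hx : ∃ k, orderOf x = p ^ k) (hy : ∃ k, orderOf y = q ^ k) :
    (orderOf x).Coprime (orderOf y) := by
  obtain ⟨k, hk⟩ := hx
  obtain ⟨l, hl⟩ := hy
  rw [hk, hl]
  exact Nat.coprime_pow_primes k l hp hq hpq

theorem disj {p q : ℕ} [Fact p.Prime] [Fact q.Prime] (hpq : p ≠ q) : Disjoint (Cfsg.pCore p G) (Cfsg.pCore q G) :=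
  IsPGroup.disjoint_of_ne p q hpq _ _ (pCore_isPGroup p G) (pCore_isPGroup q G)

theorem main [N.Normal] (hN1 : N ≠ ⊥) (heq : ∀ x : G, x ∉ N → ∀ n ∈ N, orderOf (x * n) = orderOf x)
    (hF : ¬ Cfsg.fittingSubgroup G ≤ N) : ∃ p : ℕ, p.Prime ∧ Cfsg.fittingSubgroup G = Cfsg.pCore p G ∧ N ≤ Cfsg.fittingSubgroup G := by
  classical
  have h0 : ∃ p : (Nat.card G).primeFactors, ¬ Cfsg.pCore p G ≤ N := by
    by_contra h
    push Not at h
    apply hF
    rw [fitting_eq_iSup]
    exact iSup_le h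
  obtain ⟨⟨p, hp0⟩, hpN⟩ := h0
  have hp : p.Prime := Nat.prime_of_mem_primeFactors hp0
  haveI := Fact.mk hp
  have hpN' : ¬ Cfsg.pCore p G ≤ N := hpN
  -- Lemma B
  have hB : ∀ (r : ℕ) (_ : Fact r.Prime), ¬ Cfsg.pCore r G ≤ N → ∀ (q : ℕ) (_ : Fact q.Prime), q ≠ r → ∀ y ∈ Cfsg.pCore q G, y ∈ N → y = 1 := by
    intro r hr hrN q hq hqr y hy hyN
    obtain ⟨x, hx, hxN⟩ := SetLike.not_le_iff_exists.1 hrN
    haveI := pCore_normal r G
    haveI := pCore_normal q G
    have hc := commute_of_normal_of_disjoint _ _ (pCore_normal r G) (pCore_normal q G) (disj (Ne.symm hqr)) x y hx hy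
    exact cop heq hxN hyN hc (cop' hr.out hq.out (Ne.symm hqr) (ord (pCore_isPGroup r G) hx) (ord (pCore_isPGroup q G) hy))
  have hC : ∀ (q : ℕ) (_ : Fact q.Prime), q ≠ p → Cfsg.pCore q G = ⊥ := by
    intro q hq hqp
    by_contra hne
    obtain ⟨z, hz, hz1⟩ : ∃ z : G, z ∈ Cfsg.pCore q G ∧ z ≠ 1 := by
      obtain ⟨z, hz⟩ := (Subgroup.ne_bot_iff_exists_ne_one).1 hne
      exact ⟨z, z.2, fun h => hz (Subtype.ext h)⟩
    have hzN : z ∉ N := fun h => hz1 (hB p ‹_› hpN' q hq hqp z hz h)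
    have hqN : ¬ Cfsg.pCore q G ≤ N := fun h => hzN (h hz)
    obtain ⟨x, hx, hxN⟩ := SetLike.not_le_iff_exists.1 hpN'
    -- element of prime order in N
    obtain ⟨r, hr, hrd⟩ := Nat.exists_prime_and_dvd (n := Nat.card N) (by rw [Ne, Subgroup.card_eq_one]; exact hN1)
    haveI := Fact.mk hr
    obtain ⟨n, hn⟩ := exists_prime_orderOf_dvd_card' (G := N) r hrd
    have hn1 : (n : G) ≠ 1 := by
      intro h
      have : n = 1 := Subtype.ext h
      rw [this, orderOf_one] at hn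
      exact hr.one_lt.ne hn
    have hno : orderOf (n : G) = r := by rw [Subgroup.orderOf_coe, hn]
    have hcomm : ∀ (s : ℕ) (_ : Fact s.Prime), (∀ y ∈ Cfsg.pCore s G, y ∈ N → y = 1) → ∀ w ∈ Cfsg.pCore s G, w * n = n * w := by
      intro s hs hsN w hw
      have hd : Disjoint (Cfsg.pCore s G) N := by
        rw [disjoint_def]
        intro y hy1 hy2
        exact hsN y hy1 hy2
      exact commute_of_normal_of_disjoint _ _ (pCore_normal s G) ‹N.Normal› hd w n hw n.2
    have h1 := hcomm p ‹_› (hB q hq hqN p ‹_› (Ne.symm hqp)) x hx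
    have h2 := hcomm q hq (hB p ‹_› hpN' q hq hqp) z hz
    by_cases hrp : r = p
    · apply hn1
      refine cop heq hzN n.2 h2 (cop' hq.out hr (fun h => hqp (h.trans hrp)) (ord (pCore_isPGroup q G) hz) ⟨1, by rw [pow_one, hno]⟩)
    · apply hn1
      refine cop heq hxN n.2 h1 (cop' hp hr (Ne.symm hrp) (ord (pCore_isPGroup p G) hx) ⟨1, by rw [pow_one, hno]⟩)
  have hFp : Cfsg.fittingSubgroup G = Cfsg.pCore p G := by
    apply le_antisymm
    · rw [fitting_eq_iSup]
      refine iSup_le ?_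
      rintro ⟨q, hq⟩
      haveI := Fact.mk (Nat.prime_of_mem_primeFactors hq)
      by_cases hqp : q = p
      · subst hqp; exact le_rfl
      · change Cfsg.pCore q G ≤ _
        rw [hC q ‹_› hqp]; exact bot_le
    · exact pCore_le_fitting p G
  refine ⟨p, hp, hFp, ?_⟩
  -- N is a p-group
  obtain ⟨x, hx, hxN⟩ := SetLike.not_le_iff_exists.1 hpN'
  haveI := pCore_normal p G
  have hNp : ∀ (r : ℕ), r.Prime → r ≠ p → ∀ y ∈ N, orderOf y = r → y = 1 := by
    intro r hr hrp y hy hyr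
    obtain ⟨K, hK⟩ : ∃ K, K = Cfsg.pCore p G ⊓ N := ⟨_, rfl⟩
    haveI : K.Normal := by rw [hK]; infer_instance
    have hKp : IsPGroup p K := by rw [hK]; exact (pCore_isPGroup p G).to_le inf_le_left
    have hcopK : (orderOf y).Coprime (Nat.card K) := by
      obtain ⟨n, hn⟩ := IsPGroup.iff_card.1 hKp
      rw [hyr, hn]
      exact Nat.Coprime.pow_right _ ((Nat.coprime_primes hr hp).2 hrp)
    have hh : x * y * x⁻¹ * y⁻¹ ∈ K := by
      rw [hK, mem_inf]
      constructor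
      · rw [show x * y * x⁻¹ * y⁻¹ = x * (y * x⁻¹ * y⁻¹) by group]
        exact mul_mem hx (‹(Cfsg.pCore p G).Normal›.conj_mem _ (inv_mem hx) y)
      · exact mul_mem (‹N.Normal›.conj_mem _ hy x) (inv_mem hy)
    obtain ⟨u, hu, c, hc, hcy, he⟩ := CfsgLib.CopElt.exists_conj_mul (H := K) (g := y) (by
      rw [normalizer_eq_top]; trivial) hcopK hh
    have he' : u * (x * y * x⁻¹) * u⁻¹ = c * y := by
      rw [← he]; group
    -- c = 1
    have hord : orderOf (c * y) = orderOf y := by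
      rw [← he', show u * (x * y * x⁻¹) * u⁻¹ = (MulAut.conj (u * x)) y by
        change _ = (u * x) * y * (u * x)⁻¹
        group, MulEquiv.orderOf_eq]
    have hc1 : c = 1 := by
      have h1 : (c * y) ^ orderOf y = 1 := by rw [← hord]; exact pow_orderOf_eq_one _
      rw [(show Commute c y from hcy).mul_pow, pow_orderOf_eq_one, mul_one] at h1
      have h2 := orderOf_dvd_of_pow_eq_one h1
      obtain ⟨k, hk⟩ := ord hKp hc
      have h3 : (orderOf c).Coprime (orderOf y) := cop' hp hr (Ne.symm hrp) ⟨k, hk⟩ ⟨1, by rw [pow_one, hyr]⟩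
      exact orderOf_eq_one_iff.1 (Nat.Coprime.eq_one_of_dvd h3 h2)
    rw [hc1, one_mul] at he'
    have hux : (u * x) * y = y * (u * x) := by
      calc (u * x) * y = (u * (x * y * x⁻¹) * u⁻¹) * (u * x) := by group
        _ = y * (u * x) := by rw [he']
    have huN : u ∈ N := by rw [hK] at hu; exact (mem_inf.1 hu).2
    have huP : u ∈ Cfsg.pCore p G := by rw [hK] at hu; exact (mem_inf.1 hu).1
    have huxN : u * x ∉ N := fun h => hxN ((mul_mem_cancel_left huN).1 h)
    exact cop heq huxN hy hux (cop' hp hr (Ne.symm hrp) (ord (pCore_isPGroup p G) (mul_mem huP hx)) ⟨1, by rw [pow_one, hyr]⟩)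
  have hNpg : IsPGroup p N := by
    rw [IsPGroup.iff_card]
    have h1 : ∀ r : ℕ, r.Prime → r ∣ Nat.card N → r = p := by
      intro r hr hrd
      by_contra hne
      haveI := Fact.mk hr
      obtain ⟨n, hn⟩ := exists_prime_orderOf_dvd_card' (G := N) r hrd
      have hno : orderOf (n : G) = r := by rw [Subgroup.orderOf_coe, hn]
      have h2 := hNp r hr hne n n.2 hno
      rw [h2, orderOf_one] at hno
      exact hr.one_lt.ne hno
    exact ⟨_, Nat.eq_prime_pow_of_unique_prime_dvd Nat.card_pos.ne' (fun {d} hd hdv => h1 d hd hdv)⟩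
  rw [hFp]
  exact le_pCore ‹N.Normal› hNpg

theorem s4107 [N.Normal] (hN1 : N ≠ ⊥)
    (heq : ∀ x : G, x ∉ N → ∀ n ∈ N, orderOf (x * n) = orderOf x) :
    (N ≤ Cfsg.fittingSubgroup G ∨ Cfsg.fittingSubgroup G ≤ N) ∧
    (N < Cfsg.fittingSubgroup G → IsPrimePow (Nat.card (Cfsg.fittingSubgroup G))) := by
  constructor
  · by_cases h : Cfsg.fittingSubgroup G ≤ N
    · exact Or.inr h
    · obtain ⟨p, hp, h1, h2⟩ := main hN1 heq h
      exact Or.inl h2
  · intro hlt
    obtain ⟨p, hp, h1, h2⟩ := main hN1 heq (fun h => (lt_irrefl _ (lt_of_lt_of_le hlt h)))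
    haveI := Fact.mk hp
    obtain ⟨n, hn⟩ := IsPGroup.iff_card.1 (pCore_isPGroup p G)
    rw [h1, hn]
    have hn0 : n ≠ 0 := by
      rintro rfl
      rw [pow_zero, Subgroup.card_eq_one, ← h1] at hn
      rw [hn] at hlt
      exact not_lt_bot hlt
    exact hp.isPrimePow.pow hn0

theorem s4155 [N.Normal] (hN1 : N ≠ ⊥)
    (heq : ∀ x : G, x ∉ N → ∀ n ∈ N, orderOf (x * n) = orderOf x)
    (hnil : Group.IsNilpotent N) (hnpp : ¬ IsPrimePow (Nat.card N)) :
    N = Cfsg.fittingSubgroup G ∧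
    ∀ (q : ℕ) [Fact q.Prime] (Q : Sylow q (G ⧸ N)), IsCyclic (Q : Subgroup (G ⧸ N)) ∨ ∃ n : ℕ, Nonempty ((Q : Subgroup (G ⧸ N)) ≃* QuaternionGroup (2 ^ n)) := by
  classical
  have hNF : N = Cfsg.fittingSubgroup G := by
    by_contra hne
    have hlt : N < Cfsg.fittingSubgroup G := lt_of_le_of_ne (le_fitting ‹_› hnil) hne
    have h1 := (s4107 hN1 heq).2 hlt
    apply hnpp
    obtain ⟨p, n, hp, hn, hpn⟩ := (isPrimePow_nat_iff _).1 h1
    have h2 : Nat.card N ∣ p ^ n := hpn ▸ card_dvd_of_le hlt.le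
    obtain ⟨k, hk, hk2⟩ := (Nat.dvd_prime_pow hp).1 h2
    rw [hk2]
    have hk0 : k ≠ 0 := by
      rintro rfl
      rw [pow_zero, Subgroup.card_eq_one] at hk2
      exact hN1 hk2
    exact hp.isPrimePow.pow hk0
  refine ⟨hNF, ?_⟩
  intro q hq Q
  obtain ⟨P, hP⟩ := Sylow.mapSurjective_surjective (QuotientGroup.mk'_surjective N) q Q
  -- a prime r ≠ q dividing |N|
  obtain ⟨r, hr, hrd, hrq⟩ : ∃ r : ℕ, r.Prime ∧ r ∣ Nat.card N ∧ r ≠ q := by
    by_contra h
    push Not at h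
    apply hnpp
    have h1 := Nat.eq_prime_pow_of_unique_prime_dvd (Nat.card_pos (α := N)).ne' (fun {d} hd hdv => h d hd hdv)
    rw [h1]
    apply hq.out.isPrimePow.pow
    intro h0
    rw [h0, pow_zero, Subgroup.card_eq_one] at h1
    exact hN1 h1
  haveI := Fact.mk hr
  obtain ⟨A, hA⟩ : ∃ A, A = Cfsg.pCore r G := ⟨_, rfl⟩
  haveI hAn : A.Normal := hA ▸ pCore_normal r G
  have hAN : A ≤ N := by rw [hA, hNF]; exact pCore_le_fitting r G
  have hA1 : Nontrivial A := by
    obtain ⟨n, hn⟩ := exists_prime_orderOf_dvd_card' (G := N) r hrd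
    have hno : orderOf (n : G) = r := by rw [Subgroup.orderOf_coe, hn]
    have h1 : (n : G) ∈ A := by
      rw [hA]
      exact mem_pCore_of_mem_fitting (hNF ▸ n.2) (k := 1) (by rw [pow_one, hno])
    refine ⟨⟨⟨n, h1⟩, 1, fun h => ?_⟩⟩
    have h2 : (n : G) = 1 := congrArg Subtype.val h
    rw [h2, orderOf_one] at hno
    exact hr.one_lt.ne hno
  let ψ : (↥(P : Subgroup G)) →* MulAut A := (MulAut.conjNormal : G →* MulAut A).comp (P : Subgroup G).subtype
  have hψ : ∀ (x : (P : Subgroup G)) (a : A), ((ψ x a : A) : G) = x * a * (x : G)⁻¹ := fun x a => MulAut.conjNormal_apply _ _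
  have hfix : ∀ x : (P : Subgroup G), (x : G) ∉ N → ∀ a : A, ψ x a = a → a = 1 := by
    intro x hx a ha
    have h1 : (x : G) * a * (x : G)⁻¹ = a := by rw [← hψ, ha]
    have h2 : (x : G) * a = a * x := by
      calc (x : G) * a = ((x : G) * a * (x : G)⁻¹) * x := by group
        _ = _ := by rw [h1]
    have h3 := cop heq hx (hAN a.2) h2 (cop' hq.out hr (Ne.symm hrq) (ord P.2 x.2) (ord (by rw [hA]; exact pCore_isPGroup r G) a.2))
    exact Subtype.ext h3
  have htriv : ∀ x : (P : Subgroup G), (x : G) ∈ N → ψ x = 1 := by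
    intro x hx
    obtain ⟨k, hk⟩ := ord P.2 x.2
    have hxq : (x : G) ∈ Cfsg.pCore q G := mem_pCore_of_mem_fitting (hNF ▸ hx) hk
    refine MulEquiv.ext fun a => Subtype.ext ?_
    rw [hψ]
    have h1 := commute_of_normal_of_disjoint _ _ (pCore_normal q G) (pCore_normal r G) (disj (Ne.symm hrq)) x a hxq (hA ▸ a.2)
    rw [h1.eq, mul_inv_cancel_right]; rfl
  let π : (↥(P : Subgroup G)) →* G ⧸ N := (QuotientGroup.mk' N).comp (P : Subgroup G).subtype
  have hker : π.ker = ψ.ker := by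
    ext x
    rw [MonoidHom.mem_ker, MonoidHom.mem_ker]
    have h1 : π x = 1 ↔ (x : G) ∈ N := QuotientGroup.eq_one_iff (x : G)
    rw [h1]
    constructor
    · exact htriv x
    · intro h
      by_contra hx
      obtain ⟨a, ha⟩ := exists_ne (1 : A)
      exact ha (hfix x hx a (by rw [h]; rfl))
  have e1 : π.range ≃* ψ.range :=
    ((QuotientGroup.quotientKerEquivRange π).symm.trans (QuotientGroup.quotientMulEquivOfEq hker)).trans (QuotientGroup.quotientKerEquivRange ψ)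
  have hrange : π.range = (Q : Subgroup (G ⧸ N)) := by
    rw [← hP, Sylow.coe_mapSurjective, MonoidHom.range_comp, range_subtype]
  have e2 : (↥(Q : Subgroup (G ⧸ N))) ≃* ψ.range := (MulEquiv.subgroupCongr hrange).symm.trans e1
  have hfin : IsCyclic ψ.range ∨ ∃ n : ℕ, Nonempty (ψ.range ≃* QuaternionGroup (2 ^ n)) := by
    by_cases hnt : Nontrivial ψ.range
    · have hpg : IsPGroup q ψ.range := by
        have h2 : IsPGroup q ((⊤ : Subgroup (P : Subgroup G)).map ψ) := IsPGroup.map (P.2.of_equiv Subgroup.topEquiv.symm) ψ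
        rwa [← MonoidHom.range_eq_map] at h2
      have hZ := CfsgLib.H3Fld.hasZ_of_group (G := ψ.range) (A := A) ψ.range.subtype (by
        rintro ⟨_, x, rfl⟩ hg a ha
        apply hfix x _ a ha
        intro hxN
        apply hg
        exact Subtype.ext (htriv x hxN))
      have hCQ := CfsgLib.H3Fld.CQ_of_FC (CfsgLib.H3Fld.FC_of_Z hZ)
      rcases hCQ q (⊤ : Subgroup ψ.range) (hpg.of_equiv Subgroup.topEquiv.symm) with h | ⟨-, n, ⟨e⟩⟩
      · left; exact (Subgroup.topEquiv (G := ψ.range)).isCyclic.1 h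
      · right; exact ⟨n, ⟨Subgroup.topEquiv.symm.trans e⟩⟩
    · left
      rw [not_nontrivial_iff_subsingleton] at hnt
      exact isCyclic_of_subsingleton
  rcases hfin with h | ⟨n, ⟨e⟩⟩
  · left; exact e2.isCyclic.2 h
  · right; exact ⟨n, ⟨e2.trans e⟩⟩

end CfsgLib.H3Eop
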