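import Mathlib
import Cfsg.Agent.Lib.H3Syl

/-!
# Frobenius' theorem on the number of solutions of `x ^ n = c`
-/

set_option autoImplicit false
set_option linter.style.haveILetI false

open Subgroup

namespace CfsgLib.H3Frob

universe u

variable {G : Type u} [Group G]

section Orb

theorem dvd_sum_orbits {A X : Type*} [Group A] [Fintype X] [MulAction A X] (F : X → ℕ) (hF : ∀ (a : A) x, F (a • x) = F x) (M : ℕ)
    (h : ∀ x, M ∣ (MulAction.stabilizer A x).index * F x) : M ∣ ∑ x, F x := by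
  classical
  haveI : Finite (MulAction.orbitRel.Quotient A X) := Quotient.finite _
  letI := Fintype.ofFinite (MulAction.orbitRel.Quotient A X)
  letI : ∀ ω : MulAction.orbitRel.Quotient A X, Fintype (MulAction.orbit A ω.out) := fun ω => Fintype.ofFinite _
  rw [← Equiv.sum_comp (MulAction.selfEquivSigmaOrbits A X).symm, Fintype.sum_sigma]
  refine Finset.dvd_sum fun ω _ => ?_
  have h1 : ∀ y : MulAction.orbit A ω.out, F ((MulAction.selfEquivSigmaOrbits A X).symm ⟨ω, y⟩) = F ω.out := by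
    rintro ⟨y, a, rfl⟩
    exact hF a _
  rw [Finset.sum_congr rfl fun y _ => h1 y, Finset.sum_const, smul_eq_mul, Finset.card_univ]
  have h2 := h ω.out
  rw [MulAction.index_stabilizer, ← Nat.card_coe_set_eq, Nat.card_eq_fintype_card] at h2
  exact h2

/-- sums of conjugation invariant functions -/
theorem dvd_sum_conj [Fintype G] (N : Subgroup G) (F : G → ℕ) (hF : ∀ n ∈ N, ∀ y, F (n * y * n⁻¹) = F y) (M : ℕ)
    (h : ∀ y, M ∣ (centralizer ({y} : Set G)).relIndex N * F y) : M ∣ ∑ y, F y := by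
  letI : MulAction N G := MulAction.compHom G ((MulAut.conj (G := G)).comp N.subtype)
  refine dvd_sum_orbits (A := N) F (fun n y => hF n n.2 y) M fun y => ?_
  have h1 : MulAction.stabilizer N y = (centralizer ({y} : Set G)).subgroupOf N := by
    ext n
    rw [MulAction.mem_stabilizer_iff, mem_subgroupOf, mem_centralizer_singleton_iff]
    change (n : G) * y * (n : G)⁻¹ = y ↔ _
    rw [mul_inv_eq_iff_eq_mul]
  rw [h1]
  exact h y

end Orb

section Exp

/-- exponents for the splitting into `a`- and `b`-parts -/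
structure Ex (G : Type*) [Group G] (a b e f : ℕ) : Prop where
  card : Nat.card G ∣ a * b
  cop : a.Coprime b
  ea : e ≡ 1 [MOD a]
  eb : b ∣ e
  fa : a ∣ f
  fb : f ≡ 1 [MOD b]

theorem exists_ex [Finite G] {a b : ℕ} (h : Nat.card G ∣ a * b) (hc : a.Coprime b) : ∃ e f, Ex G a b e f := by
  obtain ⟨e, he1, he2⟩ := Nat.chineseRemainder hc 1 0
  obtain ⟨f, hf1, hf2⟩ := Nat.chineseRemainder hc 0 1
  exact ⟨e, f, h, hc, he1, (Nat.modEq_zero_iff_dvd).1 he2, (Nat.modEq_zero_iff_dvd).1 hf1, hf2⟩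

variable {a b e f : ℕ}

theorem Ex.symm (h : Ex G a b e f) : Ex G b a f e :=
  ⟨by rw [mul_comm]; exact h.card, h.cop.symm, h.fb, h.fa, h.eb, h.ea⟩

theorem Ex.pow_card [Finite G] (h : Ex G a b e f) (x : G) : x ^ (a * b) = 1 :=
  orderOf_dvd_iff_pow_eq_one.1 ((orderOf_dvd_natCard x).trans h.card)

theorem Ex.pow_e [Finite G] (h : Ex G a b e f) (x : G) : (x ^ e) ^ a = 1 := by
  obtain ⟨t, ht⟩ := h.eb
  rw [← pow_mul, ht, show b * t * a = a * b * t by ring, pow_mul, h.pow_card, one_pow]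

theorem Ex.pow_f [Finite G] (h : Ex G a b e f) (x : G) : (x ^ f) ^ b = 1 := h.symm.pow_e x

theorem Ex.eq_of_a (h : Ex G a b e f) {x : G} (hx : x ^ a = 1) : x ^ e = x := by
  conv_rhs => rw [← pow_one x]
  exact pow_eq_pow_iff_modEq.2 (h.ea.of_dvd (orderOf_dvd_of_pow_eq_one hx))

theorem Ex.one_of_a (h : Ex G a b e f) {x : G} (hx : x ^ a = 1) : x ^ f = 1 := by
  obtain ⟨t, ht⟩ := h.fa
  rw [ht, pow_mul, hx, one_pow]

theorem Ex.eq_of_b (h : Ex G a b e f) {x : G} (hx : x ^ b = 1) : x ^ f = x := h.symm.eq_of_a hx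

theorem Ex.one_of_b (h : Ex G a b e f) {x : G} (hx : x ^ b = 1) : x ^ e = 1 := h.symm.one_of_a hx

theorem Ex.mul_ef [Finite G] (h : Ex G a b e f) (x : G) : x ^ e * x ^ f = x := by
  rw [← pow_add]
  conv_rhs => rw [← pow_one x]
  refine pow_eq_pow_iff_modEq.2 (Nat.ModEq.of_dvd ((orderOf_dvd_natCard x).trans h.card) ?_)
  rw [← Nat.modEq_and_modEq_iff_modEq_mul h.cop]
  constructor
  · have := h.ea.add ((Nat.modEq_zero_iff_dvd).2 h.fa)
    simpa using this
  · have := ((Nat.modEq_zero_iff_dvd).2 h.eb).add h.fb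
    simpa using this

theorem Ex.mul_e (h : Ex G a b e f) {u v : G} (huv : u * v = v * u) (hu : u ^ a = 1) (hv : v ^ b = 1) : (u * v) ^ e = u := by
  rw [(show Commute u v from huv).mul_pow, h.eq_of_a hu, h.one_of_b hv, mul_one]

theorem Ex.mul_f (h : Ex G a b e f) {u v : G} (huv : u * v = v * u) (hu : u ^ a = 1) (hv : v ^ b = 1) : (u * v) ^ f = v := by
  rw [(show Commute u v from huv).mul_pow, h.one_of_a hu, h.eq_of_b hv, one_mul]

theorem Ex.sub (h : Ex G a b e f) (H : Subgroup G) [Finite G] : Ex H a b e f :=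
  ⟨H.card_subgroup_dvd_card.trans h.card, h.cop, h.ea, h.eb, h.fa, h.fb⟩

end Exp

section Main

theorem mul_pow_mem {N : Subgroup G} {g x : G} (hg : g ∈ normalizer (N : Set G)) (hx : g⁻¹ * x ∈ N) (k : ℕ) : (g ^ k)⁻¹ * x ^ k ∈ N := by
  induction k with
  | zero => simp
  | succ k ih =>
    have h1 : (g ^ (k + 1))⁻¹ * x ^ (k + 1) = (g⁻¹ * ((g ^ k)⁻¹ * x ^ k) * g) * (g⁻¹ * x) := by
      rw [pow_succ, pow_succ]; group
    rw [h1]
    refine N.mul_mem ?_ hx
    exact (mem_normalizer_iff''.1 hg _).1 ih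

/-- the number of `p`-elements in a coset -/
noncomputable def cnt (a : ℕ) (N : Subgroup G) (g : G) : ℕ := Nat.card {x : G // g⁻¹ * x ∈ N ∧ x ^ a = 1}

theorem cnt_congr {a : ℕ} {N : Subgroup G} {g g' : G} (h : g⁻¹ * g' ∈ N) : cnt a N g = cnt a N g' := by
  refine Nat.card_congr (Equiv.subtypeEquivRight fun x => and_congr_left fun _ => ?_)
  have h1 : g⁻¹ * x = (g⁻¹ * g') * (g'⁻¹ * x) := by group
  rw [h1]
  exact N.mul_mem_cancel_left h

theorem card_eq_sum [Fintype G] {a b e f : ℕ} (h : Ex G a b e f) (N : Subgroup G) {g : G} (hg : g ∈ normalizer (N : Set G))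
    (hga : g ^ a ∈ N) :
    Nat.card N = ∑ y : G, Nat.card {u : G // (y ∈ N ∧ y ^ b = 1) ∧ u * y = y * u ∧ g⁻¹ * u ∈ N ∧ u ^ a = 1} := by
  rw [← Nat.card_sigma]
  refine Nat.card_congr ⟨fun n => ⟨(g * n) ^ f, (g * n) ^ e, ⟨?_, h.pow_f _⟩, ?_, ?_, h.pow_e _⟩, fun w => ⟨g⁻¹ * (w.2.1 * w.1), ?_⟩, ?_, ?_⟩
  · obtain ⟨t, ht⟩ := h.fa
    rw [ht, pow_mul]
    apply N.pow_mem
    have h1 := mul_pow_mem hg (x := g * n) (by rw [inv_mul_cancel_left]; exact n.2) a
    exact (N.mul_mem_cancel_left (N.inv_mem hga)).1 h1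
  · exact ((Commute.refl (g * (n : G))).pow_pow e f)
  · have h2 : (g * (n : G)) ^ f ∈ N := by
      obtain ⟨t, ht⟩ := h.fa
      rw [ht, pow_mul]
      apply N.pow_mem
      have h1 := mul_pow_mem hg (x := g * n) (by rw [inv_mul_cancel_left]; exact n.2) a
      exact (N.mul_mem_cancel_left (N.inv_mem hga)).1 h1
    have h3 : g⁻¹ * (g * (n : G)) ^ e * (g * (n : G)) ^ f = n := by
      rw [mul_assoc, h.mul_ef, inv_mul_cancel_left]
    rw [← N.mul_mem_cancel_right h2, h3]
    exact n.2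
  · obtain ⟨y, u, ⟨hy, -⟩, -, hu, -⟩ := w
    change g⁻¹ * (u * y) ∈ N
    rw [← mul_assoc]
    exact N.mul_mem hu hy
  · intro n
    apply Subtype.ext
    change g⁻¹ * ((g * (n : G)) ^ e * (g * (n : G)) ^ f) = n
    rw [h.mul_ef, inv_mul_cancel_left]
  · rintro ⟨y, u, ⟨hy1, hy2⟩, hu1, hu2, hu3⟩
    have h1 : g * (g⁻¹ * (u * y)) = u * y := by group
    have e1 : (g * (g⁻¹ * (u * y))) ^ f = y := by rw [h1, h.mul_f hu1 hu3 hy2]
    have e2 : (g * (g⁻¹ * (u * y))) ^ e = u := by rw [h1, h.mul_e hu1 hu3 hy2]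
    exact Sigma.subtype_ext e1 e2

theorem conj_pow_eq {x g : G} {k : ℕ} : (g * x * g⁻¹) ^ k = 1 ↔ x ^ k = 1 := by
  rw [conj_pow, mul_inv_eq_one, mul_eq_left]

theorem normalizer_conj_mem {N : Subgroup G} {g n u : G} (hg : g ∈ normalizer (N : Set G)) (hn : n ∈ N) :
    g⁻¹ * u ∈ N ↔ g⁻¹ * (n * u * n⁻¹) ∈ N := by
  have h1 : g⁻¹ * (n * u * n⁻¹) = (g⁻¹ * n * g) * (g⁻¹ * u) * n⁻¹ := by group
  rw [h1, N.mul_mem_cancel_right (N.inv_mem hn), N.mul_mem_cancel_left ((mem_normalizer_iff''.1 hg _).1 hn)]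

/-- **Frobenius' theorem for `p`-elements in cosets.** -/
theorem frob_coset_aux [Finite G] {p : ℕ} (hp : p.Prime) {a b e f : ℕ} (h : Ex G a b e f) (hb : ¬ p ∣ b) (m : ℕ) :
    ∀ (N : Subgroup G), Nat.card N ≤ m → ∀ g ∈ normalizer (N : Set G), g ^ a ∈ N →
      p ^ (Nat.card N).factorization p ∣ cnt a N g := by
  classical
  letI := Fintype.ofFinite G
  induction m with
  | zero => intro N hN; exact absurd hN (by have := Nat.card_pos (α := N); omega)
  | succ m ih =>
    intro N hN g hg hga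
    have hsum := card_eq_sum h N hg hga
    set F : G → ℕ := fun y => Nat.card {u : G // (y ∈ N ∧ y ^ b = 1) ∧ u * y = y * u ∧ g⁻¹ * u ∈ N ∧ u ^ a = 1} with hF
    set M := p ^ (Nat.card N).factorization p with hM
    -- central elements
    let P : G → Prop := fun y => ∀ u, g⁻¹ * u ∈ N → u * y = y * u
    let F' : G → ℕ := fun y => if P y then 0 else F y
    have hMN : M ∣ Nat.card N := Nat.ordProj_dvd _ _
    have hcomm : ∀ n u y : G, u * y = y * u ↔ n * u * n⁻¹ * (n * y * n⁻¹) = n * y * n⁻¹ * (n * u * n⁻¹) := by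
      intro n u y
      have e1 : n * u * n⁻¹ * (n * y * n⁻¹) = n * (u * y) * n⁻¹ := by group
      have e2 : n * y * n⁻¹ * (n * u * n⁻¹) = n * (y * u) * n⁻¹ := by group
      rw [e1, e2, mul_left_inj, mul_right_inj]
    have hFconj : ∀ n ∈ N, ∀ y, F (n * y * n⁻¹) = F y := by
      intro n hn y
      refine (Nat.card_congr (Equiv.subtypeEquiv (MulAut.conj n).toEquiv fun u => ?_)).symm
      change ((y ∈ N ∧ y ^ b = 1) ∧ u * y = y * u ∧ g⁻¹ * u ∈ N ∧ u ^ a = 1) ↔
        (n * y * n⁻¹ ∈ N ∧ (n * y * n⁻¹) ^ b = 1) ∧ n * u * n⁻¹ * (n * y * n⁻¹) = n * y * n⁻¹ * (n * u * n⁻¹) ∧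
          g⁻¹ * (n * u * n⁻¹) ∈ N ∧ (n * u * n⁻¹) ^ a = 1
      rw [conj_pow_eq, conj_pow_eq, ← hcomm, ← normalizer_conj_mem hg hn, N.mul_mem_cancel_right (N.inv_mem hn),
        N.mul_mem_cancel_left hn]
    have hPconj : ∀ n ∈ N, ∀ y, P (n * y * n⁻¹) ↔ P y := by
      have key : ∀ n ∈ N, ∀ y, P y → P (n * y * n⁻¹) := by
        intro n hn y hy u hu
        have h1 : n⁻¹ * u * n⁻¹⁻¹ = n⁻¹ * u * n := by rw [inv_inv]
        have h2 := hy (n⁻¹ * u * n) (h1 ▸ (normalizer_conj_mem hg (N.inv_mem hn)).1 hu)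
        have h3 := (hcomm n _ _).1 h2
        have h4 : n * (n⁻¹ * u * n) * n⁻¹ = u := by group
        rwa [h4] at h3
      intro n hn y
      refine ⟨fun hy => ?_, key n hn y⟩
      have h1 := key n⁻¹ (N.inv_mem hn) _ hy
      have h4 : n⁻¹ * (n * y * n⁻¹) * n⁻¹⁻¹ = y := by group
      rwa [h4] at h1
    have h1 : M ∣ ∑ y, F' y := by
      refine dvd_sum_conj N F' ?_ M ?_
      · intro n hn y
        simp only [F', hPconj n hn y, hFconj n hn y]
      · intro y
        by_cases hPy : P y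
        · simp [F', hPy]
        simp only [F', if_neg hPy]
        by_cases hyN : y ∈ N ∧ y ^ b = 1
        swap
        · have : F y = 0 := by
            rw [hF]
            simp only [Nat.card_eq_zero]
            left
            exact ⟨fun u => hyN u.2.1⟩
          rw [this, mul_zero]; exact dvd_zero _
        by_cases hex : ∃ u, g⁻¹ * u ∈ N ∧ u * y = y * u
        swap
        · have : F y = 0 := by
            rw [hF]
            simp only [Nat.card_eq_zero]
            left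
            exact ⟨fun u => hex ⟨u, u.2.2.2.1, u.2.2.1⟩⟩
          rw [this, mul_zero]; exact dvd_zero _
        obtain ⟨g', hg', hg'y⟩ := hex
        set N' := N ⊓ centralizer ({y} : Set G) with hN'
        have hlt : Nat.card N' < Nat.card N := by
          refine Set.Finite.card_lt_card (Set.toFinite _) (lt_of_le_of_ne inf_le_left fun he => hPy ?_)
          intro u hu
          have h2 : g'⁻¹ * u ∈ N := by
            have h3 : g'⁻¹ * u = (g⁻¹ * g')⁻¹ * (g⁻¹ * u) := by group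
            rw [h3]
            exact N.mul_mem (N.inv_mem hg') hu
          have he' : N' = N := SetLike.coe_injective he
          rw [← he'] at h2
          have h4 := mem_centralizer_singleton_iff.1 h2.2
          calc u * y = g' * (g'⁻¹ * u * y) := by group
            _ = g' * (y * (g'⁻¹ * u)) := by rw [h4]
            _ = g' * y * g'⁻¹ * u := by group
            _ = y * g' * g'⁻¹ * u := by rw [hg'y]
            _ = y * u := by group
        have hg'n : g' ∈ normalizer (N : Set G) := by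
          have h3 : g' = g * (g⁻¹ * g') := by group
          rw [h3]
          exact mul_mem hg (le_normalizer hg')
        have hg'c : g' ∈ centralizer ({y} : Set G) := mem_centralizer_singleton_iff.2 hg'y
        have hg'N : g' ∈ normalizer (N' : Set G) := by
          rw [mem_normalizer_iff]
          intro x
          rw [hN', mem_inf, mem_inf]
          refine and_congr (mem_normalizer_iff.1 hg'n x) ?_
          rw [Subgroup.mul_mem_cancel_right _ (inv_mem hg'c), Subgroup.mul_mem_cancel_left _ hg'c]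
        have hg'a : g' ^ a ∈ N' := by
          refine ⟨?_, pow_mem hg'c a⟩
          have h2 := mul_pow_mem hg hg' a
          exact (N.mul_mem_cancel_left (N.inv_mem hga)).1 h2
        have hFy : F y = cnt a N' g' := by
          refine Nat.card_congr (Equiv.subtypeEquivRight fun u => ?_)
          have h3 : g'⁻¹ * u = (g⁻¹ * g')⁻¹ * (g⁻¹ * u) := by group
          have h4 : g'⁻¹ * u ∈ N ↔ g⁻¹ * u ∈ N := by rw [h3, N.mul_mem_cancel_left (N.inv_mem hg')]
          have h5 : g'⁻¹ * u ∈ centralizer ({y} : Set G) ↔ u * y = y * u := by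
            rw [Subgroup.mul_mem_cancel_left _ (inv_mem hg'c)]
            exact mem_centralizer_singleton_iff
          rw [hN', mem_inf, h4, h5]
          constructor
          · rintro ⟨-, hx1, hx2, hx3⟩; exact ⟨⟨hx2, hx1⟩, hx3⟩
          · rintro ⟨⟨hx2, hx1⟩, hx3⟩; exact ⟨hyN, hx1, hx2, hx3⟩
        have h2 := ih N' (by omega) g' hg'N hg'a
        rw [hFy]
        have h3 : (centralizer ({y} : Set G)).relIndex N = N'.relIndex N := by
          rw [hN', inf_relIndex_left]
        have h4 := CfsgLib.H3Syl.card_mul_relIndex (show N' ≤ N from inf_le_left)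
        have hr0 : N'.relIndex N ≠ 0 := by
          intro h0
          rw [h0, mul_zero] at h4
          exact Nat.card_pos.ne h4
        have h5 : M = p ^ (N'.relIndex N).factorization p * p ^ (Nat.card N').factorization p := by
          rw [hM, ← h4, Nat.factorization_mul Nat.card_pos.ne' hr0, Finsupp.add_apply, pow_add, mul_comm]
        rw [h3, h5]
        exact mul_dvd_mul (Nat.ordProj_dvd _ _) h2
    have h2 : ∀ y, P y → y ∈ N → y ^ b = 1 → F y = cnt a N g := by
      intro y hy hyN hyb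
      refine Nat.card_congr (Equiv.subtypeEquivRight fun x => ⟨fun hx => hx.2.2, fun hx => ⟨⟨hyN, hyb⟩, hy x hx.1, hx⟩⟩)
    have h3 : ∑ y, F y = ∑ y, F' y + Nat.card {y : G // P y ∧ y ∈ N ∧ y ^ b = 1} * cnt a N g := by
      have h4 : ∀ y, F y = F' y + if (P y ∧ y ∈ N ∧ y ^ b = 1) then cnt a N g else 0 := by
        intro y
        by_cases hPy : P y
        · by_cases hy : y ∈ N ∧ y ^ b = 1
          · rw [if_pos ⟨hPy, hy⟩, h2 y hPy hy.1 hy.2]
            simp [F', hPy]
          · rw [if_neg (fun hh => hy hh.2)]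
            have : F y = 0 := by
              rw [hF]
              simp only [Nat.card_eq_zero]
              left
              exact ⟨fun u => hy u.2.1⟩
            rw [this]
            simp [F', hPy]
        · rw [if_neg (fun hh => hPy hh.1)]
          simp [F', hPy]
      rw [Finset.sum_congr rfl fun y _ => h4 y, Finset.sum_add_distrib, ← Finset.sum_filter, Finset.sum_const, smul_eq_mul,
        Nat.card_eq_fintype_card, Fintype.card_subtype]
    have h4 : (M).Coprime (Nat.card {y : G // P y ∧ y ∈ N ∧ y ^ b = 1}) := by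
      have hPc : ∀ y, P y → ∀ n ∈ N, n * y = y * n := by
        intro y hy n hn
        have e1 := hy g (by rw [inv_mul_cancel]; exact N.one_mem)
        have e2 := hy (g * n) (by rw [inv_mul_cancel_left]; exact hn)
        calc n * y = g⁻¹ * (g * n * y) := by group
          _ = g⁻¹ * (y * (g * n)) := by rw [e2]
          _ = g⁻¹ * (y * g) * n := by group
          _ = g⁻¹ * (g * y) * n := by rw [e1]
          _ = y * n := by group
      let K : Subgroup G :=
        { carrier := {y | P y ∧ y ∈ N ∧ y ^ b = 1}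
          mul_mem' := by
            rintro x y ⟨hx1, hx2, hx3⟩ ⟨hy1, hy2, hy3⟩
            refine ⟨fun u hu => ?_, N.mul_mem hx2 hy2, ?_⟩
            · rw [← mul_assoc, hx1 u hu, mul_assoc, hy1 u hu, mul_assoc]
            · rw [(show Commute x y from hPc y hy1 x hx2).mul_pow, hx3, hy3, one_mul]
          one_mem' := ⟨fun u _ => by rw [mul_one, one_mul], N.one_mem, one_pow _⟩
          inv_mem' := by
            rintro x ⟨hx1, hx2, hx3⟩
            refine ⟨fun u hu => ?_, N.inv_mem hx2, by rw [inv_pow, hx3, inv_one]⟩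
            exact ((show Commute u x from hx1 u hu).inv_right) }
      refine Nat.Coprime.pow_left _ ?_
      rw [Nat.Prime.coprime_iff_not_dvd hp]
      intro hd
      haveI := Fact.mk hp
      obtain ⟨x, hx⟩ := exists_prime_orderOf_dvd_card' (G := K) p hd
      apply hb
      rw [← hx, ← orderOf_coe]
      exact orderOf_dvd_of_pow_eq_one x.2.2.2
    have h5 : M ∣ Nat.card {y : G // P y ∧ y ∈ N ∧ y ^ b = 1} * cnt a N g := by
      rw [← Nat.dvd_add_right h1, ← h3, ← hsum]
      exact hMN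
    exact h4.dvd_of_dvd_mul_left h5

theorem exists_ex_prime (G : Type*) [Group G] [Finite G] {p : ℕ} (hp : p.Prime) :
    ∃ e f, Ex G (p ^ (Nat.card G).factorization p) (Nat.card G / p ^ (Nat.card G).factorization p) e f := by
  refine exists_ex ?_ ?_
  · rw [Nat.ordProj_mul_ordCompl_eq_self]
  · exact (Nat.coprime_ordCompl hp Nat.card_pos.ne').pow_left _

/-- **Frobenius' theorem for `p`-elements in cosets.** -/
theorem frob_coset [Finite G] {p : ℕ} (hp : p.Prime) (N : Subgroup G) {g : G} (hg : g ∈ normalizer (N : Set G))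
    (hgp : ∃ k, g ^ p ^ k ∈ N) :
    p ^ (Nat.card N).factorization p ∣ Nat.card {x : G // g⁻¹ * x ∈ N ∧ ∃ k, x ^ p ^ k = 1} := by
  obtain ⟨e, f, h⟩ := exists_ex_prime G hp
  set a := (Nat.card G).factorization p with ha
  have h1 : ∀ x : G, (∃ k, x ^ p ^ k = 1) ↔ x ^ p ^ a = 1 := by
    intro x
    refine ⟨?_, fun hx => ⟨_, hx⟩⟩
    rintro ⟨k, hk⟩
    obtain ⟨j, -, hj⟩ := (Nat.dvd_prime_pow hp).1 (orderOf_dvd_of_pow_eq_one hk)
    rw [← orderOf_dvd_iff_pow_eq_one, hj]
    refine pow_dvd_pow _ ?_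
    rw [ha, ← hp.pow_dvd_iff_le_factorization Nat.card_pos.ne', ← hj]
    exact orderOf_dvd_natCard x
  have h2 : g ^ p ^ a ∈ N := by
    obtain ⟨k, hk⟩ := hgp
    have h3 : (g ^ p ^ a) ^ p ^ k ∈ N := by rw [← pow_mul, mul_comm, pow_mul]; exact N.pow_mem hk _
    have h4 : (p ^ k).Coprime (orderOf (g ^ p ^ a)) := by
      refine Nat.Coprime.coprime_dvd_right (m := Nat.card G / p ^ a) (orderOf_dvd_of_pow_eq_one ?_) ?_
      · rw [← pow_mul]; exact h.pow_card g
      · exact (Nat.coprime_ordCompl hp Nat.card_pos.ne').pow_left _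
    obtain ⟨m, hm⟩ := exists_pow_eq_self_of_coprime h4
    rw [← hm]
    exact N.pow_mem h3 _
  have h3 := frob_coset_aux hp h (Nat.not_dvd_ordCompl hp Nat.card_pos.ne') _ N le_rfl g hg h2
  rw [cnt] at h3
  simpa only [h1] using h3

/-- the number of `p`-elements is a multiple of the order of a Sylow subgroup -/
theorem dvd_card_pElements [Finite G] {p : ℕ} (hp : p.Prime) :
    p ^ (Nat.card G).factorization p ∣ Nat.card {x : G // ∃ k, x ^ p ^ k = 1} := by
  have h := frob_coset hp (⊤ : Subgroup G) (g := 1) (one_mem _) ⟨0, mem_top _⟩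
  rw [card_top] at h
  have h2 : Nat.card {x : G // 1⁻¹ * x ∈ (⊤ : Subgroup G) ∧ ∃ k, x ^ p ^ k = 1} = Nat.card {x : G // ∃ k, x ^ p ^ k = 1} :=
    Nat.card_congr (Equiv.subtypeEquivRight fun x => ⟨fun hx => hx.2, fun hx => ⟨mem_top _, hx⟩⟩)
  rwa [h2] at h

theorem dvd_card_cyclic_classes {X : Type*} [Finite X] (Q : X → X → Prop) (hQ : Equivalence Q) (m : ℕ)
    (h : ∀ x, m ∣ Nat.card {y // Q x y}) : m ∣ Nat.card X := by
  classical
  let S : Setoid X := ⟨Q, hQ⟩
  haveI : Finite (Quotient S) := Quotient.finite _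
  letI := Fintype.ofFinite (Quotient S)
  have e : X ≃ Σ q : Quotient S, {y : X // Quotient.mk S y = q} := (Equiv.sigmaFiberEquiv (Quotient.mk S)).symm
  rw [Nat.card_congr e, Nat.card_sigma]
  refine Finset.dvd_sum fun q _ => ?_
  obtain ⟨x, rfl⟩ := Quotient.exists_rep q
  have h2 := h x
  have h3 : Nat.card {y // Q x y} = Nat.card {y : X // Quotient.mk S y = Quotient.mk S x} :=
    Nat.card_congr (Equiv.subtypeEquivRight fun y => ⟨fun hy => Quotient.sound (hQ.symm hy), fun hy => hQ.symm (Quotient.exact hy)⟩)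
  rwa [h3] at h2

theorem orderOf_root {p : ℕ} (hp : p.Prime) {b j : ℕ} {x c : G} (hx : x ^ p ^ b = c) (hj : orderOf c = p ^ j) (hj0 : j ≠ 0) :
    orderOf x = p ^ (b + j) := by
  haveI := Fact.mk hp
  obtain ⟨i, rfl⟩ := Nat.exists_eq_succ_of_ne_zero hj0
  rw [Nat.succ_eq_add_one, ← add_assoc]
  apply orderOf_eq_prime_pow
  · rw [pow_add, pow_mul, hx, ← orderOf_dvd_iff_pow_eq_one, hj]
    intro hd
    have := Nat.pow_dvd_pow_iff_le_right hp.one_lt |>.1 hd
    omega
  · rw [add_assoc, pow_add, pow_mul, hx]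
    rw [← Nat.succ_eq_add_one, ← hj, pow_orderOf_eq_one]

/-- solutions of `x ^ (p ^ b) = c` for a `p`-element `c ≠ 1` -/
theorem dvd_card_root_of_ne [Finite G] {p : ℕ} (hp : p.Prime) (b : ℕ) {c : G} (hc : c ≠ 1) (hcp : ∃ k, c ^ p ^ k = 1) :
    p ^ b ∣ Nat.card {x : G // x ^ p ^ b = c} := by
  classical
  obtain ⟨k, hk⟩ := hcp
  obtain ⟨j, -, hj⟩ := (Nat.dvd_prime_pow hp).1 (orderOf_dvd_of_pow_eq_one hk)
  have hj0 : j ≠ 0 := by rintro rfl; rw [pow_zero, orderOf_eq_one_iff] at hj; exact hc hj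
  let Q : {x : G // x ^ p ^ b = c} → {x : G // x ^ p ^ b = c} → Prop := fun x y => zpowers (x : G) = zpowers (y : G)
  refine dvd_card_cyclic_classes Q ⟨fun x => rfl, fun h => Eq.symm h, fun h1 h2 => Eq.trans h1 h2⟩ _ ?_
  rintro ⟨x, hx⟩
  have hox := orderOf_root hp hx hj hj0
  have hcommz : ∀ u ∈ zpowers x, ∀ v ∈ zpowers x, Commute u v := by
    rintro _ ⟨i, rfl⟩ _ ⟨l, rfl⟩
    exact (Commute.refl x).zpow_zpow i l
  let K : Subgroup G :=
    { carrier := {w | w ∈ zpowers x ∧ w ^ p ^ b = 1}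
      mul_mem' := by
        rintro u v ⟨hu1, hu2⟩ ⟨hv1, hv2⟩
        refine ⟨mul_mem hu1 hv1, ?_⟩
        rw [(hcommz u hu1 v hv1).mul_pow, hu2, hv2, one_mul]
      one_mem' := ⟨one_mem _, one_pow _⟩
      inv_mem' := by
        rintro u ⟨hu1, hu2⟩
        exact ⟨inv_mem hu1, by rw [inv_pow, hu2, inv_one]⟩ }
  have h1 : zpowers (x ^ p ^ j) ≤ K := by
    rw [zpowers_le]
    refine ⟨pow_mem (mem_zpowers x) _, ?_⟩
    rw [← pow_mul, ← pow_add, add_comm, ← hox, pow_orderOf_eq_one]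
  have h2 : p ^ b ∣ Nat.card K := by
    have h3 := card_dvd_of_le h1
    rw [Nat.card_zpowers, orderOf_pow_of_dvd (pow_pos hp.pos j).ne' (by rw [hox]; exact pow_dvd_pow p (Nat.le_add_left _ _)), hox,
      pow_add, Nat.mul_div_cancel _ (pow_pos hp.pos j)] at h3
    exact h3
  have e : {y : {x : G // x ^ p ^ b = c} // Q ⟨x, hx⟩ y} ≃ K :=
    { toFun := fun y => ⟨x⁻¹ * y.1.1, by
        have hy : zpowers x = zpowers (y.1.1) := y.2
        have hyx : (y.1.1) ∈ zpowers x := hy ▸ mem_zpowers _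
        refine ⟨mul_mem (inv_mem (mem_zpowers x)) hyx, ?_⟩
        rw [(hcommz _ (inv_mem (mem_zpowers x)) _ hyx).mul_pow, inv_pow, hx, y.1.2, inv_mul_cancel]⟩
      invFun := fun w => ⟨⟨x * w.1, by
        rw [(hcommz _ (mem_zpowers x) _ w.2.1).mul_pow, hx, w.2.2, mul_one]⟩, by
        have h4 : (x * w.1) ^ p ^ b = c := by
          rw [(hcommz _ (mem_zpowers x) _ w.2.1).mul_pow, hx, w.2.2, mul_one]
        have h5 := orderOf_root hp h4 hj hj0
        change zpowers x = zpowers (x * w.1)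
        refine (eq_of_le_of_card_ge ?_ ?_).symm
        · rw [zpowers_le]; exact mul_mem (mem_zpowers x) w.2.1
        · rw [Nat.card_zpowers, Nat.card_zpowers, hox, h5]⟩
      left_inv := fun y => by
        apply Subtype.ext; apply Subtype.ext
        change x * (x⁻¹ * y.1.1) = y.1.1
        rw [mul_inv_cancel_left]
      right_inv := fun w => by
        apply Subtype.ext
        change x⁻¹ * (x * w.1) = w.1
        rw [inv_mul_cancel_left] }
  rw [Nat.card_congr e]
  exact h2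

theorem dvd_card_root_one [Finite G] {p : ℕ} (hp : p.Prime) (b l : ℕ) (hl : l ≤ b) (hd : p ^ l ∣ Nat.card G) :
    p ^ l ∣ Nat.card {x : G // x ^ p ^ b = 1} := by
  classical
  letI := Fintype.ofFinite G
  set v := (Nat.card G).factorization p with hv
  have hexp : ∀ b, v ≤ b → ∀ x : G, x ^ p ^ b = 1 ↔ ∃ k, x ^ p ^ k = 1 := by
    intro b hb x
    refine ⟨fun h => ⟨b, h⟩, ?_⟩
    rintro ⟨k, hk⟩
    obtain ⟨j, -, hj⟩ := (Nat.dvd_prime_pow hp).1 (orderOf_dvd_of_pow_eq_one hk)
    rw [← orderOf_dvd_iff_pow_eq_one, hj]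
    refine pow_dvd_pow _ (le_trans ?_ hb)
    rw [hv, ← hp.pow_dvd_iff_le_factorization Nat.card_pos.ne', ← hj]
    exact orderOf_dvd_natCard x
  have hstep : ∀ b, p ^ b ∣ Nat.card {x : G // x ^ p ^ (b + 1) = 1} → p ^ b ∣ Nat.card {x : G // x ^ p ^ b = 1} := by
    intro b hb
    have h1 : Nat.card {x : G // x ^ p ^ (b + 1) = 1} = ∑ c : G, Nat.card {x : G // x ^ p ^ b = c ∧ c ^ p = 1} := by
      rw [← Nat.card_sigma]
      refine Nat.card_congr ⟨fun x => ⟨x.1 ^ p ^ b, x.1, rfl, by rw [← pow_mul, ← pow_succ]; exact x.2⟩, fun w => ⟨w.2.1, ?_⟩, ?_, ?_⟩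
      · rw [pow_succ, pow_mul, w.2.2.1]; exact w.2.2.2
      · intro x; rfl
      · rintro ⟨c, x, hx1, hx2⟩
        exact Sigma.subtype_ext hx1 rfl
    rw [h1, ← Finset.add_sum_erase Finset.univ _ (Finset.mem_univ (1 : G))] at hb
    have h2 : p ^ b ∣ ∑ c ∈ Finset.univ.erase (1 : G), Nat.card {x : G // x ^ p ^ b = c ∧ c ^ p = 1} := by
      refine Finset.dvd_sum fun c hc => ?_
      have hc1 : c ≠ 1 := Finset.ne_of_mem_erase hc
      by_cases hcp : c ^ p = 1
      · have h3 : Nat.card {x : G // x ^ p ^ b = c ∧ c ^ p = 1} = Nat.card {x : G // x ^ p ^ b = c} :=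
          Nat.card_congr (Equiv.subtypeEquivRight fun x => ⟨fun h => h.1, fun h => ⟨h, hcp⟩⟩)
        rw [h3]
        exact dvd_card_root_of_ne hp b hc1 ⟨1, by rw [pow_one]; exact hcp⟩
      · have h3 : Nat.card {x : G // x ^ p ^ b = c ∧ c ^ p = 1} = 0 := by
          rw [Nat.card_eq_zero]; left; exact ⟨fun x => hcp x.2.2⟩
        rw [h3]; exact dvd_zero _
    have h4 := (Nat.dvd_add_left h2).1 hb
    have h5 : Nat.card {x : G // x ^ p ^ b = 1 ∧ (1 : G) ^ p = 1} = Nat.card {x : G // x ^ p ^ b = 1} :=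
      Nat.card_congr (Equiv.subtypeEquivRight fun x => ⟨fun h => h.1, fun h => ⟨h, one_pow _⟩⟩)
    rwa [h5] at h4
  have hbase : ∀ b, v ≤ b → p ^ v ∣ Nat.card {x : G // x ^ p ^ b = 1} := by
    intro b hb
    have h1 : Nat.card {x : G // x ^ p ^ b = 1} = Nat.card {x : G // ∃ k, x ^ p ^ k = 1} :=
      Nat.card_congr (Equiv.subtypeEquivRight (hexp b hb))
    rw [h1]
    exact dvd_card_pElements hp
  have hlv : l ≤ v := (hp.pow_dvd_iff_le_factorization Nat.card_pos.ne').1 hd
  rcases le_total v b with hvb | hbv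
  · exact (pow_dvd_pow p hlv).trans (hbase b hvb)
  · have h6 : ∀ d, d ≤ v → p ^ (v - d) ∣ Nat.card {x : G // x ^ p ^ (v - d) = 1} := by
      intro d
      induction d with
      | zero => intro _; rw [Nat.sub_zero]; exact hbase v le_rfl
      | succ d ih =>
        intro hd
        apply hstep
        have h7 : v - (d + 1) + 1 = v - d := by omega
        rw [h7]
        exact (pow_dvd_pow p (by omega)).trans (ih (by omega))
    have h8 := h6 (v - b) (by omega)
    rw [Nat.sub_sub_self hbv] at h8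
    exact (pow_dvd_pow p hl).trans h8

theorem dvd_card_root [Finite G] {p : ℕ} (hp : p.Prime) (b l : ℕ) (hl : l ≤ b) (hd : p ^ l ∣ Nat.card G) {c : G}
    (hcp : ∃ k, c ^ p ^ k = 1) : p ^ l ∣ Nat.card {x : G // x ^ p ^ b = c} := by
  by_cases hc : c = 1
  · subst hc; exact dvd_card_root_one hp b l hl hd
  · exact (pow_dvd_pow p hl).trans (dvd_card_root_of_ne hp b hc hcp)

/-- splitting of a count along the `a`- and `b`-parts -/
theorem card_split [Fintype G] {a b e f : ℕ} (h : Ex G a b e f) (U Y : G → Prop) :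
    Nat.card {x : G // U (x ^ e) ∧ Y (x ^ f)} =
      ∑ y : G, Nat.card {u : G // (y ^ b = 1 ∧ Y y) ∧ u * y = y * u ∧ u ^ a = 1 ∧ U u} := by
  rw [← Nat.card_sigma]
  refine Nat.card_congr ⟨fun x => ⟨x.1 ^ f, x.1 ^ e, ⟨h.pow_f _, x.2.2⟩, (Commute.refl x.1).pow_pow e f, h.pow_e _, x.2.1⟩,
    fun w => ⟨w.2.1 * w.1, ?_, ?_⟩, ?_, ?_⟩
  · rw [h.mul_e w.2.2.2.1 w.2.2.2.2.1 w.2.2.1.1]; exact w.2.2.2.2.2
  · rw [h.mul_f w.2.2.2.1 w.2.2.2.2.1 w.2.2.1.1]; exact w.2.2.1.2
  · intro x; apply Subtype.ext; exact h.mul_ef x.1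
  · rintro ⟨y, u, ⟨hy1, hy2⟩, hu1, hu2, hu3⟩
    exact Sigma.subtype_ext (h.mul_f hu1 hu2 hy1) (h.mul_e hu1 hu2 hy1)

theorem dvd_card_split [Finite G] {a b e f : ℕ} (h : Ex G a b e f) (U Y : G → Prop) (hU : ∀ g u, U u → U (g * u * g⁻¹))
    (hY : ∀ g y, Y y → Y (g * y * g⁻¹)) (M : ℕ)
    (hM : ∀ y, y ^ b = 1 → Y y → M ∣ (centralizer ({y} : Set G)).index * Nat.card {u : G // u * y = y * u ∧ u ^ a = 1 ∧ U u}) :
    M ∣ Nat.card {x : G // U (x ^ e) ∧ Y (x ^ f)} := by
  classical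
  letI := Fintype.ofFinite G
  rw [card_split h]
  have hU' : ∀ g u, U u ↔ U (g * u * g⁻¹) := fun g u => ⟨hU g u, fun hh => by
    have := hU g⁻¹ _ hh
    have e1 : g⁻¹ * (g * u * g⁻¹) * g⁻¹⁻¹ = u := by group
    rwa [e1] at this⟩
  have hY' : ∀ g u, Y u ↔ Y (g * u * g⁻¹) := fun g u => ⟨hY g u, fun hh => by
    have := hY g⁻¹ _ hh
    have e1 : g⁻¹ * (g * u * g⁻¹) * g⁻¹⁻¹ = u := by group
    rwa [e1] at this⟩
  refine dvd_sum_conj (⊤ : Subgroup G) _ ?_ M ?_
  · intro n _ y
    refine (Nat.card_congr (Equiv.subtypeEquiv (MulAut.conj n).toEquiv fun u => ?_)).symm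
    change ((y ^ b = 1 ∧ Y y) ∧ u * y = y * u ∧ u ^ a = 1 ∧ U u) ↔
      ((n * y * n⁻¹) ^ b = 1 ∧ Y (n * y * n⁻¹)) ∧ n * u * n⁻¹ * (n * y * n⁻¹) = n * y * n⁻¹ * (n * u * n⁻¹) ∧
        (n * u * n⁻¹) ^ a = 1 ∧ U (n * u * n⁻¹)
    have e1 : n * u * n⁻¹ * (n * y * n⁻¹) = n * (u * y) * n⁻¹ := by group
    have e2 : n * y * n⁻¹ * (n * u * n⁻¹) = n * (y * u) * n⁻¹ := by group
    rw [conj_pow_eq, conj_pow_eq, e1, e2, mul_left_inj, mul_right_inj, ← hU', ← hY']
  · intro y
    rw [relIndex_top_right]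
    by_cases hy : y ^ b = 1 ∧ Y y
    · have h1 : Nat.card {u : G // (y ^ b = 1 ∧ Y y) ∧ u * y = y * u ∧ u ^ a = 1 ∧ U u} =
          Nat.card {u : G // u * y = y * u ∧ u ^ a = 1 ∧ U u} :=
        Nat.card_congr (Equiv.subtypeEquivRight fun x => ⟨fun hh => hh.2, fun hh => ⟨hy, hh⟩⟩)
      rw [h1]
      exact hM y hy.1 hy.2
    · have h1 : Nat.card {u : G // (y ^ b = 1 ∧ Y y) ∧ u * y = y * u ∧ u ^ a = 1 ∧ U u} = 0 := by
        rw [Nat.card_eq_zero]; left; exact ⟨fun x => hy x.2.1⟩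
      rw [h1, mul_zero]; exact dvd_zero _

theorem pelt_iff [Finite G] {p : ℕ} (hp : p.Prime) (x : G) : (∃ k, x ^ p ^ k = 1) ↔ x ^ p ^ (Nat.card G).factorization p = 1 := by
  refine ⟨?_, fun h => ⟨_, h⟩⟩
  rintro ⟨k, hk⟩
  obtain ⟨j, -, hj⟩ := (Nat.dvd_prime_pow hp).1 (orderOf_dvd_of_pow_eq_one hk)
  rw [← orderOf_dvd_iff_pow_eq_one, hj]
  refine pow_dvd_pow _ ?_
  rw [← hp.pow_dvd_iff_le_factorization Nat.card_pos.ne', ← hj]
  exact orderOf_dvd_natCard x

/-- **Frobenius' theorem**, central case. -/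
theorem frob_central [Finite G] {c : G} (hc : c ∈ center G) (n : ℕ) : Nat.gcd n (Nat.card G) ∣ Nat.card {x : G // x ^ n = c} := by
  classical
  rcases Nat.eq_zero_or_pos n with rfl | hn
  · rw [Nat.gcd_zero_left]
    by_cases h1 : c = 1
    · have h2 : Nat.card {x : G // x ^ 0 = c} = Nat.card G := by
        rw [← Nat.card_congr (Equiv.subtypeUnivEquiv (fun x : G => (trivial : True)))]
        exact Nat.card_congr (Equiv.subtypeEquivRight fun x => by simp [h1])
      rw [h2]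
    · have h2 : Nat.card {x : G // x ^ 0 = c} = 0 := by
        rw [Nat.card_eq_zero]; left; exact ⟨fun x => h1 (by have := x.2; rw [pow_zero] at this; exact this.symm)⟩
      rw [h2]; exact dvd_zero _
  rw [Nat.dvd_iff_prime_pow_dvd_dvd]
  intro p k hp hk
  have hkn := hk.trans (Nat.gcd_dvd_left _ _)
  have hkG := hk.trans (Nat.gcd_dvd_right _ _)
  obtain ⟨e, f, h⟩ := exists_ex_prime G hp
  set a := p ^ (Nat.card G).factorization p with ha
  set b := Nat.card G / a with hb
  obtain ⟨β, m, hm, hβ⟩ := Nat.exists_eq_pow_mul_and_not_dvd hn.ne' p hp.ne_one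
  have hkβ : k ≤ β := by
    rw [hβ] at hkn
    have h1 := (Nat.Coprime.pow_left k ((Nat.Prime.coprime_iff_not_dvd hp).2 hm)).dvd_of_dvd_mul_right hkn
    exact (Nat.pow_dvd_pow_iff_le_right hp.one_lt).1 h1
  have hcm : ∀ i g : ℕ, True := fun _ _ => trivial
  have hcc : ∀ (i : ℕ) (g : G), g * c ^ i = c ^ i * g := fun i g => ((mem_center_iff.1 ((center G).pow_mem hc i)) g)
  have h1 : Nat.card {x : G // x ^ n = c} = Nat.card {x : G // (x ^ e) ^ n = c ^ e ∧ (x ^ f) ^ n = c ^ f} := by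
    refine Nat.card_congr (Equiv.subtypeEquivRight fun x => ⟨fun hx => ?_, fun hx => ?_⟩)
    · constructor
      · rw [← pow_mul, mul_comm, pow_mul, hx]
      · rw [← pow_mul, mul_comm, pow_mul, hx]
    · rw [← h.mul_ef x, ((Commute.refl x).pow_pow e f).mul_pow, hx.1, hx.2, h.mul_ef]
  rw [h1]
  refine dvd_card_split h (fun u => u ^ n = c ^ e) (fun y => y ^ n = c ^ f) ?_ ?_ _ ?_
  · intro g u hu
    rw [conj_pow, hu, hcc, mul_inv_cancel_right]
  · intro g u hu
    rw [conj_pow, hu, hcc, mul_inv_cancel_right]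
  · intro y hy1 hy2
    set H := centralizer ({y} : Set G) with hH
    have hcH : c ^ e ∈ H := mem_centralizer_singleton_iff.2 (hcc e y).symm
    obtain ⟨t, ht⟩ : ∃ t, m * t ≡ 1 [MOD a] := by
      have h2 : m.Coprime a := by
        rw [ha]
        exact Nat.Coprime.pow_right _ ((Nat.Prime.coprime_iff_not_dvd hp).2 hm).symm
      by_cases ha1 : a = 1
      · refine ⟨0, ?_⟩
        rw [ha1]
        exact Nat.modEq_one
      · have ha2 : 1 < a := by
          have : 0 < a := by rw [ha]; exact pow_pos hp.pos _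
          omega
        obtain ⟨t, -, ht⟩ := Nat.exists_mul_mod_eq_one_of_coprime h2 ha2
        exact ⟨t, by rw [Nat.ModEq, ht, Nat.mod_eq_of_lt ha2]⟩
    have hpow : ∀ u : G, u ^ a = 1 → u ^ (m * t) = u := by
      intro u hu
      conv_rhs => rw [← pow_one u]
      exact pow_eq_pow_iff_modEq.2 (ht.of_dvd (orderOf_dvd_of_pow_eq_one hu))
    have hva : ∀ v : G, v ^ p ^ β = c ^ e → v ^ a = 1 := by
      intro v hv
      rw [ha, ← pelt_iff hp]
      refine ⟨β + (Nat.card G).factorization p, ?_⟩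
      rw [pow_add, pow_mul, hv]
      exact h.pow_e c
    have h2 : Nat.card {u : G // u * y = y * u ∧ u ^ a = 1 ∧ u ^ n = c ^ e} = Nat.card {v : H // v ^ p ^ β = ⟨c ^ e, hcH⟩} := by
      refine Nat.card_congr ⟨fun u => ⟨⟨u.1 ^ m, pow_mem (mem_centralizer_singleton_iff.2 u.2.1) m⟩, ?_⟩,
        fun v => ⟨v.1.1 ^ t, ?_, ?_, ?_⟩, ?_, ?_⟩
      · apply Subtype.ext
        change (u.1 ^ m) ^ p ^ β = c ^ e
        rw [← pow_mul, mul_comm, ← hβ]
        exact u.2.2.2
      · exact mem_centralizer_singleton_iff.1 (pow_mem v.1.2 t)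
      · have h3 := hva v.1.1 (congrArg Subtype.val v.2)
        rw [← pow_mul, mul_comm, pow_mul, h3, one_pow]
      · have h3 := hva v.1.1 (congrArg Subtype.val v.2)
        have h4 : v.1.1 ^ p ^ β = c ^ e := congrArg Subtype.val v.2
        rw [← pow_mul, hβ, show t * (p ^ β * m) = m * t * p ^ β by ring, pow_mul, hpow _ h3, h4]
      · intro u
        apply Subtype.ext
        change (u.1 ^ m) ^ t = u.1
        rw [← pow_mul, hpow _ u.2.2.1]
      · intro v
        apply Subtype.ext; apply Subtype.ext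
        change (v.1.1 ^ t) ^ m = v.1.1
        rw [← pow_mul, mul_comm, hpow _ (hva v.1.1 (congrArg Subtype.val v.2))]
    have h3 : ∀ l, l ≤ k → p ^ l ∣ Nat.card H → p ^ l ∣ Nat.card {v : H // v ^ p ^ β = ⟨c ^ e, hcH⟩} := by
      intro l hl hlH
      refine dvd_card_root hp β l (hl.trans hkβ) hlH ⟨(Nat.card G).factorization p, ?_⟩
      rw [Subtype.ext_iff]
      exact h.pow_e c
    rw [h2]
    have h4 := H.index_mul_card
    by_cases hkH : p ^ k ∣ Nat.card H
    · exact dvd_mul_of_dvd_right (h3 k le_rfl hkH) _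
    · have h5 : (Nat.card H).factorization p < k := by
        by_contra hcon
        push Not at hcon
        exact hkH ((hp.pow_dvd_iff_le_factorization Nat.card_pos.ne').2 hcon)
      have h6 := h3 _ h5.le (Nat.ordProj_dvd _ _)
      have h7 : p ^ k ∣ p ^ (H.index.factorization p) * p ^ ((Nat.card H).factorization p) := by
        rw [← pow_add]
        refine pow_dvd_pow _ ?_
        rw [← Finsupp.add_apply, ← Nat.factorization_mul index_ne_zero_of_finite Nat.card_pos.ne', h4]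
        exact (hp.pow_dvd_iff_le_factorization Nat.card_pos.ne').1 hkG
      exact h7.trans (mul_dvd_mul (Nat.ordProj_dvd _ _) h6)

theorem card_conj_index [Finite G] (g : G) :
    Nat.card {x : G // IsConj g x} = (centralizer ({g} : Set G)).index := by
  have h1 : Nat.card {x : G // IsConj g x} = (MulAction.orbit (ConjAct G) g).ncard := by
    rw [← Nat.card_coe_set_eq]
    apply Nat.card_congr
    apply Equiv.subtypeEquivRight
    intro x
    rw [ConjAct.mem_orbit_conjAct, isConj_comm]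
  rw [h1, ← MulAction.index_stabilizer]
  have h2 := Subgroup.card_mul_index (MulAction.stabilizer (ConjAct G) g)
  have h3 := Subgroup.card_mul_index (Subgroup.centralizer ({g} : Set G))
  rw [Subgroup.nat_card_centralizer_nat_card_stabilizer] at h3
  have h4 : Nat.card (ConjAct G) = Nat.card G := rfl
  rw [h4, ← h3] at h2
  have : Finite (ConjAct G) := inferInstanceAs (Finite G)
  exact Nat.eq_of_mul_eq_mul_left Nat.card_pos h2

/-- **Frobenius' theorem**, class form. -/
theorem frob_class [Finite G] (c : G) (n : ℕ) :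
    Nat.gcd (Nat.card {y : G // IsConj c y} * n) (Nat.card G) ∣ Nat.card {x : G // IsConj c (x ^ n)} := by
  classical
  letI := Fintype.ofFinite G
  set H := centralizer ({c} : Set G) with hH
  have hcH : c ∈ H := mem_centralizer_singleton_iff.2 rfl
  have h1 : Nat.card {x : G // IsConj c (x ^ n)} = Nat.card {y : G // IsConj c y} * Nat.card {x : G // x ^ n = c} := by
    letI := Fintype.ofFinite {y : G // IsConj c y}
    have h2 : Nat.card {x : G // IsConj c (x ^ n)} = ∑ y : {y : G // IsConj c y}, Nat.card {x : G // x ^ n = y} := by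
      rw [← Nat.card_sigma]
      refine Nat.card_congr ⟨fun x => ⟨⟨x.1 ^ n, x.2⟩, x.1, rfl⟩, fun w => ⟨w.2.1, by rw [w.2.2]; exact w.1.2⟩, ?_, ?_⟩
      · intro x; rfl
      · rintro ⟨⟨y, hy⟩, x, hx⟩
        exact Sigma.subtype_ext (Subtype.ext hx) rfl
    rw [h2]
    have h3 : ∀ y : {y : G // IsConj c y}, Nat.card {x : G // x ^ n = y} = Nat.card {x : G // x ^ n = c} := by
      rintro ⟨y, hy⟩
      obtain ⟨g, hg⟩ := isConj_iff.1 hy
      refine (Nat.card_congr (Equiv.subtypeEquiv (MulAut.conj g).toEquiv fun u => ?_)).symm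
      change u ^ n = c ↔ (g * u * g⁻¹) ^ n = y
      rw [conj_pow, ← hg, mul_left_inj, mul_right_inj]
    rw [Finset.sum_congr rfl fun y _ => h3 y, Finset.sum_const, smul_eq_mul, Finset.card_univ,
      Nat.card_eq_fintype_card (α := {y : G // IsConj c y})]
  have h2 : Nat.card {x : G // x ^ n = c} = Nat.card {x : H // x ^ n = ⟨c, hcH⟩} := by
    refine Nat.card_congr ⟨fun x => ⟨⟨x.1, mem_centralizer_singleton_iff.2 ?_⟩, Subtype.ext x.2⟩,
      fun x => ⟨x.1.1, congrArg Subtype.val x.2⟩, fun x => rfl, fun x => rfl⟩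
    have h5 : x.1 * x.1 ^ n = x.1 ^ n * x.1 := (Commute.refl x.1).pow_right n
    rwa [x.2] at h5
  have hcen : (⟨c, hcH⟩ : H) ∈ center H := by
    rw [mem_center_iff]
    intro g
    apply Subtype.ext
    exact mem_centralizer_singleton_iff.1 g.2
  have h3 := frob_central hcen n
  have h4 : Nat.card G = Nat.card {y : G // IsConj c y} * Nat.card H := by
    rw [card_conj_index, H.index_mul_card]
  rw [h1, h2, h4, Nat.gcd_mul_left]
  exact mul_dvd_mul_left _ h3

end Main

end CfsgLib.H3Frob
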