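import Mathlib
import Cfsg.Agent.Lib.Quat

/-!
# Nilpotent groups with cyclic centralisers
-/

set_option autoImplicit false
set_option maxHeartbeats 1000000

namespace CfsgLib.H3Gq

open Subgroup

universe u

theorem uniq {P : Type u} [Group P] [Finite P] {p : ℕ} [Fact p.Prime] (hP : IsPGroup p P)
    (hab : ∀ A : Subgroup P, (∀ x ∈ A, ∀ y ∈ A, x * y = y * x) → IsCyclic A) : ∀ H K : Subgroup P, Nat.card H = p → Nat.card K = p → H = K := by
  have hp : p.Prime := Fact.out
  by_cases hP1 : Nontrivial P
  swap
  · intro H K hH _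
    exfalso
    rw [not_nontrivial_iff_subsingleton] at hP1
    have : Nat.card H = 1 := by
      haveI : Subsingleton H := ⟨fun a b => Subtype.ext (Subsingleton.elim _ _)⟩
      exact Nat.card_of_subsingleton (1 : H)
    rw [this] at hH
    exact hp.one_lt.ne hH
  haveI := hP.center_nontrivial
  obtain ⟨n, hn⟩ := IsPGroup.iff_card.1 (hP.to_subgroup (center P))
  have hn0 : n ≠ 0 := by
    rintro rfl
    rw [pow_zero] at hn
    have := Finite.one_lt_card (α := center P)
    omega
  obtain ⟨c, hc⟩ := exists_prime_orderOf_dvd_card' p (by rw [hn]; exact dvd_pow_self p hn0)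
  have hco : orderOf (c : P) = p := by rw [Subgroup.orderOf_coe, hc]
  have hcc : ∀ x : P, x * c = c * x := fun x => mem_center_iff.1 c.2 x
  have key : ∀ H : Subgroup P, Nat.card H = p → H = zpowers (c : P) := by
    intro H hH
    haveI : Fact (Nat.card H).Prime := ⟨hH ▸ hp⟩
    haveI hcy : IsCyclic H := isCyclic_of_prime_card rfl
    have hHc : ∀ x ∈ H, ∀ y ∈ H, x * y = y * x := by
      intro x hx y hy
      letI := hcy.commGroup
      exact congrArg Subtype.val (mul_comm (⟨x, hx⟩ : H) ⟨y, hy⟩)
    have hczn : (zpowers (c : P)).Normal := by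
      refine ⟨fun x hx g => ?_⟩
      obtain ⟨k, rfl⟩ := mem_zpowers_iff.1 hx
      have : Commute g ((c : P) ^ k) := (show Commute g (c : P) from hcc g).zpow_right k
      rw [this.eq, mul_inv_cancel_right]
      exact zpow_mem (mem_zpowers _) k
    have hform : ∀ x ∈ H ⊔ zpowers (c : P), ∃ h ∈ H, ∃ k : ℤ, x = h * (c : P) ^ k := by
      intro x hx
      rw [mem_sup_of_normal_right] at hx
      obtain ⟨h, hh, y, hy, rfl⟩ := hx
      obtain ⟨k, rfl⟩ := mem_zpowers_iff.1 hy
      exact ⟨h, hh, k, rfl⟩
    have hck : ∀ (g : P) (k : ℤ), Commute g ((c : P) ^ k) := fun g k => (show Commute g (c : P) from hcc g).zpow_right k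
    have hA := hab (H ⊔ zpowers (c : P)) (by
      intro x hx y hy
      obtain ⟨h, hh, k, rfl⟩ := hform x hx
      obtain ⟨h', hh', k', rfl⟩ := hform y hy
      have h1 : Commute (h * (c : P) ^ k) (h' * (c : P) ^ k') :=
        Commute.mul_left (Commute.mul_right (hHc h hh h' hh') (hck h k')) (Commute.mul_right (hck h' k).symm (hck _ k'))
      exact h1)
    have hexp : Monoid.exponent (H ⊔ zpowers (c : P) : Subgroup P) ∣ p := by
      rw [Monoid.exponent_dvd_iff_forall_pow_eq_one]
      intro x
      obtain ⟨h, hh, k, hx⟩ := hform x x.2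
      apply Subtype.ext
      change (x : P) ^ p = 1
      rw [hx, (hck h k).mul_pow]
      have h1 : h ^ p = 1 := by
        have : (⟨h, hh⟩ : H) ^ Nat.card H = 1 := pow_card_eq_one'
        rw [hH] at this
        exact congrArg Subtype.val this
      have h2 : ((c : P) ^ k) ^ p = 1 := by
        rw [← zpow_natCast, ← zpow_mul, mul_comm, zpow_mul, zpow_natCast, ← hco, pow_orderOf_eq_one, one_zpow]
      rw [h1, h2, one_mul]
    letI := hA.commGroup
    rw [IsCyclic.exponent_eq_card] at hexp
    have hle := Nat.le_of_dvd hp.pos hexp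
    have h1 : H = H ⊔ zpowers (c : P) := eq_of_le_of_card_ge le_sup_left (by rw [hH]; exact hle)
    have h2 : zpowers (c : P) = H ⊔ zpowers (c : P) := eq_of_le_of_card_ge le_sup_right (by rw [Nat.card_zpowers, hco]; exact hle)
    rw [h2]; exact h1
  intro H K hH hK
  rw [key H hH, key K hK]

theorem le_of_sylow {G : Type u} [Group G] [Finite G] (K C : Subgroup G)
    (h : ∀ (q : ℕ) (_ : Fact q.Prime) (S : Sylow q K), (S : Subgroup K).map K.subtype ≤ C) : K ≤ C := by
  have hcard : Nat.card K ∣ Nat.card (K ⊓ C : Subgroup G) := by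
    rw [← Nat.factorization_prime_le_iff_dvd Nat.card_pos.ne' Nat.card_pos.ne']
    intro r hr
    haveI := Fact.mk hr
    obtain ⟨S⟩ : Nonempty (Sylow r K) := inferInstance
    have h1 : Nat.card ((S : Subgroup K).map K.subtype) ∣ Nat.card (K ⊓ C : Subgroup G) :=
      card_dvd_of_le (le_inf (map_subtype_le _) (h r ‹_› S))
    rw [card_map_of_injective K.subtype_injective, S.card_eq_multiplicity] at h1
    exact (hr.pow_dvd_iff_le_factorization Nat.card_pos.ne').1 h1
  have h1 : K ⊓ C = K := eq_of_le_of_card_ge inf_le_left (Nat.le_of_dvd Nat.card_pos hcard)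
  exact inf_eq_left.1 h1

theorem two_zmod {n : ℕ} [NeZero n] (j : ZMod (2 * n)) (h : 2 * j = 0) : j = 0 ∨ j = (n : ZMod (2 * n)) := by
  haveI : NeZero (2 * n) := ⟨mul_ne_zero two_ne_zero (NeZero.ne n)⟩
  have h1 : ((2 * j.val : ℕ) : ZMod (2 * n)) = 0 := by
    push_cast
    rw [ZMod.natCast_zmod_val]; exact h
  rw [ZMod.natCast_eq_zero_iff] at h1
  have h2 : n ∣ j.val := (Nat.mul_dvd_mul_iff_left (by norm_num)).1 h1
  have h3 : j.val < 2 * n := ZMod.val_lt j
  obtain ⟨c, hc⟩ := h2
  have hn := Nat.pos_of_ne_zero (NeZero.ne n)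
  have hc2 : c < 2 := by
    by_contra hcc
    have : n * 2 ≤ n * c := Nat.mul_le_mul_left n (by omega)
    omega
  have h4 : j = ((j.val : ℕ) : ZMod (2 * n)) := (ZMod.natCast_zmod_val j).symm
  interval_cases c
  · left; rw [h4, hc, mul_zero, Nat.cast_zero]
  · right; rw [h4, hc, mul_one]

open QuaternionGroup in
theorem quat_cent {n : ℕ} [NeZero n] (x : QuaternionGroup n) (hx : x ∉ center (QuaternionGroup n)) : IsCyclic (centralizer ({x} : Set (QuaternionGroup n))) := by
  have hsuff : ∀ y : QuaternionGroup n, centralizer ({x} : Set (QuaternionGroup n)) ≤ zpowers y → IsCyclic (centralizer ({x} : Set (QuaternionGroup n))) := by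
    intro y hy
    exact Subgroup.isCyclic_of_le hy
  have h2n : ((n : ℕ) : ZMod (2 * n)) + (n : ℕ) = 0 := by
    rw [← two_mul]
    exact_mod_cast ZMod.natCast_self (2 * n)
  rcases x with i | i
  · -- rotation
    have hi : 2 * i ≠ 0 := by
      intro h0
      apply hx
      rw [mem_center_iff]
      rintro (j | j)
      · rw [a_mul_a, a_mul_a, add_comm]
      · rw [xa_mul_a, a_mul_xa]
        congr 1
        have : i = -i := by linear_combination h0
        rw [sub_eq_add_neg, ← this]
    apply hsuff (a 1)
    intro y hy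
    rw [mem_centralizer_singleton_iff] at hy
    rcases y with j | j
    · rw [mem_zpowers_iff]
      refine ⟨(j.val : ℤ), ?_⟩
      haveI : NeZero (2 * n) := ⟨mul_ne_zero two_ne_zero (NeZero.ne n)⟩
      rw [zpow_natCast, a_one_pow, ZMod.natCast_zmod_val]
    · exfalso
      apply hi
      rw [xa_mul_a, a_mul_xa] at hy
      have h1 : j + i = j - i := by injection hy
      linear_combination h1
  · apply hsuff (xa i)
    have hsq : (xa i : QuaternionGroup n) ^ 2 = a n := by
      rw [pow_two, xa_mul_xa]
      congr 1
      ring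
    intro y hy
    rw [mem_centralizer_singleton_iff] at hy
    rcases y with j | j
    · rw [xa_mul_a, a_mul_xa] at hy
      have h1 : i - j = i + j := by injection hy
      have h2 : 2 * j = 0 := by linear_combination -h1
      rcases two_zmod j h2 with h | h
      · rw [h]; exact one_mem _
      · rw [h, ← hsq]; exact pow_mem (mem_zpowers _) 2
    · rw [xa_mul_xa, xa_mul_xa] at hy
      have h1 : (n : ZMod (2 * n)) + i - j = n + j - i := by injection hy
      have h2 : 2 * (j - i) = 0 := by linear_combination -h1
      rcases two_zmod (j - i) h2 with h | h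
      · have : j = i := sub_eq_zero.1 h
        rw [this]; exact mem_zpowers _
      · have h3 : (xa j : QuaternionGroup n) = xa i ^ 3 := by
          rw [pow_succ, hsq, a_mul_xa]
          congr 1
          have : j = i + n := by linear_combination h
          rw [this]
          linear_combination h2n
        rw [h3]; exact pow_mem (mem_zpowers _) 3

theorem s4370 {G : Type u} [Group G] [Finite G] (hG : Group.IsNilpotent G)
    (hna : ¬ IsMulCommutative G) :
    (∀ x : G, x ∉ Subgroup.center G → IsCyclic (Subgroup.centralizer ({x} : Set G))) ↔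
      ∃ (k m : ℕ), 1 ≤ k ∧ Odd m ∧ Nonempty (G ≃* QuaternionGroup (2 ^ k) × Multiplicative (ZMod m)) := by
  classical
  constructor
  · intro hcen
    obtain ⟨x0, hx0⟩ : ∃ x0 : G, x0 ∉ center G := by
      by_contra h
      push Not at h
      exact hna ⟨⟨fun a b => (mem_center_iff.1 (h b) a)⟩⟩
    have hab : ∀ A : Subgroup G, (∀ x ∈ A, ∀ y ∈ A, x * y = y * x) → IsCyclic A := by
      intro A hA
      by_cases h : ∃ x ∈ A, x ∉ center G
      · obtain ⟨x, hx, hxc⟩ := h
        haveI := hcen x hxc
        exact Subgroup.isCyclic_of_le (show A ≤ centralizer ({x} : Set G) from fun y hy => mem_centralizer_singleton_iff.2 (hA y hy x hx))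
      · push Not at h
        haveI := hcen x0 hx0
        exact Subgroup.isCyclic_of_le (show A ≤ centralizer ({x0} : Set G) from fun y hy => mem_centralizer_singleton_iff.2 ((mem_center_iff.1 (h y hy) x0).symm))
    have hP : ∀ (p : ℕ) (_ : Fact p.Prime) (P : Subgroup G), IsPGroup p P → IsCyclic P ∨ (p = 2 ∧ ∃ n : ℕ, Nonempty (P ≃* QuaternionGroup (2 ^ n))) := by
      intro p hp P hP
      refine CfsgLib.Quat.unique_subgroup p hP (uniq hP ?_)
      intro A hA
      have h1 : IsCyclic (A.map P.subtype) := by
        apply hab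
        rintro _ ⟨x, hx, rfl⟩ _ ⟨y, hy, rfl⟩
        exact congrArg Subtype.val (hA x hx y hy)
      exact (A.equivMapOfInjective _ P.subtype_injective).isCyclic.2 h1
    haveI : Fact (Nat.Prime 2) := ⟨Nat.prime_two⟩
    obtain ⟨P⟩ : Nonempty (Sylow 2 G) := inferInstance
    have hsyn : ∀ (q : ℕ) (_ : Fact q.Prime) (Q : Sylow q G), (Q : Subgroup G).Normal := by
      intro q hq Q
      exact (Group.isNilpotent_of_finite_tfae (G := G)).out 0 3 rfl rfl |>.mp hG q hq Q
    haveI := hsyn 2 ‹_› P
    obtain ⟨K, hK⟩ := exists_right_complement'_of_coprime (N := (P : Subgroup G)) (by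
      rw [P.card_eq_multiplicity]
      apply Nat.Coprime.pow_left
      rw [Nat.Prime.coprime_iff_not_dvd Nat.prime_two]
      exact P.not_dvd_index)
    have hKodd : ¬ 2 ∣ Nat.card K := by
      rw [← hK.symm.index_eq_card]
      exact P.not_dvd_index
    have hcomm : K ≤ centralizer ((P : Subgroup G) : Set G) := by
      apply le_of_sylow
      intro q hq S
      by_cases hq2 : q = 2
      · subst hq2
        have h1 : (S : Subgroup K) = ⊥ := by
          apply (card_eq_one).1
          rw [S.card_eq_multiplicity, Nat.factorization_eq_zero_of_not_dvd hKodd, pow_zero]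
        rw [h1, Subgroup.map_bot]; exact bot_le
      obtain ⟨Q, hQ⟩ := (S.2.map K.subtype).exists_le_sylow
      refine hQ.trans ?_
      intro y hy
      rw [mem_centralizer_iff]
      intro x hx
      have hdis : Disjoint (P : Subgroup G) (Q : Subgroup G) := by
        apply IsPGroup.disjoint_of_ne 2 q (Ne.symm hq2) _ _ P.2 Q.2
      exact commute_of_normal_of_disjoint _ _ (hsyn 2 ‹_› P) (hsyn q hq Q) hdis x y hx hy
    have hKZ : IsZGroup K := by
      refine ⟨fun q hq S => ?_⟩
      haveI := Fact.mk hq
      have h1 := hP q ⟨hq⟩ ((S : Subgroup K).map K.subtype) (S.2.map _)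
      rcases h1 with h1 | ⟨h2, n, ⟨e⟩⟩
      · exact ((S : Subgroup K).equivMapOfInjective _ K.subtype_injective).isCyclic.2 h1
      · subst h2
        have h1 : (S : Subgroup K) = ⊥ := by
          apply (card_eq_one).1
          rw [S.card_eq_multiplicity, Nat.factorization_eq_zero_of_not_dvd hKodd, pow_zero]
        rw [h1]; infer_instance
    haveI := hKZ
    haveI : Group.IsNilpotent G := hG
    haveI : IsCyclic K := inferInstance
    let f : (↥(P : Subgroup G)) × K →* G := MonoidHom.noncommCoprod (P : Subgroup G).subtype K.subtype (by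
      intro a b
      exact (mem_centralizer_iff.1 (hcomm b.2)) a a.2)
    have hf : Function.Bijective f := hK
    have e1 : ((↥(P : Subgroup G)) × K) ≃* G := MulEquiv.ofBijective f hf
    rcases hP 2 ‹_› (P : Subgroup G) P.2 with h | ⟨-, n, ⟨e⟩⟩
    · exfalso
      apply hna
      letI := h.commGroup
      letI := (inferInstance : IsCyclic K).commGroup
      refine ⟨⟨fun a b => ?_⟩⟩
      obtain ⟨a, rfl⟩ := e1.surjective a
      obtain ⟨b, rfl⟩ := e1.surjective b
      rw [← map_mul, ← map_mul]
      congr 1
      exact Prod.ext (mul_comm a.1 b.1) (mul_comm a.2 b.2)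
    · have hn : 1 ≤ n := by
        by_contra hn
        have hn0 : n = 0 := by omega
        subst hn0
        apply hna
        have hcyc : IsCyclic (P : Subgroup G) := by
          have hcard : Nat.card (P : Subgroup G) = 4 := by rw [Nat.card_congr e.toEquiv, Nat.card_eq_fintype_card]; decide
          refine isCyclic_of_orderOf_eq_card (e.symm (QuaternionGroup.xa 0)) ?_
          rw [hcard, MulEquiv.orderOf_eq, QuaternionGroup.orderOf_xa]
        letI := hcyc.commGroup
        letI := (inferInstance : IsCyclic K).commGroup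
        refine ⟨⟨fun a b => ?_⟩⟩
        obtain ⟨a, rfl⟩ := e1.surjective a
        obtain ⟨b, rfl⟩ := e1.surjective b
        rw [← map_mul, ← map_mul]
        congr 1
        exact Prod.ext (mul_comm a.1 b.1) (mul_comm a.2 b.2)
      refine ⟨n, Nat.card K, hn, ?_, ⟨e1.symm.trans (e.prodCongr (zmodCyclicMulEquiv inferInstance).symm)⟩⟩
      rw [← Nat.not_even_iff_odd, even_iff_two_dvd]; exact hKodd
  · rintro ⟨k, m, hk, hm, ⟨e⟩⟩ x hx
    haveI : NeZero m := ⟨by rintro rfl; exact absurd hm (by decide)⟩
    obtain ⟨q, hq⟩ : ∃ q, q = e x := ⟨_, rfl⟩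
    have hq1 : q.1 ∉ center (QuaternionGroup (2 ^ k)) := by
      intro h
      apply hx
      rw [mem_center_iff] at h ⊢
      intro y
      apply e.injective
      rw [map_mul, map_mul, ← hq]
      exact Prod.ext (h _) (mul_comm _ _)
    haveI := quat_cent q.1 hq1
    have hmem : ∀ y : centralizer ({x} : Set G), (e y).1 ∈ centralizer ({q.1} : Set (QuaternionGroup (2 ^ k))) := by
      intro y
      have h1 := mem_centralizer_singleton_iff.1 y.2
      rw [mem_centralizer_singleton_iff]
      have h2 := congrArg e h1
      rw [map_mul, map_mul, ← hq] at h2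
      exact congrArg Prod.fst h2
    let g : centralizer ({x} : Set G) →* centralizer ({q.1} : Set (QuaternionGroup (2 ^ k))) × Multiplicative (ZMod m) :=
      { toFun := fun y => (⟨(e y).1, hmem y⟩, (e y).2)
        map_one' := by
          refine Prod.ext (Subtype.ext ?_) ?_
          · change (e ((1 : centralizer ({x} : Set G)) : G)).1 = 1
            rw [Subgroup.coe_one, map_one]; rfl
          · change (e ((1 : centralizer ({x} : Set G)) : G)).2 = 1
            rw [Subgroup.coe_one, map_one]; rfl
        map_mul' := fun y z => by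
          refine Prod.ext (Subtype.ext ?_) ?_
          · change (e ((y * z : centralizer ({x} : Set G)) : G)).1 = (e y).1 * (e z).1
            rw [Subgroup.coe_mul, map_mul]; rfl
          · change (e ((y * z : centralizer ({x} : Set G)) : G)).2 = (e y).2 * (e z).2
            rw [Subgroup.coe_mul, map_mul]; rfl }
    have hg : Function.Injective g := by
      intro y z hyz
      apply Subtype.ext
      apply e.injective
      have h1 : (e (y : G)).1 = (e (z : G)).1 := congrArg (fun t => (t.1 : QuaternionGroup (2 ^ k))) hyz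
      have h2 : (e (y : G)).2 = (e (z : G)).2 := congrArg (fun t => t.2) hyz
      exact Prod.ext h1 h2
    haveI : IsCyclic (centralizer ({q.1} : Set (QuaternionGroup (2 ^ k))) × Multiplicative (ZMod m)) := by
      rw [Group.isCyclic_prod_iff]
      refine ⟨inferInstance, inferInstance, ?_⟩
      have h1 : Nat.card (Multiplicative (ZMod m)) = m := by
        rw [Nat.card_congr Multiplicative.toAdd, Nat.card_zmod]
      rw [h1]
      apply Nat.Coprime.coprime_dvd_left (card_subgroup_dvd_card _)
      have h2 : Nat.card (QuaternionGroup (2 ^ k)) = 2 ^ (k + 2) := by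
        rw [Nat.card_eq_fintype_card, QuaternionGroup.card]; ring
      rw [h2]
      apply Nat.Coprime.pow_left
      rw [Nat.coprime_two_left]; exact hm
    exact isCyclic_of_injective g hg

end CfsgLib.H3Gq
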