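import Mathlib
import Cfsg.Prelude.Def_Solvable
import Cfsg.Agent.Lib.Core
import Cfsg.Agent.Lib.PGrp
import Cfsg.Agent.Lib.BaerSuzuki

/-!
# The hypercenter
-/

set_option autoImplicit false
set_option maxHeartbeats 1000000

namespace CfsgLib.H3Hyp

open Subgroup CfsgLib.Core

universe u

theorem nil_inj {G H : Type*} [Group G] [Group H] (hH : Group.IsNilpotent H) (f : G →* H) (hf : Function.Injective f) : Group.IsNilpotent G :=
  Subgroup.isNilpotent_of_ker_le_center f (by rw [(MonoidHom.ker_eq_bot_iff f).2 hf]; exact bot_le)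

theorem top_of_sylow {G : Type u} [Group G] [Finite G] (C : Subgroup G)
    (h : ∀ (q : ℕ) (_ : Fact q.Prime), ∃ Q : Sylow q G, (Q : Subgroup G) ≤ C) : C = ⊤ := by
  have hcard : Nat.card G ∣ Nat.card C := by
    rw [← Nat.factorization_prime_le_iff_dvd Nat.card_pos.ne' Nat.card_pos.ne']
    intro r hr
    haveI := Fact.mk hr
    obtain ⟨Q, hQ⟩ := h r ‹_›
    have h1 : Nat.card (Q : Subgroup G) ∣ Nat.card C := card_dvd_of_le hQ
    rw [Q.card_eq_multiplicity] at h1
    exact (hr.pow_dvd_iff_le_factorization Nat.card_pos.ne').1 h1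
  exact eq_top_of_le_card _ (Nat.le_of_dvd Nat.card_pos hcard)

theorem mem_iff {G : Type u} [Group G] (g : G) : g ∈ ⨆ n : ℕ, Subgroup.upperCentralSeries G n ↔ ∃ n, g ∈ Subgroup.upperCentralSeries G n := by
  exact mem_iSup_of_directed (Monotone.directed_le (Subgroup.upperCentralSeries_mono G))

theorem closure_map {G H : Type*} [Group G] [Group H] (f : G →* H) (x g : G) : (closure {x, g}).map f = closure {f x, f g} := by
  rw [MonoidHom.map_closure, Set.image_pair]

theorem easy (n : ℕ) : ∀ {G : Type u} [Group G] (g : G), g ∈ Subgroup.upperCentralSeries G n → ∀ x : G, Group.IsNilpotent (closure ({x, g} : Set G)) := by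
  induction n with
  | zero =>
    intro G _ g hg x
    rw [Subgroup.upperCentralSeries_zero, mem_bot] at hg
    subst hg
    have h1 : closure ({x, 1} : Set G) = zpowers x := by
      rw [zpowers_eq_closure]
      apply le_antisymm
      · rw [closure_le]
        rintro y (rfl | h)
        · exact subset_closure (by simp)
        · rw [Set.mem_singleton_iff.1 h]; exact one_mem _
      · exact closure_mono (by simp)
    rw [h1]
    letI : CommGroup (zpowers x) := IsCyclic.commGroup
    exact CommGroup.isNilpotent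
  | succ n ih =>
    intro G _ g hg x
    rw [← Subgroup.comap_upperCentralSeries_quotient_center] at hg
    have h1 := ih (G := G ⧸ center G) (QuotientGroup.mk' (center G) g) hg (QuotientGroup.mk' (center G) x)
    rw [← closure_map] at h1
    haveI := h1
    let f : closure ({x, g} : Set G) →* (closure ({x, g} : Set G)).map (QuotientGroup.mk' (center G)) :=
      (QuotientGroup.mk' (center G)).subgroupMap _
    refine Subgroup.isNilpotent_of_ker_le_center f ?_
    intro y hy
    have h2 : QuotientGroup.mk' (center G) (y : G) = 1 := congrArg Subtype.val hy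
    have h3 : (y : G) ∈ center G := (QuotientGroup.eq_one_iff (y : G)).1 h2
    rw [mem_center_iff]
    intro z
    exact Subtype.ext ((mem_center_iff.1 h3) z)

theorem hard_step {G : Type u} [Group G] [Finite G] (hZ : center G = ⊥) (y : G) {p : ℕ} [Fact p.Prime] (hy : orderOf y = p)
    (h : ∀ x : G, Group.IsNilpotent (closure ({x, y} : Set G))) : False := by
  classical
  have hp : p.Prime := Fact.out
  have hy1 : y ≠ 1 := by
    rintro rfl
    rw [orderOf_one] at hy
    exact hp.one_lt.ne hy
  -- step a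
  have ha : y ∈ Cfsg.pCore p G := by
    obtain ⟨N, hN, hNp, hyN⟩ := CfsgLib.BaerSuzuki.baer_suzuki_elt (p := p) y (by
      intro g
      obtain ⟨L, hL⟩ : ∃ L, L = closure ({y, g * y * g⁻¹} : Set G) := ⟨_, rfl⟩
      rw [← hL]
      have hyL : y ∈ L := hL ▸ subset_closure (by simp)
      have hgL : g * y * g⁻¹ ∈ L := hL ▸ subset_closure (by simp)
      have hle : L ≤ closure ({g, y} : Set G) := by
        rw [hL, closure_le]
        have h1 : g ∈ closure ({g, y} : Set G) := subset_closure (by simp)
        have h2 : y ∈ closure ({g, y} : Set G) := subset_closure (by simp)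
        rintro z (hz | hz)
        · rw [hz]; exact h2
        · rw [Set.mem_singleton_iff.1 hz]; exact mul_mem (mul_mem h1 h2) (inv_mem h1)
      haveI := h g
      haveI hLn : Group.IsNilpotent L := nil_inj (h g) (inclusion hle) (inclusion_injective hle)
      have htop : Cfsg.pCore p L = ⊤ := by
        have e1 : (⟨y, hyL⟩ : L) ∈ Cfsg.pCore p L :=
          mem_pCore_of_mem_nilpotent (N := ⊤) inferInstance (nil_inj hLn (⊤ : Subgroup L).subtype (subtype_injective _)) (mem_top _) (k := 1)
            (by rw [Subgroup.orderOf_mk, hy, pow_one])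
        have e2 : (⟨g * y * g⁻¹, hgL⟩ : L) ∈ Cfsg.pCore p L :=
          mem_pCore_of_mem_nilpotent (N := ⊤) inferInstance (nil_inj hLn (⊤ : Subgroup L).subtype (subtype_injective _)) (mem_top _) (k := 1)
            (by
              rw [Subgroup.orderOf_mk, show g * y * g⁻¹ = MulAut.conj g y from rfl, MulEquiv.orderOf_eq, hy, pow_one])
        have e3 : L ≤ (Cfsg.pCore p L).map L.subtype := by
          conv_lhs => rw [hL]
          rw [closure_le]
          rintro z (hz | hz)
          · rw [hz]; exact ⟨_, e1, rfl⟩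
          · rw [Set.mem_singleton_iff.1 hz]; exact ⟨_, e2, rfl⟩
        rw [eq_top_iff]
        intro z _
        obtain ⟨w, hw, hwz⟩ := e3 z.2
        have : w = z := Subtype.ext hwz
        exact this ▸ hw
      have hpg := pCore_isPGroup p L
      rw [htop] at hpg
      exact hpg.of_equiv topEquiv)
    exact le_pCore hN hNp hyN
  -- step b
  let S : Set G := {z | ∃ q k : ℕ, q.Prime ∧ q ≠ p ∧ orderOf z = q ^ k}
  have hb : ∀ z ∈ S, z * y = y * z := by
    rintro z ⟨q, k, hq, hqp, hz⟩
    haveI := Fact.mk hq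
    obtain ⟨L, hL⟩ : ∃ L, L = closure ({z, y} : Set G) := ⟨_, rfl⟩
    have hyL : y ∈ L := hL ▸ subset_closure (by simp)
    have hzL : z ∈ L := hL ▸ subset_closure (by simp)
    haveI hLn : Group.IsNilpotent L := hL ▸ h z
    have e1 : (⟨y, hyL⟩ : L) ∈ Cfsg.pCore p L :=
      mem_pCore_of_mem_nilpotent (N := ⊤) inferInstance (nil_inj hLn (⊤ : Subgroup L).subtype (subtype_injective _)) (mem_top _) (k := 1)
        (by rw [Subgroup.orderOf_mk, hy, pow_one])
    have e2 : (⟨z, hzL⟩ : L) ∈ Cfsg.pCore q L :=
      mem_pCore_of_mem_nilpotent (N := ⊤) inferInstance (nil_inj hLn (⊤ : Subgroup L).subtype (subtype_injective _)) (mem_top _) (k := k)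
        (by rw [Subgroup.orderOf_mk, hz])
    have hd : Disjoint (Cfsg.pCore q L) (Cfsg.pCore p L) := IsPGroup.disjoint_of_ne q p hqp _ _ (pCore_isPGroup q L) (pCore_isPGroup p L)
    have := commute_of_normal_of_disjoint _ _ (pCore_normal q L) (pCore_normal p L) hd _ _ e2 e1
    exact congrArg Subtype.val this.eq
  -- the normal subgroup A
  let C : Subgroup G := centralizer S
  haveI hCn : C.Normal := by
    refine ⟨fun c hc g => ?_⟩
    rw [mem_centralizer_iff] at hc ⊢
    rintro z ⟨q, k, hq, hqp, hz⟩
    have h1 := hc (g⁻¹ * z * g) ⟨q, k, hq, hqp, by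
      rw [show g⁻¹ * z * g = MulAut.conj g⁻¹ z by rw [MulAut.conj_apply, inv_inv], MulEquiv.orderOf_eq, hz]⟩
    calc z * (g * c * g⁻¹) = g * ((g⁻¹ * z * g) * c) * g⁻¹ := by group
      _ = g * (c * (g⁻¹ * z * g)) * g⁻¹ := by rw [h1]
      _ = _ := by group
  have hyC : y ∈ C := mem_centralizer_iff.2 hb
  obtain ⟨P⟩ : Nonempty (Sylow p G) := inferInstance
  haveI := pCore_normal p G
  obtain ⟨A, hA⟩ : ∃ A, A = Cfsg.pCore p G ⊓ C := ⟨_, rfl⟩
  haveI hAn : A.Normal := by rw [hA]; infer_instance
  have hAP : A ≤ P := by rw [hA]; exact inf_le_left.trans (pCore_le_sylow P)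
  have hyA : y ∈ A := by rw [hA]; exact mem_inf.2 ⟨ha, hyC⟩
  have hne : A.subgroupOf (P : Subgroup G) ≠ ⊥ := by
    intro h0
    have h1 : (⟨y, hAP hyA⟩ : (P : Subgroup G)) ∈ A.subgroupOf (P : Subgroup G) := hyA
    rw [h0, mem_bot] at h1
    exact hy1 (congrArg Subtype.val h1)
  have h2 := CfsgLib.PGrp.inf_center_ne_bot P.2 (N := A.subgroupOf (P : Subgroup G)) inferInstance hne
  obtain ⟨w, hw⟩ := (Subgroup.ne_bot_iff_exists_ne_one).1 h2
  obtain ⟨hw1, hw2⟩ := mem_inf.1 w.2
  obtain ⟨v, hv⟩ : ∃ v : G, v = ((w : (P : Subgroup G)) : G) := ⟨_, rfl⟩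
  have hvA : v ∈ A := by rw [hv]; exact hw1
  have hvP : ∀ x ∈ (P : Subgroup G), x * v = v * x := by
    intro x hx
    rw [hv]
    exact congrArg Subtype.val (mem_center_iff.1 hw2 ⟨x, hx⟩)
  have hv1 : v ≠ 1 := by
    intro h0
    apply hw
    apply Subtype.ext
    apply Subtype.ext
    rw [← hv, h0]; rfl
  have hvC : v ∈ C := by rw [hA] at hvA; exact (mem_inf.1 hvA).2
  have htop : centralizer ({v} : Set G) = ⊤ := by
    apply top_of_sylow
    intro q hq
    by_cases hqp : q = p
    · subst hqp
      exact ⟨P, fun x hx => mem_centralizer_singleton_iff.2 (hvP x hx)⟩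
    · obtain ⟨Q⟩ : Nonempty (Sylow q G) := inferInstance
      refine ⟨Q, fun x hx => mem_centralizer_singleton_iff.2 ?_⟩
      obtain ⟨k, hk⟩ := (IsPGroup.iff_orderOf.1 Q.2) ⟨x, hx⟩
      rw [Subgroup.orderOf_mk] at hk
      exact (mem_centralizer_iff.1 hvC) x ⟨q, k, hq.out, hqp, hk⟩
  apply hv1
  have h3 : v ∈ center G := by
    rw [mem_center_iff]
    intro x
    exact mem_centralizer_singleton_iff.1 (htop ▸ mem_top x)
  rwa [hZ, mem_bot] at h3

theorem hard (n : ℕ) : ∀ {G : Type u} [Group G] [Finite G], Nat.card G ≤ n → ∀ g : G, (∀ x : G, Group.IsNilpotent (closure ({x, g} : Set G))) →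
    ∃ k, g ∈ Subgroup.upperCentralSeries G k := by
  induction n with
  | zero =>
    intro G _ _ h
    exact absurd h (by have := Nat.card_pos (α := G); omega)
  | succ n ih =>
    intro G _ _ hG g hg
    by_cases hZ : center G = ⊥
    · refine ⟨0, ?_⟩
      rw [Subgroup.upperCentralSeries_zero, mem_bot]
      by_contra hg1
      obtain ⟨p, hp, hpd⟩ := Nat.exists_prime_and_dvd (n := orderOf g) (fun h0 => hg1 (orderOf_eq_one_iff.1 h0))
      obtain ⟨c, hc⟩ := hpd
      haveI := Fact.mk hp
      have hpos : 0 < orderOf g := orderOf_pos g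
      have hc0 : c ≠ 0 := by rintro rfl; omega
      have ho : orderOf (g ^ c) = p := by
        rw [orderOf_pow_of_dvd hc0 (Dvd.intro_left p hc.symm), hc]
        exact Nat.mul_div_cancel _ (Nat.pos_of_ne_zero hc0)
      refine hard_step hZ (g ^ c) ho ?_
      intro x
      haveI := hg x
      have hle : closure ({x, g ^ c} : Set G) ≤ closure ({x, g} : Set G) := by
        rw [closure_le]
        have h1 : x ∈ closure ({x, g} : Set G) := subset_closure (by simp)
        have h2 : g ∈ closure ({x, g} : Set G) := subset_closure (by simp)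
        rintro z (hz | hz)
        · rw [hz]; exact h1
        · rw [Set.mem_singleton_iff.1 hz]; exact pow_mem h2 c
      exact nil_inj (hg x) (inclusion hle) (inclusion_injective hle)
    · haveI := (Subgroup.nontrivial_iff_ne_bot _).2 hZ
      have hlt : Nat.card (G ⧸ center G) ≤ n := by
        have h1 := card_eq_card_quotient_mul_card_subgroup (center G)
        have h2 : 1 < Nat.card (center G) := Finite.one_lt_card
        have h3 : 0 < Nat.card (G ⧸ center G) := Nat.card_pos
        nlinarith
      obtain ⟨k, hk⟩ := ih hlt (QuotientGroup.mk' (center G) g) (by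
        intro x
        obtain ⟨x, rfl⟩ := QuotientGroup.mk'_surjective _ x
        rw [← closure_map]
        haveI := hg x
        exact Group.nilpotent_of_surjective ((QuotientGroup.mk' (center G)).subgroupMap (closure ({x, g} : Set G))) (MonoidHom.subgroupMap_surjective _ _))
      refine ⟨k + 1, ?_⟩
      rw [← Subgroup.comap_upperCentralSeries_quotient_center]
      exact hk

theorem s3939 {G : Type u} [Group G] [Finite G] (g : G) :
    (∀ x : G, Group.IsNilpotent ↥(Subgroup.closure ({x, g} : Set G))) ↔ g ∈ ⨆ n : ℕ, Subgroup.upperCentralSeries G n := by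
  rw [mem_iff]
  constructor
  · exact hard (Nat.card G) le_rfl g
  · rintro ⟨n, hn⟩
    exact easy n g hn

end CfsgLib.H3Hyp
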