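import Mathlib
import Cfsg.Agent.Lib.Coprime2
import Cfsg.Agent.Lib.PGrp
import Cfsg.Agent.Lib.Frattini
import Cfsg.Agent.Lib.H6HSub

/-!
# Odd-order operators fixing all subgroups of a given order of a 2-group
-/

set_option autoImplicit false
set_option maxHeartbeats 1000000

namespace CfsgLib.H3Inv2

universe u

variable {X : Type u} [Group X] [Finite X]

/-- a subgroup of order `2 ^ d` between a smaller subgroup and a 2-group -/
theorem between {F : Subgroup X} (u : X) (hu : u ∈ F) (i d : ℕ) (hi : orderOf u = 2 ^ i) (hid : i ≤ d) (hd : 2 ^ d ∣ Nat.card F) :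
    ∃ K : Subgroup X, K ≤ F ∧ Nat.card K = 2 ^ d ∧ u ∈ K := by
  haveI : Fact (Nat.Prime 2) := ⟨Nat.prime_two⟩
  obtain ⟨K, hK, hle⟩ := Sylow.exists_subgroup_card_pow_prime_le (p := 2) (n := i) (m := d) hd
    (Subgroup.zpowers (⟨u, hu⟩ : F)) (by rw [Nat.card_zpowers, Subgroup.orderOf_mk, hi]) hid
  refine ⟨K.map F.subtype, Subgroup.map_subtype_le K, ?_, ?_⟩
  · rw [Subgroup.card_map_of_injective F.subtype_injective, hK]
  · exact ⟨⟨u, hu⟩, hle (Subgroup.mem_zpowers _), rfl⟩

theorem main (P A D : Subgroup X) (hP : IsPGroup 2 P) (hA : Odd (Nat.card A))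
    (hAP : A ≤ Subgroup.normalizer (P : Set X)) (hDP : D ≤ P) (hD1 : 1 < Nat.card D) (hD2 : Nat.card D < Nat.card P)
    (hinv : ∀ E : Subgroup X, E ≤ P → (Nat.card E = Nat.card D ∨ (Nat.card D = 2 ∧ Nat.card E = 4)) → A ≤ Subgroup.normalizer (E : Set X)) :
    A ≤ Subgroup.centralizer (P : Set X) := by
  haveI : Fact (Nat.Prime 2) := ⟨Nat.prime_two⟩
  obtain ⟨d, hd⟩ := IsPGroup.iff_card.1 (hP.to_le hDP)
  obtain ⟨m, hm⟩ := IsPGroup.iff_card.1 hP
  have hd1 : 1 ≤ d := by
    rcases Nat.eq_zero_or_pos d with h | h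
    · rw [hd, h] at hD1; exact absurd hD1 (by norm_num)
    · exact h
  have hdm : d < m := by
    rw [hd, hm] at hD2
    exact (Nat.pow_lt_pow_iff_right (by norm_num)).1 hD2
  rw [hd] at hinv
  have hAo : ∀ a ∈ A, (orderOf a).Coprime 2 := by
    intro a ha
    have h1 : orderOf a ∣ Nat.card A := by
      have := orderOf_dvd_natCard (⟨a, ha⟩ : A)
      rwa [Subgroup.orderOf_mk] at this
    exact Nat.Coprime.coprime_dvd_left h1 (Nat.coprime_two_right.2 hA)
  intro a ha
  rw [Subgroup.mem_centralizer_iff]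
  intro x hx
  symm
  apply CfsgLib.H6HSub.comm_of_omega (p := 2) (hAo a ha) (Nat.card P) P le_rfl hP (hAP ha) _ x hx
  intro w hw hw'
  have hw4 : w ^ 2 ^ 2 = 1 := by
    rcases hw' with h | ⟨_, h⟩
    · rw [show (2 : ℕ) ^ 2 = 2 * 2 by norm_num, pow_mul, h, one_pow]
    · exact h
  obtain ⟨i, hi, hwi⟩ := (Nat.dvd_prime_pow Nat.prime_two).1 (orderOf_dvd_of_pow_eq_one hw4)
  have hcyc : ∀ E : Subgroup X, E ≤ P → IsCyclic E → a ∈ Subgroup.normalizer (E : Set X) → w ∈ E → a * w = w * a := by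
    intro E hEP hE haE hwE
    exact CfsgLib.H6HSub.comm_of_cyclic (p := 2) (hAo a ha) (by norm_num) (hP.to_le hEP) hE haE w hwE
  rcases Nat.lt_or_ge d 2 with hd2 | hd2
  · have hd' : d = 1 := by omega
    rw [hd', pow_one] at hinv
    have hzP : Subgroup.zpowers w ≤ P := Subgroup.zpowers_le.2 hw
    have hzc : Nat.card (Subgroup.zpowers w) = 2 ^ i := by rw [Nat.card_zpowers, hwi]
    interval_cases i
    · rw [pow_zero, orderOf_eq_one_iff] at hwi
      rw [hwi, one_mul, mul_one]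
    · exact hcyc _ hzP inferInstance (hinv _ hzP (Or.inl hzc) ha) (Subgroup.mem_zpowers w)
    · exact hcyc _ hzP inferInstance (hinv _ hzP (Or.inr ⟨rfl, hzc⟩) ha) (Subgroup.mem_zpowers w)
  -- `d ≥ 2`
  obtain ⟨E, hEP, hE, hwE⟩ := between w hw i d hwi (hi.trans hd2) (by rw [hm]; exact pow_dvd_pow 2 hdm.le)
  by_cases hEc : IsCyclic E
  · exact hcyc E hEP hEc (hinv E hEP (Or.inl hE) ha) hwE
  obtain ⟨F', hF', hEF'⟩ := Sylow.exists_subgroup_card_pow_prime_le (p := 2) (n := d) (m := d + 1) (G := P)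
    (by rw [hm]; exact pow_dvd_pow 2 hdm) (E.subgroupOf P) (by
      rw [Nat.card_congr (Subgroup.subgroupOfEquivOfLe hEP).toEquiv, hE]) (Nat.le_succ d)
  obtain ⟨F, hF⟩ : ∃ F, F = F'.map P.subtype := ⟨_, rfl⟩
  have hFP : F ≤ P := by rw [hF]; exact Subgroup.map_subtype_le F'
  have hFc : Nat.card F = 2 ^ (d + 1) := by rw [hF, Subgroup.card_map_of_injective P.subtype_injective, hF']
  have hEF : E ≤ F := by
    intro e he
    rw [hF]
    exact ⟨⟨e, hEP he⟩, hEF' (Subgroup.mem_subgroupOf.2 he), rfl⟩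
  have hF2 : IsPGroup 2 F := hP.to_le hFP
  have hFn : ∀ b ∈ A, ∀ u ∈ F, b * u * b⁻¹ ∈ F := by
    intro b hb u hu
    obtain ⟨j, hj⟩ := (IsPGroup.iff_orderOf.1 hF2) ⟨u, hu⟩
    rw [Subgroup.orderOf_mk] at hj
    have hjd : j ≤ d := by
      by_contra hh
      push Not at hh
      apply hEc
      have h1 : Subgroup.zpowers u ≤ F := Subgroup.zpowers_le.2 hu
      have h2 : Subgroup.zpowers u = F := by
        apply Subgroup.eq_of_le_of_card_ge h1
        rw [hFc, Nat.card_zpowers, hj]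
        exact Nat.pow_le_pow_right two_pos hh
      have h3 : IsCyclic F := h2 ▸ (inferInstance : IsCyclic (Subgroup.zpowers u))
      exact isCyclic_of_injective (Subgroup.inclusion hEF) (Subgroup.inclusion_injective hEF)
    obtain ⟨K, hKF, hKc, huK⟩ := between u hu j d hj hjd (by rw [hFc]; exact pow_dvd_pow 2 (Nat.le_succ d))
    have h1 := hinv K (hKF.trans hFP) (Or.inl hKc) hb
    exact hKF ((Subgroup.mem_normalizer_iff.1 h1 u).1 huK)
  have hFN : ∀ b ∈ A, b ∈ Subgroup.normalizer (F : Set X) := by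
    intro b hb
    rw [Subgroup.mem_normalizer_iff]
    intro u
    refine ⟨fun h => hFn b hb u h, fun h => ?_⟩
    have := hFn b⁻¹ (inv_mem hb) _ h
    have e : b⁻¹ * (b * u * b⁻¹) * b⁻¹⁻¹ = u := by group
    rwa [e] at this
  have hcen : A ≤ Subgroup.centralizer (F : Set X) := by
    apply CfsgLib.Coprime.le_centralizer_of_frattini
    · obtain ⟨l, hl⟩ := IsPGroup.iff_card.1 (hF2.to_subgroup (frattini F))
      rw [hl]
      exact Nat.Coprime.pow_right l (Nat.coprime_two_right.2 hA)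
    · intro b hb k hk
      have hmem : b * k * b⁻¹ * k⁻¹ ∈ F := F.mul_mem (hFn b hb k hk) (F.inv_mem hk)
      refine ⟨⟨_, hmem⟩, ?_, rfl⟩
      change (⟨_, hmem⟩ : F) ∈ frattini F
      rw [CfsgLib.Frattini.mem_frattini_iff]
      intro M hM
      have hMn : M.Normal := CfsgLib.PGrp.normal_of_coatom hF2 hM
      have hMi : M.index = 2 := CfsgLib.PGrp.index_of_coatom hF2 hM
      have hMc : Nat.card (M.map F.subtype) = 2 ^ d := by
        rw [Subgroup.card_map_of_injective F.subtype_injective]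
        have h1 := M.card_mul_index
        rw [hMi, hFc, pow_succ] at h1
        omega
      have hMF : M.map F.subtype ≤ F := Subgroup.map_subtype_le M
      have h2 := CfsgLib.H6HSub.comm_mem_of_index (p := 2) (y := b) (hAo b hb) (by norm_num) hF2 hMF (by
        rw [← Subgroup.normal_subgroupOf_iff_le_normalizer hMF]
        have : (M.map F.subtype).subgroupOf F = M := Subgroup.comap_map_eq_self_of_injective F.subtype_injective M
        rw [this]; exact hMn) (hFN b hb) (hinv _ (hMF.trans hFP) (Or.inl hMc) hb) (by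
        have : (M.map F.subtype).subgroupOf F = M := Subgroup.comap_map_eq_self_of_injective F.subtype_injective M
        rw [Subgroup.relIndex, this, hMi]) k hk
      obtain ⟨z, hz, hzk⟩ := h2
      have : z = ⟨_, hmem⟩ := Subtype.ext hzk
      rw [← this]
      exact hz
  exact ((Subgroup.mem_centralizer_iff.1 (hcen ha)) w (hEF hwE)).symm

end CfsgLib.H3Inv2
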