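import Mathlib
import Cfsg.Prelude.Def_Transfer
import Cfsg.Agent.Lib.Core
import Cfsg.Agent.Lib.Coprime2
import Cfsg.Agent.Lib.CFRed
import Cfsg.Agent.Lib.SylCount
import Cfsg.Agent.Lib.H3CMax
import Cfsg.Agent.Lib.NPC
import Cfsg.Agent.Lib.H6Tr3
import Cfsg.Agent.Lib.Solv3

/-!
# Maximal `p`-power of class sizes reached by a `p`-element
-/

set_option autoImplicit false
set_option maxHeartbeats 1000000

namespace CfsgLib.H3Mcl

open CfsgLib.Core
open scoped Pointwise

universe u

variable {G : Type u} [Group G] [Finite G] {p : ℕ} [hp : Fact p.Prime]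

theorem cover_top (P : Sylow p G) (h : ∀ y : G, (orderOf y).Coprime p → ¬ p ∣ (Subgroup.centralizer ({y} : Set G)).index) :
    (P : Subgroup G) ⊔ Subgroup.centralizer ((P : Subgroup G) : Set G) = ⊤ := by
  by_contra hne
  obtain ⟨z, hz⟩ := exists_notMem_conj _ hne
  obtain ⟨i, j, hzij, ⟨k, hk⟩, hj⟩ := exists_ppart z p
  have hy : (orderOf (z ^ j)).Coprime p := by
    rw [Nat.coprime_comm, Nat.Prime.coprime_iff_not_dvd hp.out]; exact hj
  have hidx := h _ hy
  obtain ⟨g, hg⟩ := CfsgLib.SylCount.exists_conj_le P (Subgroup.centralizer {z ^ j}) hidx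
  have hSyl : CfsgLib.Coprime.IsSyl p ((P : Subgroup G).map (MulAut.conj g).toMonoidHom) (Subgroup.centralizer {z ^ j}) := by
    refine ⟨hg, ?_⟩
    rw [Subgroup.card_map_of_injective (MulAut.conj g).injective, Sylow.card_eq_multiplicity]
    congr 1
    have h1 := (Subgroup.centralizer ({z ^ j} : Set G)).card_mul_index
    rw [← h1, Nat.factorization_mul Nat.card_pos.ne' (Subgroup.index_ne_zero_of_finite), Finsupp.add_apply,
      Nat.factorization_eq_zero_of_not_dvd hidx, add_zero]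
  have hzi : IsPGroup p (Subgroup.zpowers (z ^ i)) := IsPGroup.of_card (n := k) (by rw [Nat.card_zpowers, hk])
  have hcom : z ^ i * z ^ j = z ^ j * z ^ i := by rw [← pow_add, ← pow_add, add_comm]
  obtain ⟨m, hm, hmS⟩ := CfsgLib.CF.exists_conj_le hSyl hzi (by
    rw [Subgroup.zpowers_le, Subgroup.mem_centralizer_iff]
    intro w hw
    rw [Set.mem_singleton_iff.1 hw]
    exact hcom.symm)
  have h1 : m * z ^ i * m⁻¹ ∈ (P : Subgroup G).map (MulAut.conj g).toMonoidHom := by
    apply hmS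
    have := Subgroup.smul_mem_pointwise_smul (z ^ i) (MulAut.conj m) _ (Subgroup.mem_zpowers (z ^ i))
    exact this
  obtain ⟨u, hu, hgu⟩ := h1
  have hgu : g * u * g⁻¹ = m * z ^ i * m⁻¹ := hgu
  have hm' : z ^ j * m = m * z ^ j := (Subgroup.mem_centralizer_iff.1 hm) _ rfl
  have hyC : g⁻¹ * z ^ j * g ∈ Subgroup.centralizer ((P : Subgroup G) : Set G) := by
    rw [Subgroup.mem_centralizer_iff]
    intro v hv
    have h2 : g * v * g⁻¹ ∈ Subgroup.centralizer ({z ^ j} : Set G) := hg ⟨v, hv, rfl⟩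
    have h3 : z ^ j * (g * v * g⁻¹) = (g * v * g⁻¹) * z ^ j := (Subgroup.mem_centralizer_iff.1 h2) _ rfl
    calc v * (g⁻¹ * z ^ j * g) = g⁻¹ * ((g * v * g⁻¹) * z ^ j) * g := by group
      _ = g⁻¹ * z ^ j * g * v := by rw [← h3]; group
  apply hz (m⁻¹ * g)
  refine ⟨u * (g⁻¹ * z ^ j * g), mul_mem (Subgroup.mem_sup_left hu) (Subgroup.mem_sup_right hyC), ?_⟩
  change m⁻¹ * g * (u * (g⁻¹ * z ^ j * g)) * (m⁻¹ * g)⁻¹ = z
  calc m⁻¹ * g * (u * (g⁻¹ * z ^ j * g)) * (m⁻¹ * g)⁻¹ = m⁻¹ * (g * u * g⁻¹) * (z ^ j * m) := by group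
    _ = z ^ i * z ^ j := by rw [hgu, hm']; group
    _ = z := hzij.symm

/-- the structure of a group in which `p'`-elements have classes of `p'`-size -/
theorem split (h : ∀ y : G, (orderOf y).Coprime p → ¬ p ∣ (Subgroup.centralizer ({y} : Set G)).index) :
    ∃ N : Subgroup G, N.Normal ∧ (Nat.card N).Coprime p ∧ (∃ k : ℕ, N.index = p ^ k) ∧
      ∀ (R : Subgroup G), IsPGroup p R → ∀ r ∈ R, ∀ n ∈ N, r * n = n * r := by
  obtain ⟨P⟩ := (inferInstance : Nonempty (Sylow p G))
  have htop := cover_top P h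
  have hPn : (P : Subgroup G).Normal := by
    rw [← Subgroup.normalizer_eq_top_iff, eq_top_iff, ← htop]
    exact sup_le Subgroup.le_normalizer (Subgroup.centralizer_le_normalizer _)
  have hfac : ∀ g : G, ∃ u ∈ (P : Subgroup G), ∃ c ∈ Subgroup.centralizer ((P : Subgroup G) : Set G), u * c = g := by
    intro g
    rw [← Subgroup.mem_sup_of_normal_left, htop]
    exact Subgroup.mem_top g
  have hnpc : Cfsg.HasNormalPComplement p G := by
    rw [CfsgLib.H6Tr.s1946 P]
    intro a ha _ g _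
    obtain ⟨u, hu, c, hc, rfl⟩ := hfac g
    refine ⟨u, hu, ?_⟩
    have h1 : a * c = c * a := (Subgroup.mem_centralizer_iff.1 hc) a ha
    calc u * c * a * (u * c)⁻¹ = u * (c * a) * c⁻¹ * u⁻¹ := by group
      _ = u * a * u⁻¹ := by rw [← h1]; group
  obtain ⟨N, hN, hNc, k, hk⟩ := CfsgLib.NPC.npc_iff.1 hnpc
  refine ⟨N, hN, hNc, ⟨k, hk⟩, ?_⟩
  intro R hR r hr n hn
  have hrP : r ∈ (P : Subgroup G) := by
    obtain ⟨Q, hQ⟩ := hR.exists_le_sylow
    haveI := Sylow.unique_of_normal P hPn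
    rw [show P = Q from Subsingleton.elim _ _]
    exact hQ hr
  have hdisj : (P : Subgroup G) ⊓ N = ⊥ := by
    obtain ⟨l, hl⟩ := IsPGroup.iff_card.1 P.isPGroup'
    apply Subgroup.inf_eq_bot_of_coprime
    rw [hl]
    exact (Nat.Coprime.pow_right l hNc).symm
  have h1 : r * n * r⁻¹ * n⁻¹ ∈ (P : Subgroup G) ⊓ N := by
    constructor
    · have : r * n * r⁻¹ * n⁻¹ = r * (n * r⁻¹ * n⁻¹) := by group
      rw [this]
      exact mul_mem hrP (hPn.conj_mem _ (inv_mem hrP) n)
    · exact N.mul_mem (hN.conj_mem _ hn r) (N.inv_mem hn)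
  rw [hdisj, Subgroup.mem_bot] at h1
  exact mul_inv_eq_iff_eq_mul.1 (mul_inv_eq_one.1 h1)

theorem main (a : ℕ) (hmax : ∀ y : G, ¬ p ^ (a + 1) ∣ (Subgroup.centralizer ({y} : Set G)).index)
    (x : G) (k : ℕ) (hk : orderOf x = p ^ k) (hx : (Subgroup.centralizer ({x} : Set G)).index = p ^ a) :
    Cfsg.HasNormalPComplement p G := by
  obtain ⟨C, hC⟩ : ∃ C, C = Subgroup.centralizer ({x} : Set G) := ⟨_, rfl⟩
  have hCm : ∀ g, g ∈ C ↔ x * g = g * x := by
    intro g
    rw [hC, Subgroup.mem_centralizer_iff]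
    exact ⟨fun h => h x rfl, fun h w hw => by rw [Set.mem_singleton_iff.1 hw]; exact h⟩
  have hCi : C.index = p ^ a := by rw [hC]; exact hx
  obtain ⟨N, hN, hNc, ⟨l, hl⟩, hcen⟩ := split (G := C) (p := p) (by
    intro y hy hdvd
    apply hmax (x * (y : G))
    have hxy : x * (y : G) = y * x := (hCm _).1 y.2
    have hco : (orderOf x).Coprime (orderOf (y : G)) := by
      rw [hk, Subgroup.orderOf_coe]
      exact (Nat.Coprime.pow_left k hy.symm)
    have h1 : Subgroup.centralizer ({x * (y : G)} : Set G) = C ⊓ Subgroup.centralizer ({(y : G)} : Set G) := by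
      apply le_antisymm
      · apply le_inf
        · exact (CfsgLib.H3CMax.centralizer_mul_le hxy hco).trans hC.ge
        · rw [hxy]; exact CfsgLib.H3CMax.centralizer_mul_le hxy.symm hco.symm
      · rintro g ⟨hg1, hg2⟩
        have e1 := (hCm g).1 hg1
        have e2 : (y : G) * g = g * y := (Subgroup.mem_centralizer_iff.1 hg2) _ rfl
        rw [Subgroup.mem_centralizer_iff]
        intro w hw
        rw [Set.mem_singleton_iff.1 hw, mul_assoc, e2, ← mul_assoc, e1, mul_assoc]
    have h2 : (Subgroup.centralizer ({y} : Set C)) = (Subgroup.centralizer ({(y : G)} : Set G)).subgroupOf C := by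
      ext g
      rw [Subgroup.mem_subgroupOf, Subgroup.mem_centralizer_iff, Subgroup.mem_centralizer_iff]
      constructor
      · intro h w hw
        rw [Set.mem_singleton_iff.1 hw]
        exact congrArg Subtype.val (h y rfl)
      · intro h w hw
        rw [Set.mem_singleton_iff.1 hw]
        exact Subtype.ext (h _ rfl)
    have h3 : (Subgroup.centralizer ({x * (y : G)} : Set G)).index = (Subgroup.centralizer ({y} : Set C)).index * p ^ a := by
      rw [h1, h2, ← Subgroup.relIndex_mul_index (inf_le_left : C ⊓ Subgroup.centralizer ({(y : G)} : Set G) ≤ C), hCi,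
        Subgroup.inf_relIndex_left]
      rfl
    rw [h3, pow_succ']
    exact Nat.mul_dvd_mul_right hdvd _)
  obtain ⟨H, hH⟩ : ∃ H, H = N.map C.subtype := ⟨_, rfl⟩
  have hHC : H ≤ C := by rw [hH]; exact Subgroup.map_subtype_le N
  have hcardH : Nat.card H = Nat.card N := by rw [hH, Subgroup.card_map_of_injective C.subtype_injective]
  have hHc : (Nat.card H).Coprime p := by rw [hcardH]; exact hNc
  have hmemH : ∀ h ∈ C, (orderOf h).Coprime p → h ∈ H := by
    intro h hh ho
    have h1 : (⟨h, hh⟩ : C) ^ N.index ∈ N := N.pow_index_mem _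
    rw [hl] at h1
    obtain ⟨m, hm⟩ : ∃ m : ℕ, (h ^ p ^ l) ^ m = h := by
      apply exists_pow_eq_self_of_coprime
      exact Nat.Coprime.pow_left l ho.symm
    have h2 : (⟨h, hh⟩ : C) ∈ N := by
      have h3 : ((⟨h, hh⟩ : C) ^ p ^ l) ^ m = ⟨h, hh⟩ := Subtype.ext hm
      rw [← h3]
      exact pow_mem h1 m
    rw [hH]
    exact ⟨_, h2, rfl⟩
  have hHo : ∀ h ∈ H, (orderOf h).Coprime p := by
    intro h hh
    have h1 : orderOf h ∣ Nat.card H := by
      have := orderOf_dvd_natCard (⟨h, hh⟩ : H)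
      rwa [Subgroup.orderOf_mk] at this
    exact Nat.Coprime.coprime_dvd_left h1 hHc
  -- `x` lies in the `p`-core
  have hxp : IsPGroup p (Subgroup.zpowers x) := IsPGroup.of_card (n := k) (by rw [Nat.card_zpowers, hk])
  haveI hUn : (Cfsg.pCore p G).Normal := pCore_normal p G
  have hxU : x ∈ Cfsg.pCore p G := by
    obtain ⟨S, hS⟩ := hxp.exists_le_sylow
    have hxS : x ∈ (S : Subgroup G) := hS (Subgroup.mem_zpowers x)
    have hco : (S : Subgroup G).index.Coprime C.index := by
      rw [hCi]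
      apply Nat.Coprime.pow_right
      rw [Nat.coprime_comm, Nat.Prime.coprime_iff_not_dvd hp.out]
      exact S.not_dvd_index
    have h1 : Subgroup.normalClosure {x} ≤ (S : Subgroup G) := by
      rw [Subgroup.normalClosure, Subgroup.closure_le]
      intro w hw
      rw [Group.mem_conjugatesOfSet_iff] at hw
      obtain ⟨v, hv, hvw⟩ := hw
      rw [Set.mem_singleton_iff.1 hv] at hvw
      obtain ⟨g, hg⟩ := isConj_iff.1 hvw
      obtain ⟨s, hs, c, hc, hgc⟩ := CfsgLib.Solv3.exists_mul_of_coprime_index hco g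
      have h2 : w = s * x * s⁻¹ := by
        rw [← hg, hgc]
        calc s * c * x * (s * c)⁻¹ = s * (c * x) * c⁻¹ * s⁻¹ := by group
          _ = s * x * s⁻¹ := by rw [← (hCm c).1 hc]; group
      rw [h2]
      exact (S : Subgroup G).mul_mem ((S : Subgroup G).mul_mem hs hxS) ((S : Subgroup G).inv_mem hs)
    have h2 := le_pCore (Subgroup.normalClosure_normal (s := {x})) (S.isPGroup'.to_le h1)
    exact h2 (Subgroup.subset_normalClosure (Set.mem_singleton x))
  have hUN : ∀ K : Subgroup G, K ≤ Subgroup.normalizer ((Cfsg.pCore p G : Subgroup G) : Set G) := by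
    intro K g _
    exact (Subgroup.normalizer_eq_top (Cfsg.pCore p G)) ▸ Subgroup.mem_top g
  have hHU : H ≤ Subgroup.centralizer ((Cfsg.pCore p G : Subgroup G) : Set G) := by
    apply CfsgLib.Coprime.thompson_PxQ (p := p) _ (Subgroup.zpowers x) H (Cfsg.pCore p G) le_rfl hxp hHc (pCore_isPGroup p G)
      _ (hUN _) (hUN _)
    · rintro w ⟨hwU, hwx⟩
      have hwC : w ∈ C := (hCm w).2 ((Subgroup.mem_centralizer_iff.1 hwx) x (Subgroup.mem_zpowers x))
      have hwp : IsPGroup p (Subgroup.zpowers (⟨w, hwC⟩ : C)) := by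
        obtain ⟨m, hm⟩ := (IsPGroup.iff_orderOf.1 (pCore_isPGroup p G)) ⟨w, hwU⟩
        rw [Subgroup.orderOf_mk] at hm
        exact IsPGroup.of_card (n := m) (by rw [Nat.card_zpowers, Subgroup.orderOf_mk, hm])
      rw [Subgroup.mem_centralizer_iff]
      intro h hh
      have hh : h ∈ H := hh
      rw [hH] at hh
      obtain ⟨n, hn, rfl⟩ := hh
      exact (congrArg Subtype.val (hcen _ hwp _ (Subgroup.mem_zpowers _) n hn)).symm
    · rw [Subgroup.zpowers_le, Subgroup.mem_centralizer_iff]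
      intro h hh
      exact ((hCm h).1 (hHC hh)).symm
  have hHn : H.Normal := by
    constructor
    intro h hh g
    apply hmemH
    · rw [hCm]
      have h1 : g⁻¹ * x * g ∈ Cfsg.pCore p G := by
        have := hUn.conj_mem x hxU g⁻¹
        rwa [inv_inv] at this
      have h2 : (g⁻¹ * x * g) * h = h * (g⁻¹ * x * g) := (Subgroup.mem_centralizer_iff.1 (hHU hh)) _ h1
      calc x * (g * h * g⁻¹) = g * ((g⁻¹ * x * g) * h) * g⁻¹ := by group
        _ = g * h * g⁻¹ * x := by rw [h2]; group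
    · have : orderOf (g * h * g⁻¹) = orderOf h := by
        rw [← MulAut.conj_apply]
        exact orderOf_injective (MulAut.conj g).toMonoidHom (MulAut.conj g).injective h
      rw [this]
      exact hHo h hh
  rw [CfsgLib.NPC.npc_iff]
  refine ⟨H, hHn, hHc, l + a, ?_⟩
  rw [← Subgroup.relIndex_mul_index hHC, hCi, pow_add, ← hl]
  congr 1
  rw [Subgroup.relIndex, hH]
  congr 1
  exact Subgroup.comap_map_eq_self_of_injective C.subtype_injective N

end CfsgLib.H3Mcl
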