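import Mathlib
import Cfsg.Prelude.Def_KGroupFacts
import Cfsg.Agent.Lib.Schur2

/-!
Stem extensions: upper bounds from generators, Heisenberg extensions.
-/

namespace CfsgLib.Schur

open Subgroup
open scoped commutatorElement

set_option linter.style.haveILetI false

universe u v w x

section Gen

theorem comm_of_closure {H : Type u} [Group H] (T : Set H) (hT : closure T = ⊤) (h : ∀ a ∈ T, ∀ b ∈ T, a * b = b * a) :
    ∀ a b : H, a * b = b * a := by
  have h1 : T ⊆ centralizer T := fun a ha => mem_centralizer_iff.2 fun b hb => h b hb a ha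
  have h2 : (⊤ : Subgroup H) ≤ centralizer T := by rw [← hT, closure_le]; exact h1
  have h3 : T ⊆ center H := by
    intro a ha
    rw [SetLike.mem_coe, mem_center_iff]
    intro b
    exact (mem_centralizer_iff.1 (h2 (mem_top b)) a ha).symm
  have h4 : (⊤ : Subgroup H) ≤ center H := by rw [← hT, closure_le]; exact h3
  intro a b
  exact mem_center_iff.1 (h4 (mem_top b)) a

theorem commutator_le_of_gen {Γ : Type u} [Group Γ] (C : Subgroup Γ) [C.Normal] (T : Set Γ) (hT : closure T = ⊤)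
    (h : ∀ a ∈ T, ∀ b ∈ T, ⁅a, b⁆ ∈ C) : commutator Γ ≤ C := by
  have h1 : ∀ a b : Γ ⧸ C, a * b = b * a := by
    apply comm_of_closure (QuotientGroup.mk' C '' T)
    · rw [← MonoidHom.map_closure, hT, ← MonoidHom.range_eq_map, MonoidHom.range_eq_top.2 (QuotientGroup.mk'_surjective C)]
    · rintro _ ⟨a, ha, rfl⟩ _ ⟨b, hb, rfl⟩
      rw [← commutatorElement_eq_one_iff_mul_comm, ← map_commutatorElement, ← MonoidHom.mem_ker, QuotientGroup.ker_mk']
      exact h a ha b hb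
  rw [_root_.commutator_def, commutator_le]
  intro a _ b _
  rw [← QuotientGroup.ker_mk' C, MonoidHom.mem_ker, map_commutatorElement, commutatorElement_eq_one_iff_mul_comm]
  exact h1 _ _

theorem closure_union_center {Γ : Type u} {Q : Type v} [Group Γ] [Group Q] (σ : Γ →* Q) (hker : σ.ker ≤ center Γ) (T : Set Γ)
    (hT : closure (σ '' T) = ⊤) : closure (T ∪ center Γ) = ⊤ := by
  rw [eq_top_iff]
  intro g _
  have h1 : σ g ∈ (closure T).map σ := by rw [MonoidHom.map_closure, hT]; trivial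
  obtain ⟨t, ht, htg⟩ := h1
  have h2 : t⁻¹ * g ∈ center Γ := hker (by rw [MonoidHom.mem_ker, map_mul, map_inv, htg, inv_mul_cancel])
  have h3 := (closure (T ∪ center Γ)).mul_mem (closure_mono Set.subset_union_left ht) (subset_closure (Or.inr h2))
  rwa [mul_inv_cancel_left] at h3

theorem normal_zpowers_of_gen {Γ : Type u} [Group Γ] [Finite Γ] (c : Γ) (T : Set Γ) (hT : closure T = ⊤)
    (h : ∀ a ∈ T, a * c * a⁻¹ ∈ zpowers c) : (zpowers c).Normal := by
  rw [← normalizer_eq_top_iff, eq_top_iff, ← hT, closure_le]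
  intro a ha
  apply mem_normalizer_fintype
  rintro _ ⟨k, rfl⟩
  show a * c ^ k * a⁻¹ ∈ zpowers c
  rw [← conj_zpow]
  exact Subgroup.zpow_mem _ (h a ha) k

/-- the commutator subgroup of a group of dihedral type -/
theorem dih_commutator {Γ : Type u} [Group Γ] [Finite Γ] (a b z : Γ) (hz : z ∈ center Γ) (hab : b * a * b⁻¹ = a⁻¹ * z)
    (hgen : closure (({a, b} : Set Γ) ∪ center Γ) = ⊤) : ⁅a, b⁆ = a ^ 2 * z⁻¹ ∧ b * ⁅a, b⁆ * b⁻¹ = ⁅a, b⁆⁻¹ ∧
      commutator Γ = zpowers ⁅a, b⁆ := by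
  have hzc : ∀ g, g * z = z * g := mem_center_iff.1 hz
  have hzc' : ∀ g, g * z⁻¹ = z⁻¹ * g := mem_center_iff.1 ((center Γ).inv_mem hz)
  have h1 : ⁅a, b⁆ = a ^ 2 * z⁻¹ := by
    rw [commutatorElement_def]
    have : a * b * a⁻¹ * b⁻¹ = a * (b * a * b⁻¹)⁻¹ := by group
    rw [this, hab, mul_inv_rev, inv_inv, ← hzc' a, ← mul_assoc, pow_two]
  have h2 : b * ⁅a, b⁆ * b⁻¹ = ⁅a, b⁆⁻¹ := by
    rw [h1]
    have e1 : b * (a ^ 2 * z⁻¹) * b⁻¹ = (b * a * b⁻¹) * (b * a * b⁻¹) * (b * z⁻¹ * b⁻¹) := by rw [pow_two]; group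
    have e2 : b * z⁻¹ * b⁻¹ = z⁻¹ := by rw [hzc' b, mul_inv_cancel_right]
    rw [e1, e2, hab, mul_inv_rev, inv_inv]
    have e3 : a⁻¹ * z * (a⁻¹ * z) * z⁻¹ = a⁻¹ * (z * a⁻¹) := by group
    rw [e3, ← hzc a⁻¹, ← mul_assoc, hzc, pow_two, mul_inv_rev]
  refine ⟨h1, h2, ?_⟩
  have hn : (zpowers ⁅a, b⁆).Normal := by
    apply normal_zpowers_of_gen _ _ hgen
    rintro g ((rfl | hg) | hg)
    · have : g * ⁅g, b⁆ * g⁻¹ = ⁅g, b⁆ := by
        rw [h1]
        have : g * (g ^ 2 * z⁻¹) * g⁻¹ = g ^ 2 * (g * z⁻¹) * g⁻¹ := by rw [pow_two]; group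
        rw [this, hzc' g]; group
      rw [this]; exact mem_zpowers _
    · rw [Set.mem_singleton_iff.1 hg, h2]; exact inv_mem (mem_zpowers _)
    · have : g * ⁅a, b⁆ * g⁻¹ = ⁅a, b⁆ := by
        rw [← mem_center_iff.1 hg, mul_inv_cancel_right]
      rw [this]; exact mem_zpowers _
  apply le_antisymm
  · apply commutator_le_of_gen _ _ hgen
    have hc1 : ⁅a, b⁆ ∈ zpowers ⁅a, b⁆ := mem_zpowers _
    have hc2 : ⁅b, a⁆ ∈ zpowers ⁅a, b⁆ := by rw [← commutatorElement_inv a b]; exact inv_mem hc1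
    rintro g ((rfl | hg) | hg) g' ((rfl | hg') | hg')
    · rw [commutatorElement_self]; exact Subgroup.one_mem _
    · rw [Set.mem_singleton_iff.1 hg']; exact hc1
    · rw [comm_eq_one_of_center' hg']; exact Subgroup.one_mem _
    · rw [Set.mem_singleton_iff.1 hg]; exact hc2
    · rw [Set.mem_singleton_iff.1 hg, Set.mem_singleton_iff.1 hg', commutatorElement_self]; exact Subgroup.one_mem _
    · rw [comm_eq_one_of_center' hg']; exact Subgroup.one_mem _
    · rw [comm_eq_one_of_center hg]; exact Subgroup.one_mem _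
    · rw [comm_eq_one_of_center hg]; exact Subgroup.one_mem _
    · rw [comm_eq_one_of_center hg]; exact Subgroup.one_mem _
  · rw [zpowers_le]
    exact commutator_mem_commutator (mem_top a) (mem_top b)

/-- `c ^ n = 1` when `a ^ n` commutes with `b` -/
theorem dih_pow {Γ : Type u} [Group Γ] (a b z : Γ) (hz : z ∈ center Γ) (hab : b * a * b⁻¹ = a⁻¹ * z) (n : ℕ)
    (hn : b * a ^ n * b⁻¹ = a ^ n) : (a ^ 2 * z⁻¹) ^ n = 1 := by
  have hzc : ∀ g, g * z = z * g := mem_center_iff.1 hz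
  have h1 : Commute (a ^ 2) z⁻¹ := mem_center_iff.1 ((center Γ).inv_mem hz) _
  have h2 : Commute a⁻¹ z := hzc _
  rw [h1.mul_pow, ← pow_mul]
  rw [← conj_pow, hab, h2.mul_pow] at hn
  have h3 : z ^ n = a ^ n * a ^ n := by
    have := congrArg (fun t => a ^ n * t) hn
    simp only [← mul_assoc, ← mul_pow] at this
    rw [inv_pow] at this
    simpa using this
  rw [inv_pow, h3, two_mul, pow_add, mul_inv_cancel]

theorem exists_hom_of_gen {B : Type u} [Group B] (c : B) (n : ℕ) (hc : c ^ n = 1) (hgen : ∀ b : B, ∃ k : ℤ, c ^ k = b) :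
    ∃ π : Multiplicative (ZMod n) →* B, Function.Surjective π := by
  let f : ℤ →+ Additive B := zmultiplesHom (Additive B) (Additive.ofMul c)
  have hf : f n = 0 := by
    show (n : ℤ) • Additive.ofMul c = 0
    rw [natCast_zsmul, ← ofMul_pow, hc]; rfl
  let g : ZMod n →+ Additive B := ZMod.lift n ⟨f, hf⟩
  refine ⟨AddMonoidHom.toMultiplicativeLeft g, fun b => ?_⟩
  obtain ⟨k, rfl⟩ := hgen b
  refine ⟨Multiplicative.ofAdd (k : ZMod n), ?_⟩
  show Additive.toMul (g (k : ZMod n)) = c ^ k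
  have : g (k : ZMod n) = f k := ZMod.lift_coe n ⟨f, hf⟩ k
  rw [this]; rfl

end Gen

section Heis

/-- carrier of the Heisenberg-type extension -/
structure Heis (Q : Type u) (Z : Type v) where
  a : Q
  z : Z

theorem Heis.ext' {Q : Type u} {Z : Type v} {x y : Heis Q Z} (h1 : x.a = y.a) (h2 : x.z = y.z) : x = y := by
  cases x; cases y; simp_all

/-- the group attached to a bimultiplicative map -/
@[reducible] def heisGroup {Q : Type u} {Z : Type v} [CommGroup Q] [CommGroup Z] (β : Q → Q → Z)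
    (h1 : ∀ a b c, β (a * b) c = β a c * β b c) (h2 : ∀ a b c, β a (b * c) = β a b * β a c) : Group (Heis Q Z) :=
  letI : Mul (Heis Q Z) := ⟨fun x y => ⟨x.a * y.a, x.z * y.z * β x.a y.a⟩⟩
  letI : One (Heis Q Z) := ⟨⟨1, 1⟩⟩
  letI : Inv (Heis Q Z) := ⟨fun x => ⟨x.a⁻¹, x.z⁻¹ * β x.a x.a⟩⟩
  have hb1 : ∀ b, β 1 b = 1 := fun b => by
    have := h1 1 1 b
    rw [mul_one] at this
    exact (mul_eq_left.1 this.symm)
  have hbi : ∀ a b, β a⁻¹ b * β a b = 1 := fun a b => by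
    rw [← h1, inv_mul_cancel, hb1]
  Group.ofLeftAxioms
    (fun x y t => Heis.ext' (mul_assoc x.a y.a t.a) (by
      show x.z * y.z * β x.a y.a * t.z * β (x.a * y.a) t.a = x.z * (y.z * t.z * β y.a t.a) * β x.a (y.a * t.a)
      rw [h1, h2]
      ac_rfl))
    (fun x => Heis.ext' (one_mul x.a) (by
      show 1 * x.z * β 1 x.a = x.z
      rw [hb1, one_mul, mul_one]))
    (fun x => Heis.ext' (inv_mul_cancel x.a) (by
      show x.z⁻¹ * β x.a x.a * x.z * β x.a⁻¹ x.a = 1
      have h3 := hbi x.a x.a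
      have h4 : x.z⁻¹ * β x.a x.a * x.z * β x.a⁻¹ x.a = x.z⁻¹ * x.z * (β x.a⁻¹ x.a * β x.a x.a) := by ac_rfl
      rw [h4, h3, inv_mul_cancel, one_mul]))

/-- Heisenberg-type central extensions -/
theorem exists_heis {Q : Type u} {Z : Type v} [CommGroup Q] [CommGroup Z] [Finite Q] [Finite Z] (β : Q → Q → Z)
    (h1 : ∀ a b c, β (a * b) c = β a c * β b c) (h2 : ∀ a b c, β a (b * c) = β a b * β a c) :
    ∃ (Γ : Type (max u v)) (_ : Group Γ) (_ : Finite Γ) (σ : Γ →* Q) (ι : Z →* Γ), Function.Surjective σ ∧ Function.Injective ι ∧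
      σ.ker = ι.range ∧ σ.ker ≤ center Γ ∧ ∀ a b, ∃ x y : Γ, σ x = a ∧ σ y = b ∧ ⁅x, y⁆ = ι (β a b * (β b a)⁻¹) := by
  letI := heisGroup β h1 h2
  haveI : Finite (Heis Q Z) := Finite.of_injective (fun x : Heis Q Z => (x.a, x.z)) (fun x y h => by
    exact Heis.ext' (congrArg Prod.fst h) (congrArg Prod.snd h))
  have hb1 : ∀ b, β 1 b = 1 := fun b => by
    have := h1 1 1 b
    rw [mul_one] at this
    exact (mul_eq_left.1 this.symm)
  have hb1' : ∀ b, β b 1 = 1 := fun b => by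
    have := h2 b 1 1
    rw [mul_one] at this
    exact (mul_eq_left.1 this.symm)
  have hmula : ∀ x y : Heis Q Z, (x * y).a = x.a * y.a := fun x y => rfl
  have hmulz : ∀ x y : Heis Q Z, (x * y).z = x.z * y.z * β x.a y.a := fun x y => rfl
  let σ : Heis Q Z →* Q := { toFun := fun x => x.a, map_one' := rfl, map_mul' := fun x y => rfl }
  let ι : Z →* Heis Q Z :=
    { toFun := fun z => ⟨1, z⟩
      map_one' := rfl
      map_mul' := fun z t => Heis.ext' (by rw [hmula]; exact (mul_one 1).symm) (by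
        rw [hmulz]; show z * t = z * t * β 1 1; rw [hb1, mul_one]) }
  have hker : σ.ker = ι.range := by
    ext x
    constructor
    · intro hx
      exact ⟨x.z, Heis.ext' (show (1 : Q) = x.a from (show x.a = 1 from hx).symm) rfl⟩
    · rintro ⟨z, rfl⟩; rfl
  refine ⟨Heis Q Z, inferInstance, inferInstance, σ, ι, fun a => ⟨⟨a, 1⟩, rfl⟩, fun z t h => congrArg Heis.z h, hker, ?_, ?_⟩
  · rw [hker]
    rintro _ ⟨z, rfl⟩
    rw [mem_center_iff]
    intro y
    refine Heis.ext' ?_ ?_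
    · rw [hmula, hmula]; exact mul_comm _ _
    · rw [hmulz, hmulz]
      show y.z * z * β y.a 1 = z * y.z * β 1 y.a
      rw [hb1, hb1', mul_comm y.z]
  · intro a b
    refine ⟨⟨a, 1⟩, ⟨b, 1⟩, rfl, rfl, ?_⟩
    rw [commutatorElement_def, mul_inv_eq_iff_eq_mul, mul_inv_eq_iff_eq_mul]
    refine Heis.ext' ?_ ?_
    · rw [hmula, hmula, hmula]
      show a * b = 1 * b * a
      rw [one_mul, mul_comm]
    · rw [hmulz, hmulz, hmulz]
      show 1 * 1 * β a b = (β a b * (β b a)⁻¹) * 1 * β 1 b * 1 * β (1 * b) a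
      rw [hb1, one_mul b]
      simp

end Heis

end CfsgLib.Schur
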