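import Mathlib
import Cfsg.Prelude.Def_OddOrderLocal
import Cfsg.Agent.Lib.PGrp
import Cfsg.Agent.Lib.Schur3
import Cfsg.Agent.Lib.Core2

/-! Metacyclic p-groups, p odd. -/

set_option linter.style.haveILetI false
set_option linter.unusedSectionVars false

namespace CfsgLib.Metacyc

open Subgroup Finset
open scoped commutatorElement

/-- Geometric sum. -/
def gs (r m : ℕ) : ℕ := ∑ i ∈ range m, r ^ i

theorem gs_zero (r : ℕ) : gs r 0 = 0 := by simp [gs]
theorem gs_one (r : ℕ) : gs r 1 = 1 := by simp [gs]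

theorem gs_succ (r m : ℕ) : gs r (m + 1) = r * gs r m + 1 := by
  unfold gs
  rw [Finset.sum_range_succ', pow_zero, Finset.mul_sum]
  congr 1
  exact Finset.sum_congr rfl (fun i _ => by rw [pow_succ, mul_comm])

theorem gs_succ' (r m : ℕ) : gs r (m + 1) = gs r m + r ^ m := by
  unfold gs
  rw [Finset.sum_range_succ]

variable {p : ℕ} [hp : Fact p.Prime]

theorem dvd_gs_iff (hp2 : p ≠ 2) {r : ℕ} (hr : r ≡ 1 [MOD p]) (k m : ℕ) : p ^ k ∣ gs r m ↔ p ^ k ∣ m := by
  rcases Nat.lt_or_ge r 2 with h | h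
  · have : r = 1 := by
      interval_cases r
      · exfalso
        have := (Nat.modEq_zero_iff_dvd.1 hr.symm)
        exact hp.out.one_lt.ne' (Nat.dvd_one.1 this)
      · rfl
    subst this
    simp [gs]
  · rcases Nat.eq_zero_or_pos m with rfl | hm
    · simp [gs]
    have hgp : 0 < gs r m := by
      obtain ⟨m', rfl⟩ := Nat.exists_eq_succ_of_ne_zero hm.ne'
      rw [Nat.succ_eq_add_one, gs_succ]; omega
    have h1 : (r - 1) * gs r m = r ^ m - 1 := by
      have := Nat.geomSum_eq h m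
      rw [gs, this, Nat.mul_div_cancel']
      exact Nat.sub_one_dvd_pow_sub_one r m
    have hd : p ∣ r - 1 := (Nat.modEq_iff_dvd' (by omega)).1 hr.symm
    have hnd : ¬ p ∣ r := by
      intro hpr
      have : p ∣ 1 := by
        have h3 := Nat.dvd_sub hpr hd
        rwa [show r - (r - 1) = 1 by omega] at h3
      exact hp.out.one_lt.ne' (Nat.dvd_one.1 this)
    have h2 := Nat.emultiplicity_pow_sub_pow hp.out (hp.out.odd_of_ne_two hp2) (x := r) (y := 1) (by simpa using hd) hnd m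
    rw [one_pow, ← h1, Nat.Prime.emultiplicity_mul hp.out] at h2
    have hfin : emultiplicity p (r - 1) ≠ ⊤ := by
      rw [← finiteMultiplicity_iff_emultiplicity_ne_top]
      exact Nat.finiteMultiplicity_iff.2 ⟨hp.out.one_lt.ne', by omega⟩
    have h3 : emultiplicity p (gs r m) = emultiplicity p m := by
      exact WithTop.add_left_cancel hfin h2
    rw [pow_dvd_iff_le_emultiplicity, pow_dvd_iff_le_emultiplicity, h3]

theorem gcd_gs (hp2 : p ≠ 2) {r : ℕ} (hr : r ≡ 1 [MOD p]) (k m : ℕ) : Nat.gcd (p ^ k) (gs r m) = Nat.gcd (p ^ k) m := by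
  apply Nat.dvd_antisymm
  · obtain ⟨j, -, hj⟩ := (Nat.dvd_prime_pow hp.out).1 (Nat.gcd_dvd_left (p ^ k) (gs r m))
    have h1 := Nat.gcd_dvd_right (p ^ k) (gs r m)
    apply Nat.dvd_gcd (Nat.gcd_dvd_left _ _)
    rw [hj] at h1 ⊢
    exact (dvd_gs_iff hp2 hr j m).1 h1
  · obtain ⟨j, -, hj⟩ := (Nat.dvd_prime_pow hp.out).1 (Nat.gcd_dvd_left (p ^ k) m)
    have h1 := Nat.gcd_dvd_right (p ^ k) m
    apply Nat.dvd_gcd (Nat.gcd_dvd_left _ _)
    rw [hj] at h1 ⊢
    exact (dvd_gs_iff hp2 hr j m).2 h1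

variable {G : Type*} [Group G]

/-- Presentation data of a metacyclic p-group. -/
structure D (p : ℕ) (a b : G) (r : ℕ) : Prop where
  conj : b * a * b⁻¹ = a ^ r
  r1 : r ≡ 1 [MOD p]
  gen : ∀ g : G, ∃ i j : ℕ, g = a ^ i * b ^ j

theorem exists_pow_of_mem_zpowers [Finite G] {x y : G} (h : y ∈ zpowers x) : ∃ k : ℕ, y = x ^ k := by
  rw [← mem_powers_iff_mem_zpowers, Submonoid.mem_powers_iff] at h
  obtain ⟨k, hk⟩ := h
  exact ⟨k, hk.symm⟩

theorem exists_data [Finite G] (hG : IsPGroup p G) (hm : Cfsg.IsMetacyclic G) : ∃ (a b : G) (r : ℕ), D p a b r := by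
  obtain ⟨N, hN, hcN, hcQ⟩ := hm
  haveI := hN
  obtain ⟨a, ha⟩ := hcN.exists_generator
  obtain ⟨q, hq⟩ := hcQ.exists_generator
  obtain ⟨b, rfl⟩ := QuotientGroup.mk'_surjective N q
  have hmemN : ∀ x : G, x ∈ N → ∃ k : ℕ, x = (a : G) ^ k := by
    intro x hx
    obtain ⟨k, hk⟩ := exists_pow_of_mem_zpowers (ha ⟨x, hx⟩)
    exact ⟨k, by rw [← Subgroup.coe_pow, ← hk]⟩
  have hgen : ∀ g : G, ∃ i j : ℕ, g = (a : G) ^ i * b ^ j := by
    intro g
    obtain ⟨j, hj⟩ := exists_pow_of_mem_zpowers (hq (QuotientGroup.mk' N g))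
    have h1 : g * (b ^ j)⁻¹ ∈ N := by
      rw [← QuotientGroup.ker_mk' N, MonoidHom.mem_ker, map_mul, map_inv, map_pow, hj, mul_inv_cancel]
    obtain ⟨i, hi⟩ := hmemN _ h1
    exact ⟨i, j, by rw [← hi, inv_mul_cancel_right]⟩
  by_cases ha1 : (a : G) = 1
  · refine ⟨a, b, 1, ?_, rfl, hgen⟩
    rw [ha1]; simp
  · obtain ⟨r, hr⟩ := hmemN _ (hN.conj_mem a a.2 b)
    refine ⟨a, b, r, hr, ?_, hgen⟩
    obtain ⟨m, hm⟩ := hG b
    have h1 : ∀ j : ℕ, b ^ j * (a : G) * (b ^ j)⁻¹ = (a : G) ^ (r ^ j) := by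
      intro j
      induction j with
      | zero => simp
      | succ j ih =>
        have : b ^ (j + 1) * (a : G) * (b ^ (j + 1))⁻¹ = b * (b ^ j * (a : G) * (b ^ j)⁻¹) * b⁻¹ := by
          rw [pow_succ']; group
        rw [this, ih, ← conj_pow, hr, ← pow_mul, pow_succ, mul_comm]
    have h2 := h1 (p ^ m)
    rw [hm, one_mul, inv_one, mul_one] at h2
    obtain ⟨k, hk⟩ := (IsPGroup.iff_orderOf.1 hG) (a : G)
    have hk0 : k ≠ 0 := by
      rintro rfl
      rw [pow_zero, orderOf_eq_one_iff] at hk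
      exact ha1 hk
    have h3 : 1 ≡ r ^ p ^ m [MOD p] := by
      have h4 : (a : G) ^ 1 = (a : G) ^ (r ^ p ^ m) := by rw [pow_one]; exact h2
      rw [pow_eq_pow_iff_modEq, hk] at h4
      exact h4.of_dvd (dvd_pow_self p hk0)
    have h5 : (r : ZMod p) ^ p ^ m = r := by
      exact ZMod.pow_card_pow (r : ZMod p)
    have h6 : ((1 : ℕ) : ZMod p) = ((r ^ p ^ m : ℕ) : ZMod p) := (ZMod.natCast_eq_natCast_iff _ _ _).2 h3
    rw [Nat.cast_pow, h5] at h6
    exact ((ZMod.natCast_eq_natCast_iff _ _ _).1 h6).symm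

namespace D

variable {a b : G} {r : ℕ}

omit hp in
theorem pow_r1 (h : D p a b r) (j : ℕ) : r ^ j ≡ 1 [MOD p] := by
  have := h.r1.pow j
  rwa [one_pow] at this

omit hp in
theorem conj_pow' (h : D p a b r) (j i : ℕ) : b ^ j * a ^ i * (b ^ j)⁻¹ = a ^ (i * r ^ j) := by
  induction j with
  | zero => simp
  | succ j ih =>
    have : b ^ (j + 1) * a ^ i * (b ^ (j + 1))⁻¹ = b * (b ^ j * a ^ i * (b ^ j)⁻¹) * b⁻¹ := by
      rw [pow_succ']; group
    rw [this, ih, ← conj_pow, h.conj, ← pow_mul, pow_succ]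
    congr 1; ring

omit hp in
theorem swap (h : D p a b r) (j i : ℕ) : b ^ j * a ^ i = a ^ (i * r ^ j) * b ^ j := by
  rw [← h.conj_pow', inv_mul_cancel_right]

omit hp in
theorem mul_rule (h : D p a b r) (i j k l : ℕ) : a ^ i * b ^ j * (a ^ k * b ^ l) = a ^ (i + k * r ^ j) * b ^ (j + l) := by
  rw [pow_add, pow_add b, mul_assoc, ← mul_assoc (b ^ j), h.swap, mul_assoc, mul_assoc]

omit hp in
theorem pow_rule (h : D p a b r) (i j m : ℕ) : (a ^ i * b ^ j) ^ m = a ^ (i * gs (r ^ j) m) * b ^ (j * m) := by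
  induction m with
  | zero => simp [gs_zero]
  | succ m ih =>
    rw [pow_succ', ih, h.mul_rule, gs_succ]
    congr 2 <;> ring

omit hp in
theorem conj_a (h : D p a b r) (i j k : ℕ) : (a ^ i * b ^ j) * a ^ k * (a ^ i * b ^ j)⁻¹ = (a ^ k) ^ (r ^ j) := by
  have h1 : (a ^ i * b ^ j) * a ^ k * (a ^ i * b ^ j)⁻¹ = a ^ i * (b ^ j * a ^ k * (b ^ j)⁻¹) * (a ^ i)⁻¹ := by group
  rw [h1, h.conj_pow', ← pow_mul, ← pow_add, add_comm, pow_add, mul_inv_cancel_right]

variable [Finite G]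

omit hp in
theorem normal_zpowers_of_mem (h : D p a b r) {c : G} (hc : c ∈ zpowers a) : (zpowers c).Normal := by
  obtain ⟨k, rfl⟩ := exists_pow_of_mem_zpowers hc
  refine ⟨fun x hx g => ?_⟩
  obtain ⟨m, rfl⟩ := exists_pow_of_mem_zpowers hx
  obtain ⟨i, j, rfl⟩ := h.gen g
  rw [← pow_mul, h.conj_a, pow_mul]
  exact pow_mem (pow_mem (mem_zpowers _) _) _

/-- every element acts on `⟨a⟩` as a power congruent to one -/
theorem conj_mem (h : D p a b r) (g : G) : ∃ s : ℕ, s ≡ 1 [MOD p] ∧ ∀ c ∈ zpowers a, g * c * g⁻¹ = c ^ s := by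
  obtain ⟨i, j, rfl⟩ := h.gen g
  refine ⟨r ^ j, h.pow_r1 j, ?_⟩
  intro c hc
  obtain ⟨k, rfl⟩ := exists_pow_of_mem_zpowers hc
  exact h.conj_a i j k

omit hp in
theorem closure_eq_top (h : D p a b r) : Subgroup.closure ({a, b} : Set G) = ⊤ := by
  rw [eq_top_iff]
  intro g _
  obtain ⟨i, j, rfl⟩ := h.gen g
  exact mul_mem (pow_mem (Subgroup.subset_closure (show a ∈ ({a, b} : Set G) by simp)) _)
    (pow_mem (Subgroup.subset_closure (show b ∈ ({a, b} : Set G) by simp)) _)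

omit hp in
theorem comm_mem_a (h : D p a b r) : ⁅b, a⁆ ∈ zpowers a := by
  rw [commutatorElement_def, h.conj]
  exact mul_mem (pow_mem (mem_zpowers _) _) (inv_mem (mem_zpowers _))

omit hp in
theorem commutator_eq (h : D p a b r) : _root_.commutator G = zpowers ⁅b, a⁆ := by
  haveI := h.normal_zpowers_of_mem h.comm_mem_a
  apply le_antisymm
  · apply CfsgLib.Schur.commutator_le_of_gen _ _ h.closure_eq_top
    intro x hx y hy
    have hx' : x = a ∨ x = b := hx
    have hy' : y = a ∨ y = b := hy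
    rcases hx' with hx' | hx' <;> rcases hy' with hy' | hy' <;> rw [hx', hy']
    · rw [commutatorElement_self]; exact one_mem _
    · rw [← commutatorElement_inv b a]; exact inv_mem (mem_zpowers ⁅b, a⁆)
    · exact mem_zpowers ⁅b, a⁆
    · rw [commutatorElement_self]; exact one_mem _
  · rw [zpowers_le]
    exact Subgroup.commutator_mem_commutator (Subgroup.mem_top b) (Subgroup.mem_top a)

omit hp in
theorem comm_mem (h : D p a b r) (x y : G) : ⁅x, y⁆ ∈ zpowers ⁅b, a⁆ := by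
  rw [← h.commutator_eq]
  exact Subgroup.commutator_mem_commutator (Subgroup.mem_top x) (Subgroup.mem_top y)

omit hp in
theorem comm_mem' (h : D p a b r) (x y : G) : ⁅x, y⁆ ∈ zpowers a :=
  (zpowers_le.2 h.comm_mem_a) (h.comm_mem x y)

theorem comm_pow (h : D p a b r) (x y : G) : ∃ s : ℕ, s ≡ 1 [MOD p] ∧ ∀ m : ℕ, ⁅x ^ m, y⁆ = ⁅x, y⁆ ^ gs s m := by
  obtain ⟨s, hs1, hs⟩ := h.conj_mem x
  refine ⟨s, hs1, fun m => ?_⟩
  induction m with
  | zero => simp [gs_zero]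
  | succ m ih =>
    have h1 : ⁅x ^ (m + 1), y⁆ = (x * ⁅x ^ m, y⁆ * x⁻¹) * ⁅x, y⁆ := by
      rw [pow_succ', commutatorElement_def, commutatorElement_def, commutatorElement_def]; group
    rw [h1, ih, ← conj_pow, hs _ (h.comm_mem' x y), ← pow_mul, ← pow_succ, gs_succ]

theorem orderOf_pow_gs (hp2 : p ≠ 2) (hG : IsPGroup p G) (z : G) {s : ℕ} (hs : s ≡ 1 [MOD p]) (m : ℕ) :
    orderOf (z ^ gs s m) = orderOf (z ^ m) := by
  obtain ⟨k, hk⟩ := (IsPGroup.iff_orderOf.1 hG) z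
  rw [orderOf_pow, orderOf_pow, hk, gcd_gs hp2 hs]

theorem orderOf_comm_pow (h : D p a b r) (hp2 : p ≠ 2) (hG : IsPGroup p G) (x y : G) (m : ℕ) :
    orderOf ⁅x ^ m, y⁆ = orderOf (⁅x, y⁆ ^ m) := by
  obtain ⟨s, hs, h1⟩ := h.comm_pow x y
  rw [h1, orderOf_pow_gs hp2 hG _ hs]

theorem comm_a (h : D p a b r) (i j : ℕ) : ⁅a ^ i * b ^ j, a⁆ = ⁅b ^ j, a⁆ := by
  have h1 : ⁅a ^ i * b ^ j, a⁆ = a ^ i * ⁅b ^ j, a⁆ * (a ^ i)⁻¹ := by
    rw [commutatorElement_def, commutatorElement_def]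
    have : a ^ i * a = a * a ^ i := (Commute.pow_self a i)
    calc a ^ i * b ^ j * a * (a ^ i * b ^ j)⁻¹ * a⁻¹ = a ^ i * b ^ j * a * (b ^ j)⁻¹ * (a ^ i)⁻¹ * a⁻¹ := by group
      _ = a ^ i * b ^ j * a * (b ^ j)⁻¹ * (a * a ^ i)⁻¹ := by group
      _ = a ^ i * b ^ j * a * (b ^ j)⁻¹ * (a ^ i * a)⁻¹ := by rw [this]
      _ = a ^ i * (b ^ j * a * (b ^ j)⁻¹ * a⁻¹) * (a ^ i)⁻¹ := by group
  obtain ⟨k, hk⟩ := exists_pow_of_mem_zpowers (h.comm_mem' (b ^ j) a)
  rw [h1, hk, ← pow_add, add_comm, pow_add, mul_inv_cancel_right]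

omit hp in
theorem comm_b (i j : ℕ) : ⁅a ^ i * b ^ j, b⁆ = ⁅a ^ i, b⁆ := by
  rw [commutatorElement_def, commutatorElement_def]
  have : b ^ j * b = b * b ^ j := (Commute.pow_self b j)
  calc a ^ i * b ^ j * b * (a ^ i * b ^ j)⁻¹ * b⁻¹ = a ^ i * (b ^ j * b) * (b ^ j)⁻¹ * (a ^ i)⁻¹ * b⁻¹ := by group
    _ = a ^ i * (b * b ^ j) * (b ^ j)⁻¹ * (a ^ i)⁻¹ * b⁻¹ := by rw [this]
    _ = a ^ i * b * (a ^ i)⁻¹ * b⁻¹ := by group

theorem orderOf_comm_a (h : D p a b r) (hp2 : p ≠ 2) (hG : IsPGroup p G) (i j : ℕ) :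
    orderOf ⁅a ^ i * b ^ j, a⁆ = orderOf (⁅b, a⁆ ^ j) := by
  rw [h.comm_a, h.orderOf_comm_pow hp2 hG]

theorem orderOf_comm_b (h : D p a b r) (hp2 : p ≠ 2) (hG : IsPGroup p G) (i j : ℕ) :
    orderOf ⁅a ^ i * b ^ j, b⁆ = orderOf (⁅b, a⁆ ^ i) := by
  rw [comm_b, h.orderOf_comm_pow hp2 hG, ← commutatorElement_inv, inv_pow, orderOf_inv]

theorem zpowers_pow_gs (hp2 : p ≠ 2) (hG : IsPGroup p G) (z : G) {s : ℕ} (hs : s ≡ 1 [MOD p]) (k : ℕ) :
    zpowers (z ^ gs s (p ^ k)) = zpowers (z ^ p ^ k) := by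
  have h1 : p ^ k ∣ gs s (p ^ k) := (dvd_gs_iff hp2 hs k (p ^ k)).2 dvd_rfl
  have h2 : zpowers (z ^ gs s (p ^ k)) ≤ zpowers (z ^ p ^ k) := by
    obtain ⟨u, hu⟩ := h1
    rw [hu, pow_mul, zpowers_le]
    exact pow_mem (mem_zpowers _) _
  exact Subgroup.eq_of_le_of_card_ge h2 (by rw [Nat.card_zpowers, Nat.card_zpowers, orderOf_pow_gs hp2 hG z hs])

end D

/-- the subgroup generated by the `p^s`-th powers -/
def V (p s : ℕ) (G : Type*) [Group G] : Subgroup G := Subgroup.closure {x : G | ∃ y : G, y ^ p ^ s = x}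

theorem relIndex_zpowers {G : Type*} [Group G] [Finite G] (H : Subgroup G) (w : G) (o : ℕ) (h : ∀ m : ℕ, w ^ m ∈ H ↔ o ∣ m) :
    H.relIndex (zpowers w) = o := by
  have hN : (H.subgroupOf (zpowers w)).Normal := by
    refine ⟨fun x hx g => ?_⟩
    have : g * x * g⁻¹ = x := by
      rw [(inferInstance : IsMulCommutative (zpowers w)).is_comm.comm g x, mul_inv_cancel_right]
    rw [this]; exact hx
  set W := zpowers w
  set N := H.subgroupOf W
  set w' : W := ⟨w, mem_zpowers w⟩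
  have h1 : orderOf (QuotientGroup.mk' N w') = Nat.card (W ⧸ N) := by
    apply orderOf_eq_card_of_forall_mem_zpowers
    intro q
    obtain ⟨⟨x, hx⟩, rfl⟩ := QuotientGroup.mk'_surjective N q
    obtain ⟨k, hk⟩ := mem_zpowers_iff.1 hx
    rw [mem_zpowers_iff]
    refine ⟨k, ?_⟩
    rw [← map_zpow]
    congr 1
    exact Subtype.ext hk
  have h2 : H.relIndex W = Nat.card (W ⧸ N) := rfl
  rw [h2, ← h1]
  have h3 : ∀ m : ℕ, (QuotientGroup.mk' N w') ^ m = 1 ↔ o ∣ m := by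
    intro m
    rw [← h m, ← map_pow, ← MonoidHom.mem_ker, QuotientGroup.ker_mk', Subgroup.mem_subgroupOf]
    rfl
  apply Nat.dvd_antisymm
  · exact orderOf_dvd_of_pow_eq_one ((h3 o).2 dvd_rfl)
  · exact (h3 _).1 (pow_orderOf_eq_one _)

theorem relIndex_centralizer_le {G : Type*} [Group G] [Finite G] (g : G) (H K : Subgroup G) (h : ∀ x ∈ H, ⁅g, x⁆ ∈ K) :
    (centralizer ({g} : Set G)).relIndex H ≤ Nat.card K := by
  have h2 : (centralizer ({g} : Set G)).relIndex H = Nat.card (H ⧸ (centralizer ({g} : Set G)).subgroupOf H) := rfl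
  rw [h2]
  apply Nat.card_le_card_of_injective (fun q => (⟨⁅g, (q.out : G)⁆, h _ q.out.2⟩ : K))
  intro q1 q2 hq
  have hq' : ⁅g, (q1.out : G)⁆ = ⁅g, (q2.out : G)⁆ := congrArg Subtype.val hq
  rw [← QuotientGroup.out_eq' q1, ← QuotientGroup.out_eq' q2]
  rw [QuotientGroup.eq, Subgroup.mem_subgroupOf, mem_centralizer_singleton_iff]
  rw [commutatorElement_def, commutatorElement_def] at hq'
  set x : G := (q1.out : G)
  set y : G := (q2.out : G)
  show x⁻¹ * y * g = g * (x⁻¹ * y)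
  have h3 : x * g⁻¹ * x⁻¹ = y * g⁻¹ * y⁻¹ := by
    have := congrArg (fun z => g⁻¹ * z) hq'
    calc x * g⁻¹ * x⁻¹ = g⁻¹ * (g * x * g⁻¹ * x⁻¹) := by group
      _ = g⁻¹ * (g * y * g⁻¹ * y⁻¹) := this
      _ = y * g⁻¹ * y⁻¹ := by group
  have h4 : x * g * x⁻¹ = y * g * y⁻¹ := by
    calc x * g * x⁻¹ = (x * g⁻¹ * x⁻¹)⁻¹ := by group
      _ = (y * g⁻¹ * y⁻¹)⁻¹ := by rw [h3]
      _ = y * g * y⁻¹ := by group
  calc x⁻¹ * y * g = x⁻¹ * (y * g * y⁻¹) * y := by group
    _ = x⁻¹ * (x * g * x⁻¹) * y := by rw [h4]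
    _ = g * (x⁻¹ * y) := by group

theorem index_centralizer_le {G : Type*} [Group G] [Finite G] (g : G) (K : Subgroup G) (h : ∀ x, ⁅g, x⁆ ∈ K) :
    (centralizer ({g} : Set G)).index ≤ Nat.card K := by
  rw [← relIndex_top_right]
  exact relIndex_centralizer_le g ⊤ K (fun x _ => h x)

theorem orderOf_pow_dvd_iff {G : Type*} [Group G] {c : G} {n s : ℕ} (hc : orderOf c = p ^ n) (hs : s ≤ n) (j : ℕ) :
    orderOf (c ^ j) ∣ p ^ (n - s) ↔ p ^ s ∣ j := by
  rw [orderOf_dvd_iff_pow_eq_one, ← pow_mul, ← orderOf_dvd_iff_pow_eq_one, hc]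
  have h1 : p ^ n = p ^ s * p ^ (n - s) := by rw [← pow_add]; congr 1; omega
  rw [h1]
  exact Nat.mul_dvd_mul_iff_right (pow_pos hp.out.pos _)

theorem dvd_orderOf_pow {G : Type*} [Group G] [Finite G] {c : G} {n t : ℕ} (hc : orderOf c = p ^ n) (ht : t + 1 ≤ n) (j : ℕ)
    (hj : ¬ p ^ (t + 1) ∣ j) : p ^ (n - t) ∣ orderOf (c ^ j) := by
  obtain ⟨k, hk, hk'⟩ := (Nat.dvd_prime_pow hp.out).1 (show orderOf (c ^ j) ∣ p ^ n by rw [← hc]; exact orderOf_pow_dvd j)
  rw [hk']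
  apply pow_dvd_pow
  by_contra hlt
  apply hj
  rw [← orderOf_pow_dvd_iff hc ht, hk']
  exact pow_dvd_pow p (by omega)

namespace D

variable {a b : G} {r : ℕ} [Finite G]

theorem mem_V_aux (h : D p a b r) (hp2 : p ≠ 2) (hG : IsPGroup p G) (s i j : ℕ) :
    ∃ y : G, y ^ p ^ s = a ^ (p ^ s * i) * b ^ (p ^ s * j) := by
  have h1 : (a ^ p ^ s) ^ i ∈ zpowers (a ^ gs (r ^ j) (p ^ s)) := by
    rw [zpowers_pow_gs hp2 hG a (h.pow_r1 j)]
    exact pow_mem (mem_zpowers _) _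
  obtain ⟨k, hk⟩ := exists_pow_of_mem_zpowers h1
  refine ⟨a ^ k * b ^ j, ?_⟩
  rw [h.pow_rule, pow_mul a (p ^ s), hk, ← pow_mul, mul_comm k, mul_comm j]

theorem mem_V_iff (h : D p a b r) (hp2 : p ≠ 2) (hG : IsPGroup p G) (s : ℕ) (x : G) :
    x ∈ V p s G ↔ ∃ i j : ℕ, x = a ^ (p ^ s * i) * b ^ (p ^ s * j) := by
  constructor
  · intro hx
    let S : Submonoid G :=
      { carrier := {x | ∃ i j : ℕ, x = a ^ (p ^ s * i) * b ^ (p ^ s * j)}
        one_mem' := ⟨0, 0, by simp⟩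
        mul_mem' := by
          rintro x y ⟨i, j, rfl⟩ ⟨k, l, rfl⟩
          refine ⟨i + k * r ^ (p ^ s * j), j + l, ?_⟩
          rw [h.mul_rule]
          congr 2 <;> ring }
    have hpow : ∀ y : G, y ^ p ^ s ∈ S := by
      intro y
      obtain ⟨i, j, rfl⟩ := h.gen y
      obtain ⟨u, hu⟩ := (dvd_gs_iff hp2 (h.pow_r1 j) s (p ^ s)).2 dvd_rfl
      refine ⟨i * u, j, ?_⟩
      rw [h.pow_rule, hu]
      congr 2 <;> ring
    have hle : ∀ x ∈ V p s G, x ∈ S := by
      intro x hx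
      induction hx using Subgroup.closure_induction with
      | mem x hx => obtain ⟨y, rfl⟩ := hx; exact hpow y
      | one => exact S.one_mem
      | mul x y _ _ hx hy => exact S.mul_mem hx hy
      | inv x _ hx =>
        have h1 : x⁻¹ = x ^ (orderOf x - 1) := by
          rw [inv_eq_iff_mul_eq_one, ← pow_succ', Nat.sub_add_cancel (orderOf_pos x), pow_orderOf_eq_one]
        rw [h1]
        exact S.pow_mem hx _
    exact hle x hx
  · rintro ⟨i, j, rfl⟩
    obtain ⟨y, hy⟩ := h.mem_V_aux hp2 hG s i j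
    rw [← hy]
    exact Subgroup.subset_closure ⟨y, rfl⟩

theorem mem_V_iff_pow (h : D p a b r) (hp2 : p ≠ 2) (hG : IsPGroup p G) (s : ℕ) (x : G) :
    x ∈ V p s G ↔ ∃ y : G, y ^ p ^ s = x := by
  constructor
  · intro hx
    obtain ⟨i, j, rfl⟩ := (h.mem_V_iff hp2 hG s x).1 hx
    exact h.mem_V_aux hp2 hG s i j
  · rintro ⟨y, rfl⟩
    exact Subgroup.subset_closure ⟨y, rfl⟩

theorem mem_center_iff' (h : D p a b r) (z : G) : z ∈ center G ↔ orderOf ⁅z, a⁆ = 1 ∧ orderOf ⁅z, b⁆ = 1 := by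
  rw [orderOf_eq_one_iff, orderOf_eq_one_iff, commutatorElement_eq_one_iff_mul_comm, commutatorElement_eq_one_iff_mul_comm]
  constructor
  · intro hz
    exact ⟨(Subgroup.mem_center_iff.1 hz a).symm, (Subgroup.mem_center_iff.1 hz b).symm⟩
  · rintro ⟨h1, h2⟩
    rw [Subgroup.mem_center_iff]
    intro g
    obtain ⟨i, j, rfl⟩ := h.gen g
    have h1' : Commute z a := h1
    have h2' : Commute z b := h2
    exact ((h1'.pow_right i).mul_right (h2'.pow_right j)).symm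

theorem mem_center_iff (h : D p a b r) (hp2 : p ≠ 2) (hG : IsPGroup p G) {n : ℕ} (hn : orderOf ⁅b, a⁆ = p ^ n) (i j : ℕ) :
    a ^ i * b ^ j ∈ center G ↔ p ^ n ∣ i ∧ p ^ n ∣ j := by
  rw [h.mem_center_iff', h.orderOf_comm_a hp2 hG, h.orderOf_comm_b hp2 hG, orderOf_eq_one_iff, orderOf_eq_one_iff,
    ← orderOf_dvd_iff_pow_eq_one, ← orderOf_dvd_iff_pow_eq_one, hn]
  exact and_comm

theorem V_eq_center (h : D p a b r) (hp2 : p ≠ 2) (hG : IsPGroup p G) {n : ℕ} (hn : orderOf ⁅b, a⁆ = p ^ n) :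
    V p n G = center G := by
  ext x
  rw [h.mem_V_iff hp2 hG]
  constructor
  · rintro ⟨i, j, rfl⟩
    rw [h.mem_center_iff hp2 hG hn]
    exact ⟨dvd_mul_right _ _, dvd_mul_right _ _⟩
  · intro hx
    obtain ⟨i, j, rfl⟩ := h.gen x
    obtain ⟨⟨i', rfl⟩, j', rfl⟩ := (h.mem_center_iff hp2 hG hn i j).1 hx
    exact ⟨i', j', rfl⟩

theorem mem_V_iff_dvd (h : D p a b r) (hp2 : p ≠ 2) (hG : IsPGroup p G) {n : ℕ} (hn : orderOf ⁅b, a⁆ = p ^ n) {s : ℕ} (hs : s ≤ n)
    (i j : ℕ) : a ^ i * b ^ j ∈ V p s G ↔ p ^ s ∣ i ∧ p ^ s ∣ j := by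
  constructor
  · intro hx
    obtain ⟨k, l, hkl⟩ := (h.mem_V_iff hp2 hG s _).1 hx
    constructor
    · rw [← orderOf_pow_dvd_iff hn hs, ← h.orderOf_comm_b hp2 hG i j, hkl, h.orderOf_comm_b hp2 hG, orderOf_pow_dvd_iff hn hs]
      exact dvd_mul_right _ _
    · rw [← orderOf_pow_dvd_iff hn hs, ← h.orderOf_comm_a hp2 hG i j, hkl, h.orderOf_comm_a hp2 hG, orderOf_pow_dvd_iff hn hs]
      exact dvd_mul_right _ _
  · rintro ⟨⟨i', rfl⟩, j', rfl⟩
    exact (h.mem_V_iff hp2 hG s _).2 ⟨i', j', rfl⟩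

theorem V_normal (s : ℕ) : (V p s G).Normal := by
  apply CfsgLib.Core2.closure_normal
  rintro g _ ⟨y, rfl⟩
  exact ⟨g * y * g⁻¹, by rw [conj_pow]⟩

theorem index_V (h : D p a b r) (hp2 : p ≠ 2) (hG : IsPGroup p G) {n : ℕ} (hn : orderOf ⁅b, a⁆ = p ^ n) {s : ℕ} (hs : s ≤ n) :
    (V p s G).index = p ^ (2 * s) := by
  haveI : (V p s G).Normal := V_normal s
  haveI : (zpowers a).Normal := h.normal_zpowers_of_mem (mem_zpowers a)
  have h1 : (V p s G).relIndex (V p s G ⊔ zpowers a) = p ^ s := by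
    rw [relIndex_sup_left]
    apply relIndex_zpowers
    intro m
    have := h.mem_V_iff_dvd hp2 hG hn hs m 0
    rw [pow_zero, mul_one] at this
    rw [this]
    exact and_iff_left (dvd_zero _)
  have h2 : (V p s G ⊔ zpowers a).relIndex (zpowers b) = p ^ s := by
    apply relIndex_zpowers
    intro m
    constructor
    · intro hm
      obtain ⟨v, hv, c, hc, hvc⟩ := Subgroup.mem_sup_of_normal_right.1 hm
      obtain ⟨i, j, rfl⟩ := (h.mem_V_iff hp2 hG s v).1 hv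
      obtain ⟨k, rfl⟩ := exists_pow_of_mem_zpowers hc
      have h3 : orderOf ⁅a ^ 0 * b ^ m, a⁆ = orderOf ⁅a ^ (p ^ s * i + k * r ^ (p ^ s * j)) * b ^ (p ^ s * j), a⁆ := by
        rw [pow_zero, one_mul, ← hvc]
        have := h.mul_rule (p ^ s * i) (p ^ s * j) k 0
        rw [pow_zero, mul_one, add_zero] at this
        rw [this]
      rw [h.orderOf_comm_a hp2 hG, h.orderOf_comm_a hp2 hG] at h3
      rw [← orderOf_pow_dvd_iff hn hs, h3, orderOf_pow_dvd_iff hn hs]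
      exact dvd_mul_right _ _
    · rintro ⟨m', rfl⟩
      apply (le_sup_left : V p s G ≤ _)
      exact (h.mem_V_iff hp2 hG s _).2 ⟨0, m', by simp⟩
  have h3 : (V p s G ⊔ zpowers a).index = p ^ s := by
    rw [← h2, ← relIndex_sup_left (K := V p s G ⊔ zpowers a) (H := zpowers b), ← relIndex_top_right]
    congr 1
    symm
    rw [eq_top_iff]
    intro g _
    obtain ⟨i, j, rfl⟩ := h.gen g
    exact mul_mem ((le_sup_right.trans le_sup_left : zpowers a ≤ _) (pow_mem (mem_zpowers a) i))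
      ((le_sup_right : zpowers b ≤ _) (pow_mem (mem_zpowers b) j))
  rw [← relIndex_mul_index (le_sup_left : V p s G ≤ V p s G ⊔ zpowers a), h1, h3, ← pow_add, two_mul]

theorem exists_dvd_orderOf (h : D p a b r) (hp2 : p ≠ 2) (hG : IsPGroup p G) {n : ℕ} (hn : orderOf ⁅b, a⁆ = p ^ n) {t : ℕ} (ht : t + 1 ≤ n)
    (g : G) (hg : g ∉ V p (t + 1) G) : ∃ w : G, p ^ (n - t) ∣ orderOf ⁅g, w⁆ := by
  obtain ⟨i, j, rfl⟩ := h.gen g
  rw [h.mem_V_iff_dvd hp2 hG hn ht] at hg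
  by_cases hj : p ^ (t + 1) ∣ j
  · have hi : ¬ p ^ (t + 1) ∣ i := fun hi => hg ⟨hi, hj⟩
    exact ⟨b, by rw [h.orderOf_comm_b hp2 hG]; exact dvd_orderOf_pow hn ht i hi⟩
  · exact ⟨a, by rw [h.orderOf_comm_a hp2 hG]; exact dvd_orderOf_pow hn ht j hj⟩

theorem orderOf_le_index (h : D p a b r) (hp2 : p ≠ 2) (hG : IsPGroup p G) (g w : G) :
    orderOf ⁅g, w⁆ ≤ (centralizer ({g} : Set G)).index := by
  have h1 : (centralizer ({g} : Set G)).relIndex (zpowers w) = orderOf ⁅g, w⁆ := by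
    apply relIndex_zpowers
    intro m
    rw [← commutatorElement_inv w g, orderOf_inv, orderOf_dvd_iff_pow_eq_one, ← orderOf_eq_one_iff, ← h.orderOf_comm_pow hp2 hG,
      orderOf_eq_one_iff, commutatorElement_eq_one_iff_mul_comm, mem_centralizer_singleton_iff]
  rw [← h1, ← relIndex_top_right]
  exact relIndex_le_of_le_right le_top (by rw [relIndex_top_right]; exact index_ne_zero_of_finite)

theorem comm_pow_mem (h : D p a b r) (hp2 : p ≠ 2) (s : ℕ) (y x : G) : ⁅y ^ p ^ s, x⁆ ∈ zpowers (⁅b, a⁆ ^ p ^ s) := by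
  obtain ⟨q, hq, h1⟩ := h.comm_pow y x
  rw [h1]
  obtain ⟨u, hu⟩ := (dvd_gs_iff hp2 hq s (p ^ s)).2 dvd_rfl
  obtain ⟨k, hk⟩ := exists_pow_of_mem_zpowers (h.comm_mem y x)
  rw [hu, hk, ← pow_mul, show k * (p ^ s * u) = p ^ s * (k * u) by ring, pow_mul]
  exact pow_mem (mem_zpowers _) _

theorem index_le_of_mem_V (h : D p a b r) (hp2 : p ≠ 2) (hG : IsPGroup p G) {n : ℕ} (hn : orderOf ⁅b, a⁆ = p ^ n) {s : ℕ} (hs : s ≤ n)
    {g : G} (hg : g ∈ V p s G) : (centralizer ({g} : Set G)).index ≤ p ^ (n - s) := by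
  obtain ⟨y, rfl⟩ := (h.mem_V_iff_pow hp2 hG s g).1 hg
  refine (index_centralizer_le _ (zpowers (⁅b, a⁆ ^ p ^ s)) (fun x => h.comm_pow_mem hp2 s y x)).trans (le_of_eq ?_)
  rw [Nat.card_zpowers, orderOf_pow, hn, Nat.gcd_eq_right (pow_dvd_pow p hs)]
  exact Nat.pow_div hs hp.out.pos

theorem mem_V_iff_index (h : D p a b r) (hp2 : p ≠ 2) (hG : IsPGroup p G) {n : ℕ} (hn : orderOf ⁅b, a⁆ = p ^ n) {s : ℕ} (hs : s ≤ n)
    (g : G) : g ∈ V p s G ↔ (centralizer ({g} : Set G)).index ≤ p ^ (n - s) := by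
  refine ⟨h.index_le_of_mem_V hp2 hG hn hs, fun hle => ?_⟩
  by_contra hg
  rcases Nat.eq_zero_or_pos s with rfl | hs0
  · apply hg
    rw [h.mem_V_iff_pow hp2 hG]
    exact ⟨g, by simp⟩
  · obtain ⟨t, rfl⟩ := Nat.exists_eq_succ_of_ne_zero hs0.ne'
    obtain ⟨w, hw⟩ := h.exists_dvd_orderOf hp2 hG hn hs g hg
    have h1 := (Nat.le_of_dvd (orderOf_pos _) hw).trans ((h.orderOf_le_index hp2 hG g w).trans hle)
    have h2 : p ^ (n - (t + 1)) < p ^ (n - t) := Nat.pow_lt_pow_right hp.out.one_lt (by omega)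
    exact absurd h1 (Nat.not_le.2 h2)

theorem comm_mem_of_index (h : D p a b r) (hp2 : p ≠ 2) (hG : IsPGroup p G) {n : ℕ} (hn : orderOf ⁅b, a⁆ = p ^ n) (hn0 : n ≠ 0)
    {M : Subgroup G} (hM : M.index = p) {y : G} (hy : y ∈ M) (hyV : y ∉ V p 1 G) (x z : G) (hx : x ∈ M) (hz : z ∈ M) :
    ⁅x, z⁆ ∈ zpowers (⁅b, a⁆ ^ p ^ 1) := by
  haveI : (V p 1 G).Normal := V_normal 1
  haveI hNn : (zpowers (⁅b, a⁆ ^ p ^ 1)).Normal := h.normal_zpowers_of_mem (pow_mem h.comm_mem_a _)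
  set N := zpowers (⁅b, a⁆ ^ p ^ 1)
  haveI := CfsgLib.PGrp.normal_of_index_prime hG hM
  have hVM : V p 1 G ≤ M := by
    rw [V, Subgroup.closure_le]
    rintro _ ⟨u, rfl⟩
    rw [pow_one]
    have := Subgroup.pow_index_mem M u
    rwa [hM] at this
  have hrel : (V p 1 G).relIndex M = p := by
    have h1 := relIndex_mul_index hVM
    rw [h.index_V hp2 hG hn (Nat.one_le_iff_ne_zero.2 hn0), hM] at h1
    have h2 : (V p 1 G).relIndex M * p = p * p := by rw [h1]; ring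
    exact Nat.eq_of_mul_eq_mul_right hp.out.pos h2
  have hsup : V p 1 G ⊔ zpowers y = M := by
    apply le_antisymm (sup_le hVM (zpowers_le.2 hy))
    have h1 := relIndex_mul_relIndex (V p 1 G) (V p 1 G ⊔ zpowers y) M le_sup_left (sup_le hVM (zpowers_le.2 hy))
    rw [hrel] at h1
    rcases (Nat.dvd_prime hp.out).1 (Dvd.intro _ h1) with h2 | h2
    · rw [relIndex_eq_one] at h2
      exact absurd (h2 ((le_sup_right : zpowers y ≤ _) (mem_zpowers y))) hyV
    · rw [h2] at h1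
      exact relIndex_eq_one.1 (Nat.eq_of_mul_eq_mul_left hp.out.pos (by rw [h1, mul_one]))
  have hcen : ∀ v ∈ V p 1 G, ∀ g : G, Commute (QuotientGroup.mk' N v) (QuotientGroup.mk' N g) := by
    intro v hv g
    obtain ⟨u, rfl⟩ := (h.mem_V_iff_pow hp2 hG 1 v).1 hv
    have h1 := h.comm_pow_mem hp2 1 u g
    rw [← QuotientGroup.ker_mk' (zpowers _), MonoidHom.mem_ker, map_commutatorElement, commutatorElement_eq_one_iff_mul_comm] at h1
    exact h1
  rw [← hsup, Subgroup.mem_sup_of_normal_left] at hx hz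
  obtain ⟨v, hv, c, hc, rfl⟩ := hx
  obtain ⟨v', hv', c', hc', rfl⟩ := hz
  rw [← QuotientGroup.ker_mk' N, MonoidHom.mem_ker, map_commutatorElement, commutatorElement_eq_one_iff_mul_comm]
  have hcc : Commute c c' := by
    obtain ⟨k, rfl⟩ := mem_zpowers_iff.1 hc
    obtain ⟨l, rfl⟩ := mem_zpowers_iff.1 hc'
    exact Commute.zpow_zpow_self y k l
  have h4 : Commute (QuotientGroup.mk' N (v * c)) (QuotientGroup.mk' N (v' * c')) := by
    rw [map_mul (QuotientGroup.mk' N) v c]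
    apply Commute.mul_left (hcen v hv _)
    rw [map_mul]
    exact Commute.mul_right (hcen v' hv' _).symm (hcc.map _)
  exact h4

theorem card_comm_of_index (h : D p a b r) (hp2 : p ≠ 2) (hG : IsPGroup p G) {n : ℕ} (hn : orderOf ⁅b, a⁆ = p ^ n) (hn0 : n ≠ 0)
    {M : Subgroup G} (hM : M.index = p) : Nat.card (⁅M, M⁆ : Subgroup G) = p ^ (n - 1) := by
  haveI : (V p 1 G).Normal := V_normal 1
  haveI := CfsgLib.PGrp.normal_of_index_prime hG hM
  obtain ⟨y, hy, hyV⟩ : ∃ y ∈ M, y ∉ V p 1 G := by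
    by_contra hcon
    push Not at hcon
    have h1 : M ≤ V p 1 G := hcon
    have h2 := index_dvd_of_le h1
    rw [h.index_V hp2 hG hn (Nat.one_le_iff_ne_zero.2 hn0), hM] at h2
    have h3 := Nat.le_of_dvd hp.out.pos h2
    have h4 : p < p ^ (2 * 1) := by
      calc p = p ^ 1 := (pow_one p).symm
        _ < p ^ (2 * 1) := Nat.pow_lt_pow_right hp.out.one_lt (by norm_num)
    omega
  apply le_antisymm
  · have h1 : ⁅M, M⁆ ≤ zpowers (⁅b, a⁆ ^ p ^ 1) := by
      rw [Subgroup.commutator_le]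
      intro x hx z hz
      exact h.comm_mem_of_index hp2 hG hn hn0 hM hy hyV x z hx hz
    have h2 := Nat.card_le_card_of_injective _ (Subgroup.inclusion_injective h1)
    rwa [Nat.card_zpowers, orderOf_pow, hn, Nat.gcd_eq_right (pow_dvd_pow p (Nat.one_le_iff_ne_zero.2 hn0)),
      Nat.pow_div (Nat.one_le_iff_ne_zero.2 hn0) hp.out.pos] at h2
  · obtain ⟨w, hw⟩ := h.exists_dvd_orderOf hp2 hG hn (t := 0) (Nat.one_le_iff_ne_zero.2 hn0) y hyV
    rw [Nat.sub_zero] at hw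
    have h1 : orderOf ⁅w ^ p, y⁆ = p ^ (n - 1) := by
      have h2 : orderOf ⁅w, y⁆ = p ^ n := by
        rw [← commutatorElement_inv y w, orderOf_inv]
        apply Nat.dvd_antisymm _ hw
        obtain ⟨k, hk⟩ := exists_pow_of_mem_zpowers (h.comm_mem y w)
        rw [hk, ← hn]
        exact orderOf_pow_dvd k
      rw [h.orderOf_comm_pow hp2 hG, orderOf_pow, h2, Nat.gcd_eq_right (dvd_pow_self p hn0)]
      conv_lhs => rw [← pow_one p, ← pow_mul, one_mul]
      rw [pow_one]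
      exact Nat.div_eq_of_eq_mul_left hp.out.pos (by rw [← pow_succ, Nat.sub_add_cancel (Nat.one_le_iff_ne_zero.2 hn0)])
    rw [← h1, ← Nat.card_zpowers]
    apply Nat.card_le_card_of_injective _ (Subgroup.inclusion_injective _)
    rw [zpowers_le]
    apply Subgroup.commutator_mem_commutator _ hy
    have := Subgroup.pow_index_mem M w
    rwa [hM] at this

theorem card_commutator (h : D p a b r) : Nat.card (_root_.commutator G) = orderOf ⁅b, a⁆ := by
  rw [h.commutator_eq, Nat.card_zpowers]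

theorem exists_n (_h : D p a b r) (hG : IsPGroup p G) : ∃ n : ℕ, orderOf ⁅b, a⁆ = p ^ n := (IsPGroup.iff_orderOf.1 hG) _

end D

theorem isMetacyclic_subgroup {G : Type*} [Group G] (hm : Cfsg.IsMetacyclic G) (R : Subgroup G) : Cfsg.IsMetacyclic R := by
  obtain ⟨N, hN, hcN, hcQ⟩ := hm
  haveI := hN
  refine ⟨N.subgroupOf R, inferInstance, ?_, ?_⟩
  · let f : N.subgroupOf R →* N :=
      { toFun := fun x => ⟨((x : R) : G), Subgroup.mem_subgroupOf.1 x.2⟩
        map_one' := rfl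
        map_mul' := fun _ _ => rfl }
    exact isCyclic_of_injective f (fun x y hxy => Subtype.ext (Subtype.ext (congrArg (fun z : N => (z : G)) hxy)))
  · have hle : N.subgroupOf R ≤ N.comap R.subtype := fun x hx => hx
    refine isCyclic_of_injective (QuotientGroup.map (N.subgroupOf R) N R.subtype hle) ?_
    rw [← MonoidHom.ker_eq_bot_iff, eq_bot_iff]
    intro q hq
    obtain ⟨x, rfl⟩ := QuotientGroup.mk'_surjective _ q
    rw [MonoidHom.mem_ker] at hq
    have hq' : ((x : G) : G ⧸ N) = 1 := hq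
    rw [QuotientGroup.eq_one_iff] at hq'
    rw [Subgroup.mem_bot, QuotientGroup.mk'_apply, QuotientGroup.eq_one_iff]
    exact Subgroup.mem_subgroupOf.2 hq'

theorem card_comm_subgroupOf {G : Type*} [Group G] {R M : Subgroup G} (h : R ≤ M) :
    Nat.card (⁅R.subgroupOf M, R.subgroupOf M⁆ : Subgroup M) = Nat.card (⁅R, R⁆ : Subgroup G) := by
  have h1 : (⁅R.subgroupOf M, R.subgroupOf M⁆ : Subgroup M).map M.subtype = ⁅R, R⁆ := by
    rw [map_commutator, subgroupOf_map_subtype, inf_eq_left.2 h]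
  rw [← h1]
  exact (Nat.card_congr (equivMapOfInjective _ _ M.subtype_injective).toEquiv)

theorem card_commutator_coe {G : Type*} [Group G] (M : Subgroup G) :
    Nat.card (_root_.commutator M) = Nat.card (⁅M, M⁆ : Subgroup G) := by
  have := card_comm_subgroupOf (le_refl M)
  rw [subgroupOf_self] at this
  exact this

theorem isMulCommutative_iff_card {G : Type*} [Group G] [Finite G] (R : Subgroup G) :
    IsMulCommutative R ↔ Nat.card (⁅R, R⁆ : Subgroup G) = 1 := by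
  rw [Subgroup.card_eq_one, Subgroup.commutator_eq_bot_iff_le_centralizer]
  exact Subgroup.le_centralizer_iff_isMulCommutative.symm

/-- the main statement: orders of commutator subgroups of subgroups -/
theorem main (hp2 : p ≠ 2) [Finite G] (hG : IsPGroup p G) (hm : Cfsg.IsMetacyclic G) (k : ℕ) : ∀ R : Subgroup G, R.index = p ^ k →
    (¬ IsMulCommutative R → Nat.card R * Nat.card (_root_.commutator G) = Nat.card G * Nat.card (⁅R, R⁆ : Subgroup G)) ∧
    (IsMulCommutative R → Nat.card R * Nat.card (_root_.commutator G) ≤ Nat.card G) ∧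
    (Maximal (fun K : Subgroup G => IsMulCommutative K) R → Nat.card R * Nat.card (_root_.commutator G) = Nat.card G) := by
  induction k with
  | zero =>
    intro R hR
    rw [pow_zero, Subgroup.index_eq_one] at hR
    subst hR
    refine ⟨fun _ => ?_, fun h => ?_, fun h => ?_⟩
    · rw [Subgroup.card_top]; rfl
    · rw [Subgroup.card_top]
      have := (isMulCommutative_iff_card _).1 h
      exact (congrArg (fun t => Nat.card G * t) this).le.trans (by simp)
    · rw [Subgroup.card_top]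
      have := (isMulCommutative_iff_card _).1 h.prop
      exact (congrArg (fun t => Nat.card G * t) this).trans (by simp)
  | succ k ih =>
    intro R hR
    obtain ⟨m, hRm⟩ := IsPGroup.iff_card.1 (hG.to_subgroup R)
    have hcardG : Nat.card G = p ^ (m + 1 + k) := by
      rw [← R.card_mul_index, hR, hRm, ← pow_add]
      congr 1; ring
    obtain ⟨M, hMc, hRM⟩ := Sylow.exists_subgroup_card_pow_succ (G := G) (p := p) (n := m) (by
      rw [hcardG]; exact pow_dvd_pow p (by omega)) hRm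
    have hMi : M.index = p ^ k := by
      have := M.card_mul_index
      rw [hMc, hcardG, pow_add p (m + 1) k] at this
      exact Nat.eq_of_mul_eq_mul_left (pow_pos hp.out.pos _) this
    obtain ⟨ih1, ih2, ih3⟩ := ih M hMi
    have hrel : (R.subgroupOf M).index = p := by
      have h1 : R.relIndex M * M.index = R.index := relIndex_mul_index hRM
      rw [hMi, hR, pow_succ'] at h1
      exact Nat.eq_of_mul_eq_mul_right (pow_pos hp.out.pos _) h1
    by_cases hMc' : IsMulCommutative M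
    · have hRc : IsMulCommutative R := by
        refine ⟨⟨fun x y => Subtype.ext ?_⟩⟩
        exact CfsgLib.PGrp.mul_comm_of_isMulCommutative hMc' (hRM x.2) (hRM y.2)
      refine ⟨fun h => absurd hRc h, fun _ => ?_, fun h => ?_⟩
      · exact (Nat.mul_le_mul_right _ (Nat.card_le_card_of_injective _ (Subgroup.inclusion_injective hRM))).trans (ih2 hMc')
      · exfalso
        have h1 : M ≤ R := h.le_of_ge hMc' hRM
        have h2 := Nat.card_le_card_of_injective _ (Subgroup.inclusion_injective h1)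
        rw [hMc, hRm] at h2
        exact absurd h2 (Nat.not_le.2 (Nat.pow_lt_pow_right hp.out.one_lt (by omega)))
    · -- `M` is non abelian
      have hM1 := ih1 hMc'
      obtain ⟨a, b, r, hD⟩ := exists_data (hG.to_subgroup M) (isMetacyclic_subgroup hm M)
      obtain ⟨n, hn⟩ := hD.exists_n (hG.to_subgroup M)
      have hMn : Nat.card (⁅M, M⁆ : Subgroup G) = p ^ n := by
        rw [← card_commutator_coe, hD.card_commutator, hn]
      have hn0 : n ≠ 0 := by
        rintro rfl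
        exact hMc' ((isMulCommutative_iff_card M).2 (by rw [hMn, pow_zero]))
      have hRn : Nat.card (⁅R, R⁆ : Subgroup G) = p ^ (n - 1) := by
        rw [← card_comm_subgroupOf hRM]
        exact hD.card_comm_of_index hp2 (hG.to_subgroup M) hn hn0 hrel
      have key : Nat.card R * Nat.card (_root_.commutator G) = Nat.card G * Nat.card (⁅R, R⁆ : Subgroup G) := by
        have h1 : Nat.card M = Nat.card R * p := by rw [hMc, hRm, pow_succ]
        have h2 : p ^ n = p ^ (n - 1) * p := by rw [← pow_succ, Nat.sub_add_cancel (Nat.one_le_iff_ne_zero.2 hn0)]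
        rw [hMn, h1, h2] at hM1
        rw [hRn]
        apply Nat.eq_of_mul_eq_mul_right hp.out.pos
        calc Nat.card R * Nat.card (_root_.commutator G) * p = Nat.card R * p * Nat.card (_root_.commutator G) := by ring
          _ = Nat.card G * (p ^ (n - 1) * p) := hM1
          _ = Nat.card G * p ^ (n - 1) * p := by ring
      refine ⟨fun _ => key, fun h => ?_, fun h => ?_⟩
      · rw [key, (isMulCommutative_iff_card R).1 h, mul_one]
      · rw [key, (isMulCommutative_iff_card R).1 h.prop, mul_one]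

end CfsgLib.Metacyc
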