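import Mathlib
import Cfsg.Prelude.Def_BaumannBlocks
import Cfsg.Agent.Lib.H3Metacyc

/-! Metacyclic p-groups, p odd: centralizer-large subgroups. -/

set_option linter.style.haveILetI false
set_option linter.unusedSectionVars false

namespace CfsgLib.Metacyc

open Subgroup Finset
open scoped commutatorElement

variable {p : ℕ} [hp : Fact p.Prime] {G : Type*} [Group G] [Finite G]

theorem card_mul_relIndex {G : Type*} [Group G] {H K : Subgroup G} (h : H ≤ K) : Nat.card H * H.relIndex K = Nat.card K := by
  rw [← relIndex_bot_left, relIndex_mul_relIndex ⊥ H K bot_le h, relIndex_bot_left]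

theorem step (hp2 : p ≠ 2) (hG : IsPGroup p G) (hm : Cfsg.IsMetacyclic G) {R M : Subgroup G} (hRM : R ≤ M)
    (h : R.relIndex M = p) : Nat.card (centralizer (R : Set G)) ≤ p * Nat.card (centralizer (M : Set G)) := by
  obtain ⟨a, b, r, hD⟩ := exists_data hG hm
  obtain ⟨n, hn⟩ := hD.exists_n hG
  obtain ⟨x, hxM, hxR⟩ : ∃ x ∈ M, x ∉ R := by
    by_contra hcon
    push Not at hcon
    have : R.relIndex M = 1 := relIndex_eq_one.2 hcon
    rw [this] at h
    exact hp.out.one_lt.ne h
  have hsup : R ⊔ zpowers x = M := by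
    apply le_antisymm (sup_le hRM (zpowers_le.2 hxM))
    have h1 := relIndex_mul_relIndex R (R ⊔ zpowers x) M le_sup_left (sup_le hRM (zpowers_le.2 hxM))
    rw [h] at h1
    rcases (Nat.dvd_prime hp.out).1 (Dvd.intro _ h1) with h2 | h2
    · rw [relIndex_eq_one] at h2
      exact absurd (h2 ((le_sup_right : zpowers x ≤ _) (mem_zpowers x))) hxR
    · rw [h2] at h1
      exact relIndex_eq_one.1 (Nat.eq_of_mul_eq_mul_left hp.out.pos (by rw [h1, mul_one]))
  have hxp : x ^ p ∈ R := by
    haveI : (R.subgroupOf M).Normal := CfsgLib.PGrp.normal_of_index_prime (hG.to_subgroup M) h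
    have h1 := Subgroup.pow_index_mem (R.subgroupOf M) ⟨x, hxM⟩
    have h2 : (R.subgroupOf M).index = p := h
    rw [h2] at h1
    exact Subgroup.mem_subgroupOf.1 h1
  set C := centralizer (R : Set G) with hC
  have hCM : centralizer (M : Set G) = centralizer ({x} : Set G) ⊓ C := by
    apply le_antisymm
    · apply le_inf
      · intro y hy
        rw [mem_centralizer_singleton_iff]
        exact (mem_centralizer_iff.1 hy x hxM).symm
      · exact centralizer_le hRM
    · intro y hy
      obtain ⟨hy1, hy2⟩ := hy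
      rw [← hsup]
      have h1 : R ⊔ zpowers x ≤ centralizer ({y} : Set G) := by
        apply sup_le
        · intro z hz
          rw [mem_centralizer_singleton_iff]
          exact (mem_centralizer_iff.1 hy2 z hz)
        · rw [zpowers_le, mem_centralizer_singleton_iff]
          exact (mem_centralizer_singleton_iff.1 hy1).symm
      rw [mem_centralizer_iff]
      intro z hz
      exact (mem_centralizer_singleton_iff.1 (h1 hz))
  have hle : (centralizer ({x} : Set G)).relIndex C ≤ Nat.card (zpowers (⁅b, a⁆ ^ p ^ (n - 1))) := by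
    apply relIndex_centralizer_le
    intro c hc
    have h1 : ⁅x ^ p, c⁆ = 1 := by
      rw [commutatorElement_eq_one_iff_mul_comm]
      exact (mem_centralizer_iff.1 hc _ hxp)
    have h2 : ⁅x, c⁆ ^ p = 1 := by
      rw [← orderOf_eq_one_iff, ← hD.orderOf_comm_pow hp2 hG, h1, orderOf_one]
    obtain ⟨k, hk⟩ := exists_pow_of_mem_zpowers (hD.comm_mem x c)
    rw [hk, ← pow_mul, ← orderOf_dvd_iff_pow_eq_one, hn] at h2
    have h3 : p ^ (n - 1) ∣ k := by
      rcases Nat.eq_zero_or_pos n with rfl | hn0
      · simp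
      · have : p ^ n = p ^ (n - 1) * p := by rw [← pow_succ, Nat.sub_add_cancel hn0]
        rw [this] at h2
        exact Nat.dvd_of_mul_dvd_mul_right hp.out.pos h2
    obtain ⟨l, rfl⟩ := h3
    rw [hk, pow_mul]
    exact pow_mem (mem_zpowers _) _
  have hle2 : Nat.card (zpowers (⁅b, a⁆ ^ p ^ (n - 1))) ≤ p := by
    rw [Nat.card_zpowers]
    apply orderOf_le_of_pow_eq_one hp.out.pos
    rw [← pow_mul, ← orderOf_dvd_iff_pow_eq_one, hn, ← pow_succ]
    exact pow_dvd_pow p (by omega)
  have h5 : (centralizer ({x} : Set G)).relIndex C * Nat.card (centralizer (M : Set G)) = Nat.card C := by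
    rw [hCM, ← inf_relIndex_right, mul_comm]
    exact card_mul_relIndex inf_le_right
  rw [← h5]
  exact Nat.mul_le_mul_right _ (hle.trans hle2)

/-- the measure of a subgroup -/
noncomputable def f (R : Subgroup G) : ℕ := Nat.card R * Nat.card (centralizer (R : Set G))

theorem f_step (hp2 : p ≠ 2) (hG : IsPGroup p G) (hm : Cfsg.IsMetacyclic G) {R M : Subgroup G} (hRM : R ≤ M)
    (h : R.relIndex M = p) : f R ≤ f M := by
  have h1 := step hp2 hG hm hRM h
  have h2 : Nat.card R * p = Nat.card M := by rw [← h]; exact card_mul_relIndex hRM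
  unfold f
  rw [← h2, mul_assoc]
  exact Nat.mul_le_mul_left _ h1

theorem f_mono_aux (hp2 : p ≠ 2) (hG : IsPGroup p G) (hm : Cfsg.IsMetacyclic G) (k : ℕ) : ∀ {R M : Subgroup G}, R ≤ M →
    R.relIndex M = p ^ k → f R ≤ f M := by
  induction k with
  | zero =>
    intro R M hRM h
    rw [pow_zero, relIndex_eq_one] at h
    rw [le_antisymm hRM h]
  | succ k ih =>
    intro R M hRM h
    obtain ⟨m, hm'⟩ := IsPGroup.iff_card.1 (hG.to_subgroup R)
    have hcM : Nat.card M = p ^ (m + 1 + k) := by
      rw [← card_mul_relIndex hRM, h, hm', ← pow_add]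
      congr 1; ring
    have hR' : Nat.card (R.subgroupOf M) = p ^ m := by
      rw [← hm']; exact Nat.card_congr (subgroupOfEquivOfLe hRM).toEquiv
    obtain ⟨K', hK', hRK'⟩ := Sylow.exists_subgroup_card_pow_succ (G := M) (p := p) (n := m) (by
      rw [hcM]; exact pow_dvd_pow p (by omega)) hR'
    set K := K'.map M.subtype with hK
    have hcK : Nat.card K = p ^ (m + 1) := by
      rw [← hK']; exact (Nat.card_congr (equivMapOfInjective _ _ M.subtype_injective).toEquiv).symm
    have hRK : R ≤ K := by
      intro x hx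
      exact ⟨⟨x, hRM hx⟩, hRK' hx, rfl⟩
    have hKM : K ≤ M := map_subtype_le K'
    have h1 : R.relIndex K = p := by
      have := card_mul_relIndex hRK
      rw [hcK, hm', pow_succ] at this
      exact Nat.eq_of_mul_eq_mul_left (pow_pos hp.out.pos _) this
    have h2 : K.relIndex M = p ^ k := by
      have := card_mul_relIndex hKM
      rw [hcK, hcM, pow_add p (m + 1) k] at this
      exact Nat.eq_of_mul_eq_mul_left (pow_pos hp.out.pos _) this
    exact (f_step hp2 hG hm hRK h1).trans (ih hKM h2)

theorem f_mono (hp2 : p ≠ 2) (hG : IsPGroup p G) (hm : Cfsg.IsMetacyclic G) {R M : Subgroup G} (hRM : R ≤ M) : f R ≤ f M := by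
  obtain ⟨k, hk⟩ := (hG.to_subgroup M).index (R.subgroupOf M)
  exact f_mono_aux hp2 hG hm k hRM hk

theorem f_top : f (⊤ : Subgroup G) = Nat.card G * Nat.card (center G) := by
  unfold f
  rw [card_top, coe_top, centralizer_univ]

theorem f_center : f (center G) = Nat.card G * Nat.card (center G) := by
  unfold f
  have : centralizer (center G : Set G) = ⊤ := by
    rw [eq_top_iff]
    intro x _
    rw [mem_centralizer_iff]
    intro z hz
    exact ((mem_center_iff.1 hz x)).symm
  rw [this, card_top, mul_comm]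

theorem f_eq_of_center_le (hp2 : p ≠ 2) (hG : IsPGroup p G) (hm : Cfsg.IsMetacyclic G) {R : Subgroup G} (h : center G ≤ R) :
    f R = Nat.card G * Nat.card (center G) :=
  le_antisymm (by rw [← f_top]; exact f_mono hp2 hG hm le_top) (by rw [← f_center]; exact f_mono hp2 hG hm h)

theorem center_le_of_f_eq (hp2 : p ≠ 2) (hG : IsPGroup p G) (hm : Cfsg.IsMetacyclic G) {R : Subgroup G}
    (h : f R = Nat.card G * Nat.card (center G)) : center G ≤ R := by
  have h1 : f (R ⊔ center G) ≤ f R := by
    rw [h, ← f_top]; exact f_mono hp2 hG hm le_top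
  have h2 : centralizer ((R ⊔ center G : Subgroup G) : Set G) = centralizer (R : Set G) := by
    apply le_antisymm (centralizer_le (show (R : Set G) ⊆ ((R ⊔ center G : Subgroup G) : Set G) from le_sup_left (a := R)))
    intro y hy
    have h3 : R ⊔ center G ≤ centralizer ({y} : Set G) := by
      apply sup_le
      · intro z hz
        rw [mem_centralizer_singleton_iff]
        exact (mem_centralizer_iff.1 hy z hz)
      · intro z hz
        rw [mem_centralizer_singleton_iff]
        exact (mem_center_iff.1 hz y).symm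
    rw [mem_centralizer_iff]
    intro z hz
    exact (mem_centralizer_singleton_iff.1 (h3 hz))
  unfold f at h1
  rw [h2] at h1
  have h4 := Nat.le_of_mul_le_mul_right h1 Nat.card_pos
  have h5 := Subgroup.eq_of_le_of_card_ge (le_sup_left : R ≤ R ⊔ center G) h4
  rw [h5]; exact le_sup_right

theorem maxCentralizerProduct_eq (hp2 : p ≠ 2) (hG : IsPGroup p G) (hm : Cfsg.IsMetacyclic G) :
    Cfsg.maxCentralizerProduct G = Nat.card G * Nat.card (center G) := by
  unfold Cfsg.maxCentralizerProduct
  apply le_antisymm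
  · apply csSup_le (by exact ⟨_, (⊤ : Subgroup G), rfl⟩)
    rintro k ⟨R, rfl⟩
    rw [← f_top]
    exact f_mono hp2 hG hm le_top
  · apply le_csSup
    · refine ⟨f (⊤ : Subgroup G), ?_⟩
      rintro k ⟨R, rfl⟩
      exact f_mono hp2 hG hm le_top
    · exact ⟨⊤, by rw [← f_top]; rfl⟩

end CfsgLib.Metacyc
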