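import Mathlib
import Cfsg.Prelude.Def_Transfer
import Cfsg.Prelude.Def_Local
import Cfsg.Prelude.Def_PLocal
import Cfsg.Prelude.Def_OddOrderLocal
import Cfsg.Prelude.Def_CaseTheorems
import Cfsg.Agent.Lib.Core
import Cfsg.Agent.Lib.Core2
import Cfsg.Agent.Lib.Solv
import Cfsg.Agent.Lib.SolvStr
import Cfsg.Agent.Lib.Comp2
import Cfsg.Agent.Lib.Transfer

/-! Nilpotency criteria (helper3). -/

namespace CfsgLib.H3Nil

open Subgroup
open scoped Pointwise

universe u

/-- a finite group in which elements of coprime prime power orders commute is nilpotent -/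
theorem nilpotent_of_commute {G : Type*} [Group G] [Finite G]
    (h : ∀ p q : ℕ, p.Prime → q.Prime → p ≠ q → ∀ x y : G, (∃ j, orderOf x = p ^ j) → (∃ j, orderOf y = q ^ j) → x * y = y * x) :
    Group.IsNilpotent G := by
  refine (Group.isNilpotent_of_finite_tfae (G := G)).out 0 3 |>.2 ?_
  intro p hp P
  rw [← normalizer_eq_top_iff]
  rw [← index_eq_one]
  by_contra hne
  obtain ⟨q, hq, hqd⟩ := Nat.exists_prime_and_dvd hne
  haveI : Fact q.Prime := ⟨hq⟩
  by_cases hqp : q = p
  · subst hqp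
    exact P.not_dvd_index (hqd.trans (index_dvd_of_le le_normalizer))
  · obtain ⟨Q⟩ : Nonempty (Sylow q G) := inferInstance
    have hQ : (Q : Subgroup G) ≤ normalizer ((P : Subgroup G) : Set G) := by
      refine le_trans ?_ (centralizer_le_normalizer _)
      intro y hy
      rw [mem_centralizer_iff]
      intro x hx
      have h1 : ∃ j, orderOf x = p ^ j := by
        obtain ⟨j, hj⟩ := (IsPGroup.iff_orderOf.1 P.2) ⟨x, hx⟩
        exact ⟨j, by rw [← hj, Subgroup.orderOf_mk]⟩
      have h2 : ∃ j, orderOf y = q ^ j := by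
        obtain ⟨j, hj⟩ := (IsPGroup.iff_orderOf.1 Q.2) ⟨y, hy⟩
        exact ⟨j, by rw [← hj, Subgroup.orderOf_mk]⟩
      exact h p q hp.out hq (Ne.symm hqp) x y h1 h2
    exact Q.not_dvd_index (hqd.trans (index_dvd_of_le hQ))

/-- subgroup version -/
theorem nilpotent_subgroup_of_commute {G : Type*} [Group G] [Finite G] (D : Subgroup G)
    (h : ∀ p q : ℕ, p.Prime → q.Prime → p ≠ q → ∀ x ∈ D, ∀ y ∈ D, (∃ j, orderOf x = p ^ j) → (∃ j, orderOf y = q ^ j) → x * y = y * x) :
    Group.IsNilpotent D := by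
  refine nilpotent_of_commute (fun p q hp hq hpq x y hx hy => ?_)
  apply Subtype.ext
  refine h p q hp hq hpq x x.2 y y.2 ?_ ?_
  · obtain ⟨j, hj⟩ := hx; exact ⟨j, by rw [Subgroup.orderOf_coe]; exact hj⟩
  · obtain ⟨j, hj⟩ := hy; exact ⟨j, by rw [Subgroup.orderOf_coe]; exact hj⟩

/-- A normal subgroup `C` of a solvable group whose `p`-elements centralize `O_q(G)` for `q ≠ p`
lies in the Fitting subgroup. -/
theorem le_fitting_of_centralize {G : Type u} [Group G] [Finite G] (hs : Group.IsSolvable G) (C : Subgroup G) (hC : C.Normal)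
    (h : ∀ p q : ℕ, p.Prime → q.Prime → p ≠ q → ∀ x ∈ C, (∃ j, orderOf x = p ^ j) → ∀ y ∈ Cfsg.pCore q G, x * y = y * x) :
    C ≤ Cfsg.fittingSubgroup G := by
  have hpn : ∀ q : ℕ, (Cfsg.pCore q G).Normal := fun q => CfsgLib.Core.pCore_normal q G
  have hcn : ∀ q : ℕ, (centralizer (Cfsg.pCore q G : Set G)).Normal := fun q => by
    haveI := hpn q
    infer_instance
  have key : ∀ p : ℕ, p.Prime → ∀ x ∈ C, (∃ j, orderOf x = p ^ j) → x ∈ Cfsg.fittingSubgroup G := by
    intro p hp x hx hxo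
    set D : Subgroup G := C ⊓ ⨅ q : {q : ℕ // q.Prime ∧ q ≠ p}, centralizer (Cfsg.pCore (q : ℕ) G : Set G) with hD
    have hDmem : ∀ y, y ∈ D ↔ y ∈ C ∧ ∀ q : ℕ, q.Prime → q ≠ p → ∀ z ∈ Cfsg.pCore q G, y * z = z * y := by
      intro y
      rw [hD, mem_inf, mem_iInf]
      constructor
      · rintro ⟨h1, h2⟩
        refine ⟨h1, fun q hq hqp z hz => ?_⟩
        exact (mem_centralizer_iff.1 (h2 ⟨q, hq, hqp⟩) z hz).symm
      · rintro ⟨h1, h2⟩
        refine ⟨h1, fun q => ?_⟩
        rw [mem_centralizer_iff]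
        intro z hz
        exact (h2 q q.2.1 q.2.2 z hz).symm
    have hDn : D.Normal := by
      have : (⨅ q : {q : ℕ // q.Prime ∧ q ≠ p}, centralizer (Cfsg.pCore (q : ℕ) G : Set G)).Normal :=
        normal_iInf_normal (fun q => hcn q)
      rw [hD]; exact Subgroup.normal_inf_normal _ _
    have hxD : x ∈ D := (hDmem x).2 ⟨hx, fun q hq hqp z hz => h p q hp hq (Ne.symm hqp) x hx hxo z hz⟩
    have hDF : ∀ r : ℕ, r.Prime → r ≠ p → ∀ y ∈ D, (∃ j, orderOf y = r ^ j) → y ∈ Cfsg.fittingSubgroup G := by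
      intro r hr hrp y hy hyo
      apply CfsgLib.Solv.centralizer_fitting_le hs
      have hF : Cfsg.fittingSubgroup G ≤ centralizer {y} := by
        rw [CfsgLib.Core.fitting_eq_iSup]
        refine iSup_le (fun q z hz => ?_)
        rw [mem_centralizer_iff]
        rintro w hw
        rw [Set.mem_singleton_iff] at hw
        subst hw
        by_cases hqp : (q : ℕ) = p
        · rw [hqp] at hz
          exact h r p hr hp hrp w ((hDmem w).1 hy).1 hyo z hz
        · exact ((hDmem w).1 hy).2 q (Nat.prime_of_mem_primeFactors q.2) hqp z hz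
      rw [mem_centralizer_iff]
      intro z hz
      exact (mem_centralizer_iff.1 (hF hz) y rfl).symm
    have hnil : Group.IsNilpotent D := by
      refine nilpotent_subgroup_of_commute D (fun r s hr hsp hrs a ha b hb hao hbo => ?_)
      by_cases hsp2 : s = p
      · subst hsp2
        -- a is an `r`-element of F, so in O_r
        have h1 := hDF r hr hrs a ha hao
        obtain ⟨j, hj⟩ := hao
        haveI : Fact r.Prime := ⟨hr⟩
        have h2 := CfsgLib.Core.mem_pCore_of_mem_fitting h1 hj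
        exact (((hDmem b).1 hb).2 r hr hrs a h2).symm
      · have h1 := hDF s hsp hsp2 b hb hbo
        obtain ⟨j, hj⟩ := hbo
        haveI : Fact s.Prime := ⟨hsp⟩
        have h2 := CfsgLib.Core.mem_pCore_of_mem_fitting h1 hj
        exact ((hDmem a).1 ha).2 s hsp hsp2 b h2
    exact CfsgLib.Core.le_fitting hDn hnil hxD
  intro x hx
  refine CfsgLib.Transfer.mem_of_prime_pow _ (orderOf x) x rfl (orderOf_pos x).ne' (fun k hk => ?_)
  obtain ⟨r, j, hr, hj⟩ := hk
  exact key r hr (x ^ k) (C.pow_mem hx k) ⟨j, hj⟩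

/-- stability: an element acting trivially on `W/V` and on `V`, of order coprime to `|W|`, acts trivially on `W`. -/
theorem commute_of_stable {G : Type*} [Group G] [Finite G] {V W : Subgroup G} (hVW : V ≤ W) {x : G} (hx : (orderOf x).Coprime (Nat.card V))
    (h1 : ∀ w ∈ W, x * w * x⁻¹ * w⁻¹ ∈ V) (h2 : ∀ v ∈ V, x * v = v * x) : ∀ w ∈ W, x * w = w * x := by
  intro w hw
  set v := x * w * x⁻¹ * w⁻¹ with hv
  have hvV : v ∈ V := h1 w hw
  have hvx : Commute x v := h2 v hvV
  have h3 : ∀ n : ℕ, x ^ n * w * (x ^ n)⁻¹ = v ^ n * w := by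
    intro n
    induction n with
    | zero => simp
    | succ n ih =>
      have e : x ^ (n + 1) * w * (x ^ (n + 1))⁻¹ = x * (x ^ n * w * (x ^ n)⁻¹) * x⁻¹ := by
        rw [pow_succ']; simp only [mul_inv_rev]; group
      rw [e, ih]
      have e2 : x * v ^ n = v ^ n * x := hvx.pow_right n
      calc x * (v ^ n * w) * x⁻¹ = (x * v ^ n) * w * x⁻¹ := by group
        _ = v ^ n * (x * w * x⁻¹ * w⁻¹) * w := by rw [e2]; group
        _ = v ^ (n + 1) * w := by rw [← hv, pow_succ]
  have h4 := h3 (orderOf x)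
  rw [pow_orderOf_eq_one, one_mul, inv_one, mul_one] at h4
  have h5 : v ^ orderOf x = 1 := by
    have := h4.symm
    rwa [mul_eq_right] at this
  have h6 : orderOf v ∣ Nat.card V := by
    rw [← Subgroup.orderOf_mk v hvV]; exact orderOf_dvd_natCard _
  have h7 : orderOf v = 1 := Nat.Coprime.eq_one_of_dvd (Nat.Coprime.coprime_dvd_left h6 hx.symm) (orderOf_dvd_of_pow_eq_one h5)
  rw [orderOf_eq_one_iff, hv, mul_inv_eq_one, mul_inv_eq_iff_eq_mul] at h7
  exact h7

end CfsgLib.H3Nil
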