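import Mathlib

/-! Counting solutions of `x ^ n = 1`; semidirect products with computable data. -/

set_option linter.style.haveILetI false
set_option linter.unusedSectionVars false

namespace CfsgLib.OT

/-- number of solutions of `x ^ n = 1` -/
noncomputable def F (X : Type*) [Group X] (n : ℕ) : ℕ := Nat.card {x : X // x ^ n = 1}

theorem F_prod (X Y : Type*) [Group X] [Group Y] (n : ℕ) : F (X × Y) n = F X n * F Y n := by
  unfold F
  rw [← Nat.card_prod]
  apply Nat.card_congr
  refine ⟨fun x => (⟨x.1.1, congrArg Prod.fst x.2⟩, ⟨x.1.2, congrArg Prod.snd x.2⟩),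
    fun y => ⟨(y.1.1, y.2.1), Prod.ext y.1.2 y.2.2⟩, fun x => rfl, fun y => rfl⟩

theorem F_pi (X : Type*) [Group X] (k n : ℕ) : F (Fin k → X) n = F X n ^ k := by
  unfold F
  have : Nat.card (Fin k → {x : X // x ^ n = 1}) = Nat.card {x : X // x ^ n = 1} ^ k := by
    rw [Nat.card_fun]; simp
  rw [← this]
  apply Nat.card_congr
  refine ⟨fun x i => ⟨x.1 i, congrFun x.2 i⟩, fun y => ⟨fun i => (y i).1, funext fun i => (y i).2⟩, fun x => rfl, fun y => rfl⟩

theorem F_gcd {X : Type*} [Group X] {e : ℕ} (h : ∀ x : X, x ^ e = 1) (n : ℕ) : F X n = F X (Nat.gcd n e) := by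
  unfold F
  apply Nat.card_congr
  apply Equiv.subtypeEquivRight
  intro x
  rw [← orderOf_dvd_iff_pow_eq_one, ← orderOf_dvd_iff_pow_eq_one, Nat.dvd_gcd_iff]
  exact ⟨fun hx => ⟨hx, orderOf_dvd_of_pow_eq_one (h x)⟩, fun hx => hx.1⟩

theorem F_sum {X : Type*} [Group X] [Finite X] {n : ℕ} (hn : 0 < n) :
    F X n = ∑ d ∈ n.divisors, Nat.card {x : X // orderOf x = d} := by
  classical
  haveI := Fintype.ofFinite X
  unfold F
  have h1 : ∀ d, Nat.card {x : X // orderOf x = d} = (Finset.univ.filter (fun x : X => orderOf x = d)).card := by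
    intro d; rw [Nat.card_eq_fintype_card, Fintype.card_subtype]
  rw [Nat.card_eq_fintype_card, Fintype.card_subtype, Finset.sum_congr rfl (fun d _ => h1 d), ← Finset.card_biUnion]
  · congr 1
    ext x
    simp only [Finset.mem_filter, Finset.mem_univ, true_and, Finset.mem_biUnion, Nat.mem_divisors]
    rw [← orderOf_dvd_iff_pow_eq_one]
    exact ⟨fun h => ⟨_, ⟨h, hn.ne'⟩, rfl⟩, fun ⟨d, ⟨h, _⟩, hd⟩ => hd ▸ h⟩
  · intro a _ b _ hab
    simp only [Function.onFun]
    rw [Finset.disjoint_left]
    intro x hx hy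
    simp only [Finset.mem_filter, Finset.mem_univ, true_and] at hx hy
    exact hab (hx.symm.trans hy)

theorem order_eq {G H : Type*} [Group G] [Group H] [Finite G] [Finite H] (h : ∀ n, 0 < n → F G n = F H n) (n : ℕ) :
    Nat.card {g : G // orderOf g = n} = Nat.card {h : H // orderOf h = n} := by
  induction n using Nat.strong_induction_on with
  | _ n ih =>
    rcases Nat.eq_zero_or_pos n with rfl | hn
    · have h1 : ∀ (X : Type _) [Group X] [Finite X], Nat.card {g : X // orderOf g = 0} = 0 := by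
        intro X _ _
        rw [Nat.card_eq_zero]
        left
        exact ⟨fun x => (orderOf_pos x.1).ne' x.2⟩
      rw [h1]
      symm
      rw [Nat.card_eq_zero]
      left
      exact ⟨fun x => (orderOf_pos x.1).ne' x.2⟩
    · have h1 := h n hn
      rw [F_sum hn, F_sum hn, ← Nat.insert_self_properDivisors hn.ne', Finset.sum_insert Nat.self_notMem_properDivisors,
        Finset.sum_insert Nat.self_notMem_properDivisors] at h1
      have h2 : ∑ d ∈ n.properDivisors, Nat.card {x : G // orderOf x = d} = ∑ d ∈ n.properDivisors, Nat.card {x : H // orderOf x = d} :=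
        Finset.sum_congr rfl (fun d hd => ih d (Nat.mem_properDivisors.1 hd).2)
      omega

/-- action data -/
structure Act (V T : Type) [AddCommGroup V] [Group T] where
  act : T → V → V
  one : ∀ v, act 1 v = v
  mul : ∀ s t v, act (s * t) v = act s (act t v)
  add : ∀ t v w, act t (v + w) = act t v + act t w

variable {V T : Type} [AddCommGroup V] [Group T]

theorem Act.zero (A : Act V T) (t : T) : A.act t 0 = 0 := by
  have := A.add t 0 0
  rw [add_zero] at this
  exact (left_eq_add.1 this)

/-- semidirect product -/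
structure SD (A : Act V T) where
  v : V
  t : T

namespace SD

variable {A : Act V T}

theorem ext' {x y : SD A} (h1 : x.v = y.v) (h2 : x.t = y.t) : x = y := by
  cases x; cases y; simp_all

/-- equivalence with the product -/
def eqv (A : Act V T) : SD A ≃ V × T := ⟨fun x => (x.v, x.t), fun y => ⟨y.1, y.2⟩, fun _ => rfl, fun _ => rfl⟩

instance [DecidableEq V] [DecidableEq T] : DecidableEq (SD A) := fun x y =>
  decidable_of_iff (x.v = y.v ∧ x.t = y.t) ⟨fun h => ext' h.1 h.2, fun h => by rw [h]; exact ⟨rfl, rfl⟩⟩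

instance [Fintype V] [Fintype T] : Fintype (SD A) := Fintype.ofEquiv (V × T) (eqv A).symm

instance : Mul (SD A) := ⟨fun x y => ⟨x.v + A.act x.t y.v, x.t * y.t⟩⟩
instance : One (SD A) := ⟨⟨0, 1⟩⟩
instance : Inv (SD A) := ⟨fun x => ⟨-(A.act x.t⁻¹ x.v), x.t⁻¹⟩⟩

theorem mul_v (x y : SD A) : (x * y).v = x.v + A.act x.t y.v := rfl
theorem mul_t (x y : SD A) : (x * y).t = x.t * y.t := rfl
theorem one_v : (1 : SD A).v = 0 := rfl
theorem one_t : (1 : SD A).t = 1 := rfl

instance : Group (SD A) := Group.ofLeftAxioms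
  (fun x y z => ext' (by rw [mul_v, mul_v, mul_v, mul_v, mul_t, A.mul, A.add, add_assoc]) (by rw [mul_t, mul_t, mul_t, mul_t, mul_assoc]))
  (fun x => ext' (by rw [mul_v, one_v, one_t, A.one, zero_add]) (by rw [mul_t, one_t, one_mul]))
  (fun x => ext' (by show -(A.act x.t⁻¹ x.v) + A.act x.t⁻¹ x.v = 0; rw [neg_add_cancel]) (by show x.t⁻¹ * x.t = 1; rw [inv_mul_cancel]))

/-- projection -/
def proj (A : Act V T) : SD A →* T where
  toFun x := x.t
  map_one' := rfl
  map_mul' _ _ := rfl

/-- inclusion -/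
def incl (A : Act V T) : Multiplicative V →* SD A where
  toFun v := ⟨v.toAdd, 1⟩
  map_one' := rfl
  map_mul' x y := ext' (by rw [mul_v, A.one]; rfl) (by rw [mul_t, mul_one])

theorem isSolvable [hT : Group.IsSolvable T] (A : Act V T) : Group.IsSolvable (SD A) := by
  apply Group.isSolvable_of_ker_le_range (incl A) (proj A)
  intro x hx
  exact ⟨Multiplicative.ofAdd x.v, ext' rfl (MonoidHom.mem_ker.1 hx).symm⟩

end SD

section
variable {X : Type} [Group X]

def sq (x : X) : X := x * x
def cu (x : X) : X := x * x * x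
def se (x : X) : X := x * sq (cu x)

theorem sq_eq (x : X) : sq x = x ^ 2 := (pow_two x).symm
theorem cu_eq (x : X) : cu x = x ^ 3 := by rw [cu, pow_succ, pow_two]
theorem se_eq (x : X) : se x = x ^ 7 := by rw [se, sq_eq, cu_eq, ← pow_mul, ← pow_succ']

/-- power map for the divisors of 84 -/
def pw84 (d : ℕ) (x : X) : X :=
  match d with
  | 1 => x
  | 2 => sq x
  | 3 => cu x
  | 4 => sq (sq x)
  | 6 => sq (cu x)
  | 7 => se x
  | 12 => sq (sq (cu x))
  | 14 => sq (se x)
  | 21 => cu (se x)
  | 28 => sq (sq (se x))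
  | 42 => sq (cu (se x))
  | 84 => sq (sq (cu (se x)))
  | _ => x ^ d

theorem pw84_eq (d : ℕ) (x : X) : pw84 d x = x ^ d := by
  unfold pw84
  split <;> simp only [sq_eq, cu_eq, se_eq, ← pow_mul, pow_one] <;> rfl

theorem F_eq [Fintype X] [DecidableEq X] (d : ℕ) : F X d = (Finset.univ.filter (fun x : X => pw84 d x = 1)).card := by
  unfold F
  rw [Nat.card_eq_fintype_card, Fintype.card_subtype]
  congr 1
  ext x
  simp only [Finset.mem_filter, Finset.mem_univ, true_and, pw84_eq]

end

end CfsgLib.OT
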