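import Mathlib
import Cfsg.Agent.Lib.H3OT

/-! Concrete groups of exponent 84. -/

namespace CfsgLib.OT

/-- the central product `D8 ∘ C4` -/
structure Pa where
  x : Bool
  y : Bool
  z : Bool
  a : Bool
deriving DecidableEq, Fintype

namespace Pa
instance : Mul Pa := ⟨fun u v => ⟨xor u.x v.x, xor u.y v.y, xor u.z v.z, xor (xor u.a v.a) (xor (u.x && v.y) (u.z && v.z))⟩⟩
instance : One Pa := ⟨⟨false, false, false, false⟩⟩
instance : Inv Pa := ⟨fun u => ⟨u.x, u.y, u.z, xor u.a (xor (u.x && u.y) u.z)⟩⟩
instance : Group Pa := Group.ofLeftAxioms (by decide +kernel) (by decide +kernel) (by decide +kernel)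
end Pa

/-- the dihedral group of order 8 -/
structure Da where
  x : Bool
  y : Bool
  a : Bool
deriving DecidableEq, Fintype

namespace Da
instance : Mul Da := ⟨fun u v => ⟨xor u.x v.x, xor u.y v.y, xor (xor u.a v.a) (u.x && v.y)⟩⟩
instance : One Da := ⟨⟨false, false, false⟩⟩
instance : Inv Da := ⟨fun u => ⟨u.x, u.y, xor u.a (u.x && u.y)⟩⟩
instance : Group Da := Group.ofLeftAxioms (by decide +kernel) (by decide +kernel) (by decide +kernel)
end Da

/-- sign -/
def sg (n : ℕ) (b : Bool) (v : ZMod n) : ZMod n := if b then -v else v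

abbrev C2 := Multiplicative (ZMod 2)
abbrev C3 := Multiplicative (ZMod 3)
abbrev C6 := Multiplicative (ZMod 6)
abbrev C7 := Multiplicative (ZMod 7)

/-- multiplication by a power of two -/
def p2 (c : ZMod 3) (v : ZMod 7) : ZMod 7 := if c = 0 then v else if c = 1 then v + v else v + v + v + v

def A21 : Act (ZMod 7) C3 where
  act c v := p2 c.toAdd v
  one := by decide +kernel
  mul := by decide +kernel
  add := by decide +kernel

def A98 : Act (ZMod 7 × ZMod 7) C2 where
  act c v := (sg 7 (c.toAdd = 1) v.1, sg 7 (c.toAdd = 1) v.2)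
  one := by decide +kernel
  mul := by decide +kernel
  add := by decide +kernel

def AQ : Act (ZMod 7) Pa where
  act c v := sg 7 (xor c.x (xor c.y c.z)) v
  one := by decide +kernel
  mul := by decide +kernel
  add := by decide +kernel

def AD : Act (ZMod 7) Pa where
  act c v := sg 7 c.z v
  one := by decide +kernel
  mul := by decide +kernel
  add := by decide +kernel

def AQ3 : Act (ZMod 7) (C3 × Pa) where
  act c v := p2 c.1.toAdd (sg 7 (xor c.2.x (xor c.2.y c.2.z)) v)
  one := by decide +kernel
  mul := by decide +kernel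
  add := by decide +kernel

def AD3 : Act (ZMod 7) (C3 × Pa) where
  act c v := p2 c.1.toAdd (sg 7 c.2.z v)
  one := by decide +kernel
  mul := by decide +kernel
  add := by decide +kernel

def A168 : Act (ZMod 3 × ZMod 7) Da where
  act c v := (sg 3 c.y v.1, sg 7 c.x v.2)
  one := by decide +kernel
  mul := by decide +kernel
  add := by decide +kernel

def A294 : Act (ZMod 7 × ZMod 7) C6 where
  act c v := (fun w : ZMod 7 × ZMod 7 => (5 * w.1, 6 * w.2))^[c.toAdd.val] v
  one := by decide +kernel
  mul := by decide +kernel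
  add := by decide +kernel

/-- multiplication by a generator of `F₈` -/
def mx (v : ZMod 2 × ZMod 2 × ZMod 2) : ZMod 2 × ZMod 2 × ZMod 2 := (v.2.2, v.1 + v.2.2, v.2.1)

/-- Frobenius -/
def fr (v : ZMod 2 × ZMod 2 × ZMod 2) : ZMod 2 × ZMod 2 × ZMod 2 := (v.1, v.2.2, v.2.1 + v.2.2)

def AGL : Act (ZMod 2 × ZMod 2 × ZMod 2) (SD A21) where
  act t v := mx^[t.v.val] (fr^[t.t.toAdd.val] v)
  one := by decide +kernel
  mul := by decide +kernel
  add := by decide +kernel

end CfsgLib.OT
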