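import Mathlib
import Cfsg.Agent.Lib.H3OT

/-! `GL₃(2)`. -/

namespace CfsgLib.OT

@[ext] structure M3 where
  a : ZMod 2
  b : ZMod 2
  c : ZMod 2
  d : ZMod 2
  e : ZMod 2
  f : ZMod 2
  g : ZMod 2
  h : ZMod 2
  i : ZMod 2
deriving DecidableEq

namespace M3
instance : Fintype M3 := Fintype.ofEquiv ((ZMod 2 × ZMod 2 × ZMod 2) × (ZMod 2 × ZMod 2 × ZMod 2) × (ZMod 2 × ZMod 2 × ZMod 2))
  ⟨fun x => ⟨x.1.1, x.1.2.1, x.1.2.2, x.2.1.1, x.2.1.2.1, x.2.1.2.2, x.2.2.1, x.2.2.2.1, x.2.2.2.2⟩,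
   fun y => ((y.a, y.b, y.c), (y.d, y.e, y.f), (y.g, y.h, y.i)), fun _ => rfl, fun _ => rfl⟩
instance : Mul M3 := ⟨fun x y => ⟨x.a * y.a + x.b * y.d + x.c * y.g, x.a * y.b + x.b * y.e + x.c * y.h, x.a * y.c + x.b * y.f + x.c * y.i,
  x.d * y.a + x.e * y.d + x.f * y.g, x.d * y.b + x.e * y.e + x.f * y.h, x.d * y.c + x.e * y.f + x.f * y.i,
  x.g * y.a + x.h * y.d + x.i * y.g, x.g * y.b + x.h * y.e + x.i * y.h, x.g * y.c + x.h * y.f + x.i * y.i⟩⟩
instance : One M3 := ⟨⟨1, 0, 0, 0, 1, 0, 0, 0, 1⟩⟩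
theorem mul_def (x y : M3) : x * y = ⟨x.a * y.a + x.b * y.d + x.c * y.g, x.a * y.b + x.b * y.e + x.c * y.h, x.a * y.c + x.b * y.f + x.c * y.i,
  x.d * y.a + x.e * y.d + x.f * y.g, x.d * y.b + x.e * y.e + x.f * y.h, x.d * y.c + x.e * y.f + x.f * y.i,
  x.g * y.a + x.h * y.d + x.i * y.g, x.g * y.b + x.h * y.e + x.i * y.h, x.g * y.c + x.h * y.f + x.i * y.i⟩ := rfl
theorem one_def : (1 : M3) = ⟨1, 0, 0, 0, 1, 0, 0, 0, 1⟩ := rfl
def det (x : M3) : ZMod 2 := x.a * (x.e * x.i - x.f * x.h) - x.b * (x.d * x.i - x.f * x.g) + x.c * (x.d * x.h - x.e * x.g)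
theorem det_mul (x y : M3) : det (x * y) = det x * det y := by rw [mul_def]; simp only [det]; ring
theorem det_one : det 1 = 1 := by rw [one_def]; simp [det]
theorem assoc (x y z : M3) : x * y * z = x * (y * z) := by
  simp only [mul_def]; ext <;> ring
theorem one_mul' (x : M3) : 1 * x = x := by
  rw [mul_def, one_def]; ext <;> simp
def adj (x : M3) : M3 := ⟨x.e * x.i - x.f * x.h, x.c * x.h - x.b * x.i, x.b * x.f - x.c * x.e,
  x.f * x.g - x.d * x.i, x.a * x.i - x.c * x.g, x.c * x.d - x.a * x.f,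
  x.d * x.h - x.e * x.g, x.b * x.g - x.a * x.h, x.a * x.e - x.b * x.d⟩
theorem adj_mul (x : M3) (h : det x = 1) : adj x * x = 1 := by
  rw [mul_def, one_def]
  simp only [det] at h
  ext <;> simp only [adj]
  · rw [← h]; ring
  · ring
  · ring
  · ring
  · rw [← h]; ring
  · ring
  · ring
  · ring
  · rw [← h]; ring
theorem det_adj (x : M3) (h : det x = 1) : det (adj x) = 1 := by
  have h1 := congrArg det (adj_mul x h)
  rwa [det_mul, h, mul_one, det_one] at h1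
end M3

/-- `GL₃(2)` -/
def L3 : Type := {x : M3 // M3.det x = 1}

namespace L3
instance : DecidableEq L3 := inferInstanceAs (DecidableEq {x : M3 // M3.det x = 1})
instance : Fintype L3 := inferInstanceAs (Fintype {x : M3 // M3.det x = 1})
instance : Mul L3 := ⟨fun x y => ⟨x.1 * y.1, by rw [M3.det_mul, x.2, y.2, one_mul]⟩⟩
instance : One L3 := ⟨⟨1, M3.det_one⟩⟩
instance : Inv L3 := ⟨fun x => ⟨M3.adj x.1, M3.det_adj x.1 x.2⟩⟩
instance : Group L3 := Group.ofLeftAxioms (fun x y z => Subtype.ext (M3.assoc _ _ _)) (fun x => Subtype.ext (M3.one_mul' _))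
  (fun x => Subtype.ext (M3.adj_mul _ x.2))
end L3

def gx : L3 := ⟨⟨0, 0, 1, 0, 1, 0, 1, 0, 0⟩, by decide⟩
def gg : L3 := ⟨⟨0, 0, 1, 0, 1, 0, 1, 1, 0⟩, by decide⟩
def gh : L3 := ⟨⟨0, 0, 1, 0, 1, 1, 1, 0, 0⟩, by decide⟩

open scoped commutatorElement in
theorem L3_not_solvable : ¬ Group.IsSolvable L3 := by
  apply _root_.not_isSolvable_of_mem_derivedSeries (g := gx) (by decide +kernel)
  intro n
  induction n with
  | zero => exact Subgroup.mem_top _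
  | succ n ih =>
    have h1 : gx = ⁅gg * gx * gg⁻¹, gh * gx * gh⁻¹⁆ := by
      rw [commutatorElement_def]; decide +kernel
    rw [h1, derivedSeries_succ]
    exact Subgroup.commutator_mem_commutator ((derivedSeries_normal L3 n).conj_mem _ ih gg) ((derivedSeries_normal L3 n).conj_mem _ ih gh)

end CfsgLib.OT
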