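import Mathlib
import Cfsg.Agent.Lib.H3OT2
import Cfsg.Agent.Lib.H3OT3

/-! Element counts. -/

namespace CfsgLib.OT

theorem cA21_1 : F (SD A21) 1 = 1 := by rw [F_eq]; decide +kernel
theorem cA21_2 : F (SD A21) 2 = 1 := by rw [F_eq]; decide +kernel
theorem cA21_3 : F (SD A21) 3 = 15 := by rw [F_eq]; decide +kernel
theorem cA21_4 : F (SD A21) 4 = 1 := by rw [F_eq]; decide +kernel
theorem cA21_6 : F (SD A21) 6 = 15 := by rw [F_eq]; decide +kernel
theorem cA21_7 : F (SD A21) 7 = 7 := by rw [F_eq]; decide +kernel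
theorem cA21_12 : F (SD A21) 12 = 15 := by rw [F_eq]; decide +kernel
theorem cA21_14 : F (SD A21) 14 = 7 := by rw [F_eq]; decide +kernel
theorem cA21_21 : F (SD A21) 21 = 21 := by rw [F_eq]; decide +kernel
theorem cA21_28 : F (SD A21) 28 = 7 := by rw [F_eq]; decide +kernel
theorem cA21_42 : F (SD A21) 42 = 21 := by rw [F_eq]; decide +kernel
theorem cA21_84 : F (SD A21) 84 = 21 := by rw [F_eq]; decide +kernel
theorem eA21 : ∀ x : SD A21, x ^ 84 = 1 := by
  have h : ∀ x : SD A21, pw84 84 x = 1 := by decide +kernel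
  intro x
  rw [← pw84_eq]; exact h x

theorem cA98_1 : F (SD A98) 1 = 1 := by rw [F_eq]; decide +kernel
theorem cA98_2 : F (SD A98) 2 = 50 := by rw [F_eq]; decide +kernel
theorem cA98_3 : F (SD A98) 3 = 1 := by rw [F_eq]; decide +kernel
theorem cA98_4 : F (SD A98) 4 = 50 := by rw [F_eq]; decide +kernel
theorem cA98_6 : F (SD A98) 6 = 50 := by rw [F_eq]; decide +kernel
theorem cA98_7 : F (SD A98) 7 = 49 := by rw [F_eq]; decide +kernel
theorem cA98_12 : F (SD A98) 12 = 50 := by rw [F_eq]; decide +kernel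
theorem cA98_14 : F (SD A98) 14 = 98 := by rw [F_eq]; decide +kernel
theorem cA98_21 : F (SD A98) 21 = 49 := by rw [F_eq]; decide +kernel
theorem cA98_28 : F (SD A98) 28 = 98 := by rw [F_eq]; decide +kernel
theorem cA98_42 : F (SD A98) 42 = 98 := by rw [F_eq]; decide +kernel
theorem cA98_84 : F (SD A98) 84 = 98 := by rw [F_eq]; decide +kernel
theorem eA98 : ∀ x : SD A98, x ^ 84 = 1 := by
  have h : ∀ x : SD A98, pw84 84 x = 1 := by decide +kernel
  intro x
  rw [← pw84_eq]; exact h x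

theorem cC2_1 : F (C2) 1 = 1 := by rw [F_eq]; decide +kernel
theorem cC2_2 : F (C2) 2 = 2 := by rw [F_eq]; decide +kernel
theorem cC2_3 : F (C2) 3 = 1 := by rw [F_eq]; decide +kernel
theorem cC2_4 : F (C2) 4 = 2 := by rw [F_eq]; decide +kernel
theorem cC2_6 : F (C2) 6 = 2 := by rw [F_eq]; decide +kernel
theorem cC2_7 : F (C2) 7 = 1 := by rw [F_eq]; decide +kernel
theorem cC2_12 : F (C2) 12 = 2 := by rw [F_eq]; decide +kernel
theorem cC2_14 : F (C2) 14 = 2 := by rw [F_eq]; decide +kernel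
theorem cC2_21 : F (C2) 21 = 1 := by rw [F_eq]; decide +kernel
theorem cC2_28 : F (C2) 28 = 2 := by rw [F_eq]; decide +kernel
theorem cC2_42 : F (C2) 42 = 2 := by rw [F_eq]; decide +kernel
theorem cC2_84 : F (C2) 84 = 2 := by rw [F_eq]; decide +kernel
theorem eC2 : ∀ x : C2, x ^ 84 = 1 := by
  have h : ∀ x : C2, pw84 84 x = 1 := by decide +kernel
  intro x
  rw [← pw84_eq]; exact h x

theorem cC3_1 : F (C3) 1 = 1 := by rw [F_eq]; decide +kernel
theorem cC3_2 : F (C3) 2 = 1 := by rw [F_eq]; decide +kernel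
theorem cC3_3 : F (C3) 3 = 3 := by rw [F_eq]; decide +kernel
theorem cC3_4 : F (C3) 4 = 1 := by rw [F_eq]; decide +kernel
theorem cC3_6 : F (C3) 6 = 3 := by rw [F_eq]; decide +kernel
theorem cC3_7 : F (C3) 7 = 1 := by rw [F_eq]; decide +kernel
theorem cC3_12 : F (C3) 12 = 3 := by rw [F_eq]; decide +kernel
theorem cC3_14 : F (C3) 14 = 1 := by rw [F_eq]; decide +kernel
theorem cC3_21 : F (C3) 21 = 3 := by rw [F_eq]; decide +kernel
theorem cC3_28 : F (C3) 28 = 1 := by rw [F_eq]; decide +kernel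
theorem cC3_42 : F (C3) 42 = 3 := by rw [F_eq]; decide +kernel
theorem cC3_84 : F (C3) 84 = 3 := by rw [F_eq]; decide +kernel
theorem eC3 : ∀ x : C3, x ^ 84 = 1 := by
  have h : ∀ x : C3, pw84 84 x = 1 := by decide +kernel
  intro x
  rw [← pw84_eq]; exact h x

theorem cC7_1 : F (C7) 1 = 1 := by rw [F_eq]; decide +kernel
theorem cC7_2 : F (C7) 2 = 1 := by rw [F_eq]; decide +kernel
theorem cC7_3 : F (C7) 3 = 1 := by rw [F_eq]; decide +kernel
theorem cC7_4 : F (C7) 4 = 1 := by rw [F_eq]; decide +kernel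
theorem cC7_6 : F (C7) 6 = 1 := by rw [F_eq]; decide +kernel
theorem cC7_7 : F (C7) 7 = 7 := by rw [F_eq]; decide +kernel
theorem cC7_12 : F (C7) 12 = 1 := by rw [F_eq]; decide +kernel
theorem cC7_14 : F (C7) 14 = 7 := by rw [F_eq]; decide +kernel
theorem cC7_21 : F (C7) 21 = 7 := by rw [F_eq]; decide +kernel
theorem cC7_28 : F (C7) 28 = 7 := by rw [F_eq]; decide +kernel
theorem cC7_42 : F (C7) 42 = 7 := by rw [F_eq]; decide +kernel
theorem cC7_84 : F (C7) 84 = 7 := by rw [F_eq]; decide +kernel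
theorem eC7 : ∀ x : C7, x ^ 84 = 1 := by
  have h : ∀ x : C7, pw84 84 x = 1 := by decide +kernel
  intro x
  rw [← pw84_eq]; exact h x

theorem cAQ_1 : F (SD AQ) 1 = 1 := by rw [F_eq]; decide +kernel
theorem cAQ_2 : F (SD AQ) 2 = 44 := by rw [F_eq]; decide +kernel
theorem cAQ_3 : F (SD AQ) 3 = 1 := by rw [F_eq]; decide +kernel
theorem cAQ_4 : F (SD AQ) 4 = 64 := by rw [F_eq]; decide +kernel
theorem cAQ_6 : F (SD AQ) 6 = 44 := by rw [F_eq]; decide +kernel
theorem cAQ_7 : F (SD AQ) 7 = 7 := by rw [F_eq]; decide +kernel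
theorem cAQ_12 : F (SD AQ) 12 = 64 := by rw [F_eq]; decide +kernel
theorem cAQ_14 : F (SD AQ) 14 = 56 := by rw [F_eq]; decide +kernel
theorem cAQ_21 : F (SD AQ) 21 = 7 := by rw [F_eq]; decide +kernel
theorem cAQ_28 : F (SD AQ) 28 = 112 := by rw [F_eq]; decide +kernel
theorem cAQ_42 : F (SD AQ) 42 = 56 := by rw [F_eq]; decide +kernel
theorem cAQ_84 : F (SD AQ) 84 = 112 := by rw [F_eq]; decide +kernel
theorem eAQ : ∀ x : SD AQ, x ^ 84 = 1 := by
  have h : ∀ x : SD AQ, pw84 84 x = 1 := by decide +kernel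
  intro x
  rw [← pw84_eq]; exact h x

theorem cAD_1 : F (SD AD) 1 = 1 := by rw [F_eq]; decide +kernel
theorem cAD_2 : F (SD AD) 2 = 20 := by rw [F_eq]; decide +kernel
theorem cAD_3 : F (SD AD) 3 = 1 := by rw [F_eq]; decide +kernel
theorem cAD_4 : F (SD AD) 4 = 64 := by rw [F_eq]; decide +kernel
theorem cAD_6 : F (SD AD) 6 = 20 := by rw [F_eq]; decide +kernel
theorem cAD_7 : F (SD AD) 7 = 7 := by rw [F_eq]; decide +kernel
theorem cAD_12 : F (SD AD) 12 = 64 := by rw [F_eq]; decide +kernel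
theorem cAD_14 : F (SD AD) 14 = 56 := by rw [F_eq]; decide +kernel
theorem cAD_21 : F (SD AD) 21 = 7 := by rw [F_eq]; decide +kernel
theorem cAD_28 : F (SD AD) 28 = 112 := by rw [F_eq]; decide +kernel
theorem cAD_42 : F (SD AD) 42 = 56 := by rw [F_eq]; decide +kernel
theorem cAD_84 : F (SD AD) 84 = 112 := by rw [F_eq]; decide +kernel
theorem eAD : ∀ x : SD AD, x ^ 84 = 1 := by
  have h : ∀ x : SD AD, pw84 84 x = 1 := by decide +kernel
  intro x
  rw [← pw84_eq]; exact h x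

end CfsgLib.OT
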