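import Mathlib
import Cfsg.Agent.Lib.H3OT2
import Cfsg.Agent.Lib.H3OT3

/-! Element counts. -/

namespace CfsgLib.OT

theorem cA294_1 : F (SD A294) 1 = 1 := by rw [F_eq]; decide +kernel
theorem cA294_2 : F (SD A294) 2 = 50 := by rw [F_eq]; decide +kernel
theorem cA294_3 : F (SD A294) 3 = 15 := by rw [F_eq]; decide +kernel
theorem cA294_4 : F (SD A294) 4 = 50 := by rw [F_eq]; decide +kernel
theorem cA294_6 : F (SD A294) 6 = 162 := by rw [F_eq]; decide +kernel
theorem cA294_7 : F (SD A294) 7 = 49 := by rw [F_eq]; decide +kernel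
theorem cA294_12 : F (SD A294) 12 = 162 := by rw [F_eq]; decide +kernel
theorem cA294_14 : F (SD A294) 14 = 98 := by rw [F_eq]; decide +kernel
theorem cA294_21 : F (SD A294) 21 = 147 := by rw [F_eq]; decide +kernel
theorem cA294_28 : F (SD A294) 28 = 98 := by rw [F_eq]; decide +kernel
theorem cA294_42 : F (SD A294) 42 = 294 := by rw [F_eq]; decide +kernel
theorem cA294_84 : F (SD A294) 84 = 294 := by rw [F_eq]; decide +kernel
theorem eA294 : ∀ x : SD A294, x ^ 84 = 1 := by
  have h : ∀ x : SD A294, pw84 84 x = 1 := by decide +kernel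
  intro x
  rw [← pw84_eq]; exact h x

theorem cA168_1 : F (SD A168) 1 = 1 := by rw [F_eq]; decide +kernel
theorem cA168_2 : F (SD A168) 2 = 22 := by rw [F_eq]; decide +kernel
theorem cA168_3 : F (SD A168) 3 = 3 := by rw [F_eq]; decide +kernel
theorem cA168_4 : F (SD A168) 4 = 64 := by rw [F_eq]; decide +kernel
theorem cA168_6 : F (SD A168) 6 = 54 := by rw [F_eq]; decide +kernel
theorem cA168_7 : F (SD A168) 7 = 7 := by rw [F_eq]; decide +kernel
theorem cA168_12 : F (SD A168) 12 = 96 := by rw [F_eq]; decide +kernel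
theorem cA168_14 : F (SD A168) 14 = 70 := by rw [F_eq]; decide +kernel
theorem cA168_21 : F (SD A168) 21 = 21 := by rw [F_eq]; decide +kernel
theorem cA168_28 : F (SD A168) 28 = 112 := by rw [F_eq]; decide +kernel
theorem cA168_42 : F (SD A168) 42 = 126 := by rw [F_eq]; decide +kernel
theorem cA168_84 : F (SD A168) 84 = 168 := by rw [F_eq]; decide +kernel
theorem eA168 : ∀ x : SD A168, x ^ 84 = 1 := by
  have h : ∀ x : SD A168, pw84 84 x = 1 := by decide +kernel
  intro x
  rw [← pw84_eq]; exact h x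

end CfsgLib.OT
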