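import Mathlib
import Cfsg.Agent.Lib.H3OT2
import Cfsg.Agent.Lib.H3OT3

/-! Element counts. -/

namespace CfsgLib.OT

theorem cAQ3_1 : F (SD AQ3) 1 = 1 := by rw [F_eq]; decide +kernel
theorem cAQ3_2 : F (SD AQ3) 2 = 44 := by rw [F_eq]; decide +kernel
theorem cAQ3_3 : F (SD AQ3) 3 = 15 := by rw [F_eq]; decide +kernel
theorem cAQ3_4 : F (SD AQ3) 4 = 64 := by rw [F_eq]; decide +kernel
theorem cAQ3_6 : F (SD AQ3) 6 = 156 := by rw [F_eq]; decide +kernel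
theorem cAQ3_7 : F (SD AQ3) 7 = 7 := by rw [F_eq]; decide +kernel
theorem cAQ3_12 : F (SD AQ3) 12 = 288 := by rw [F_eq]; decide +kernel
theorem cAQ3_14 : F (SD AQ3) 14 = 56 := by rw [F_eq]; decide +kernel
theorem cAQ3_21 : F (SD AQ3) 21 = 21 := by rw [F_eq]; decide +kernel
theorem cAQ3_28 : F (SD AQ3) 28 = 112 := by rw [F_eq]; decide +kernel
theorem cAQ3_42 : F (SD AQ3) 42 = 168 := by rw [F_eq]; decide +kernel
theorem cAQ3_84 : F (SD AQ3) 84 = 336 := by rw [F_eq]; decide +kernel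
theorem eAQ3 : ∀ x : SD AQ3, x ^ 84 = 1 := by
  have h : ∀ x : SD AQ3, pw84 84 x = 1 := by decide +kernel
  intro x
  rw [← pw84_eq]; exact h x

end CfsgLib.OT
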