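import Mathlib
import Cfsg.Agent.Lib.H3OT2
import Cfsg.Agent.Lib.H3OT3

/-! Element counts. -/

namespace CfsgLib.OT

theorem cL3_1 : F (L3) 1 = 1 := by rw [F_eq]; decide +kernel
theorem cL3_2 : F (L3) 2 = 22 := by rw [F_eq]; decide +kernel
theorem cL3_3 : F (L3) 3 = 57 := by rw [F_eq]; decide +kernel
theorem cL3_4 : F (L3) 4 = 64 := by rw [F_eq]; decide +kernel
theorem cL3_6 : F (L3) 6 = 78 := by rw [F_eq]; decide +kernel
theorem cL3_7 : F (L3) 7 = 49 := by rw [F_eq]; decide +kernel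
theorem cL3_12 : F (L3) 12 = 120 := by rw [F_eq]; decide +kernel
theorem cL3_14 : F (L3) 14 = 70 := by rw [F_eq]; decide +kernel
theorem cL3_21 : F (L3) 21 = 105 := by rw [F_eq]; decide +kernel
theorem cL3_28 : F (L3) 28 = 112 := by rw [F_eq]; decide +kernel
theorem cL3_42 : F (L3) 42 = 126 := by rw [F_eq]; decide +kernel
theorem cL3_84 : F (L3) 84 = 168 := by rw [F_eq]; decide +kernel
theorem eL3 : ∀ x : L3, x ^ 84 = 1 := by
  have h : ∀ x : L3, pw84 84 x = 1 := by decide +kernel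
  intro x
  rw [← pw84_eq]; exact h x

end CfsgLib.OT
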