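import Mathlib
import Cfsg.Agent.Lib.H3Kaz
import Cfsg.Agent.Lib.H3Misc
import Cfsg.Agent.Lib.FrobAct2

/-!
# Subgroups of prime power index which are cyclic by a cyclic 2-group
-/

set_option autoImplicit false
set_option linter.style.haveILetI false

namespace CfsgLib.H3Pp

open Subgroup

universe u

/-- the hypothesis -/
structure Hyp (p s : ℕ) (G : Type u) [Group G] (A B : Subgroup G) : Prop where
  le : B ≤ A
  norm : ∀ a ∈ A, ∀ b ∈ B, a * b * a⁻¹ ∈ B
  cyc : IsCyclic B
  gen : ∃ a ∈ A, (∀ x ∈ A, ∃ b ∈ B, ∃ k : ℤ, x = b * a ^ k) ∧ ∃ k : ℕ, a ^ (2 ^ k) ∈ B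
  idx : A.index = p ^ s

theorem Hyp.nrm {p s : ℕ} {G : Type u} [Group G] {A B : Subgroup G} (h : Hyp p s G A B) : (B.subgroupOf A).Normal :=
  ⟨fun n hn g => mem_subgroupOf.2 (h.norm g g.2 n (mem_subgroupOf.1 hn))⟩

theorem Hyp.cycq {p s : ℕ} {G : Type u} [Group G] {A B : Subgroup G} (h : Hyp p s G A B) [(B.subgroupOf A).Normal] :
    IsCyclic (A ⧸ (B.subgroupOf A)) ∧ ∃ k : ℕ, Nat.card (A ⧸ (B.subgroupOf A)) ∣ 2 ^ k := by
  obtain ⟨a, ha, hAB, k, hk⟩ := h.gen
  have hgen : ∀ x : A ⧸ (B.subgroupOf A), x ∈ zpowers ((⟨a, ha⟩ : A) : A ⧸ (B.subgroupOf A)) := by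
    intro x
    obtain ⟨⟨x, hx⟩, rfl⟩ := QuotientGroup.mk_surjective x
    obtain ⟨b, hb, j, rfl⟩ := hAB x hx
    refine ⟨j, ?_⟩
    change ((⟨a, ha⟩ : A) : A ⧸ (B.subgroupOf A)) ^ j = _
    rw [← QuotientGroup.mk_zpow, QuotientGroup.eq, mem_subgroupOf]
    change (a ^ j)⁻¹ * (b * a ^ j) ∈ B
    have h1 := h.norm ((a ^ j)⁻¹) (inv_mem (zpow_mem ha j)) b hb
    rwa [inv_inv, mul_assoc] at h1
  refine ⟨⟨⟨_, hgen⟩⟩, k, ?_⟩
  rw [← orderOf_eq_card_of_forall_mem_zpowers hgen]
  refine orderOf_dvd_of_pow_eq_one ?_
  rw [← QuotientGroup.mk_pow]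
  exact (QuotientGroup.eq_one_iff _).2 (mem_subgroupOf.2 hk)

theorem Hyp.rel {p s : ℕ} {G : Type u} [Group G] {A B : Subgroup G} (h : Hyp p s G A B) : ∃ k : ℕ, B.relIndex A = 2 ^ k := by
  haveI := h.nrm
  obtain ⟨-, k, hk⟩ := h.cycq
  obtain ⟨j, -, hj⟩ := (Nat.dvd_prime_pow Nat.prime_two).1 hk
  exact ⟨j, hj⟩

theorem Hyp.map {p s : ℕ} (hp : p.Prime) {G : Type u} [Group G] {A B : Subgroup G} (h : Hyp p s G A B) {Q : Type u} [Group Q] (f : G →* Q) (hf : Function.Surjective f) :
    ∃ s', Hyp p s' Q (A.map f) (B.map f) := by
  have h1 : (A.map f).index ∣ p ^ s := by rw [← h.idx]; exact Subgroup.index_map_dvd A hf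
  obtain ⟨s', -, hs'⟩ := (Nat.dvd_prime_pow hp).1 h1
  refine ⟨s', Subgroup.map_mono h.le, ?_, ?_, ?_, hs'⟩
  · rintro _ ⟨a, ha, rfl⟩ _ ⟨b, hb, rfl⟩
    exact ⟨a * b * a⁻¹, h.norm a ha b hb, by rw [map_mul, map_mul, map_inv]⟩
  · haveI := h.cyc
    exact isCyclic_of_surjective (f.subgroupMap B) (f.subgroupMap_surjective B)
  · obtain ⟨a, ha, hAB, k, hk⟩ := h.gen
    refine ⟨f a, ⟨a, ha, rfl⟩, ?_, k, ⟨_, hk, map_pow f _ _⟩⟩
    rintro _ ⟨x, hx, rfl⟩
    obtain ⟨b, hb, j, rfl⟩ := hAB x hx
    exact ⟨f b, ⟨b, hb, rfl⟩, j, by rw [map_mul, map_zpow]⟩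

theorem main (p : ℕ) (hp : p.Prime) : ∀ (n : ℕ) (G : Type u) [Group G] [Finite G] (s : ℕ) (A B : Subgroup G), Nat.card G ≤ n → Hyp p s G A B →
    Group.IsSolvable G := by
  intro n
  induction n with
  | zero =>
    intro G _ _ s A B hn _
    exact absurd hn (by have := Nat.card_pos (α := G); omega)
  | succ n ih =>
    intro G _ _ s A B hn h
    haveI : Fact p.Prime := ⟨hp⟩
    haveI : Fact (Nat.Prime 2) := ⟨Nat.prime_two⟩
    -- elements with class size a prime power
    by_cases hx : ∃ (x : G) (q k : ℕ), x ≠ 1 ∧ q.Prime ∧ (centralizer ({x} : Set G)).index = q ^ k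
    · obtain ⟨x, q, k, hx1, hq, hxk⟩ := hx
      have hN := CfsgLib.H3Kaz.kazarin hq hxk
      set N := normalClosure ({x} : Set G) with hNdef
      have hxN : x ∈ N := Subgroup.subset_normalClosure rfl
      haveI : Nontrivial N := ⟨⟨⟨x, hxN⟩, 1, fun h0 => hx1 (congrArg Subtype.val h0)⟩⟩
      have hlt : Nat.card (G ⧸ N) < Nat.card G := by
        have h1 := Subgroup.card_eq_card_quotient_mul_card_subgroup N
        have h2 : 1 < Nat.card N := Finite.one_lt_card
        have h3 : 0 < Nat.card (G ⧸ N) := Nat.card_pos
        rw [h1]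
        nlinarith
      obtain ⟨s', hs'⟩ := h.map hp (QuotientGroup.mk' N) (QuotientGroup.mk'_surjective N)
      haveI := ih (G ⧸ N) s' _ _ (by omega) hs'
      haveI := hN
      exact Group.isSolvable_of_ker_le_range N.subtype (QuotientGroup.mk' N) (by
        rw [QuotientGroup.ker_mk', range_subtype])
    · push Not at hx
      obtain ⟨k, hk⟩ := h.rel
      haveI := h.nrm
      obtain ⟨hqc, -⟩ := h.cycq
      have hpG : IsPGroup p G → Group.IsSolvable G := by
        intro hpG
        haveI := hpG.isNilpotent
        infer_instance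
      have h2G : IsPGroup 2 G → Group.IsSolvable G := by
        intro hpG
        haveI := hpG.isNilpotent
        infer_instance
      -- the group A is nontrivial
      have hcA : Nat.card A * p ^ s = Nat.card G := by rw [← h.idx]; exact A.card_mul_index
      have hBA : Nat.card B * 2 ^ k = Nat.card A := by
        rw [← hk]
        have := Subgroup.relIndex_mul_relIndex (⊥ : Subgroup G) B A bot_le h.le
        rwa [relIndex_bot_left, relIndex_bot_left] at this
      have hcent : ∀ x : G, x ≠ 1 → A ≤ centralizer ({x} : Set G) → False := by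
        intro x hx1 hA
        have h1 : (centralizer ({x} : Set G)).index ∣ p ^ s := by rw [← h.idx]; exact Subgroup.index_dvd_of_le hA
        obtain ⟨j, -, hj⟩ := (Nat.dvd_prime_pow hp).1 h1
        exact hx x p j hx1 hp hj
      by_cases hB2 : 2 ∣ Nat.card B
      · -- a central involution
        exfalso
        obtain ⟨z, hz⟩ := exists_prime_orderOf_dvd_card' 2 hB2
        have hz' : orderOf (z : G) = 2 := by rw [Subgroup.orderOf_coe, hz]
        have hz1 : (z : G) ≠ 1 := by
          intro h0
          rw [h0, orderOf_one] at hz'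
          omega
        refine hcent z hz1 ?_
        intro a ha
        rw [mem_centralizer_singleton_iff]
        have h1 : a * z * a⁻¹ ∈ B := h.norm a ha z z.2
        have h2 : orderOf (⟨a * z * a⁻¹, h1⟩ : B) = 2 := by
          rw [Subgroup.orderOf_mk, ← hz']
          exact orderOf_injective (MulAut.conj a).toMonoidHom (MulAut.conj a).injective (z : G)
        haveI := h.cyc
        have h3 := CfsgLib.FrobAct.eq_of_isCyclic (X := B) (n := 2) (by norm_num) (H := zpowers z) (K := zpowers ⟨a * z * a⁻¹, h1⟩)
          (by rw [Nat.card_zpowers, hz]) (by rw [Nat.card_zpowers, h2])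
        have h4 : (⟨a * z * a⁻¹, h1⟩ : B) ∈ zpowers z := by rw [h3]; exact mem_zpowers _
        obtain ⟨j, hj⟩ := mem_zpowers_iff.1 h4
        have hzz : z ^ 2 = 1 := by rw [← hz]; exact pow_orderOf_eq_one z
        have h5 : (z : G) = a * z * a⁻¹ := by
          rcases Int.even_or_odd j with ⟨m, hm⟩ | ⟨m, hm⟩
          · exfalso
            rw [hm, ← two_mul, zpow_mul, zpow_ofNat, hzz, one_zpow] at hj
            rw [← hj, orderOf_one] at h2
            omega
          · rw [hm, zpow_add, zpow_mul, zpow_ofNat, hzz, one_zpow, one_mul, zpow_one] at hj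
            exact congrArg Subtype.val hj
        calc a * (z : G) = (a * z * a⁻¹) * a := by group
          _ = z * a := by rw [← h5]
      · by_cases hp2 : p = 2
        · -- p = 2
          subst hp2
          by_cases hB1 : B = ⊥
          · apply h2G
            refine IsPGroup.of_card (n := k + s) ?_
            rw [← hcA, ← hBA, hB1, card_bot, one_mul, ← pow_add]
          · exfalso
            obtain ⟨b, hb, hb1⟩ := (Subgroup.bot_or_exists_ne_one B).resolve_left hB1
            have h1 : B ≤ centralizer ({b} : Set G) := by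
              intro c hc
              rw [mem_centralizer_singleton_iff]
              haveI := h.cyc
              letI := h.cyc.commGroup
              exact congrArg Subtype.val (mul_comm (⟨c, hc⟩ : B) ⟨b, hb⟩)
            have h2 : (centralizer ({b} : Set G)).index ∣ 2 ^ (k + s) := by
              refine (Subgroup.index_dvd_of_le h1).trans ?_
              rw [← Subgroup.relIndex_mul_index h.le, hk, h.idx, ← pow_add]
            obtain ⟨j, -, hj⟩ := (Nat.dvd_prime_pow Nat.prime_two).1 h2
            exact hx b 2 j hb1 Nat.prime_two hj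
        · by_cases hG2 : 2 ∣ Nat.card G
          · -- a cyclic Sylow 2-subgroup
            obtain ⟨P0⟩ : Nonempty (Sylow 2 A) := inferInstance
            have hodd : ¬ 2 ∣ A.index := by
              rw [h.idx]
              intro h0
              have := Nat.Prime.dvd_of_dvd_pow Nat.prime_two h0
              exact hp2 ((Nat.prime_dvd_prime_iff_eq Nat.prime_two hp).1 this).symm
            have hP0c : IsCyclic P0 := by
              haveI := hqc
              refine isCyclic_of_injective ((QuotientGroup.mk' (B.subgroupOf A)).comp (P0 : Subgroup A).subtype) ?_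
              rw [injective_iff_map_eq_one]
              intro x hx0
              have h4 : (x : A) ∈ B.subgroupOf A := (QuotientGroup.eq_one_iff _).1 hx0
              obtain ⟨j, hj⟩ := P0.2 x
              have h5 : orderOf x ∣ 2 ^ j := orderOf_dvd_of_pow_eq_one hj
              have h6 : orderOf x ∣ Nat.card B := by
                have := orderOf_dvd_natCard (⟨_, mem_subgroupOf.1 h4⟩ : B)
                rwa [Subgroup.orderOf_mk, Subgroup.orderOf_coe, Subgroup.orderOf_coe] at this
              have h7 : (2 ^ j).Coprime (Nat.card B) := Nat.Coprime.pow_left _ ((Nat.Prime.coprime_iff_not_dvd Nat.prime_two).2 hB2)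
              exact orderOf_eq_one_iff.1 (Nat.eq_one_of_dvd_coprimes h7 h5 h6)
            let P1 : Subgroup G := (P0 : Subgroup A).map A.subtype
            have hP1p : IsPGroup 2 P1 := P0.2.map _
            have hP1c : IsCyclic P1 := isCyclic_of_surjective (A.subtype.subgroupMap P0) (A.subtype.subgroupMap_surjective P0)
            have hP1i : ¬ 2 ∣ P1.index := by
              intro h0
              have h1 : P1.index = (P0 : Subgroup A).index * A.index := by
                have h2 : P1 ≤ A := Subgroup.map_subtype_le _
                rw [← Subgroup.relIndex_mul_index h2]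
                have h3 : P1.subgroupOf A = P0 := Subgroup.comap_map_eq_self_of_injective A.subtype_injective _
                rw [Subgroup.relIndex, h3]
              rw [h1] at h0
              rcases (Nat.Prime.dvd_mul Nat.prime_two).1 h0 with h3 | h3
              · exact P0.not_dvd_index h3
              · exact hodd h3
            let P : Sylow 2 G := hP1p.toSylow hP1i
            have hPc : IsCyclic P := hP1c
            have hmin : (Nat.card G).minFac = 2 := (Nat.minFac_eq_two_iff _).2 hG2
            have hcomp := IsCyclic.isComplement' hmin hPc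
            set K := (MonoidHom.transferSylow P (hPc.normalizer_le_centralizer hmin)).ker with hK
            have hKi : K.index = Nat.card P := hcomp.symm.index_eq_card
            obtain ⟨m, hm⟩ := IsPGroup.iff_card.1 P.2
            have hKi' : K.index = 2 ^ m := by rw [hKi]; exact hm
            have hm0 : m ≠ 0 := by
              rintro rfl
              have h1 := P.card_mul_index
              rw [hm, pow_zero, one_mul] at h1
              exact P.not_dvd_index (h1 ▸ hG2)
            have hKodd : ¬ 2 ∣ Nat.card K := by
              rw [← hcomp.index_eq_card]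
              exact P.not_dvd_index
            have hBK : B ≤ K := by
              intro b hb
              have h4 : orderOf (b : G ⧸ K) ∣ 2 ^ m := by rw [← hKi']; exact orderOf_dvd_natCard _
              have h5 : orderOf (b : G ⧸ K) ∣ Nat.card B := by
                refine (orderOf_map_dvd (QuotientGroup.mk' K) b).trans ?_
                have := orderOf_dvd_natCard (⟨b, hb⟩ : B)
                rwa [Subgroup.orderOf_mk] at this
              have h7 : (2 ^ m).Coprime (Nat.card B) := Nat.Coprime.pow_left _ ((Nat.Prime.coprime_iff_not_dvd Nat.prime_two).2 hB2)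
              exact (QuotientGroup.eq_one_iff b).1 (orderOf_eq_one_iff.1 (Nat.eq_one_of_dvd_coprimes h7 h4 h5))
            have hKB : B.relIndex K = p ^ s := by
              have h4 : Nat.card B * B.relIndex K = Nat.card K := by
                have := Subgroup.relIndex_mul_relIndex (⊥ : Subgroup G) B K bot_le hBK
                rwa [relIndex_bot_left, relIndex_bot_left] at this
              have h5 : Nat.card K * 2 ^ m = Nat.card B * 2 ^ k * p ^ s := by
                rw [hBA, hcA, ← hKi']; exact K.card_mul_index
              have hps : ¬ 2 ∣ p ^ s := by rw [← h.idx]; exact hodd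
              have hc1 : (2 ^ m).Coprime (Nat.card B * p ^ s) := Nat.Coprime.pow_left _ ((Nat.Prime.coprime_iff_not_dvd Nat.prime_two).2 (fun h0 => by
                rcases (Nat.Prime.dvd_mul Nat.prime_two).1 h0 with h3 | h3
                · exact hB2 h3
                · exact hps h3))
              have hc2 : (2 ^ k).Coprime (Nat.card K) := Nat.Coprime.pow_left _ ((Nat.Prime.coprime_iff_not_dvd Nat.prime_two).2 hKodd)
              have h6 : 2 ^ m ∣ 2 ^ k := hc1.dvd_of_dvd_mul_right (Dvd.intro_left (Nat.card K) (by rw [h5]; ring))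
              have h7 : 2 ^ k ∣ 2 ^ m := hc2.dvd_of_dvd_mul_left (Dvd.intro_left (Nat.card B * p ^ s) (by rw [h5]; ring))
              have h8 : 2 ^ m = 2 ^ k := Nat.dvd_antisymm h6 h7
              rw [h8] at h5
              have h9 : Nat.card K * 2 ^ k = (Nat.card B * p ^ s) * 2 ^ k := by rw [h5]; ring
              have h10 : Nat.card K = Nat.card B * p ^ s := Nat.eq_of_mul_eq_mul_right (by positivity) h9
              rw [h10] at h4
              exact Nat.eq_of_mul_eq_mul_left Nat.card_pos h4
            have hlt : Nat.card K < Nat.card G := by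
              have h1 := K.card_mul_index
              rw [hKi'] at h1
              have h2 : 0 < Nat.card K := Nat.card_pos
              have h3 : 2 ≤ 2 ^ m := by
                calc 2 = 2 ^ 1 := (pow_one 2).symm
                  _ ≤ 2 ^ m := Nat.pow_le_pow_right (by norm_num) (Nat.one_le_iff_ne_zero.2 hm0)
              nlinarith
            have hKs : Group.IsSolvable K := by
              refine ih K s (B.subgroupOf K) (B.subgroupOf K) (by omega) ⟨le_rfl, ?_, ?_, ?_, hKB⟩
              · intro a ha b hb
                exact mul_mem (mul_mem ha hb) (inv_mem ha)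
              · haveI := h.cyc
                exact isCyclic_of_surjective (Subgroup.subgroupOfEquivOfLe hBK).symm (Subgroup.subgroupOfEquivOfLe hBK).symm.surjective
              · exact ⟨1, one_mem _, fun x hx => ⟨x, hx, 0, by simp⟩, 0, by simp [one_mem]⟩
            haveI := hKs
            have hq2 : IsPGroup 2 (G ⧸ K) := IsPGroup.of_card (n := m) hKi'
            haveI := hq2.isNilpotent
            haveI : Group.IsSolvable (G ⧸ K) := inferInstance
            exact Group.isSolvable_of_ker_le_range K.subtype (QuotientGroup.mk' K) (by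
              rw [QuotientGroup.ker_mk', range_subtype])
          · -- odd order
            have hk0 : k = 0 := by
              by_contra h0
              apply hG2
              rw [← hcA, ← hBA]
              exact dvd_mul_of_dvd_left (dvd_mul_of_dvd_right (dvd_pow_self 2 h0) _) _
            have hAB : A = B := by
              refine le_antisymm ?_ h.le
              rw [← Subgroup.relIndex_eq_one, hk, hk0, pow_zero]
            by_cases hA1 : A = ⊥
            · apply hpG
              refine IsPGroup.of_card (n := s) ?_
              rw [← hcA, hA1, card_bot, one_mul]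
            · exfalso
              obtain ⟨b, hb, hb1⟩ := (Subgroup.bot_or_exists_ne_one A).resolve_left hA1
              refine hcent b hb1 ?_
              intro c hc
              rw [mem_centralizer_singleton_iff]
              haveI := h.cyc
              letI := h.cyc.commGroup
              rw [hAB] at hc hb
              exact congrArg Subtype.val (mul_comm (⟨c, hc⟩ : B) ⟨b, hb⟩)

end CfsgLib.H3Pp
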