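import Mathlib
import Cfsg.Prelude.Def_Transfer
import Cfsg.Agent.Lib.Core
import Cfsg.Agent.Lib.PGrp
import Cfsg.Agent.Lib.H6Tr3

/-!
# Groups in which the real 2-elements are central
-/

set_option autoImplicit false
set_option maxHeartbeats 1000000

namespace CfsgLib.H3Rl2

universe u

variable {G : Type u} [Group G] [Finite G]

theorem norm_of {S : Subgroup G} {y : G} (h : ∀ s ∈ S, y * s * y⁻¹ ∈ S) : y ∈ Subgroup.normalizer (S : Set G) := by
  rw [← CfsgLib.Core.map_conj_eq_iff]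
  apply Subgroup.eq_of_le_of_card_ge
  · rintro _ ⟨s, hs, rfl⟩
    exact h s hs
  · rw [Subgroup.card_map_of_injective (MulAut.conj y).injective]

theorem centralize (h : ∀ x : G, (∃ j : ℕ, orderOf x = 2 ^ j) → IsConj x x⁻¹ → x ∈ Subgroup.center G)
    (y : G) (hy : (orderOf y).Coprime 2) (n : ℕ) : ∀ R : Subgroup G, Nat.card R ≤ n → IsPGroup 2 R →
    (∀ s ∈ R, y * s * y⁻¹ ∈ R) → ∀ x ∈ R, y * x = x * y := by
  haveI : Fact (Nat.Prime 2) := ⟨Nat.prime_two⟩
  induction n with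
  | zero =>
    intro R hR
    have : 0 < Nat.card R := Nat.card_pos
    omega
  | succ n ih =>
    intro R hRn hR hyR u hu
    by_contra hne
    have hprop : ∀ S : Subgroup G, S ≤ R → S ≠ R → (∀ s ∈ S, y * s * y⁻¹ ∈ S) → ∀ s ∈ S, y * s = s * y := by
      intro S hSR hSne hS
      apply ih S _ (hR.to_le hSR) hS
      by_contra hh
      push Not at hh
      exact hSne (Subgroup.eq_of_le_of_card_ge hSR (by omega))
    have hyN := norm_of hyR
    -- commutators fixed by `y` are trivial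
    have hfix : ∀ v ∈ R, y * (y * v * y⁻¹ * v⁻¹) = (y * v * y⁻¹ * v⁻¹) * y → y * v * y⁻¹ * v⁻¹ = 1 := by
      intro v hv hc
      obtain ⟨c, hcd⟩ : ∃ c, c = y * v * y⁻¹ * v⁻¹ := ⟨_, rfl⟩
      rw [← hcd] at hc ⊢
      have hcy : Commute y c := hc
      have hpow : ∀ m : ℕ, y ^ m * v * (y ^ m)⁻¹ = c ^ m * v := by
        intro m
        induction m with
        | zero => simp
        | succ m ihm =>
          have e1 : y ^ (m + 1) * v * (y ^ (m + 1))⁻¹ = y * (y ^ m * v * (y ^ m)⁻¹) * y⁻¹ := by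
            rw [pow_succ']; group
          have e2 : y * c ^ m = c ^ m * y := (hcy.pow_right m).eq
          rw [e1, ihm, ← mul_assoc, e2, pow_succ]
          rw [show c ^ m * y * v * y⁻¹ = c ^ m * (y * v * y⁻¹ * v⁻¹) * v by group, ← hcd]
      have h1 := hpow (orderOf y)
      rw [pow_orderOf_eq_one, one_mul, inv_one, mul_one] at h1
      have h2 : c ^ orderOf y = 1 := by
        have : c ^ orderOf y * v = 1 * v := by rw [one_mul, ← h1]
        exact mul_right_cancel this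
      have hcR : c ∈ R := by rw [hcd]; exact R.mul_mem (hyR v hv) (R.inv_mem hv)
      obtain ⟨j, hj⟩ := (IsPGroup.iff_orderOf.1 hR) ⟨c, hcR⟩
      rw [Subgroup.orderOf_mk] at hj
      have h3 : orderOf c ∣ orderOf y := orderOf_dvd_of_pow_eq_one h2
      have h4 : (orderOf y).Coprime (orderOf c) := by rw [hj]; exact Nat.Coprime.pow_right j hy
      exact orderOf_eq_one_iff.1 (Nat.eq_one_of_dvd_coprimes h4 h3 dvd_rfl)
    have hkey : ∀ S : Subgroup G, S ≤ R → (∀ s ∈ S, y * s * y⁻¹ ∈ S) → (∀ v ∈ R, y * v * y⁻¹ * v⁻¹ ∈ S) → S = R := by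
      intro S hSR hS hSc
      by_contra hSne
      have h1 := hprop S hSR hSne hS _ (hSc u hu)
      have h2 := hfix u hu h1
      exact hne (mul_inv_eq_iff_eq_mul.1 (mul_inv_eq_one.1 h2))
    -- the Frattini subgroup
    obtain ⟨F, hF⟩ : ∃ F, F = (frattini R).map R.subtype := ⟨_, rfl⟩
    have hFR : F ≤ R := by rw [hF]; exact Subgroup.map_subtype_le _
    have hFm : ∀ (r : G) (hr : r ∈ R), (⟨r, hr⟩ : R) ∈ frattini R → r ∈ F := by
      intro r hr h1
      rw [hF]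
      exact ⟨_, h1, rfl⟩
    have hsq : ∀ v ∈ R, v * v ∈ F := by
      intro v hv
      apply hFm _ (R.mul_mem hv hv)
      have := CfsgLib.PGrp.pow_mem_frattini hR (⟨v, hv⟩ : R)
      rw [pow_two] at this
      exact this
    have hcm : ∀ v ∈ R, ∀ w ∈ R, v * w * v⁻¹ * w⁻¹ ∈ F := by
      intro v hv w hw
      apply hFm _ (R.mul_mem (R.mul_mem (R.mul_mem hv hw) (R.inv_mem hv)) (R.inv_mem hw))
      exact CfsgLib.PGrp.commutator_le_frattini hR
        (Subgroup.commutator_mem_commutator (Subgroup.mem_top (⟨v, hv⟩ : R)) (Subgroup.mem_top (⟨w, hw⟩ : R)))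
    have hFy : ∀ f ∈ F, y * f * y⁻¹ ∈ F := by
      intro f hf
      rw [hF] at hf
      obtain ⟨f, hf, rfl⟩ := hf
      let e : R ≃* R := R.normalizerMonoidHom ⟨y, hyN⟩
      have hmap : (frattini R).map e.toMonoidHom = frattini R := Subgroup.characteristic_iff_map_eq.1 inferInstance e
      have h1 : e f ∈ frattini R := by
        rw [← hmap]
        exact ⟨f, hf, rfl⟩
      exact hFm _ (e f).2 h1
    have hFne : F ≠ R := by
      intro h1
      have h2 : frattini R = ⊤ := by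
        rw [eq_top_iff]
        intro r _
        have h3 : (r : G) ∈ F := h1 ▸ r.2
        rw [hF] at h3
        obtain ⟨s, hs, hsr⟩ := h3
        have : s = r := Subtype.ext hsr
        exact this ▸ hs
      rcases eq_top_or_exists_le_coatom (⊥ : Subgroup R) with h3 | ⟨M, hM, _⟩
      · have h4 : (⟨u, hu⟩ : R) ∈ (⊥ : Subgroup R) := h3 ▸ Subgroup.mem_top _
        have h5 : u = 1 := congrArg Subtype.val (Subgroup.mem_bot.1 h4)
        exact hne (by rw [h5, one_mul, mul_one])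
      · apply hM.1
        rw [eq_top_iff, ← h2]
        exact frattini_le_coatom hM
    have hFc : ∀ f ∈ F, y * f = f * y := hprop F hFR hFne hFy
    have hFc' : ∀ f ∈ F, y * f * y⁻¹ = f := fun f hf => by rw [hFc f hf]; group
    -- the Frattini subgroup is central
    have hFn : ∀ v ∈ R, ∀ f ∈ F, v * f * v⁻¹ ∈ F := by
      intro v hv f hf
      have h1 : v * f * v⁻¹ = (v * f * v⁻¹ * f⁻¹) * f := by group
      rw [h1]
      exact F.mul_mem (hcm v hv f (hFR hf)) hf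
    have hT : R ⊓ Subgroup.centralizer (F : Set G) = R := by
      apply hkey _ inf_le_left
      · rintro s ⟨hs, hsc⟩
        refine ⟨hyR s hs, Subgroup.mem_centralizer_iff.2 (fun f hf => ?_)⟩
        have h1 := Subgroup.mem_centralizer_iff.1 hsc f hf
        have h2 := hFc f hf
        calc f * (y * s * y⁻¹) = (f * y) * s * y⁻¹ := by group
          _ = y * (f * s) * y⁻¹ := by rw [← h2]; group
          _ = y * s * (f * y⁻¹) := by rw [h1]; group
          _ = y * s * y⁻¹ * (y * f) * y⁻¹ := by group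
          _ = y * s * y⁻¹ * f := by rw [h2]; group
      · intro v hv
        refine ⟨R.mul_mem (hyR v hv) (R.inv_mem hv), Subgroup.mem_centralizer_iff.2 (fun f hf => ?_)⟩
        have h1 : v⁻¹ * f * v ∈ F := by
          have := hFn v⁻¹ (R.inv_mem hv) f hf
          rwa [inv_inv] at this
        have h2 := hFc' _ h1
        have h3 := hFc' f hf
        -- `σ(v)⁻¹ f σ(v) = v⁻¹ f v`
        have h4 : (y * v * y⁻¹)⁻¹ * f * (y * v * y⁻¹) = v⁻¹ * f * v := by
          calc (y * v * y⁻¹)⁻¹ * f * (y * v * y⁻¹) = (y * v * y⁻¹)⁻¹ * (y * f * y⁻¹) * (y * v * y⁻¹) := by rw [h3]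
            _ = y * (v⁻¹ * f * v) * y⁻¹ := by group
            _ = v⁻¹ * f * v := h2
        calc f * (y * v * y⁻¹ * v⁻¹) = (y * v * y⁻¹) * ((y * v * y⁻¹)⁻¹ * f * (y * v * y⁻¹)) * v⁻¹ := by group
          _ = y * v * y⁻¹ * v⁻¹ * f := by rw [h4]; group
    have hcen : ∀ f ∈ F, ∀ r ∈ R, f * r = r * f := by
      intro f hf r hr
      rw [← hT] at hr
      exact (Subgroup.mem_centralizer_iff.1 hr.2) f hf
    -- bilinearity
    have b1 : ∀ v ∈ R, ∀ v' ∈ R, ∀ w ∈ R, (v * v') * w * (v * v')⁻¹ * w⁻¹ = (v * w * v⁻¹ * w⁻¹) * (v' * w * v'⁻¹ * w⁻¹) := by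
      intro v hv v' hv' w hw
      have h1 := hcen _ (hcm v' hv' w hw) (v * w * v⁻¹ * w⁻¹) (hFR (hcm v hv w hw))
      have h2 := hcen _ (hcm v' hv' w hw) v hv
      calc (v * v') * w * (v * v')⁻¹ * w⁻¹ = (v * (v' * w * v'⁻¹ * w⁻¹)) * w * v⁻¹ * w⁻¹ := by group
        _ = (v' * w * v'⁻¹ * w⁻¹) * (v * w * v⁻¹ * w⁻¹) := by rw [← h2]; group
        _ = _ := h1
    have b2 : ∀ v ∈ R, ∀ w ∈ R, ∀ w' ∈ R, v * (w * w') * v⁻¹ * (w * w')⁻¹ = (v * w * v⁻¹ * w⁻¹) * (v * w' * v⁻¹ * w'⁻¹) := by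
      intro v hv w hw w' hw'
      have h2 := hcen _ (hcm v hv w' hw') w⁻¹ (R.inv_mem hw)
      calc v * (w * w') * v⁻¹ * (w * w')⁻¹ = v * w * v⁻¹ * ((v * w' * v⁻¹ * w'⁻¹) * w⁻¹) := by group
        _ = (v * w * v⁻¹ * w⁻¹) * (v * w' * v⁻¹ * w'⁻¹) := by rw [h2]; group
    let B : Subgroup G :=
      { carrier := {b | ∃ v ∈ R, b = v * u * v⁻¹ * u⁻¹}
        one_mem' := ⟨1, R.one_mem, by group⟩
        mul_mem' := by
          rintro _ _ ⟨v, hv, rfl⟩ ⟨w, hw, rfl⟩
          exact ⟨v * w, R.mul_mem hv hw, (b1 v hv w hw u hu).symm⟩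
        inv_mem' := by
          rintro _ ⟨v, hv, rfl⟩
          refine ⟨v⁻¹, R.inv_mem hv, ?_⟩
          have h1 := b1 v hv v⁻¹ (R.inv_mem hv) u hu
          rw [mul_inv_cancel, one_mul, inv_one, mul_one, mul_inv_cancel] at h1
          exact inv_eq_of_mul_eq_one_right h1.symm }
    have hB : ∀ b, b ∈ B ↔ ∃ v ∈ R, b = v * u * v⁻¹ * u⁻¹ := fun b => Iff.rfl
    have hBF : B ≤ F := by
      rintro _ ⟨v, hv, rfl⟩
      exact hcm v hv u hu
    let Y : Subgroup G :=
      { carrier := {w | w ∈ R ∧ ∀ v ∈ R, v * w * v⁻¹ * w⁻¹ ∈ B}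
        one_mem' := ⟨R.one_mem, fun v _ => by
          have : v * 1 * v⁻¹ * 1⁻¹ = 1 := by group
          rw [this]; exact B.one_mem⟩
        mul_mem' := by
          rintro w w' ⟨hw, hw2⟩ ⟨hw', hw2'⟩
          refine ⟨R.mul_mem hw hw', fun v hv => ?_⟩
          rw [b2 v hv w hw w' hw']
          exact B.mul_mem (hw2 v hv) (hw2' v hv)
        inv_mem' := by
          rintro w ⟨hw, hw2⟩
          refine ⟨R.inv_mem hw, fun v hv => ?_⟩
          have h1 := b2 v hv w hw w⁻¹ (R.inv_mem hw)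
          rw [mul_inv_cancel, mul_one, inv_one, mul_one, mul_inv_cancel] at h1
          rw [← inv_eq_of_mul_eq_one_right h1.symm]
          exact B.inv_mem (hw2 v hv) }
    have hY : ∀ w, w ∈ Y ↔ w ∈ R ∧ ∀ v ∈ R, v * w * v⁻¹ * w⁻¹ ∈ B := fun w => Iff.rfl
    have hyR' : ∀ s ∈ R, y⁻¹ * s * y ∈ R := by
      intro s hs
      have h1 := Subgroup.inv_mem _ hyN
      have := (Subgroup.mem_normalizer_iff.1 h1 s).1 hs
      rwa [inv_inv] at this
    have hYR : Y = R := by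
      by_contra hYne
      apply hne
      apply hprop Y (fun w hw => hw.1) hYne
      · rintro s ⟨hs, hs2⟩
        refine ⟨hyR s hs, fun v hv => ?_⟩
        have h1 := hs2 (y⁻¹ * v * y) (hyR' v hv)
        have h2 := hFc' _ (hBF h1)
        have h3 : v * (y * s * y⁻¹) * v⁻¹ * (y * s * y⁻¹)⁻¹ = y * ((y⁻¹ * v * y) * s * (y⁻¹ * v * y)⁻¹ * s⁻¹) * y⁻¹ := by group
        rw [h3, h2]
        exact h1
      · exact ⟨hu, fun v hv => ⟨v, hv, rfl⟩⟩
    have hall : ∀ w ∈ R, ∀ v ∈ R, v * w * v⁻¹ * w⁻¹ ∈ B := by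
      intro w hw
      rw [← hYR] at hw
      exact hw.2
    have hsqm : ∀ t ∈ R, ∀ s ∈ R, (t * s) * (t * s) = (s * t * s⁻¹ * t⁻¹) * ((t * t) * (s * s)) := by
      intro t ht s hs
      have h1 := hcen _ (hcm s hs t ht) t ht
      calc (t * s) * (t * s) = (t * (s * t * s⁻¹ * t⁻¹)) * t * (s * s) := by group
        _ = (s * t * s⁻¹ * t⁻¹) * ((t * t) * (s * s)) := by rw [← h1]; group
    let T : Subgroup G :=
      { carrier := {t | t ∈ R ∧ t * t ∈ B}
        one_mem' := ⟨R.one_mem, by rw [one_mul]; exact B.one_mem⟩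
        mul_mem' := by
          rintro t s ⟨ht, ht2⟩ ⟨hs, hs2⟩
          refine ⟨R.mul_mem ht hs, ?_⟩
          rw [hsqm t ht s hs]
          exact B.mul_mem (hall t ht s hs) (B.mul_mem ht2 hs2)
        inv_mem' := by
          rintro t ⟨ht, ht2⟩
          refine ⟨R.inv_mem ht, ?_⟩
          rw [← mul_inv_rev]
          exact B.inv_mem ht2 }
    have hTR : T = R := by
      apply hkey T (fun t ht => ht.1)
      · rintro t ⟨ht, ht2⟩
        refine ⟨hyR t ht, ?_⟩
        have h1 : (y * t * y⁻¹) * (y * t * y⁻¹) = y * (t * t) * y⁻¹ := by group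
        rw [h1, hFc' _ (hsq t ht)]
        exact ht2
      · intro v hv
        refine ⟨R.mul_mem (hyR v hv) (R.inv_mem hv), ?_⟩
        rw [hsqm _ (hyR v hv) _ (R.inv_mem hv)]
        have h1 : (y * v * y⁻¹) * (y * v * y⁻¹) * (v⁻¹ * v⁻¹) = 1 := by
          have h2 : (y * v * y⁻¹) * (y * v * y⁻¹) = y * (v * v) * y⁻¹ := by group
          rw [h2, hFc' _ (hsq v hv)]; group
        rw [h1, mul_one]
        exact hall _ (hyR v hv) _ (R.inv_mem hv)
    have huB : (u * u)⁻¹ ∈ B := by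
      have h1 : u ∈ T := hTR ▸ hu
      exact B.inv_mem h1.2
    obtain ⟨v, hv, hvu⟩ := (hB _).1 huB
    have hreal : IsConj u u⁻¹ := by
      rw [isConj_iff]
      refine ⟨v, ?_⟩
      have h1 : v * u * v⁻¹ = (v * u * v⁻¹ * u⁻¹) * u := by group
      rw [h1, ← hvu]; group
    obtain ⟨j, hj⟩ := (IsPGroup.iff_orderOf.1 hR) ⟨u, hu⟩
    rw [Subgroup.orderOf_mk] at hj
    have hz := h u ⟨j, hj⟩ hreal
    exact hne (Subgroup.mem_center_iff.1 hz y)

theorem main (h : ∀ x : G, (∃ j : ℕ, orderOf x = 2 ^ j) → IsConj x x⁻¹ → x ∈ Subgroup.center G) :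
    Cfsg.HasNormalPComplement 2 G := by
  haveI : Fact (Nat.Prime 2) := ⟨Nat.prime_two⟩
  obtain ⟨P⟩ := (inferInstance : Nonempty (Sylow 2 G))
  apply CfsgLib.H6Tr.npc_of_omega P
  intro Q hQP g hg ho y hy _
  exact centralize h g ho _ Q le_rfl (P.isPGroup'.to_le hQP) (fun s hs => (Subgroup.mem_normalizer_iff.1 hg s).1 hs) y hy

end CfsgLib.H3Rl2
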