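import Mathlib
import Cfsg.Prelude.Def_Solvable
import Cfsg.Agent.Lib.Core
import Cfsg.Agent.Lib.PG
import Cfsg.Agent.Lib.PL2

/-!
# The subnormalizer of a `p`-subgroup
-/

set_option autoImplicit false
set_option maxHeartbeats 1000000

namespace CfsgLib.H3Sbn

open Subgroup CfsgLib.Core

universe u

variable {G : Type u} [Group G] [Finite G] {p : ℕ} [Fact p.Prime]

theorem L1 (H : Subgroup G) (hH : IsPGroup p H) (g : G) :
    ((H).subgroupOf (H ⊔ zpowers g)).IsSubnormal ↔ ∃ R : Subgroup G, IsPGroup p R ∧ H ≤ R ∧ g ∈ normalizer (R : Set G) := by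
  obtain ⟨K, hK⟩ : ∃ K, K = H ⊔ zpowers g := ⟨_, rfl⟩
  have hHK : H ≤ K := hK ▸ le_sup_left
  have hgK : g ∈ K := hK ▸ (mem_sup_right (mem_zpowers g))
  rw [← hK]
  constructor
  · intro hs
    have h1 := CfsgLib.PL2.le_pCore_of_isSubnormal hs (hH.comap_of_injective K.subtype K.subtype_injective)
    refine ⟨(Cfsg.pCore p K).map K.subtype, (pCore_isPGroup p K).map _, ?_, ?_⟩
    · intro h hh
      exact ⟨⟨h, hHK hh⟩, h1 hh, rfl⟩
    · haveI := pCore_normal p K
      have key : ∀ k ∈ K, ∀ x ∈ (Cfsg.pCore p K).map K.subtype, k * x * k⁻¹ ∈ (Cfsg.pCore p K).map K.subtype := by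
        rintro k hk _ ⟨x, hx, rfl⟩
        exact ⟨⟨k, hk⟩ * x * ⟨k, hk⟩⁻¹, (pCore_normal p K).conj_mem x hx ⟨k, hk⟩, rfl⟩
      rw [mem_normalizer_iff]
      intro x
      constructor
      · exact key g hgK x
      · intro hx
        have := key g⁻¹ (inv_mem hgK) _ hx
        have e : g⁻¹ * (g * x * g⁻¹) * g⁻¹⁻¹ = x := by group
        rwa [e] at this
  · rintro ⟨R, hR, hHR, hg⟩
    have hKR : K ≤ normalizer (R : Set G) := by
      rw [hK]
      exact sup_le (hHR.trans le_normalizer) ((zpowers_le).2 hg)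
    haveI hn : (R.subgroupOf K).Normal := normal_subgroupOf_of_le_normalizer hKR
    have hpg : IsPGroup p (R.subgroupOf K) := hR.comap_of_injective K.subtype K.subtype_injective
    have hle : H.subgroupOf K ≤ R.subgroupOf K := fun x hx => hHR hx
    exact IsSubnormal.trans hle (CfsgLib.PG.isSubnormal_of_nilpotent hpg.isNilpotent _) hn.isSubnormal

theorem L2 (H : Subgroup G) (g : G) (h : ∃ R : Subgroup G, IsPGroup p R ∧ H ≤ R ∧ g ∈ normalizer (R : Set G)) :
    ∃ R : Subgroup G, H ≤ R ∧ (Cfsg.pCore p (normalizer (R : Set G))).map (normalizer (R : Set G)).subtype = R ∧ g ∈ normalizer (R : Set G) := by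
  obtain ⟨R, ⟨hR, hHR, hg⟩, hmax⟩ := Set.Finite.exists_maximal (s := {R : Subgroup G | IsPGroup p R ∧ H ≤ R ∧ g ∈ normalizer (R : Set G)}) (Set.toFinite _) h
  refine ⟨R, hHR, ?_, hg⟩
  obtain ⟨N, hN⟩ : ∃ N, N = normalizer (R : Set G) := ⟨_, rfl⟩
  rw [← hN] at hg ⊢
  have hRN : R ≤ N := hN ▸ le_normalizer
  haveI hRn : (R.subgroupOf N).Normal := by rw [hN]; infer_instance
  have h1 : R.subgroupOf N ≤ Cfsg.pCore p N := le_pCore hRn (hR.comap_of_injective N.subtype N.subtype_injective)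
  have h2 : R ≤ (Cfsg.pCore p N).map N.subtype := fun x hx => ⟨⟨x, hRN hx⟩, h1 hx, rfl⟩
  have h3 : g ∈ normalizer (((Cfsg.pCore p N).map N.subtype : Subgroup G) : Set G) := by
    haveI := pCore_normal p N
    have key : ∀ k ∈ N, ∀ x ∈ (Cfsg.pCore p N).map N.subtype, k * x * k⁻¹ ∈ (Cfsg.pCore p N).map N.subtype := by
      rintro k hk _ ⟨x, hx, rfl⟩
      exact ⟨⟨k, hk⟩ * x * ⟨k, hk⟩⁻¹, (pCore_normal p N).conj_mem x hx ⟨k, hk⟩, rfl⟩
    rw [mem_normalizer_iff]
    intro x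
    constructor
    · exact key g hg x
    · intro hx
      have := key g⁻¹ (inv_mem hg) _ hx
      have e : g⁻¹ * (g * x * g⁻¹) * g⁻¹⁻¹ = x := by group
      rwa [e] at this
  exact le_antisymm (hmax ⟨(pCore_isPGroup p N).map _, hHR.trans h2, h3⟩ h2) h2

theorem L3 (R : Subgroup G) (hR : (Cfsg.pCore p (normalizer (R : Set G))).map (normalizer (R : Set G)).subtype = R)
    (I : Subgroup G) (hI : ∀ Q : Sylow p G, R ≤ Q → I ≤ Q) : I ≤ R := by
  classical
  obtain ⟨N, hN⟩ : ∃ N, N = normalizer (R : Set G) := ⟨_, rfl⟩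
  rw [← hN] at hR
  have hch : ∀ T : Sylow p N, ∃ P : Sylow p G, (T : Subgroup N).map N.subtype ≤ P := fun T => (T.2.map N.subtype).exists_le_sylow
  choose P hP using hch
  have hRT : ∀ T : Sylow p N, R ≤ (T : Subgroup N).map N.subtype := by
    intro T
    rw [← hR]
    exact Subgroup.map_mono (pCore_le_sylow T)
  obtain ⟨T0⟩ : Nonempty (Sylow p N) := inferInstance
  obtain ⟨Y, hY⟩ : ∃ Y : Subgroup G, Y = ⨅ T : Sylow p N, (P T : Subgroup G) := ⟨_, rfl⟩
  have hYP : ∀ T, Y ≤ P T := fun T => hY ▸ iInf_le _ T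
  have hYp : IsPGroup p Y := (P T0).2.to_le (hYP T0)
  have hRY : R ≤ Y := by rw [hY]; exact le_iInf fun T => (hRT T).trans (hP T)
  have hIY : I ≤ Y := by rw [hY]; exact le_iInf fun T => hI _ ((hRT T).trans (hP T))
  have hYN : ∀ x ∈ Y, x ∈ N → x ∈ R := by
    intro x hx hxN
    rw [← hR]
    refine ⟨⟨x, hxN⟩, ?_, rfl⟩
    rw [SetLike.mem_coe, mem_pCore_iff]
    intro T
    have h1 : IsPGroup p ((P T : Subgroup G).subgroupOf N) := (P T).2.comap_of_injective N.subtype N.subtype_injective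
    have h2 : (T : Subgroup N) ≤ (P T : Subgroup G).subgroupOf N := fun y hy => hP T ⟨y, hy, rfl⟩
    have h3 := T.3 h1 h2
    have h4 : (⟨x, hxN⟩ : N) ∈ (P T : Subgroup G).subgroupOf N := hYP T hx
    rw [h3] at h4
    exact h4
  have hYR : Y = R := by
    by_contra hne
    have hlt : R.subgroupOf Y < ⊤ := by
      rw [lt_top_iff_ne_top]
      intro h
      apply hne
      exact le_antisymm (subgroupOf_eq_top.1 h) hRY
    haveI := hYp.isNilpotent
    have h1 := normalizerCondition_of_isNilpotent (G := Y) _ hlt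
    obtain ⟨y, hy1, hy2⟩ := SetLike.exists_of_lt h1
    apply hy2
    apply hYN y y.2
    rw [hN, mem_normalizer_iff]
    rw [mem_normalizer_iff] at hy1
    intro x
    constructor
    · intro hx
      exact (hy1 ⟨x, hRY hx⟩).1 hx
    · intro hx
      have hxY : x ∈ Y := by
        have e : x = (y : G)⁻¹ * (y * x * (y : G)⁻¹) * y := by group
        rw [e]
        exact mul_mem (mul_mem (inv_mem y.2) (hRY hx)) y.2
      exact (hy1 ⟨x, hxY⟩).2 hx
  exact hYR ▸ hIY

theorem s4089 (H : Subgroup G) (hH : IsPGroup p H) :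
    {g : G | ((H).subgroupOf (H ⊔ Subgroup.zpowers g)).IsSubnormal} =
      {g : G | ∃ R : Subgroup G, H ≤ R ∧ (Cfsg.pCore p (Subgroup.normalizer (R : Set G))).map (Subgroup.normalizer (R : Set G)).subtype = R ∧ g ∈ Subgroup.normalizer (R : Set G)} ∧
    ∀ g : G, (((H).subgroupOf (H ⊔ Subgroup.zpowers g)).IsSubnormal ↔
      (((sInf {K : Subgroup G | ∃ Q : Sylow p G, H ≤ (Q : Subgroup G) ∧ K = (Q : Subgroup G)})).subgroupOf ((sInf {K : Subgroup G | ∃ Q : Sylow p G, H ≤ (Q : Subgroup G) ∧ K = (Q : Subgroup G)}) ⊔ Subgroup.zpowers g)).IsSubnormal) := by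
  have hrad : ∀ R : Subgroup G, (Cfsg.pCore p (normalizer (R : Set G))).map (normalizer (R : Set G)).subtype = R → IsPGroup p R := by
    intro R hR
    rw [← hR]
    exact (pCore_isPGroup p _).map _
  constructor
  · ext g
    rw [Set.mem_setOf_eq, Set.mem_setOf_eq, L1 H hH g]
    constructor
    · exact L2 H g
    · rintro ⟨R, h1, h2, h3⟩
      exact ⟨R, hrad R h2, h1, h3⟩
  · intro g
    obtain ⟨I, hI⟩ : ∃ I, I = sInf {K : Subgroup G | ∃ Q : Sylow p G, H ≤ (Q : Subgroup G) ∧ K = (Q : Subgroup G)} := ⟨_, rfl⟩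
    rw [← hI]
    have hIQ : ∀ Q : Sylow p G, H ≤ Q → I ≤ Q := fun Q hQ => hI ▸ sInf_le ⟨Q, hQ, rfl⟩
    have hHI : H ≤ I := by
      rw [hI]
      apply le_sInf
      rintro K ⟨Q, hQ, rfl⟩
      exact hQ
    obtain ⟨Q0, hQ0⟩ := hH.exists_le_sylow
    have hIp : IsPGroup p I := Q0.2.to_le (hIQ Q0 hQ0)
    rw [L1 H hH g, L1 I hIp g]
    constructor
    · intro h
      obtain ⟨R, h1, h2, h3⟩ := L2 H g h
      exact ⟨R, hrad R h2, L3 R h2 I (fun Q hQ => hIQ Q (h1.trans hQ)), h3⟩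
    · rintro ⟨R, h1, h2, h3⟩
      exact ⟨R, h1, hHI.trans h2, h3⟩

end CfsgLib.H3Sbn
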