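import Mathlib
import Cfsg.Agent.Lib.H3Irr
import Cfsg.Agent.Lib.CoprimeGen
import Cfsg.Agent.Lib.CharBasic3

/-!
# Groups whose automorphism group has three orbits
-/

set_option autoImplicit false

open Polynomial

namespace CfsgLib.H3Three

theorem exists_linearEquiv {F V W : Type*} [Field F] [AddCommGroup V] [Module F V] [AddCommGroup W] [Module F W]
    [FiniteDimensional F V] [FiniteDimensional F W] (h : Module.finrank F V = Module.finrank F W) (v : V) (hv : v ≠ 0)
    (w : W) (hw : w ≠ 0) : ∃ e : V ≃ₗ[F] W, e v = w := by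
  classical
  have hv' : LinearIndepOn F id {v} := LinearIndepOn.singleton (v := id) hv
  have hw' : LinearIndepOn F id {w} := LinearIndepOn.singleton (v := id) hw
  let b := Module.Basis.extend hv'
  let c := Module.Basis.extend hw'
  obtain ⟨σ⟩ : Nonempty ((hv'.extend (Set.subset_univ _) : Set V) ≃ (hw'.extend (Set.subset_univ _) : Set W)) := by
    haveI : Fintype (hv'.extend (Set.subset_univ _) : Set V) := FiniteDimensional.fintypeBasisIndex b
    haveI : Fintype (hw'.extend (Set.subset_univ _) : Set W) := FiniteDimensional.fintypeBasisIndex c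
    rw [Module.finrank_eq_card_basis b, Module.finrank_eq_card_basis c] at h
    exact ⟨Fintype.equivOfCardEq h⟩
  let i : (hv'.extend (Set.subset_univ _) : Set V) := ⟨v, hv'.subset_extend _ rfl⟩
  let j : (hw'.extend (Set.subset_univ _) : Set W) := ⟨w, hw'.subset_extend _ rfl⟩
  have hbi : b i = v := Module.Basis.extend_apply_self hv' i
  have hcj : c j = w := Module.Basis.extend_apply_self hw' j
  refine ⟨b.equiv c (σ.trans (Equiv.swap (σ i) j)), ?_⟩
  have h1 : b.equiv c (σ.trans (Equiv.swap (σ i) j)) (b i) = w := by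
    rw [Module.Basis.equiv_apply, Equiv.trans_apply, Equiv.swap_apply_left, hcj]
  rwa [hbi] at h1

/-- two modules over `K[X]` killed by the same irreducible polynomial, of the same order, are isomorphic,
transitively on non-zero vectors -/
theorem exists_equiv {K V W : Type*} [Field K] [AddCommGroup V] [Module K V] [Finite V] [AddCommGroup W] [Module K W]
    [Finite W] (hc : Nat.card V = Nat.card W) (S : Module.End K V) (T : Module.End K W) (Φ : K[X]) (hΦ : Irreducible Φ)
    (hS : aeval S Φ = 0) (hT : aeval T Φ = 0) (v : V) (hv : v ≠ 0) (w : W) (hw : w ≠ 0) :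
    ∃ φ : V ≃+ W, (∀ u, φ (S u) = T (φ u)) ∧ φ v = w := by
  haveI : Fact (Irreducible Φ) := ⟨hΦ⟩
  have hkS : ∀ a ∈ Ideal.span {Φ}, (aeval S).toRingHom a = 0 := by
    intro a ha
    obtain ⟨b, rfl⟩ := Ideal.mem_span_singleton.1 ha
    change aeval S (Φ * b) = 0
    rw [map_mul, hS, zero_mul]
  have hkT : ∀ a ∈ Ideal.span {Φ}, (aeval T).toRingHom a = 0 := by
    intro a ha
    obtain ⟨b, rfl⟩ := Ideal.mem_span_singleton.1 ha
    change aeval T (Φ * b) = 0
    rw [map_mul, hT, zero_mul]
  let fV : AdjoinRoot Φ →+* Module.End K V := Ideal.Quotient.lift (Ideal.span {Φ}) (aeval S).toRingHom hkS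
  let fW : AdjoinRoot Φ →+* Module.End K W := Ideal.Quotient.lift (Ideal.span {Φ}) (aeval T).toRingHom hkT
  letI : Module (AdjoinRoot Φ) V := Module.compHom V fV
  letI : Module (AdjoinRoot Φ) W := Module.compHom W fW
  have hrV : ∀ u : V, (AdjoinRoot.root Φ) • u = S u := by
    intro u
    change (aeval S X) u = S u
    rw [aeval_X]
  have hrW : ∀ u : W, (AdjoinRoot.root Φ) • u = T u := by
    intro u
    change (aeval T X) u = T u
    rw [aeval_X]
  haveI : Finite (AdjoinRoot Φ) := Finite.of_injective (fun a : AdjoinRoot Φ => a • v) (smul_left_injective _ hv)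
  haveI : FiniteDimensional (AdjoinRoot Φ) V := inferInstance
  haveI : FiniteDimensional (AdjoinRoot Φ) W := inferInstance
  have hfin : Module.finrank (AdjoinRoot Φ) V = Module.finrank (AdjoinRoot Φ) W := by
    rw [Module.natCard_eq_pow_finrank (K := AdjoinRoot Φ) (V := V), Module.natCard_eq_pow_finrank (K := AdjoinRoot Φ) (V := W)] at hc
    exact Nat.pow_right_injective (Finite.one_lt_card (α := AdjoinRoot Φ)) hc
  obtain ⟨e, he⟩ := exists_linearEquiv hfin v hv w hw
  refine ⟨e.toAddEquiv, ?_, he⟩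
  intro u
  change e (S u) = T (e u)
  rw [← hrV, map_smul, hrW]

/-! ### cyclotomic polynomials -/

section Cyc

variable {p q : ℕ} [hp : Fact p.Prime] [hq : Fact q.Prime]

theorem natDegree_of_dvd (hpq : p ≠ q) {f : (ZMod p)[X]} (hf : Irreducible f) (hd : f ∣ cyclotomic q (ZMod p)) :
    f.natDegree = orderOf (p : ZMod q) := by
  have hcop : p.Coprime q := (Nat.coprime_primes hp.out hq.out).2 hpq
  have hdeg := natDegree_of_dvd_cyclotomic_of_irreducible (K := ZMod p) (f := 1) (p := p) (n := q) (by rw [ZMod.card, pow_one]) hcop hd hf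
  have hord : orderOf (ZMod.unitOfCoprime (p ^ 1) (hcop.pow_left 1)) = orderOf (p : ZMod q) := by
    rw [← orderOf_units, ZMod.coe_unitOfCoprime, pow_one]
  rwa [hord] at hdeg

theorem irreducible_cyclotomic (hpq : p ≠ q) (h : orderOf (p : ZMod q) = q - 1) : Irreducible (cyclotomic q (ZMod p)) := by
  have hdeg : (cyclotomic q (ZMod p)).natDegree = q - 1 := by rw [natDegree_cyclotomic, Nat.totient_prime hq.out]
  have hne : cyclotomic q (ZMod p) ≠ 0 := cyclotomic_ne_zero q _
  have hnu : ¬ IsUnit (cyclotomic q (ZMod p)) := by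
    intro hu
    have h1 := natDegree_eq_zero_of_isUnit hu
    have h2 := hq.out.two_le
    omega
  obtain ⟨f, hf, hfd⟩ := WfDvdMonoid.exists_irreducible_factor hnu hne
  have h1 := natDegree_of_dvd hpq hf hfd
  obtain ⟨c, hc⟩ := hfd
  have hc0 : c ≠ 0 := by rintro rfl; rw [mul_zero] at hc; exact hne hc
  have h2 : (cyclotomic q (ZMod p)).natDegree = f.natDegree + c.natDegree := by rw [hc, natDegree_mul hf.ne_zero hc0]
  have hcu : IsUnit c := CfsgLib.H3Irr.isUnit_of_natDegree hc0 (by omega)
  have hass : Associated f (cyclotomic q (ZMod p)) := ⟨hcu.unit, by rw [IsUnit.unit_spec]; exact hc.symm⟩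
  exact hass.irreducible hf

variable {V W : Type*} [CommGroup V] [CommGroup W] [Finite V] [Finite W]

theorem aeval_cyclotomic_eq_zero {K : Type*} [Field K] {U : Type*} [AddCommGroup U] [Module K U] (T : Module.End K U)
    (hT : T ^ q = 1) (hfix : ∀ u, T u = u → u = 0) : aeval T (cyclotomic q K) = 0 := by
  refine LinearMap.ext fun u => ?_
  rw [LinearMap.zero_apply]
  apply hfix
  have h1 : aeval T (X - 1 : K[X]) * aeval T (cyclotomic q K) = 0 := by
    rw [← map_mul, mul_comm, cyclotomic_prime_mul_X_sub_one, map_sub, map_pow, aeval_X, map_one, hT, sub_self]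
  have h2 := congrArg (fun f : Module.End K U => f u) h1
  simp only [Module.End.mul_apply, map_sub, aeval_X, map_one, LinearMap.sub_apply, Module.End.one_apply,
    LinearMap.zero_apply, sub_eq_zero] at h2
  exact h2

/-- the multiplicative version -/
theorem exists_mulEquiv (hpq : p ≠ q) (h : orderOf (p : ZMod q) = q - 1) (hc : Nat.card V = Nat.card W)
    (hV : ∀ v : V, v ^ p = 1) (hW : ∀ v : W, v ^ p = 1) (s : V →* V) (t : W →* W) (hs : ∀ v, s^[q] v = v)
    (hs1 : ∀ v, s v = v → v = 1) (ht : ∀ v, t^[q] v = v) (ht1 : ∀ v, t v = v → v = 1) (v : V) (hv : v ≠ 1)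
    (w : W) (hw : w ≠ 1) : ∃ φ : V ≃* W, (∀ u, φ (s u) = t (φ u)) ∧ φ v = w := by
  letI : Module (ZMod p) (Additive V) := AddCommGroup.zmodModule (n := p) (fun x => Additive.toMul.injective (hV _))
  letI : Module (ZMod p) (Additive W) := AddCommGroup.zmodModule (n := p) (fun x => Additive.toMul.injective (hW _))
  let S : Module.End (ZMod p) (Additive V) := (MonoidHom.toAdditive s).toZModLinearMap p
  let T : Module.End (ZMod p) (Additive W) := (MonoidHom.toAdditive t).toZModLinearMap p
  have hSn : ∀ (n : ℕ) (v : Additive V), (S ^ n) v = Additive.ofMul (s^[n] v.toMul) := by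
    intro n
    induction n with
    | zero => intro v; rfl
    | succ n ih =>
      intro v
      rw [pow_succ, Module.End.mul_apply, ih, Function.iterate_succ, Function.comp_apply]
      rfl
  have hTn : ∀ (n : ℕ) (v : Additive W), (T ^ n) v = Additive.ofMul (t^[n] v.toMul) := by
    intro n
    induction n with
    | zero => intro v; rfl
    | succ n ih =>
      intro v
      rw [pow_succ, Module.End.mul_apply, ih, Function.iterate_succ, Function.comp_apply]
      rfl
  have hS : aeval S (cyclotomic q (ZMod p)) = 0 :=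
    aeval_cyclotomic_eq_zero S (LinearMap.ext fun v => (hSn q v).trans (hs v.toMul)) (fun u hu => hs1 u.toMul hu)
  have hT : aeval T (cyclotomic q (ZMod p)) = 0 :=
    aeval_cyclotomic_eq_zero T (LinearMap.ext fun v => (hTn q v).trans (ht v.toMul)) (fun u hu => ht1 u.toMul hu)
  obtain ⟨φ, hφ, hφv⟩ := exists_equiv (V := Additive V) (W := Additive W) hc S T _ (irreducible_cyclotomic hpq h) hS hT
    (Additive.ofMul v) hv (Additive.ofMul w) hw
  exact ⟨AddEquiv.toMultiplicative φ, hφ, hφv⟩

theorem aeval_mem {K : Type*} [Field K] {U : Type*} [AddCommGroup U] [Module K U] (T : Module.End K U) (M : Submodule K U)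
    (hM : ∀ u ∈ M, T u ∈ M) (f : K[X]) : ∀ u ∈ M, aeval T f u ∈ M := by
  intro u hu
  have hn : ∀ n : ℕ, (T ^ n) u ∈ M := by
    intro n
    induction n with
    | zero => simpa using hu
    | succ n ih =>
      rw [pow_succ', Module.End.mul_apply]
      exact hM _ ih
  rw [aeval_eq_sum_range, LinearMap.sum_apply]
  refine Submodule.sum_mem _ fun i _ => ?_
  rw [LinearMap.smul_apply]
  exact M.smul_mem _ (hn i)

/-- the minimal polynomial is irreducible when every vector generates a minimal invariant subspace -/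
theorem irreducible_minpoly {U : Type*} [AddCommGroup U] [Module (ZMod p) U] [Finite U] [Nontrivial U] (hpq : p ≠ q)
    (T : Module.End (ZMod p) U) (hT : aeval T (cyclotomic q (ZMod p)) = 0)
    (hmin : ∀ v : U, v ≠ 0 → ∃ M : Submodule (ZMod p) U, (∀ u ∈ M, T u ∈ M) ∧ v ∈ M ∧
      ∀ W : Submodule (ZMod p) U, (∀ u ∈ W, T u ∈ W) → W ⊓ M ≠ ⊥ → M ≤ W) : Irreducible (minpoly (ZMod p) T) := by
  have hint : IsIntegral (ZMod p) T := Algebra.IsIntegral.isIntegral T
  have hne : minpoly (ZMod p) T ≠ 0 := minpoly.ne_zero hint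
  have hdvd : minpoly (ZMod p) T ∣ cyclotomic q (ZMod p) := minpoly.dvd _ _ hT
  have hsep : (cyclotomic q (ZMod p)).Separable := by
    haveI : NeZero ((q : ℕ) : ZMod p) := ⟨by
      rw [Ne, ZMod.natCast_eq_zero_iff]
      intro h
      exact hpq ((Nat.prime_dvd_prime_iff_eq hp.out hq.out).1 h)⟩
    exact separable_cyclotomic q (ZMod p)
  refine ⟨minpoly.not_isUnit _ T, ?_⟩
  intro g h hgh
  by_contra hcon
  push Not at hcon
  obtain ⟨hg, hh⟩ := hcon
  have hg0 : g ≠ 0 := by rintro rfl; rw [zero_mul] at hgh; exact hne hgh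
  have hh0 : h ≠ 0 := by rintro rfl; rw [mul_zero] at hgh; exact hne hgh
  have hcop : IsCoprime g h := by
    have h1 : (g * h).Separable := by
      rw [← hgh]
      exact hsep.of_dvd hdvd
    exact h1.isCoprime
  have hdeg : (minpoly (ZMod p) T).natDegree = g.natDegree + h.natDegree := by rw [hgh, natDegree_mul hg0 hh0]
  have hgd : g.natDegree ≠ 0 := fun h => hg (CfsgLib.H3Irr.isUnit_of_natDegree hg0 h)
  have hhd : h.natDegree ≠ 0 := fun h' => hh (CfsgLib.H3Irr.isUnit_of_natDegree hh0 h')
  have key : ∀ a b : (ZMod p)[X], a ≠ 0 → b ≠ 0 → minpoly (ZMod p) T = a * b → b.natDegree ≠ 0 →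
      ∃ u : U, u ≠ 0 ∧ aeval T b u = 0 := by
    intro a b ha hb hab hbd
    by_contra hcon
    push Not at hcon
    have hinj : Function.Injective (aeval T b) := by
      rw [← LinearMap.ker_eq_bot, LinearMap.ker_eq_bot']
      intro m hm
      by_contra hm0
      exact hcon m hm0 hm
    have hsurj : Function.Surjective (aeval T b) := LinearMap.injective_iff_surjective.1 hinj
    have h1 : aeval T a = 0 := by
      refine LinearMap.ext fun w => ?_
      obtain ⟨u, rfl⟩ := hsurj w
      have h2 : aeval T a * aeval T b = 0 := by rw [← map_mul, ← hab, minpoly.aeval]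
      exact congrArg (fun f : Module.End (ZMod p) U => f u) h2
    have h3 := natDegree_le_of_dvd (minpoly.dvd (ZMod p) T h1) ha
    rw [hab, natDegree_mul ha hb] at h3
    omega
  obtain ⟨b, hb0, hb⟩ := key g h hg0 hh0 hgh hhd
  obtain ⟨a, ha0, ha⟩ := key h g hh0 hg0 (by rw [hgh, mul_comm]) hgd
  obtain ⟨c, d, hcd⟩ := hcop
  have hbez : ∀ u : U, aeval T g u = 0 → aeval T h u = 0 → u = 0 := by
    intro u h1 h2
    have h3 := congrArg (fun f => aeval T f u) hcd
    simp only [map_add, map_mul, map_one, LinearMap.add_apply, Module.End.mul_apply, h1, h2, map_zero, add_zero,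
      Module.End.one_apply] at h3
    exact h3.symm
  have hgb : aeval T g b ≠ 0 := fun h1 => hb0 (hbez b h1 hb)
  have hgv : aeval T g (a + b) = aeval T g b := by rw [map_add, ha, zero_add]
  have hv0 : a + b ≠ 0 := by
    intro h1
    rw [h1, map_zero] at hgv
    exact hgb hgv.symm
  obtain ⟨M, hM1, hM2, hM3⟩ := hmin (a + b) hv0
  have h1 : M ≤ LinearMap.ker (aeval T h) := by
    apply hM3 _ (CfsgLib.H3Irr.ker_invariant T h)
    rw [Submodule.ne_bot_iff]
    refine ⟨aeval T g (a + b), ⟨?_, aeval_mem T M hM1 g _ hM2⟩, ?_⟩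
    · rw [SetLike.mem_coe, LinearMap.mem_ker, hgv]
      have h2 : aeval T h (aeval T g b) = aeval T g (aeval T h b) := by
        rw [← Module.End.mul_apply, ← Module.End.mul_apply, ← map_mul, ← map_mul, mul_comm]
      rw [h2, hb, map_zero]
    · rw [hgv]
      exact hgb
  have h2 : aeval T h (a + b) = 0 := h1 hM2
  rw [map_add, hb, add_zero] at h2
  exact ha0 (hbez a ha h2)

theorem primitive_root {U : Type*} [AddCommGroup U] [Module (ZMod p) U] [Finite U] [Nontrivial U] (hpq : p ≠ q)
    (T : Module.End (ZMod p) U) (hTq : T ^ q = 1) (hfix : ∀ u, T u = u → u = 0)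
    (hmin : ∀ v : U, v ≠ 0 → ∃ M : Submodule (ZMod p) U, (∀ u ∈ M, T u ∈ M) ∧ v ∈ M ∧
      ∀ W : Submodule (ZMod p) U, (∀ u ∈ W, T u ∈ W) → W ⊓ M ≠ ⊥ → M ≤ W)
    (hpow : ∀ k : ℕ, 0 < k → k < q → ∃ φ : U ≃+ U, ∀ u, φ (T u) = (T ^ k) (φ u)) : orderOf (p : ZMod q) = q - 1 := by
  have hT := aeval_cyclotomic_eq_zero T hTq hfix
  have hI := irreducible_minpoly hpq T hT hmin
  have hdvd : minpoly (ZMod p) T ∣ cyclotomic q (ZMod p) := minpoly.dvd _ _ hT
  rw [← natDegree_of_dvd hpq hI hdvd]
  apply le_antisymm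
  · have h1 := natDegree_le_of_dvd hdvd (cyclotomic_ne_zero q _)
    rwa [natDegree_cyclotomic, Nat.totient_prime hq.out] at h1
  · haveI : Fact (Irreducible (minpoly (ZMod p) T)) := ⟨hI⟩
    set μ := minpoly (ZMod p) T with hμ
    set r := AdjoinRoot.root μ with hr
    have hr0 : aeval r μ = 0 := AdjoinRoot.aeval_eq μ ▸ AdjoinRoot.mk_self
    have hcast : ∀ f : (ZMod p)[X], aeval T f = 0 → aeval r f = 0 := by
      intro f hf
      obtain ⟨c, hc⟩ := minpoly.dvd (ZMod p) T hf
      rw [hc, map_mul, ← hμ, hr0, zero_mul]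
    have hrq : r ^ q = 1 := by
      have h1 := hcast (X ^ q - 1) (by rw [map_sub, map_pow, aeval_X, map_one, hTq, sub_self])
      rwa [map_sub, map_pow, aeval_X, map_one, sub_eq_zero] at h1
    have hr1 : r ≠ 1 := by
      intro h
      have h1 : aeval r (X - 1 : (ZMod p)[X]) = 0 := by rw [map_sub, aeval_X, map_one, h, sub_self]
      have h2 : μ ∣ X - 1 := by
        rw [AdjoinRoot.aeval_eq] at h1
        exact AdjoinRoot.mk_eq_zero.1 h1
      obtain ⟨c, hc⟩ := h2
      have h3 : aeval T (X - 1 : (ZMod p)[X]) = 0 := by rw [hc, map_mul, minpoly.aeval, zero_mul]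
      rw [map_sub, aeval_X, map_one, sub_eq_zero] at h3
      obtain ⟨u, hu⟩ := exists_ne (0 : U)
      exact hu (hfix u (by rw [h3]; rfl))
    have hro : orderOf r = q := orderOf_eq_prime hrq hr1
    have hroot : ∀ k : ℕ, 0 < k → k < q → aeval (r ^ k) μ = 0 := by
      intro k hk0 hkq
      have h1 : aeval T (μ.comp (X ^ k)) = 0 := by
        obtain ⟨φ, hφ⟩ := hpow k hk0 hkq
        have h2 : ∀ (f : (ZMod p)[X]) (u : U), φ (aeval T f u) = aeval (T ^ k) f (φ u) := by
          intro f u
          have hn : ∀ n : ℕ, φ ((T ^ n) u) = ((T ^ k) ^ n) (φ u) := by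
            intro n
            induction n with
            | zero => simp
            | succ n ih =>
              rw [pow_succ', pow_succ', Module.End.mul_apply, Module.End.mul_apply, hφ, ih]
          rw [aeval_eq_sum_range, aeval_eq_sum_range, LinearMap.sum_apply, LinearMap.sum_apply, map_sum]
          refine Finset.sum_congr rfl fun i _ => ?_
          rw [LinearMap.smul_apply, LinearMap.smul_apply, ← hn]
          exact ZMod.map_smul φ.toAddMonoidHom _ _
        rw [aeval_comp, map_pow, aeval_X]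
        refine LinearMap.ext fun u => ?_
        have h3 := h2 μ (φ.symm u)
        rw [minpoly.aeval, AddEquiv.apply_symm_apply, LinearMap.zero_apply, map_zero] at h3
        exact h3.symm
      have h2 := hcast _ h1
      rwa [aeval_comp, map_pow, aeval_X] at h2
    have hμ0 : μ ≠ 0 := hI.ne_zero
    classical
    have hsub : (Finset.image (fun k => r ^ k) (Finset.Ioo 0 q)) ⊆ (μ.aroots (AdjoinRoot μ)).toFinset := by
      intro y hy
      obtain ⟨k, hk, rfl⟩ := Finset.mem_image.1 hy
      rw [Finset.mem_Ioo] at hk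
      rw [Multiset.mem_toFinset, mem_aroots]
      exact ⟨hμ0, hroot k hk.1 hk.2⟩
    have h1 := Finset.card_le_card hsub
    rw [Finset.card_image_of_injOn, Nat.card_Ioo] at h1
    · have h2 := Multiset.toFinset_card_le (μ.aroots (AdjoinRoot μ))
      have h3 := card_roots' (μ.map (algebraMap (ZMod p) (AdjoinRoot μ)))
      rw [natDegree_map] at h3
      have h4 : Multiset.card (μ.aroots (AdjoinRoot μ)) ≤ μ.natDegree := h3
      omega
    · intro a ha b hb hab
      rw [Finset.mem_coe, Finset.mem_Ioo] at ha hb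
      exact pow_injOn_Iio_orderOf (by rw [Set.mem_Iio, hro]; exact ha.2) (by rw [Set.mem_Iio, hro]; exact hb.2) hab

/-- multiplicative version -/
theorem primitive_root' [Nontrivial V] (hpq : p ≠ q) (hV : ∀ v : V, v ^ p = 1) (t : V →* V) (ht : ∀ v, t^[q] v = v)
    (ht1 : ∀ v, t v = v → v = 1)
    (hmin : ∀ v : V, v ≠ 1 → ∃ M : Subgroup V, (∀ u ∈ M, t u ∈ M) ∧ v ∈ M ∧
      ∀ W : Subgroup V, (∀ u ∈ W, t u ∈ W) → W ⊓ M ≠ ⊥ → M ≤ W)
    (hpow : ∀ k : ℕ, 0 < k → k < q → ∃ φ : V ≃* V, ∀ u, φ (t u) = t^[k] (φ u)) : orderOf (p : ZMod q) = q - 1 := by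
  letI : Module (ZMod p) (Additive V) := AddCommGroup.zmodModule (n := p) (fun x => Additive.toMul.injective (hV _))
  let T : Module.End (ZMod p) (Additive V) := (MonoidHom.toAdditive t).toZModLinearMap p
  have hTn : ∀ (n : ℕ) (v : Additive V), (T ^ n) v = Additive.ofMul (t^[n] v.toMul) := by
    intro n
    induction n with
    | zero => intro v; rfl
    | succ n ih =>
      intro v
      rw [pow_succ, Module.End.mul_apply, ih, Function.iterate_succ, Function.comp_apply]
      rfl
  refine primitive_root (U := Additive V) hpq T (LinearMap.ext fun v => (hTn q v).trans (ht v.toMul)) (fun u hu => ht1 u.toMul hu) ?_ ?_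
  · intro v hv
    obtain ⟨M, hM1, hM2, hM3⟩ := hmin v.toMul hv
    refine ⟨AddSubgroup.toZModSubmodule p (Subgroup.toAddSubgroup M), fun u hu => hM1 u.toMul hu, hM2, ?_⟩
    intro W hW hWM
    let W' : Subgroup V :=
      { carrier := {v | Additive.ofMul v ∈ W}
        mul_mem' := fun {a b} ha hb => W.add_mem ha hb
        one_mem' := W.zero_mem
        inv_mem' := fun {a} ha => W.neg_mem ha }
    have h1 := hM3 W' (fun w hw => hW (Additive.ofMul w) hw) (by
      obtain ⟨x, hx1, hx2⟩ := (Submodule.ne_bot_iff _).1 hWM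
      intro h
      apply hx2
      have h2 : x.toMul ∈ W' ⊓ M := ⟨hx1.1, hx1.2⟩
      rw [h, Subgroup.mem_bot] at h2
      exact h2)
    exact fun u hu => h1 (x := u.toMul) hu
  · intro k hk0 hkq
    obtain ⟨φ, hφ⟩ := hpow k hk0 hkq
    exact ⟨MulEquiv.toAdditive φ, fun u => (hφ u.toMul).trans (hTn k _).symm⟩

end Cyc

section Ext

open Subgroup
open scoped IsMulCommutative commutatorElement

variable {G : Type*} [Group G] [Finite G]

/-- extension of an automorphism of a normal subgroup over a cyclic complement -/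
theorem exists_ext (P : Subgroup G) [hPn : P.Normal] {q : ℕ} [hq : Fact q.Prime] (hidx : P.index = q)
    (hcop : (Nat.card P).Coprime q) (x z : G) (hx : orderOf x = q) (hz : orderOf z = q) (φ : P ≃* P)
    (hφ : ∀ u : P, ((φ (MulAut.conjNormal x u) : P) : G) = z * (φ u : G) * z⁻¹) :
    ∃ α : G ≃* G, (∀ u : P, α (u : G) = (φ u : G)) ∧ α x = z := by
  have hQ : Nat.card (zpowers x) = q := by rw [Nat.card_zpowers, hx]
  have hcard : Nat.card P * q = Nat.card G := by rw [← hidx, card_mul_index]
  have hcomp : IsComplement' P (zpowers x) := isComplement'_of_coprime (by rw [hQ, hcard]) (by rw [hQ]; exact hcop)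
  let xx : zpowers x := ⟨x, mem_zpowers x⟩
  have hxx : ∀ y : zpowers x, y ∈ zpowers xx := by
    rintro ⟨y, hy⟩
    obtain ⟨i, rfl⟩ := mem_zpowers_iff.1 hy
    exact mem_zpowers_iff.2 ⟨i, rfl⟩
  have hox : orderOf xx = q := by rw [← hx]; exact orderOf_mk x _
  let fg : zpowers x →* G := monoidHomOfForallMemZpowers hxx (g' := z) (by rw [hox, hz])
  have hfg : fg xx = z := monoidHomOfForallMemZpowers_apply_gen hxx _
  let fn : P →* G := P.subtype.comp φ.toMonoidHom
  have hfn : ∀ u, fn u = (φ u : G) := fun u => rfl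
  have hnat : ∀ (n : ℕ) (u : P), ((φ (MulAut.conjNormal (x ^ n) u) : P) : G) = z ^ n * (φ u : G) * (z ^ n)⁻¹ := by
    intro n
    induction n with
    | zero => intro u; simp
    | succ n ih =>
      intro u
      rw [pow_succ', map_mul, MulAut.mul_apply, hφ, ih, pow_succ']
      group
  have hcond : ∀ g : zpowers x, fn.comp (((P.normalizerMonoidHom).comp (inclusion (P.normalizer_eq_top ▸ le_top))) g).toMonoidHom =
      (MulAut.conj (fg g)).toMonoidHom.comp fn := by
    intro g
    obtain ⟨n, hn⟩ : ∃ n : ℕ, xx ^ n = g := mem_powers_iff_mem_zpowers.2 (hxx g)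
    refine MonoidHom.ext fun u => ?_
    have h1 : fg g = z ^ n := by rw [← hn, map_pow, hfg]
    have h2 : (g : G) = x ^ n := by rw [← hn]; rfl
    have h3 : (((P.normalizerMonoidHom).comp (inclusion (P.normalizer_eq_top ▸ le_top))) g) u = MulAut.conjNormal (x ^ n) u := by
      apply Subtype.ext
      rw [MulAut.conjNormal_apply, ← h2]
      rfl
    have h4 := hnat n u
    rw [← h3, ← h1] at h4
    exact h4
  let E := SemidirectProduct.mulEquivSubgroup hcomp
  let L := SemidirectProduct.lift fn fg hcond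
  let α : G →* G := L.comp E.symm.toMonoidHom
  have hα1 : ∀ u : P, α (u : G) = (φ u : G) := by
    intro u
    have h1 : E (SemidirectProduct.inl u) = (u : G) := by
      simp [E]
    change L (E.symm (u : G)) = _
    rw [← h1, MulEquiv.symm_apply_apply, SemidirectProduct.lift_inl]
    rfl
  have hα2 : α x = z := by
    have h1 : E (SemidirectProduct.inr xx) = x := by
      simp [E, xx]
    have h2 : E.symm x = SemidirectProduct.inr xx := by
      rw [MulEquiv.symm_apply_eq]
      exact h1.symm
    change L (E.symm x) = _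
    rw [h2, SemidirectProduct.lift_inr]
    exact hfg
  have hsurj : Function.Surjective α := by
    rw [← MonoidHom.range_eq_top]
    have h1 : P ≤ α.range := by
      intro u hu
      refine ⟨(φ.symm ⟨u, hu⟩ : P), ?_⟩
      rw [hα1, MulEquiv.apply_symm_apply]
    have h2 : z ∈ α.range := ⟨x, hα2⟩
    have h3 : Nat.card P ∣ Nat.card α.range := card_dvd_of_le h1
    have h4 : q ∣ Nat.card α.range := by
      rw [← hz, ← Nat.card_zpowers]
      exact card_dvd_of_le (zpowers_le.2 h2)
    have h5 := hcop.mul_dvd_of_dvd_of_dvd h3 h4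
    rw [hcard] at h5
    exact eq_top_of_card_eq _ (Nat.dvd_antisymm (card_subgroup_dvd_card _) h5)
  have hbij : Function.Bijective α := ⟨Finite.injective_iff_surjective.2 hsurj, hsurj⟩
  exact ⟨MulEquiv.ofBijective α hbij, hα1, hα2⟩

theorem conj_iterate (P : Subgroup G) [hPn : P.Normal] (x : G) (n : ℕ) (u : P) :
    (((MulAut.conjNormal x : MulAut P).toMonoidHom)^[n] u : G) = x ^ n * (u : G) * (x ^ n)⁻¹ := by
  induction n generalizing u with
  | zero => simp
  | succ n ih =>
    rw [Function.iterate_succ, Function.comp_apply, ih]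
    change x ^ n * ((MulAut.conjNormal x u : P) : G) * (x ^ n)⁻¹ = _
    rw [MulAut.conjNormal_apply, pow_succ]
    group

theorem orderOf_of_notMem {p q n : ℕ} [hp : Fact p.Prime] [hq : Fact q.Prime] (hpq : p ≠ q)
    (P : Subgroup G) [hPn : P.Normal] (hidx : P.index = q) (hPe : Cfsg.IsElementaryAbelian p P)
    (hfp : ∀ x y : G, orderOf x = q → orderOf y = p → x * y * x⁻¹ ≠ y) (g : G) (hg : g ∉ P) : orderOf g = q := by
  have hcop : Nat.Coprime p q := (Nat.coprime_primes hp.out hq.out).2 hpq
  have h1 : g ^ q ∈ P := hidx ▸ P.pow_index_mem g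
  have hg1 : g ≠ 1 := fun h => hg (h ▸ P.one_mem)
  by_cases h2 : g ^ q = 1
  · exact orderOf_eq_prime h2 hg1
  · exfalso
    have h3 : orderOf (g ^ q) = p := orderOf_eq_prime (hPe.2 _ h1) h2
    have h4 : g ^ p ≠ 1 := by
      intro h
      apply hg
      obtain ⟨m, hm⟩ := exists_pow_eq_self_of_coprime (x := g) (n := q) ((hcop.symm).coprime_dvd_right (orderOf_dvd_of_pow_eq_one h))
      rw [← hm]
      exact P.pow_mem h1 m
    have h5 : orderOf (g ^ p) = q := by
      apply orderOf_eq_prime _ h4
      rw [← pow_mul, mul_comm, pow_mul]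
      exact hPe.2 _ h1
    apply hfp _ _ h5 h3
    rw [← pow_add, add_comm, pow_add, mul_inv_cancel_right]

theorem card_eq_three {p q n : ℕ} [hp : Fact p.Prime] [hq : Fact q.Prime] (hpq : p ≠ q) (hn : 1 ≤ n)
    (hcard : Nat.card G = p ^ n * q)
    (hSyl : ∀ P : Sylow p G, (P : Subgroup G).Normal ∧ Cfsg.IsElementaryAbelian p (P : Subgroup G))
    (hord : orderOf (p : ZMod q) = q - 1)
    (hfp : ∀ x y : G, orderOf x = q → orderOf y = p → x * y * x⁻¹ ≠ y) :
    Nat.card (MulAction.orbitRel.Quotient (MulAut G) G) = 3 := by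
  obtain ⟨P⟩ : Nonempty (Sylow p G) := inferInstance
  obtain ⟨hPn, hPe⟩ := hSyl P
  have hcop : Nat.Coprime p q := (Nat.coprime_primes hp.out hq.out).2 hpq
  have hcardP : Nat.card P = p ^ n := by
    rw [P.card_eq_multiplicity, hcard, Nat.factorization_mul (pow_ne_zero _ hp.out.ne_zero) hq.out.ne_zero]
    rw [Finsupp.add_apply, Nat.Prime.factorization_pow hp.out, Finsupp.single_eq_same]
    rw [Nat.factorization_eq_zero_of_not_dvd (fun h => hpq ((Nat.prime_dvd_prime_iff_eq hp.out hq.out).1 h)), add_zero]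
  have hidx : (P : Subgroup G).index = q := by
    have h1 := card_mul_index (P : Subgroup G)
    rw [hcard, hcardP] at h1
    exact Nat.eq_of_mul_eq_mul_left (pow_pos hp.out.pos _) h1
  have hPq : (Nat.card P).Coprime q := by rw [hcardP]; exact hcop.pow_left n
  haveI hPc : (P : Subgroup G).Characteristic := Sylow.characteristic_of_normal P hPn
  have hout := orderOf_of_notMem (n := n) hpq (P : Subgroup G) hidx hPe hfp
  haveI := hPe.1
  -- transitivity
  have key : ∀ x z : G, x ∉ (P : Subgroup G) → z ∉ (P : Subgroup G) → ∀ v w : P, v ≠ 1 → w ≠ 1 →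
      ∃ α : G ≃* G, α (v : G) = w ∧ α x = z := by
    intro x z hx hz v w hv hw
    have haux : ∀ y : G, y ∉ (P : Subgroup G) → (∀ v, ((MulAut.conjNormal y : MulAut P).toMonoidHom)^[q] v = v) ∧
        ∀ v, (MulAut.conjNormal y : MulAut P).toMonoidHom v = v → v = 1 := by
      intro y hy
      constructor
      · intro v
        apply Subtype.ext
        rw [conj_iterate, ← hout y hy, pow_orderOf_eq_one, one_mul, inv_one, mul_one]
      · intro v hv
        by_contra hv1
        have h1 : orderOf (v : G) = p := orderOf_eq_prime (hPe.2 _ v.2) (fun h => hv1 (Subtype.ext h))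
        apply hfp y v (hout y hy) h1
        have h2 := congrArg Subtype.val hv
        rwa [MulEquiv.toMonoidHom_eq_coe, MonoidHom.coe_coe, MulAut.conjNormal_apply] at h2
    obtain ⟨φ, hφ1, hφ2⟩ := exists_mulEquiv (V := P) (W := P) hpq hord rfl (fun v => Subtype.ext (hPe.2 _ v.2))
      (fun v => Subtype.ext (hPe.2 _ v.2)) (MulAut.conjNormal x : MulAut P).toMonoidHom
      (MulAut.conjNormal z : MulAut P).toMonoidHom (haux x hx).1 (haux x hx).2 (haux z hz).1 (haux z hz).2 v hv w hw
    obtain ⟨α, hα1, hα2⟩ := exists_ext (P : Subgroup G) hidx hPq x z (hout x hx) (hout z hz) φ (fun u => by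
      have h1 := congrArg Subtype.val (hφ1 u)
      exact h1.trans (MulAut.conjNormal_apply z (φ u)))
    exact ⟨α, by rw [hα1, hφ2], hα2⟩
  have hPt : (P : Subgroup G) ≠ ⊤ := by
    intro h
    rw [h, index_top] at hidx
    exact hq.out.one_lt.ne hidx
  have hPb : (P : Subgroup G) ≠ ⊥ := by
    intro h
    rw [h, card_bot] at hcardP
    have := Nat.one_lt_pow (n := n) (by omega) hp.out.one_lt
    omega
  obtain ⟨x₀, -, hx₀⟩ := SetLike.exists_of_lt (lt_top_iff_ne_top.2 hPt)
  obtain ⟨v₀, hv₀P, hv₀⟩ := (P : Subgroup G).bot_or_exists_ne_one.resolve_left hPb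
  classical
  let c : G → Fin 3 := fun g => if g = 1 then 0 else if g ∈ (P : Subgroup G) then 1 else 2
  have hc0 : ∀ g, c g = 0 ↔ g = 1 := by
    intro g
    by_cases h1 : g = 1
    · simp [c, h1]
    · by_cases h2 : g ∈ (P : Subgroup G) <;> simp [c, h1, h2]
  have hc1 : ∀ g, c g = 1 ↔ g ≠ 1 ∧ g ∈ (P : Subgroup G) := by
    intro g
    by_cases h1 : g = 1
    · simp [c, h1]
    · by_cases h2 : g ∈ (P : Subgroup G) <;> simp [c, h1, h2]
  have hc2 : ∀ g, c g = 2 ↔ g ∉ (P : Subgroup G) := by
    intro g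
    by_cases h1 : g = 1
    · simp [c, h1]
    · by_cases h2 : g ∈ (P : Subgroup G) <;> simp [c, h1, h2]
  have hinv : ∀ (α : MulAut G) (g : G), c (α g) = c g := by
    intro α g
    have h1 : α g = 1 ↔ g = 1 := MulEquiv.map_eq_one_iff α
    have h2 : α g ∈ (P : Subgroup G) ↔ g ∈ (P : Subgroup G) := by
      have h3 := hPc.fixed α
      constructor
      · intro h; rw [← h3]; exact h
      · intro h; rw [← h3] at h; exact h
    simp only [c, h1, h2]
  let f : MulAction.orbitRel.Quotient (MulAut G) G → Fin 3 := Quotient.lift c (by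
    intro a b hab
    obtain ⟨α, hα⟩ := MulAction.orbitRel_apply.1 hab
    rw [← hα]
    exact hinv α b)
  have hf : Function.Bijective f := by
    constructor
    · intro a b
      induction a using Quotient.inductionOn with | _ a =>
      induction b using Quotient.inductionOn with | _ b =>
      intro hab
      have hab' : c a = c b := hab
      apply Quotient.sound
      apply MulAction.orbitRel_apply.2
      by_cases h1 : b = 1
      · rw [h1, (hc0 1).2 rfl, hc0] at hab'
        rw [h1, hab']
        exact MulAction.mem_orbit_self _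
      · by_cases h2 : b ∈ (P : Subgroup G)
        · rw [(hc1 b).2 ⟨h1, h2⟩, hc1] at hab'
          obtain ⟨α, hα, -⟩ := key x₀ x₀ hx₀ hx₀ ⟨b, h2⟩ ⟨a, hab'.2⟩ (fun h => h1 (congrArg Subtype.val h))
            (fun h => hab'.1 (congrArg Subtype.val h))
          exact ⟨α, hα⟩
        · rw [(hc2 b).2 h2, hc2] at hab'
          obtain ⟨α, -, hα⟩ := key b a h2 hab' ⟨v₀, hv₀P⟩ ⟨v₀, hv₀P⟩ (fun h => hv₀ (congrArg Subtype.val h))
            (fun h => hv₀ (congrArg Subtype.val h))
          exact ⟨α, hα⟩
    · intro i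
      fin_cases i
      · exact ⟨Quotient.mk _ 1, (hc0 1).2 rfl⟩
      · exact ⟨Quotient.mk _ v₀, (hc1 v₀).2 ⟨hv₀, hv₀P⟩⟩
      · exact ⟨Quotient.mk _ x₀, (hc2 x₀).2 hx₀⟩
  rw [Nat.card_eq_of_bijective f hf, Nat.card_fin]

theorem main_aux {p q : ℕ} [hp : Fact p.Prime] [hq : Fact q.Prime] (hpq : p ≠ q) (a b : G) (ha : orderOf a = p)
    (hb : orderOf b = q) (hcov : ∀ g : G, g = 1 ∨ (∃ α : G ≃* G, α a = g) ∨ ∃ α : G ≃* G, α b = g)
    (hac : a ∈ commutator G) (hbc : b ∉ commutator G) (hs : Group.IsSolvable G) :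
    ∃ n, 1 ≤ n ∧ Nat.card G = p ^ n * q ∧
      (∀ P : Sylow p G, (P : Subgroup G).Normal ∧ Cfsg.IsElementaryAbelian p (P : Subgroup G)) ∧
      orderOf (p : ZMod q) = q - 1 ∧ ∀ x y : G, orderOf x = q → orderOf y = p → x * y * x⁻¹ ≠ y := by
  have hcop : Nat.Coprime p q := (Nat.coprime_primes hp.out hq.out).2 hpq
  have hord : ∀ g : G, g = 1 ∨ orderOf g = p ∨ orderOf g = q := by
    intro g
    rcases hcov g with h | ⟨α, h⟩ | ⟨α, h⟩
    · exact Or.inl h
    · right; left; rw [← h, ← ha]; exact MulEquiv.orderOf_eq α a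
    · right; right; rw [← h, ← hb]; exact MulEquiv.orderOf_eq α b
  have htra : ∀ g : G, orderOf g = p → ∃ α : G ≃* G, α a = g := by
    intro g hg
    rcases hcov g with h | h | ⟨α, h⟩
    · rw [h, orderOf_one] at hg
      exact absurd hg hp.out.one_lt.ne
    · exact h
    · exfalso
      rw [← h, MulEquiv.orderOf_eq α b, hb] at hg
      exact hpq hg.symm
  have htrb : ∀ g : G, orderOf g = q → ∃ α : G ≃* G, α b = g := by
    intro g hg
    rcases hcov g with h | ⟨α, h⟩ | h
    · rw [h, orderOf_one] at hg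
      exact absurd hg hq.out.one_lt.ne
    · exfalso
      rw [← h, MulEquiv.orderOf_eq α a, ha] at hg
      exact hpq hg
    · exact h
  have hchar : ∀ (H : Subgroup G) [H.Characteristic] (α : G ≃* G) (g : G), α g ∈ H ↔ g ∈ H := by
    intro H hH α g
    have h3 := hH.fixed α
    constructor
    · intro h; rw [← h3]; exact h
    · intro h; rw [← h3] at h; exact h
  set P := commutator G with hPdef
  haveI hPc : P.Characteristic := by rw [hPdef]; infer_instance
  have hP : ∀ g, g ∈ P ↔ g = 1 ∨ orderOf g = p := by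
    intro g
    constructor
    · intro hg
      rcases hord g with h | h | h
      · exact Or.inl h
      · exact Or.inr h
      · exfalso
        obtain ⟨α, hα⟩ := htrb g h
        rw [← hα, hchar P α b] at hg
        exact hbc hg
    · rintro (h | h)
      · rw [h]; exact P.one_mem
      · obtain ⟨α, hα⟩ := htra g h
        rw [← hα, hchar P α a]
        exact hac
  have hPp : ∀ g ∈ P, g ^ p = 1 := by
    intro g hg
    rcases (hP g).1 hg with h | h
    · rw [h, one_pow]
    · rw [← h, pow_orderOf_eq_one]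
  have hPG : IsPGroup p P := fun g => ⟨1, Subtype.ext (by
    rw [pow_one]
    exact hPp g g.2)⟩
  have hSyl : ∀ S : Sylow p G, (S : Subgroup G) = P := by
    intro S
    apply le_antisymm
    · intro s hs
      rw [hP]
      rcases hord s with h | h | h
      · exact Or.inl h
      · exact Or.inr h
      · exfalso
        obtain ⟨k, hk⟩ := S.isPGroup' ⟨s, hs⟩
        have h1 : s ^ p ^ k = 1 := congrArg Subtype.val hk
        have h2 := orderOf_dvd_of_pow_eq_one h1
        rw [h] at h2
        exact hpq ((Nat.prime_dvd_prime_iff_eq hq.out hp.out).1 (hq.out.dvd_of_dvd_pow h2)).symm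
    · exact hPG.le_sylow_of_normal S
  have ha1 : a ≠ 1 := by
    intro h
    rw [h, orderOf_one] at ha
    exact hp.out.one_lt.ne ha
  have hPbot : P ≠ ⊥ := by
    intro h
    rw [h, mem_bot] at hac
    exact ha1 hac
  have hD : ⁅P, P⁆ = ⊥ := by
    rw [eq_bot_iff]
    intro g hg
    rw [mem_bot]
    have hDP : ⁅P, P⁆ ≤ P := commutator_le_left P P
    rcases (hP g).1 (hDP hg) with h | h
    · exact h
    · exfalso
      obtain ⟨α, hα⟩ := htra g h
      rw [← hα, hchar ⁅P, P⁆ α a] at hg
      have h1 : P ≤ ⁅P, P⁆ := by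
        intro u hu
        rcases (hP u).1 hu with h2 | h2
        · rw [h2]; exact one_mem _
        · obtain ⟨β, hβ⟩ := htra u h2
          rw [← hβ, hchar ⁅P, P⁆ β a]
          exact hg
      exact absurd h1 (not_le_of_gt (Group.IsSolvable.commutator_lt_of_ne_bot hPbot))
  have hPe : Cfsg.IsElementaryAbelian p P := by
    refine ⟨⟨⟨fun u v => Subtype.ext ?_⟩⟩, hPp⟩
    have h1 : ⁅(u : G), (v : G)⁆ ∈ ⁅P, P⁆ := commutator_mem_commutator u.2 v.2
    rw [hD, mem_bot, commutatorElement_eq_one_iff_mul_comm] at h1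
    exact h1
  have hfp : ∀ x y : G, orderOf x = q → orderOf y = p → x * y * x⁻¹ ≠ y := by
    intro x y hx hy hxy
    have h1 : Commute x y := mul_inv_eq_iff_eq_mul.1 hxy
    have h2 := h1.orderOf_mul_eq_mul_orderOf_of_coprime (by rw [hx, hy]; exact hcop.symm)
    rw [hx, hy] at h2
    have hp1 := hp.out.one_lt
    have hq1 := hq.out.one_lt
    rcases hord (x * y) with h | h | h
    · rw [h, orderOf_one] at h2
      nlinarith
    · rw [h] at h2
      nlinarith
    · rw [h] at h2
      nlinarith
  -- the Sylow q-subgroup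
  obtain ⟨S⟩ : Nonempty (Sylow p G) := inferInstance
  obtain ⟨Q⟩ : Nonempty (Sylow q G) := inferInstance
  have hPQ : P ⊓ Q = ⊥ := by
    obtain ⟨i, hi⟩ := IsPGroup.iff_card.1 hPG
    obtain ⟨j, hj⟩ := IsPGroup.iff_card.1 Q.isPGroup'
    apply inf_eq_bot_of_coprime
    rw [hi, hj]
    exact Nat.Coprime.pow _ _ hcop
  have hQc : IsMulCommutative (Q : Subgroup G) := by
    refine ⟨⟨fun u v => Subtype.ext ?_⟩⟩
    have h1 : ⁅(u : G), (v : G)⁆ ∈ P ⊓ Q := by
      refine ⟨?_, ?_⟩
      · rw [hPdef, _root_.commutator_def]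
        exact commutator_mem_commutator (mem_top _) (mem_top _)
      · rw [_root_.commutatorElement_def]
        exact (Q : Subgroup G).mul_mem ((Q : Subgroup G).mul_mem ((Q : Subgroup G).mul_mem u.2 v.2) ((Q : Subgroup G).inv_mem u.2)) ((Q : Subgroup G).inv_mem v.2)
    rw [hPQ, mem_bot, commutatorElement_eq_one_iff_mul_comm] at h1
    exact h1
  have hQord : ∀ g ∈ (Q : Subgroup G), g ≠ 1 → orderOf g = q := by
    intro g hg hg1
    rcases hord g with h | h | h
    · exact absurd h hg1
    · exfalso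
      have h1 : g ∈ P ⊓ Q := ⟨(hP g).2 (Or.inr h), hg⟩
      rw [hPQ, mem_bot] at h1
      exact hg1 h1
    · exact h
  have hQcyc : IsCyclic (Q : Subgroup G) := by
    by_contra hne
    obtain ⟨i, hi⟩ := IsPGroup.iff_card.1 hPG
    obtain ⟨j, hj⟩ := IsPGroup.iff_card.1 Q.isPGroup'
    have h1 := CfsgLib.Coprime.le_cgen_of_not_isCyclic (A := (Q : Subgroup G)) (K := P) hQc hne le_normalizer_of_normal (by
      rw [hi, hj]
      exact Nat.Coprime.pow _ _ hcop.symm)
    apply hPbot
    rw [eq_bot_iff]
    refine h1.trans (iSup₂_le ?_)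
    rintro y ⟨hyQ, hy1⟩ g ⟨hgP, hgc⟩
    rw [mem_bot]
    by_contra hg1
    have h2 : orderOf g = p := ((hP g).1 hgP).resolve_left hg1
    refine hfp y g (hQord y hyQ hy1) h2 ?_
    have hgc' : g ∈ centralizer {y} := hgc
    rw [mem_centralizer_singleton_iff] at hgc'
    rw [mul_inv_eq_iff_eq_mul]
    exact hgc'.symm
  have hqG : q ∣ Nat.card G := hb ▸ orderOf_dvd_natCard b
  have hcardQ : Nat.card Q = q := by
    obtain ⟨g, hg⟩ := hQcyc.exists_generator
    have h1 := orderOf_eq_card_of_forall_mem_zpowers hg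
    have h2 : q ∣ Nat.card Q := Q.dvd_card_of_dvd_card hqG
    have h3 : (g : G) ≠ 1 := by
      intro h
      rw [← h1, ← orderOf_coe, h, orderOf_one] at h2
      exact hq.out.one_lt.ne' (Nat.dvd_one.1 h2)
    rw [← h1, ← orderOf_coe]
    exact hQord g g.2 h3
  obtain ⟨n, hn⟩ := IsPGroup.iff_card.1 hPG
  have hn1 : 1 ≤ n := by
    by_contra h
    have h0 : n = 0 := by omega
    rw [h0, pow_zero] at hn
    exact hPbot (card_eq_one.1 hn)
  have hcardG : Nat.card G = p ^ n * q := by
    apply Nat.dvd_antisymm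
    · rw [Nat.dvd_iff_prime_pow_dvd_dvd]
      intro r k hr hrk
      rcases Nat.eq_zero_or_pos k with hk | hk
      · rw [hk, pow_zero]; exact one_dvd _
      · have h1 : r ∣ Nat.card G := (dvd_pow_self r hk.ne').trans hrk
        haveI : Fact r.Prime := ⟨hr⟩
        obtain ⟨g, hg⟩ := exists_prime_orderOf_dvd_card' (G := G) r h1
        rcases hord g with h | h | h
        · rw [h, orderOf_one] at hg
          exact absurd hg hr.one_lt.ne
        · rw [hg] at h
          subst h
          have h2 := S.pow_dvd_card_of_pow_dvd_card hrk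
          rw [hSyl S, hn] at h2
          exact h2.trans (Dvd.intro _ rfl)
        · rw [hg] at h
          subst h
          have h2 := Q.pow_dvd_card_of_pow_dvd_card hrk
          rw [hcardQ] at h2
          exact h2.trans (Dvd.intro_left _ rfl)
    · rw [← hn, ← hcardQ]
      exact Nat.Coprime.mul_dvd_of_dvd_of_dvd (by rw [hn, hcardQ]; exact hcop.pow_left n) (card_subgroup_dvd_card P)
        (card_subgroup_dvd_card _)
  have hidx : P.index = q := by
    have h1 := card_mul_index P
    rw [hcardG, hn] at h1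
    exact Nat.eq_of_mul_eq_mul_left (pow_pos hp.out.pos _) h1
  refine ⟨n, hn1, hcardG, fun S => ⟨by rw [hSyl S]; infer_instance, by rw [hSyl S]; exact hPe⟩, ?_, hfp⟩
  haveI := hPe.1
  haveI : Nontrivial P := (nontrivial_iff_ne_bot P).2 hPbot
  have hPs : Group.IsSolvable P := inferInstance
  obtain ⟨M₀, hM₀n, hM₀P, hM₀b, hM₀min, -⟩ := CfsgLib.SZ.exists_minimal_normal_le P hPs hPbot
  obtain ⟨v₀, hv₀M, hv₀⟩ := M₀.bot_or_exists_ne_one.resolve_left hM₀b
  have hv₀o : orderOf v₀ = p := ((hP v₀).1 (hM₀P hv₀M)).resolve_left hv₀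
  obtain ⟨β, hβ⟩ := htra v₀ hv₀o
  refine primitive_root' (V := P) (p := p) (q := q) hpq (fun v => Subtype.ext (hPe.2 _ v.2)) (MulAut.conjNormal b : MulAut P).toMonoidHom
    ?_ ?_ ?_ ?_
  · intro v
    apply Subtype.ext
    rw [conj_iterate, ← hb, pow_orderOf_eq_one, one_mul, inv_one, mul_one]
  · intro v hv
    by_contra hv1
    have h1 : orderOf (v : G) = p := orderOf_eq_prime (hPe.2 _ v.2) (fun h => hv1 (Subtype.ext h))
    apply hfp b v hb h1
    have h2 := congrArg Subtype.val hv
    rwa [MulEquiv.toMonoidHom_eq_coe, MonoidHom.coe_coe, MulAut.conjNormal_apply] at h2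
  · intro v hv
    have hvo : orderOf (v : G) = p := ((hP v).1 v.2).resolve_left (fun h => hv (Subtype.ext h))
    obtain ⟨γ, hγ⟩ := htra v hvo
    let α : G ≃* G := β.symm.trans γ
    have hα : α v₀ = v := by
      change γ (β.symm v₀) = v
      rw [← hβ, MulEquiv.symm_apply_apply, hγ]
    let M : Subgroup G := M₀.map α.toMonoidHom
    have hMn : M.Normal := hM₀n.map _ α.surjective
    have hMmem : ∀ g, g ∈ M ↔ α.symm g ∈ M₀ := by
      intro g
      constructor
      · rintro ⟨u, hu, rfl⟩
        change α.symm (α u) ∈ M₀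
        rw [MulEquiv.symm_apply_apply]
        exact hu
      · intro h
        exact ⟨α.symm g, h, α.apply_symm_apply g⟩
    have hMP : M ≤ P := by
      intro g hg
      have h1 := hM₀P ((hMmem g).1 hg)
      rwa [hchar P α.symm g] at h1
    refine ⟨M.subgroupOf P, ?_, ?_, ?_⟩
    · intro u hu
      rw [mem_subgroupOf] at hu ⊢
      have h2 : (((MulAut.conjNormal b : MulAut P).toMonoidHom u : P) : G) = b * u * b⁻¹ := MulAut.conjNormal_apply b u
      rw [h2]
      exact hMn.conj_mem _ hu b
    · rw [mem_subgroupOf, hMmem, ← hα, MulEquiv.symm_apply_apply]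
      exact hv₀M
    · intro W hW hWM
      have hWn : (W.map P.subtype).Normal := CfsgLib.H3Irr.normal_of_conj P _ hPe.1 hidx b hbc (map_subtype_le W) (by
        rintro _ ⟨u, hu, rfl⟩
        exact ⟨_, hW u hu, MulAut.conjNormal_apply b u⟩)
      have h1 : ((W.map P.subtype ⊓ M).comap α.toMonoidHom).Normal := inferInstance
      have h2 : (W.map P.subtype ⊓ M).comap α.toMonoidHom ≤ M₀ := by
        rintro g ⟨-, hg⟩
        have h3 := (hMmem (α g)).1 hg
        rwa [MulEquiv.symm_apply_apply] at h3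
      rcases hM₀min _ h1 h2 with h3 | h3
      · exfalso
        apply hWM
        rw [eq_bot_iff]
        rintro u ⟨hu1, hu2⟩
        have h4 : α.symm (u : G) ∈ (W.map P.subtype ⊓ M).comap α.toMonoidHom := by
          rw [mem_comap]
          change α (α.symm (u : G)) ∈ _
          rw [MulEquiv.apply_symm_apply]
          exact ⟨⟨u, hu1, rfl⟩, hu2⟩
        rw [h3, mem_bot] at h4
        have h5 : (u : G) = 1 := by
          rw [← α.apply_symm_apply (u : G), h4, map_one]
        rw [mem_bot]
        exact Subtype.ext h5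
      · intro u hu
        rw [mem_subgroupOf, hMmem, ← h3, mem_comap] at hu
        have h4 : α (α.symm (u : G)) ∈ W.map P.subtype ⊓ M := hu
        rw [MulEquiv.apply_symm_apply] at h4
        obtain ⟨u', hu', he⟩ := h4.1
        rw [← Subtype.ext he]
        exact hu'
  · intro k hk0 hkq
    have h1 : orderOf (b ^ k) = q := by
      rw [← hb]
      apply Nat.Coprime.orderOf_pow
      rw [hb]
      exact (Nat.coprime_of_lt_prime hk0.ne' hkq hq.out)
    obtain ⟨α, hα⟩ := htrb _ h1
    have hPα : P.map (α : G →* G) = P := by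
      apply le_antisymm
      · rintro _ ⟨u, hu, rfl⟩
        exact (hchar P α u).2 hu
      · intro u hu
        refine ⟨α.symm u, ?_, α.apply_symm_apply u⟩
        exact (hchar P α.symm u).2 hu
    let φ : P ≃* P := (α.subgroupMap P).trans (MulEquiv.subgroupCongr hPα)
    have hφ : ∀ u : P, ((φ u : P) : G) = α u := fun u => rfl
    refine ⟨φ, fun u => Subtype.ext ?_⟩
    rw [conj_iterate, hφ, hφ]
    have h2 : (((MulAut.conjNormal b : MulAut P).toMonoidHom u : P) : G) = b * u * b⁻¹ := MulAut.conjNormal_apply b u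
    rw [h2, map_mul, map_mul, map_inv, hα]

theorem exists_struct (hnpp : ¬ IsPrimePow (Nat.card G)) (hnt : Nat.card G ≠ 1)
    (h3 : Nat.card (MulAction.orbitRel.Quotient (MulAut G) G) = 3) :
    ∃ (p q n : ℕ) (_ : Fact p.Prime) (_ : Fact q.Prime), p ≠ q ∧ 1 ≤ n ∧ Nat.card G = p ^ n * q ∧
      (∀ P : Sylow p G, (P : Subgroup G).Normal ∧ Cfsg.IsElementaryAbelian p (P : Subgroup G)) ∧
      orderOf (p : ZMod q) = q - 1 ∧
      ∀ x y : G, orderOf x = q → orderOf y = p → x * y * x⁻¹ ≠ y := by
  obtain ⟨r, hr, hrd⟩ := Nat.exists_prime_and_dvd hnt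
  haveI : Fact r.Prime := ⟨hr⟩
  obtain ⟨s, hs, hsd, hsr⟩ : ∃ s : ℕ, s.Prime ∧ s ∣ Nat.card G ∧ s ≠ r := by
    by_contra hcon
    push Not at hcon
    apply hnpp
    have h1 := Nat.eq_prime_pow_of_unique_prime_dvd (n := Nat.card G) (p := r) Nat.card_pos.ne' (fun {d} hd hdd => hcon d hd hdd)
    rw [h1]
    have h2 : (Nat.card G).primeFactorsList.length ≠ 0 := by
      intro h
      rw [h, pow_zero] at h1
      exact hnt h1
    exact hr.isPrimePow.pow h2
  haveI : Fact s.Prime := ⟨hs⟩
  obtain ⟨a, ha⟩ := exists_prime_orderOf_dvd_card' (G := G) r hrd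
  obtain ⟨b, hb⟩ := exists_prime_orderOf_dvd_card' (G := G) s hsd
  have hor : ∀ x y : G, (Quotient.mk _ x : MulAction.orbitRel.Quotient (MulAut G) G) = Quotient.mk _ y → ∃ α : G ≃* G, α y = x := by
    intro x y hxy
    obtain ⟨α, hα⟩ := MulAction.orbitRel_apply.1 (Quotient.exact hxy)
    exact ⟨α, hα⟩
  have hne : ∀ x y : G, orderOf x ≠ orderOf y → (Quotient.mk _ x : MulAction.orbitRel.Quotient (MulAut G) G) ≠ Quotient.mk _ y := by
    intro x y hxy h
    obtain ⟨α, hα⟩ := hor x y h
    exact hxy (by rw [← hα]; exact MulEquiv.orderOf_eq α y)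
  have hcov : ∀ g : G, g = 1 ∨ (∃ α : G ≃* G, α a = g) ∨ ∃ α : G ≃* G, α b = g := by
    intro g
    by_contra hcon
    push Not at hcon
    obtain ⟨hg1, hg2, hg3⟩ := hcon
    have h1a : (Quotient.mk _ 1 : MulAction.orbitRel.Quotient (MulAut G) G) ≠ Quotient.mk _ a :=
      hne 1 a (by rw [ha, orderOf_one]; exact hr.one_lt.ne)
    have h1b : (Quotient.mk _ 1 : MulAction.orbitRel.Quotient (MulAut G) G) ≠ Quotient.mk _ b :=
      hne 1 b (by rw [hb, orderOf_one]; exact hs.one_lt.ne)
    have hab : (Quotient.mk _ a : MulAction.orbitRel.Quotient (MulAut G) G) ≠ Quotient.mk _ b :=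
      hne a b (by rw [ha, hb]; exact hsr.symm)
    have hg1' : (Quotient.mk _ g : MulAction.orbitRel.Quotient (MulAut G) G) ≠ Quotient.mk _ 1 := by
      intro h
      obtain ⟨α, hα⟩ := hor _ _ h
      rw [map_one] at hα
      exact hg1 hα.symm
    have hg2' : (Quotient.mk _ g : MulAction.orbitRel.Quotient (MulAut G) G) ≠ Quotient.mk _ a := by
      intro h
      obtain ⟨α, hα⟩ := hor _ _ h
      exact hg2 α hα
    have hg3' : (Quotient.mk _ g : MulAction.orbitRel.Quotient (MulAut G) G) ≠ Quotient.mk _ b := by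
      intro h
      obtain ⟨α, hα⟩ := hor _ _ h
      exact hg3 α hα
    have hinj : Function.Injective (![Quotient.mk _ 1, Quotient.mk _ a, Quotient.mk _ b, Quotient.mk _ g] :
        Fin 4 → MulAction.orbitRel.Quotient (MulAut G) G) := by
      intro i j hij
      fin_cases i <;> fin_cases j <;>
        first
        | rfl
        | exact absurd hij h1a
        | exact absurd hij.symm h1a
        | exact absurd hij h1b
        | exact absurd hij.symm h1b
        | exact absurd hij hab
        | exact absurd hij.symm hab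
        | exact absurd hij hg1'
        | exact absurd hij.symm hg1'
        | exact absurd hij hg2'
        | exact absurd hij.symm hg2'
        | exact absurd hij hg3'
        | exact absurd hij.symm hg3'
    have h4 := Nat.card_le_card_of_injective _ hinj
    rw [h3, Nat.card_fin] at h4
    omega
  have hord : ∀ g : G, g = 1 ∨ orderOf g = r ∨ orderOf g = s := by
    intro g
    rcases hcov g with h | ⟨α, h⟩ | ⟨α, h⟩
    · exact Or.inl h
    · right; left; rw [← h, ← ha]; exact MulEquiv.orderOf_eq α a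
    · right; right; rw [← h, ← hb]; exact MulEquiv.orderOf_eq α b
  have hsolv : Group.IsSolvable G := by
    have hcard : Nat.card G = r ^ (Nat.card G).factorization r * s ^ (Nat.card G).factorization s := by
      apply Nat.dvd_antisymm
      · rw [Nat.dvd_iff_prime_pow_dvd_dvd]
        intro t k ht htk
        rcases Nat.eq_zero_or_pos k with hk | hk
        · rw [hk, pow_zero]; exact one_dvd _
        · have h1 : t ∣ Nat.card G := (dvd_pow_self t hk.ne').trans htk
          haveI : Fact t.Prime := ⟨ht⟩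
          obtain ⟨g, hg⟩ := exists_prime_orderOf_dvd_card' (G := G) t h1
          rcases hord g with h | h | h
          · rw [h, orderOf_one] at hg
            exact absurd hg ht.one_lt.ne
          · rw [hg] at h
            subst h
            exact (pow_dvd_pow t ((ht.pow_dvd_iff_le_factorization Nat.card_pos.ne').1 htk)).trans (Dvd.intro _ rfl)
          · rw [hg] at h
            subst h
            exact (pow_dvd_pow t ((ht.pow_dvd_iff_le_factorization Nat.card_pos.ne').1 htk)).trans (Dvd.intro_left _ rfl)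
      · exact Nat.Coprime.mul_dvd_of_dvd_of_dvd (Nat.Coprime.pow _ _ ((Nat.coprime_primes hr hs).2 hsr.symm))
          (Nat.ordProj_dvd _ _) (Nat.ordProj_dvd _ _)
    exact CfsgLib.CharBasic.burnside_pq _ G r s _ _ hr hs hcard rfl
  haveI := hsolv
  haveI : Nontrivial G := by
    by_contra h
    rw [not_nontrivial_iff_subsingleton] at h
    exact hnt Nat.card_unique
  have hDc : (commutator G).Characteristic := inferInstance
  have hchar : ∀ (α : G ≃* G) (g : G), α g ∈ commutator G ↔ g ∈ commutator G := by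
    intro α g
    have h3 := hDc.fixed α
    constructor
    · intro h; rw [← h3]; exact h
    · intro h; rw [← h3] at h; exact h
  have hD1 : commutator G ≠ ⊤ := (Group.IsSolvable.commutator_lt_top_of_nontrivial G).ne
  have hD2 : a ∈ commutator G ∨ b ∈ commutator G := by
    by_contra hcon
    push Not at hcon
    have h1 : commutator G = ⊥ := by
      rw [eq_bot_iff]
      intro g hg
      rcases hcov g with h | ⟨α, h⟩ | ⟨α, h⟩
      · exact mem_bot.2 h
      · rw [← h, hchar] at hg; exact absurd hg hcon.1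
      · rw [← h, hchar] at hg; exact absurd hg hcon.2
    have h2 : a * b = b * a := by
      have h3 : ⁅a, b⁆ ∈ commutator G := by
        rw [_root_.commutator_def]
        exact commutator_mem_commutator (mem_top _) (mem_top _)
      rw [h1, mem_bot, commutatorElement_eq_one_iff_mul_comm] at h3
      exact h3
    have h3 := (show Commute a b from h2).orderOf_mul_eq_mul_orderOf_of_coprime (by rw [ha, hb]; exact (Nat.coprime_primes hr hs).2 hsr.symm)
    rw [ha, hb] at h3
    have hp1 := hr.one_lt
    have hq1 := hs.one_lt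
    rcases hord (a * b) with h | h | h
    · rw [h, orderOf_one] at h3
      nlinarith
    · rw [h] at h3
      nlinarith
    · rw [h] at h3
      nlinarith
  have hD3 : ¬ (a ∈ commutator G ∧ b ∈ commutator G) := by
    rintro ⟨h1, h2⟩
    apply hD1
    rw [eq_top_iff]
    intro g _
    rcases hcov g with h | ⟨α, h⟩ | ⟨α, h⟩
    · rw [h]; exact one_mem _
    · rw [← h, hchar]; exact h1
    · rw [← h, hchar]; exact h2
  rcases hD2 with h | h
  · obtain ⟨n, hn⟩ := main_aux hsr.symm a b ha hb hcov h (fun h' => hD3 ⟨h, h'⟩) hsolv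
    exact ⟨r, s, n, inferInstance, inferInstance, hsr.symm, hn⟩
  · obtain ⟨n, hn⟩ := main_aux hsr b a hb ha (fun g => by
      rcases hcov g with h | h | h
      · exact Or.inl h
      · exact Or.inr (Or.inr h)
      · exact Or.inr (Or.inl h)) h (fun h' => hD3 ⟨h', h⟩) hsolv
    exact ⟨s, r, n, inferInstance, inferInstance, hsr, hn⟩

end Ext

end CfsgLib.H3Three
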