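import Mathlib
import Cfsg.Prelude.Def_OddOrderLocal

/-!
# Hall TI subgroups
-/

set_option autoImplicit false
set_option maxHeartbeats 1000000

namespace CfsgLib.H3Tih

open Subgroup

universe u

variable {G : Type u} [Group G] [Finite G]

theorem ti_eq {H : Subgroup G} (hTI : Cfsg.IsTISubset (H : Set G)) {a b x : G} (ha : a⁻¹ * x * a ∈ H) (hb : b⁻¹ * x * b ∈ H) (hx : x ≠ 1) :
    b⁻¹ * a ∈ normalizer (H : Set G) := by
  by_contra h
  have h1 := hTI (b⁻¹ * a) h (a⁻¹ * x * a) ha (by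
    have : b⁻¹ * a * (a⁻¹ * x * a) * (b⁻¹ * a)⁻¹ = b⁻¹ * x * b := by group
    rw [this]; exact hb)
  apply hx
  have : x = a * (a⁻¹ * x * a) * a⁻¹ := by group
  rw [this, h1]; group

/-- the intersection of `K` with a conjugate -/
def X (H K : Subgroup G) (a : G) : Subgroup G := K ⊓ H.map (MulAut.conj a).toMonoidHom

theorem mem_X {H K : Subgroup G} {a x : G} : x ∈ X H K a ↔ x ∈ K ∧ a⁻¹ * x * a ∈ H := by
  unfold X
  rw [mem_inf, mem_map]
  constructor
  · rintro ⟨h1, y, hy, rfl⟩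
    refine ⟨h1, ?_⟩
    have : a⁻¹ * ((MulAut.conj a).toMonoidHom y) * a = y := by
      change a⁻¹ * (a * y * a⁻¹) * a = y
      group
    rw [this]; exact hy
  · rintro ⟨h1, h2⟩
    refine ⟨h1, _, h2, ?_⟩
    change a * (a⁻¹ * x * a) * a⁻¹ = x
    group

/-- Hall subgroups contain conjugates of `q`-subgroups -/
theorem q_sub {H : Subgroup G} (hHall : (Nat.card H).Coprime H.index) {q : ℕ} (hq : q.Prime) (hqH : q ∣ Nat.card H) (Q : Subgroup G) (hQ : IsPGroup q Q) :
    ∃ a : G, ∀ x ∈ Q, a⁻¹ * x * a ∈ H := by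
  haveI := Fact.mk hq
  obtain ⟨P, hP⟩ := hQ.exists_le_sylow
  obtain ⟨S⟩ : Nonempty (Sylow q H) := inferInstance
  have hS : IsPGroup q ((S : Subgroup H).map H.subtype) := S.2.map _
  obtain ⟨P', hP'⟩ := hS.exists_le_sylow
  -- S is Sylow in G
  have hcard : Nat.card P' ≤ Nat.card ((S : Subgroup H).map H.subtype) := by
    rw [card_map_of_injective H.subtype_injective, S.card_eq_multiplicity, P'.card_eq_multiplicity]
    have h1 : (Nat.card G).factorization q = (Nat.card H).factorization q := by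
      rw [← H.card_mul_index, Nat.factorization_mul Nat.card_pos.ne' H.index_ne_zero_of_finite]
      have h2 : H.index.factorization q = 0 := by
        apply Nat.factorization_eq_zero_of_not_dvd
        intro hd
        have h3 := Nat.dvd_gcd hqH hd
        rw [Nat.coprime_iff_gcd_eq_one.1 hHall] at h3
        exact hq.one_lt.ne' (Nat.dvd_one.1 h3)
      simp [h2]
    rw [h1]
  have heq : (S : Subgroup H).map H.subtype = P' := eq_of_le_of_card_ge hP' hcard
  obtain ⟨g, hg⟩ := MulAction.exists_smul_eq G P' P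
  refine ⟨g, ?_⟩
  intro x hx
  have h1 : x ∈ P := hP hx
  rw [← hg] at h1
  have h2 : g⁻¹ * x * g ∈ P' := by
    have h3 : x ∈ ((g • P' : Sylow q G) : Subgroup G) := h1
    rw [Sylow.coe_subgroup_smul, Subgroup.mem_pointwise_smul_iff_inv_smul_mem] at h3
    have h4 : (MulAut.conj g)⁻¹ • x = g⁻¹ * x * g := by
      rw [← map_inv, MulAut.smul_def, MulAut.conj_apply, inv_inv]
    rw [h4] at h3
    exact h3
  have h3 : g⁻¹ * x * g ∈ (S : Subgroup H).map H.subtype := by rw [heq]; exact h2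
  obtain ⟨y, _, hy⟩ := h3
  rw [← hy]
  exact y.2

theorem s4116 (H : Subgroup G) (hHall : (Nat.card H).Coprime H.index) (hTI : Cfsg.IsTISubset (H : Set G))
    (K : Subgroup G) (hK : ∀ q : ℕ, q.Prime → q ∣ Nat.card K → q ∣ Nat.card H) :
    ∃ g : G, K ≤ H.map (MulAut.conj g).toMonoidHom := by
  classical
  by_cases hK1 : K = ⊥
  · exact ⟨1, hK1 ▸ bot_le⟩
  -- π-elements normalising H lie in H
  have hnorm : ∀ k ∈ K, k ∈ K → ∀ a : G, a⁻¹ * k * a ∈ normalizer (H : Set G) → a⁻¹ * k * a ∈ H := by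
    intro k hk _ a ha
    obtain ⟨N, hN⟩ : ∃ N, N = normalizer (H : Set G) := ⟨_, rfl⟩
    rw [← hN] at ha
    have hHN : H ≤ N := hN ▸ le_normalizer
    haveI : (H.subgroupOf N).Normal := by rw [hN]; infer_instance
    have h1 : (QuotientGroup.mk' (H.subgroupOf N) ⟨_, ha⟩) ^ (orderOf k) = 1 := by
      rw [← map_pow]
      have : (⟨a⁻¹ * k * a, ha⟩ : N) ^ orderOf k = 1 := by
        apply Subtype.ext
        change (a⁻¹ * k * a) ^ orderOf k = 1
        have h2 := conj_pow (i := orderOf k) (a := a⁻¹) (b := k)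
        rw [inv_inv] at h2
        rw [h2, pow_orderOf_eq_one]; group
      rw [this, map_one]
    have h2 : orderOf (QuotientGroup.mk' (H.subgroupOf N) ⟨_, ha⟩) ∣ orderOf k := orderOf_dvd_of_pow_eq_one h1
    have h3 : orderOf (QuotientGroup.mk' (H.subgroupOf N) ⟨_, ha⟩) ∣ H.index := by
      exact (_root_.orderOf_dvd_natCard _).trans (Subgroup.relIndex_dvd_index_of_le hHN)
    have h4 : orderOf (QuotientGroup.mk' (H.subgroupOf N) ⟨_, ha⟩) = 1 := by
      by_contra hne
      obtain ⟨q, hq, hqd⟩ := Nat.exists_prime_and_dvd hne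
      have h5 : q ∣ Nat.card K := (hqd.trans h2).trans (by
        have := orderOf_dvd_natCard (⟨k, hk⟩ : K)
        rwa [Subgroup.orderOf_mk] at this)
      have h6 := Nat.dvd_gcd (hK q hq h5) (hqd.trans h3)
      rw [Nat.coprime_iff_gcd_eq_one.1 hHall] at h6
      exact hq.one_lt.ne' (Nat.dvd_one.1 h6)
    rw [orderOf_eq_one_iff] at h4
    have h5 := (QuotientGroup.eq_one_iff (N := H.subgroupOf N) ⟨_, ha⟩).1 h4
    exact h5
  -- key: if two members of the family of X's share a prime then they are conjugate in K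
  have key : ∀ a : G, X H K a ≠ ⊥ → ∀ q : ℕ, q.Prime → q ∣ Nat.card (X H K a) → ∀ Q : Subgroup G, Q ≤ K → IsPGroup q Q → ∃ k ∈ K, ∀ x ∈ Q, k⁻¹ * x * k ∈ X H K a := by
    intro a ha q hq hqd Q hQK hQ
    haveI := Fact.mk hq
    -- a Sylow subgroup of K containing an element of order q of X
    obtain ⟨y, hy⟩ := exists_prime_orderOf_dvd_card' (G := X H K a) q hqd
    have hy1 : (y : G) ≠ 1 := by
      intro h0
      have : y = 1 := Subtype.ext h0
      rw [this, orderOf_one] at hy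
      exact hq.one_lt.ne hy
    have hyK : (y : G) ∈ K := (mem_X.1 y.2).1
    have hyp : IsPGroup q (zpowers (⟨y, hyK⟩ : K)) := IsPGroup.of_card (n := 1) (by
      rw [Nat.card_zpowers, Subgroup.orderOf_mk, pow_one, ← hy, Subgroup.orderOf_coe])
    obtain ⟨S, hS⟩ := hyp.exists_le_sylow
    have hSG : IsPGroup q ((S : Subgroup K).map K.subtype) := S.2.map _
    have hqH : q ∣ Nat.card H := hK q hq (hqd.trans (card_dvd_of_le (show X H K a ≤ K from inf_le_left)))
    obtain ⟨b, hb⟩ := q_sub hHall hq hqH _ hSG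
    have hyS : (y : G) ∈ (S : Subgroup K).map K.subtype := ⟨⟨y, hyK⟩, hS (mem_zpowers _), rfl⟩
    have hab := ti_eq hTI (mem_X.1 y.2).2 (hb y hyS) hy1
    -- b⁻¹ a normalises H, hence S ≤ X a
    have hSX : ∀ x ∈ (S : Subgroup K).map K.subtype, x ∈ X H K a := by
      intro x hx
      rw [mem_X]
      refine ⟨?_, ?_⟩
      · obtain ⟨z, _, rfl⟩ := hx; exact z.2
      · have h1 := hb x hx
        have h2 := (mem_normalizer_iff.1 hab (a⁻¹ * x * a)).2 (by
          have : b⁻¹ * a * (a⁻¹ * x * a) * (b⁻¹ * a)⁻¹ = b⁻¹ * x * b := by group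
          rw [this]; exact h1)
        exact h2
    have hQK' : IsPGroup q (Q.subgroupOf K) := hQ.comap_of_injective K.subtype K.subtype_injective
    obtain ⟨T, hT⟩ := hQK'.exists_le_sylow
    obtain ⟨k, hk⟩ := MulAction.exists_smul_eq K S T
    refine ⟨k, k.2, ?_⟩
    intro x hx
    have h1 : (⟨x, hQK hx⟩ : K) ∈ T := hT hx
    rw [← hk] at h1
    have h3 : (⟨x, hQK hx⟩ : K) ∈ ((k • S : Sylow q K) : Subgroup K) := h1
    rw [Sylow.coe_subgroup_smul, Subgroup.mem_pointwise_smul_iff_inv_smul_mem] at h3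
    apply hSX
    refine ⟨_, h3, ?_⟩
    simp
  -- nontrivial X exist
  obtain ⟨q, hq, hqd⟩ := Nat.exists_prime_and_dvd (n := Nat.card K) (by
    rw [Ne, Subgroup.card_eq_one]; exact hK1)
  haveI := Fact.mk hq
  have hex : ∀ q : ℕ, q.Prime → q ∣ Nat.card K → ∃ a : G, q ∣ Nat.card (X H K a) := by
    intro q hq hqd
    haveI := Fact.mk hq
    obtain ⟨y, hy⟩ := exists_prime_orderOf_dvd_card' (G := K) q hqd
    have hyp : IsPGroup q (zpowers (y : G)) := IsPGroup.of_card (n := 1) (by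
      rw [Nat.card_zpowers, Subgroup.orderOf_coe, pow_one, hy])
    obtain ⟨a, ha⟩ := q_sub hHall hq (hK q hq hqd) _ hyp
    refine ⟨a, ?_⟩
    have h1 : (y : G) ∈ X H K a := mem_X.2 ⟨y.2, ha _ (mem_zpowers _)⟩
    have h2 := orderOf_dvd_natCard (⟨y, h1⟩ : X H K a)
    rwa [Subgroup.orderOf_mk, Subgroup.orderOf_coe, hy] at h2
  -- X is TI and self-normalising in K: count conjugates
  have hself : ∀ a : G, X H K a ≠ ⊥ → ∀ k ∈ K, ∀ x, x ≠ 1 → x ∈ X H K a → k * x * k⁻¹ ∈ X H K a → k ∈ X H K a := by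
    intro a ha k hk x hx1 hx hkx
    rw [mem_X] at hx hkx ⊢
    refine ⟨hk, hnorm k hk hk a ?_⟩
    have h1 : (k⁻¹ * a)⁻¹ * x * (k⁻¹ * a) ∈ H := by
      have : (k⁻¹ * a)⁻¹ * x * (k⁻¹ * a) = a⁻¹ * (k * x * k⁻¹) * a := by group
      rw [this]; exact hkx.2
    have h2 := ti_eq hTI h1 hx.2 hx1
    have h3 : a⁻¹ * (k⁻¹ * a) = (a⁻¹ * k * a)⁻¹ := by group
    rw [h3] at h2
    exact (inv_mem_iff).1 h2
  -- number of non-identity elements covered by K-conjugates of X a
  let U : G → Set K := fun a => {x | x ≠ 1 ∧ ∃ k : K, ((k⁻¹ * x * k : K) : G) ∈ X H K a}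
  have hcount : ∀ a : G, X H K a ≠ ⊥ → Nat.card (U a) * Nat.card (X H K a) = Nat.card K * (Nat.card (X H K a) - 1) := by
    intro a ha
    obtain ⟨Y, hY⟩ : ∃ Y : Subgroup K, Y = (X H K a).subgroupOf K := ⟨_, rfl⟩
    have hYm : ∀ t : K, t ∈ Y ↔ (t : G) ∈ X H K a := by intro t; rw [hY, mem_subgroupOf]
    have hXK : X H K a ≤ K := inf_le_left
    have hYc : Nat.card Y = Nat.card (X H K a) := by
      rw [hY]; exact Nat.card_congr (subgroupOfEquivOfLe hXK).toEquiv
    -- map (K ⧸ Y) × {y ∈ Y | y ≠ 1} → U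
    have hbij : Nat.card (U a) = Y.index * (Nat.card Y - 1) := by
      let f : (K ⧸ Y) × {y : Y // y ≠ 1} → U a := fun z => ⟨z.1.out * ((z.2 : Y) : K) * z.1.out⁻¹, by
        constructor
        · intro h0
          apply z.2.2
          apply Subtype.ext
          have : ((z.2 : Y) : K) = z.1.out⁻¹ * (z.1.out * ((z.2 : Y) : K) * z.1.out⁻¹) * z.1.out := by group
          rw [this, h0]; simp
        · refine ⟨z.1.out, ?_⟩
          have h1 : z.1.out⁻¹ * (z.1.out * ((z.2 : Y) : K) * z.1.out⁻¹) * z.1.out = ((z.2 : Y) : K) := by group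
          rw [h1]
          exact (hYm _).1 (z.2 : Y).2⟩
      have hf : Function.Bijective f := by
        constructor
        · rintro ⟨c, y, hy⟩ ⟨d, z, hz⟩ h
          have h1 : c.out * (y : K) * c.out⁻¹ = d.out * (z : K) * d.out⁻¹ := congrArg Subtype.val h
          have hyX : (((y : Y) : K) : G) ∈ X H K a := (hYm _).1 y.2
          have hzX : (((z : Y) : K) : G) ∈ X H K a := (hYm _).1 z.2
          have h2 : ((d.out⁻¹ * c.out : K) : G) ∈ X H K a := by
            apply hself a ha _ (d.out⁻¹ * c.out : K).2 ((y : K) : G)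
            · intro h0; apply hy; exact Subtype.ext (Subtype.ext h0)
            · exact hyX
            · have h3 : (d.out⁻¹ * c.out) * (y : K) * (d.out⁻¹ * c.out)⁻¹ = (z : K) := by
                calc (d.out⁻¹ * c.out) * (y : K) * (d.out⁻¹ * c.out)⁻¹ = d.out⁻¹ * (c.out * (y : K) * c.out⁻¹) * d.out := by group
                  _ = d.out⁻¹ * (d.out * (z : K) * d.out⁻¹) * d.out := by rw [h1]
                  _ = _ := by group
              have h4 := congrArg (fun t : K => (t : G)) h3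
              have h5 : ((d.out⁻¹ * c.out : K) : G) * ((y : K) : G) * (((d.out⁻¹ * c.out : K) : G))⁻¹ = ((z : K) : G) := h4
              rw [h5]; exact hzX
          have h3 : d.out⁻¹ * c.out ∈ Y := (hYm _).2 h2
          have h4 : d = c := by
            rw [← QuotientGroup.out_eq' d, ← QuotientGroup.out_eq' c]
            exact QuotientGroup.eq.2 h3
          subst h4
          have h5 : y = z := by
            apply Subtype.ext
            have : (y : K) = d.out⁻¹ * (d.out * (y : K) * d.out⁻¹) * d.out := by group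
            rw [this, h1]; group
          subst h5
          rfl
        · rintro ⟨x, hx1, k, hk⟩
          have hkY : k⁻¹ * x * k ∈ Y := (hYm _).2 hk
          obtain ⟨u, hu⟩ : ∃ u : Y, (QuotientGroup.mk k : K ⧸ Y).out = k * u := QuotientGroup.mk_out_eq_mul Y k
          refine ⟨⟨QuotientGroup.mk k, ⟨⟨(u : K)⁻¹ * (k⁻¹ * x * k) * u, Y.mul_mem (Y.mul_mem (Y.inv_mem u.2) hkY) u.2⟩, ?_⟩⟩, ?_⟩
          · intro h0
            have h1 : (u : K)⁻¹ * (k⁻¹ * x * k) * u = 1 := congrArg Subtype.val h0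
            apply hx1
            have : x = k * (u * ((u : K)⁻¹ * (k⁻¹ * x * k) * u) * (u : K)⁻¹) * k⁻¹ := by group
            rw [this, h1]; group
          · apply Subtype.ext
            change (QuotientGroup.mk k : K ⧸ Y).out * ((u : K)⁻¹ * (k⁻¹ * x * k) * u) * (QuotientGroup.mk k : K ⧸ Y).out⁻¹ = x
            rw [hu]; group
      rw [← Nat.card_congr (Equiv.ofBijective f hf), Nat.card_prod]
      have h1 : Nat.card (K ⧸ Y) = Y.index := rfl
      rw [h1]
      congr 1
      have h2 : Nat.card {y : Y // y ≠ 1} = Nat.card Y - 1 := by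
        haveI : Fintype Y := Fintype.ofFinite Y
        rw [Nat.card_eq_fintype_card, Nat.card_eq_fintype_card, Fintype.card_subtype_compl, Fintype.card_subtype_eq]
      exact h2
    rw [hbij, ← hYc]
    have h1 := Y.card_mul_index
    calc Y.index * (Nat.card Y - 1) * Nat.card Y = (Nat.card Y * Y.index) * (Nat.card Y - 1) := by ring
      _ = _ := by rw [h1]
  have hXc : ∀ a, X H K a ≠ ⊥ → 2 ≤ Nat.card (X H K a) := by
    intro a ha
    haveI := (nontrivial_iff_ne_bot _).2 ha
    exact Finite.one_lt_card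
  obtain ⟨a, ha⟩ := hex q hq hqd
  have ha1 : X H K a ≠ ⊥ := by
    intro h0
    rw [h0, card_bot] at ha
    exact hq.one_lt.ne' (Nat.dvd_one.1 ha)
  -- all primes divide |X a|
  have hall : ∀ r : ℕ, r.Prime → r ∣ Nat.card K → r ∣ Nat.card (X H K a) := by
    intro r hr hrd
    by_contra hno
    obtain ⟨b, hb⟩ := hex r hr hrd
    have hb1 : X H K b ≠ ⊥ := by
      intro h0
      rw [h0, card_bot] at hb
      exact hr.one_lt.ne' (Nat.dvd_one.1 hb)
    -- U a and U b are disjoint
    have hdisj : Disjoint (U a) (U b) := by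
      rw [Set.disjoint_left]
      rintro x ⟨hx1, k, hk⟩ ⟨-, l, hl⟩
      rw [mem_X] at hk hl
      have h1 : ((k : G) * a)⁻¹ * (x : G) * (k * a) ∈ H := by
        have : ((k : G) * a)⁻¹ * (x : G) * (k * a) = a⁻¹ * ((k⁻¹ * x * k : K) : G) * a := by push_cast; group
        rw [this]; exact hk.2
      have h2 : ((l : G) * b)⁻¹ * (x : G) * (l * b) ∈ H := by
        have : ((l : G) * b)⁻¹ * (x : G) * (l * b) = b⁻¹ * ((l⁻¹ * x * l : K) : G) * b := by push_cast; group
        rw [this]; exact hl.2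
      have h3 := ti_eq hTI h2 h1 (fun h0 => hx1 (Subtype.ext h0))
      -- X b has an element of order r; conjugating gives one in X a
      haveI := Fact.mk hr
      obtain ⟨y, hy⟩ := exists_prime_orderOf_dvd_card' (G := X H K b) r hb
      have hyb := mem_X.1 y.2
      have h4 : (k : G)⁻¹ * ((l : G) * y * (l : G)⁻¹) * k ∈ X H K a := by
        rw [mem_X]
        refine ⟨K.mul_mem (K.mul_mem (K.inv_mem k.2) (K.mul_mem (K.mul_mem l.2 hyb.1) (K.inv_mem l.2))) k.2, ?_⟩
        have h5 := (mem_normalizer_iff.1 h3 (b⁻¹ * y * b)).1 hyb.2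
        have h6 : ((k : G) * a)⁻¹ * (l * b) * (b⁻¹ * y * b) * (((k : G) * a)⁻¹ * (l * b))⁻¹ = a⁻¹ * ((k : G)⁻¹ * ((l : G) * y * (l : G)⁻¹) * k) * a := by group
        rw [← h6]; exact h5
      apply hno
      have h5 := orderOf_dvd_natCard (⟨_, h4⟩ : X H K a)
      rw [Subgroup.orderOf_mk] at h5
      have h6 : orderOf ((k : G)⁻¹ * ((l : G) * y * (l : G)⁻¹) * k) = r := by
        have e1 : (k : G)⁻¹ * ((l : G) * y * (l : G)⁻¹) * k = (MulAut.conj ((k : G)⁻¹ * l)) (y : G) := by
          change _ = (k : G)⁻¹ * l * y * ((k : G)⁻¹ * l)⁻¹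
          group
        rw [e1, MulEquiv.orderOf_eq, Subgroup.orderOf_coe, hy]
      rwa [h6] at h5
    -- counting
    have hsum : Nat.card (U a) + Nat.card (U b) < Nat.card K := by
      have h1 : Nat.card (U a) + Nat.card (U b) = (U a ∪ U b).ncard := by
        rw [Set.ncard_union_eq hdisj (Set.toFinite _) (Set.toFinite _)]; rfl
      rw [h1]
      have h2 : (U a ∪ U b) ⊂ Set.univ := by
        rw [Set.ssubset_univ_iff]
        intro h0
        have h3 : (1 : K) ∈ U a ∪ U b := h0 ▸ Set.mem_univ _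
        rcases h3 with h | h
        · exact h.1 rfl
        · exact h.1 rfl
      have h3 := Set.ncard_lt_ncard h2 (Set.toFinite _)
      rwa [Set.ncard_univ] at h3
    have hca := hcount a ha1
    have hcb := hcount b hb1
    have h2a := hXc a ha1
    have h2b := hXc b hb1
    have hne : Nat.card (X H K a) ≠ Nat.card (X H K b) := fun h => hno (h ▸ hb)
    obtain ⟨x, hx⟩ : ∃ x, Nat.card (X H K a) = x := ⟨_, rfl⟩
    obtain ⟨y, hy⟩ : ∃ y, Nat.card (X H K b) = y := ⟨_, rfl⟩
    obtain ⟨s, hs⟩ : ∃ s, Nat.card (U a) = s := ⟨_, rfl⟩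
    obtain ⟨t, ht⟩ : ∃ t, Nat.card (U b) = t := ⟨_, rfl⟩
    obtain ⟨n, hn⟩ : ∃ n, Nat.card K = n := ⟨_, rfl⟩
    rw [hx] at hca h2a hne
    rw [hy] at hcb h2b hne
    rw [hs, hn] at hca
    rw [ht, hn] at hcb
    rw [hs, ht, hn] at hsum
    obtain ⟨x', rfl⟩ : ∃ x', x = x' + 1 := ⟨x - 1, by omega⟩
    obtain ⟨y', rfl⟩ : ∃ y', y = y' + 1 := ⟨y - 1, by omega⟩
    rw [Nat.add_sub_cancel] at hca hcb
    -- s (x'+1) = n x', t (y'+1) = n y', s + t < n, x', y' ≥ 1, x' ≠ y'
    have h5 : (s + t) * ((x' + 1) * (y' + 1)) < n * ((x' + 1) * (y' + 1)) := by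
      exact Nat.mul_lt_mul_of_pos_right hsum (by positivity)
    have h6 : (s + t) * ((x' + 1) * (y' + 1)) = n * (x' * (y' + 1) + y' * (x' + 1)) := by
      calc (s + t) * ((x' + 1) * (y' + 1)) = (s * (x' + 1)) * (y' + 1) + (t * (y' + 1)) * (x' + 1) := by ring
        _ = (n * x') * (y' + 1) + (n * y') * (x' + 1) := by rw [hca, hcb]
        _ = _ := by ring
    rw [h6] at h5
    have h7 : x' * (y' + 1) + y' * (x' + 1) < (x' + 1) * (y' + 1) := Nat.lt_of_mul_lt_mul_left h5
    have h8 : x' * y' < 1 := by nlinarith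
    have h9 : 1 ≤ x' * y' := Nat.mul_pos (by omega) (by omega)
    omega
  refine ⟨a, ?_⟩
  -- X a = K by comparing Sylow subgroups
  have hXK : X H K a ≤ K := inf_le_left
  have hcard : Nat.card K ∣ Nat.card (X H K a) := by
    rw [← Nat.factorization_prime_le_iff_dvd Nat.card_pos.ne' Nat.card_pos.ne']
    intro r hr
    by_cases hrd : r ∣ Nat.card K
    · haveI := Fact.mk hr
      obtain ⟨S⟩ : Nonempty (Sylow r K) := inferInstance
      obtain ⟨k, hk, hkx⟩ := key a ha1 r hr (hall r hr hrd) ((S : Subgroup K).map K.subtype) (map_subtype_le _) (S.2.map _)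
      have h1 : Nat.card (((S : Subgroup K).map K.subtype).map (MulAut.conj k⁻¹).toMonoidHom) ∣ Nat.card (X H K a) := by
        apply card_dvd_of_le
        rintro _ ⟨x, hx, rfl⟩
        have := hkx x hx
        change k⁻¹ * x * k⁻¹⁻¹ ∈ _
        rwa [inv_inv]
      rw [card_map_of_injective (MulAut.conj k⁻¹).injective, card_map_of_injective K.subtype_injective, S.card_eq_multiplicity] at h1
      exact (hr.pow_dvd_iff_le_factorization Nat.card_pos.ne').1 h1
    · rw [Nat.factorization_eq_zero_of_not_dvd hrd]; exact Nat.zero_le _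
  have h1 : X H K a = K := eq_of_le_of_card_ge hXK (Nat.le_of_dvd Nat.card_pos hcard)
  intro x hx
  rw [← h1] at hx
  exact (mem_inf.1 hx).2

end CfsgLib.H3Tih
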