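import Mathlib
set_option autoImplicit false
set_option linter.unusedSectionVars false
set_option linter.unusedVariables false

/-! A group with a self-centralizing normal abelian subgroup acting irreducibly: semilinear groups of dimension one. -/

namespace CfsgLib
namespace H5Semilin

theorem card_aut {K R : Type*} [Field K] [Finite K] [Ring R] [Algebra K R] [Finite R] [Nontrivial R]
    (hc : ∀ a b : R, a * b = b * a) (hd : ∀ a b : R, a * b = 0 → a = 0 ∨ b = 0) :
    Nat.card (R ≃ₐ[K] R) = Module.finrank K R := by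
  classical
  letI : CommRing R := { (inferInstance : Ring R) with mul_comm := hc }
  haveI : NoZeroDivisors R := ⟨fun {a b} h => hd a b h⟩
  haveI : IsDomain R := NoZeroDivisors.to_isDomain R
  letI : Fintype R := Fintype.ofFinite R
  letI : Field R := Fintype.fieldOfDomain R
  exact IsGalois.card_aut_eq_finrank K R

theorem cyclic_of_ring {M R : Type*} [Group M] [Finite M] [Ring R] [Nontrivial R]
    (hc : ∀ a b : R, a * b = b * a) (hd : ∀ a b : R, a * b = 0 → a = 0 ∨ b = 0) (f : M →* R)
    (hf : Function.Injective f) : IsCyclic M := by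
  letI : CommRing R := { (inferInstance : Ring R) with mul_comm := hc }
  haveI : NoZeroDivisors R := ⟨fun {a b} h => hd a b h⟩
  haveI : IsDomain R := NoZeroDivisors.to_isDomain R
  exact isCyclic_of_injective_ringHom f hf

theorem card_le_of_fixed {p : ℕ} [hp : Fact p.Prime] {R : Type*} [Ring R] [Algebra (ZMod p) R] [Finite R] [Nontrivial R]
    (hc : ∀ a b : R, a * b = b * a) (hd : ∀ a b : R, a * b = 0 → a = 0 ∨ b = 0) (S : Set R)
    (hS : Algebra.adjoin (ZMod p) S = ⊤) (i : ℕ) (hi : i ≠ 0) (h : ∀ s ∈ S, s ^ p ^ i = s) : Nat.card R ≤ p ^ i := by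
  classical
  letI : CommRing R := { (inferInstance : Ring R) with mul_comm := hc }
  haveI : NoZeroDivisors R := ⟨fun {a b} h => hd a b h⟩
  haveI : IsDomain R := NoZeroDivisors.to_isDomain R
  haveI : CharP R p := charP_of_injective_algebraMap (algebraMap (ZMod p) R).injective p
  have h1 : ∀ x : R, x ^ p ^ i = x := by
    intro x
    have hx : x ∈ Algebra.adjoin (ZMod p) S := hS ▸ Algebra.mem_top
    induction hx using Algebra.adjoin_induction with
    | mem x hx => exact h x hx
    | algebraMap r =>
      rw [← map_pow]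
      congr 1
      have : ∀ j, r ^ p ^ j = r := by
        intro j
        induction j with
        | zero => rw [pow_zero, pow_one]
        | succ j ih => rw [pow_succ, pow_mul, ih, ZMod.pow_card]
      exact this i
    | add x y _ _ hx hy => rw [add_pow_char_pow, hx, hy]
    | mul x y _ _ hx hy => rw [mul_pow, hx, hy]
  letI : Fintype R := Fintype.ofFinite R
  letI : Field R := Fintype.fieldOfDomain R
  have h2 : (Polynomial.X ^ p ^ i - Polynomial.X : Polynomial R) ≠ 0 :=
    FiniteField.X_pow_card_pow_sub_X_ne_zero R hi hp.out.one_lt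
  have h3 := Polynomial.card_roots' (Polynomial.X ^ p ^ i - Polynomial.X : Polynomial R)
  rw [FiniteField.X_pow_card_pow_sub_X_natDegree_eq R hi hp.out.one_lt] at h3
  rw [Nat.card_eq_fintype_card, ← Finset.card_univ]
  refine le_trans ?_ h3
  refine le_trans (Finset.card_le_card ?_) (Multiset.toFinset_card_le _)
  intro x _
  rw [Multiset.mem_toFinset, Polynomial.mem_roots h2]
  simp [h1 x]

section
variable {p : ℕ} [hp : Fact p.Prime] {V : Type*} [AddCommGroup V] [Module (ZMod p) V] [Finite V]
variable {H : Type*} [Group H] [Finite H] (ρ : H →* Module.End (ZMod p) V)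

theorem main {d : ℕ} (hcard : Nat.card V = p ^ d) (hd : 0 < d) (hinj : Function.Injective ρ) (M : Subgroup H) (hM : M.Normal)
    (hab : ∀ x ∈ M, ∀ y ∈ M, x * y = y * x) (hMb : M ≠ ⊥) (r : ℕ) (hr : r.Prime) (hexp : ∀ x ∈ M, x ^ r = 1)
    (hcen : Subgroup.centralizer (M : Set H) = M)
    (hirr : ∀ W : Submodule (ZMod p) V, (∀ m ∈ M, ∀ w ∈ W, ρ m w ∈ W) → W = ⊥ ∨ W = ⊤) :
    Nat.card M = r ∧ r ∣ p ^ d - 1 ∧ (∀ i : ℕ, 0 < i → i < d → ¬ r ∣ p ^ i - 1) ∧ Nat.card H ∣ r * d ∧
      ∃ h : H, M ⊔ Subgroup.zpowers h = ⊤ := by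
  classical
  obtain ⟨R, hR⟩ : ∃ R : Subalgebra (ZMod p) (Module.End (ZMod p) V), R = Algebra.adjoin (ZMod p) (ρ '' (M : Set H)) := ⟨_, rfl⟩
  have hMR : ∀ m ∈ M, ρ m ∈ R := fun m hm => hR ▸ Algebra.subset_adjoin ⟨m, hm, rfl⟩
  -- everything commuting with M commutes with R
  have hcommR : ∀ x : Module.End (ZMod p) V, (∀ m ∈ M, ρ m * x = x * ρ m) → ∀ y ∈ R, y * x = x * y := by
    intro x hx y hy
    rw [hR] at hy
    induction hy using Algebra.adjoin_induction with
    | mem y hy =>
      obtain ⟨m, hm, rfl⟩ := hy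
      exact hx m hm
    | algebraMap r => exact Algebra.commutes r x
    | add a b _ _ ha hb => rw [add_mul, mul_add, ha, hb]
    | mul a b _ _ ha hb => rw [mul_assoc, hb, ← mul_assoc, ha, mul_assoc]
  have hRM : ∀ y ∈ R, ∀ m ∈ M, ρ m * y = y * ρ m := by
    intro y hy m hm
    symm
    apply hcommR (ρ m) _ y hy
    intro n hn
    rw [← map_mul, ← map_mul, hab n hn m hm]
  have hRc : ∀ x ∈ R, ∀ y ∈ R, x * y = y * x := fun x hx y hy => hcommR y (hRM y hy) x hx
  have hVnt : Nontrivial V := by
    rw [← Finite.one_lt_card_iff_nontrivial, hcard]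
    exact Nat.one_lt_pow hd.ne' hp.out.one_lt
  obtain ⟨v0, hv0⟩ := exists_ne (0 : V)
  -- elements commuting with M and killing a nonzero vector are zero
  have hker : ∀ x : Module.End (ZMod p) V, (∀ m ∈ M, ρ m * x = x * ρ m) → ∀ v, v ≠ 0 → x v = 0 → x = 0 := by
    intro x hx v hv hxv
    have h1 := hirr (LinearMap.ker x) (by
      intro m hm w hw
      rw [LinearMap.mem_ker] at hw ⊢
      have := congrArg (fun f : Module.End (ZMod p) V => f w) (hx m hm)
      change ρ m (x w) = x (ρ m w) at this
      rw [← this, hw, map_zero])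
    rcases h1 with h1 | h1
    · exfalso
      apply hv
      have : v ∈ LinearMap.ker x := hxv
      rwa [h1, Submodule.mem_bot] at this
    · exact LinearMap.ker_eq_top.mp h1
  have hRd : ∀ a b : R, a * b = 0 → a = 0 ∨ b = 0 := by
    intro a b hab'
    by_cases hb : b = 0
    · exact Or.inr hb
    · left
      have hb' : (b : Module.End (ZMod p) V) ≠ 0 := fun h => hb (Subtype.ext h)
      obtain ⟨v, hv⟩ : ∃ v, (b : Module.End (ZMod p) V) v ≠ 0 := by
        by_contra hc
        push Not at hc
        exact hb' (LinearMap.ext hc)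
      apply Subtype.ext
      apply hker _ (hRM a a.2) _ hv
      exact congrArg (fun f : R => (f : Module.End (ZMod p) V) v) hab'
  have hRc' : ∀ a b : R, a * b = b * a := fun a b => Subtype.ext (hRc a a.2 b b.2)
  haveI : Nontrivial R := by
    refine ⟨⟨0, 1, fun h => hv0 ?_⟩⟩
    exact (congrArg (fun f : R => (f : Module.End (ZMod p) V) v0) h).symm
  haveI hfE : Finite (Module.End (ZMod p) V) := Finite.of_injective (fun f => (f : V → V)) DFunLike.coe_injective
  haveI : Finite R := Subtype.finite
  -- R ≅ V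
  let ev : R →ₗ[ZMod p] V :=
    { toFun := fun f => (f : Module.End (ZMod p) V) v0
      map_add' := fun f g => rfl
      map_smul' := fun c f => rfl }
  have hev : Function.Bijective ev := by
    constructor
    · rw [← LinearMap.ker_eq_bot, LinearMap.ker_eq_bot']
      intro f hf
      apply Subtype.ext
      exact hker _ (hRM f f.2) _ hv0 hf
    · rw [← LinearMap.range_eq_top]
      rcases hirr (LinearMap.range ev) (by
        rintro m hm w ⟨f, rfl⟩
        exact ⟨⟨ρ m, hMR m hm⟩ * f, rfl⟩) with h | h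
      · exfalso
        apply hv0
        have : v0 ∈ LinearMap.range ev := ⟨1, rfl⟩
        rwa [h, Submodule.mem_bot] at this
      · exact h
  have hRcard : Nat.card R = p ^ d := by rw [← hcard]; exact Nat.card_congr (Equiv.ofBijective ev hev)
  have hRrank : Module.finrank (ZMod p) R = d := by
    have h1 : Nat.card R = Nat.card (ZMod p) ^ Module.finrank (ZMod p) R :=
      Module.natCard_eq_pow_finrank
    rw [Nat.card_zmod, hRcard] at h1
    exact (Nat.pow_right_injective hp.out.two_le h1).symm
  -- M is cyclic of order r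
  have hcyc : IsCyclic M := by
    apply cyclic_of_ring (M := M) (R := R) hRc' hRd
      { toFun := fun m => ⟨ρ (m : H), hMR m m.2⟩
        map_one' := Subtype.ext (map_one ρ)
        map_mul' := fun a b => Subtype.ext (map_mul ρ (a : H) (b : H)) }
    intro a b hab'
    exact Subtype.ext (hinj (congrArg Subtype.val hab'))
  have hMcard : Nat.card M = r := by
    obtain ⟨g, hg⟩ := hcyc.exists_generator
    have h1 : Nat.card M = orderOf g := (orderOf_eq_card_of_forall_mem_zpowers hg).symm
    have h2 : orderOf g ∣ r := orderOf_dvd_of_pow_eq_one (Subtype.ext (hexp g g.2))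
    rcases (Nat.dvd_prime hr).mp h2 with h | h
    · exfalso; apply hMb
      rw [← Subgroup.card_eq_one, h1, h]
    · rw [h1, h]
  have hMfree : ∀ m ∈ M, ∀ v, v ≠ 0 → ρ m v = v → m = 1 := by
    intro m hm v hv h
    have h1 : ρ m - 1 = 0 := by
      apply hker _ _ v hv
      · rw [LinearMap.sub_apply, h]; simp
      · intro n hn
        rw [mul_sub, sub_mul, ← map_mul, ← map_mul, hab n hn m hm, mul_one, one_mul]
    apply hinj
    rw [map_one]
    exact sub_eq_zero.mp h1
  obtain ⟨m0, hm0, hm01⟩ : ∃ m ∈ M, m ≠ 1 := by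
    by_contra hc
    push Not at hc
    exact hMb ((Subgroup.eq_bot_iff_forall _).mpr hc)
  refine ⟨hMcard, ?_, ?_, ?_, ?_⟩
  · -- r ∣ p ^ d - 1 : the units of R
    haveI : NoZeroDivisors R := ⟨fun {a b} h => hRd a b h⟩
    haveI : Fact r.Prime := ⟨hr⟩
    have h1 : orderOf (⟨ρ m0, hMR m0 hm0⟩ : R) = r := by
      apply orderOf_eq_prime
      · apply Subtype.ext
        change (ρ m0) ^ r = 1
        rw [← map_pow, hexp m0 hm0, map_one]
      · intro h
        apply hm01
        apply hinj
        rw [map_one]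
        exact congrArg Subtype.val h
    letI : CommRing R := { (inferInstance : Ring R) with mul_comm := hRc' }
    haveI : IsDomain R := NoZeroDivisors.to_isDomain R
    letI : Fintype R := Fintype.ofFinite R
    letI : Field R := Fintype.fieldOfDomain R
    rw [← h1]
    apply orderOf_dvd_of_pow_eq_one
    rw [← hRcard, Nat.card_eq_fintype_card]
    apply FiniteField.pow_card_sub_one_eq_one
    intro h
    rw [h] at h1
    rw [orderOf_zero] at h1
    exact hr.pos.ne h1
  · intro i hi0 hid hdiv
    have h1 : Nat.card R ≤ p ^ i := by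
      apply card_le_of_fixed hRc' hRd (Set.range (fun m : M => (⟨ρ (m : H), hMR m m.2⟩ : R))) _ i hi0.ne'
      · rintro _ ⟨m, rfl⟩
        apply Subtype.ext
        change (ρ m) ^ p ^ i = ρ m
        rw [← map_pow]
        congr 1
        obtain ⟨k, hk⟩ := hdiv
        have hpi : 1 ≤ p ^ i := Nat.one_le_pow _ _ hp.out.pos
        have : p ^ i = r * k + 1 := by omega
        rw [this, pow_succ, pow_mul, hexp m m.2, one_pow, one_mul]
      · have h2 : (Set.range (fun m : M => (⟨ρ (m : H), hMR m m.2⟩ : R))) = Subtype.val ⁻¹' (ρ '' (M : Set H)) := by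
          ext x
          constructor
          · rintro ⟨m, rfl⟩; exact ⟨m, m.2, rfl⟩
          · rintro ⟨m, hm, hx⟩; exact ⟨⟨m, hm⟩, Subtype.ext hx⟩
        rw [h2, eq_top_iff]
        rintro ⟨x, hx⟩ -
        have hx' := hx
        rw [hR] at hx'
        induction hx' using Algebra.adjoin_induction with
        | mem y hy =>
          apply Algebra.subset_adjoin
          exact hy
        | algebraMap r =>
          exact Subalgebra.algebraMap_mem _ r
        | add a b ha hb iha ihb =>
          have := Subalgebra.add_mem _ (iha (hR ▸ ha)) (ihb (hR ▸ hb))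
          exact this
        | mul a b ha hb iha ihb =>
          have := Subalgebra.mul_mem _ (iha (hR ▸ ha)) (ihb (hR ▸ hb))
          exact this
    rw [hRcard] at h1
    exact absurd ((Nat.pow_le_pow_iff_right hp.out.one_lt).mp h1) (by omega)
  · -- H acts on R
    have hHR : ∀ h : H, ∀ x ∈ R, ρ h * x * ρ h⁻¹ ∈ R := by
      intro h x hx
      rw [hR] at hx
      induction hx using Algebra.adjoin_induction with
      | mem y hy =>
        obtain ⟨m, hm, rfl⟩ := hy
        rw [← map_mul, ← map_mul]
        exact hMR _ (hM.conj_mem m hm h)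
      | algebraMap r =>
        rw [← Algebra.commutes, mul_assoc, ← map_mul, mul_inv_cancel, map_one, mul_one]
        exact Subalgebra.algebraMap_mem _ r
      | add a b _ _ ha hb =>
        rw [mul_add, add_mul]
        exact Subalgebra.add_mem _ ha hb
      | mul a b _ _ ha hb =>
        have : ρ h * (a * b) * ρ h⁻¹ = (ρ h * a * ρ h⁻¹) * (ρ h * b * ρ h⁻¹) := by
          have h1 : ρ h⁻¹ * ρ h = 1 := by rw [← map_mul, inv_mul_cancel, map_one]
          calc ρ h * (a * b) * ρ h⁻¹ = ρ h * a * 1 * b * ρ h⁻¹ := by simp only [mul_assoc, one_mul, mul_one]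
            _ = _ := by rw [← h1]; simp only [mul_assoc]
        rw [this]
        exact Subalgebra.mul_mem _ ha hb
    have hcan : ∀ h : H, ∀ x : Module.End (ZMod p) V, ρ h⁻¹ * (ρ h * x * ρ h⁻¹) * ρ h = x := by
      intro h x
      have h1 : ρ h⁻¹ * ρ h = 1 := by rw [← map_mul, inv_mul_cancel, map_one]
      calc ρ h⁻¹ * (ρ h * x * ρ h⁻¹) * ρ h = (ρ h⁻¹ * ρ h) * x * (ρ h⁻¹ * ρ h) := by simp only [mul_assoc]
        _ = x := by rw [h1, one_mul, mul_one]
    let c : H →* (R ≃ₐ[ZMod p] R) :=
      { toFun := fun h =>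
          { toFun := fun x => ⟨ρ h * x * ρ h⁻¹, hHR h x x.2⟩
            invFun := fun x => ⟨ρ h⁻¹ * x * ρ h⁻¹⁻¹, hHR h⁻¹ x x.2⟩
            left_inv := fun x => Subtype.ext (by
              change ρ h⁻¹ * (ρ h * x * ρ h⁻¹) * ρ h⁻¹⁻¹ = x
              rw [inv_inv]; exact hcan h x)
            right_inv := fun x => Subtype.ext (by
              change ρ h * (ρ h⁻¹ * x * ρ h⁻¹⁻¹) * ρ h⁻¹ = x
              have := hcan h⁻¹ x
              rw [inv_inv] at this ⊢; exact this)
            map_mul' := fun a b => Subtype.ext (by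
              change ρ h * (a * b) * ρ h⁻¹ = (ρ h * a * ρ h⁻¹) * (ρ h * b * ρ h⁻¹)
              have h1 : ρ h⁻¹ * ρ h = 1 := by rw [← map_mul, inv_mul_cancel, map_one]
              calc ρ h * (a * b) * ρ h⁻¹ = ρ h * a * 1 * b * ρ h⁻¹ := by simp only [mul_assoc, one_mul, mul_one]
                _ = _ := by rw [← h1]; simp only [mul_assoc])
            map_add' := fun a b => Subtype.ext (by
              change ρ h * (a + b) * ρ h⁻¹ = (ρ h * a * ρ h⁻¹) + (ρ h * b * ρ h⁻¹)
              rw [mul_add, add_mul])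
            commutes' := fun r => Subtype.ext (by
              change ρ h * (algebraMap (ZMod p) (Module.End (ZMod p) V) r) * ρ h⁻¹ = algebraMap (ZMod p) (Module.End (ZMod p) V) r
              rw [← Algebra.commutes, mul_assoc, ← map_mul, mul_inv_cancel, map_one, mul_one]) }
        map_one' := AlgEquiv.ext fun x => Subtype.ext (by
          change ρ 1 * x * ρ 1⁻¹ = x
          rw [inv_one, map_one, one_mul, mul_one])
        map_mul' := fun g h => AlgEquiv.ext fun x => Subtype.ext (by
          change ρ (g * h) * x * ρ (g * h)⁻¹ = ρ g * (ρ h * x * ρ h⁻¹) * ρ g⁻¹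
          rw [mul_inv_rev, map_mul, map_mul]
          simp only [mul_assoc]) }
    have hck : c.ker = M := by
      ext h
      rw [MonoidHom.mem_ker]
      constructor
      · intro h1
        rw [← hcen, Subgroup.mem_centralizer_iff]
        intro m hm
        have h2 : ρ h * ρ m * ρ h⁻¹ = ρ m := congrArg (fun f : R ≃ₐ[ZMod p] R => ((f ⟨ρ m, hMR m hm⟩ : R) : Module.End (ZMod p) V)) h1
        rw [← map_mul, ← map_mul] at h2
        have h3 := hinj h2
        exact (mul_inv_eq_iff_eq_mul.mp h3).symm
      · intro hm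
        apply AlgEquiv.ext
        intro x
        apply Subtype.ext
        change ρ h * x * ρ h⁻¹ = x
        rw [hRM x x.2 h hm, mul_assoc, ← map_mul, mul_inv_cancel, map_one, mul_one]
    have h1 : Nat.card H = Nat.card c.ker * Nat.card c.range := by
      rw [← Subgroup.card_mul_index c.ker, Subgroup.index_ker]
    have h2 : Nat.card c.range ∣ d := by
      rw [← hRrank, ← card_aut hRc' hRd]
      exact Subgroup.card_subgroup_dvd_card _
    rw [h1, hck, hMcard]
    exact Nat.mul_dvd_mul_left _ h2
  · -- H / M is cyclic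
    have hMcyc : IsCyclic (MulAut M) := by
      have h1 := ZMod.isCyclic_units_prime hr
      rw [← hMcard] at h1
      exact isCyclic_of_injective (IsCyclic.mulAutMulEquiv M).toMonoidHom (IsCyclic.mulAutMulEquiv M).injective
    obtain ⟨⟨_, g, rfl⟩, hg⟩ := (inferInstance : IsCyclic (MulAut.conjNormal (H := M)).range).exists_generator
    refine ⟨g, ?_⟩
    rw [eq_top_iff]
    intro x _
    obtain ⟨k, hk⟩ := hg ⟨MulAut.conjNormal x, x, rfl⟩
    have hk' : (MulAut.conjNormal (H := M) g) ^ k = MulAut.conjNormal x := congrArg Subtype.val hk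
    have h1 : x * (g ^ k)⁻¹ ∈ M := by
      rw [← hcen, Subgroup.mem_centralizer_iff]
      intro m hm
      have h2 : MulAut.conjNormal (H := M) (x * (g ^ k)⁻¹) = 1 := by
        rw [map_mul, map_inv, map_zpow, hk', mul_inv_cancel]
      have h3 : (x * (g ^ k)⁻¹) * m * (x * (g ^ k)⁻¹)⁻¹ = m := by
        have := congrArg (fun f : MulAut M => ((f ⟨m, hm⟩ : M) : H)) h2
        rwa [MulAut.conjNormal_apply] at this
      exact (mul_inv_eq_iff_eq_mul.mp h3).symm
    have h2 : x = (x * (g ^ k)⁻¹) * g ^ k := by group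
    rw [h2]
    exact Subgroup.mul_mem_sup h1 (Subgroup.zpow_mem _ (Subgroup.mem_zpowers g) k)
end

/-- version for additive groups of exponent `p` -/
theorem main_add {p : ℕ} [hp : Fact p.Prime] {V : Type*} [AddCommGroup V] [Finite V] {H : Type*} [Group H] [Finite H]
    (f : H →* AddMonoid.End V) (hexpV : ∀ v : V, p • v = 0)
    {d : ℕ} (hcard : Nat.card V = p ^ d) (hd : 0 < d) (hinj : Function.Injective f) (M : Subgroup H) (hM : M.Normal)
    (hab : ∀ x ∈ M, ∀ y ∈ M, x * y = y * x) (hMb : M ≠ ⊥) (r : ℕ) (hr : r.Prime) (hexp : ∀ x ∈ M, x ^ r = 1)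
    (hcen : Subgroup.centralizer (M : Set H) = M)
    (hirr : ∀ W : AddSubgroup V, (∀ m ∈ M, ∀ w ∈ W, (f m : V →+ V) w ∈ W) → W = ⊥ ∨ W = ⊤) :
    Nat.card M = r ∧ r ∣ p ^ d - 1 ∧ (∀ i : ℕ, 0 < i → i < d → ¬ r ∣ p ^ i - 1) ∧ Nat.card H ∣ r * d ∧
      ∃ h : H, M ⊔ Subgroup.zpowers h = ⊤ := by
  classical
  let _ : Module (ZMod p) V := AddCommGroup.zmodModule (n := p) hexpV
  have hz : ∀ (g : V →+ V) (v : V), (AddMonoidHom.toZModLinearMap p g) v = g v :=
    fun g v => congrFun (AddMonoidHom.coe_toZModLinearMap p g) v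
  let ρ : H →* Module.End (ZMod p) V :=
    { toFun := fun h => AddMonoidHom.toZModLinearMap p (f h : V →+ V)
      map_one' := LinearMap.ext fun v => (hz _ _).trans (by rw [map_one]; rfl)
      map_mul' := fun g h => LinearMap.ext fun v => (hz _ _).trans (by
        rw [map_mul]
        exact ((hz _ _).trans (congrArg _ (hz _ _))).symm) }
  have hρ : ∀ h v, ρ h v = (f h : V →+ V) v := fun h v => hz _ _
  refine main ρ hcard hd ?_ M hM hab hMb r hr hexp hcen ?_
  · intro a b h
    apply hinj
    refine AddMonoidHom.ext fun v => ?_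
    exact (hρ a v).symm.trans ((congrArg (fun g : Module.End (ZMod p) V => g v) h).trans (hρ b v))
  · intro W hW
    rcases hirr W.toAddSubgroup (fun m hm w hw => by
      have := hW m hm w hw
      rwa [hρ] at this) with h | h
    · left
      ext v
      have : v ∈ W.toAddSubgroup ↔ v ∈ (⊥ : AddSubgroup V) := by rw [h]
      exact this
    · right
      ext v
      have : v ∈ W.toAddSubgroup ↔ v ∈ (⊤ : AddSubgroup V) := by rw [h]
      exact this

end H5Semilin
end CfsgLib
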