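import Mathlib

/-!
Verified coset enumeration.  Coset tables are given by functions `T y c` (column `y`, vertex code `c`),
every edge of the table is justified by a relator cycle all of whose other edges have smaller rank.
-/

set_option autoImplicit false

namespace Cfsg.Agent.H5TC

/-! ### kernel loops -/

/-- `P i` for all `lo ≤ i < lo + 2 ^ k`. -/
noncomputable def all2 (P : ℕ → Bool) (k : ℕ) : ℕ → Bool :=
  Nat.rec (fun lo => P lo)
    (fun k ih lo => Bool.rec false (ih (Nat.add lo (Nat.pow 2 k))) (ih lo)) k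

theorem bool_rec_and (a b : Bool) : (Bool.rec false b a : Bool) = (a && b) := by cases a <;> rfl

theorem bool_rec_or (a b : Bool) : (Bool.rec b true a : Bool) = (a || b) := by cases a <;> rfl

theorem all2_spec {P : ℕ → Bool} {k lo : ℕ} (h : all2 P k lo = true) :
    ∀ i, lo ≤ i → i < lo + 2 ^ k → P i = true := by
  induction k generalizing lo with
  | zero =>
    intro i h1 h2
    have : i = lo := by simp at h2; omega
    subst this
    exact h
  | succ k ih =>
    intro i h1 h2
    have h' : (Bool.rec false (all2 P k (lo + 2 ^ k)) (all2 P k lo) : Bool) = true := h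
    rw [bool_rec_and, Bool.and_eq_true] at h'
    rw [pow_succ] at h2
    rcases lt_or_ge i (lo + 2 ^ k) with h3 | h3
    · exact ih h'.1 i h1 h3
    · exact ih h'.2 i h3 (by omega)

/-- counting loop -/
noncomputable def cnt2 (P : ℕ → Bool) (k : ℕ) : ℕ → ℕ :=
  Nat.rec (fun lo => Bool.rec 0 1 (P lo))
    (fun k ih lo => Nat.add (ih lo) (ih (Nat.add lo (Nat.pow 2 k)))) k

theorem cnt2_spec (P : ℕ → Bool) (k lo : ℕ) :
    cnt2 P k lo = ((Finset.Ico lo (lo + 2 ^ k)).filter (fun i => P i = true)).card := by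
  induction k generalizing lo with
  | zero =>
    have : Finset.Ico lo (lo + 2 ^ 0) = {lo} := by ext i; simp
    rw [this]
    show (Bool.rec 0 1 (P lo) : ℕ) = _
    by_cases h : P lo = true
    · simp [h, Finset.filter_singleton]
    · simp [h, Finset.filter_singleton]
  | succ k ih =>
    show cnt2 P k lo + cnt2 P k (lo + 2 ^ k) = _
    have hk : 0 < 2 ^ k := by positivity
    rw [ih, ih, ← Finset.card_union_of_disjoint]
    · congr 1
      rw [← Finset.filter_union, Finset.Ico_union_Ico_eq_Ico (by omega) (by omega)]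
      congr 2
      rw [pow_succ]; ring
    · refine Finset.disjoint_filter_filter ?_
      rw [Finset.disjoint_left]
      intro a h1 h2
      simp only [Finset.mem_Ico] at h1 h2
      omega

/-! ### words -/

section words

variable {Γ : Type*} [Group Γ] (γ : ℕ → Γ)

/-- value of a word -/
def wd (w : List ℕ) : Γ := (w.map γ).prod

@[simp] theorem wd_nil : wd γ [] = 1 := rfl

@[simp] theorem wd_cons (y : ℕ) (w : List ℕ) : wd γ (y :: w) = γ y * wd γ w := by simp [wd]

@[simp] theorem wd_append (u w : List ℕ) : wd γ (u ++ w) = wd γ u * wd γ w := by simp [wd]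

theorem wd_flatten_replicate (w : List ℕ) (m : ℕ) :
    wd γ (List.replicate m w).flatten = wd γ w ^ m := by
  induction m with
  | zero => simp
  | succ m ih => simp [List.replicate_succ, ih, pow_succ']

/-- formal inverse of a word -/
def invw (inv : ℕ → ℕ) (w : List ℕ) : List ℕ := (w.map inv).reverse

theorem wd_invw {inv : ℕ → ℕ} (w : List ℕ) (h : ∀ y ∈ w, γ (inv y) = (γ y)⁻¹) :
    wd γ (invw inv w) = (wd γ w)⁻¹ := by
  induction w with
  | nil => simp [invw]
  | cons y w ih =>
    have h1 := ih (fun z hz => h z (List.mem_cons_of_mem _ hz))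
    have h2 := h y (List.mem_cons_self)
    simp only [invw] at h1
    simp [invw, wd_append, h1, h2]

theorem wd_rotate (w : List ℕ) (j : ℕ) (h : wd γ w = 1) : wd γ (w.rotate j) = 1 := by
  induction j generalizing w with
  | zero => simpa using h
  | succ j ih =>
    cases w with
    | nil => simp
    | cons a w =>
      rw [List.rotate_cons_succ]
      apply ih
      rw [wd_append, wd_cons, wd_nil, mul_one]
      rw [wd_cons] at h
      rw [mul_eq_one_iff_eq_inv] at h
      rw [h]; simp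

end words


/-! ### paths -/

/-- Path check: from `c`, reading `w` in the table `T`, all ranks are `< r`, and the end is `t`. -/
noncomputable def pathOK (T R : ℕ → ℕ → ℕ) (r t : ℕ) (w : List ℕ) : ℕ → Bool :=
  List.rec (fun c => Nat.beq c t)
    (fun y _ ih c => Bool.rec false (ih (T y c)) (Nat.blt (R y c) r)) w

theorem pathOK_nil (T R : ℕ → ℕ → ℕ) (r t c : ℕ) : pathOK T R r t [] c = Nat.beq c t := rfl

theorem pathOK_cons (T R : ℕ → ℕ → ℕ) (r t y : ℕ) (w : List ℕ) (c : ℕ) :
    pathOK T R r t (y :: w) c = (Nat.blt (R y c) r && pathOK T R r t w (T y c)) := by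
  show (Bool.rec false (pathOK T R r t w (T y c)) (Nat.blt (R y c) r) : Bool) = _
  rw [bool_rec_and]

section upper

variable {Γ X : Type*} [Group Γ] [MulAction Γ X] (γ : ℕ → Γ)

/-- Reading a path through good edges. -/
theorem path_spec {k : ℕ} {T R : ℕ → ℕ → ℕ} {V : ℕ → Prop} {p : ℕ → X}
    (hVT : ∀ y < k, ∀ c, V c → V (T y c)) {r : ℕ}
    (hg : ∀ y < k, ∀ c, V c → R y c < r → (γ y)⁻¹ • p c = p (T y c)) {t : ℕ} :
    ∀ (w : List ℕ) (c : ℕ), (∀ y ∈ w, y < k) → V c → pathOK T R r t w c = true →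
      (wd γ w)⁻¹ • p c = p t := by
  intro w
  induction w with
  | nil =>
    intro c _ _ h
    rw [pathOK_nil] at h
    have := Nat.eq_of_beq_eq_true h
    subst this
    simp
  | cons y w ih =>
    intro c hy hc h
    rw [pathOK_cons, Bool.and_eq_true] at h
    have h1 : R y c < r := by simpa [Nat.blt_eq] using h.1
    have h2 := hg y (hy y List.mem_cons_self) c hc h1
    have h3 := ih (T y c) (fun z hz => hy z (List.mem_cons_of_mem _ hz))
      (hVT y (hy y List.mem_cons_self) c hc) h.2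
    rw [wd_cons, mul_inv_rev, mul_smul, h2, h3]

/-- `y`-edge at `c` is traversed backwards. -/
def Back (inv : ℕ → ℕ) (T : ℕ → ℕ → ℕ) (y c : ℕ) : Prop := T y c < c ∨ (T y c = c ∧ inv y < y)

/-- Justification of a forward edge. -/
def Just (k : ℕ) (T R : ℕ → ℕ → ℕ) (PV PX : ℕ → ℕ) (x0 : X) (y c : ℕ) : Prop :=
  (c < T y c ∧ PV (T y c) = c ∧ PX (T y c) = y) ∨
  (∃ w : List ℕ, wd γ (y :: w) = 1 ∧ (∀ z ∈ w, z < k) ∧
    pathOK T R (R y c) c w (T y c) = true) ∨
  (∃ u v : List ℕ, (wd γ (u ++ y :: v))⁻¹ • x0 = x0 ∧ (∀ z ∈ u, z < k) ∧ (∀ z ∈ v, z < k) ∧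
    pathOK T R (R y c) c u 0 = true ∧ pathOK T R (R y c) 0 v (T y c) = true)

/-- All edges are good. -/
theorem main_good (k : ℕ) (inv : ℕ → ℕ) (hinv : ∀ y < k, γ (inv y) = (γ y)⁻¹)
    (hinvk : ∀ y < k, inv y < k) (hinv2 : ∀ y < k, inv (inv y) = y)
    (T R : ℕ → ℕ → ℕ) (PV PX : ℕ → ℕ) (x0 : X) (V : ℕ → Prop) (hV0 : V 0)
    (hVT : ∀ y < k, ∀ c, V c → V (T y c))
    (hTT : ∀ y < k, ∀ c, V c → T (inv y) (T y c) = c)
    (hB : ∀ y < k, ∀ c, V c → Back inv T y c → R (inv y) (T y c) = R y c)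
    (hJ : ∀ y < k, ∀ c, V c → ¬ Back inv T y c → Just γ k T R PV PX x0 y c) :
    ∃ p : ℕ → X, p 0 = x0 ∧ ∀ y < k, ∀ c, V c → (γ y)⁻¹ • p c = p (T y c) := by
  classical
  -- definition of p
  obtain ⟨p, hp⟩ : ∃ p : ℕ → X, ∀ c, p c = if c = 0 then x0 else
      if PV c < c then (γ (PX c))⁻¹ • p (PV c) else x0 := by
    let F : (c : ℕ) → ((m : ℕ) → m < c → X) → X := fun c ih =>
      if c = 0 then x0 else if h : PV c < c then (γ (PX c))⁻¹ • ih (PV c) h else x0
    refine ⟨WellFounded.fix Nat.lt_wfRel.wf F, fun c => ?_⟩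
    rw [WellFounded.fix_eq]
    simp only [F]
    split_ifs <;> rfl
  have hp0 : p 0 = x0 := by rw [hp]; simp
  have key : ∀ r : ℕ, ∀ y < k, ∀ c, V c → R y c = r → (γ y)⁻¹ • p c = p (T y c) := by
    intro r
    induction r using Nat.strong_induction_on with
    | _ r ih =>
      have hg : ∀ y < k, ∀ c, V c → R y c < r → (γ y)⁻¹ • p c = p (T y c) := by
        intro y hy c hc h
        exact ih _ h y hy c hc rfl
      have step : ∀ y < k, ∀ c, V c → R y c = r → ¬ Back inv T y c →
          (γ y)⁻¹ • p c = p (T y c) := by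
        intro y hy c hc hr hb
        rcases hJ y hy c hc hb with h | ⟨w, hw, hwk, h⟩ | ⟨u, v, huv, huk, hvk, h1, h2⟩
        · obtain ⟨h1, h2, h3⟩ := h
          rw [hp (T y c)]
          rw [if_neg (by omega), if_pos (by rw [h2]; exact h1), h2, h3]
        · rw [hr] at h
          have h1 := path_spec γ hVT hg w (T y c) hwk (hVT y hy c hc) h
          rw [wd_cons] at hw
          have h2 : (wd γ w)⁻¹ = γ y := by rw [inv_eq_iff_eq_inv]; exact (eq_inv_of_mul_eq_one_right hw)
          rw [h2] at h1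
          rw [inv_smul_eq_iff, h1]
        · rw [hr] at h1 h2
          have e1 := path_spec γ hVT hg u 0 huk hV0 h1
          have e2 := path_spec γ hVT hg v (T y c) hvk (hVT y hy c hc) h2
          rw [hp0] at e1 e2
          rw [wd_append, wd_cons, mul_inv_rev, mul_inv_rev, mul_smul, mul_smul, e1] at huv
          rw [← e2] at huv
          exact smul_left_cancel _ huv
      intro y hy c hc hr
      by_cases hb : Back inv T y c
      · have hc' := hVT y hy c hc
        have e := hTT y hy c hc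
        have hnb : ¬ Back inv T (inv y) (T y c) := by
          unfold Back at hb ⊢
          rw [e, hinv2 y hy]
          omega
        have hr' : R (inv y) (T y c) = r := by rw [hB y hy c hc hb, hr]
        have := step (inv y) (hinvk y hy) (T y c) hc' hr' hnb
        rw [e, hinv y hy, inv_inv] at this
        rw [← this, smul_smul, inv_mul_cancel, one_smul]
      · exact step y hy c hc hr hb
  exact ⟨p, hp0, fun y hy c hc => key _ y hy c hc rfl⟩

/-- Index bound for the subgroup generated by the columns. -/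
theorem orbit_le {k n E : ℕ} {T : ℕ → ℕ → ℕ} {V : ℕ → Prop} {p : ℕ → X} (hV0 : V 0)
    (hVT : ∀ y < k, ∀ c, V c → V (T y c)) (hV : ∀ c, V c → ∃ i < n, c = E * i)
    {inv : ℕ → ℕ} (hinvk : ∀ y < k, inv y < k)
    (hTT : ∀ y < k, ∀ c, V c → T (inv y) (T y c) = c)
    (hinv : ∀ y < k, γ (inv y) = (γ y)⁻¹)
    (hp : ∀ y < k, ∀ c, V c → (γ y)⁻¹ • p c = p (T y c)) (K : Subgroup Γ)
    (hK : K ≤ Subgroup.closure {g | ∃ y < k, g = γ y}) :
    MulAction.orbit K (p 0) ⊆ p '' {c | V c} ∧ (p '' {c | V c}).Finite ∧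
      (p '' {c | V c}).ncard ≤ n := by
  have hsub : p '' {c | V c} ⊆ (fun i => p (E * i)) '' (Finset.range n : Set ℕ) := by
    rintro _ ⟨c, hc, rfl⟩
    obtain ⟨i, hi, rfl⟩ := hV c hc
    exact ⟨i, by simpa using hi, rfl⟩
  have hfin : ((fun i => p (E * i)) '' (Finset.range n : Set ℕ)).Finite :=
    (Finset.finite_toSet _).image _
  refine ⟨?_, hfin.subset hsub, ?_⟩
  · -- set stable
    have hst : ∀ g ∈ Subgroup.closure {g | ∃ y < k, g = γ y}, ∀ q ∈ p '' {c | V c},
        g • q ∈ p '' {c | V c} := by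
      intro g hg
      induction hg using Subgroup.closure_induction_left with
      | one => intro q hq; simpa using hq
      | mul_left x hx y hy ih =>
        obtain ⟨z, hz, rfl⟩ := hx
        intro q hq
        rw [mul_smul]
        obtain ⟨c, hc, hcq⟩ := ih q hq
        rw [← hcq]
        refine ⟨T (inv z) c, hVT _ (hinvk z hz) c hc, ?_⟩
        rw [← hp _ (hinvk z hz) c hc, hinv z hz, inv_inv]
      | inv_mul_cancel x hx y hy ih =>
        obtain ⟨z, hz, rfl⟩ := hx
        intro q hq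
        rw [mul_smul]
        obtain ⟨c, hc, hcq⟩ := ih q hq
        rw [← hcq]
        exact ⟨T z c, hVT z hz c hc, (hp z hz c hc).symm⟩
    rintro _ ⟨g, rfl⟩
    exact hst g.1 (hK g.2) _ ⟨0, hV0, rfl⟩
  · calc (p '' {c | V c}).ncard ≤ ((fun i => p (E * i)) '' (Finset.range n : Set ℕ)).ncard :=
        Set.ncard_le_ncard hsub hfin
      _ ≤ (Finset.range n : Set ℕ).ncard := Set.ncard_image_le (Finset.finite_toSet _)
      _ = n := by rw [Set.ncard_coe_finset, Finset.card_range]

end upper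

/-- Relative index bound. -/
theorem relIndex_le {Γ : Type*} [Group Γ] (γ : ℕ → Γ) (H K : Subgroup Γ) {k n E : ℕ}
    {T : ℕ → ℕ → ℕ} {V : ℕ → Prop} {p : ℕ → Γ ⧸ H} (hV0 : V 0)
    (hVT : ∀ y < k, ∀ c, V c → V (T y c)) (hV : ∀ c, V c → ∃ i < n, c = E * i)
    {inv : ℕ → ℕ} (hinvk : ∀ y < k, inv y < k)
    (hTT : ∀ y < k, ∀ c, V c → T (inv y) (T y c) = c)
    (hinv : ∀ y < k, γ (inv y) = (γ y)⁻¹) (hp0 : p 0 = ((1 : Γ) : Γ ⧸ H))
    (hp : ∀ y < k, ∀ c, V c → (γ y)⁻¹ • p c = p (T y c))
    (hK : K ≤ Subgroup.closure {g | ∃ y < k, g = γ y}) :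
    H.relIndex K ≤ n ∧ H.relIndex K ≠ 0 := by
  obtain ⟨h1, h2, h3⟩ := orbit_le γ hV0 hVT hV hinvk hTT hinv hp K hK
  have e : H.relIndex K = (MulAction.orbit K (p 0)).ncard := by
    rw [← MulAction.index_stabilizer K (p 0), Subgroup.relIndex]
    congr 1
    ext g
    rw [MulAction.mem_stabilizer_iff, Subgroup.mem_subgroupOf, hp0]
    show (g : Γ) ∈ H ↔ (((g : Γ) * 1 : Γ) : Γ ⧸ H) = ((1 : Γ) : Γ ⧸ H)
    rw [mul_one, eq_comm, QuotientGroup.eq]
    simp
  have hf := h2.subset h1
  rw [e]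
  refine ⟨(Set.ncard_le_ncard h1 h2).trans h3, ?_⟩
  exact Set.ncard_ne_zero_of_mem (MulAction.mem_orbit_self (M := K) (p 0)) hf


/-! ### permutations from tables -/

/-- A complete table. -/
structure Tab (k : ℕ) (inv : ℕ → ℕ) (T : ℕ → ℕ → ℕ) (V : ℕ → Prop) : Prop where
  inv_lt : ∀ y < k, inv y < k
  inv_inv : ∀ y < k, inv (inv y) = y
  maps : ∀ y < k, ∀ c, V c → V (T y c)
  cancel : ∀ y < k, ∀ c, V c → T (inv y) (T y c) = c
  zero : V 0

namespace Tab

variable {k : ℕ} {inv : ℕ → ℕ} {T : ℕ → ℕ → ℕ} {V : ℕ → Prop}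

/-- permutation of a column: the action of the generator `y` -/
def perm (h : Tab k inv T V) (y : ℕ) : Equiv.Perm {c // V c} :=
  if hy : y < k then
    { toFun := fun c => ⟨T (inv y) c, h.maps _ (h.inv_lt y hy) _ c.2⟩
      invFun := fun c => ⟨T y c, h.maps _ hy _ c.2⟩
      left_inv := fun c => Subtype.ext (by
        have := h.cancel _ (h.inv_lt y hy) _ c.2
        rw [h.inv_inv y hy] at this
        exact this)
      right_inv := fun c => Subtype.ext (h.cancel _ hy _ c.2) }
  else 1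

theorem perm_inv_apply (h : Tab k inv T V) {y : ℕ} (hy : y < k) (c : {c // V c}) :
    (((h.perm y)⁻¹ c : {c // V c}) : ℕ) = T y c := by
  unfold perm
  rw [dif_pos hy]
  rfl

theorem perm_apply (h : Tab k inv T V) {y : ℕ} (hy : y < k) (c : {c // V c}) :
    ((h.perm y c : {c // V c}) : ℕ) = T (inv y) c := by
  unfold perm
  rw [dif_pos hy]
  rfl

theorem perm_inv (h : Tab k inv T V) {y : ℕ} (hy : y < k) : h.perm (inv y) = (h.perm y)⁻¹ := by
  ext c
  rw [h.perm_apply (h.inv_lt y hy), h.perm_inv_apply hy, h.inv_inv y hy]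

end Tab

/-- read a word -/
noncomputable def walk (T : ℕ → ℕ → ℕ) (w : List ℕ) : ℕ → ℕ :=
  List.rec (fun c => c) (fun y _ ih c => ih (T y c)) w

theorem walk_nil (T : ℕ → ℕ → ℕ) (c : ℕ) : walk T [] c = c := rfl

theorem walk_cons (T : ℕ → ℕ → ℕ) (y : ℕ) (w : List ℕ) (c : ℕ) :
    walk T (y :: w) c = walk T w (T y c) := rfl

theorem walk_append (T : ℕ → ℕ → ℕ) (u w : List ℕ) (c : ℕ) :
    walk T (u ++ w) c = walk T w (walk T u c) := by
  induction u generalizing c with
  | nil => rfl
  | cons y u ih => exact ih (T y c)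

namespace Tab

variable {k : ℕ} {inv : ℕ → ℕ} {T : ℕ → ℕ → ℕ} {V : ℕ → Prop}

theorem walk_spec (h : Tab k inv T V) : ∀ (w : List ℕ), (∀ y ∈ w, y < k) → ∀ c : {c // V c},
    (((wd h.perm w)⁻¹ c : {c // V c}) : ℕ) = walk T w c := by
  intro w
  induction w with
  | nil => intro _ c; simp [walk_nil]
  | cons y w ih =>
    intro hy c
    rw [wd_cons, mul_inv_rev, Equiv.Perm.mul_apply, ih (fun z hz => hy z (List.mem_cons_of_mem _ hz)),
      walk_cons, h.perm_inv_apply (hy y List.mem_cons_self)]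

theorem walk_V (h : Tab k inv T V) (w : List ℕ) (hw : ∀ y ∈ w, y < k) (c : ℕ) (hc : V c) :
    V (walk T w c) := by
  rw [← h.walk_spec w hw ⟨c, hc⟩]
  exact Subtype.prop _

theorem wd_eq_one (h : Tab k inv T V) (w : List ℕ) (hw : ∀ y ∈ w, y < k)
    (hc : ∀ c, V c → walk T w c = c) : wd h.perm w = 1 := by
  rw [← inv_eq_one]
  ext c
  rw [h.walk_spec w hw, hc _ c.2]
  rfl

theorem walk_inj (h : Tab k inv T V) (w : List ℕ) (hw : ∀ y ∈ w, y < k) {c d : ℕ} (hc : V c)
    (hd : V d) (e : walk T w c = walk T w d) : c = d := by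
  have h1 := h.walk_spec w hw ⟨c, hc⟩
  have h2 := h.walk_spec w hw ⟨d, hd⟩
  have h3 : (wd h.perm w)⁻¹ ⟨c, hc⟩ = (wd h.perm w)⁻¹ ⟨d, hd⟩ := by
    apply Subtype.ext
    rw [h1, h2, e]
  have := ((wd h.perm w)⁻¹).injective h3
  exact congrArg Subtype.val this

end Tab

theorem inv_self' {α : Type*} (f : Equiv.Perm α) (x : α) : f⁻¹ (f x) = x := f.symm_apply_apply x

theorem self_inv' {α : Type*} (f : Equiv.Perm α) (x : α) : f (f⁻¹ x) = x := f.apply_symm_apply x

/-- progressive closing check -/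
noncomputable def pwb (T : ℕ → ℕ → ℕ) (c0 : ℕ) (bs : List (List ℕ)) : ℕ → Bool :=
  List.rec (fun cur => Nat.beq cur c0)
    (fun b _ ih cur => (fun d => (Bool.rec (ih d) true (Nat.blt d c0) : Bool)) (walk T b cur)) bs

theorem pwb_nil (T : ℕ → ℕ → ℕ) (c0 cur : ℕ) : pwb T c0 [] cur = Nat.beq cur c0 := rfl

theorem pwb_cons (T : ℕ → ℕ → ℕ) (c0 : ℕ) (b : List ℕ) (bs : List (List ℕ)) (cur : ℕ) :
    pwb T c0 (b :: bs) cur = (Nat.blt (walk T b cur) c0 || pwb T c0 bs (walk T b cur)) := by
  show (Bool.rec (pwb T c0 bs (walk T b cur)) true (Nat.blt (walk T b cur) c0) : Bool) = _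
  rw [bool_rec_or]

theorem pwb_aux {k : ℕ} {inv : ℕ → ℕ} {T : ℕ → ℕ → ℕ} {V : ℕ → Prop} (h : Tab k inv T V)
    (S : ℕ → Prop) (c0 : ℕ) (hS : ∀ d < c0, V d → S d) :
    ∀ (bs : List (List ℕ)), (∀ b ∈ bs, ∀ y ∈ b, y < k) →
      (∀ b ∈ bs, ∀ c, V c → S (walk T b c) → S c) → ∀ cur, V cur → pwb T c0 bs cur = true →
      S cur ∨ walk T bs.flatten cur = c0 := by
  intro bs
  induction bs with
  | nil =>
    intro _ _ cur _ hp
    rw [pwb_nil] at hp
    right
    rw [List.flatten_nil, walk_nil]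
    exact Nat.eq_of_beq_eq_true hp
  | cons b bs ih =>
    intro hb hb2 cur hcur hp
    rw [pwb_cons, Bool.or_eq_true] at hp
    have hV := h.walk_V b (hb b List.mem_cons_self) cur hcur
    rcases hp with hp | hp
    · left
      have hlt : walk T b cur < c0 := by simpa [Nat.blt_eq] using hp
      exact hb2 b List.mem_cons_self cur hcur (hS _ hlt hV)
    · rcases ih (fun b' hb' => hb b' (List.mem_cons_of_mem _ hb'))
        (fun b' hb' => hb2 b' (List.mem_cons_of_mem _ hb')) (walk T b cur) hV hp with h1 | h1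
      · left
        exact hb2 b List.mem_cons_self cur hcur h1
      · right
        rw [List.flatten_cons, walk_append, h1]

theorem pwb_spec {k : ℕ} {inv : ℕ → ℕ} {T : ℕ → ℕ → ℕ} {V : ℕ → Prop} (h : Tab k inv T V)
    (bs : List (List ℕ)) (hb : ∀ b ∈ bs, ∀ y ∈ b, y < k)
    (hS : ∀ b ∈ bs, ∀ c, V c → walk T bs.flatten (walk T b c) = walk T b c →
      walk T bs.flatten c = c)
    (hc : ∀ c, V c → pwb T c bs c = true) : ∀ c, V c → walk T bs.flatten c = c := by
  intro c
  induction c using Nat.strong_induction_on with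
  | _ c ih =>
    intro hV
    rcases pwb_aux h (fun c => walk T bs.flatten c = c) c ih bs hb hS c hV (hc c hV) with h1 | h1
    · exact h1
    · exact h1

/-- dihedral relators -/
theorem dih_spec {k : ℕ} {inv : ℕ → ℕ} {T : ℕ → ℕ → ℕ} {V : ℕ → Prop} (h : Tab k inv T V)
    (x y m : ℕ) (hx : x < k) (hy : y < k) (hx' : inv x = x) (hy' : inv y = y)
    (hc : ∀ c, V c → pwb T c (List.replicate m [[x], [y]]).flatten c = true) :
    (h.perm x * h.perm y) ^ m = 1 := by
  have hfl : (List.replicate m [[x], [y]]).flatten.flatten = (List.replicate m [x, y]).flatten := by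
    clear hc
    induction m with
    | zero => simp
    | succ m ih => simp [List.replicate_succ, ih]
  have hx2 : h.perm x * h.perm x = 1 := by
    have := h.perm_inv hx
    rw [hx'] at this
    nth_rewrite 1 [this]
    exact inv_mul_cancel _
  have hy2 : h.perm y * h.perm y = 1 := by
    have := h.perm_inv hy
    rw [hy'] at this
    nth_rewrite 1 [this]
    exact inv_mul_cancel _
  set a := h.perm x with ha
  set b := h.perm y with hb
  have hmem : ∀ z ∈ (List.replicate m [x, y]).flatten, z < k := by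
    intro z hz
    rw [List.mem_flatten] at hz
    obtain ⟨l, hl, hzl⟩ := hz
    rw [List.mem_replicate] at hl
    rw [hl.2] at hzl
    simp at hzl
    rcases hzl with rfl | rfl
    · exact hx
    · exact hy
  have hwd : wd h.perm (List.replicate m [x, y]).flatten = (a * b) ^ m := by
    rw [wd_flatten_replicate]
    simp [ha, hb]
  have key : ∀ c, V c → walk T (List.replicate m [x, y]).flatten c = c := by
    rw [← hfl]
    have hmem2 : ∀ b ∈ (List.replicate m [[x], [y]]).flatten, b = [x] ∨ b = [y] := by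
      intro b hb
      rw [List.mem_flatten] at hb
      obtain ⟨l, hl, hzl⟩ := hb
      rw [List.mem_replicate] at hl
      rw [hl.2] at hzl
      simpa using hzl
    have fixinv : ∀ (c d : {c // V c}) (g : Equiv.Perm {c // V c}), g⁻¹ * (a * b) ^ m * g = ((a * b) ^ m)⁻¹ →
        ((a * b) ^ m) (g c) = g c → ((a * b) ^ m) c = c := by
      intro c d g hg hfix
      have h1 : ((a * b) ^ m)⁻¹ c = c := by
        rw [← hg, Equiv.Perm.mul_apply, Equiv.Perm.mul_apply, hfix, inv_self']
      nth_rewrite 1 [← h1]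
      exact self_inv' _ _
    refine pwb_spec h _ ?_ ?_ hc
    · intro b hb z hz
      rcases hmem2 b hb with rfl | rfl
      · simp at hz; rw [hz]; exact hx
      · simp at hz; rw [hz]; exact hy
    · intro b' hb' c hcV
      rw [hfl]
      have hw := h.walk_spec _ hmem
      rw [hwd] at hw
      have conv : ∀ d : {c // V c}, walk T (List.replicate m [x, y]).flatten d = d ↔ ((a * b) ^ m) d = d := by
        intro d
        rw [← hw d]
        constructor
        · intro e
          have e' : ((a * b) ^ m)⁻¹ d = d := Subtype.ext e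
          nth_rewrite 1 [← e']
          exact self_inv' _ _
        · intro e
          have : ((a * b) ^ m)⁻¹ d = d := by
            rw [Equiv.Perm.inv_eq_iff_eq]
            exact e.symm
          rw [this]
      have ainv : a⁻¹ = a := by rw [inv_eq_iff_mul_eq_one]; exact hx2
      have binv : b⁻¹ = b := by rw [inv_eq_iff_mul_eq_one]; exact hy2
      rcases hmem2 b' hb' with rfl | rfl
      · intro e
        have e1 : walk T [x] c = ((a⁻¹ ⟨c, hcV⟩ : {c // V c}) : ℕ) := by
          rw [ha, h.perm_inv_apply hx]; rfl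
        rw [e1] at e
        rw [conv (a⁻¹ ⟨c, hcV⟩)] at e
        refine (conv ⟨c, hcV⟩).2 (fixinv _ ⟨c, hcV⟩ a⁻¹ ?_ e)
        rw [inv_inv, ← conj_pow, ← inv_pow]
        congr 1
        rw [mul_inv_rev, ainv, binv, ← mul_assoc, hx2, one_mul]
      · intro e
        have e1 : walk T [y] c = ((b⁻¹ ⟨c, hcV⟩ : {c // V c}) : ℕ) := by
          rw [hb, h.perm_inv_apply hy]; rfl
        rw [e1] at e
        rw [conv (b⁻¹ ⟨c, hcV⟩)] at e
        refine (conv ⟨c, hcV⟩).2 (fixinv _ ⟨c, hcV⟩ b⁻¹ ?_ e)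
        rw [inv_inv, ← conj_pow, ← inv_pow]
        congr 1
        rw [mul_inv_rev, ainv, binv]
        rw [mul_assoc, mul_assoc, hy2, mul_one]
  rw [← hwd]
  exact h.wd_eq_one _ hmem key

/-- power relators -/
theorem pow_spec {k : ℕ} {inv : ℕ → ℕ} {T : ℕ → ℕ → ℕ} {V : ℕ → Prop} (h : Tab k inv T V)
    (u : List ℕ) (m : ℕ) (hu : ∀ z ∈ u, z < k)
    (hc : ∀ c, V c → pwb T c (List.replicate m u) c = true) : wd h.perm u ^ m = 1 := by
  rw [← wd_flatten_replicate]
  have hmem : ∀ z ∈ (List.replicate m u).flatten, z < k := by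
    intro z hz
    rw [List.mem_flatten] at hz
    obtain ⟨l, hl, hzl⟩ := hz
    rw [List.mem_replicate] at hl
    rw [hl.2] at hzl
    exact hu z hzl
  refine h.wd_eq_one _ hmem (pwb_spec h _ ?_ ?_ hc)
  · intro b hb z hz
    rw [List.mem_replicate] at hb
    rw [hb.2] at hz
    exact hu z hz
  · intro b hb c hcV e
    rw [List.mem_replicate] at hb
    rw [hb.2] at e
    have hcomm : ∀ (m : ℕ) (c : ℕ), walk T (List.replicate m u).flatten (walk T u c) =
        walk T u (walk T (List.replicate m u).flatten c) := by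
      intro m
      induction m with
      | zero => intro c; rfl
      | succ m ih => intro c; rw [List.replicate_succ, List.flatten_cons, walk_append, walk_append, ih]
    rw [hcomm] at e
    exact h.walk_inj u hu (h.walk_V _ hmem _ hcV) hcV e

end Cfsg.Agent.H5TC
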