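import Cfsg.Agent.Lib.H5TC

/-!
Verified coset enumeration, part 2: partial tables with coincidences (pointers).
Column `k` is the pointer column, its letter acts trivially.
An entry `T y c = e + 1` states that the letter `y` takes the vertex `c` to the vertex `e`.
-/

set_option autoImplicit false

namespace Cfsg.Agent.H5TC

/-- follow pointers of rank `< r` -/
noncomputable def findr (T R : ℕ → ℕ → ℕ) (k r : ℕ) (fuel : ℕ) : ℕ → ℕ :=
  Nat.rec (fun c => c)
    (fun _ ih c => Nat.rec c (fun e _ => Bool.rec c (ih e) (Nat.blt (R k c) r)) (T k c)) fuel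

theorem findr_succ (T R : ℕ → ℕ → ℕ) (k r fuel c : ℕ) :
    findr T R k r (fuel + 1) c =
      (Nat.rec c (fun e _ => Bool.rec c (findr T R k r fuel e) (Nat.blt (R k c) r)) (T k c) : ℕ) := rfl

/-- path with automatic pointer moves -/
noncomputable def pfOK (T R : ℕ → ℕ → ℕ) (k r t fuel : ℕ) (w : List ℕ) : ℕ → Bool :=
  List.rec (fun c => Nat.beq c t)
    (fun y _ ih c => Nat.rec false (fun e _ => Bool.rec false (ih (findr T R k r fuel e)) (Nat.blt (R y c) r))
      (T y c)) w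

theorem pfOK_nil (T R : ℕ → ℕ → ℕ) (k r t fuel c : ℕ) : pfOK T R k r t fuel [] c = Nat.beq c t := rfl

theorem pfOK_cons (T R : ℕ → ℕ → ℕ) (k r t fuel y : ℕ) (w : List ℕ) (c : ℕ) :
    pfOK T R k r t fuel (y :: w) c =
      (Nat.rec false (fun e _ => Bool.rec false (pfOK T R k r t fuel w (findr T R k r fuel e))
        (Nat.blt (R y c) r)) (T y c) : Bool) := rfl

theorem pfOK_cons_true {T R : ℕ → ℕ → ℕ} {k r t fuel y : ℕ} {w : List ℕ} {c : ℕ}
    (h : pfOK T R k r t fuel (y :: w) c = true) :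
    ∃ e, T y c = e + 1 ∧ R y c < r ∧ pfOK T R k r t fuel w (findr T R k r fuel e) = true := by
  rw [pfOK_cons] at h
  cases hT : T y c with
  | zero => rw [hT] at h; exact absurd h (by simp)
  | succ e =>
    rw [hT] at h
    have h' : (Bool.rec false (pfOK T R k r t fuel w (findr T R k r fuel e)) (Nat.blt (R y c) r) : Bool)
        = true := h
    rw [bool_rec_and, Bool.and_eq_true] at h'
    exact ⟨e, rfl, by simpa [Nat.blt_eq] using h'.1, h'.2⟩

section

variable {Γ X : Type*} [Group Γ] [MulAction Γ X] (γ : ℕ → Γ)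

theorem findr_spec {k : ℕ} {T R : ℕ → ℕ → ℕ} {V : ℕ → Prop} {p : ℕ → X} {r : ℕ}
    (hV : ∀ y ≤ k, ∀ c, V c → ∀ e, T y c = e + 1 → V e)
    (hgk : ∀ c, V c → R k c < r → ∀ e, T k c = e + 1 → p c = p e) (fuel : ℕ) :
    ∀ c, V c → V (findr T R k r fuel c) ∧ p (findr T R k r fuel c) = p c := by
  induction fuel with
  | zero => intro c hc; exact ⟨hc, rfl⟩
  | succ fuel ih =>
    intro c hc
    rw [findr_succ]
    cases hT : T k c with
    | zero => exact ⟨hc, rfl⟩
    | succ e =>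
      show V (Bool.rec c (findr T R k r fuel e) (Nat.blt (R k c) r) : ℕ) ∧
        p (Bool.rec c (findr T R k r fuel e) (Nat.blt (R k c) r) : ℕ) = p c
      cases hb : Nat.blt (R k c) r with
      | false => exact ⟨hc, rfl⟩
      | true =>
        have h1 : R k c < r := by simpa [Nat.blt_eq] using hb
        have h2 := ih e (hV k le_rfl c hc e hT)
        refine ⟨h2.1, ?_⟩
        show p (findr T R k r fuel e) = p c
        rw [h2.2, hgk c hc h1 e hT]

theorem pfOK_spec {k : ℕ} {T R : ℕ → ℕ → ℕ} {V : ℕ → Prop} {p : ℕ → X} {r : ℕ}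
    (hV : ∀ y ≤ k, ∀ c, V c → ∀ e, T y c = e + 1 → V e)
    (hk1 : γ k = 1)
    (hg : ∀ y ≤ k, ∀ c, V c → R y c < r → ∀ e, T y c = e + 1 → (γ y)⁻¹ • p c = p e) {t fuel : ℕ} :
    ∀ (w : List ℕ) (c : ℕ), (∀ y ∈ w, y ≤ k) → V c → pfOK T R k r t fuel w c = true →
      (wd γ w)⁻¹ • p c = p t := by
  intro w
  have hgk : ∀ c, V c → R k c < r → ∀ e, T k c = e + 1 → p c = p e := by
    intro c hc h e he
    have := hg k le_rfl c hc h e he
    rwa [hk1, inv_one, one_smul] at this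
  induction w with
  | nil =>
    intro c _ _ h
    rw [pfOK_nil] at h
    have := Nat.eq_of_beq_eq_true h
    subst this
    simp
  | cons y w ih =>
    intro c hy hc h
    obtain ⟨e, he, hr, h2⟩ := pfOK_cons_true h
    have hyk := hy y List.mem_cons_self
    have hVe := hV y hyk c hc e he
    have hf := findr_spec hV hgk fuel e hVe
    have h1 := hg y hyk c hc hr e he
    have h3 := ih _ (fun z hz => hy z (List.mem_cons_of_mem _ hz)) hf.1 h2
    rw [wd_cons, mul_inv_rev, mul_smul, h1, ← hf.2, h3]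

/-- Justification of a partial table entry. -/
def JustG (k : ℕ) (inv : ℕ → ℕ) (T R : ℕ → ℕ → ℕ) (PV PX : ℕ → ℕ) (x0 : X) (V : ℕ → Prop)
    (y c e : ℕ) : Prop :=
  (c < e ∧ PV e = c ∧ PX e = y) ∨
  (y < k ∧ T (inv y) e = c + 1 ∧ R (inv y) e < R y c) ∨
  (∃ (a b : List ℕ) (s f1 f2 t1 t2 : ℕ), V s ∧ (∀ z ∈ a, z ≤ k) ∧ (∀ z ∈ b, z ≤ k) ∧
    (wd γ (a ++ [y]) = wd γ b ∨ (s = 0 ∧ (wd γ (a ++ [y]))⁻¹ • x0 = (wd γ b)⁻¹ • x0)) ∧
    pfOK T R k (R y c) c f2 a (findr T R k (R y c) f1 s) = true ∧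
    pfOK T R k (R y c) e t2 b (findr T R k (R y c) t1 s) = true)

theorem partial_good (k : ℕ) (inv : ℕ → ℕ) (hk1 : γ k = 1)
    (hinv : ∀ y < k, γ (inv y) = (γ y)⁻¹) (hinvk : ∀ y < k, inv y < k)
    (T R : ℕ → ℕ → ℕ) (PV PX : ℕ → ℕ) (x0 : X) (V : ℕ → Prop) (hV0 : V 0)
    (hV : ∀ y ≤ k, ∀ c, V c → ∀ e, T y c = e + 1 → V e)
    (hJ : ∀ y ≤ k, ∀ c, V c → ∀ e, T y c = e + 1 → JustG γ k inv T R PV PX x0 V y c e) :
    ∃ p : ℕ → X, p 0 = x0 ∧ ∀ y ≤ k, ∀ c, V c → ∀ e, T y c = e + 1 → (γ y)⁻¹ • p c = p e := by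
  classical
  obtain ⟨p, hp⟩ : ∃ p : ℕ → X, ∀ c, p c = if c = 0 then x0 else
      if PV c < c then (γ (PX c))⁻¹ • p (PV c) else x0 := by
    let F : (c : ℕ) → ((m : ℕ) → m < c → X) → X := fun c ih =>
      if c = 0 then x0 else if h : PV c < c then (γ (PX c))⁻¹ • ih (PV c) h else x0
    refine ⟨WellFounded.fix Nat.lt_wfRel.wf F, fun c => ?_⟩
    rw [WellFounded.fix_eq]
    simp only [F]
    split_ifs <;> rfl
  have hp0 : p 0 = x0 := by rw [hp]; simp
  have key : ∀ r : ℕ, ∀ y ≤ k, ∀ c, V c → R y c = r → ∀ e, T y c = e + 1 →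
      (γ y)⁻¹ • p c = p e := by
    intro r
    induction r using Nat.strong_induction_on with
    | _ r ih =>
      have hg : ∀ y ≤ k, ∀ c, V c → R y c < r → ∀ e, T y c = e + 1 → (γ y)⁻¹ • p c = p e := by
        intro y hy c hc h
        exact ih _ h y hy c hc rfl
      have hgk : ∀ c, V c → R k c < r → ∀ e, T k c = e + 1 → p c = p e := by
        intro c hc h e he
        have := hg k le_rfl c hc h e he
        rwa [hk1, inv_one, one_smul] at this
      intro y hy c hc hr e he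
      rcases hJ y hy c hc e he with h | h | ⟨a, b, s, f1, f2, t1, t2, hs, ha, hb, hw, h1, h2⟩
      · obtain ⟨h1, h2, h3⟩ := h
        rw [hp e, if_neg (by omega), if_pos (by omega), h2, h3]
      · obtain ⟨h1, h2, h3⟩ := h
        have := hg (inv y) (hinvk y h1).le e (hV y hy c hc e he) (by omega) c h2
        rw [hinv y h1, inv_inv] at this
        rw [← this, smul_smul, inv_mul_cancel, one_smul]
      · rw [hr] at h1 h2
        have f1' := findr_spec hV hgk f1 s hs
        have f2' := findr_spec hV hgk t1 s hs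
        have e1 := pfOK_spec γ hV hk1 hg a _ ha f1'.1 h1
        have e2 := pfOK_spec γ hV hk1 hg b _ hb f2'.1 h2
        rw [f1'.2] at e1
        rw [f2'.2] at e2
        have e3 : (wd γ (a ++ [y]))⁻¹ • p s = (wd γ b)⁻¹ • p s := by
          rcases hw with hw | ⟨hw1, hw2⟩
          · rw [hw]
          · rw [hw1, hp0, hw2]
        rw [wd_append, mul_inv_rev, mul_smul, e1, e2, wd_cons, wd_nil, mul_one] at e3
        exact e3
  exact ⟨p, hp0, fun y hy c hc => key _ y hy c hc rfl⟩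

end

end Cfsg.Agent.H5TC
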