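import Cfsg.Agent.Lib.H5TC2

/-!
Verified coset enumeration, part 3: index, orbits, order bounds.
-/

set_option autoImplicit false

namespace Cfsg.Agent.H5TC

theorem smul_orb {G X : Type*} [Group G] [MulAction G X] {x y : X} (g : G)
    (h : x ∈ MulAction.orbit G y) : g • x ∈ MulAction.orbit G y := by
  obtain ⟨g', rfl⟩ := h
  exact ⟨g * g', by simp [mul_smul]⟩

section index

variable {Γ : Type*} [Group Γ] (γ : ℕ → Γ) {k n E : ℕ} {inv : ℕ → ℕ} {T : ℕ → ℕ → ℕ}
  {V : ℕ → Prop}

/-- `φ` computes walks. -/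
theorem phi_walk (h : Tab k inv T V) (φ : Γ →* Equiv.Perm {c // V c})
    (hφ : ∀ y < k, φ (γ y) = h.perm y) (w : List ℕ) (hw : ∀ y ∈ w, y < k) (c : {c // V c}) :
    ((φ (wd γ w)⁻¹ c : {c // V c}) : ℕ) = walk T w c := by
  rw [← h.walk_spec w hw c, map_inv]
  congr 3
  induction w with
  | nil => simp
  | cons y w ih =>
    rw [wd_cons, wd_cons, map_mul, ih (fun z hz => hw z (List.mem_cons_of_mem _ hz)),
      hφ y (hw y List.mem_cons_self)]

theorem equivariant (h : Tab k inv T V) (hinv : ∀ y < k, γ (inv y) = (γ y)⁻¹)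
    (X : Type*) [MulAction Γ X]
    (p : ℕ → X) (hp : ∀ y < k, ∀ c, V c → (γ y)⁻¹ • p c = p (T y c))
    (φ : Γ →* Equiv.Perm {c // V c}) (hφ : ∀ y < k, φ (γ y) = h.perm y) (g : Γ)
    (hg : g ∈ Subgroup.closure {g | ∃ y < k, g = γ y}) :
    ∀ c : {c // V c}, p (φ g c : {c // V c}) = g • p c := by
  induction hg using Subgroup.closure_induction_left with
  | one => intro c; simp
  | mul_left x hx y hy ih =>
    obtain ⟨z, hz, rfl⟩ := hx
    intro c
    rw [map_mul, Equiv.Perm.mul_apply, mul_smul, ← ih c, hφ z hz, h.perm_apply hz,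
      ← hp _ (h.inv_lt z hz) _ (Subtype.prop _), hinv z hz, inv_inv]
  | inv_mul_cancel x hx y hy ih =>
    obtain ⟨z, hz, rfl⟩ := hx
    intro c
    rw [map_mul, Equiv.Perm.mul_apply, mul_smul, ← ih c, map_inv, hφ z hz, h.perm_inv_apply hz,
      ← hp _ hz _ (Subtype.prop _)]

theorem trans_aux (h : Tab k inv T V) (φ : Γ →* Equiv.Perm {c // V c})
    (hφ : ∀ y < k, φ (γ y) = h.perm y)
    (htree : ∀ c, V c → c ≠ 0 → ∃ y < k, ∃ d < c, V d ∧ T y d = c) :
    ∀ c (hc : V c), ∃ g ∈ Subgroup.closure {g | ∃ y < k, g = γ y}, φ g ⟨0, h.zero⟩ = ⟨c, hc⟩ := by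
  intro c
  induction c using Nat.strong_induction_on with
  | _ c ih =>
    intro hc
    rcases eq_or_ne c 0 with rfl | hc0
    · exact ⟨1, Subgroup.one_mem _, by simp⟩
    · obtain ⟨y, hy, d, hd, hVd, e⟩ := htree c hc hc0
      obtain ⟨g, hg, hg2⟩ := ih d hd hVd
      refine ⟨(γ y)⁻¹ * g, Subgroup.mul_mem _ (Subgroup.inv_mem _
        (Subgroup.subset_closure ⟨y, hy, rfl⟩)) hg, ?_⟩
      rw [map_mul, Equiv.Perm.mul_apply, hg2, map_inv, hφ y hy]
      apply Subtype.ext
      rw [h.perm_inv_apply hy]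
      exact e

/-- The index theorem. -/
theorem index_thm (h : Tab k inv T V) (hV : ∀ c, V c ↔ ∃ i < n, c = E * i) (hE : 0 < E)
    (hinv : ∀ y < k, γ (inv y) = (γ y)⁻¹) (H : Subgroup Γ) (p : ℕ → Γ ⧸ H)
    (hp0 : p 0 = ((1 : Γ) : Γ ⧸ H)) (hp : ∀ y < k, ∀ c, V c → (γ y)⁻¹ • p c = p (T y c))
    (hgen : Subgroup.closure {g | ∃ y < k, g = γ y} = ⊤)
    (φ : Γ →* Equiv.Perm {c // V c}) (hφ : ∀ y < k, φ (γ y) = h.perm y)
    (hH : ∀ g ∈ H, φ g ⟨0, h.zero⟩ = ⟨0, h.zero⟩)
    (htree : ∀ c, V c → c ≠ 0 → ∃ y < k, ∃ d < c, V d ∧ T y d = c) :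
    H.index = n ∧ Function.Bijective (fun c : {c // V c} => p c) ∧
      ∀ (g : Γ) (c : {c // V c}), p (φ g c : {c // V c}) = g • p c := by
  have heq : ∀ (g : Γ) (c : {c // V c}), p (φ g c : {c // V c}) = g • p c := fun g =>
    equivariant γ h hinv _ p hp φ hφ g (by rw [hgen]; trivial)
  have htr : ∀ c : {c // V c}, ∃ g : Γ, φ g ⟨0, h.zero⟩ = c := by
    intro c
    obtain ⟨g, _, hg⟩ := trans_aux γ h φ hφ htree c.1 c.2
    exact ⟨g, hg⟩
  have hbij : Function.Bijective (fun c : {c // V c} => p c) := by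
    constructor
    · intro c d hcd
      obtain ⟨g, rfl⟩ := htr c
      obtain ⟨g', rfl⟩ := htr d
      simp only at hcd
      rw [heq, heq, hp0] at hcd
      have h1 : ((g * 1 : Γ) : Γ ⧸ H) = ((g' * 1 : Γ) : Γ ⧸ H) := hcd
      rw [mul_one, mul_one, QuotientGroup.eq] at h1
      have h2 := hH _ h1
      rw [map_mul, map_inv, Equiv.Perm.mul_apply, Equiv.Perm.inv_eq_iff_eq] at h2
      exact h2.symm
    · intro q
      obtain ⟨g, rfl⟩ := QuotientGroup.mk_surjective q
      refine ⟨φ g ⟨0, h.zero⟩, ?_⟩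
      simp only
      rw [heq, hp0]
      show ((g * 1 : Γ) : Γ ⧸ H) = _
      rw [mul_one]
  refine ⟨?_, hbij, heq⟩
  rw [Subgroup.index, ← Nat.card_congr (Equiv.ofBijective _ hbij)]
  have : Function.Bijective (fun i : Fin n => (⟨E * i, (hV _).2 ⟨i, i.2, rfl⟩⟩ : {c // V c})) := by
    constructor
    · intro i j hij
      have := congrArg Subtype.val hij
      exact Fin.ext (Nat.eq_of_mul_eq_mul_left hE this)
    · rintro ⟨c, hc⟩
      obtain ⟨i, hi, rfl⟩ := (hV c).1 hc
      exact ⟨⟨i, hi⟩, rfl⟩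
  rw [← Nat.card_congr (Equiv.ofBijective _ this), Nat.card_eq_fintype_card, Fintype.card_fin]

/-- Orbits of a subgroup on the cosets. -/
theorem orbit_thm (h : Tab k inv T V) (X : Type*) [MulAction Γ X] (p : ℕ → X)
    (hbij : Function.Injective (fun c : {c // V c} => p c))
    (φ : Γ →* Equiv.Perm {c // V c}) (hφ : ∀ y < k, φ (γ y) = h.perm y)
    (heq : ∀ (g : Γ) (c : {c // V c}), p (φ g c : {c // V c}) = g • p c)
    (L : Subgroup Γ) (ws : List (List ℕ)) (hws : ∀ w ∈ ws, ∀ y ∈ w, y < k)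
    (hL : L = Subgroup.closure {g | ∃ w ∈ ws, g = wd γ w})
    (Lab rk : ℕ → ℕ) (hLab : ∀ w ∈ ws, ∀ c, V c → Lab (walk T w c) = Lab c)
    (c0 : ℕ) (hc0 : V c0)
    (hptr : ∀ c, V c → Lab c = Lab c0 → c ≠ c0 → ∃ w ∈ ws, ∃ d, V d ∧ Lab d = Lab c0 ∧
      rk d < rk c ∧ (walk T w d = c ∨ walk T w c = d)) :
    (MulAction.orbit L (p c0)) = p '' {c | V c ∧ Lab c = Lab c0} ∧
    (MulAction.orbit L (p c0)).ncard = {c | V c ∧ Lab c = Lab c0}.ncard := by
  have hphi := phi_walk γ h φ hφ
  have horb : MulAction.orbit L (p c0) = p '' {c | V c ∧ Lab c = Lab c0} := by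
    apply Set.Subset.antisymm
    · have hst : ∀ g ∈ L, ∀ c : {c // V c}, Lab (φ g c : {c // V c}) = Lab c := by
        intro g hg
        rw [hL] at hg
        induction hg using Subgroup.closure_induction_left with
        | one => intro c; simp
        | mul_left x hx y hy ih =>
          obtain ⟨w, hw, rfl⟩ := hx
          intro c
          rw [map_mul, Equiv.Perm.mul_apply, ← ih c]
          have h1 := hLab w hw (φ (wd γ w) (φ y c) : {c // V c}) (Subtype.prop _)
          rw [← hphi w (hws w hw), map_inv, inv_self'] at h1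
          exact h1.symm
        | inv_mul_cancel x hx y hy ih =>
          obtain ⟨w, hw, rfl⟩ := hx
          intro c
          rw [map_mul, Equiv.Perm.mul_apply, ← ih c, hphi w (hws w hw)]
          exact hLab w hw _ (Subtype.prop _)
      rintro _ ⟨g, rfl⟩
      refine ⟨(φ g ⟨c0, hc0⟩ : {c // V c}), ⟨Subtype.prop _, hst g g.2 ⟨c0, hc0⟩⟩, ?_⟩
      rw [heq]
      rfl
    · rintro _ ⟨c, ⟨hc, hl⟩, rfl⟩
      have : ∀ r, ∀ c, V c → Lab c = Lab c0 → rk c = r → p c ∈ MulAction.orbit L (p c0) := by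
        intro r
        induction r using Nat.strong_induction_on with
        | _ r ih =>
          intro c hc hl hr
          rcases eq_or_ne c c0 with rfl | hne
          · exact MulAction.mem_orbit_self _
          · obtain ⟨w, hw, d, hd, hld, hrd, hdc⟩ := hptr c hc hl hne
            have h1 := ih (rk d) (by omega) d hd hld rfl
            have hwL : wd γ w ∈ L := by rw [hL]; exact Subgroup.subset_closure ⟨w, hw, rfl⟩
            rcases hdc with hdc | hdc
            · have h2 := hphi w (hws w hw) ⟨d, hd⟩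
              have h3 := heq (wd γ w)⁻¹ ⟨d, hd⟩
              rw [h2] at h3
              simp only at h3
              rw [hdc] at h3
              rw [h3]
              have : (wd γ w)⁻¹ • p d = (⟨(wd γ w)⁻¹, L.inv_mem hwL⟩ : L) • p d := rfl
              rw [this]
              exact smul_orb _ h1
            · have h2 := hphi w (hws w hw) ⟨c, hc⟩
              have h3 := heq (wd γ w)⁻¹ ⟨c, hc⟩
              rw [h2] at h3
              simp only at h3
              rw [hdc] at h3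
              have : p c = (⟨wd γ w, hwL⟩ : L) • p d := by
                rw [h3]
                show p c = wd γ w • (wd γ w)⁻¹ • p c
                rw [smul_smul, mul_inv_cancel, one_smul]
              rw [this]
              exact smul_orb _ h1
      exact this _ c hc hl rfl
  refine ⟨horb, ?_⟩
  rw [horb]
  apply Set.ncard_image_of_injOn
  intro c hc d hd hcd
  have := @hbij ⟨c, hc.1⟩ ⟨d, hd.1⟩ hcd
  exact congrArg Subtype.val this

end index

end Cfsg.Agent.H5TC
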