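import Cfsg.Agent.Lib.H5TC3

/-!
Verified coset enumeration, part 4: the kernel checks of the certificates.
-/

set_option autoImplicit false

namespace Cfsg.Agent.H5TC

/-- extend a verified range -/
theorem range_step {P : ℕ → Bool} {lo k n : ℕ} (h : ∀ i < lo, P i = true)
    (h2 : all2 P k lo = true) (hn : n = lo + 2 ^ k) : ∀ i < n, P i = true := by
  intro i hi
  subst hn
  rcases lt_or_ge i lo with h3 | h3
  · exact h i h3
  · exact all2_spec h2 i h3 hi

/-- table lookup -/
noncomputable def lk (t mask c : ℕ) : ℕ := Nat.land (Nat.shiftRight t c) mask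

/-- Boolean conjunction evaluated by the kernel -/
noncomputable def band (a b : Bool) : Bool := Bool.rec false b a

theorem band_true {a b : Bool} : band a b = true ↔ a = true ∧ b = true := by
  cases a <;> cases b <;> simp [band]

/-- valid codes -/
def Vc (E n c : ℕ) : Prop := ∃ i < n, c = E * i

/-- kernel check that `c` is a valid code -/
noncomputable def vOK (E En c : ℕ) : Bool := Bool.rec false (Nat.blt c En) (Nat.beq (Nat.mod c E) 0)

theorem vOK_spec {E n c : ℕ} (h : vOK E (E * n) c = true) : Vc E n c := by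
  have h' : (Bool.rec false (Nat.blt c (E * n)) (Nat.beq (Nat.mod c E) 0) : Bool) = true := h
  rw [bool_rec_and, Bool.and_eq_true] at h'
  have h1 : c % E = 0 := Nat.eq_of_beq_eq_true h'.1
  have h2 : c < E * n := by simpa [Nat.blt_eq] using h'.2
  obtain ⟨i, hi⟩ := Nat.dvd_of_mod_eq_zero h1
  refine ⟨i, ?_, hi⟩
  rw [hi] at h2
  exact lt_of_mul_lt_mul_left h2 (Nat.zero_le _)

/-- column check A: the table is a permutation table -/
noncomputable def chkA (E En : ℕ) (f g : ℕ → ℕ) (c : ℕ) : Bool :=
  Bool.rec false (Nat.beq (g (f c)) c) (vOK E En (f c))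

theorem chkA_spec {E n : ℕ} {f g : ℕ → ℕ} {c : ℕ} (h : chkA E (E * n) f g c = true) :
    Vc E n (f c) ∧ g (f c) = c := by
  have h' : (Bool.rec false (Nat.beq (g (f c)) c) (vOK E (E * n) (f c)) : Bool) = true := h
  rw [bool_rec_and, Bool.and_eq_true] at h'
  exact ⟨vOK_spec h'.1, Nat.eq_of_beq_eq_true h'.2⟩

/-- select the relator word number `j` -/
noncomputable def selW (T R : ℕ → ℕ → ℕ) (r c d : ℕ) (kk : ℕ → Bool) (l : List (List ℕ)) :
    ℕ → Bool :=
  List.rec kk (fun w _ ih j => Nat.rec (pathOK T R r c w d) (fun j _ => ih j) j) l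

theorem selW_spec {T R : ℕ → ℕ → ℕ} {r c d : ℕ} {kk : ℕ → Bool} (l : List (List ℕ)) (j : ℕ)
    (h : selW T R r c d kk l j = true) :
    (∃ w ∈ l, pathOK T R r c w d = true) ∨ ∃ j', kk j' = true := by
  induction l generalizing j with
  | nil => exact Or.inr ⟨j, h⟩
  | cons w l ih =>
    cases j with
    | zero => exact Or.inl ⟨w, List.mem_cons_self, h⟩
    | succ j =>
      rcases ih j h with ⟨w', hw', h'⟩ | h'
      · exact Or.inl ⟨w', List.mem_cons_of_mem _ hw', h'⟩
      · exact Or.inr h'

/-- select the base word number `j` -/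
noncomputable def selB (T R : ℕ → ℕ → ℕ) (r c d : ℕ) (l : List (List ℕ × List ℕ)) :
    ℕ → Bool :=
  List.rec (fun _ => false) (fun w _ ih j => Nat.rec
    (Bool.rec false (pathOK T R r 0 w.2 d) (pathOK T R r c w.1 0)) (fun j _ => ih j) j) l

theorem selB_spec {T R : ℕ → ℕ → ℕ} {r c d : ℕ} (l : List (List ℕ × List ℕ)) (j : ℕ)
    (h : selB T R r c d l j = true) :
    ∃ w ∈ l, pathOK T R r c w.1 0 = true ∧ pathOK T R r 0 w.2 d = true := by
  induction l generalizing j with
  | nil => exact absurd h (by simp [selB])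
  | cons w l ih =>
    cases j with
    | zero =>
      have h' : (Bool.rec false (pathOK T R r 0 w.2 d) (pathOK T R r c w.1 0) : Bool) = true := h
      rw [bool_rec_and, Bool.and_eq_true] at h'
      exact ⟨w, List.mem_cons_self, h'⟩
    | succ j =>
      obtain ⟨w', hw', h'⟩ := ih j h
      exact ⟨w', List.mem_cons_of_mem _ hw', h'⟩

/-- column check B: justification of the edges -/
noncomputable def chkB (T R : ℕ → ℕ → ℕ) (PV PX J : ℕ → ℕ) (y yi : ℕ) (bc : ℕ → ℕ → Bool)
    (lw : List (List ℕ)) (lb : List (List ℕ × List ℕ)) (c : ℕ) : Bool :=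
  Bool.rec
    (Nat.rec (Bool.rec false (Bool.rec false (Nat.beq (PX (T y c)) y) (Nat.beq (PV (T y c)) c))
        (Nat.blt c (T y c)))
      (fun j _ => selW T R (R y c) c (T y c) (selB T R (R y c) c (T y c) lb) lw j) (J c))
    (Nat.beq (R yi (T y c)) (R y c)) (bc (T y c) c)

theorem chkB_spec {T R : ℕ → ℕ → ℕ} {PV PX J : ℕ → ℕ} {y yi : ℕ} {bc : ℕ → ℕ → Bool}
    {lw : List (List ℕ)} {lb : List (List ℕ × List ℕ)} {c : ℕ}
    (h : chkB T R PV PX J y yi bc lw lb c = true) :
    (bc (T y c) c = true ∧ R yi (T y c) = R y c) ∨ (bc (T y c) c = false ∧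
      ((c < T y c ∧ PV (T y c) = c ∧ PX (T y c) = y) ∨
      (∃ w ∈ lw, pathOK T R (R y c) c w (T y c) = true) ∨
      (∃ w ∈ lb, pathOK T R (R y c) c w.1 0 = true ∧ pathOK T R (R y c) 0 w.2 (T y c) = true))) := by
  have h' : (Bool.rec (Nat.rec (Bool.rec false (Bool.rec false (Nat.beq (PX (T y c)) y) (Nat.beq (PV (T y c)) c))
        (Nat.blt c (T y c)))
      (fun j _ => selW T R (R y c) c (T y c) (selB T R (R y c) c (T y c) lb) lw j) (J c))
    (Nat.beq (R yi (T y c)) (R y c)) (bc (T y c) c) : Bool) = true := h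
  cases hb : bc (T y c) c with
  | true =>
    rw [hb] at h'
    exact Or.inl ⟨rfl, Nat.eq_of_beq_eq_true h'⟩
  | false =>
    rw [hb] at h'
    refine Or.inr ⟨rfl, ?_⟩
    cases hj : J c with
    | zero =>
      rw [hj] at h'
      have h2 : (Bool.rec false (Bool.rec false (Nat.beq (PX (T y c)) y) (Nat.beq (PV (T y c)) c))
        (Nat.blt c (T y c)) : Bool) = true := h'
      rw [bool_rec_and, bool_rec_and, Bool.and_eq_true, Bool.and_eq_true] at h2
      exact Or.inl ⟨by simpa [Nat.blt_eq] using h2.1, Nat.eq_of_beq_eq_true h2.2.1,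
        Nat.eq_of_beq_eq_true h2.2.2⟩
    | succ j =>
      rw [hj] at h'
      have h2 : selW T R (R y c) c (T y c) (selB T R (R y c) c (T y c) lb) lw j = true := h'
      rcases selW_spec lw j h2 with h3 | ⟨j', h3⟩
      · exact Or.inr (Or.inl h3)
      · exact Or.inr (Or.inr (selB_spec lb j' h3))

/-! ### word checks -/

/-- equality of words, evaluated by the kernel -/
noncomputable def leq (l : List ℕ) : List ℕ → Bool :=
  List.rec (fun m => List.rec true (fun _ _ _ => false) m)
    (fun x _ ih m => List.rec false (fun y m' _ => Bool.rec false (ih m') (Nat.beq x y)) m) l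

theorem leq_spec (l : List ℕ) : ∀ m : List ℕ, leq l m = true → l = m := by
  induction l with
  | nil =>
    intro m h
    cases m with
    | nil => rfl
    | cons y m => exact absurd h (by simp [leq])
  | cons x l ih =>
    intro m h
    cases m with
    | nil => exact absurd h (by simp [leq])
    | cons y m =>
      have h' : (Bool.rec false (leq l m) (Nat.beq x y) : Bool) = true := h
      rw [bool_rec_and, Bool.and_eq_true] at h'
      rw [Nat.eq_of_beq_eq_true h'.1, ih m h'.2]

/-- `w` is the rotation by `j` of `r` or of its inverse. -/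
noncomputable def wOK (inv : ℕ → ℕ) (r w : List ℕ) (j : ℕ) (f : Bool) : Bool :=
  Bool.rec (leq w (r.rotate j)) (leq w ((invw inv r).rotate j)) f

theorem wOK_spec {Γ : Type*} [Group Γ] (γ : ℕ → Γ) {inv : ℕ → ℕ} {r w : List ℕ} {j : ℕ} {f : Bool}
    (hr : wd γ r = 1) (hi : ∀ y ∈ r, γ (inv y) = (γ y)⁻¹) (h : wOK inv r w j f = true) :
    wd γ w = 1 := by
  cases f with
  | false =>
    have h' : leq w (r.rotate j) = true := h
    rw [leq_spec _ _ h']
    exact wd_rotate γ r j hr
  | true =>
    have h' : leq w ((invw inv r).rotate j) = true := h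
    rw [leq_spec _ _ h']
    apply wd_rotate
    rw [wd_invw γ r hi, hr, inv_one]

/-- All words `w` of the list `l` (with hints) are rotations of relators. -/
noncomputable def wsOK (inv : ℕ → ℕ) (rels : List (List ℕ)) (l : List (List ℕ × ℕ × ℕ × Bool)) : Bool :=
  List.rec true (fun x _ ih => Bool.rec false ih (wOK inv (rels.getD x.2.1 []) x.1 x.2.2.1 x.2.2.2)) l

theorem wsOK_spec {Γ : Type*} [Group Γ] (γ : ℕ → Γ) {inv : ℕ → ℕ} {rels : List (List ℕ)}
    (hr : ∀ r ∈ rels, wd γ r = 1) (hi : ∀ r ∈ rels, ∀ y ∈ r, γ (inv y) = (γ y)⁻¹)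
    (l : List (List ℕ × ℕ × ℕ × Bool)) (h : wsOK inv rels l = true) :
    ∀ x ∈ l, wd γ x.1 = 1 := by
  have hr' : ∀ i, wd γ (rels.getD i []) = 1 := by
    intro i
    rw [List.getD_eq_getElem?_getD]
    cases hh : rels[i]? with
    | none => simp
    | some r => exact hr r (List.mem_of_getElem? hh)
  have hi' : ∀ i, ∀ y ∈ rels.getD i [], γ (inv y) = (γ y)⁻¹ := by
    intro i
    rw [List.getD_eq_getElem?_getD]
    cases hh : rels[i]? with
    | none => intro y hy; exact absurd hy (by simp)
    | some r => exact hi r (List.mem_of_getElem? hh)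
  induction l with
  | nil => intro x hx; exact absurd hx (by simp)
  | cons a l ih =>
    have h' : (Bool.rec false (wsOK inv rels l) (wOK inv (rels.getD a.2.1 []) a.1 a.2.2.1 a.2.2.2) : Bool)
      = true := h
    rw [bool_rec_and, Bool.and_eq_true] at h'
    intro x hx
    rcases List.mem_cons.1 hx with rfl | hx
    · exact wOK_spec γ (hr' _) (hi' _) h'.1
    · exact ih h'.2 x hx

/-- all letters of all words are `< k` -/
noncomputable def ltOK (k : ℕ) (l : List (List ℕ)) : Bool :=
  List.rec true (fun w _ ih => Bool.rec false ih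
    (List.rec true (fun y _ ih' => Bool.rec false ih' (Nat.blt y k)) w)) l

theorem ltOK_spec {k : ℕ} (l : List (List ℕ)) (h : ltOK k l = true) : ∀ w ∈ l, ∀ y ∈ w, y < k := by
  induction l with
  | nil => intro x hx; exact absurd hx (by simp)
  | cons a l ih =>
    have h' : (Bool.rec false (ltOK k l) (List.rec true (fun y _ ih' => Bool.rec false ih' (Nat.blt y k)) a :
      Bool) : Bool) = true := h
    rw [bool_rec_and, Bool.and_eq_true] at h'
    intro x hx
    rcases List.mem_cons.1 hx with rfl | hx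
    · have h1 := h'.1
      clear h h' hx ih
      induction x with
      | nil => intro y hy; exact absurd hy (by simp)
      | cons b x ih =>
        have h2 : (Bool.rec false (List.rec true (fun y _ ih' => Bool.rec false ih' (Nat.blt y k)) x : Bool)
          (Nat.blt b k) : Bool) = true := h1
        rw [bool_rec_and, Bool.and_eq_true] at h2
        intro y hy
        rcases List.mem_cons.1 hy with rfl | hy
        · simpa [Nat.blt_eq] using h2.1
        · exact ih h2.2 y hy
    · exact ih h'.2 x hx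

end Cfsg.Agent.H5TC
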