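import Cfsg.Agent.Lib.H5TC4

/-!
Verified coset enumeration, part 5: assembly of the certificates.
-/

set_option autoImplicit false

namespace Cfsg.Agent.H5TC

/-- list lookup -/
noncomputable def nthN (l : List ℕ) : ℕ → ℕ :=
  List.rec (fun _ => 0) (fun x _ ih j => Nat.rec x (fun j _ => ih j) j) l

/-- check the `j`-th element -/
noncomputable def nthB {α : Type} (F : α → Bool) (l : List α) : ℕ → Bool :=
  List.rec (fun _ => false) (fun x _ ih j => Nat.rec (F x) (fun j _ => ih j) j) l

theorem nthB_spec {α : Type} {F : α → Bool} (l : List α) (j : ℕ) (h : nthB F l j = true) :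
    ∃ x ∈ l, F x = true := by
  induction l generalizing j with
  | nil => exact absurd h (by simp [nthB])
  | cons x l ih =>
    cases j with
    | zero => exact ⟨x, List.mem_cons_self, h⟩
    | succ j =>
      obtain ⟨x', hx', h'⟩ := ih j h
      exact ⟨x', List.mem_cons_of_mem _ hx', h'⟩

/-- A kind of deduction. -/
structure GK where
  bs : Bool
  y : ℕ
  f : ℕ
  t : ℕ
  a : List ℕ
  b : List ℕ

/-- the word of a kind -/
noncomputable def GK.kw (inv : ℕ → ℕ) (k : ℕ) (K : GK) : List ℕ :=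
  K.a ++ ((Bool.rec [K.y] [] (Nat.beq K.y k) : List ℕ) ++ invw inv K.b)

/-- kernel check of a deduction of the given kind -/
noncomputable def kOK (T R : ℕ → ℕ → ℕ) (k fuel E En r y c e s : ℕ) (K : GK) : Bool :=
  band (Nat.beq y K.y) (band (Bool.rec (vOK E En s) (Nat.beq s 0) K.bs)
    (band (pfOK T R k r c fuel K.a (findr T R k r K.f s))
      (pfOK T R k r e fuel K.b (findr T R k r K.t s))))

/-- kernel check of an entry of a partial table -/
noncomputable def chkG (T R : ℕ → ℕ → ℕ) (PV PX : ℕ → ℕ) (J S : ℕ → ℕ → ℕ) (inv : ℕ → ℕ)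
    (k fuel E En : ℕ) (kinds : List (GK × ℕ × ℕ × Bool)) (y c : ℕ) : Bool :=
  Nat.rec true (fun e _ => band (vOK E En e)
    (Nat.rec (band (Nat.blt c e) (band (Nat.beq (PV e) c) (Nat.beq (PX e) y)))
      (fun j _ => Nat.rec (band (Nat.blt y k) (band (Nat.beq (T (inv y) e) (Nat.succ c))
          (Nat.blt (R (inv y) e) (R y c))))
        (fun j _ => nthB (fun K => kOK T R k fuel E En (R y c) y c e (S y c) K.1) kinds j) j)
      (J y c))) (T y c)

/-- kinds are correct -/
noncomputable def kindsOK (inv : ℕ → ℕ) (k : ℕ) (rels bases : List (List ℕ))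
    (l : List (GK × ℕ × ℕ × Bool)) : Bool :=
  List.rec true (fun x _ ih => band (Bool.rec
    (wOK inv (rels.getD x.2.1 []) (x.1.kw inv k) x.2.2.1 x.2.2.2)
    (leq (x.1.kw inv k) (Bool.rec (bases.getD x.2.1 []) (invw inv (bases.getD x.2.1 [])) x.2.2.2))
    x.1.bs) ih) l

theorem kindsOK_spec {inv : ℕ → ℕ} {k : ℕ} {rels bases : List (List ℕ)}
    (l : List (GK × ℕ × ℕ × Bool)) (h : kindsOK inv k rels bases l = true) :
    ∀ x ∈ l, (x.1.bs = false ∧ wOK inv (rels.getD x.2.1 []) (x.1.kw inv k) x.2.2.1 x.2.2.2 = true) ∨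
      (x.1.bs = true ∧ leq (x.1.kw inv k)
        (Bool.rec (bases.getD x.2.1 []) (invw inv (bases.getD x.2.1 [])) x.2.2.2) = true) := by
  induction l with
  | nil => intro x hx; exact absurd hx (by simp)
  | cons a l ih =>
    have h' : band (Bool.rec
      (wOK inv (rels.getD a.2.1 []) (a.1.kw inv k) a.2.2.1 a.2.2.2)
      (leq (a.1.kw inv k) (Bool.rec (bases.getD a.2.1 []) (invw inv (bases.getD a.2.1 [])) a.2.2.2))
      a.1.bs) (kindsOK inv k rels bases l) = true := h
    rw [band_true] at h'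
    intro x hx
    rcases List.mem_cons.1 hx with rfl | hx
    · have h1 := h'.1
      cases hb : x.1.bs with
      | false => rw [hb] at h1; exact Or.inl ⟨rfl, h1⟩
      | true => rw [hb] at h1; exact Or.inr ⟨rfl, h1⟩
    · exact ih h'.2 x hx

theorem getD_prop {P : List ℕ → Prop} (h0 : P []) {l : List (List ℕ)} (h : ∀ r ∈ l, P r) (i : ℕ) :
    P (l.getD i []) := by
  rw [List.getD_eq_getElem?_getD]
  cases hh : l[i]? with
  | none => exact h0
  | some r => exact h r (List.mem_of_getElem? hh)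

theorem wd_congr {Γ : Type*} [Group Γ] {γ γ' : ℕ → Γ} (w : List ℕ) (h : ∀ y ∈ w, γ' y = γ y) :
    wd γ' w = wd γ w := by
  induction w with
  | nil => simp
  | cons a w ih =>
    rw [wd_cons, wd_cons, h a List.mem_cons_self, ih (fun y hy => h y (List.mem_cons_of_mem _ hy))]

/-- Soundness of the partial table certificates. -/
theorem gs_thm {Γ X : Type*} [Group Γ] [MulAction Γ X] (γ : ℕ → Γ) (x0 : X)
    {k n E fuel : ℕ} {inv : ℕ → ℕ} {T R : ℕ → ℕ → ℕ} {PV PX : ℕ → ℕ} {J S : ℕ → ℕ → ℕ}
    {rels bases : List (List ℕ)} {kinds : List (GK × ℕ × ℕ × Bool)} (hn : 0 < n)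
    (hinv : ∀ y < k, γ (inv y) = (γ y)⁻¹) (hinvk : ∀ y < k, inv y < k)
    (hr : ∀ r ∈ rels, wd γ r = 1) (hrk : ∀ r ∈ rels, ∀ y ∈ r, y < k)
    (hb : ∀ b ∈ bases, (wd γ b)⁻¹ • x0 = x0) (hbk : ∀ b ∈ bases, ∀ y ∈ b, y < k)
    (hk : kindsOK inv k rels bases kinds = true)
    (hka : ltOK k (kinds.map (fun x => x.1.a)) = true)
    (hkb : ltOK k (kinds.map (fun x => x.1.b)) = true)
    (hky : ∀ x ∈ kinds, x.1.y ≤ k)
    (hchk : ∀ y ≤ k, ∀ i < n, chkG T R PV PX J S inv k fuel E (E * n) kinds y (E * i) = true)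
    (w : List ℕ) (hwk : ∀ y ∈ w, y < k) (B : ℕ)
    (hw : pfOK T R k B 0 fuel w 0 = true) (hB : ∀ y ≤ k, ∀ c, R y c < B) :
    (wd γ w)⁻¹ • x0 = x0 := by
  set γ' : ℕ → Γ := fun y => if y = k then 1 else γ y with hγ'
  have hγk : γ' k = 1 := by simp [hγ']
  have hγl : ∀ y < k, γ' y = γ y := by
    intro y hy
    simp only [hγ']
    rw [if_neg (by omega)]
  have hwd : ∀ u : List ℕ, (∀ y ∈ u, y < k) → wd γ' u = wd γ u := fun u hu =>
    wd_congr u (fun y hy => hγl y (hu y hy))
  have hka' := ltOK_spec _ hka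
  have hkb' := ltOK_spec _ hkb
  have hkinds := kindsOK_spec kinds hk
  have hV : ∀ y ≤ k, ∀ c, Vc E n c → ∀ e, T y c = e + 1 → Vc E n e := by
    intro y hy c hc e he
    obtain ⟨i, hi, rfl⟩ := hc
    have h1 := hchk y hy i hi
    unfold chkG at h1
    rw [he] at h1
    simp only at h1
    rw [band_true] at h1
    exact vOK_spec h1.1
  have hmain := partial_good γ' (X := X) k inv hγk
    (fun y hy => by rw [hγl y hy, hγl _ (hinvk y hy), hinv y hy]) hinvk T R PV PX x0 (Vc E n)
    ⟨0, hn, by simp⟩ hV ?_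
  · obtain ⟨p, hp0, hp⟩ := hmain
    have := pfOK_spec γ' (p := p) (r := B) hV hγk (fun y hy c hc _ e he => hp y hy c hc e he) w 0
      (fun y hy => (hwk y hy).le) ⟨0, hn, by simp⟩ hw
    rw [hp0, hwd w hwk] at this
    exact this
  · intro y hy c hc e he
    obtain ⟨i, hi, rfl⟩ := hc
    have h1 := hchk y hy i hi
    unfold chkG at h1
    rw [he] at h1
    simp only at h1
    rw [band_true] at h1
    have h2 := h1.2
    cases hj : J y (E * i) with
    | zero =>
      rw [hj] at h2
      replace h2 : band (Nat.blt (E * i) e) (band (Nat.beq (PV e) (E * i)) (Nat.beq (PX e) y)) = true := h2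
      rw [band_true, band_true] at h2
      refine Or.inl ⟨by simpa [Nat.blt_eq] using h2.1, Nat.eq_of_beq_eq_true h2.2.1,
        Nat.eq_of_beq_eq_true h2.2.2⟩
    | succ j =>
      rw [hj] at h2
      cases j with
      | zero =>
        replace h2 : band (Nat.blt y k) (band (Nat.beq (T (inv y) e) (Nat.succ (E * i)))
          (Nat.blt (R (inv y) e) (R y (E * i)))) = true := h2
        rw [band_true, band_true] at h2
        refine Or.inr (Or.inl ⟨by simpa [Nat.blt_eq] using h2.1, Nat.eq_of_beq_eq_true h2.2.1,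
          by simpa [Nat.blt_eq] using h2.2.2⟩)
      | succ j =>
        obtain ⟨K, hK, h3⟩ := nthB_spec kinds j h2
        unfold kOK at h3
        rw [band_true, band_true, band_true] at h3
        obtain ⟨h4, h5, h6, h7⟩ := h3
        have hyK : y = K.1.y := Nat.eq_of_beq_eq_true h4
        have haK : ∀ z ∈ K.1.a, z < k := hka' _ (List.mem_map.2 ⟨K, hK, rfl⟩)
        have hbK : ∀ z ∈ K.1.b, z < k := hkb' _ (List.mem_map.2 ⟨K, hK, rfl⟩)
        have hib : wd γ (invw inv K.1.b) = (wd γ K.1.b)⁻¹ :=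
          wd_invw γ _ (fun z hz => hinv z (hbK z hz))
        -- value of the kind word
        have hkw : wd γ (K.1.kw inv k) = wd γ' (K.1.a ++ [y]) * (wd γ' K.1.b)⁻¹ := by
          rw [hwd _ hbK, wd_append, hwd _ haK]
          unfold GK.kw
          rw [wd_append, wd_append, hib]
          rw [mul_assoc]
          congr 2
          rw [wd_cons, wd_nil, mul_one]
          cases hyk : Nat.beq K.1.y k with
          | true =>
            have : K.1.y = k := Nat.eq_of_beq_eq_true hyk
            rw [hyK, this, hγk]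
            rfl
          | false =>
            have hne : K.1.y ≠ k := Nat.ne_of_beq_eq_false hyk
            have hlt : K.1.y < k := by rw [hyK] at hy; omega
            rw [hyK, hγl _ hlt]
            show wd γ [K.1.y] = _
            simp
        have hs : Vc E n (S y (E * i)) := by
          cases hbs : K.1.bs with
          | true =>
            rw [hbs] at h5
            have : S y (E * i) = 0 := Nat.eq_of_beq_eq_true h5
            rw [this]
            exact ⟨0, hn, by simp⟩
          | false =>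
            rw [hbs] at h5
            exact vOK_spec h5
        refine Or.inr (Or.inr ⟨K.1.a, K.1.b, S y (E * i), K.1.f, fuel, K.1.t, fuel, hs,
          fun z hz => (haK z hz).le, fun z hz => (hbK z hz).le, ?_, h6, h7⟩)
        rcases hkinds K hK with ⟨hbs, hk1⟩ | ⟨hbs, hk1⟩
        · left
          have h8 : wd γ (K.1.kw inv k) = 1 := by
            refine wOK_spec γ (getD_prop (by simp) hr _) ?_ hk1
            exact getD_prop (P := fun r => ∀ y ∈ r, γ (inv y) = (γ y)⁻¹) (by simp)
              (fun r hr' y hy => hinv y (hrk r hr' y hy)) _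
          rw [hkw] at h8
          exact mul_inv_eq_one.1 h8
        · right
          rw [hbs] at h5
          have h0 : S y (E * i) = 0 := Nat.eq_of_beq_eq_true h5
          refine ⟨h0, ?_⟩
          have h8 := leq_spec _ _ hk1
          have hbb : (wd γ (bases.getD K.2.1 []))⁻¹ • x0 = x0 :=
            getD_prop (P := fun b => (wd γ b)⁻¹ • x0 = x0) (by simp) hb _
          have h9 : (wd γ (K.1.kw inv k))⁻¹ • x0 = x0 := by
            rw [h8]
            cases K.2.2.2 with
            | false => exact hbb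
            | true =>
              show (wd γ (invw inv (bases.getD K.2.1 [])))⁻¹ • x0 = x0
              rw [wd_invw γ _ (getD_prop (P := fun r => ∀ y ∈ r, γ (inv y) = (γ y)⁻¹) (by simp)
                (fun r hr' y hy => hinv y (hbk r hr' y hy)) _), inv_inv]
              rw [inv_smul_eq_iff] at hbb
              exact hbb.symm
          rw [hkw, mul_inv_rev, inv_inv, mul_smul] at h9
          rw [eq_inv_smul_iff]
          exact h9


/-- comparison function for the back check -/
noncomputable def bcf (y yi : ℕ) : ℕ → ℕ → Bool := Bool.rec Nat.blt Nat.ble (Nat.blt yi y)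

theorem bcf_spec (y yi d c : ℕ) : bcf y yi d c = true ↔ (d < c ∨ (d = c ∧ yi < y)) := by
  unfold bcf
  cases h : Nat.blt yi y with
  | true =>
    have h1 : yi < y := by simpa [Nat.blt_eq] using h
    show Nat.ble d c = true ↔ _
    rw [Nat.ble_eq]
    omega
  | false =>
    have h1 : ¬ yi < y := by
      intro h2
      rw [← Nat.blt_eq, h] at h2
      exact absurd h2 (by simp)
    show Nat.blt d c = true ↔ _
    rw [Nat.blt_eq]
    omega

/-- Soundness of the main certificates. -/
theorem mc_thm {Γ X : Type*} [Group Γ] [MulAction Γ X] (γ : ℕ → Γ) (x0 : X)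
    {k n E : ℕ} {inv : ℕ → ℕ} {T R : ℕ → ℕ → ℕ} {PV PX : ℕ → ℕ} {J : ℕ → ℕ → ℕ}
    (htab : Tab k inv T (Vc E n)) (hinv : ∀ y < k, γ (inv y) = (γ y)⁻¹)
    (lw : ℕ → List (List ℕ)) (lb : ℕ → List (List ℕ × List ℕ))
    (hw : ∀ y < k, ∀ w ∈ lw y, wd γ (y :: w) = 1 ∧ ∀ z ∈ w, z < k)
    (hb : ∀ y < k, ∀ w ∈ lb y, (wd γ (w.1 ++ y :: w.2))⁻¹ • x0 = x0 ∧ (∀ z ∈ w.1, z < k) ∧
      ∀ z ∈ w.2, z < k)
    (hchk : ∀ y < k, ∀ i < n, chkB T R PV PX (J y) y (inv y) (bcf y (inv y)) (lw y) (lb y) (E * i) = true) :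
    ∃ p : ℕ → X, p 0 = x0 ∧ ∀ y < k, ∀ c, Vc E n c → (γ y)⁻¹ • p c = p (T y c) := by
  refine main_good γ k inv hinv htab.inv_lt htab.inv_inv T R PV PX x0 (Vc E n) htab.zero htab.maps
    htab.cancel ?_ ?_
  · intro y hy c hc hB
    obtain ⟨i, hi, rfl⟩ := hc
    rcases chkB_spec (hchk y hy i hi) with h | h
    · exact h.2
    · exfalso
      have h1 := (bcf_spec y (inv y) (T y (E * i)) (E * i)).2 hB
      rw [h.1] at h1
      exact absurd h1 (by simp)
  · intro y hy c hc hB
    obtain ⟨i, hi, rfl⟩ := hc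
    rcases chkB_spec (hchk y hy i hi) with h | h
    · exact absurd ((bcf_spec y (inv y) (T y (E * i)) (E * i)).1 h.1) hB
    · rcases h.2 with h1 | ⟨w, hw', h1⟩ | ⟨w, hw', h1, h2⟩
      · exact Or.inl h1
      · exact Or.inr (Or.inl ⟨w, (hw y hy w hw').1, (hw y hy w hw').2, h1⟩)
      · obtain ⟨h3, h4, h5⟩ := hb y hy w hw'
        exact Or.inr (Or.inr ⟨w.1, w.2, h3, h4, h5, h1, h2⟩)


/-- check of the relator words of a column -/
noncomputable def wsOK2 (inv : ℕ → ℕ) (rels : List (List ℕ)) (y : ℕ) (l : List (List ℕ)) :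
    List (ℕ × ℕ × Bool) → Bool :=
  List.rec (fun _ => true) (fun w _ ih hs => List.rec false
    (fun h hs' _ => band (wOK inv (rels.getD h.1 []) (y :: w) h.2.1 h.2.2) (ih hs')) hs) l

theorem wsOK2_spec {Γ : Type*} [Group Γ] (γ : ℕ → Γ) {inv : ℕ → ℕ} {rels : List (List ℕ)}
    (hr : ∀ r ∈ rels, wd γ r = 1) (hi : ∀ r ∈ rels, ∀ y ∈ r, γ (inv y) = (γ y)⁻¹) (y : ℕ)
    (l : List (List ℕ)) : ∀ hs : List (ℕ × ℕ × Bool), wsOK2 inv rels y l hs = true →
      ∀ w ∈ l, wd γ (y :: w) = 1 := by
  induction l with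
  | nil => intro hs _ w hw; exact absurd hw (by simp)
  | cons w l ih =>
    intro hs h
    cases hs with
    | nil => exact absurd h (by simp [wsOK2])
    | cons h0 hs =>
      have h' : band (wOK inv (rels.getD h0.1 []) (y :: w) h0.2.1 h0.2.2)
        (wsOK2 inv rels y l hs) = true := h
      rw [band_true] at h'
      intro w' hw'
      rcases List.mem_cons.1 hw' with rfl | hw'
      · exact wOK_spec γ (getD_prop (by simp) hr _)
          (getD_prop (P := fun r => ∀ y ∈ r, γ (inv y) = (γ y)⁻¹) (by simp) hi _) h'.1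
      · exact ih hs h'.2 w' hw'

/-- check of the base words of a column -/
noncomputable def bsOK (inv : ℕ → ℕ) (bases : List (List ℕ)) (y : ℕ) (l : List (List ℕ × List ℕ)) :
    List (ℕ × Bool) → Bool :=
  List.rec (fun _ => true) (fun w _ ih hs => List.rec false
    (fun h hs' _ => band (leq (w.1 ++ y :: w.2) (Bool.rec (bases.getD h.1 [])
      (invw inv (bases.getD h.1 [])) h.2)) (ih hs')) hs) l

theorem bsOK_spec {Γ X : Type*} [Group Γ] [MulAction Γ X] (γ : ℕ → Γ) (x0 : X) {inv : ℕ → ℕ}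
    {bases : List (List ℕ)}
    (hb : ∀ b ∈ bases, (wd γ b)⁻¹ • x0 = x0) (hi : ∀ r ∈ bases, ∀ y ∈ r, γ (inv y) = (γ y)⁻¹) (y : ℕ)
    (l : List (List ℕ × List ℕ)) : ∀ hs : List (ℕ × Bool), bsOK inv bases y l hs = true →
      ∀ w ∈ l, (wd γ (w.1 ++ y :: w.2))⁻¹ • x0 = x0 := by
  induction l with
  | nil => intro hs _ w hw; exact absurd hw (by simp)
  | cons w l ih =>
    intro hs h
    cases hs with
    | nil => exact absurd h (by simp [bsOK])
    | cons h0 hs =>
      have h' : band (leq (w.1 ++ y :: w.2) (Bool.rec (bases.getD h0.1 [])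
        (invw inv (bases.getD h0.1 [])) h0.2)) (bsOK inv bases y l hs) = true := h
      rw [band_true] at h'
      intro w' hw'
      rcases List.mem_cons.1 hw' with rfl | hw'
      · have h8 := leq_spec _ _ h'.1
        have hbb : (wd γ (bases.getD h0.1 []))⁻¹ • x0 = x0 :=
          getD_prop (P := fun b => (wd γ b)⁻¹ • x0 = x0) (by simp) hb _
        rw [h8]
        cases h0.2 with
        | false => exact hbb
        | true =>
          show (wd γ (invw inv (bases.getD h0.1 [])))⁻¹ • x0 = x0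
          rw [wd_invw γ _ (getD_prop (P := fun r => ∀ y ∈ r, γ (inv y) = (γ y)⁻¹) (by simp) hi _),
            inv_inv]
          rw [inv_smul_eq_iff] at hbb
          exact hbb.symm
      · exact ih hs h'.2 w' hw'

/-- tree check: the vertex `c` is a child of its parent -/
noncomputable def chkP (T : ℕ → ℕ → ℕ) (PV PX : ℕ → ℕ) (k E En c : ℕ) : Bool :=
  band (Nat.blt (PX c) k) (band (Nat.blt (PV c) c) (band (vOK E En (PV c))
    (Nat.beq (T (PX c) (PV c)) c)))

theorem chkP_spec {T : ℕ → ℕ → ℕ} {PV PX : ℕ → ℕ} {k E n c : ℕ}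
    (h : chkP T PV PX k E (E * n) c = true) :
    ∃ y < k, ∃ d < c, Vc E n d ∧ T y d = c := by
  unfold chkP at h
  rw [band_true, band_true, band_true] at h
  obtain ⟨h1, h2, h3, h4⟩ := h
  exact ⟨PX c, by simpa [Nat.blt_eq] using h1, PV c, by simpa [Nat.blt_eq] using h2,
    vOK_spec h3, Nat.eq_of_beq_eq_true h4⟩

end Cfsg.Agent.H5TC
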