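import Cfsg.Agent.Lib.H5TC5
import Cfsg.Prelude.Def_SporCoxeter

/-!
Verified coset enumeration, part 6: Coxeter type presentations, orbits of subgroups.
-/

set_option autoImplicit false

namespace Cfsg.Agent.H5TC

/-! ### presentations -/

section cox

variable {α : Type} [DecidableEq α] (edges : List (α × ℕ × α)) (extra : List (FreeGroup α))

theorem coxLabel_comm (x y : α) : Cfsg.Spor.coxLabel edges x y = Cfsg.Spor.coxLabel edges y x := by
  unfold Cfsg.Spor.coxLabel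
  have : (fun e : α × ℕ × α => decide ((e.1 = x ∧ e.2.2 = y) ∨ (e.1 = y ∧ e.2.2 = x))) =
      (fun e : α × ℕ × α => decide ((e.1 = y ∧ e.2.2 = x) ∨ (e.1 = x ∧ e.2.2 = y))) := by
    funext e
    congr 1
    exact propext or_comm
  rw [this]
  by_cases h : x = y
  · rw [if_pos h, if_pos h.symm]
  · rw [if_neg h, if_neg (fun e => h e.symm)]

theorem mk_rel (r : FreeGroup α)
    (hr : r ∈ Cfsg.Spor.coxRelators edges ∪ {r | r ∈ extra}) :
    (PresentedGroup.mk (Cfsg.Spor.coxRelators edges ∪ {r | r ∈ extra}) r) = 1 :=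
  (PresentedGroup.mk_eq_one_iff).2 (Subgroup.subset_normalClosure hr)

theorem cox_pair (x y : α) (hx : x ∈ Cfsg.Spor.coxNodes edges) (hy : y ∈ Cfsg.Spor.coxNodes edges) :
    ((PresentedGroup.of x : Cfsg.Spor.CoxPresented α edges extra) * PresentedGroup.of y) ^
      Cfsg.Spor.coxLabel edges x y = 1 := by
  have := mk_rel edges extra _ (Or.inl ⟨x, hx, y, hy, rfl⟩)
  rw [map_pow, map_mul] at this
  exact this

theorem cox_hom {P : Type*} [Group P] (f : α → P)
    (h1 : ∀ x ∈ Cfsg.Spor.coxNodes edges, ∀ y ∈ Cfsg.Spor.coxNodes edges,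
      (f x * f y) ^ Cfsg.Spor.coxLabel edges x y = 1)
    (h2 : ∀ r ∈ extra, FreeGroup.lift f r = 1) :
    ∃ φ : Cfsg.Spor.CoxPresented α edges extra →* P, ∀ x, φ (PresentedGroup.of x) = f x := by
  have h : ∀ r ∈ Cfsg.Spor.coxRelators edges ∪ {r | r ∈ extra}, FreeGroup.lift f r = 1 := by
    rintro r (⟨x, hx, y, hy, rfl⟩ | hr)
    · rw [map_pow, map_mul, FreeGroup.lift_apply_of, FreeGroup.lift_apply_of]
      exact h1 x hx y hy
    · exact h2 r hr
  exact ⟨PresentedGroup.toGroup h, fun x => PresentedGroup.toGroup.of h⟩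

theorem cox_gen : Subgroup.closure (Set.range (PresentedGroup.of : α →
    Cfsg.Spor.CoxPresented α edges extra)) = ⊤ :=
  PresentedGroup.closure_range_of _

end cox

theorem cox_sq {α : Type} [DecidableEq α] (edges : List (α × ℕ × α)) (extra : List (FreeGroup α))
    (x : α) (hx : x ∈ Cfsg.Spor.coxNodes edges) :
    ((PresentedGroup.of x : Cfsg.Spor.CoxPresented α edges extra) * PresentedGroup.of x) = 1 := by
  have := cox_pair edges extra x x hx hx
  rwa [Cfsg.Spor.coxLabel, if_pos rfl, pow_one] at this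

theorem pair_word {Γ : Type*} [Group Γ] {γ : ℕ → Γ} {x y m : ℕ} (h : (γ x * γ y) ^ m = 1) :
    wd γ (List.replicate m [x, y]).flatten = 1 := by
  rw [wd_flatten_replicate]
  simpa using h

theorem word_pair {Γ : Type*} [Group Γ] {γ : ℕ → Γ} {x y m : ℕ}
    (h : wd γ (List.replicate m [x, y]).flatten = 1) : (γ x * γ y) ^ m = 1 := by
  rw [wd_flatten_replicate] at h
  simpa using h

theorem pow_word {Γ : Type*} [Group Γ] {γ : ℕ → Γ} {u : List ℕ} {m : ℕ} (h : wd γ u ^ m = 1) :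
    wd γ (List.replicate m u).flatten = 1 := by
  rw [wd_flatten_replicate]
  exact h

theorem pair_swap {P : Type*} [Group P] {a b : P} (ha : a * a = 1) (hb : b * b = 1) {m : ℕ}
    (h : (a * b) ^ m = 1) : (b * a) ^ m = 1 := by
  have : b * a = (a * b)⁻¹ := by
    rw [mul_inv_rev, inv_eq_of_mul_eq_one_left ha, inv_eq_of_mul_eq_one_left hb]
  rw [this, inv_pow, h, inv_one]

theorem perm_sq {k : ℕ} {inv : ℕ → ℕ} {T : ℕ → ℕ → ℕ} {V : ℕ → Prop} (h : Tab k inv T V) (x : ℕ)
    (hx : x < k) (hx' : inv x = x) : h.perm x * h.perm x = 1 := by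
  have := h.perm_inv hx
  rw [hx'] at this
  nth_rewrite 1 [this]
  exact inv_mul_cancel _

theorem wd_map {Γ : Type*} [Group Γ] (γ : ℕ → Γ) (ι : ℕ → ℕ) (w : List ℕ) :
    wd (fun y => γ (ι y)) w = wd γ (w.map ι) := by
  simp [wd, Function.comp_def]

/-! ### orbits -/

/-- pointer check for orbits -/
noncomputable def chkO (T : ℕ → ℕ → ℕ) (Lab RK OD OW : ℕ → ℕ) (roots : List ℕ)
    (ws : List (List ℕ)) (E En : ℕ) (c : ℕ) : Bool :=
  Bool.rec
    (band (vOK E En (OD c)) (band (Nat.beq (Lab (OD c)) (Lab c)) (band (Nat.blt (RK (OD c)) (RK c))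
      (nthB (fun w => Nat.beq (walk T w (OD c)) c) ws (OW c))))) true
    (Nat.beq c (nthN roots (Lab c)))

/-- label check for orbits -/
noncomputable def chkL (T : ℕ → ℕ → ℕ) (Lab : ℕ → ℕ) (w : List ℕ) (c : ℕ) : Bool :=
  Nat.beq (Lab (walk T w c)) (Lab c)

theorem orbit_thm2 {Γ : Type*} [Group Γ] (γ : ℕ → Γ) {k n E : ℕ} {inv : ℕ → ℕ} {T : ℕ → ℕ → ℕ}
    (h : Tab k inv T (Vc E n)) (X : Type*) [MulAction Γ X] (p : ℕ → X)
    (hbij : Function.Injective (fun c : {c // Vc E n c} => p c))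
    (φ : Γ →* Equiv.Perm {c // Vc E n c}) (hφ : ∀ y < k, φ (γ y) = h.perm y)
    (heq : ∀ (g : Γ) (c : {c // Vc E n c}), p (φ g c : {c // Vc E n c}) = g • p c)
    (L : Subgroup Γ) (ws : List (List ℕ)) (hws : ∀ w ∈ ws, ∀ y ∈ w, y < k)
    (hL : L = Subgroup.closure {g | ∃ w ∈ ws, g = wd γ w})
    (Lab RK OD OW : ℕ → ℕ) (roots : List ℕ) (ws' : List (List ℕ))
    (hws' : ∀ w ∈ ws', w ∈ ws ∨ invw inv w ∈ ws) (hwk : ∀ w ∈ ws', ∀ y ∈ w, y < k)
    (hLab : ∀ w ∈ ws, ∀ i < n, chkL T Lab w (E * i) = true)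
    (hO : ∀ i < n, chkO T Lab RK OD OW roots ws' E (E * n) (E * i) = true)
    (l : ℕ) (hroot : Vc E n (nthN roots l)) (hrl : Lab (nthN roots l) = l) :
    (MulAction.orbit L (p (nthN roots l))) = p '' {c | Vc E n c ∧ Lab c = l} ∧
    (MulAction.orbit L (p (nthN roots l))).ncard = {c | Vc E n c ∧ Lab c = l}.ncard := by
  have key := orbit_thm γ h X p hbij φ hφ heq L ws hws hL Lab RK (fun w hw c hc => by
    obtain ⟨i, hi, rfl⟩ := hc
    exact Nat.eq_of_beq_eq_true (hLab w hw i hi)) (nthN roots l) hroot (fun c hc hl hne => by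
    obtain ⟨i, hi, rfl⟩ := hc
    have h1 := hO i hi
    unfold chkO at h1
    have h2 : Nat.beq (E * i) (nthN roots (Lab (E * i))) = false := by
      rw [hl, hrl]
      cases hb : Nat.beq (E * i) (nthN roots l) with
      | false => rfl
      | true => exact absurd (Nat.eq_of_beq_eq_true hb) hne
    rw [h2] at h1
    replace h1 : band (vOK E (E * n) (OD (E * i))) (band (Nat.beq (Lab (OD (E * i))) (Lab (E * i)))
      (band (Nat.blt (RK (OD (E * i))) (RK (E * i)))
      (nthB (fun w => Nat.beq (walk T w (OD (E * i))) (E * i)) ws' (OW (E * i))))) = true := h1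
    rw [band_true, band_true, band_true] at h1
    obtain ⟨h3, h4, h5, h6⟩ := h1
    obtain ⟨w, hw, h7⟩ := nthB_spec _ _ h6
    have h7' := Nat.eq_of_beq_eq_true h7
    have hVd := vOK_spec h3
    have hld : Lab (OD (E * i)) = Lab (nthN roots l) := by
      rw [Nat.eq_of_beq_eq_true h4, hl]
    have hrk : RK (OD (E * i)) < RK (E * i) := by simpa [Nat.blt_eq] using h5
    rcases hws' w hw with h8 | h8
    · exact ⟨w, h8, _, hVd, hld, hrk, Or.inl h7'⟩
    · refine ⟨invw inv w, h8, _, hVd, hld, hrk, Or.inr ?_⟩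
      -- walk of the inverse word
      have e1 := h.walk_spec w (hwk w hw) ⟨_, hVd⟩
      have hk' : ∀ y ∈ invw inv w, y < k := hws _ h8
      have e2 := h.walk_spec (invw inv w) hk' ⟨E * i, ⟨i, hi, rfl⟩⟩
      have e3 : wd h.perm (invw inv w) = (wd h.perm w)⁻¹ := by
        apply wd_invw
        intro y hy
        exact h.perm_inv (hwk w hw y hy)
      rw [← e2, e3, inv_inv]
      simp only at e1
      rw [h7'] at e1
      have e4 : (wd h.perm w)⁻¹ ⟨_, hVd⟩ = (⟨E * i, ⟨i, hi, rfl⟩⟩ : {c // Vc E n c}) :=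
        Subtype.ext e1
      rw [← e4, self_inv'])
  rw [hrl] at key
  exact key

theorem htree_of {T : ℕ → ℕ → ℕ} {PV PX : ℕ → ℕ} {k E n : ℕ}
    (h : ∀ i < n - 1, chkP T PV PX k E (E * n) (Nat.mul E (Nat.succ i)) = true) :
    ∀ c, Vc E n c → c ≠ 0 → ∃ y < k, ∃ d < c, Vc E n d ∧ T y d = c := by
  intro c hc h0
  obtain ⟨i, hi, rfl⟩ := hc
  cases i with
  | zero => exact absurd rfl h0
  | succ j => exact chkP_spec (h j (by omega))

theorem ncard_lab {E n : ℕ} (hE : 0 < E) (Lab : ℕ → ℕ) (l : ℕ) :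
    {c | Vc E n c ∧ Lab c = l}.ncard =
      ((Finset.Ico 0 n).filter (fun i => Nat.beq (Lab (Nat.mul E i)) l = true)).card := by
  have : {c | Vc E n c ∧ Lab c = l} = (fun i => E * i) ''
      (((Finset.Ico 0 n).filter (fun i => Nat.beq (Lab (Nat.mul E i)) l = true) : Finset ℕ) : Set ℕ) := by
    ext c
    simp only [Set.mem_setOf_eq, Set.mem_image, Finset.coe_filter, Finset.mem_Ico]
    constructor
    · rintro ⟨⟨i, hi, rfl⟩, hl⟩
      refine ⟨i, ⟨⟨Nat.zero_le _, hi⟩, ?_⟩, rfl⟩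
      have : Lab (Nat.mul E i) = l := hl
      rw [this]
      exact Nat.beq_refl l
    · rintro ⟨i, ⟨⟨_, hi⟩, hl⟩, rfl⟩
      exact ⟨⟨i, hi, rfl⟩, Nat.eq_of_beq_eq_true hl⟩
  rw [this, Set.ncard_image_of_injective, Set.ncard_coe_finset]
  intro i j hij
  exact Nat.eq_of_mul_eq_mul_left hE hij

theorem cnt_step {P : ℕ → Bool} {lo k n a b s : ℕ}
    (h : ((Finset.Ico 0 lo).filter (fun i => P i = true)).card = a)
    (h2 : cnt2 P k lo = b) (hn : n = lo + 2 ^ k) (hs : s = a + b) :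
    ((Finset.Ico 0 n).filter (fun i => P i = true)).card = s := by
  subst hn hs
  rw [cnt2_spec] at h2
  rw [← h, ← h2, ← Finset.card_union_of_disjoint]
  · rw [← Finset.filter_union, Finset.Ico_union_Ico_eq_Ico (Nat.zero_le _) (Nat.le_add_right _ _)]
  · refine Finset.disjoint_filter_filter ?_
    rw [Finset.disjoint_left]
    intro x h1 h2
    simp only [Finset.mem_Ico] at h1 h2
    omega

end Cfsg.Agent.H5TC
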