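import Cfsg.Agent.Lib.H5TC6

/-!
Verified coset enumeration, part 7: glue for the statements.
-/

set_option autoImplicit false

namespace Cfsg.Agent.H5TC

theorem fix_of_mem {Γ : Type*} [Group Γ] {H : Subgroup Γ} {g : Γ} (h : g ∈ H) :
    g⁻¹ • ((1 : Γ) : Γ ⧸ H) = ((1 : Γ) : Γ ⧸ H) := by
  show ((g⁻¹ * 1 : Γ) : Γ ⧸ H) = _
  rw [mul_one, QuotientGroup.eq]
  simpa using h

theorem fix_words {Γ : Type*} [Group Γ] (γ : ℕ → Γ) {H : Subgroup Γ} {subw : List (List ℕ)}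
    (hH : H = Subgroup.closure {g | ∃ w ∈ subw, g = wd γ w}) :
    ∀ b ∈ subw, (wd γ b)⁻¹ • ((1 : Γ) : Γ ⧸ H) = ((1 : Γ) : Γ ⧸ H) := by
  intro b hb
  apply fix_of_mem
  rw [hH]
  exact Subgroup.subset_closure ⟨b, hb, rfl⟩

/-- index and equivariance -/
theorem full_thm {Γ : Type*} [Group Γ] (γ : ℕ → Γ) {k n E : ℕ} {inv : ℕ → ℕ} {T : ℕ → ℕ → ℕ}
    (h : Tab k inv T (Vc E n)) (hE : 0 < E) (hinv : ∀ y < k, γ (inv y) = (γ y)⁻¹)
    (hgen : Subgroup.closure {g | ∃ y < k, g = γ y} = ⊤)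
    (φ : Γ →* Equiv.Perm {c // Vc E n c}) (hφ : ∀ y < k, φ (γ y) = h.perm y)
    (htree : ∀ c, Vc E n c → c ≠ 0 → ∃ y < k, ∃ d < c, Vc E n d ∧ T y d = c)
    (H : Subgroup Γ) (subw : List (List ℕ)) (hlt : ∀ w ∈ subw, ∀ y ∈ w, y < k)
    (hH : H = Subgroup.closure {g | ∃ w ∈ subw, g = wd γ w})
    (hfix : ∀ w ∈ subw, walk T w 0 = 0)
    (main : ∃ p : ℕ → Γ ⧸ H, p 0 = ((1 : Γ) : Γ ⧸ H) ∧
      ∀ y < k, ∀ c, Vc E n c → (γ y)⁻¹ • p c = p (T y c)) :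
    H.index = n ∧ ∃ p : ℕ → Γ ⧸ H, p 0 = ((1 : Γ) : Γ ⧸ H) ∧
      Function.Bijective (fun c : {c // Vc E n c} => p c) ∧
      ∀ (g : Γ) (c : {c // Vc E n c}), p (φ g c : {c // Vc E n c}) = g • p c := by
  obtain ⟨p, hp0, hp⟩ := main
  have hfixH : ∀ g ∈ H, φ g ⟨0, h.zero⟩ = ⟨0, h.zero⟩ := by
    intro g hg
    rw [hH] at hg
    have key : ∀ w ∈ subw, φ (wd γ w)⁻¹ ⟨0, h.zero⟩ = ⟨0, h.zero⟩ := by
      intro w hw
      apply Subtype.ext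
      rw [phi_walk γ h φ hφ w (hlt w hw)]
      exact hfix w hw
    induction hg using Subgroup.closure_induction with
    | mem x hx =>
      obtain ⟨w, hw, rfl⟩ := hx
      have := key w hw
      rw [map_inv, Equiv.Perm.inv_eq_iff_eq] at this
      exact this.symm
    | one => simp
    | mul x y hx hy h1 h2 => rw [map_mul, Equiv.Perm.mul_apply, h2, h1]
    | inv x hx h1 =>
      rw [map_inv, Equiv.Perm.inv_eq_iff_eq]
      exact h1.symm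
  obtain ⟨h1, h2, h3⟩ := index_thm γ h (fun c => Iff.rfl) hE hinv H p hp0 hp hgen φ hφ hfixH htree
  exact ⟨h1, p, hp0, h2, h3⟩

theorem map_closure_eq {α Γ : Type*} [Group Γ] (f : FreeGroup α →* Γ) (S : Set (FreeGroup α))
    (γ : ℕ → Γ) (subw : List (List ℕ)) (h1 : ∀ s ∈ S, ∃ w ∈ subw, f s = wd γ w)
    (h2 : ∀ w ∈ subw, ∃ s ∈ S, f s = wd γ w) :
    (Subgroup.closure S).map f = Subgroup.closure {g | ∃ w ∈ subw, g = wd γ w} := by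
  rw [MonoidHom.map_closure]
  congr 1
  ext g
  constructor
  · rintro ⟨s, hs, rfl⟩
    exact h1 s hs
  · rintro ⟨w, hw, rfl⟩
    exact h2 w hw

end Cfsg.Agent.H5TC
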