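import Cfsg.Agent.Lib.H5TC7

/-!
Verified coset enumeration, part 8: orders and simplicity.
-/

set_option autoImplicit false
set_option linter.style.haveILetI false
set_option linter.deprecated false

namespace Cfsg.Agent.H5TC

/-! ### upper bounds -/

theorem card_step {Γ : Type*} [Group Γ] {K1 K2 : Subgroup Γ} (h : K2 ≤ K1) {a b : ℕ}
    (h1 : K2.relIndex K1 ≤ a ∧ K2.relIndex K1 ≠ 0) (h2 : Nat.card K2 ≤ b ∧ Nat.card K2 ≠ 0) :
    Nat.card K1 ≤ a * b ∧ Nat.card K1 ≠ 0 := by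
  have e : Nat.card K1 = Nat.card K2 * K2.relIndex K1 := by
    rw [← Subgroup.relIndex_bot_left, ← Subgroup.relIndex_bot_left,
      Subgroup.relIndex_mul_relIndex ⊥ K2 K1 bot_le h]
  rw [e]
  refine ⟨?_, Nat.mul_ne_zero h2.2 h1.2⟩
  rw [mul_comm]
  exact Nat.mul_le_mul h1.1 h2.1

/-- subgroup generated by letters -/
def Kof {Γ : Type*} [Group Γ] (γ : ℕ → Γ) (ls : List ℕ) : Subgroup Γ :=
  Subgroup.closure {g | ∃ y ∈ ls, g = γ y}

theorem Kof_mem {Γ : Type*} [Group Γ] (γ : ℕ → Γ) {ls : List ℕ} {y : ℕ} (h : y ∈ ls) :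
    γ y ∈ Kof γ ls := Subgroup.subset_closure ⟨y, h, rfl⟩

theorem Kof_mono {Γ : Type*} [Group Γ] (γ : ℕ → Γ) {l1 l2 : List ℕ} (h : ∀ y ∈ l1, y ∈ l2) :
    Kof γ l1 ≤ Kof γ l2 := by
  apply Subgroup.closure_mono
  rintro _ ⟨y, hy, rfl⟩
  exact ⟨y, h y hy, rfl⟩

theorem wd_mem {Γ : Type*} [Group Γ] (γ : ℕ → Γ) (K : Subgroup Γ) (w : List ℕ)
    (h : ∀ y ∈ w, γ y ∈ K) : wd γ w ∈ K := by
  induction w with
  | nil => rw [wd_nil]; exact K.one_mem
  | cons a w ih =>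
    rw [wd_cons]
    exact K.mul_mem (h a List.mem_cons_self) (ih (fun y hy => h y (List.mem_cons_of_mem _ hy)))

/-- Relative index bound from an enumeration. -/
theorem enum_step {Γ : Type*} [Group Γ] (γ : ℕ → Γ) (ι : ℕ → ℕ) {k n E : ℕ} {inv : ℕ → ℕ}
    {T : ℕ → ℕ → ℕ} (tab : Tab k inv T (Vc E n)) (ls ls2 : List ℕ) (subw : List (List ℕ))
    (hls : ∀ y ∈ ls, ∃ z < k, ι z = y) (hsub : ∀ w ∈ subw, ∀ y ∈ w, ι y ∈ ls2)
    (hinv : ∀ y < k, γ (ι (inv y)) = (γ (ι y))⁻¹)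
    (main : ∀ x0 : Γ ⧸ (Kof γ ls2), (∀ b ∈ subw, (wd (fun y => γ (ι y)) b)⁻¹ • x0 = x0) →
      ∃ p : ℕ → Γ ⧸ (Kof γ ls2), p 0 = x0 ∧ ∀ y < k, ∀ c, Vc E n c → (γ (ι y))⁻¹ • p c = p (T y c)) :
    (Kof γ ls2).relIndex (Kof γ ls) ≤ n ∧ (Kof γ ls2).relIndex (Kof γ ls) ≠ 0 := by
  obtain ⟨p, hp0, hp⟩ := main ((1 : Γ) : Γ ⧸ (Kof γ ls2)) (fun b hb =>
    fix_of_mem (wd_mem (fun y => γ (ι y)) _ b (fun y hy => Kof_mem γ (hsub b hb y hy))))
  refine relIndex_le (fun y => γ (ι y)) (Kof γ ls2) (Kof γ ls) (k := k) (n := n) (E := E) (T := T)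
    (V := Vc E n) (p := p) tab.zero tab.maps (fun c hc => hc) tab.inv_lt tab.cancel hinv hp0 hp ?_
  apply Subgroup.closure_mono
  rintro _ ⟨y, hy, rfl⟩
  obtain ⟨z, hz, rfl⟩ := hls y hy
  exact ⟨z, hz, rfl⟩

theorem card_bot_le {Γ : Type*} [Group Γ] (γ : ℕ → Γ) :
    Nat.card (Kof γ []) ≤ 1 ∧ Nat.card (Kof γ []) ≠ 0 := by
  have : Kof γ [] = ⊥ := by
    unfold Kof
    have : {g | ∃ y ∈ ([] : List ℕ), g = γ y} = (∅ : Set Γ) := by ext; simp
    rw [this, Subgroup.closure_empty]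
  rw [this]
  simp

/-! ### lower bounds -/

/-- pointwise stabiliser of the codes in `L` -/
def PS {Γ X : Type*} [Group Γ] (φ : Γ →* Equiv.Perm X) (A : Set X) : Subgroup Γ where
  carrier := {g | ∀ x ∈ A, φ g x = x}
  one_mem' := by intro x _; simp
  mul_mem' := by
    intro a b ha hb x hx
    rw [map_mul, Equiv.Perm.mul_apply, hb x hx, ha x hx]
  inv_mem' := by
    intro a ha x hx
    rw [map_inv, Equiv.Perm.inv_eq_iff_eq]
    exact (ha x hx).symm

theorem ker_le_PS {Γ X : Type*} [Group Γ] (φ : Γ →* Equiv.Perm X) (A : Set X) : φ.ker ≤ PS φ A := by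
  intro g hg x _
  rw [MonoidHom.mem_ker] at hg
  rw [hg]
  rfl

theorem ps_step {Γ X : Type*} [Group Γ] [Finite Γ] (φ : Γ →* Equiv.Perm X) (A : Set X) (x : X)
    {s m : ℕ} (f : Fin s → X) (hf : Function.Injective f)
    (hg : ∀ j, ∃ g ∈ PS φ A, φ g x = f j) (hm : m ≤ Nat.card (PS φ (insert x A))) :
    s * m ≤ Nat.card (PS φ A) := by
  have hle : PS φ (insert x A) ≤ PS φ A := fun g hg y hy => hg y (Or.inr hy)
  have e : Nat.card (PS φ A) = Nat.card (PS φ (insert x A)) * (PS φ (insert x A)).relIndex (PS φ A) := by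
    rw [← Subgroup.relIndex_bot_left, ← Subgroup.relIndex_bot_left,
      Subgroup.relIndex_mul_relIndex ⊥ _ _ bot_le hle]
  rw [e, mul_comm]
  refine Nat.mul_le_mul hm ?_
  choose g hg1 hg2 using hg
  let F : Fin s → (PS φ A) ⧸ (PS φ (insert x A)).subgroupOf (PS φ A) := fun j =>
    ((⟨g j, hg1 j⟩ : PS φ A) : (PS φ A) ⧸ (PS φ (insert x A)).subgroupOf (PS φ A))
  have hF : Function.Injective F := by
    intro i j hij
    have h1 : (⟨g i, hg1 i⟩ : PS φ A)⁻¹ * ⟨g j, hg1 j⟩ ∈ (PS φ (insert x A)).subgroupOf (PS φ A) :=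
      QuotientGroup.eq.1 hij
    rw [Subgroup.mem_subgroupOf] at h1
    have h2 := h1 x (Or.inl rfl)
    have h3 : φ ((g i)⁻¹ * g j) x = x := h2
    rw [map_mul, map_inv, Equiv.Perm.mul_apply, Equiv.Perm.inv_eq_iff_eq, hg2, hg2] at h3
    exact hf h3.symm
  have h4 := Nat.card_le_card_of_injective F hF
  rw [Nat.card_eq_fintype_card, Fintype.card_fin] at h4
  exact h4

/-- check of an entry of an orbit -/
noncomputable def chkQ (T : ℕ → ℕ → ℕ) (PT RK OD OW : ℕ → ℕ) (r0 : ℕ)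
    (ws : List (List ℕ)) (E Es : ℕ) (c : ℕ) : Bool :=
  Bool.rec
    (band (vOK E Es (OD c)) (band (Nat.blt (RK (OD c)) (RK c))
      (nthB (fun w => Nat.beq (walk T w (PT (OD c))) (PT c)) ws (OW c)))) true
    (Nat.beq c r0)

theorem orbQ {Γ : Type*} [Group Γ] (γ : ℕ → Γ) {k n E : ℕ} {inv : ℕ → ℕ} {T : ℕ → ℕ → ℕ}
    (h : Tab k inv T (Vc E n)) (φ : Γ →* Equiv.Perm {c // Vc E n c})
    (hφ : ∀ y < k, φ (γ y) = h.perm y) (S : Subgroup Γ) (ws : List (List ℕ))
    (hws : ∀ w ∈ ws, ∀ y ∈ w, y < k) (hS : ∀ w ∈ ws, wd γ w ∈ S) {s E2 : ℕ}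
    (PT RK OD OW : ℕ → ℕ) (r0 : ℕ) (x : {c // Vc E n c}) (hx : PT r0 = x)
    (hchk : ∀ j < s, chkQ T PT RK OD OW r0 ws E2 (E2 * s) (E2 * j) = true)
    (hmono : ∀ j < s - 1, Nat.blt (PT (Nat.mul E2 j)) (PT (Nat.mul E2 (Nat.succ j))) = true) :
    ∃ f : Fin s → {c // Vc E n c}, Function.Injective f ∧ ∀ j, ∃ g ∈ S, φ g x = f j := by
  have key : ∀ r j, j < s → RK (E2 * j) = r → ∃ g ∈ S, ((φ g x : {c // Vc E n c}) : ℕ) = PT (E2 * j) := by
    intro r
    induction r using Nat.strong_induction_on with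
    | _ r ih =>
      intro j hj hr
      have h1 := hchk j hj
      unfold chkQ at h1
      cases hb : Nat.beq (E2 * j) r0 with
      | true =>
        have := Nat.eq_of_beq_eq_true hb
        rw [this, hx]
        exact ⟨1, S.one_mem, by simp⟩
      | false =>
        rw [hb] at h1
        replace h1 : band (vOK E2 (E2 * s) (OD (E2 * j))) (band (Nat.blt (RK (OD (E2 * j))) (RK (E2 * j)))
          (nthB (fun w => Nat.beq (walk T w (PT (OD (E2 * j)))) (PT (E2 * j))) ws (OW (E2 * j)))) = true := h1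
        rw [band_true, band_true] at h1
        obtain ⟨h3, h5, h6⟩ := h1
        obtain ⟨w, hw, h7⟩ := nthB_spec _ _ h6
        have h7' := Nat.eq_of_beq_eq_true h7
        obtain ⟨i, hi, he⟩ := vOK_spec h3
        have hrk : RK (OD (E2 * j)) < RK (E2 * j) := by simpa [Nat.blt_eq] using h5
        rw [he] at hrk h7'
        obtain ⟨g, hg, hgx⟩ := ih _ (by omega) i hi rfl
        refine ⟨(wd γ w)⁻¹ * g, S.mul_mem (S.inv_mem (hS w hw)) hg, ?_⟩
        rw [map_mul, Equiv.Perm.mul_apply, map_inv, ← map_inv φ, phi_walk γ h φ hφ w (hws w hw), hgx, h7']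
  choose g hg1 hg2 using fun j : Fin s => key _ j.1 j.2 rfl
  refine ⟨fun j => φ (g j) x, ?_, fun j => ⟨g j, hg1 j, rfl⟩⟩
  have hmono' : ∀ j < s, ∀ i < j, PT (E2 * i) < PT (E2 * j) := by
    intro j
    induction j with
    | zero => intro _ i hi; omega
    | succ j ih =>
      intro hj i hi
      have h1 : PT (E2 * j) < PT (E2 * (j + 1)) := by
        have := hmono j (by omega)
        simpa [Nat.blt_eq] using this
      rcases Nat.lt_succ_iff_lt_or_eq.1 hi with h2 | rfl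
      · exact (ih (by omega) i h2).trans h1
      · exact h1
  intro i j hij
  simp only at hij
  have h1 : PT (E2 * i) = PT (E2 * j) := by rw [← hg2, ← hg2, hij]
  rcases lt_trichotomy i.1 j.1 with h2 | h2 | h2
  · have := hmono' j.1 j.2 i.1 h2
    omega
  · exact Fin.ext h2
  · have := hmono' i.1 i.2 j.1 h2
    omega

theorem mem_PS {Γ : Type*} [Group Γ] (γ : ℕ → Γ) {k n E : ℕ} {inv : ℕ → ℕ} {T : ℕ → ℕ → ℕ}
    (h : Tab k inv T (Vc E n)) (φ : Γ →* Equiv.Perm {c // Vc E n c})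
    (hφ : ∀ y < k, φ (γ y) = h.perm y) (L : List ℕ) (w : List ℕ) (hw : ∀ y ∈ w, y < k)
    (hf : ∀ c ∈ L, walk T w c = c) : wd γ w ∈ PS φ {x : {c // Vc E n c} | x.1 ∈ L} := by
  intro x hx
  have h1 : φ (wd γ w)⁻¹ x = x := by
    apply Subtype.ext
    rw [phi_walk γ h φ hφ w hw]
    exact hf _ hx
  rw [map_inv, Equiv.Perm.inv_eq_iff_eq] at h1
  exact h1.symm

/-- transitivity gives the first step -/
theorem ps_top {Γ : Type*} [Group Γ] [Finite Γ] {n E : ℕ} (hE : 0 < E)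
    (φ : Γ →* Equiv.Perm {c // Vc E n c}) (x : {c // Vc E n c})
    (htr : ∀ c, ∃ g : Γ, φ g x = c) {m : ℕ}
    (hm : m ≤ Nat.card (PS φ {y : {c // Vc E n c} | y.1 ∈ [x.1]})) : n * m ≤ Nat.card Γ := by
  have e : Nat.card Γ = Nat.card (PS φ (∅ : Set {c // Vc E n c})) := by
    have : PS φ (∅ : Set {c // Vc E n c}) = ⊤ := by
      ext g
      simp [PS]
    rw [this, Subgroup.card_top]
  rw [e]
  refine ps_step φ ∅ x (fun i : Fin n => (⟨E * i, i, i.2, rfl⟩ : {c // Vc E n c})) ?_ ?_ ?_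
  · intro i j hij
    have := congrArg Subtype.val hij
    exact Fin.ext (Nat.eq_of_mul_eq_mul_left hE this)
  · intro j
    obtain ⟨g, hg⟩ := htr ⟨E * j, j, j.2, rfl⟩
    exact ⟨g, fun y hy => absurd hy (by simp), hg⟩
  · have : (insert x (∅ : Set {c // Vc E n c})) = {y : {c // Vc E n c} | y.1 ∈ [x.1]} := by
      ext y
      simp [Subtype.ext_iff]
    rw [this]
    exact hm

theorem ps_next {Γ : Type*} [Group Γ] [Finite Γ] {n E : ℕ}
    (φ : Γ →* Equiv.Perm {c // Vc E n c}) (L : List ℕ) (x : {c // Vc E n c}) {s m : ℕ}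
    (hex : ∃ f : Fin s → {c // Vc E n c}, Function.Injective f ∧
      ∀ j, ∃ g ∈ PS φ {y : {c // Vc E n c} | y.1 ∈ L}, φ g x = f j)
    (hm : m ≤ Nat.card (PS φ {y : {c // Vc E n c} | y.1 ∈ x.1 :: L})) :
    s * m ≤ Nat.card (PS φ {y : {c // Vc E n c} | y.1 ∈ L}) := by
  obtain ⟨f, hf, hg⟩ := hex
  refine ps_step φ _ x f hf hg ?_
  have : (insert x {y : {c // Vc E n c} | y.1 ∈ L}) = {y : {c // Vc E n c} | y.1 ∈ x.1 :: L} := by
    ext y
    simp [Subtype.ext_iff]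
  rw [this]
  exact hm

/-! ### simplicity -/

/-- Simplicity criterion. -/
theorem simple_thm {Γ : Type*} [Group Γ] [Finite Γ] [Nontrivial Γ] {X : Type*} [Finite X]
    (φ : Γ →* Equiv.Perm X) (hinj : Function.Injective φ) (x0 : X)
    (htr : ∀ c, ∃ g : Γ, φ g x0 = c) {r : ℕ} (Lab : X → Fin (r + 1)) (size : Fin (r + 1) → ℕ)
    (hsize : ∀ l, {x | Lab x = l}.ncard = size l) (h0 : Lab x0 = 0) (h1 : size 0 = 1)
    (horb : ∀ x y, Lab x = Lab y → ∃ g : Γ, φ g x0 = x0 ∧ φ g x = y)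
    (hprim : ∀ S : Finset (Fin (r + 1)), 0 ∈ S → (∑ l ∈ S, size l) ∣ Nat.card X →
      S = {0} ∨ S = Finset.univ)
    (p : ℕ) (hp : p.Prime) {m : ℕ} (hm : Nat.card Γ = Nat.card X * m) (hpm : ¬ p ∣ m) (u : Γ)
    (hu : u ^ p = 1)
    (hcol : ∀ N : Subgroup Γ, N.Normal → u ∈ N → N = ⊤) : IsSimpleGroup Γ := by
  classical
  letI : MulAction Γ X := MulAction.compHom X φ
  have hsm : ∀ (g : Γ) (x : X), g • x = φ g x := fun _ _ => rfl
  haveI : MulAction.IsPretransitive Γ X := ⟨fun x y => by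
    obtain ⟨g, hg⟩ := htr x
    obtain ⟨g', hg'⟩ := htr y
    refine ⟨g' * g⁻¹, ?_⟩
    rw [hsm, map_mul, Equiv.Perm.mul_apply, ← hg, map_inv, inv_self', hg']⟩
  haveI : Nonempty X := ⟨x0⟩
  refine ⟨fun N hN => ?_⟩
  haveI := hN
  set B : Set X := MulAction.orbit N x0 with hB
  have hx0B : x0 ∈ B := MulAction.mem_orbit_self _
  have hblock : MulAction.IsBlock Γ B := MulAction.IsBlock.orbit_of_normal x0
  have hdvd : B.ncard ∣ Nat.card X := hblock.ncard_dvd_card ⟨x0, hx0B⟩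
  -- B is stable under the stabiliser
  have hst : ∀ g : Γ, φ g x0 = x0 → ∀ x ∈ B, φ g x ∈ B := by
    intro g hg x hx
    obtain ⟨n, rfl⟩ := hx
    refine ⟨⟨g * n * g⁻¹, hN.conj_mem _ n.2 g⟩, ?_⟩
    show (g * n * g⁻¹ : Γ) • x0 = φ g ((n : Γ) • x0)
    rw [hsm, hsm, map_mul, map_mul, Equiv.Perm.mul_apply, Equiv.Perm.mul_apply, map_inv]
    congr 2
    rw [Equiv.Perm.inv_eq_iff_eq]
    exact hg.symm
  set S : Finset (Fin (r + 1)) := Finset.univ.filter (fun l => ∃ x ∈ B, Lab x = l) with hS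
  have hBS : ∀ x, x ∈ B ↔ Lab x ∈ S := by
    intro x
    simp only [hS, Finset.mem_filter, Finset.mem_univ, true_and]
    constructor
    · intro hx
      exact ⟨x, hx, rfl⟩
    · rintro ⟨y, hy, hyx⟩
      obtain ⟨g, hg, rfl⟩ := horb y x hyx
      exact hst g hg y hy
  letI := Fintype.ofFinite X
  have hcard : B.ncard = ∑ l ∈ S, size l := by
    have hBeq : B = ((Finset.univ.filter (fun x : X => Lab x ∈ S)) : Set X) := by
      ext x
      simp [hBS x]
    rw [hBeq, Set.ncard_coe_finset, Finset.card_eq_sum_card_fiberwise (f := Lab) (t := S)]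
    · refine Finset.sum_congr rfl (fun l hl => ?_)
      rw [← hsize l, ← Set.ncard_coe_finset]
      congr 1
      ext x
      simp only [Finset.coe_filter, Finset.mem_filter, Finset.mem_univ, true_and, Set.mem_setOf_eq]
      constructor
      · exact fun h => h.2
      · intro h
        exact ⟨h ▸ hl, h⟩
    · intro x hx
      simpa using hx
  rw [hcard] at hdvd
  have h0S : (0 : Fin (r + 1)) ∈ S := by
    rw [← h0]
    exact (hBS x0).1 hx0B
  rcases hprim S h0S hdvd with hS1 | hS1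
  · left
    -- B = {x0}
    have hB1 : ∀ x ∈ B, x = x0 := by
      have h2 : B.ncard = 1 := by rw [hcard, hS1, Finset.sum_singleton, h1]
      obtain ⟨y, hy⟩ := Set.ncard_eq_one.1 h2
      intro x hx
      rw [hy] at hx hx0B
      rw [Set.mem_singleton_iff] at hx hx0B
      rw [hx, hx0B]
    rw [eq_bot_iff]
    intro g hg
    rw [Subgroup.mem_bot]
    apply hinj
    rw [map_one]
    ext y
    obtain ⟨t, rfl⟩ := htr y
    have h3 : t⁻¹ * g * t ∈ N := by
      have := hN.conj_mem g hg t⁻¹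
      rwa [inv_inv] at this
    have h4 := hB1 ((⟨t⁻¹ * g * t, h3⟩ : N) • x0) ⟨_, rfl⟩
    have h5 : φ (t⁻¹ * g * t) x0 = x0 := h4
    rw [map_mul, map_mul, Equiv.Perm.mul_apply, Equiv.Perm.mul_apply, map_inv,
      Equiv.Perm.inv_eq_iff_eq] at h5
    exact h5
  · right
    apply hcol N hN
    -- N is transitive
    have hBu : ∀ x, x ∈ B := by
      intro x
      rw [hBS, hS1]
      exact Finset.mem_univ _
    have hX : Nat.card X ∣ Nat.card N := by
      have h2 : B.ncard = Nat.card X := by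
        rw [← Set.ncard_univ]
        congr 1
        exact Set.eq_univ_of_forall hBu
      rw [← h2, hB, ← MulAction.index_stabilizer]
      exact Subgroup.index_dvd_card _
    have hXpos : 0 < Nat.card X := Nat.card_pos
    have hidx : N.index ∣ m := by
      obtain ⟨t, ht⟩ := hX
      have h2 := N.card_mul_index
      rw [hm, ht] at h2
      have h3 : t * N.index = m := by
        have : Nat.card X * (t * N.index) = Nat.card X * m := by rw [← h2]; ring
        exact Nat.eq_of_mul_eq_mul_left hXpos this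
      exact ⟨t, by rw [← h3]; ring⟩
    have hcop : Nat.Coprime p N.index := by
      rw [Nat.Prime.coprime_iff_not_dvd hp]
      intro h2
      exact hpm (h2.trans hidx)
    have hq : ((u : Γ) : Γ ⧸ N) = 1 := by
      have h2 : ((u : Γ) : Γ ⧸ N) ^ p = 1 := by
        rw [← QuotientGroup.mk_pow, hu, QuotientGroup.mk_one]
      have h3 : ((u : Γ) : Γ ⧸ N) ^ N.index = 1 := by
        rw [Subgroup.index]
        exact pow_card_eq_one'
      have h4 := orderOf_dvd_of_pow_eq_one h2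
      have h5 := orderOf_dvd_of_pow_eq_one h3
      have h6 := Nat.dvd_gcd h4 h5
      rw [hcop.gcd_eq_one, Nat.dvd_one, orderOf_eq_one_iff] at h6
      exact h6
    exact (QuotientGroup.eq_one_iff u).1 hq

theorem wd_hom {Γ P : Type*} [Group Γ] [Group P] (f : Γ →* P) (γ : ℕ → Γ) (w : List ℕ) :
    wd (fun y => f (γ y)) w = f (wd γ w) := by
  induction w with
  | nil => simp
  | cons a w ih => rw [wd_cons, wd_cons, map_mul, ih]

theorem inj_of_card {Γ : Type*} [Group Γ] [Finite Γ] {P : Type*} [Group P] (φ : Γ →* P) {N : ℕ}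
    (hN : 0 < N) (h1 : N * Nat.card φ.ker ≤ Nat.card Γ) (h2 : Nat.card Γ ≤ N) :
    Function.Injective φ ∧ Nat.card Γ = N := by
  have h3 : Nat.card φ.ker = 1 := by
    have h4 : 0 < Nat.card φ.ker := Nat.card_pos
    by_contra h5
    have h6 : 2 ≤ Nat.card φ.ker := by omega
    have : N * 2 ≤ N * Nat.card φ.ker := Nat.mul_le_mul_left _ h6
    omega
  refine ⟨(MonoidHom.ker_eq_bot_iff φ).1 (Subgroup.card_eq_one.1 h3), ?_⟩
  rw [h3, mul_one] at h1
  exact le_antisymm h2 h1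

/-- simplicity, from the data of an enumeration -/
theorem simple_thm2 {Γ : Type*} [Group Γ] [Finite Γ] {n E : ℕ}
    (φ : Γ →* Equiv.Perm {c // Vc E n c}) (hinj : Function.Injective φ)
    (z0 : Vc E n 0) (htr : ∀ c, ∃ g : Γ, φ g ⟨0, z0⟩ = c)
    (H : Subgroup Γ) (p : ℕ → Γ ⧸ H) (hp0 : p 0 = ((1 : Γ) : Γ ⧸ H))
    (h2 : Function.Bijective (fun c : {c // Vc E n c} => p c))
    (h3 : ∀ (g : Γ) (c : {c // Vc E n c}), p (φ g c : {c // Vc E n c}) = g • p c)
    (Lab : ℕ → ℕ) (roots : List ℕ) (r : ℕ) (size : Fin (r + 1) → ℕ)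
    (horb : ∀ l ≤ r, MulAction.orbit H (p (nthN roots l)) = p '' {c | Vc E n c ∧ Lab c = l})
    (hcard : ∀ l : Fin (r + 1), {c | Vc E n c ∧ Lab c = l}.ncard = size l)
    (hlt : ∀ c, Vc E n c → Lab c ≤ r) (hL0 : Lab 0 = 0) (h1 : size 0 = 1)
    (hprim : ∀ S : Finset (Fin (r + 1)), 0 ∈ S → (∑ l ∈ S, size l) ∣ n →
      S = {0} ∨ S = Finset.univ) (hn : H.index = n) (hn1 : 1 < n)
    (q : ℕ) (hq : q.Prime) {m : ℕ} (hm : Nat.card Γ = n * m) (hqm : ¬ q ∣ m) (u : Γ)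
    (hu : u ^ q = 1) (hcol : ∀ N : Subgroup Γ, N.Normal → u ∈ N → N = ⊤) : IsSimpleGroup Γ := by
  classical
  haveI : Finite {c // Vc E n c} := Finite.of_injective _ h2.1
  have hX : Nat.card {c // Vc E n c} = n := by
    rw [Nat.card_congr (Equiv.ofBijective _ h2), ← Subgroup.index, hn]
  haveI : Nontrivial Γ := by
    by_contra h
    rw [not_nontrivial_iff_subsingleton] at h
    have h4 : Nat.card (Γ ⧸ H) ≤ Nat.card Γ := Nat.card_le_card_of_surjective _ QuotientGroup.mk_surjective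
    rw [Nat.card_of_subsingleton (1 : Γ)] at h4
    have : Nat.card (Γ ⧸ H) = n := hn
    omega
  have hinv : ∀ (c : {c // Vc E n c}), Lab c.1 < r + 1 := fun c => Nat.lt_succ_of_le (hlt c.1 c.2)
  refine simple_thm φ hinj ⟨0, z0⟩ htr (fun c => ⟨Lab c.1, hinv c⟩) size ?_ ?_ h1 ?_ ?_ q hq
    (by rw [hX]; exact hm) hqm u hu hcol
  · intro l
    rw [← hcard l]
    have : {c | Vc E n c ∧ Lab c = l} = Subtype.val '' {x : {c // Vc E n c} | (⟨Lab x.1, hinv x⟩ : Fin (r + 1)) = l} := by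
      ext c
      constructor
      · rintro ⟨hc, hl⟩
        exact ⟨⟨c, hc⟩, Fin.ext hl, rfl⟩
      · rintro ⟨x, hl, rfl⟩
        exact ⟨x.2, congrArg Fin.val hl⟩
    rw [this, Set.ncard_image_of_injective _ Subtype.val_injective]
  · exact Fin.ext hL0
  · intro x y hxy
    have hl : Lab x.1 = Lab y.1 := congrArg Fin.val hxy
    have hx : p x.1 ∈ MulAction.orbit H (p (nthN roots (Lab x.1))) := by
      rw [horb _ (hlt _ x.2)]
      exact ⟨x.1, ⟨x.2, rfl⟩, rfl⟩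
    have hy : p y.1 ∈ MulAction.orbit H (p (nthN roots (Lab x.1))) := by
      rw [horb _ (hlt _ x.2)]
      exact ⟨y.1, ⟨y.2, hl.symm⟩, rfl⟩
    have hxy : p y.1 ∈ MulAction.orbit H (p x.1) := by
      have e1 := MulAction.orbit_eq_iff.2 hx
      rw [e1]
      exact hy
    obtain ⟨g, hg⟩ := hxy
    refine ⟨g, ?_, ?_⟩
    · apply h2.1
      simp only
      rw [h3, hp0]
      show ((g.1 * 1 : Γ) : Γ ⧸ H) = _
      rw [mul_one, eq_comm, QuotientGroup.eq]
      simp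
    · apply h2.1
      simp only
      rw [h3]
      exact hg
  · intro S hS hdvd
    rw [hX] at hdvd
    exact hprim S hS hdvd

end Cfsg.Agent.H5TC
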