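import Cfsg.Agent.Lib.H5TC8
import Cfsg.Prelude.Def_SporadicB

/-!
Double covers and pairs of representations.
-/

set_option autoImplicit false
set_option linter.style.haveILetI false

namespace Cfsg.Agent.H5TC

theorem central_of_card_two {H : Type*} [Group H] (N : Subgroup H) [hN : N.Normal]
    (h2 : Nat.card N = 2) : N ≤ Subgroup.center H := by
  classical
  haveI : Finite N := Nat.finite_of_card_ne_zero (by rw [h2]; norm_num)
  intro g hg
  rw [Subgroup.mem_center_iff]
  intro x
  rcases eq_or_ne g 1 with rfl | hg1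
  · simp
  · have h1 : x * g * x⁻¹ ∈ N := hN.conj_mem g hg x
    have h3 : x * g * x⁻¹ ≠ 1 := by
      intro h
      apply hg1
      have : g = x⁻¹ * (x * g * x⁻¹) * x := by group
      rw [this, h]; group
    have h4 : x * g * x⁻¹ = g := by
      by_contra hne
      have h5 : ({(1 : N), ⟨g, hg⟩, ⟨x * g * x⁻¹, h1⟩} : Finset N).card ≤ Nat.card N := by
        letI := Fintype.ofFinite N
        rw [Nat.card_eq_fintype_card]
        exact Finset.card_le_univ _
      rw [h2, Finset.card_insert_of_notMem, Finset.card_insert_of_notMem, Finset.card_singleton] at h5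
      · omega
      · simp only [Finset.mem_singleton, Subtype.mk.injEq]
        exact fun h => hne h.symm
      · simp only [Finset.mem_insert, Finset.mem_singleton, not_or]
        constructor
        · intro h
          exact hg1 (congrArg Subtype.val h).symm
        · intro h
          exact h3 (congrArg Subtype.val h).symm
    calc x * g = x * g * x⁻¹ * x := by group
      _ = g * x := by rw [h4]

/-- Non-split double covers from a homomorphism. -/
theorem nonsplit_of {H K : Type*} [Group H] [Group K] (ψ : H →* K) (hs : Function.Surjective ψ)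
    (hker : Nat.card ψ.ker = 2) (hK : Subgroup.center K = ⊥)
    (hL : ∀ L : Subgroup H, L.index ≠ 2) : Cfsg.IsNonsplitDoubleCover H K := by
  have hc : Subgroup.center H = ψ.ker := by
    apply le_antisymm
    · intro g hg
      rw [MonoidHom.mem_ker, ← Subgroup.mem_bot, ← hK, Subgroup.mem_center_iff]
      intro k
      obtain ⟨x, rfl⟩ := hs k
      rw [← map_mul, ← map_mul, Subgroup.mem_center_iff.1 hg x]
    · exact central_of_card_two _ hker
  refine ⟨by rw [hc, hker], ?_, ?_⟩
  · exact ⟨(QuotientGroup.quotientMulEquivOfEq hc).trans (QuotientGroup.quotientKerEquivOfSurjective ψ hs)⟩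
  · intro L hcomp
    apply hL L
    have := hcomp.index_eq_card
    rw [this, hc, hker]

theorem center_simple {G : Type*} [Group G] (h : IsSimpleGroup G) (h2 : ∃ a b : G, a * b ≠ b * a) :
    Subgroup.center G = ⊥ := by
  haveI := h
  rcases IsSimpleGroup.eq_bot_or_eq_top_of_normal (Subgroup.center G) inferInstance with h1 | h1
  · exact h1
  · exfalso
    obtain ⟨a, b, hab⟩ := h2
    apply hab
    have : b ∈ Subgroup.center G := by rw [h1]; trivial
    exact Subgroup.mem_center_iff.1 this a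

/-- From a pair of representations to a homomorphism. -/
theorem pair_hom {G1 G2 : Type*} [Group G1] [Group G2] (γ1 : ℕ → G1) (γ2 : ℕ → G2) (ls : List ℕ)
    {N : ℕ} (hD : Nat.card (Kof (fun y => (γ1 y, γ2 y)) ls) ≤ N)
    (hD0 : Nat.card (Kof (fun y => (γ1 y, γ2 y)) ls) ≠ 0) (h1 : Nat.card (Kof γ1 ls) = N) :
    ∃ ψ : Kof γ1 ls →* G2, ∀ y (hy : y ∈ ls), ψ ⟨γ1 y, Kof_mem γ1 hy⟩ = γ2 y := by
  set D := Kof (fun y => (γ1 y, γ2 y)) ls with hDdef
  haveI : Finite D := Nat.finite_of_card_ne_zero hD0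
  have hmap : D.map (MonoidHom.fst G1 G2) = Kof γ1 ls := by
    rw [hDdef]
    unfold Kof
    rw [MonoidHom.map_closure]
    congr 1
    ext g
    constructor
    · rintro ⟨_, ⟨y, hy, rfl⟩, rfl⟩
      exact ⟨y, hy, rfl⟩
    · rintro ⟨y, hy, rfl⟩
      exact ⟨_, ⟨y, hy, rfl⟩, rfl⟩
  have hmem : ∀ d : D, (d : G1 × G2).1 ∈ Kof γ1 ls := by
    intro d
    rw [← hmap]
    exact ⟨d, d.2, rfl⟩
  let π : D →* Kof γ1 ls := ((MonoidHom.fst G1 G2).comp D.subtype).codRestrict _ hmem
  have hπs : Function.Surjective π := by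
    rintro ⟨g, hg⟩
    have hg' := hg
    rw [← hmap] at hg'
    obtain ⟨d, hd, rfl⟩ := hg'
    exact ⟨⟨d, hd⟩, rfl⟩
  have hcard : Nat.card D = Nat.card (Kof γ1 ls) := by
    apply le_antisymm
    · rw [h1]; exact hD
    · exact Nat.card_le_card_of_surjective π hπs
  have hbij : Function.Bijective π := by
    rw [Nat.bijective_iff_surjective_and_card]
    exact ⟨hπs, hcard⟩
  let e := MulEquiv.ofBijective π hbij
  refine ⟨((MonoidHom.snd G1 G2).comp D.subtype).comp e.symm.toMonoidHom, ?_⟩
  intro y hy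
  have : e.symm ⟨γ1 y, Kof_mem γ1 hy⟩ = ⟨(γ1 y, γ2 y), Kof_mem (fun y => (γ1 y, γ2 y)) hy⟩ := by
    rw [MulEquiv.symm_apply_eq]
    rfl
  show ((e.symm ⟨γ1 y, Kof_mem γ1 hy⟩ : D) : G1 × G2).2 = γ2 y
  rw [this]

theorem wd_prod {G1 G2 : Type*} [Group G1] [Group G2] (γ1 : ℕ → G1) (γ2 : ℕ → G2) (w : List ℕ) :
    wd (fun y => (γ1 y, γ2 y)) w = (wd γ1 w, wd γ2 w) := by
  induction w with
  | nil => rfl
  | cons a w ih => rw [wd_cons, wd_cons, wd_cons, ih]; rfl

end Cfsg.Agent.H5TC
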