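import Cfsg.Agent.Lib.H5TC5

set_option autoImplicit false
set_option maxRecDepth 1000000
set_option maxHeartbeats 0
set_option Elab.async false

namespace Cfsg.Agent.H5TC.D5_16

open Cfsg.Agent.H5TC

/-- number of vertices -/
abbrev n : ℕ := 16
abbrev k : ℕ := 5
abbrev E : ℕ := 16
abbrev En : ℕ := 256
noncomputable def t0 : ℕ := 0xe000f000d000c000b000a00090006000700080004000500020003000100000
noncomputable def f0 (c : ℕ) : ℕ := Nat.land (Nat.shiftRight t0 c) 65535
noncomputable def t1 : ℕ := 0xf000d000e000c000b000a00080009000500060007000400030001000200000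
noncomputable def f1 (c : ℕ) : ℕ := Nat.land (Nat.shiftRight t1 c) 65535
noncomputable def t2 : ℕ := 0xf000e000c000d0009000a000b0008000700060003000200050004000100000
noncomputable def f2 (c : ℕ) : ℕ := Nat.land (Nat.shiftRight t2 c) 65535
noncomputable def t3 : ℕ := 0xf000e000d000a000b000c00070005000900040008000600030002000100000
noncomputable def f3 (c : ℕ) : ℕ := Nat.land (Nat.shiftRight t3 c) 65535
noncomputable def t4 : ℕ := 0xf000e000b0009000d0007000c0008000a00060005000400030002000000010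
noncomputable def f4 (c : ℕ) : ℕ := Nat.land (Nat.shiftRight t4 c) 65535
noncomputable def T : ℕ → ℕ → ℕ
  | 0 => f0
  | 1 => f1
  | 2 => f2
  | 3 => f3
  | 4 => f4
  | _ => f0
def inv : ℕ → ℕ
  | 0 => 0
  | 1 => 1
  | 2 => 2
  | 3 => 3
  | 4 => 4
  | y => y
noncomputable def tpv : ℕ := 0xe000d000b00090009000700070005000500040003000200020001000000000
noncomputable def PV (c : ℕ) : ℕ := Nat.land (Nat.shiftRight tpv c) 65535
noncomputable def tpx : ℕ := 0x100040004000200040003000300010003000200020000000100040000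
noncomputable def PX (c : ℕ) : ℕ := Nat.land (Nat.shiftRight tpx c) 65535
/-- relators -/
def rels : List (List ℕ) := [[0, 1, 0, 1, 0, 1], [0, 2, 0, 2], [0, 3, 0, 3], [0, 4, 0, 4], [1, 2, 1, 2, 1, 2], [1, 3, 1, 3], [1, 4, 1, 4, 1, 4], [2, 3, 2, 3, 2, 3], [2, 4, 2, 4], [3, 4, 3, 4]]
/-- trivial relators -/
def relsT : List (List ℕ) := [[0, 0], [1, 1], [2, 2], [3, 3], [4, 4]]
/-- subgroup words -/
def subw : List (List ℕ) := [[0], [1], [2], [3]]
/-- further subgroup words -/
def seeds : List (List ℕ) := []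
noncomputable def cA0 (i : ℕ) : Bool := chkA 16 256 f0 f0 (Nat.mul 16 i)
theorem hA0_0 : all2 cA0 4 0 = true := by decide +kernel
theorem hA0 : ∀ i < 16, cA0 i = true := by
  have h0 : ∀ i < 0, cA0 i = true := fun i hi => absurd hi (Nat.not_lt_zero i)
  have h1 : ∀ i < 16, cA0 i = true := range_step h0 hA0_0 (by norm_num)
  exact h1
noncomputable def cA1 (i : ℕ) : Bool := chkA 16 256 f1 f1 (Nat.mul 16 i)
theorem hA1_0 : all2 cA1 4 0 = true := by decide +kernel
theorem hA1 : ∀ i < 16, cA1 i = true := by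
  have h0 : ∀ i < 0, cA1 i = true := fun i hi => absurd hi (Nat.not_lt_zero i)
  have h1 : ∀ i < 16, cA1 i = true := range_step h0 hA1_0 (by norm_num)
  exact h1
noncomputable def cA2 (i : ℕ) : Bool := chkA 16 256 f2 f2 (Nat.mul 16 i)
theorem hA2_0 : all2 cA2 4 0 = true := by decide +kernel
theorem hA2 : ∀ i < 16, cA2 i = true := by
  have h0 : ∀ i < 0, cA2 i = true := fun i hi => absurd hi (Nat.not_lt_zero i)
  have h1 : ∀ i < 16, cA2 i = true := range_step h0 hA2_0 (by norm_num)
  exact h1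
noncomputable def cA3 (i : ℕ) : Bool := chkA 16 256 f3 f3 (Nat.mul 16 i)
theorem hA3_0 : all2 cA3 4 0 = true := by decide +kernel
theorem hA3 : ∀ i < 16, cA3 i = true := by
  have h0 : ∀ i < 0, cA3 i = true := fun i hi => absurd hi (Nat.not_lt_zero i)
  have h1 : ∀ i < 16, cA3 i = true := range_step h0 hA3_0 (by norm_num)
  exact h1
noncomputable def cA4 (i : ℕ) : Bool := chkA 16 256 f4 f4 (Nat.mul 16 i)
theorem hA4_0 : all2 cA4 4 0 = true := by decide +kernel
theorem hA4 : ∀ i < 16, cA4 i = true := by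
  have h0 : ∀ i < 0, cA4 i = true := fun i hi => absurd hi (Nat.not_lt_zero i)
  have h1 : ∀ i < 16, cA4 i = true := range_step h0 hA4_0 (by norm_num)
  exact h1
theorem inv_lt : ∀ y < k, inv y < k := by decide
theorem inv_inv : ∀ y < k, inv (inv y) = y := by decide
theorem hA : ∀ y < k, ∀ c, Vc E n c → Vc E n (T y c) ∧ T (inv y) (T y c) = c := by
  intro y hy c hc
  obtain ⟨i, hi, rfl⟩ := hc
  have hy' : y < 5 := hy
  interval_cases y
  · exact chkA_spec (E := 16) (n := 16) (hA0 i hi)
  · exact chkA_spec (E := 16) (n := 16) (hA1 i hi)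
  · exact chkA_spec (E := 16) (n := 16) (hA2 i hi)
  · exact chkA_spec (E := 16) (n := 16) (hA3 i hi)
  · exact chkA_spec (E := 16) (n := 16) (hA4 i hi)
theorem tab : Tab k inv T (Vc E n) where
  inv_lt := inv_lt
  inv_inv := inv_inv
  maps := fun y hy c hc => (hA y hy c hc).1
  cancel := fun y hy c hc => (hA y hy c hc).2
  zero := ⟨0, by decide, rfl⟩
end Cfsg.Agent.H5TC.D5_16
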