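import Cfsg.Agent.Lib.H5TC5

set_option autoImplicit false
set_option maxRecDepth 1000000
set_option maxHeartbeats 0
set_option Elab.async false

namespace Cfsg.Agent.H5TC.E6_27

open Cfsg.Agent.H5TC

/-- number of vertices -/
abbrev n : ℕ := 27
abbrev k : ℕ := 6
abbrev E : ℕ := 16
abbrev En : ℕ := 432
noncomputable def t0 : ℕ := 0x1a0019001800170014001500160012001300100011000c000b000d000f000e000a00090008000700060005000400030002000000010
noncomputable def f0 (c : ℕ) : ℕ := Nat.land (Nat.shiftRight t0 c) 65535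
noncomputable def t1 : ℕ := 0x1a001900180016001700130014001500120011000d000f000e0010000a0009000c000b0008000700060005000400030001000200000
noncomputable def f1 (c : ℕ) : ℕ := Nat.land (Nat.shiftRight t1 c) 65535
noncomputable def t2 : ℕ := 0x1a0019001700180016001500140011001000130012000f000e000d000c000b00080007000a000900060005000400020003000100000
noncomputable def f2 (c : ℕ) : ℕ := Nat.land (Nat.shiftRight t2 c) 65535
noncomputable def t3 : ℕ := 0x1a00180019001700160015001400130012000f000c0011000e000a0010000b000d00090008000500060007000300040002000100000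
noncomputable def f3 (c : ℕ) : ℕ := Nat.land (Nat.shiftRight t3 c) 65535
noncomputable def t4 : ℕ := 0x19001a001800170016001500140013001200110010000e000f000d000b000c0009000a0007000800040005000600030002000100000
noncomputable def f4 (c : ℕ) : ℕ := Nat.land (Nat.shiftRight t4 c) 65535
noncomputable def t5 : ℕ := 0x1a0019001800150013001700120016001400110010000f000e000d000c000b000a00090006000400080003000700050002000100000
noncomputable def f5 (c : ℕ) : ℕ := Nat.land (Nat.shiftRight t5 c) 65535
noncomputable def T : ℕ → ℕ → ℕ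
  | 0 => f0
  | 1 => f1
  | 2 => f2
  | 3 => f3
  | 4 => f4
  | 5 => f5
  | _ => f0
def inv : ℕ → ℕ
  | 0 => 0
  | 1 => 1
  | 2 => 2
  | 3 => 3
  | 4 => 4
  | 5 => 5
  | y => y
noncomputable def tpv : ℕ := 0x1900180017001500130013001200110010000f000c000c000b000a000a0009000800070006000400040003000300020001000000000
noncomputable def PV (c : ℕ) : ℕ := Nat.land (Nat.shiftRight tpv c) 65535
noncomputable def tpx : ℕ := 0x400030002000500050001000500020002000300030000000000030001000100020002000500050004000500030002000100000000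
noncomputable def PX (c : ℕ) : ℕ := Nat.land (Nat.shiftRight tpx c) 65535
/-- relators -/
def rels : List (List ℕ) := [[0, 1, 0, 1, 0, 1], [0, 2, 0, 2], [0, 3, 0, 3], [0, 4, 0, 4], [0, 5, 0, 5], [1, 2, 1, 2, 1, 2], [1, 3, 1, 3], [1, 4, 1, 4], [1, 5, 1, 5], [2, 3, 2, 3, 2, 3], [2, 4, 2, 4], [2, 5, 2, 5, 2, 5], [3, 4, 3, 4, 3, 4], [3, 5, 3, 5], [4, 5, 4, 5]]
/-- trivial relators -/
def relsT : List (List ℕ) := [[0, 0], [1, 1], [2, 2], [3, 3], [4, 4], [5, 5]]
/-- subgroup words -/
def subw : List (List ℕ) := [[1], [2], [3], [4], [5]]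
/-- further subgroup words -/
def seeds : List (List ℕ) := []
noncomputable def cA0 (i : ℕ) : Bool := chkA 16 432 f0 f0 (Nat.mul 16 i)
theorem hA0_0 : all2 cA0 4 0 = true := by decide +kernel
theorem hA0_1 : all2 cA0 3 16 = true := by decide +kernel
theorem hA0_2 : all2 cA0 1 24 = true := by decide +kernel
theorem hA0_3 : all2 cA0 0 26 = true := by decide +kernel
theorem hA0 : ∀ i < 27, cA0 i = true := by
  have h0 : ∀ i < 0, cA0 i = true := fun i hi => absurd hi (Nat.not_lt_zero i)
  have h1 : ∀ i < 16, cA0 i = true := range_step h0 hA0_0 (by norm_num)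
  have h2 : ∀ i < 24, cA0 i = true := range_step h1 hA0_1 (by norm_num)
  have h3 : ∀ i < 26, cA0 i = true := range_step h2 hA0_2 (by norm_num)
  have h4 : ∀ i < 27, cA0 i = true := range_step h3 hA0_3 (by norm_num)
  exact h4
noncomputable def cA1 (i : ℕ) : Bool := chkA 16 432 f1 f1 (Nat.mul 16 i)
theorem hA1_0 : all2 cA1 4 0 = true := by decide +kernel
theorem hA1_1 : all2 cA1 3 16 = true := by decide +kernel
theorem hA1_2 : all2 cA1 1 24 = true := by decide +kernel
theorem hA1_3 : all2 cA1 0 26 = true := by decide +kernel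
theorem hA1 : ∀ i < 27, cA1 i = true := by
  have h0 : ∀ i < 0, cA1 i = true := fun i hi => absurd hi (Nat.not_lt_zero i)
  have h1 : ∀ i < 16, cA1 i = true := range_step h0 hA1_0 (by norm_num)
  have h2 : ∀ i < 24, cA1 i = true := range_step h1 hA1_1 (by norm_num)
  have h3 : ∀ i < 26, cA1 i = true := range_step h2 hA1_2 (by norm_num)
  have h4 : ∀ i < 27, cA1 i = true := range_step h3 hA1_3 (by norm_num)
  exact h4
noncomputable def cA2 (i : ℕ) : Bool := chkA 16 432 f2 f2 (Nat.mul 16 i)
theorem hA2_0 : all2 cA2 4 0 = true := by decide +kernel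
theorem hA2_1 : all2 cA2 3 16 = true := by decide +kernel
theorem hA2_2 : all2 cA2 1 24 = true := by decide +kernel
theorem hA2_3 : all2 cA2 0 26 = true := by decide +kernel
theorem hA2 : ∀ i < 27, cA2 i = true := by
  have h0 : ∀ i < 0, cA2 i = true := fun i hi => absurd hi (Nat.not_lt_zero i)
  have h1 : ∀ i < 16, cA2 i = true := range_step h0 hA2_0 (by norm_num)
  have h2 : ∀ i < 24, cA2 i = true := range_step h1 hA2_1 (by norm_num)
  have h3 : ∀ i < 26, cA2 i = true := range_step h2 hA2_2 (by norm_num)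
  have h4 : ∀ i < 27, cA2 i = true := range_step h3 hA2_3 (by norm_num)
  exact h4
noncomputable def cA3 (i : ℕ) : Bool := chkA 16 432 f3 f3 (Nat.mul 16 i)
theorem hA3_0 : all2 cA3 4 0 = true := by decide +kernel
theorem hA3_1 : all2 cA3 3 16 = true := by decide +kernel
theorem hA3_2 : all2 cA3 1 24 = true := by decide +kernel
theorem hA3_3 : all2 cA3 0 26 = true := by decide +kernel
theorem hA3 : ∀ i < 27, cA3 i = true := by
  have h0 : ∀ i < 0, cA3 i = true := fun i hi => absurd hi (Nat.not_lt_zero i)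
  have h1 : ∀ i < 16, cA3 i = true := range_step h0 hA3_0 (by norm_num)
  have h2 : ∀ i < 24, cA3 i = true := range_step h1 hA3_1 (by norm_num)
  have h3 : ∀ i < 26, cA3 i = true := range_step h2 hA3_2 (by norm_num)
  have h4 : ∀ i < 27, cA3 i = true := range_step h3 hA3_3 (by norm_num)
  exact h4
noncomputable def cA4 (i : ℕ) : Bool := chkA 16 432 f4 f4 (Nat.mul 16 i)
theorem hA4_0 : all2 cA4 4 0 = true := by decide +kernel
theorem hA4_1 : all2 cA4 3 16 = true := by decide +kernel
theorem hA4_2 : all2 cA4 1 24 = true := by decide +kernel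
theorem hA4_3 : all2 cA4 0 26 = true := by decide +kernel
theorem hA4 : ∀ i < 27, cA4 i = true := by
  have h0 : ∀ i < 0, cA4 i = true := fun i hi => absurd hi (Nat.not_lt_zero i)
  have h1 : ∀ i < 16, cA4 i = true := range_step h0 hA4_0 (by norm_num)
  have h2 : ∀ i < 24, cA4 i = true := range_step h1 hA4_1 (by norm_num)
  have h3 : ∀ i < 26, cA4 i = true := range_step h2 hA4_2 (by norm_num)
  have h4 : ∀ i < 27, cA4 i = true := range_step h3 hA4_3 (by norm_num)
  exact h4
noncomputable def cA5 (i : ℕ) : Bool := chkA 16 432 f5 f5 (Nat.mul 16 i)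
theorem hA5_0 : all2 cA5 4 0 = true := by decide +kernel
theorem hA5_1 : all2 cA5 3 16 = true := by decide +kernel
theorem hA5_2 : all2 cA5 1 24 = true := by decide +kernel
theorem hA5_3 : all2 cA5 0 26 = true := by decide +kernel
theorem hA5 : ∀ i < 27, cA5 i = true := by
  have h0 : ∀ i < 0, cA5 i = true := fun i hi => absurd hi (Nat.not_lt_zero i)
  have h1 : ∀ i < 16, cA5 i = true := range_step h0 hA5_0 (by norm_num)
  have h2 : ∀ i < 24, cA5 i = true := range_step h1 hA5_1 (by norm_num)
  have h3 : ∀ i < 26, cA5 i = true := range_step h2 hA5_2 (by norm_num)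
  have h4 : ∀ i < 27, cA5 i = true := range_step h3 hA5_3 (by norm_num)
  exact h4
theorem inv_lt : ∀ y < k, inv y < k := by decide
theorem inv_inv : ∀ y < k, inv (inv y) = y := by decide
theorem hA : ∀ y < k, ∀ c, Vc E n c → Vc E n (T y c) ∧ T (inv y) (T y c) = c := by
  intro y hy c hc
  obtain ⟨i, hi, rfl⟩ := hc
  have hy' : y < 6 := hy
  interval_cases y
  · exact chkA_spec (E := 16) (n := 27) (hA0 i hi)
  · exact chkA_spec (E := 16) (n := 27) (hA1 i hi)
  · exact chkA_spec (E := 16) (n := 27) (hA2 i hi)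
  · exact chkA_spec (E := 16) (n := 27) (hA3 i hi)
  · exact chkA_spec (E := 16) (n := 27) (hA4 i hi)
  · exact chkA_spec (E := 16) (n := 27) (hA5 i hi)
theorem tab : Tab k inv T (Vc E n) where
  inv_lt := inv_lt
  inv_inv := inv_inv
  maps := fun y hy c hc => (hA y hy c hc).1
  cancel := fun y hy c hc => (hA y hy c hc).2
  zero := ⟨0, by decide, rfl⟩
end Cfsg.Agent.H5TC.E6_27
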