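import Cfsg.Agent.Lib.H5TCE6_27

set_option autoImplicit false
set_option maxRecDepth 1000000
set_option maxHeartbeats 0
set_option Elab.async false

namespace Cfsg.Agent.H5TC.E6_27

open Cfsg.Agent.H5TC

noncomputable def rt0 : ℕ := 0x63005e005900530009004c0009000800080007000700000000003d000000000033002b002a00220021001b001a0015001000000000
noncomputable def g0 (c : ℕ) : ℕ := Nat.land (Nat.shiftRight rt0 c) 65535
noncomputable def rt1 : ℕ := 0x62005d0058000a000a0000004b0000004300460005003e003400050000000000000000002c00240023001d001c001600000000000b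
noncomputable def g1 (c : ℕ) : ℕ := Nat.land (Nat.shiftRight rt1 c) 65535
noncomputable def rt2 : ℕ := 0x61005c000000000052004f004a0000000000000000003f0036003a0035002d000000000000000000250020001e000000000011000c
noncomputable def g2 (c : ℕ) : ℕ := Nat.land (Nat.shiftRight rt2 c) 65535
noncomputable def rt3 : ℕ := 0x6400000000005700510050004800470040000000000000003b0000000000310000002900300001002800010000000000170012000d
noncomputable def g3 (c : ℕ) : ℕ := Nat.land (Nat.shiftRight rt3 c) 65535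
noncomputable def rt4 : ℕ := 0x5f005a00550054004e004d00450044003c000600060032000400040003000300020002000000270000001f00180013000e
noncomputable def g4 (c : ℕ) : ℕ := Nat.land (Nat.shiftRight rt4 c) 65535
noncomputable def rt5 : ℕ := 0x60005b0056000000000000000000000000004900420041003900380037002f002e002600000000000000000000000000190014000f
noncomputable def g5 (c : ℕ) : ℕ := Nat.land (Nat.shiftRight rt5 c) 65535
noncomputable def R : ℕ → ℕ → ℕ
  | 0 => g0
  | 1 => g1
  | 2 => g2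
  | 3 => g3
  | 4 => g4
  | 5 => g5
  | _ => g0
noncomputable def jt0 : ℕ := 0x500020001000400000004000300000001000000020000000000020000000000010001000300030005000300020001000400000000
noncomputable def j0 (c : ℕ) : ℕ := Nat.land (Nat.shiftRight jt0 c) 65535
def lw0 : List (List ℕ) := [[2, 0, 2], [3, 0, 3], [5, 0, 5], [1, 0, 1, 0, 1], [4, 0, 4]]
def hw0 : List (ℕ × ℕ × Bool) := [(1, 0, false), (2, 0, false), (4, 0, false), (0, 0, false), (3, 0, false)]
def lb0 : List (List ℕ × List ℕ) := []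
def hb0 : List (ℕ × Bool) := []
noncomputable def cB0 (i : ℕ) : Bool := chkB T R PV PX j0 0 0 (bcf 0 0) lw0 lb0 (Nat.mul 16 i)
theorem hB0_0 : all2 cB0 4 0 = true := by decide +kernel
theorem hB0_1 : all2 cB0 3 16 = true := by decide +kernel
theorem hB0_2 : all2 cB0 1 24 = true := by decide +kernel
theorem hB0_3 : all2 cB0 0 26 = true := by decide +kernel
theorem hB0 : ∀ i < 27, cB0 i = true := by
  have h0 : ∀ i < 0, cB0 i = true := fun i hi => absurd hi (Nat.not_lt_zero i)
  have h1 : ∀ i < 16, cB0 i = true := range_step h0 hB0_0 (by norm_num)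
  have h2 : ∀ i < 24, cB0 i = true := range_step h1 hB0_1 (by norm_num)
  have h3 : ∀ i < 26, cB0 i = true := range_step h2 hB0_2 (by norm_num)
  have h4 : ∀ i < 27, cB0 i = true := range_step h3 hB0_3 (by norm_num)
  exact h4
theorem hw0' : wsOK2 inv (rels ++ relsT) 0 lw0 hw0 = true := by decide +kernel
theorem hb0' : bsOK inv (subw ++ seeds) 0 lb0 hb0 = true := by decide +kernel
theorem lt0 : ltOK k lw0 = true ∧ ltOK k (lb0.map Prod.fst) = true ∧ ltOK k (lb0.map Prod.snd) = true := by decide +kernel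
noncomputable def jt1 : ℕ := 0x500020003000000010000000100000003000400000004000400020000000000000000000100010005000100020003000000000006
noncomputable def j1 (c : ℕ) : ℕ := Nat.land (Nat.shiftRight jt1 c) 65535
def lw1 : List (List ℕ) := [[5, 1, 5], [3, 1, 3], [2, 1, 2, 1, 2], [0, 1, 0, 1, 0], [4, 1, 4]]
def hw1 : List (ℕ × ℕ × Bool) := [(8, 0, false), (6, 0, false), (5, 0, false), (0, 1, false), (7, 0, false)]
def lb1 : List (List ℕ × List ℕ) := [([], [])]
def hb1 : List (ℕ × Bool) := [(0, false)]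
noncomputable def cB1 (i : ℕ) : Bool := chkB T R PV PX j1 1 1 (bcf 1 1) lw1 lb1 (Nat.mul 16 i)
theorem hB1_0 : all2 cB1 4 0 = true := by decide +kernel
theorem hB1_1 : all2 cB1 3 16 = true := by decide +kernel
theorem hB1_2 : all2 cB1 1 24 = true := by decide +kernel
theorem hB1_3 : all2 cB1 0 26 = true := by decide +kernel
theorem hB1 : ∀ i < 27, cB1 i = true := by
  have h0 : ∀ i < 0, cB1 i = true := fun i hi => absurd hi (Nat.not_lt_zero i)
  have h1 : ∀ i < 16, cB1 i = true := range_step h0 hB1_0 (by norm_num)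
  have h2 : ∀ i < 24, cB1 i = true := range_step h1 hB1_1 (by norm_num)
  have h3 : ∀ i < 26, cB1 i = true := range_step h2 hB1_2 (by norm_num)
  have h4 : ∀ i < 27, cB1 i = true := range_step h3 hB1_3 (by norm_num)
  exact h4
theorem hw1' : wsOK2 inv (rels ++ relsT) 1 lw1 hw1 = true := by decide +kernel
theorem hb1' : bsOK inv (subw ++ seeds) 1 lb1 hb1 = true := by decide +kernel
theorem lt1 : ltOK k lw1 = true ∧ ltOK k (lb1.map Prod.fst) = true ∧ ltOK k (lb1.map Prod.snd) = true := by decide +kernel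
noncomputable def jt2 : ℕ := 0x500020000000000030004000300000000000000000001000100020004000400000000000000000005000300020000000000010006
noncomputable def j2 (c : ℕ) : ℕ := Nat.land (Nat.shiftRight jt2 c) 65535
def lw2 : List (List ℕ) := [[0, 2, 0], [3, 2, 3, 2, 3], [5, 2, 5, 2, 5], [1, 2, 1, 2, 1], [4, 2, 4]]
def hw2 : List (ℕ × ℕ × Bool) := [(1, 1, false), (9, 0, false), (11, 0, false), (5, 1, false), (10, 0, false)]
def lb2 : List (List ℕ × List ℕ) := [([], [])]
def hb2 : List (ℕ × Bool) := [(1, false)]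
noncomputable def cB2 (i : ℕ) : Bool := chkB T R PV PX j2 2 2 (bcf 2 2) lw2 lb2 (Nat.mul 16 i)
theorem hB2_0 : all2 cB2 4 0 = true := by decide +kernel
theorem hB2_1 : all2 cB2 3 16 = true := by decide +kernel
theorem hB2_2 : all2 cB2 1 24 = true := by decide +kernel
theorem hB2_3 : all2 cB2 0 26 = true := by decide +kernel
theorem hB2 : ∀ i < 27, cB2 i = true := by
  have h0 : ∀ i < 0, cB2 i = true := fun i hi => absurd hi (Nat.not_lt_zero i)
  have h1 : ∀ i < 16, cB2 i = true := range_step h0 hB2_0 (by norm_num)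
  have h2 : ∀ i < 24, cB2 i = true := range_step h1 hB2_1 (by norm_num)
  have h3 : ∀ i < 26, cB2 i = true := range_step h2 hB2_2 (by norm_num)
  have h4 : ∀ i < 27, cB2 i = true := range_step h3 hB2_3 (by norm_num)
  exact h4
theorem hw2' : wsOK2 inv (rels ++ relsT) 2 lw2 hw2 = true := by decide +kernel
theorem hb2' : bsOK inv (subw ++ seeds) 2 lb2 hb2 = true := by decide +kernel
theorem lt2 : ltOK k lw2 = true ∧ ltOK k (lb2.map Prod.fst) = true ∧ ltOK k (lb2.map Prod.snd) = true := by decide +kernel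
noncomputable def jt3 : ℕ := 0x300000000000100010002000100040004000000000000000500000000000200000004000300000003000100000000000200050006
noncomputable def j3 (c : ℕ) : ℕ := Nat.land (Nat.shiftRight jt3 c) 65535
def lw3 : List (List ℕ) := [[5, 3, 5], [1, 3, 1], [4, 3, 4, 3, 4], [2, 3, 2, 3, 2], [0, 3, 0]]
def hw3 : List (ℕ × ℕ × Bool) := [(13, 0, false), (6, 1, false), (12, 0, false), (9, 1, false), (2, 1, false)]
def lb3 : List (List ℕ × List ℕ) := [([], [])]
def hb3 : List (ℕ × Bool) := [(2, false)]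
noncomputable def cB3 (i : ℕ) : Bool := chkB T R PV PX j3 3 3 (bcf 3 3) lw3 lb3 (Nat.mul 16 i)
theorem hB3_0 : all2 cB3 4 0 = true := by decide +kernel
theorem hB3_1 : all2 cB3 3 16 = true := by decide +kernel
theorem hB3_2 : all2 cB3 1 24 = true := by decide +kernel
theorem hB3_3 : all2 cB3 0 26 = true := by decide +kernel
theorem hB3 : ∀ i < 27, cB3 i = true := by
  have h0 : ∀ i < 0, cB3 i = true := fun i hi => absurd hi (Nat.not_lt_zero i)
  have h1 : ∀ i < 16, cB3 i = true := range_step h0 hB3_0 (by norm_num)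
  have h2 : ∀ i < 24, cB3 i = true := range_step h1 hB3_1 (by norm_num)
  have h3 : ∀ i < 26, cB3 i = true := range_step h2 hB3_2 (by norm_num)
  have h4 : ∀ i < 27, cB3 i = true := range_step h3 hB3_3 (by norm_num)
  exact h4
theorem hw3' : wsOK2 inv (rels ++ relsT) 3 lw3 hw3 = true := by decide +kernel
theorem hb3' : bsOK inv (subw ++ seeds) 3 lb3 hb3 = true := by decide +kernel
theorem lt3 : ltOK k lw3 = true ∧ ltOK k (lb3.map Prod.fst) = true ∧ ltOK k (lb3.map Prod.snd) = true := by decide +kernel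
noncomputable def jt4 : ℕ := 0x2000100010003000100020002000400040000000500040000000300000002000000010000000100000002000300050006
noncomputable def j4 (c : ℕ) : ℕ := Nat.land (Nat.shiftRight jt4 c) 65535
def lw4 : List (List ℕ) := [[5, 4, 5], [2, 4, 2], [1, 4, 1], [3, 4, 3, 4, 3], [0, 4, 0]]
def hw4 : List (ℕ × ℕ × Bool) := [(14, 0, false), (10, 1, false), (7, 1, false), (12, 1, false), (3, 1, false)]
def lb4 : List (List ℕ × List ℕ) := [([], [])]
def hb4 : List (ℕ × Bool) := [(3, false)]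
noncomputable def cB4 (i : ℕ) : Bool := chkB T R PV PX j4 4 4 (bcf 4 4) lw4 lb4 (Nat.mul 16 i)
theorem hB4_0 : all2 cB4 4 0 = true := by decide +kernel
theorem hB4_1 : all2 cB4 3 16 = true := by decide +kernel
theorem hB4_2 : all2 cB4 1 24 = true := by decide +kernel
theorem hB4_3 : all2 cB4 0 26 = true := by decide +kernel
theorem hB4 : ∀ i < 27, cB4 i = true := by
  have h0 : ∀ i < 0, cB4 i = true := fun i hi => absurd hi (Nat.not_lt_zero i)
  have h1 : ∀ i < 16, cB4 i = true := range_step h0 hB4_0 (by norm_num)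
  have h2 : ∀ i < 24, cB4 i = true := range_step h1 hB4_1 (by norm_num)
  have h3 : ∀ i < 26, cB4 i = true := range_step h2 hB4_2 (by norm_num)
  have h4 : ∀ i < 27, cB4 i = true := range_step h3 hB4_3 (by norm_num)
  exact h4
theorem hw4' : wsOK2 inv (rels ++ relsT) 4 lw4 hw4 = true := by decide +kernel
theorem hb4' : bsOK inv (subw ++ seeds) 4 lb4 hb4 = true := by decide +kernel
theorem lt4 : ltOK k lw4 = true ∧ ltOK k (lb4.map Prod.fst) = true ∧ ltOK k (lb4.map Prod.snd) = true := by decide +kernel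
noncomputable def jt5 : ℕ := 0x500010004000000000000000000000000000100010002000200010003000300040004000000000000000000000000000300020006
noncomputable def j5 (c : ℕ) : ℕ := Nat.land (Nat.shiftRight jt5 c) 65535
def lw5 : List (List ℕ) := [[3, 5, 3], [0, 5, 0], [1, 5, 1], [2, 5, 2, 5, 2], [4, 5, 4]]
def hw5 : List (ℕ × ℕ × Bool) := [(13, 1, false), (4, 1, false), (8, 1, false), (11, 1, false), (14, 1, false)]
def lb5 : List (List ℕ × List ℕ) := [([], [])]
def hb5 : List (ℕ × Bool) := [(4, false)]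
noncomputable def cB5 (i : ℕ) : Bool := chkB T R PV PX j5 5 5 (bcf 5 5) lw5 lb5 (Nat.mul 16 i)
theorem hB5_0 : all2 cB5 4 0 = true := by decide +kernel
theorem hB5_1 : all2 cB5 3 16 = true := by decide +kernel
theorem hB5_2 : all2 cB5 1 24 = true := by decide +kernel
theorem hB5_3 : all2 cB5 0 26 = true := by decide +kernel
theorem hB5 : ∀ i < 27, cB5 i = true := by
  have h0 : ∀ i < 0, cB5 i = true := fun i hi => absurd hi (Nat.not_lt_zero i)
  have h1 : ∀ i < 16, cB5 i = true := range_step h0 hB5_0 (by norm_num)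
  have h2 : ∀ i < 24, cB5 i = true := range_step h1 hB5_1 (by norm_num)
  have h3 : ∀ i < 26, cB5 i = true := range_step h2 hB5_2 (by norm_num)
  have h4 : ∀ i < 27, cB5 i = true := range_step h3 hB5_3 (by norm_num)
  exact h4
theorem hw5' : wsOK2 inv (rels ++ relsT) 5 lw5 hw5 = true := by decide +kernel
theorem hb5' : bsOK inv (subw ++ seeds) 5 lb5 hb5 = true := by decide +kernel
theorem lt5 : ltOK k lw5 = true ∧ ltOK k (lb5.map Prod.fst) = true ∧ ltOK k (lb5.map Prod.snd) = true := by decide +kernel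
noncomputable def J : ℕ → ℕ → ℕ
  | 0 => j0
  | 1 => j1
  | 2 => j2
  | 3 => j3
  | 4 => j4
  | 5 => j5
  | _ => j0
def LW : ℕ → List (List ℕ)
  | 0 => lw0
  | 1 => lw1
  | 2 => lw2
  | 3 => lw3
  | 4 => lw4
  | 5 => lw5
  | _ => []
def LB : ℕ → List (List ℕ × List ℕ)
  | 0 => lb0
  | 1 => lb1
  | 2 => lb2
  | 3 => lb3
  | 4 => lb4
  | 5 => lb5
  | _ => []
theorem rels_lt : ltOK k (rels ++ relsT) = true := by decide +kernel
theorem bases_lt : ltOK k (subw ++ seeds) = true := by decide +kernel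
theorem hJ : ∀ y < k, ∀ i < n, chkB T R PV PX (J y) y (inv y) (bcf y (inv y)) (LW y) (LB y) (E * i) = true := by
  intro y hy i hi
  have hy' : y < 6 := hy
  interval_cases y
  · exact hB0 i hi
  · exact hB1 i hi
  · exact hB2 i hi
  · exact hB3 i hi
  · exact hB4 i hi
  · exact hB5 i hi
/-- The certificate theorem, given that the further words lie in the subgroup. -/
theorem main0 {Γ X : Type*} [Group Γ] [MulAction Γ X] (γ : ℕ → Γ) (x0 : X)
    (hinv : ∀ y < k, γ (inv y) = (γ y)⁻¹) (hr : ∀ r ∈ rels, wd γ r = 1)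
    (hb : ∀ b ∈ subw ++ seeds, (wd γ b)⁻¹ • x0 = x0) :
    ∃ p : ℕ → X, p 0 = x0 ∧ ∀ y < k, ∀ c, Vc E n c → (γ y)⁻¹ • p c = p (T y c) := by
  have hr' : ∀ r ∈ rels ++ relsT, wd γ r = 1 := by
    intro r h
    rcases List.mem_append.1 h with h | h
    · exact hr r h
    · simp only [relsT, List.mem_cons, List.not_mem_nil, or_false] at h
      rcases h with rfl | rfl | rfl | rfl | rfl | rfl
      · have := hinv 0 (by decide); simp only [wd_cons, wd_nil, mul_one]; exact mul_eq_one_iff_inv_eq.2 (show γ 0 = (γ 0)⁻¹ from this).symm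
      · have := hinv 1 (by decide); simp only [wd_cons, wd_nil, mul_one]; exact mul_eq_one_iff_inv_eq.2 (show γ 1 = (γ 1)⁻¹ from this).symm
      · have := hinv 2 (by decide); simp only [wd_cons, wd_nil, mul_one]; exact mul_eq_one_iff_inv_eq.2 (show γ 2 = (γ 2)⁻¹ from this).symm
      · have := hinv 3 (by decide); simp only [wd_cons, wd_nil, mul_one]; exact mul_eq_one_iff_inv_eq.2 (show γ 3 = (γ 3)⁻¹ from this).symm
      · have := hinv 4 (by decide); simp only [wd_cons, wd_nil, mul_one]; exact mul_eq_one_iff_inv_eq.2 (show γ 4 = (γ 4)⁻¹ from this).symm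
      · have := hinv 5 (by decide); simp only [wd_cons, wd_nil, mul_one]; exact mul_eq_one_iff_inv_eq.2 (show γ 5 = (γ 5)⁻¹ from this).symm
  have hi : ∀ r ∈ rels ++ relsT, ∀ y ∈ r, γ (inv y) = (γ y)⁻¹ := fun r h y hy =>
    hinv y (ltOK_spec _ rels_lt r h y hy)
  have hi2 : ∀ r ∈ subw ++ seeds, ∀ y ∈ r, γ (inv y) = (γ y)⁻¹ := fun r h y hy =>
    hinv y (ltOK_spec _ bases_lt r h y hy)
  refine mc_thm γ x0 (J := J) tab hinv LW LB ?_ ?_ hJ
  · intro y hy
    have hy' : y < 6 := hy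
    interval_cases y
    · exact fun w hw => ⟨wsOK2_spec γ hr' hi 0 lw0 hw0 hw0' w hw, ltOK_spec _ lt0.1 w hw⟩
    · exact fun w hw => ⟨wsOK2_spec γ hr' hi 1 lw1 hw1 hw1' w hw, ltOK_spec _ lt1.1 w hw⟩
    · exact fun w hw => ⟨wsOK2_spec γ hr' hi 2 lw2 hw2 hw2' w hw, ltOK_spec _ lt2.1 w hw⟩
    · exact fun w hw => ⟨wsOK2_spec γ hr' hi 3 lw3 hw3 hw3' w hw, ltOK_spec _ lt3.1 w hw⟩
    · exact fun w hw => ⟨wsOK2_spec γ hr' hi 4 lw4 hw4 hw4' w hw, ltOK_spec _ lt4.1 w hw⟩
    · exact fun w hw => ⟨wsOK2_spec γ hr' hi 5 lw5 hw5 hw5' w hw, ltOK_spec _ lt5.1 w hw⟩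
  · intro y hy
    have hy' : y < 6 := hy
    interval_cases y
    · exact fun w hw => ⟨bsOK_spec γ x0 hb hi2 0 lb0 hb0 hb0' w hw, ltOK_spec _ lt0.2.1 w.1 (List.mem_map.2 ⟨w, hw, rfl⟩), ltOK_spec _ lt0.2.2 w.2 (List.mem_map.2 ⟨w, hw, rfl⟩)⟩
    · exact fun w hw => ⟨bsOK_spec γ x0 hb hi2 1 lb1 hb1 hb1' w hw, ltOK_spec _ lt1.2.1 w.1 (List.mem_map.2 ⟨w, hw, rfl⟩), ltOK_spec _ lt1.2.2 w.2 (List.mem_map.2 ⟨w, hw, rfl⟩)⟩
    · exact fun w hw => ⟨bsOK_spec γ x0 hb hi2 2 lb2 hb2 hb2' w hw, ltOK_spec _ lt2.2.1 w.1 (List.mem_map.2 ⟨w, hw, rfl⟩), ltOK_spec _ lt2.2.2 w.2 (List.mem_map.2 ⟨w, hw, rfl⟩)⟩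
    · exact fun w hw => ⟨bsOK_spec γ x0 hb hi2 3 lb3 hb3 hb3' w hw, ltOK_spec _ lt3.2.1 w.1 (List.mem_map.2 ⟨w, hw, rfl⟩), ltOK_spec _ lt3.2.2 w.2 (List.mem_map.2 ⟨w, hw, rfl⟩)⟩
    · exact fun w hw => ⟨bsOK_spec γ x0 hb hi2 4 lb4 hb4 hb4' w hw, ltOK_spec _ lt4.2.1 w.1 (List.mem_map.2 ⟨w, hw, rfl⟩), ltOK_spec _ lt4.2.2 w.2 (List.mem_map.2 ⟨w, hw, rfl⟩)⟩
    · exact fun w hw => ⟨bsOK_spec γ x0 hb hi2 5 lb5 hb5 hb5' w hw, ltOK_spec _ lt5.2.1 w.1 (List.mem_map.2 ⟨w, hw, rfl⟩), ltOK_spec _ lt5.2.2 w.2 (List.mem_map.2 ⟨w, hw, rfl⟩)⟩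
end Cfsg.Agent.H5TC.E6_27
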