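import Cfsg.Agent.Lib.H5TC5

set_option autoImplicit false
set_option maxRecDepth 1000000
set_option maxHeartbeats 0
set_option Elab.async false

namespace Cfsg.Agent.H5TC.E7_56

open Cfsg.Agent.H5TC

/-- number of vertices -/
abbrev n : ℕ := 56
abbrev k : ℕ := 7
abbrev E : ℕ := 16
abbrev En : ℕ := 896
noncomputable def t0 : ℕ := 0x370036003500340033003000310032002e002f002c002d002800260029002b0024002a002500270023002200210020001f001e001d001c001b001a00190018001700160012001400130015000f00100011000c000d000e000a000b00080009000500060007000400030002000100000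
noncomputable def f0 (c : ℕ) : ℕ := Nat.land (Nat.shiftRight t0 c) 65535
noncomputable def t1 : ℕ := 0x3700360035003400320033002f00300031002e002d0029002b002a002c002500270023002800210026002200240020001f001e001d001c001b001a001900150017001600180011001300120014000e000f0010000b000c000d000a00090006000700080004000500030002000100000
noncomputable def f1 (c : ℕ) : ℕ := Nat.land (Nat.shiftRight t1 c) 65535
noncomputable def t2 : ℕ := 0x370036003500330034003200310030002d002c002f002e002b002a00290028002700260022002400200025001d0023001f001e0021001c001b00180019001a00170014001500160010001200110013000f000e000d000c00090008000b000a000700060005000300040002000100000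
noncomputable def f2 (c : ℕ) : ℕ := Nat.land (Nat.shiftRight t2 c) 65535
noncomputable def t3 : ℕ := 0x370036003400350033003200310030002f002e002b0028002d002a0025002c0027002600290024002300220021001e001f0020001b001a001d001c001600180017001900150014001300120011000d000f000b0010000a000e000c00090008000700060005000400020003000100000
noncomputable def f3 (c : ℕ) : ℕ := Nat.land (Nat.shiftRight t3 c) 65535
noncomputable def t4 : ℕ := 0x370035003600340033003200310030002f002e002d002c002a002b0029002600270028002300240025002000210022001c001e001d001f0017001a00190018001b00130015001000160012000e0014000c0011000d000f000b000a00090008000700060005000400030001000200000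
noncomputable def f4 (c : ℕ) : ℕ := Nat.land (Nat.shiftRight t4 c) 65535
noncomputable def t5 : ℕ := 0x360037003500340033003200310030002f002e002d002c002b002700290028002a002400250026002100220023001d001f001b00200019001e0016001c00140017001a001100180013000f001500100012000e000d000c000b000a00090008000700060005000400030002000000010
noncomputable def f5 (c : ℕ) : ℕ := Nat.land (Nat.shiftRight t5 c) 65535
noncomputable def t6 : ℕ := 0x370036003500340031002f0033002e00320030002d002c002b002a0029002800270026002500240023001f0021001c0022001a001900200016001e001d00180013001b001500140017001200110010000f000e000d000c000b000a00070005000900040008000600030002000100000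
noncomputable def f6 (c : ℕ) : ℕ := Nat.land (Nat.shiftRight t6 c) 65535
noncomputable def T : ℕ → ℕ → ℕ
  | 0 => f0
  | 1 => f1
  | 2 => f2
  | 3 => f3
  | 4 => f4
  | 5 => f5
  | 6 => f6
  | _ => f0
def inv : ℕ → ℕ
  | 0 => 0
  | 1 => 1
  | 2 => 2
  | 3 => 3
  | 4 => 4
  | 5 => 5
  | 6 => 6
  | y => y
noncomputable def tpv : ℕ := 0x360035003400330031002f002f002e002d002c002b0028002800260025002500240023002200210020001f001d001c001c001a00190019001600160016001400130013001100100010000f000e000d000c000b000b000a0009000800070005000500040004000300020001000000000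
noncomputable def PV (c : ℕ) : ℕ := Nat.land (Nat.shiftRight tpv c) 65535
noncomputable def tpx : ℕ := 0x50004000300020006000600010006000200020003000300000000000300010000000100020001000200060002000600040006000600050006000500030005000600040005000400020005000400030004000300010003000200020006000600000006000100020003000400050000
noncomputable def PX (c : ℕ) : ℕ := Nat.land (Nat.shiftRight tpx c) 65535
/-- relators -/
def rels : List (List ℕ) := [[0, 1, 0, 1, 0, 1], [0, 2, 0, 2], [0, 3, 0, 3], [0, 4, 0, 4], [0, 5, 0, 5], [0, 6, 0, 6], [1, 2, 1, 2, 1, 2], [1, 3, 1, 3], [1, 4, 1, 4], [1, 5, 1, 5], [1, 6, 1, 6], [2, 3, 2, 3, 2, 3], [2, 4, 2, 4], [2, 5, 2, 5], [2, 6, 2, 6, 2, 6], [3, 4, 3, 4, 3, 4], [3, 5, 3, 5], [3, 6, 3, 6], [4, 5, 4, 5, 4, 5], [4, 6, 4, 6], [5, 6, 5, 6]]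
/-- trivial relators -/
def relsT : List (List ℕ) := [[0, 0], [1, 1], [2, 2], [3, 3], [4, 4], [5, 5], [6, 6]]
/-- subgroup words -/
def subw : List (List ℕ) := [[0], [1], [2], [3], [4], [6]]
/-- further subgroup words -/
def seeds : List (List ℕ) := []
noncomputable def cA0 (i : ℕ) : Bool := chkA 16 896 f0 f0 (Nat.mul 16 i)
theorem hA0_0 : all2 cA0 5 0 = true := by decide +kernel
theorem hA0_1 : all2 cA0 4 32 = true := by decide +kernel
theorem hA0_2 : all2 cA0 3 48 = true := by decide +kernel
theorem hA0 : ∀ i < 56, cA0 i = true := by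
  have h0 : ∀ i < 0, cA0 i = true := fun i hi => absurd hi (Nat.not_lt_zero i)
  have h1 : ∀ i < 32, cA0 i = true := range_step h0 hA0_0 (by norm_num)
  have h2 : ∀ i < 48, cA0 i = true := range_step h1 hA0_1 (by norm_num)
  have h3 : ∀ i < 56, cA0 i = true := range_step h2 hA0_2 (by norm_num)
  exact h3
noncomputable def cA1 (i : ℕ) : Bool := chkA 16 896 f1 f1 (Nat.mul 16 i)
theorem hA1_0 : all2 cA1 5 0 = true := by decide +kernel
theorem hA1_1 : all2 cA1 4 32 = true := by decide +kernel
theorem hA1_2 : all2 cA1 3 48 = true := by decide +kernel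
theorem hA1 : ∀ i < 56, cA1 i = true := by
  have h0 : ∀ i < 0, cA1 i = true := fun i hi => absurd hi (Nat.not_lt_zero i)
  have h1 : ∀ i < 32, cA1 i = true := range_step h0 hA1_0 (by norm_num)
  have h2 : ∀ i < 48, cA1 i = true := range_step h1 hA1_1 (by norm_num)
  have h3 : ∀ i < 56, cA1 i = true := range_step h2 hA1_2 (by norm_num)
  exact h3
noncomputable def cA2 (i : ℕ) : Bool := chkA 16 896 f2 f2 (Nat.mul 16 i)
theorem hA2_0 : all2 cA2 5 0 = true := by decide +kernel
theorem hA2_1 : all2 cA2 4 32 = true := by decide +kernel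
theorem hA2_2 : all2 cA2 3 48 = true := by decide +kernel
theorem hA2 : ∀ i < 56, cA2 i = true := by
  have h0 : ∀ i < 0, cA2 i = true := fun i hi => absurd hi (Nat.not_lt_zero i)
  have h1 : ∀ i < 32, cA2 i = true := range_step h0 hA2_0 (by norm_num)
  have h2 : ∀ i < 48, cA2 i = true := range_step h1 hA2_1 (by norm_num)
  have h3 : ∀ i < 56, cA2 i = true := range_step h2 hA2_2 (by norm_num)
  exact h3
noncomputable def cA3 (i : ℕ) : Bool := chkA 16 896 f3 f3 (Nat.mul 16 i)
theorem hA3_0 : all2 cA3 5 0 = true := by decide +kernel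
theorem hA3_1 : all2 cA3 4 32 = true := by decide +kernel
theorem hA3_2 : all2 cA3 3 48 = true := by decide +kernel
theorem hA3 : ∀ i < 56, cA3 i = true := by
  have h0 : ∀ i < 0, cA3 i = true := fun i hi => absurd hi (Nat.not_lt_zero i)
  have h1 : ∀ i < 32, cA3 i = true := range_step h0 hA3_0 (by norm_num)
  have h2 : ∀ i < 48, cA3 i = true := range_step h1 hA3_1 (by norm_num)
  have h3 : ∀ i < 56, cA3 i = true := range_step h2 hA3_2 (by norm_num)
  exact h3
noncomputable def cA4 (i : ℕ) : Bool := chkA 16 896 f4 f4 (Nat.mul 16 i)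
theorem hA4_0 : all2 cA4 5 0 = true := by decide +kernel
theorem hA4_1 : all2 cA4 4 32 = true := by decide +kernel
theorem hA4_2 : all2 cA4 3 48 = true := by decide +kernel
theorem hA4 : ∀ i < 56, cA4 i = true := by
  have h0 : ∀ i < 0, cA4 i = true := fun i hi => absurd hi (Nat.not_lt_zero i)
  have h1 : ∀ i < 32, cA4 i = true := range_step h0 hA4_0 (by norm_num)
  have h2 : ∀ i < 48, cA4 i = true := range_step h1 hA4_1 (by norm_num)
  have h3 : ∀ i < 56, cA4 i = true := range_step h2 hA4_2 (by norm_num)
  exact h3
noncomputable def cA5 (i : ℕ) : Bool := chkA 16 896 f5 f5 (Nat.mul 16 i)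
theorem hA5_0 : all2 cA5 5 0 = true := by decide +kernel
theorem hA5_1 : all2 cA5 4 32 = true := by decide +kernel
theorem hA5_2 : all2 cA5 3 48 = true := by decide +kernel
theorem hA5 : ∀ i < 56, cA5 i = true := by
  have h0 : ∀ i < 0, cA5 i = true := fun i hi => absurd hi (Nat.not_lt_zero i)
  have h1 : ∀ i < 32, cA5 i = true := range_step h0 hA5_0 (by norm_num)
  have h2 : ∀ i < 48, cA5 i = true := range_step h1 hA5_1 (by norm_num)
  have h3 : ∀ i < 56, cA5 i = true := range_step h2 hA5_2 (by norm_num)
  exact h3
noncomputable def cA6 (i : ℕ) : Bool := chkA 16 896 f6 f6 (Nat.mul 16 i)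
theorem hA6_0 : all2 cA6 5 0 = true := by decide +kernel
theorem hA6_1 : all2 cA6 4 32 = true := by decide +kernel
theorem hA6_2 : all2 cA6 3 48 = true := by decide +kernel
theorem hA6 : ∀ i < 56, cA6 i = true := by
  have h0 : ∀ i < 0, cA6 i = true := fun i hi => absurd hi (Nat.not_lt_zero i)
  have h1 : ∀ i < 32, cA6 i = true := range_step h0 hA6_0 (by norm_num)
  have h2 : ∀ i < 48, cA6 i = true := range_step h1 hA6_1 (by norm_num)
  have h3 : ∀ i < 56, cA6 i = true := range_step h2 hA6_2 (by norm_num)
  exact h3
theorem inv_lt : ∀ y < k, inv y < k := by decide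
theorem inv_inv : ∀ y < k, inv (inv y) = y := by decide
theorem hA : ∀ y < k, ∀ c, Vc E n c → Vc E n (T y c) ∧ T (inv y) (T y c) = c := by
  intro y hy c hc
  obtain ⟨i, hi, rfl⟩ := hc
  have hy' : y < 7 := hy
  interval_cases y
  · exact chkA_spec (E := 16) (n := 56) (hA0 i hi)
  · exact chkA_spec (E := 16) (n := 56) (hA1 i hi)
  · exact chkA_spec (E := 16) (n := 56) (hA2 i hi)
  · exact chkA_spec (E := 16) (n := 56) (hA3 i hi)
  · exact chkA_spec (E := 16) (n := 56) (hA4 i hi)
  · exact chkA_spec (E := 16) (n := 56) (hA5 i hi)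
  · exact chkA_spec (E := 16) (n := 56) (hA6 i hi)
theorem tab : Tab k inv T (Vc E n) where
  inv_lt := inv_lt
  inv_inv := inv_inv
  maps := fun y hy c hc => (hA y hy c hc).1
  cancel := fun y hy c hc => (hA y hy c hc).2
  zero := ⟨0, by decide, rfl⟩
end Cfsg.Agent.H5TC.E7_56
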