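import Cfsg.Agent.Lib.H5TC6
import Cfsg.Prelude.Def_Spor_Fi22

set_option autoImplicit false
set_option maxRecDepth 100000
set_option maxHeartbeats 0
set_option linter.unusedSimpArgs false

namespace Cfsg.Agent.H5TC.Fi22G

open Cfsg.Agent.H5TC Cfsg.Spor Cfsg.Spor.Fi22

noncomputable def γ : ℕ → Cfsg.Spor.Fi22
  | 0 => PresentedGroup.of Gen.a
  | 1 => PresentedGroup.of Gen.b
  | 2 => PresentedGroup.of Gen.c
  | 3 => PresentedGroup.of Gen.d
  | 4 => PresentedGroup.of Gen.e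
  | 5 => PresentedGroup.of Gen.f
  | 6 => PresentedGroup.of Gen.g
  | 7 => PresentedGroup.of Gen.h
  | 8 => PresentedGroup.of Gen.i
  | _ => 1
theorem mem (x : Gen) : x ∈ coxNodes edges := by cases x <;> simp [coxNodes, edges]
def gi : Gen → ℕ
  | Gen.a => 0
  | Gen.b => 1
  | Gen.c => 2
  | Gen.d => 3
  | Gen.e => 4
  | Gen.f => 5
  | Gen.g => 6
  | Gen.h => 7
  | Gen.i => 8
theorem γ_gi (x : Gen) : γ (gi x) = PresentedGroup.of x := by cases x <;> rfl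
theorem γ_lt (x : Gen) : gi x < 9 := by cases x <;> decide
theorem γ_inv : ∀ y < 9, (γ y)⁻¹ = γ y := by
  intro y hy
  interval_cases y
  · exact inv_eq_of_mul_eq_one_left (cox_sq edges extra Gen.a (mem _))
  · exact inv_eq_of_mul_eq_one_left (cox_sq edges extra Gen.b (mem _))
  · exact inv_eq_of_mul_eq_one_left (cox_sq edges extra Gen.c (mem _))
  · exact inv_eq_of_mul_eq_one_left (cox_sq edges extra Gen.d (mem _))
  · exact inv_eq_of_mul_eq_one_left (cox_sq edges extra Gen.e (mem _))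
  · exact inv_eq_of_mul_eq_one_left (cox_sq edges extra Gen.f (mem _))
  · exact inv_eq_of_mul_eq_one_left (cox_sq edges extra Gen.g (mem _))
  · exact inv_eq_of_mul_eq_one_left (cox_sq edges extra Gen.h (mem _))
  · exact inv_eq_of_mul_eq_one_left (cox_sq edges extra Gen.i (mem _))
theorem p0_1 : (γ 0 * γ 1) ^ 3 = 1 := cox_pair edges extra Gen.a Gen.b (mem _) (mem _)
theorem p0_2 : (γ 0 * γ 2) ^ 2 = 1 := cox_pair edges extra Gen.a Gen.c (mem _) (mem _)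
theorem p0_3 : (γ 0 * γ 3) ^ 2 = 1 := cox_pair edges extra Gen.a Gen.d (mem _) (mem _)
theorem p0_4 : (γ 0 * γ 4) ^ 2 = 1 := cox_pair edges extra Gen.a Gen.e (mem _) (mem _)
theorem p0_5 : (γ 0 * γ 5) ^ 2 = 1 := cox_pair edges extra Gen.a Gen.f (mem _) (mem _)
theorem p0_6 : (γ 0 * γ 6) ^ 2 = 1 := cox_pair edges extra Gen.a Gen.g (mem _) (mem _)
theorem p0_7 : (γ 0 * γ 7) ^ 2 = 1 := cox_pair edges extra Gen.a Gen.h (mem _) (mem _)
theorem p0_8 : (γ 0 * γ 8) ^ 2 = 1 := cox_pair edges extra Gen.a Gen.i (mem _) (mem _)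
theorem p1_2 : (γ 1 * γ 2) ^ 3 = 1 := cox_pair edges extra Gen.b Gen.c (mem _) (mem _)
theorem p1_3 : (γ 1 * γ 3) ^ 2 = 1 := cox_pair edges extra Gen.b Gen.d (mem _) (mem _)
theorem p1_4 : (γ 1 * γ 4) ^ 2 = 1 := cox_pair edges extra Gen.b Gen.e (mem _) (mem _)
theorem p1_5 : (γ 1 * γ 5) ^ 2 = 1 := cox_pair edges extra Gen.b Gen.f (mem _) (mem _)
theorem p1_6 : (γ 1 * γ 6) ^ 2 = 1 := cox_pair edges extra Gen.b Gen.g (mem _) (mem _)
theorem p1_7 : (γ 1 * γ 7) ^ 2 = 1 := cox_pair edges extra Gen.b Gen.h (mem _) (mem _)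
theorem p1_8 : (γ 1 * γ 8) ^ 2 = 1 := cox_pair edges extra Gen.b Gen.i (mem _) (mem _)
theorem p2_3 : (γ 2 * γ 3) ^ 3 = 1 := cox_pair edges extra Gen.c Gen.d (mem _) (mem _)
theorem p2_4 : (γ 2 * γ 4) ^ 2 = 1 := cox_pair edges extra Gen.c Gen.e (mem _) (mem _)
theorem p2_5 : (γ 2 * γ 5) ^ 2 = 1 := cox_pair edges extra Gen.c Gen.f (mem _) (mem _)
theorem p2_6 : (γ 2 * γ 6) ^ 2 = 1 := cox_pair edges extra Gen.c Gen.g (mem _) (mem _)
theorem p2_7 : (γ 2 * γ 7) ^ 2 = 1 := cox_pair edges extra Gen.c Gen.h (mem _) (mem _)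
theorem p2_8 : (γ 2 * γ 8) ^ 2 = 1 := cox_pair edges extra Gen.c Gen.i (mem _) (mem _)
theorem p3_4 : (γ 3 * γ 4) ^ 3 = 1 := cox_pair edges extra Gen.d Gen.e (mem _) (mem _)
theorem p3_5 : (γ 3 * γ 5) ^ 2 = 1 := cox_pair edges extra Gen.d Gen.f (mem _) (mem _)
theorem p3_6 : (γ 3 * γ 6) ^ 2 = 1 := cox_pair edges extra Gen.d Gen.g (mem _) (mem _)
theorem p3_7 : (γ 3 * γ 7) ^ 3 = 1 := cox_pair edges extra Gen.d Gen.h (mem _) (mem _)
theorem p3_8 : (γ 3 * γ 8) ^ 2 = 1 := cox_pair edges extra Gen.d Gen.i (mem _) (mem _)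
theorem p4_5 : (γ 4 * γ 5) ^ 3 = 1 := cox_pair edges extra Gen.e Gen.f (mem _) (mem _)
theorem p4_6 : (γ 4 * γ 6) ^ 2 = 1 := cox_pair edges extra Gen.e Gen.g (mem _) (mem _)
theorem p4_7 : (γ 4 * γ 7) ^ 2 = 1 := cox_pair edges extra Gen.e Gen.h (mem _) (mem _)
theorem p4_8 : (γ 4 * γ 8) ^ 2 = 1 := cox_pair edges extra Gen.e Gen.i (mem _) (mem _)
theorem p5_6 : (γ 5 * γ 6) ^ 3 = 1 := cox_pair edges extra Gen.f Gen.g (mem _) (mem _)
theorem p5_7 : (γ 5 * γ 7) ^ 2 = 1 := cox_pair edges extra Gen.f Gen.h (mem _) (mem _)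
theorem p5_8 : (γ 5 * γ 8) ^ 2 = 1 := cox_pair edges extra Gen.f Gen.i (mem _) (mem _)
theorem p6_7 : (γ 6 * γ 7) ^ 2 = 1 := cox_pair edges extra Gen.g Gen.h (mem _) (mem _)
theorem p6_8 : (γ 6 * γ 8) ^ 2 = 1 := cox_pair edges extra Gen.g Gen.i (mem _) (mem _)
theorem p7_8 : (γ 7 * γ 8) ^ 3 = 1 := cox_pair edges extra Gen.h Gen.i (mem _) (mem _)
theorem ex0_eq {P : Type*} [Group P] (δ : ℕ → P) (h : ∀ y < 9, (δ y)⁻¹ = δ y) :
    ((δ 3) * (δ 2) * (δ 1) * (δ 3) * (δ 4) * (δ 5) * (δ 3) * (δ 7) * (δ 8)) ^ 10 = wd δ [3, 2, 1, 3, 4, 5, 3, 7, 8] ^ 10 := by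
  have h1 := h 1 (by norm_num)
  have h2 := h 2 (by norm_num)
  have h3 := h 3 (by norm_num)
  have h4 := h 4 (by norm_num)
  have h5 := h 5 (by norm_num)
  have h7 := h 7 (by norm_num)
  have h8 := h 8 (by norm_num)
  congr 1
  simp only [wd, List.map_cons, List.map_nil, List.prod_cons, List.prod_nil, mul_one, pow_succ, pow_zero, one_mul, mul_assoc]
theorem e0 : wd γ [3, 2, 1, 3, 4, 5, 3, 7, 8] ^ 10 = 1 := by
  have h := mk_rel edges extra ((d * c * b * d * e * f * d * h * i) ^ 10) (Or.inr (by simp [extra]))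
  simp only [map_mul, map_pow, map_inv] at h
  rw [← ex0_eq γ γ_inv]
  exact h
theorem ex1_eq {P : Type*} [Group P] (δ : ℕ → P) (h : ∀ y < 9, (δ y)⁻¹ = δ y) :
    ((δ 0) * (δ 1) * (δ 2) * (δ 3) * (δ 4) * (δ 5) * (δ 7)) ^ 9 = wd δ [0, 1, 2, 3, 4, 5, 7] ^ 9 := by
  have h0 := h 0 (by norm_num)
  have h1 := h 1 (by norm_num)
  have h2 := h 2 (by norm_num)
  have h3 := h 3 (by norm_num)
  have h4 := h 4 (by norm_num)
  have h5 := h 5 (by norm_num)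
  have h7 := h 7 (by norm_num)
  congr 1
  simp only [wd, List.map_cons, List.map_nil, List.prod_cons, List.prod_nil, mul_one, pow_succ, pow_zero, one_mul, mul_assoc]
theorem e1 : wd γ [0, 1, 2, 3, 4, 5, 7] ^ 9 = 1 := by
  have h := mk_rel edges extra ((a * b * c * d * e * f * h) ^ 9) (Or.inr (by simp [extra]))
  simp only [map_mul, map_pow, map_inv] at h
  rw [← ex1_eq γ γ_inv]
  exact h
theorem ex2_eq {P : Type*} [Group P] (δ : ℕ → P) (h : ∀ y < 9, (δ y)⁻¹ = δ y) :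
    ((δ 1) * (δ 2) * (δ 3) * (δ 4) * (δ 5) * (δ 6) * (δ 7)) ^ 9 = wd δ [1, 2, 3, 4, 5, 6, 7] ^ 9 := by
  have h1 := h 1 (by norm_num)
  have h2 := h 2 (by norm_num)
  have h3 := h 3 (by norm_num)
  have h4 := h 4 (by norm_num)
  have h5 := h 5 (by norm_num)
  have h6 := h 6 (by norm_num)
  have h7 := h 7 (by norm_num)
  congr 1
  simp only [wd, List.map_cons, List.map_nil, List.prod_cons, List.prod_nil, mul_one, pow_succ, pow_zero, one_mul, mul_assoc]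
theorem e2 : wd γ [1, 2, 3, 4, 5, 6, 7] ^ 9 = 1 := by
  have h := mk_rel edges extra ((b * c * d * e * f * g * h) ^ 9) (Or.inr (by simp [extra]))
  simp only [map_mul, map_pow, map_inv] at h
  rw [← ex2_eq γ γ_inv]
  exact h
/-- the relators -/
def fullrels : List (List ℕ) := [[0, 1, 0, 1, 0, 1], [0, 2, 0, 2], [0, 3, 0, 3], [0, 4, 0, 4], [0, 5, 0, 5], [0, 6, 0, 6], [0, 7, 0, 7], [0, 8, 0, 8], [1, 2, 1, 2, 1, 2], [1, 3, 1, 3], [1, 4, 1, 4], [1, 5, 1, 5], [1, 6, 1, 6], [1, 7, 1, 7], [1, 8, 1, 8], [2, 3, 2, 3, 2, 3], [2, 4, 2, 4], [2, 5, 2, 5], [2, 6, 2, 6], [2, 7, 2, 7], [2, 8, 2, 8], [3, 4, 3, 4, 3, 4], [3, 5, 3, 5], [3, 6, 3, 6], [3, 7, 3, 7, 3, 7], [3, 8, 3, 8], [4, 5, 4, 5, 4, 5], [4, 6, 4, 6], [4, 7, 4, 7], [4, 8, 4, 8], [5, 6, 5, 6, 5, 6], [5, 7, 5, 7], [5, 8, 5, 8], [6, 7, 6, 7], [6, 8, 6, 8], [7, 8, 7, 8, 7, 8], [3, 2, 1, 3, 4, 5, 3, 7, 8, 3, 2, 1, 3, 4, 5, 3, 7, 8, 3,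 2, 1, 3, 4, 5, 3, 7, 8, 3, 2, 1, 3, 4, 5, 3, 7, 8, 3, 2, 1, 3, 4, 5, 3, 7, 8, 3, 2, 1, 3, 4, 5, 3, 7, 8, 3, 2, 1, 3, 4, 5, 3, 7, 8, 3, 2, 1, 3, 4, 5, 3, 7, 8, 3, 2, 1, 3, 4, 5, 3, 7, 8, 3, 2, 1, 3, 4, 5, 3, 7, 8], [0, 1, 2, 3, 4, 5, 7, 0, 1, 2, 3, 4, 5, 7, 0, 1, 2, 3, 4, 5, 7, 0, 1, 2, 3, 4, 5, 7, 0, 1, 2, 3, 4, 5, 7, 0, 1, 2, 3, 4, 5, 7, 0, 1, 2, 3, 4, 5, 7, 0, 1, 2, 3, 4, 5, 7, 0, 1, 2, 3, 4, 5, 7], [1, 2, 3, 4, 5, 6, 7, 1, 2, 3, 4, 5, 6, 7, 1, 2, 3, 4, 5, 6, 7, 1, 2, 3, 4, 5, 6, 7, 1, 2, 3, 4, 5, 6, 7, 1, 2, 3, 4, 5, 6, 7, 1, 2, 3, 4, 5, 6, 7, 1, 2, 3, 4, 5, 6, 7, 1, 2, 3, 4, 5, 6, 7]]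
theorem fullrels_spec : ∀ r ∈ fullrels, wd γ r = 1 := by
  intro r hr
  simp only [fullrels, List.mem_cons, List.not_mem_nil, or_false] at hr
  rcases hr with rfl | rfl | rfl | rfl | rfl | rfl | rfl | rfl | rfl | rfl | rfl | rfl | rfl | rfl | rfl | rfl | rfl | rfl | rfl | rfl | rfl | rfl | rfl | rfl | rfl | rfl | rfl | rfl | rfl | rfl | rfl | rfl | rfl | rfl | rfl | rfl | rfl | rfl | rfl
  · exact pair_word (m := 3) p0_1
  · exact pair_word (m := 2) p0_2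
  · exact pair_word (m := 2) p0_3
  · exact pair_word (m := 2) p0_4
  · exact pair_word (m := 2) p0_5
  · exact pair_word (m := 2) p0_6
  · exact pair_word (m := 2) p0_7
  · exact pair_word (m := 2) p0_8
  · exact pair_word (m := 3) p1_2
  · exact pair_word (m := 2) p1_3
  · exact pair_word (m := 2) p1_4
  · exact pair_word (m := 2) p1_5
  · exact pair_word (m := 2) p1_6
  · exact pair_word (m := 2) p1_7
  · exact pair_word (m := 2) p1_8
  · exact pair_word (m := 3) p2_3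
  · exact pair_word (m := 2) p2_4
  · exact pair_word (m := 2) p2_5
  · exact pair_word (m := 2) p2_6
  · exact pair_word (m := 2) p2_7
  · exact pair_word (m := 2) p2_8
  · exact pair_word (m := 3) p3_4
  · exact pair_word (m := 2) p3_5
  · exact pair_word (m := 2) p3_6
  · exact pair_word (m := 3) p3_7
  · exact pair_word (m := 2) p3_8
  · exact pair_word (m := 3) p4_5
  · exact pair_word (m := 2) p4_6
  · exact pair_word (m := 2) p4_7
  · exact pair_word (m := 2) p4_8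
  · exact pair_word (m := 3) p5_6
  · exact pair_word (m := 2) p5_7
  · exact pair_word (m := 2) p5_8
  · exact pair_word (m := 2) p6_7
  · exact pair_word (m := 2) p6_8
  · exact pair_word (m := 3) p7_8
  · exact pow_word (m := 10) e0
  · exact pow_word (m := 9) e1
  · exact pow_word (m := 9) e2
theorem gen_top : Subgroup.closure {g | ∃ y < 9, g = γ y} = ⊤ := by
  rw [eq_top_iff, ← cox_gen edges extra]
  apply Subgroup.closure_mono
  rintro _ ⟨x, rfl⟩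
  exact ⟨gi x, γ_lt x, (γ_gi x).symm⟩
/-- homomorphisms -/
theorem hom {P : Type*} [Group P] (δ : ℕ → P) (h : ∀ y < 9, δ y * δ y = 1)
    (h0_1 : (δ 0 * δ 1) ^ 3 = 1)
    (h0_2 : (δ 0 * δ 2) ^ 2 = 1)
    (h0_3 : (δ 0 * δ 3) ^ 2 = 1)
    (h0_4 : (δ 0 * δ 4) ^ 2 = 1)
    (h0_5 : (δ 0 * δ 5) ^ 2 = 1)
    (h0_6 : (δ 0 * δ 6) ^ 2 = 1)
    (h0_7 : (δ 0 * δ 7) ^ 2 = 1)
    (h0_8 : (δ 0 * δ 8) ^ 2 = 1)
    (h1_2 : (δ 1 * δ 2) ^ 3 = 1)
    (h1_3 : (δ 1 * δ 3) ^ 2 = 1)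
    (h1_4 : (δ 1 * δ 4) ^ 2 = 1)
    (h1_5 : (δ 1 * δ 5) ^ 2 = 1)
    (h1_6 : (δ 1 * δ 6) ^ 2 = 1)
    (h1_7 : (δ 1 * δ 7) ^ 2 = 1)
    (h1_8 : (δ 1 * δ 8) ^ 2 = 1)
    (h2_3 : (δ 2 * δ 3) ^ 3 = 1)
    (h2_4 : (δ 2 * δ 4) ^ 2 = 1)
    (h2_5 : (δ 2 * δ 5) ^ 2 = 1)
    (h2_6 : (δ 2 * δ 6) ^ 2 = 1)
    (h2_7 : (δ 2 * δ 7) ^ 2 = 1)
    (h2_8 : (δ 2 * δ 8) ^ 2 = 1)
    (h3_4 : (δ 3 * δ 4) ^ 3 = 1)
    (h3_5 : (δ 3 * δ 5) ^ 2 = 1)
    (h3_6 : (δ 3 * δ 6) ^ 2 = 1)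
    (h3_7 : (δ 3 * δ 7) ^ 3 = 1)
    (h3_8 : (δ 3 * δ 8) ^ 2 = 1)
    (h4_5 : (δ 4 * δ 5) ^ 3 = 1)
    (h4_6 : (δ 4 * δ 6) ^ 2 = 1)
    (h4_7 : (δ 4 * δ 7) ^ 2 = 1)
    (h4_8 : (δ 4 * δ 8) ^ 2 = 1)
    (h5_6 : (δ 5 * δ 6) ^ 3 = 1)
    (h5_7 : (δ 5 * δ 7) ^ 2 = 1)
    (h5_8 : (δ 5 * δ 8) ^ 2 = 1)
    (h6_7 : (δ 6 * δ 7) ^ 2 = 1)
    (h6_8 : (δ 6 * δ 8) ^ 2 = 1)
    (h7_8 : (δ 7 * δ 8) ^ 3 = 1)
    (he0 : wd δ [3, 2, 1, 3, 4, 5, 3, 7, 8] ^ 10 = 1)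
    (he1 : wd δ [0, 1, 2, 3, 4, 5, 7] ^ 9 = 1)
    (he2 : wd δ [1, 2, 3, 4, 5, 6, 7] ^ 9 = 1)
    : ∃ φ : Cfsg.Spor.Fi22 →* P, ∀ y < 9, φ (γ y) = δ y := by
  have hi : ∀ y < 9, (δ y)⁻¹ = δ y := fun y hy => inv_eq_of_mul_eq_one_left (h y hy)
  suffices hh : (∀ x ∈ coxNodes edges, ∀ y ∈ coxNodes edges, (δ (gi x) * δ (gi y)) ^ coxLabel edges x y = 1) ∧ (∀ r ∈ extra, FreeGroup.lift (fun x => δ (gi x)) r = 1) by
    obtain ⟨φ, hφ⟩ := cox_hom edges extra (fun x => δ (gi x)) hh.1 hh.2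
    refine ⟨φ, fun y hy => ?_⟩
    interval_cases y
    · exact hφ Gen.a
    · exact hφ Gen.b
    · exact hφ Gen.c
    · exact hφ Gen.d
    · exact hφ Gen.e
    · exact hφ Gen.f
    · exact hφ Gen.g
    · exact hφ Gen.h
    · exact hφ Gen.i
  constructor
  · intro x _ y _
    cases x <;> cases y
    · exact (pow_one _).trans (h 0 (by norm_num))
    · exact h0_1
    · exact h0_2
    · exact h0_3
    · exact h0_4
    · exact h0_5
    · exact h0_6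
    · exact h0_7
    · exact h0_8
    · exact pair_swap (h 0 (by norm_num)) (h 1 (by norm_num)) h0_1
    · exact (pow_one _).trans (h 1 (by norm_num))
    · exact h1_2
    · exact h1_3
    · exact h1_4
    · exact h1_5
    · exact h1_6
    · exact h1_7
    · exact h1_8
    · exact pair_swap (h 0 (by norm_num)) (h 2 (by norm_num)) h0_2
    · exact pair_swap (h 1 (by norm_num)) (h 2 (by norm_num)) h1_2
    · exact (pow_one _).trans (h 2 (by norm_num))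
    · exact h2_3
    · exact h2_4
    · exact h2_5
    · exact h2_6
    · exact h2_7
    · exact h2_8
    · exact pair_swap (h 0 (by norm_num)) (h 3 (by norm_num)) h0_3
    · exact pair_swap (h 1 (by norm_num)) (h 3 (by norm_num)) h1_3
    · exact pair_swap (h 2 (by norm_num)) (h 3 (by norm_num)) h2_3
    · exact (pow_one _).trans (h 3 (by norm_num))
    · exact h3_4
    · exact h3_5
    · exact h3_6
    · exact h3_7
    · exact h3_8
    · exact pair_swap (h 0 (by norm_num)) (h 4 (by norm_num)) h0_4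
    · exact pair_swap (h 1 (by norm_num)) (h 4 (by norm_num)) h1_4
    · exact pair_swap (h 2 (by norm_num)) (h 4 (by norm_num)) h2_4
    · exact pair_swap (h 3 (by norm_num)) (h 4 (by norm_num)) h3_4
    · exact (pow_one _).trans (h 4 (by norm_num))
    · exact h4_5
    · exact h4_6
    · exact h4_7
    · exact h4_8
    · exact pair_swap (h 0 (by norm_num)) (h 5 (by norm_num)) h0_5
    · exact pair_swap (h 1 (by norm_num)) (h 5 (by norm_num)) h1_5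
    · exact pair_swap (h 2 (by norm_num)) (h 5 (by norm_num)) h2_5
    · exact pair_swap (h 3 (by norm_num)) (h 5 (by norm_num)) h3_5
    · exact pair_swap (h 4 (by norm_num)) (h 5 (by norm_num)) h4_5
    · exact (pow_one _).trans (h 5 (by norm_num))
    · exact h5_6
    · exact h5_7
    · exact h5_8
    · exact pair_swap (h 0 (by norm_num)) (h 6 (by norm_num)) h0_6
    · exact pair_swap (h 1 (by norm_num)) (h 6 (by norm_num)) h1_6
    · exact pair_swap (h 2 (by norm_num)) (h 6 (by norm_num)) h2_6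
    · exact pair_swap (h 3 (by norm_num)) (h 6 (by norm_num)) h3_6
    · exact pair_swap (h 4 (by norm_num)) (h 6 (by norm_num)) h4_6
    · exact pair_swap (h 5 (by norm_num)) (h 6 (by norm_num)) h5_6
    · exact (pow_one _).trans (h 6 (by norm_num))
    · exact h6_7
    · exact h6_8
    · exact pair_swap (h 0 (by norm_num)) (h 7 (by norm_num)) h0_7
    · exact pair_swap (h 1 (by norm_num)) (h 7 (by norm_num)) h1_7
    · exact pair_swap (h 2 (by norm_num)) (h 7 (by norm_num)) h2_7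
    · exact pair_swap (h 3 (by norm_num)) (h 7 (by norm_num)) h3_7
    · exact pair_swap (h 4 (by norm_num)) (h 7 (by norm_num)) h4_7
    · exact pair_swap (h 5 (by norm_num)) (h 7 (by norm_num)) h5_7
    · exact pair_swap (h 6 (by norm_num)) (h 7 (by norm_num)) h6_7
    · exact (pow_one _).trans (h 7 (by norm_num))
    · exact h7_8
    · exact pair_swap (h 0 (by norm_num)) (h 8 (by norm_num)) h0_8
    · exact pair_swap (h 1 (by norm_num)) (h 8 (by norm_num)) h1_8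
    · exact pair_swap (h 2 (by norm_num)) (h 8 (by norm_num)) h2_8
    · exact pair_swap (h 3 (by norm_num)) (h 8 (by norm_num)) h3_8
    · exact pair_swap (h 4 (by norm_num)) (h 8 (by norm_num)) h4_8
    · exact pair_swap (h 5 (by norm_num)) (h 8 (by norm_num)) h5_8
    · exact pair_swap (h 6 (by norm_num)) (h 8 (by norm_num)) h6_8
    · exact pair_swap (h 7 (by norm_num)) (h 8 (by norm_num)) h7_8
    · exact (pow_one _).trans (h 8 (by norm_num))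
  · intro r hr
    simp only [extra, List.mem_cons, List.not_mem_nil, or_false] at hr
    rcases hr with rfl | rfl | rfl
    · simp only [map_mul, map_pow, map_inv, FreeGroup.lift_apply_of]
      exact (ex0_eq δ hi).trans he0
    · simp only [map_mul, map_pow, map_inv, FreeGroup.lift_apply_of]
      exact (ex1_eq δ hi).trans he1
    · simp only [map_mul, map_pow, map_inv, FreeGroup.lift_apply_of]
      exact (ex2_eq δ hi).trans he2
end Cfsg.Agent.H5TC.Fi22G
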