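import Cfsg.Agent.Lib.H5TC8
import Cfsg.Agent.Lib.H5TCFi22G
import Cfsg.Agent.Lib.H5TCY14080M
import Cfsg.Agent.Lib.H5TCY3159M
import Cfsg.Agent.Lib.H5TCE7_28M
import Cfsg.Agent.Lib.H5TCE6_27M
import Cfsg.Agent.Lib.H5TCD5_16M
import Cfsg.Agent.Lib.H5TCA4_120M

set_option autoImplicit false
set_option maxRecDepth 100000

namespace Cfsg.Agent.H5TC.Fi22Up

open Cfsg.Agent.H5TC

def ι0 : ℕ → ℕ
  | 0 => 0
  | 1 => 1
  | 2 => 2
  | 3 => 3
  | 4 => 4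
  | 5 => 5
  | 6 => 6
  | 7 => 7
  | 8 => 8
  | _ => 0
theorem step0 : (Kof Fi22G.γ [1, 2, 3, 4, 5, 6, 7, 8]).relIndex (Kof Fi22G.γ [0, 1, 2, 3, 4, 5, 6, 7, 8]) ≤ 14080 ∧
    (Kof Fi22G.γ [1, 2, 3, 4, 5, 6, 7, 8]).relIndex (Kof Fi22G.γ [0, 1, 2, 3, 4, 5, 6, 7, 8]) ≠ 0 := by
  have hinv : ∀ y < Y14080.k, Fi22G.γ (ι0 (Y14080.inv y)) = (Fi22G.γ (ι0 y))⁻¹ := by
    intro y hy
    have hy' : y < 9 := hy
    interval_cases y
    · exact (Fi22G.γ_inv 0 (by norm_num)).symm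
    · exact (Fi22G.γ_inv 1 (by norm_num)).symm
    · exact (Fi22G.γ_inv 2 (by norm_num)).symm
    · exact (Fi22G.γ_inv 3 (by norm_num)).symm
    · exact (Fi22G.γ_inv 4 (by norm_num)).symm
    · exact (Fi22G.γ_inv 5 (by norm_num)).symm
    · exact (Fi22G.γ_inv 6 (by norm_num)).symm
    · exact (Fi22G.γ_inv 7 (by norm_num)).symm
    · exact (Fi22G.γ_inv 8 (by norm_num)).symm
  refine enum_step Fi22G.γ ι0 (k := Y14080.k) (n := Y14080.n) (E := Y14080.E) (T := Y14080.T) Y14080.tab [0, 1, 2, 3, 4, 5, 6, 7, 8] [1, 2, 3, 4, 5, 6, 7, 8] Y14080.subw (by decide) (by decide) hinv ?_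
  intro x0 hx0
  exact Y14080.main (fun y => Fi22G.γ (ι0 y)) x0 hinv (by
    intro r hr
    rw [wd_map]
    have : r.map ι0 ∈ Fi22G.fullrels := by
      revert r
      decide +kernel
    exact Fi22G.fullrels_spec _ this) hx0
def ι1 : ℕ → ℕ
  | 0 => 1
  | 1 => 2
  | 2 => 3
  | 3 => 4
  | 4 => 5
  | 5 => 6
  | 6 => 7
  | 7 => 8
  | _ => 1
theorem step1 : (Kof Fi22G.γ [1, 2, 3, 4, 5, 6, 7]).relIndex (Kof Fi22G.γ [1, 2, 3, 4, 5, 6, 7, 8]) ≤ 3159 ∧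
    (Kof Fi22G.γ [1, 2, 3, 4, 5, 6, 7]).relIndex (Kof Fi22G.γ [1, 2, 3, 4, 5, 6, 7, 8]) ≠ 0 := by
  have hinv : ∀ y < Y3159.k, Fi22G.γ (ι1 (Y3159.inv y)) = (Fi22G.γ (ι1 y))⁻¹ := by
    intro y hy
    have hy' : y < 8 := hy
    interval_cases y
    · exact (Fi22G.γ_inv 1 (by norm_num)).symm
    · exact (Fi22G.γ_inv 2 (by norm_num)).symm
    · exact (Fi22G.γ_inv 3 (by norm_num)).symm
    · exact (Fi22G.γ_inv 4 (by norm_num)).symm
    · exact (Fi22G.γ_inv 5 (by norm_num)).symm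
    · exact (Fi22G.γ_inv 6 (by norm_num)).symm
    · exact (Fi22G.γ_inv 7 (by norm_num)).symm
    · exact (Fi22G.γ_inv 8 (by norm_num)).symm
  refine enum_step Fi22G.γ ι1 (k := Y3159.k) (n := Y3159.n) (E := Y3159.E) (T := Y3159.T) Y3159.tab [1, 2, 3, 4, 5, 6, 7, 8] [1, 2, 3, 4, 5, 6, 7] Y3159.subw (by decide) (by decide) hinv ?_
  intro x0 hx0
  exact Y3159.main (fun y => Fi22G.γ (ι1 y)) x0 hinv (by
    intro r hr
    rw [wd_map]
    have : r.map ι1 ∈ Fi22G.fullrels := by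
      revert r
      decide +kernel
    exact Fi22G.fullrels_spec _ this) hx0
def ι2 : ℕ → ℕ
  | 0 => 1
  | 1 => 2
  | 2 => 3
  | 3 => 4
  | 4 => 5
  | 5 => 6
  | 6 => 7
  | _ => 1
theorem step2 : (Kof Fi22G.γ [1, 2, 3, 4, 5, 7]).relIndex (Kof Fi22G.γ [1, 2, 3, 4, 5, 6, 7]) ≤ 28 ∧
    (Kof Fi22G.γ [1, 2, 3, 4, 5, 7]).relIndex (Kof Fi22G.γ [1, 2, 3, 4, 5, 6, 7]) ≠ 0 := by
  have hinv : ∀ y < E7_28.k, Fi22G.γ (ι2 (E7_28.inv y)) = (Fi22G.γ (ι2 y))⁻¹ := by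
    intro y hy
    have hy' : y < 7 := hy
    interval_cases y
    · exact (Fi22G.γ_inv 1 (by norm_num)).symm
    · exact (Fi22G.γ_inv 2 (by norm_num)).symm
    · exact (Fi22G.γ_inv 3 (by norm_num)).symm
    · exact (Fi22G.γ_inv 4 (by norm_num)).symm
    · exact (Fi22G.γ_inv 5 (by norm_num)).symm
    · exact (Fi22G.γ_inv 6 (by norm_num)).symm
    · exact (Fi22G.γ_inv 7 (by norm_num)).symm
  refine enum_step Fi22G.γ ι2 (k := E7_28.k) (n := E7_28.n) (E := E7_28.E) (T := E7_28.T) E7_28.tab [1, 2, 3, 4, 5, 6, 7] [1, 2, 3, 4, 5, 7] E7_28.subw (by decide) (by decide) hinv ?_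
  intro x0 hx0
  exact E7_28.main (fun y => Fi22G.γ (ι2 y)) x0 hinv (by
    intro r hr
    rw [wd_map]
    have : r.map ι2 ∈ Fi22G.fullrels := by
      revert r
      decide +kernel
    exact Fi22G.fullrels_spec _ this) hx0
def ι3 : ℕ → ℕ
  | 0 => 1
  | 1 => 2
  | 2 => 3
  | 3 => 4
  | 4 => 5
  | 5 => 7
  | _ => 1
theorem step3 : (Kof Fi22G.γ [2, 3, 4, 5, 7]).relIndex (Kof Fi22G.γ [1, 2, 3, 4, 5, 7]) ≤ 27 ∧
    (Kof Fi22G.γ [2, 3, 4, 5, 7]).relIndex (Kof Fi22G.γ [1, 2, 3, 4, 5, 7]) ≠ 0 := by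
  have hinv : ∀ y < E6_27.k, Fi22G.γ (ι3 (E6_27.inv y)) = (Fi22G.γ (ι3 y))⁻¹ := by
    intro y hy
    have hy' : y < 6 := hy
    interval_cases y
    · exact (Fi22G.γ_inv 1 (by norm_num)).symm
    · exact (Fi22G.γ_inv 2 (by norm_num)).symm
    · exact (Fi22G.γ_inv 3 (by norm_num)).symm
    · exact (Fi22G.γ_inv 4 (by norm_num)).symm
    · exact (Fi22G.γ_inv 5 (by norm_num)).symm
    · exact (Fi22G.γ_inv 7 (by norm_num)).symm
  refine enum_step Fi22G.γ ι3 (k := E6_27.k) (n := E6_27.n) (E := E6_27.E) (T := E6_27.T) E6_27.tab [1, 2, 3, 4, 5, 7] [2, 3, 4, 5, 7] E6_27.subw (by decide) (by decide) hinv ?_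
  intro x0 hx0
  exact E6_27.main (fun y => Fi22G.γ (ι3 y)) x0 hinv (by
    intro r hr
    rw [wd_map]
    have : r.map ι3 ∈ Fi22G.fullrels := by
      revert r
      decide +kernel
    exact Fi22G.fullrels_spec _ this) hx0
def ι4 : ℕ → ℕ
  | 0 => 2
  | 1 => 3
  | 2 => 4
  | 3 => 5
  | 4 => 7
  | _ => 2
theorem step4 : (Kof Fi22G.γ [2, 3, 4, 5]).relIndex (Kof Fi22G.γ [2, 3, 4, 5, 7]) ≤ 16 ∧
    (Kof Fi22G.γ [2, 3, 4, 5]).relIndex (Kof Fi22G.γ [2, 3, 4, 5, 7]) ≠ 0 := by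
  have hinv : ∀ y < D5_16.k, Fi22G.γ (ι4 (D5_16.inv y)) = (Fi22G.γ (ι4 y))⁻¹ := by
    intro y hy
    have hy' : y < 5 := hy
    interval_cases y
    · exact (Fi22G.γ_inv 2 (by norm_num)).symm
    · exact (Fi22G.γ_inv 3 (by norm_num)).symm
    · exact (Fi22G.γ_inv 4 (by norm_num)).symm
    · exact (Fi22G.γ_inv 5 (by norm_num)).symm
    · exact (Fi22G.γ_inv 7 (by norm_num)).symm
  refine enum_step Fi22G.γ ι4 (k := D5_16.k) (n := D5_16.n) (E := D5_16.E) (T := D5_16.T) D5_16.tab [2, 3, 4, 5, 7] [2, 3, 4, 5] D5_16.subw (by decide) (by decide) hinv ?_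
  intro x0 hx0
  exact D5_16.main (fun y => Fi22G.γ (ι4 y)) x0 hinv (by
    intro r hr
    rw [wd_map]
    have : r.map ι4 ∈ Fi22G.fullrels := by
      revert r
      decide +kernel
    exact Fi22G.fullrels_spec _ this) hx0
def ι5 : ℕ → ℕ
  | 0 => 2
  | 1 => 3
  | 2 => 4
  | 3 => 5
  | _ => 2
theorem step5 : (Kof Fi22G.γ []).relIndex (Kof Fi22G.γ [2, 3, 4, 5]) ≤ 120 ∧
    (Kof Fi22G.γ []).relIndex (Kof Fi22G.γ [2, 3, 4, 5]) ≠ 0 := by
  have hinv : ∀ y < A4_120.k, Fi22G.γ (ι5 (A4_120.inv y)) = (Fi22G.γ (ι5 y))⁻¹ := by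
    intro y hy
    have hy' : y < 4 := hy
    interval_cases y
    · exact (Fi22G.γ_inv 2 (by norm_num)).symm
    · exact (Fi22G.γ_inv 3 (by norm_num)).symm
    · exact (Fi22G.γ_inv 4 (by norm_num)).symm
    · exact (Fi22G.γ_inv 5 (by norm_num)).symm
  refine enum_step Fi22G.γ ι5 (k := A4_120.k) (n := A4_120.n) (E := A4_120.E) (T := A4_120.T) A4_120.tab [2, 3, 4, 5] [] A4_120.subw (by decide) (by decide) hinv ?_
  intro x0 hx0
  exact A4_120.main (fun y => Fi22G.γ (ι5 y)) x0 hinv (by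
    intro r hr
    rw [wd_map]
    have : r.map ι5 ∈ Fi22G.fullrels := by
      revert r
      decide +kernel
    exact Fi22G.fullrels_spec _ this) hx0
theorem card_le : Nat.card Cfsg.Spor.Fi22 ≤ 64561751654400 ∧ Nat.card Cfsg.Spor.Fi22 ≠ 0 := by
  have htop : Kof Fi22G.γ [0, 1, 2, 3, 4, 5, 6, 7, 8] = ⊤ := by
    rw [← Fi22G.gen_top]
    unfold Kof
    congr 1
    ext x
    constructor
    · rintro ⟨y, hy, rfl⟩
      refine ⟨y, ?_, rfl⟩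
      simp only [List.mem_cons, List.not_mem_nil, or_false] at hy
      omega
    · rintro ⟨y, hy, rfl⟩
      refine ⟨y, ?_, rfl⟩
      simp only [List.mem_cons, List.not_mem_nil, or_false]
      omega
  have h6 := card_bot_le Fi22G.γ
  have h5 := card_step (Kof_mono Fi22G.γ (by decide)) step5 h6
  have h4 := card_step (Kof_mono Fi22G.γ (by decide)) step4 h5
  have h3 := card_step (Kof_mono Fi22G.γ (by decide)) step3 h4
  have h2 := card_step (Kof_mono Fi22G.γ (by decide)) step2 h3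
  have h1 := card_step (Kof_mono Fi22G.γ (by decide)) step1 h2
  have h0 := card_step (Kof_mono Fi22G.γ (by decide)) step0 h1
  rw [htop, Subgroup.card_top] at h0
  exact ⟨h0.1.trans (by norm_num), h0.2⟩
end Cfsg.Agent.H5TC.Fi22Up
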