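import Cfsg.Agent.Lib.H5TCFi23_31671C
import Cfsg.Agent.Lib.H5TCFi23_31671N
import Cfsg.Agent.Lib.H5TCFi23_31671O
import Cfsg.Agent.Lib.H5TCFi23Up
import Cfsg.Agent.Lib.H5TCFi23Col

set_option autoImplicit false
set_option maxRecDepth 1000000
set_option maxHeartbeats 0
set_option Elab.async false

namespace Cfsg.Agent.H5TC.Fi23_31671.S

open Cfsg.Agent.H5TC
open Cfsg.Agent.H5TC.Fi23_31671
set_option linter.style.haveILetI false


noncomputable def cT (i : ℕ) : Bool := Nat.ble (O.Lab (Nat.mul 20 i)) 2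
theorem hT_0 : all2 cT 14 0 = true := by decide +kernel
theorem hT_1 : all2 cT 13 16384 = true := by decide +kernel
theorem hT_2 : all2 cT 12 24576 = true := by decide +kernel
theorem hT_3 : all2 cT 11 28672 = true := by decide +kernel
theorem hT_4 : all2 cT 9 30720 = true := by decide +kernel
theorem hT_5 : all2 cT 8 31232 = true := by decide +kernel
theorem hT_6 : all2 cT 7 31488 = true := by decide +kernel
theorem hT_7 : all2 cT 5 31616 = true := by decide +kernel
theorem hT_8 : all2 cT 4 31648 = true := by decide +kernel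
theorem hT_9 : all2 cT 2 31664 = true := by decide +kernel
theorem hT_10 : all2 cT 1 31668 = true := by decide +kernel
theorem hT_11 : all2 cT 0 31670 = true := by decide +kernel
theorem hT : ∀ i < 31671, cT i = true := by
  have h0 : ∀ i < 0, cT i = true := fun i hi => absurd hi (Nat.not_lt_zero i)
  have h1 : ∀ i < 16384, cT i = true := range_step h0 hT_0 (by norm_num)
  have h2 : ∀ i < 24576, cT i = true := range_step h1 hT_1 (by norm_num)
  have h3 : ∀ i < 28672, cT i = true := range_step h2 hT_2 (by norm_num)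
  have h4 : ∀ i < 30720, cT i = true := range_step h3 hT_3 (by norm_num)
  have h5 : ∀ i < 31232, cT i = true := range_step h4 hT_4 (by norm_num)
  have h6 : ∀ i < 31488, cT i = true := range_step h5 hT_5 (by norm_num)
  have h7 : ∀ i < 31616, cT i = true := range_step h6 hT_6 (by norm_num)
  have h8 : ∀ i < 31648, cT i = true := range_step h7 hT_7 (by norm_num)
  have h9 : ∀ i < 31664, cT i = true := range_step h8 hT_8 (by norm_num)
  have h10 : ∀ i < 31668, cT i = true := range_step h9 hT_9 (by norm_num)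
  have h11 : ∀ i < 31670, cT i = true := range_step h10 hT_10 (by norm_num)
  have h12 : ∀ i < 31671, cT i = true := range_step h11 hT_11 (by norm_num)
  exact h12
theorem hlt : ∀ c, Vc E n c → O.Lab c ≤ 2 := by
  rintro c ⟨i, hi, rfl⟩
  exact Nat.le_of_ble_eq_true (hT i hi)
attribute [local irreducible] f0 f1 f2 f3 f4 f5 f6 f7 f8 f9
noncomputable def cU (i : ℕ) : Bool := (fun c => (fun d1 => @Bool.rec (fun _ => Bool) ((fun d2 => @Bool.rec (fun _ => Bool) ((fun d3 => @Bool.rec (fun _ => Bool) ((fun d4 => @Bool.rec (fun _ => Bool) ((fun d5 => @Bool.rec (fun _ => Bool) ((fun d6 => @Bool.rec (fun _ => Bool) ((fun d7 => @Bool.rec (fun _ => Bool) ((fun d8 => @Bool.rec (fun _ => Bool) ((fun d9 => @Bool.rec (fun _ => Bool) ((fun d10 => @Bool.rec (fun _ => Bool) ((fun d11 => @Bool.rec (fun _ => Bool) ((fun d12 => @Bool.rec (fun _ => Bool) ((fun d13 => @Bool.rec (fun _ => Bool) ((fun d14 => @Bool.rec (fun _ => Bool) ((fun d15 => @Bool.rec (fun _ => Bool) ((fun d16 => @Bool.rec (fun _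 => Bool) ((fun d17 => @Bool.rec (fun _ => Bool) (Nat.beq d17 c) true (Nat.blt d17 c)) (f4 (f5 (f6 (f3 (f1 (f7 (f6 (f2 (f8 (f7 (f0 (d16))))))))))))) true (Nat.blt d16 c)) (f4 (f5 (f6 (f3 (f1 (f7 (f6 (f2 (f8 (f7 (f0 (d15))))))))))))) true (Nat.blt d15 c)) (f4 (f5 (f6 (f3 (f1 (f7 (f6 (f2 (f8 (f7 (f0 (d14))))))))))))) true (Nat.blt d14 c)) (f4 (f5 (f6 (f3 (f1 (f7 (f6 (f2 (f8 (f7 (f0 (d13))))))))))))) true (Nat.blt d13 c)) (f4 (f5 (f6 (f3 (f1 (f7 (f6 (f2 (f8 (f7 (f0 (d12))))))))))))) true (Nat.blt d12 c)) (f4 (f5 (f6 (f3 (f1 (f7 (f6 (f2 (f8 (f7 (f0 (d11))))))))))))) true (Nat.blt d11 c)) (f4 (f5 (f6 (f3 (f1 (f7 (f6 (f2 (f8 (f7 (f0 (d10))))))))))))) true (Nat.blt d10 c)) (f4 (f5 (f6 (f3 (f1 (f7 (f6 (f2 (f8 (f7 (f0 (d9))))))))))))) true (Nat.blt d9 c)) (f4 (f5 (f6 (f3 (f1 (f7 (f6 (f2 (f8 (f7 (f0 (d8))))))))))))) true (Nat.blt d8 c)) (f4 (f5 (f6 (f3 (f1 (f7 (f6 (f2 (f8 (f7 (f0 (d7))))))))))))) true (Nat.blt d7 c)) (f4 (f5 (f6 (f3 (f1 (f7 (f6 (f2 (f8 (f7 (f0 (d6))))))))))))) true (Nat.blt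 d6 c)) (f4 (f5 (f6 (f3 (f1 (f7 (f6 (f2 (f8 (f7 (f0 (d5))))))))))))) true (Nat.blt d5 c)) (f4 (f5 (f6 (f3 (f1 (f7 (f6 (f2 (f8 (f7 (f0 (d4))))))))))))) true (Nat.blt d4 c)) (f4 (f5 (f6 (f3 (f1 (f7 (f6 (f2 (f8 (f7 (f0 (d3))))))))))))) true (Nat.blt d3 c)) (f4 (f5 (f6 (f3 (f1 (f7 (f6 (f2 (f8 (f7 (f0 (d2))))))))))))) true (Nat.blt d2 c)) (f4 (f5 (f6 (f3 (f1 (f7 (f6 (f2 (f8 (f7 (f0 (d1))))))))))))) true (Nat.blt d1 c)) (f4 (f5 (f6 (f3 (f1 (f7 (f6 (f2 (f8 (f7 (f0 (c))))))))))))) (Nat.mul 20 i)
theorem hU_0 : all2 cU 9 0 = true := by decide +kernel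
theorem hU_1 : all2 cU 9 512 = true := by decide +kernel
theorem hU_2 : all2 cU 9 1024 = true := by decide +kernel
theorem hU_3 : all2 cU 9 1536 = true := by decide +kernel
theorem hU_4 : all2 cU 9 2048 = true := by decide +kernel
theorem hU_5 : all2 cU 10 2560 = true := by decide +kernel
theorem hU_6 : all2 cU 10 3584 = true := by decide +kernel
theorem hU_7 : all2 cU 10 4608 = true := by decide +kernel
theorem hU_8 : all2 cU 10 5632 = true := by decide +kernel
theorem hU_9 : all2 cU 10 6656 = true := by decide +kernel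
theorem hU_10 : all2 cU 10 7680 = true := by decide +kernel
theorem hU_11 : all2 cU 10 8704 = true := by decide +kernel
theorem hU_12 : all2 cU 10 9728 = true := by decide +kernel
theorem hU_13 : all2 cU 10 10752 = true := by decide +kernel
theorem hU_14 : all2 cU 10 11776 = true := by decide +kernel
theorem hU_15 : all2 cU 10 12800 = true := by decide +kernel
theorem hU_16 : all2 cU 10 13824 = true := by decide +kernel
theorem hU_17 : all2 cU 10 14848 = true := by decide +kernel
theorem hU_18 : all2 cU 10 15872 = true := by decide +kernel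
theorem hU_19 : all2 cU 10 16896 = true := by decide +kernel
theorem hU_20 : all2 cU 11 17920 = true := by decide +kernel
theorem hU_21 : all2 cU 11 19968 = true := by decide +kernel
theorem hU_22 : all2 cU 11 22016 = true := by decide +kernel
theorem hU_23 : all2 cU 11 24064 = true := by decide +kernel
theorem hU_24 : all2 cU 11 26112 = true := by decide +kernel
theorem hU_25 : all2 cU 11 28160 = true := by decide +kernel
theorem hU_26 : all2 cU 10 30208 = true := by decide +kernel
theorem hU_27 : all2 cU 8 31232 = true := by decide +kernel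
theorem hU_28 : all2 cU 7 31488 = true := by decide +kernel
theorem hU_29 : all2 cU 5 31616 = true := by decide +kernel
theorem hU_30 : all2 cU 4 31648 = true := by decide +kernel
theorem hU_31 : all2 cU 2 31664 = true := by decide +kernel
theorem hU_32 : all2 cU 1 31668 = true := by decide +kernel
theorem hU_33 : all2 cU 0 31670 = true := by decide +kernel
theorem hU : ∀ i < 31671, cU i = true := by
  have h0 : ∀ i < 0, cU i = true := fun i hi => absurd hi (Nat.not_lt_zero i)
  have h1 : ∀ i < 512, cU i = true := range_step h0 hU_0 (by norm_num)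
  have h2 : ∀ i < 1024, cU i = true := range_step h1 hU_1 (by norm_num)
  have h3 : ∀ i < 1536, cU i = true := range_step h2 hU_2 (by norm_num)
  have h4 : ∀ i < 2048, cU i = true := range_step h3 hU_3 (by norm_num)
  have h5 : ∀ i < 2560, cU i = true := range_step h4 hU_4 (by norm_num)
  have h6 : ∀ i < 3584, cU i = true := range_step h5 hU_5 (by norm_num)
  have h7 : ∀ i < 4608, cU i = true := range_step h6 hU_6 (by norm_num)
  have h8 : ∀ i < 5632, cU i = true := range_step h7 hU_7 (by norm_num)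
  have h9 : ∀ i < 6656, cU i = true := range_step h8 hU_8 (by norm_num)
  have h10 : ∀ i < 7680, cU i = true := range_step h9 hU_9 (by norm_num)
  have h11 : ∀ i < 8704, cU i = true := range_step h10 hU_10 (by norm_num)
  have h12 : ∀ i < 9728, cU i = true := range_step h11 hU_11 (by norm_num)
  have h13 : ∀ i < 10752, cU i = true := range_step h12 hU_12 (by norm_num)
  have h14 : ∀ i < 11776, cU i = true := range_step h13 hU_13 (by norm_num)
  have h15 : ∀ i < 12800, cU i = true := range_step h14 hU_14 (by norm_num)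
  have h16 : ∀ i < 13824, cU i = true := range_step h15 hU_15 (by norm_num)
  have h17 : ∀ i < 14848, cU i = true := range_step h16 hU_16 (by norm_num)
  have h18 : ∀ i < 15872, cU i = true := range_step h17 hU_17 (by norm_num)
  have h19 : ∀ i < 16896, cU i = true := range_step h18 hU_18 (by norm_num)
  have h20 : ∀ i < 17920, cU i = true := range_step h19 hU_19 (by norm_num)
  have h21 : ∀ i < 19968, cU i = true := range_step h20 hU_20 (by norm_num)
  have h22 : ∀ i < 22016, cU i = true := range_step h21 hU_21 (by norm_num)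
  have h23 : ∀ i < 24064, cU i = true := range_step h22 hU_22 (by norm_num)
  have h24 : ∀ i < 26112, cU i = true := range_step h23 hU_23 (by norm_num)
  have h25 : ∀ i < 28160, cU i = true := range_step h24 hU_24 (by norm_num)
  have h26 : ∀ i < 30208, cU i = true := range_step h25 hU_25 (by norm_num)
  have h27 : ∀ i < 31232, cU i = true := range_step h26 hU_26 (by norm_num)
  have h28 : ∀ i < 31488, cU i = true := range_step h27 hU_27 (by norm_num)
  have h29 : ∀ i < 31616, cU i = true := range_step h28 hU_28 (by norm_num)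
  have h30 : ∀ i < 31648, cU i = true := range_step h29 hU_29 (by norm_num)
  have h31 : ∀ i < 31664, cU i = true := range_step h30 hU_30 (by norm_num)
  have h32 : ∀ i < 31668, cU i = true := range_step h31 hU_31 (by norm_num)
  have h33 : ∀ i < 31670, cU i = true := range_step h32 hU_32 (by norm_num)
  have h34 : ∀ i < 31671, cU i = true := range_step h33 hU_33 (by norm_num)
  exact h34
theorem ux : wd tab.perm [0, 7, 8, 2, 6, 7, 1, 3, 6, 5, 4] ^ 17 = 1 :=
  pow_spec tab [0, 7, 8, 2, 6, 7, 1, 3, 6, 5, 4] 17 (by decide) (fun c hc => by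
    obtain ⟨i, hi, rfl⟩ := hc
    exact hU i hi)
theorem simple : IsSimpleGroup Cfsg.Spor.Fi23 ∧ Nat.card Cfsg.Spor.Fi23 = 4089470473293004800 := by
  obtain ⟨h1, φ, p, hp0, hφ, h2, h3⟩ := core
  haveI : Finite Cfsg.Spor.Fi23 := Nat.finite_of_card_ne_zero Fi23Up.card_le.2
  have htr : ∀ c, ∃ g : Cfsg.Spor.Fi23, φ g ⟨0, tab.zero⟩ = c := by
    intro c
    obtain ⟨g, _, hg⟩ := trans_aux Fi23G.γ tab φ hφ htree c.1 c.2
    exact ⟨g, hg⟩
  obtain ⟨hinj, hcard⟩ := inj_of_card φ (by norm_num) (N.card_ge Fi23G.γ φ hφ htr) Fi23Up.card_le.1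
  refine ⟨?_, hcard⟩
  refine simple_thm2 φ hinj tab.zero htr HH p hp0 h2 h3 O.Lab O.roots 2 ![1, 28160, 3510] ?_ ?_ hlt (by decide +kernel) rfl
    (by decide +kernel) h1 (by norm_num) 17 (by norm_num) (m := 129123503308800) (by rw [hcard]; show 4089470473293004800 = 31671 * 129123503308800; norm_num) (by norm_num) (wd Fi23G.γ [0, 7, 8, 2, 6, 7, 1, 3, 6, 5, 4]) ?_ ?_
  · intro l hl
    interval_cases l
    · exact (orb φ p hφ h2 h3 0 O.root0 O.rlab0).1
    · exact (orb φ p hφ h2 h3 1 O.root1 O.rlab1).1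
    · exact (orb φ p hφ h2 h3 2 O.root2 O.rlab2).1
  · intro l
    fin_cases l
    · exact O.card0
    · exact O.card1
    · exact O.card2
  · apply hinj
    rw [map_pow, map_one]
    have e : φ (wd Fi23G.γ [0, 7, 8, 2, 6, 7, 1, 3, 6, 5, 4]) = wd tab.perm [0, 7, 8, 2, 6, 7, 1, 3, 6, 5, 4] := by
      rw [← wd_hom]
      exact wd_congr _ (fun y hy => hφ y (by revert y; decide))
    rw [e]
    exact ux
  · intro N hN hu
    haveI := hN
    have key : ∀ b ∈ Fi23Col.seeds, wd (fun y => QuotientGroup.mk' N (Fi23G.γ y)) b = 1 := by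
      intro b hb
      have h := Fi23Col.lemma_thm (fun y => QuotientGroup.mk' N (Fi23G.γ y)) (1 : Cfsg.Spor.Fi23 ⧸ N) ?_ ?_ ?_ b hb
      · have h2 : (wd (fun y => QuotientGroup.mk' N (Fi23G.γ y)) b)⁻¹ * 1 = 1 := h
        rwa [mul_one, inv_eq_one] at h2
      · intro y hy
        have hy' : y < 10 := hy
        have : Fi23G.γ (Fi23Col.inv y) = (Fi23G.γ y)⁻¹ := by
          rw [Fi23G.γ_inv y hy']
          interval_cases y <;> rfl
        rw [this, map_inv]
      · intro r hr
        rw [wd_hom]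
        have : r ∈ Fi23G.fullrels ∨ r = [0, 7, 8, 2, 6, 7, 1, 3, 6, 5, 4] := by
          revert r
          decide +kernel
        rcases this with h | h
        · rw [Fi23G.fullrels_spec r h, map_one]
        · rw [h]
          exact (QuotientGroup.eq_one_iff _).2 hu
      · intro r hr
        exact absurd hr (by simp [Fi23Col.subw])
    rw [eq_top_iff, ← Fi23G.gen_top, Subgroup.closure_le]
    rintro _ ⟨y, hy, rfl⟩
    have h := key [y] (by revert y; decide +kernel)
    rw [wd_cons, wd_nil, mul_one] at h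
    exact (QuotientGroup.eq_one_iff _).1 h
end Cfsg.Agent.H5TC.Fi23_31671.S
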