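import Cfsg.Agent.Lib.H5TC8
import Cfsg.Agent.Lib.H5TCY14080M
import Cfsg.Agent.Lib.H5TCY3159M
import Cfsg.Agent.Lib.H5TCE7_56M
import Cfsg.Agent.Lib.H5TCE6_27M
import Cfsg.Agent.Lib.H5TCD5_16M
import Cfsg.Agent.Lib.H5TCA4_120M

set_option autoImplicit false
set_option maxRecDepth 100000

namespace Cfsg.Agent.H5TC.YUp

open Cfsg.Agent.H5TC

/-- relators -/
def base : List (List ℕ) := [[0, 1, 0, 1, 0, 1], [0, 2, 0, 2], [0, 3, 0, 3], [0, 4, 0, 4], [0, 5, 0, 5], [0, 6, 0, 6], [0, 7, 0, 7], [0, 8, 0, 8], [1, 2, 1, 2, 1, 2], [1, 3, 1, 3], [1, 4, 1, 4], [1, 5, 1, 5], [1, 6, 1, 6], [1, 7, 1, 7], [1, 8, 1, 8], [2, 3, 2, 3, 2, 3], [2, 4, 2, 4], [2, 5, 2, 5], [2, 6, 2, 6], [2, 7, 2, 7], [2, 8, 2, 8], [3, 4, 3, 4, 3, 4], [3, 5, 3, 5], [3, 6, 3, 6], [3, 7, 3, 7, 3, 7], [3, 8, 3, 8], [4, 5, 4, 5, 4, 5], [4, 6, 4, 6], [4, 7, 4, 7], [4, 8, 4, 8], [5, 6, 5, 6, 5, 6], [5, 7, 5,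 7], [5, 8, 5, 8], [6, 7, 6, 7], [6, 8, 6, 8], [7, 8, 7, 8, 7, 8], [3, 2, 1, 3, 4, 5, 3, 7, 8, 3, 2, 1, 3, 4, 5, 3, 7, 8, 3, 2, 1, 3, 4, 5, 3, 7, 8, 3, 2, 1, 3, 4, 5, 3, 7, 8, 3, 2, 1, 3, 4, 5, 3, 7, 8, 3, 2, 1, 3, 4, 5, 3, 7, 8, 3, 2, 1, 3, 4, 5, 3, 7, 8, 3, 2, 1, 3, 4, 5, 3, 7, 8, 3, 2, 1, 3, 4, 5, 3, 7, 8, 3, 2, 1, 3, 4, 5, 3, 7, 8], [0, 1, 2, 3, 4, 5, 7, 0, 1, 2, 3, 4, 5, 7, 0, 1, 2, 3, 4, 5, 7, 0, 1, 2, 3, 4, 5, 7, 0, 1, 2, 3, 4, 5, 7, 0, 1, 2, 3, 4, 5, 7, 0, 1, 2, 3, 4, 5, 7, 0, 1, 2, 3, 4, 5, 7, 0, 1, 2, 3, 4, 5, 7]]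
section
variable {Γ : Type*} [Group Γ] (γ : ℕ → Γ) (hi : ∀ y < 9, (γ y)⁻¹ = γ y) (hr : ∀ r ∈ base, wd γ r = 1)
include hi hr
def ι0 : ℕ → ℕ
  | 0 => 0
  | 1 => 1
  | 2 => 2
  | 3 => 3
  | 4 => 4
  | 5 => 5
  | 6 => 6
  | 7 => 7
  | 8 => 8
  | _ => 0
theorem step0 : (Kof γ [1, 2, 3, 4, 5, 6, 7, 8]).relIndex (Kof γ [0, 1, 2, 3, 4, 5, 6, 7, 8]) ≤ 14080 ∧
    (Kof γ [1, 2, 3, 4, 5, 6, 7, 8]).relIndex (Kof γ [0, 1, 2, 3, 4, 5, 6, 7, 8]) ≠ 0 := by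
  have hinv : ∀ y < Y14080.k, γ (ι0 (Y14080.inv y)) = (γ (ι0 y))⁻¹ := by
    intro y hy
    have hy' : y < 9 := hy
    interval_cases y
    · exact (hi 0 (by norm_num)).symm
    · exact (hi 1 (by norm_num)).symm
    · exact (hi 2 (by norm_num)).symm
    · exact (hi 3 (by norm_num)).symm
    · exact (hi 4 (by norm_num)).symm
    · exact (hi 5 (by norm_num)).symm
    · exact (hi 6 (by norm_num)).symm
    · exact (hi 7 (by norm_num)).symm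
    · exact (hi 8 (by norm_num)).symm
  refine enum_step γ ι0 (k := Y14080.k) (n := Y14080.n) (E := Y14080.E) (T := Y14080.T) Y14080.tab [0, 1, 2, 3, 4, 5, 6, 7, 8] [1, 2, 3, 4, 5, 6, 7, 8] Y14080.subw (by decide) (by decide) hinv ?_
  intro x0 hx0
  exact Y14080.main (fun y => γ (ι0 y)) x0 hinv (by
    intro r hr'
    rw [wd_map]
    have : r.map ι0 ∈ base := by
      clear hr hi
      revert r
      decide +kernel
    exact hr _ this) hx0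
def ι1 : ℕ → ℕ
  | 0 => 1
  | 1 => 2
  | 2 => 3
  | 3 => 4
  | 4 => 5
  | 5 => 6
  | 6 => 7
  | 7 => 8
  | _ => 1
theorem step1 : (Kof γ [1, 2, 3, 4, 5, 6, 7]).relIndex (Kof γ [1, 2, 3, 4, 5, 6, 7, 8]) ≤ 3159 ∧
    (Kof γ [1, 2, 3, 4, 5, 6, 7]).relIndex (Kof γ [1, 2, 3, 4, 5, 6, 7, 8]) ≠ 0 := by
  have hinv : ∀ y < Y3159.k, γ (ι1 (Y3159.inv y)) = (γ (ι1 y))⁻¹ := by
    intro y hy
    have hy' : y < 8 := hy
    interval_cases y
    · exact (hi 1 (by norm_num)).symm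
    · exact (hi 2 (by norm_num)).symm
    · exact (hi 3 (by norm_num)).symm
    · exact (hi 4 (by norm_num)).symm
    · exact (hi 5 (by norm_num)).symm
    · exact (hi 6 (by norm_num)).symm
    · exact (hi 7 (by norm_num)).symm
    · exact (hi 8 (by norm_num)).symm
  refine enum_step γ ι1 (k := Y3159.k) (n := Y3159.n) (E := Y3159.E) (T := Y3159.T) Y3159.tab [1, 2, 3, 4, 5, 6, 7, 8] [1, 2, 3, 4, 5, 6, 7] Y3159.subw (by decide) (by decide) hinv ?_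
  intro x0 hx0
  exact Y3159.main (fun y => γ (ι1 y)) x0 hinv (by
    intro r hr'
    rw [wd_map]
    have : r.map ι1 ∈ base := by
      clear hr hi
      revert r
      decide +kernel
    exact hr _ this) hx0
def ι2 : ℕ → ℕ
  | 0 => 1
  | 1 => 2
  | 2 => 3
  | 3 => 4
  | 4 => 5
  | 5 => 6
  | 6 => 7
  | _ => 1
theorem step2 : (Kof γ [1, 2, 3, 4, 5, 7]).relIndex (Kof γ [1, 2, 3, 4, 5, 6, 7]) ≤ 56 ∧
    (Kof γ [1, 2, 3, 4, 5, 7]).relIndex (Kof γ [1, 2, 3, 4, 5, 6, 7]) ≠ 0 := by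
  have hinv : ∀ y < E7_56.k, γ (ι2 (E7_56.inv y)) = (γ (ι2 y))⁻¹ := by
    intro y hy
    have hy' : y < 7 := hy
    interval_cases y
    · exact (hi 1 (by norm_num)).symm
    · exact (hi 2 (by norm_num)).symm
    · exact (hi 3 (by norm_num)).symm
    · exact (hi 4 (by norm_num)).symm
    · exact (hi 5 (by norm_num)).symm
    · exact (hi 6 (by norm_num)).symm
    · exact (hi 7 (by norm_num)).symm
  refine enum_step γ ι2 (k := E7_56.k) (n := E7_56.n) (E := E7_56.E) (T := E7_56.T) E7_56.tab [1, 2, 3, 4, 5, 6, 7] [1, 2, 3, 4, 5, 7] E7_56.subw (by decide) (by decide) hinv ?_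
  intro x0 hx0
  exact E7_56.main (fun y => γ (ι2 y)) x0 hinv (by
    intro r hr'
    rw [wd_map]
    have : r.map ι2 ∈ base := by
      clear hr hi
      revert r
      decide +kernel
    exact hr _ this) hx0
def ι3 : ℕ → ℕ
  | 0 => 1
  | 1 => 2
  | 2 => 3
  | 3 => 4
  | 4 => 5
  | 5 => 7
  | _ => 1
theorem step3 : (Kof γ [2, 3, 4, 5, 7]).relIndex (Kof γ [1, 2, 3, 4, 5, 7]) ≤ 27 ∧
    (Kof γ [2, 3, 4, 5, 7]).relIndex (Kof γ [1, 2, 3, 4, 5, 7]) ≠ 0 := by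
  have hinv : ∀ y < E6_27.k, γ (ι3 (E6_27.inv y)) = (γ (ι3 y))⁻¹ := by
    intro y hy
    have hy' : y < 6 := hy
    interval_cases y
    · exact (hi 1 (by norm_num)).symm
    · exact (hi 2 (by norm_num)).symm
    · exact (hi 3 (by norm_num)).symm
    · exact (hi 4 (by norm_num)).symm
    · exact (hi 5 (by norm_num)).symm
    · exact (hi 7 (by norm_num)).symm
  refine enum_step γ ι3 (k := E6_27.k) (n := E6_27.n) (E := E6_27.E) (T := E6_27.T) E6_27.tab [1, 2, 3, 4, 5, 7] [2, 3, 4, 5, 7] E6_27.subw (by decide) (by decide) hinv ?_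
  intro x0 hx0
  exact E6_27.main (fun y => γ (ι3 y)) x0 hinv (by
    intro r hr'
    rw [wd_map]
    have : r.map ι3 ∈ base := by
      clear hr hi
      revert r
      decide +kernel
    exact hr _ this) hx0
def ι4 : ℕ → ℕ
  | 0 => 2
  | 1 => 3
  | 2 => 4
  | 3 => 5
  | 4 => 7
  | _ => 2
theorem step4 : (Kof γ [2, 3, 4, 5]).relIndex (Kof γ [2, 3, 4, 5, 7]) ≤ 16 ∧
    (Kof γ [2, 3, 4, 5]).relIndex (Kof γ [2, 3, 4, 5, 7]) ≠ 0 := by
  have hinv : ∀ y < D5_16.k, γ (ι4 (D5_16.inv y)) = (γ (ι4 y))⁻¹ := by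
    intro y hy
    have hy' : y < 5 := hy
    interval_cases y
    · exact (hi 2 (by norm_num)).symm
    · exact (hi 3 (by norm_num)).symm
    · exact (hi 4 (by norm_num)).symm
    · exact (hi 5 (by norm_num)).symm
    · exact (hi 7 (by norm_num)).symm
  refine enum_step γ ι4 (k := D5_16.k) (n := D5_16.n) (E := D5_16.E) (T := D5_16.T) D5_16.tab [2, 3, 4, 5, 7] [2, 3, 4, 5] D5_16.subw (by decide) (by decide) hinv ?_
  intro x0 hx0
  exact D5_16.main (fun y => γ (ι4 y)) x0 hinv (by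
    intro r hr'
    rw [wd_map]
    have : r.map ι4 ∈ base := by
      clear hr hi
      revert r
      decide +kernel
    exact hr _ this) hx0
def ι5 : ℕ → ℕ
  | 0 => 2
  | 1 => 3
  | 2 => 4
  | 3 => 5
  | _ => 2
theorem step5 : (Kof γ []).relIndex (Kof γ [2, 3, 4, 5]) ≤ 120 ∧
    (Kof γ []).relIndex (Kof γ [2, 3, 4, 5]) ≠ 0 := by
  have hinv : ∀ y < A4_120.k, γ (ι5 (A4_120.inv y)) = (γ (ι5 y))⁻¹ := by
    intro y hy
    have hy' : y < 4 := hy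
    interval_cases y
    · exact (hi 2 (by norm_num)).symm
    · exact (hi 3 (by norm_num)).symm
    · exact (hi 4 (by norm_num)).symm
    · exact (hi 5 (by norm_num)).symm
  refine enum_step γ ι5 (k := A4_120.k) (n := A4_120.n) (E := A4_120.E) (T := A4_120.T) A4_120.tab [2, 3, 4, 5] [] A4_120.subw (by decide) (by decide) hinv ?_
  intro x0 hx0
  exact A4_120.main (fun y => γ (ι5 y)) x0 hinv (by
    intro r hr'
    rw [wd_map]
    have : r.map ι5 ∈ base := by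
      clear hr hi
      revert r
      decide +kernel
    exact hr _ this) hx0
theorem card_le : Nat.card (Kof γ [0, 1, 2, 3, 4, 5, 6, 7, 8]) ≤ 129123503308800 ∧ Nat.card (Kof γ [0, 1, 2, 3, 4, 5, 6, 7, 8]) ≠ 0 := by
  have h6 := card_bot_le γ
  have h5 := card_step (Kof_mono γ (by decide)) (step5 γ hi hr) h6
  have h4 := card_step (Kof_mono γ (by decide)) (step4 γ hi hr) h5
  have h3 := card_step (Kof_mono γ (by decide)) (step3 γ hi hr) h4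
  have h2 := card_step (Kof_mono γ (by decide)) (step2 γ hi hr) h3
  have h1 := card_step (Kof_mono γ (by decide)) (step1 γ hi hr) h2
  have h0 := card_step (Kof_mono γ (by decide)) (step0 γ hi hr) h1
  exact ⟨h0.1.trans (by norm_num), h0.2⟩
end
end Cfsg.Agent.H5TC.YUp
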