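import Cfsg.Agent.Lib.H5TCCover
import Cfsg.Agent.Lib.H5TCYUp
import Cfsg.Agent.Lib.H5TCFi23_31671S
import Cfsg.Agent.Lib.H5TCFi22_3510S

set_option autoImplicit false
set_option linter.style.haveILetI false

namespace Cfsg.Agent.H5TC.Fi23Cov

open Cfsg.Agent.H5TC

def ι : ℕ → ℕ
  | 7 => 8
  | 8 => 9
  | y => y

def ls : List ℕ := [0, 1, 2, 3, 4, 5, 6, 7, 8]

noncomputable def γ1 (y : ℕ) : Cfsg.Spor.Fi23 := Fi23G.γ (ι y)

theorem γ1_inv : ∀ y < 9, (γ1 y)⁻¹ = γ1 y := by
  intro y hy
  apply Fi23G.γ_inv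
  interval_cases y <;> decide

theorem rel1 : ∀ r ∈ YUp.base, wd γ1 r = 1 := by
  intro r hr
  show wd (fun y => Fi23G.γ (ι y)) r = 1
  rw [wd_map]
  have : r.map ι ∈ Fi23G.fullrels := by
    revert r
    decide +kernel
  exact Fi23G.fullrels_spec _ this

theorem rel2 : ∀ r ∈ YUp.base, wd Fi22G.γ r = 1 := by
  intro r hr
  have : r ∈ Fi22G.fullrels := by
    revert r
    decide +kernel
  exact Fi22G.fullrels_spec _ this

theorem HH_eq : Fi23_31671.HH = Kof γ1 ls := by
  rw [Fi23_31671.HH_eq]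
  unfold Kof
  congr 1
  ext g
  simp only [Fi23_31671.subw, ls, List.mem_cons, List.not_mem_nil, or_false, Set.mem_setOf_eq,
    exists_eq_or_imp, exists_eq_left, wd_cons, wd_nil, mul_one]
  rfl

theorem card_HH : Nat.card Fi23_31671.HH = 129123503308800 := by
  obtain ⟨h1, _⟩ := Fi23_31671.core
  have h2 := Fi23_31671.HH.card_mul_index
  rw [h1, Fi23_31671.S.simple.2] at h2
  have h3 : (Fi23_31671.n : ℕ) = 31671 := rfl
  rw [h3] at h2
  have h4 : Nat.card Fi23_31671.HH * 31671 = 129123503308800 * 31671 := h2.trans (by norm_num)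
  exact Nat.eq_of_mul_eq_mul_right (by norm_num) h4

theorem exψ : ∃ ψ : Kof γ1 ls →* Cfsg.Spor.Fi22, ∀ y (hy : y ∈ ls), ψ ⟨γ1 y, Kof_mem γ1 hy⟩ = Fi22G.γ y := by
  have hi : ∀ y < 9, ((γ1 y, Fi22G.γ y) : Cfsg.Spor.Fi23 × Cfsg.Spor.Fi22)⁻¹ = (γ1 y, Fi22G.γ y) := by
    intro y hy
    rw [Prod.inv_mk, γ1_inv y hy, Fi22G.γ_inv y hy]
  have hr : ∀ r ∈ YUp.base, wd (fun y => (γ1 y, Fi22G.γ y)) r = 1 := by
    intro r hr
    rw [wd_prod, rel1 r hr, rel2 r hr]
    rfl
  obtain ⟨h1, h2⟩ := YUp.card_le (fun y => (γ1 y, Fi22G.γ y)) hi hr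
  refine pair_hom γ1 Fi22G.γ ls h1 h2 ?_
  rw [← HH_eq, card_HH]

/-- the group `⟨a, …, i⟩` has no subgroup of index two -/
theorem no_index_two (L : Subgroup (Kof γ1 ls)) : L.index ≠ 2 := by
  intro hL
  haveI : L.Normal := Subgroup.normal_of_index_eq_two hL
  set Q := (Kof γ1 ls) ⧸ L with hQ
  have hQ2 : Nat.card Q = 2 := hL
  haveI : Finite Q := Nat.finite_of_card_ne_zero (by rw [hQ2]; norm_num)
  have hsq : ∀ q : Q, q * q = 1 := by
    intro q
    have := pow_card_eq_one' (x := q)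
    rw [hQ2, pow_two] at this
    exact this
  have hcomm : ∀ p q : Q, p * q = q * p := by
    intro p q
    have h1 := hsq (p * q)
    have hp := hsq p
    have hq := hsq q
    calc p * q = (p * q) * ((p * q) * (p * q))⁻¹ := by rw [h1]; simp
      _ = (p * q)⁻¹ := by group
      _ = q⁻¹ * p⁻¹ := mul_inv_rev p q
      _ = q * p := by rw [inv_eq_of_mul_eq_one_left hq, inv_eq_of_mul_eq_one_left hp]
  let t : ℕ → Q := fun y => if h : y ∈ ls then QuotientGroup.mk ⟨γ1 y, Kof_mem γ1 h⟩ else 1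
  have ht : ∀ w : List ℕ, (∀ y ∈ w, y ∈ ls) → wd γ1 w = 1 → wd t w = 1 := by
    intro w hw h
    have key : ∀ w : List ℕ, (∀ y ∈ w, y ∈ ls) → ∃ hm : wd γ1 w ∈ Kof γ1 ls, wd t w = QuotientGroup.mk ⟨wd γ1 w, hm⟩ := by
      intro w
      induction w with
      | nil => intro _; exact ⟨one_mem _, rfl⟩
      | cons a w ih =>
        intro hw
        obtain ⟨hm, he⟩ := ih (fun y hy => hw y (List.mem_cons_of_mem _ hy))
        have ha := hw a List.mem_cons_self
        refine ⟨by rw [wd_cons]; exact mul_mem (Kof_mem γ1 ha) hm, ?_⟩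
        rw [wd_cons, he]
        simp only [t, dif_pos ha]
        rw [← QuotientGroup.mk_mul]
        rfl
    obtain ⟨hm, he⟩ := key w hw
    rw [he]
    have : (⟨wd γ1 w, hm⟩ : Kof γ1 ls) = 1 := Subtype.ext h
    rw [this, QuotientGroup.mk_one]
  have heq : ∀ x y : ℕ, [x, y, x, y, x, y] ∈ YUp.base → x ∈ ls → y ∈ ls → t x = t y := by
    intro x y h hx hy
    have h1 := ht _ (by intro z hz; simp at hz; rcases hz with rfl | rfl | rfl | rfl | rfl | rfl <;> assumption) (rel1 _ h)
    simp only [wd_cons, wd_nil, mul_one] at h1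
    have h2 : t x * (t y * (t x * (t y * (t x * t y)))) = t x * t y := by
      have : t x * (t y * (t x * (t y * (t x * t y)))) = ((t x * t y) * (t x * t y)) * (t x * t y) := by group
      rw [this, hsq, one_mul]
    rw [h2] at h1
    rw [mul_eq_one_iff_eq_inv] at h1
    rw [h1]
    exact inv_eq_of_mul_eq_one_left (hsq _)
  have h01 := heq 0 1 (by decide +kernel) (by decide) (by decide)
  have h12 := heq 1 2 (by decide +kernel) (by decide) (by decide)
  have h23 := heq 2 3 (by decide +kernel) (by decide) (by decide)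
  have h34 := heq 3 4 (by decide +kernel) (by decide) (by decide)
  have h37 := heq 3 7 (by decide +kernel) (by decide) (by decide)
  have h45 := heq 4 5 (by decide +kernel) (by decide) (by decide)
  have h56 := heq 5 6 (by decide +kernel) (by decide) (by decide)
  have h78 := heq 7 8 (by decide +kernel) (by decide) (by decide)
  -- the E7 relation
  have hE := ht (List.replicate 9 [0, 1, 2, 3, 4, 5, 7]).flatten (by decide) (rel1 _ (by decide +kernel))
  have h3 : ∀ y ∈ ls, t y = t 3 := by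
    intro y hy
    simp only [ls, List.mem_cons, List.not_mem_nil, or_false] at hy
    rcases hy with rfl | rfl | rfl | rfl | rfl | rfl | rfl | rfl | rfl
    · rw [h01, h12, h23]
    · rw [h12, h23]
    · rw [h23]
    · rfl
    · rw [h34]
    · rw [← h45, h34]
    · rw [← h56, ← h45, h34]
    · rw [h37]
    · rw [← h78, h37]
  have h4 : t 3 = 1 := by
    rw [wd_flatten_replicate] at hE
    simp only [wd_cons, wd_nil, mul_one] at hE
    rw [h3 0 (by decide), h3 1 (by decide), h3 2 (by decide), h3 4 (by decide), h3 5 (by decide), h3 7 (by decide)] at hE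
    have h5 : t 3 * (t 3 * (t 3 * (t 3 * (t 3 * (t 3 * t 3))))) = t 3 := by
      have : t 3 * (t 3 * (t 3 * (t 3 * (t 3 * (t 3 * t 3))))) = (t 3 * t 3) * ((t 3 * t 3) * ((t 3 * t 3) * t 3)) := by group
      rw [this, hsq, one_mul, one_mul, one_mul]
    rw [h5] at hE
    have h6 : t 3 ^ 9 = t 3 := by
      have : t 3 ^ 9 = (t 3 * t 3) * ((t 3 * t 3) * ((t 3 * t 3) * ((t 3 * t 3) * t 3))) := by
        simp only [pow_succ, pow_zero, one_mul, mul_assoc]
      rw [this, hsq, one_mul, one_mul, one_mul, one_mul]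
    rw [h6] at hE
    exact hE
  -- hence L is everything
  have htop : L = ⊤ := by
    have h7 : ∀ g (hg : g ∈ Kof γ1 ls), (⟨g, hg⟩ : Kof γ1 ls) ∈ L := by
      intro g hg
      induction hg using Subgroup.closure_induction with
      | mem x hx =>
        obtain ⟨y, hy, rfl⟩ := hx
        have h8 := h3 y hy
        rw [h4] at h8
        simp only [t, dif_pos hy] at h8
        exact (QuotientGroup.eq_one_iff _).1 h8
      | one => exact L.one_mem
      | mul x y hx hy h1 h2 => exact L.mul_mem h1 h2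
      | inv x hx h1 => exact L.inv_mem h1
    rw [eq_top_iff]
    rintro ⟨g, hg⟩ -
    exact h7 g hg
  rw [htop, Subgroup.index_top] at hL
  exact absurd hL (by norm_num)

theorem cover : Cfsg.IsNonsplitDoubleCover (Kof γ1 ls) Cfsg.Spor.Fi22 := by
  obtain ⟨ψ, hψ⟩ := exψ
  have hs : Function.Surjective ψ := by
    rw [← MonoidHom.range_eq_top, eq_top_iff, ← Fi22G.gen_top, Subgroup.closure_le]
    rintro _ ⟨y, hy, rfl⟩
    have hy' : y ∈ ls := by
      interval_cases y <;> decide
    exact ⟨_, hψ y hy'⟩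
  refine nonsplit_of ψ hs ?_ ?_ no_index_two
  · have h1 : Nat.card (Kof γ1 ls) = 129123503308800 := by rw [← HH_eq, card_HH]
    have h2 := ψ.ker.card_mul_index
    rw [Subgroup.index_ker, MonoidHom.range_eq_top.2 hs, Subgroup.card_top, Fi22_3510.S.simple.2, h1] at h2
    have : Nat.card ψ.ker * 64561751654400 = 2 * 64561751654400 := by rw [h2]
    exact Nat.eq_of_mul_eq_mul_right (by norm_num) this
  · apply center_simple Fi22_3510.S.simple.1
    -- Fi22 is not abelian
    by_contra hcon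
    have hcon : ∀ a b : Cfsg.Spor.Fi22, a * b = b * a := by
      intro a b
      by_contra h
      exact hcon ⟨a, b, h⟩
    haveI := Fi22_3510.S.simple.1
    letI : CommGroup Cfsg.Spor.Fi22 := { (inferInstance : Group Cfsg.Spor.Fi22) with mul_comm := hcon }
    have hp : (Nat.card Cfsg.Spor.Fi22).Prime := by
      haveI : IsSimpleGroup Cfsg.Spor.Fi22 := Fi22_3510.S.simple.1
      haveI : Finite Cfsg.Spor.Fi22 := Nat.finite_of_card_ne_zero (by rw [Fi22_3510.S.simple.2]; norm_num)
      exact IsSimpleGroup.prime_card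
    rw [Fi22_3510.S.simple.2] at hp
    exact absurd hp (by norm_num)

end Cfsg.Agent.H5TC.Fi23Cov
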