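import Cfsg.Agent.Lib.H5TCFi23_31671S

set_option autoImplicit false
set_option maxRecDepth 1000000
set_option maxHeartbeats 0
set_option Elab.async false

namespace Cfsg.Agent.H5TC.Fi23Z

open Cfsg.Agent.H5TC
open Cfsg.Agent.H5TC.Fi23_31671
set_option linter.style.haveILetI false


theorem rel_of_perm (w : List ℕ) (hw : ∀ y ∈ w, y < k) (h : wd tab.perm w = 1) : wd Fi23G.γ w = 1 := by
  obtain ⟨h1, φ, p, hp0, hφ, h2, h3⟩ := core
  haveI : Finite Cfsg.Spor.Fi23 := Nat.finite_of_card_ne_zero Fi23Up.card_le.2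
  have htr : ∀ c, ∃ g : Cfsg.Spor.Fi23, φ g ⟨0, tab.zero⟩ = c := by
    intro c
    obtain ⟨g, _, hg⟩ := trans_aux Fi23G.γ tab φ hφ htree c.1 c.2
    exact ⟨g, hg⟩
  obtain ⟨hinj, hcard⟩ := inj_of_card φ (by norm_num) (N.card_ge Fi23G.γ φ hφ htr) Fi23Up.card_le.1
  apply hinj
  rw [map_one]
  have e : φ (wd Fi23G.γ w) = wd tab.perm w := by
    rw [← wd_hom]
    exact wd_congr _ (fun y hy => hφ y (hw y hy))
  rw [e]
  exact h
attribute [local irreducible] f0 f1 f2 f3 f4 f5 f6 f7 f8 f9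
noncomputable def c_zz (i : ℕ) : Bool := (fun c => (fun d1 => @Bool.rec (fun _ => Bool) (Nat.beq d1 c) true (Nat.blt d1 c)) (f7 (f6 (f5 (f4 (f3 (f2 (f1 (f0 (f8 (f3 (f2 (f4 (f3 (f5 (f4 (f6 (f5 (f7 (f6 (f8 (f3 (f2 (f4 (f3 (f5 (f4 (f8 (f3 (f2 (f1 (f0 (f1 (f2 (f3 (f8 (f4 (f5 (f3 (f4 (f2 (f3 (f8 (f6 (f7 (f5 (f6 (f4 (f5 (f3 (f4 (f2 (f3 (f8 (f0 (f1 (f2 (f3 (f4 (f5 (f6 (f7 (f8 (f6 (f5 (f4 (f3 (f2 (f1 (f8 (f6 (f5 (f4 (f3 (f2 (f1 (f8 (f6 (f5 (f4 (f3 (f2 (f1 (f8 (f6 (f5 (f4 (f3 (f2 (f1 (f8 (f6 (f5 (f4 (f3 (f2 (f1 (f8 (f6 (f5 (f4 (f3 (f2 (f1 (f8 (f6 (f5 (f4 (f3 (f2 (f1 (f8 (f6 (f5 (f4 (f3 (f2 (f1 (f8 (f6 (f5 (f4 (f3 (f2 (f1 (c)))))))))))))))))))))))))))))))))))))))))))))))))))))))))))))))))))))))))))))))))))))))))))))))))))))))))))))))))))))))))))))) (Nat.mul 20 i)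
theorem h_zz_0 : all2 c_zz 9 0 = true := by decide +kernel
theorem h_zz_1 : all2 c_zz 9 512 = true := by decide +kernel
theorem h_zz_2 : all2 c_zz 9 1024 = true := by decide +kernel
theorem h_zz_3 : all2 c_zz 9 1536 = true := by decide +kernel
theorem h_zz_4 : all2 c_zz 9 2048 = true := by decide +kernel
theorem h_zz_5 : all2 c_zz 9 2560 = true := by decide +kernel
theorem h_zz_6 : all2 c_zz 9 3072 = true := by decide +kernel
theorem h_zz_7 : all2 c_zz 9 3584 = true := by decide +kernel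
theorem h_zz_8 : all2 c_zz 9 4096 = true := by decide +kernel
theorem h_zz_9 : all2 c_zz 9 4608 = true := by decide +kernel
theorem h_zz_10 : all2 c_zz 9 5120 = true := by decide +kernel
theorem h_zz_11 : all2 c_zz 9 5632 = true := by decide +kernel
theorem h_zz_12 : all2 c_zz 9 6144 = true := by decide +kernel
theorem h_zz_13 : all2 c_zz 9 6656 = true := by decide +kernel
theorem h_zz_14 : all2 c_zz 9 7168 = true := by decide +kernel
theorem h_zz_15 : all2 c_zz 9 7680 = true := by decide +kernel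
theorem h_zz_16 : all2 c_zz 9 8192 = true := by decide +kernel
theorem h_zz_17 : all2 c_zz 9 8704 = true := by decide +kernel
theorem h_zz_18 : all2 c_zz 9 9216 = true := by decide +kernel
theorem h_zz_19 : all2 c_zz 9 9728 = true := by decide +kernel
theorem h_zz_20 : all2 c_zz 9 10240 = true := by decide +kernel
theorem h_zz_21 : all2 c_zz 9 10752 = true := by decide +kernel
theorem h_zz_22 : all2 c_zz 9 11264 = true := by decide +kernel
theorem h_zz_23 : all2 c_zz 9 11776 = true := by decide +kernel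
theorem h_zz_24 : all2 c_zz 9 12288 = true := by decide +kernel
theorem h_zz_25 : all2 c_zz 9 12800 = true := by decide +kernel
theorem h_zz_26 : all2 c_zz 9 13312 = true := by decide +kernel
theorem h_zz_27 : all2 c_zz 9 13824 = true := by decide +kernel
theorem h_zz_28 : all2 c_zz 9 14336 = true := by decide +kernel
theorem h_zz_29 : all2 c_zz 9 14848 = true := by decide +kernel
theorem h_zz_30 : all2 c_zz 9 15360 = true := by decide +kernel
theorem h_zz_31 : all2 c_zz 9 15872 = true := by decide +kernel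
theorem h_zz_32 : all2 c_zz 9 16384 = true := by decide +kernel
theorem h_zz_33 : all2 c_zz 9 16896 = true := by decide +kernel
theorem h_zz_34 : all2 c_zz 9 17408 = true := by decide +kernel
theorem h_zz_35 : all2 c_zz 9 17920 = true := by decide +kernel
theorem h_zz_36 : all2 c_zz 9 18432 = true := by decide +kernel
theorem h_zz_37 : all2 c_zz 9 18944 = true := by decide +kernel
theorem h_zz_38 : all2 c_zz 9 19456 = true := by decide +kernel
theorem h_zz_39 : all2 c_zz 9 19968 = true := by decide +kernel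
theorem h_zz_40 : all2 c_zz 9 20480 = true := by decide +kernel
theorem h_zz_41 : all2 c_zz 9 20992 = true := by decide +kernel
theorem h_zz_42 : all2 c_zz 9 21504 = true := by decide +kernel
theorem h_zz_43 : all2 c_zz 9 22016 = true := by decide +kernel
theorem h_zz_44 : all2 c_zz 9 22528 = true := by decide +kernel
theorem h_zz_45 : all2 c_zz 9 23040 = true := by decide +kernel
theorem h_zz_46 : all2 c_zz 9 23552 = true := by decide +kernel
theorem h_zz_47 : all2 c_zz 9 24064 = true := by decide +kernel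
theorem h_zz_48 : all2 c_zz 9 24576 = true := by decide +kernel
theorem h_zz_49 : all2 c_zz 9 25088 = true := by decide +kernel
theorem h_zz_50 : all2 c_zz 9 25600 = true := by decide +kernel
theorem h_zz_51 : all2 c_zz 9 26112 = true := by decide +kernel
theorem h_zz_52 : all2 c_zz 9 26624 = true := by decide +kernel
theorem h_zz_53 : all2 c_zz 9 27136 = true := by decide +kernel
theorem h_zz_54 : all2 c_zz 9 27648 = true := by decide +kernel
theorem h_zz_55 : all2 c_zz 9 28160 = true := by decide +kernel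
theorem h_zz_56 : all2 c_zz 9 28672 = true := by decide +kernel
theorem h_zz_57 : all2 c_zz 9 29184 = true := by decide +kernel
theorem h_zz_58 : all2 c_zz 9 29696 = true := by decide +kernel
theorem h_zz_59 : all2 c_zz 9 30208 = true := by decide +kernel
theorem h_zz_60 : all2 c_zz 9 30720 = true := by decide +kernel
theorem h_zz_61 : all2 c_zz 8 31232 = true := by decide +kernel
theorem h_zz_62 : all2 c_zz 7 31488 = true := by decide +kernel
theorem h_zz_63 : all2 c_zz 5 31616 = true := by decide +kernel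
theorem h_zz_64 : all2 c_zz 4 31648 = true := by decide +kernel
theorem h_zz_65 : all2 c_zz 2 31664 = true := by decide +kernel
theorem h_zz_66 : all2 c_zz 1 31668 = true := by decide +kernel
theorem h_zz_67 : all2 c_zz 0 31670 = true := by decide +kernel
theorem h_zz : ∀ i < 31671, c_zz i = true := by
  have h0 : ∀ i < 0, c_zz i = true := fun i hi => absurd hi (Nat.not_lt_zero i)
  have h1 : ∀ i < 512, c_zz i = true := range_step h0 h_zz_0 (by norm_num)
  have h2 : ∀ i < 1024, c_zz i = true := range_step h1 h_zz_1 (by norm_num)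
  have h3 : ∀ i < 1536, c_zz i = true := range_step h2 h_zz_2 (by norm_num)
  have h4 : ∀ i < 2048, c_zz i = true := range_step h3 h_zz_3 (by norm_num)
  have h5 : ∀ i < 2560, c_zz i = true := range_step h4 h_zz_4 (by norm_num)
  have h6 : ∀ i < 3072, c_zz i = true := range_step h5 h_zz_5 (by norm_num)
  have h7 : ∀ i < 3584, c_zz i = true := range_step h6 h_zz_6 (by norm_num)
  have h8 : ∀ i < 4096, c_zz i = true := range_step h7 h_zz_7 (by norm_num)
  have h9 : ∀ i < 4608, c_zz i = true := range_step h8 h_zz_8 (by norm_num)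
  have h10 : ∀ i < 5120, c_zz i = true := range_step h9 h_zz_9 (by norm_num)
  have h11 : ∀ i < 5632, c_zz i = true := range_step h10 h_zz_10 (by norm_num)
  have h12 : ∀ i < 6144, c_zz i = true := range_step h11 h_zz_11 (by norm_num)
  have h13 : ∀ i < 6656, c_zz i = true := range_step h12 h_zz_12 (by norm_num)
  have h14 : ∀ i < 7168, c_zz i = true := range_step h13 h_zz_13 (by norm_num)
  have h15 : ∀ i < 7680, c_zz i = true := range_step h14 h_zz_14 (by norm_num)
  have h16 : ∀ i < 8192, c_zz i = true := range_step h15 h_zz_15 (by norm_num)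
  have h17 : ∀ i < 8704, c_zz i = true := range_step h16 h_zz_16 (by norm_num)
  have h18 : ∀ i < 9216, c_zz i = true := range_step h17 h_zz_17 (by norm_num)
  have h19 : ∀ i < 9728, c_zz i = true := range_step h18 h_zz_18 (by norm_num)
  have h20 : ∀ i < 10240, c_zz i = true := range_step h19 h_zz_19 (by norm_num)
  have h21 : ∀ i < 10752, c_zz i = true := range_step h20 h_zz_20 (by norm_num)
  have h22 : ∀ i < 11264, c_zz i = true := range_step h21 h_zz_21 (by norm_num)
  have h23 : ∀ i < 11776, c_zz i = true := range_step h22 h_zz_22 (by norm_num)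
  have h24 : ∀ i < 12288, c_zz i = true := range_step h23 h_zz_23 (by norm_num)
  have h25 : ∀ i < 12800, c_zz i = true := range_step h24 h_zz_24 (by norm_num)
  have h26 : ∀ i < 13312, c_zz i = true := range_step h25 h_zz_25 (by norm_num)
  have h27 : ∀ i < 13824, c_zz i = true := range_step h26 h_zz_26 (by norm_num)
  have h28 : ∀ i < 14336, c_zz i = true := range_step h27 h_zz_27 (by norm_num)
  have h29 : ∀ i < 14848, c_zz i = true := range_step h28 h_zz_28 (by norm_num)
  have h30 : ∀ i < 15360, c_zz i = true := range_step h29 h_zz_29 (by norm_num)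
  have h31 : ∀ i < 15872, c_zz i = true := range_step h30 h_zz_30 (by norm_num)
  have h32 : ∀ i < 16384, c_zz i = true := range_step h31 h_zz_31 (by norm_num)
  have h33 : ∀ i < 16896, c_zz i = true := range_step h32 h_zz_32 (by norm_num)
  have h34 : ∀ i < 17408, c_zz i = true := range_step h33 h_zz_33 (by norm_num)
  have h35 : ∀ i < 17920, c_zz i = true := range_step h34 h_zz_34 (by norm_num)
  have h36 : ∀ i < 18432, c_zz i = true := range_step h35 h_zz_35 (by norm_num)
  have h37 : ∀ i < 18944, c_zz i = true := range_step h36 h_zz_36 (by norm_num)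
  have h38 : ∀ i < 19456, c_zz i = true := range_step h37 h_zz_37 (by norm_num)
  have h39 : ∀ i < 19968, c_zz i = true := range_step h38 h_zz_38 (by norm_num)
  have h40 : ∀ i < 20480, c_zz i = true := range_step h39 h_zz_39 (by norm_num)
  have h41 : ∀ i < 20992, c_zz i = true := range_step h40 h_zz_40 (by norm_num)
  have h42 : ∀ i < 21504, c_zz i = true := range_step h41 h_zz_41 (by norm_num)
  have h43 : ∀ i < 22016, c_zz i = true := range_step h42 h_zz_42 (by norm_num)
  have h44 : ∀ i < 22528, c_zz i = true := range_step h43 h_zz_43 (by norm_num)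
  have h45 : ∀ i < 23040, c_zz i = true := range_step h44 h_zz_44 (by norm_num)
  have h46 : ∀ i < 23552, c_zz i = true := range_step h45 h_zz_45 (by norm_num)
  have h47 : ∀ i < 24064, c_zz i = true := range_step h46 h_zz_46 (by norm_num)
  have h48 : ∀ i < 24576, c_zz i = true := range_step h47 h_zz_47 (by norm_num)
  have h49 : ∀ i < 25088, c_zz i = true := range_step h48 h_zz_48 (by norm_num)
  have h50 : ∀ i < 25600, c_zz i = true := range_step h49 h_zz_49 (by norm_num)
  have h51 : ∀ i < 26112, c_zz i = true := range_step h50 h_zz_50 (by norm_num)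
  have h52 : ∀ i < 26624, c_zz i = true := range_step h51 h_zz_51 (by norm_num)
  have h53 : ∀ i < 27136, c_zz i = true := range_step h52 h_zz_52 (by norm_num)
  have h54 : ∀ i < 27648, c_zz i = true := range_step h53 h_zz_53 (by norm_num)
  have h55 : ∀ i < 28160, c_zz i = true := range_step h54 h_zz_54 (by norm_num)
  have h56 : ∀ i < 28672, c_zz i = true := range_step h55 h_zz_55 (by norm_num)
  have h57 : ∀ i < 29184, c_zz i = true := range_step h56 h_zz_56 (by norm_num)
  have h58 : ∀ i < 29696, c_zz i = true := range_step h57 h_zz_57 (by norm_num)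
  have h59 : ∀ i < 30208, c_zz i = true := range_step h58 h_zz_58 (by norm_num)
  have h60 : ∀ i < 30720, c_zz i = true := range_step h59 h_zz_59 (by norm_num)
  have h61 : ∀ i < 31232, c_zz i = true := range_step h60 h_zz_60 (by norm_num)
  have h62 : ∀ i < 31488, c_zz i = true := range_step h61 h_zz_61 (by norm_num)
  have h63 : ∀ i < 31616, c_zz i = true := range_step h62 h_zz_62 (by norm_num)
  have h64 : ∀ i < 31648, c_zz i = true := range_step h63 h_zz_63 (by norm_num)
  have h65 : ∀ i < 31664, c_zz i = true := range_step h64 h_zz_64 (by norm_num)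
  have h66 : ∀ i < 31668, c_zz i = true := range_step h65 h_zz_65 (by norm_num)
  have h67 : ∀ i < 31670, c_zz i = true := range_step h66 h_zz_66 (by norm_num)
  have h68 : ∀ i < 31671, c_zz i = true := range_step h67 h_zz_67 (by norm_num)
  exact h68
theorem zz : wd Fi23G.γ [1, 2, 3, 4, 5, 6, 8, 1, 2, 3, 4, 5, 6, 8, 1, 2, 3, 4, 5, 6, 8, 1, 2, 3, 4, 5, 6, 8, 1, 2, 3, 4, 5, 6, 8, 1, 2, 3, 4, 5, 6, 8, 1, 2, 3, 4, 5, 6, 8, 1, 2, 3, 4, 5, 6, 8, 1, 2, 3, 4, 5, 6, 8, 7, 6, 5, 4, 3, 2, 1, 0, 8, 3, 2, 4, 3, 5, 4, 6, 5, 7, 6, 8, 3, 2, 4, 3, 5, 4, 8, 3, 2, 1, 0, 1, 2, 3, 8, 4, 5, 3, 4, 2, 3, 8, 6, 7, 5, 6, 4, 5, 3, 4, 2, 3, 8, 0, 1, 2, 3, 4, 5, 6, 7] ^ 1 = 1 := by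
  have h : wd tab.perm [1, 2, 3, 4, 5, 6, 8, 1, 2, 3, 4, 5, 6, 8, 1, 2, 3, 4, 5, 6, 8, 1, 2, 3, 4, 5, 6, 8, 1, 2, 3, 4, 5, 6, 8, 1, 2, 3, 4, 5, 6, 8, 1, 2, 3, 4, 5, 6, 8, 1, 2, 3, 4, 5, 6, 8, 1, 2, 3, 4, 5, 6, 8, 7, 6, 5, 4, 3, 2, 1, 0, 8, 3, 2, 4, 3, 5, 4, 6, 5, 7, 6, 8, 3, 2, 4, 3, 5, 4, 8, 3, 2, 1, 0, 1, 2, 3, 8, 4, 5, 3, 4, 2, 3, 8, 6, 7, 5, 6, 4, 5, 3, 4, 2, 3, 8, 0, 1, 2, 3, 4, 5, 6, 7] ^ 1 = 1 :=
    pow_spec tab [1, 2, 3, 4, 5, 6, 8, 1, 2, 3, 4, 5, 6, 8, 1, 2, 3, 4, 5, 6, 8, 1, 2, 3, 4, 5, 6, 8, 1, 2, 3, 4, 5, 6, 8, 1, 2, 3, 4, 5, 6, 8, 1, 2, 3, 4, 5, 6, 8, 1, 2, 3, 4, 5, 6, 8, 1, 2, 3, 4, 5, 6, 8, 7, 6, 5, 4, 3, 2, 1, 0, 8, 3, 2, 4, 3, 5, 4, 6, 5, 7, 6, 8, 3, 2, 4, 3, 5, 4, 8, 3, 2, 1, 0, 1, 2, 3, 8, 4, 5, 3, 4, 2, 3, 8, 6, 7, 5, 6, 4, 5, 3, 4, 2, 3, 8, 0, 1, 2, 3, 4, 5, 6, 7] 1 (by decide) (fun c hc => by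
      obtain ⟨i, hi, rfl⟩ := hc
      exact h_zz i hi)
  rw [← wd_flatten_replicate] at h ⊢
  exact rel_of_perm _ (by decide) h
end Cfsg.Agent.H5TC.Fi23Z
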