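import Cfsg.Agent.Lib.H5TCFi23_31671
import Cfsg.Agent.Lib.H5TC6

set_option autoImplicit false
set_option maxRecDepth 1000000
set_option maxHeartbeats 0
set_option Elab.async false

namespace Cfsg.Agent.H5TC.Fi23_31671

open Cfsg.Agent.H5TC

noncomputable def cP (i : ℕ) : Bool := chkP T PV PX k 20 633420 (Nat.mul 20 (Nat.succ i))
theorem hP_0 : all2 cP 13 0 = true := by decide +kernel
theorem hP_1 : all2 cP 13 8192 = true := by decide +kernel
theorem hP_2 : all2 cP 13 16384 = true := by decide +kernel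
theorem hP_3 : all2 cP 12 24576 = true := by decide +kernel
theorem hP_4 : all2 cP 11 28672 = true := by decide +kernel
theorem hP_5 : all2 cP 9 30720 = true := by decide +kernel
theorem hP_6 : all2 cP 8 31232 = true := by decide +kernel
theorem hP_7 : all2 cP 7 31488 = true := by decide +kernel
theorem hP_8 : all2 cP 5 31616 = true := by decide +kernel
theorem hP_9 : all2 cP 4 31648 = true := by decide +kernel
theorem hP_10 : all2 cP 2 31664 = true := by decide +kernel
theorem hP_11 : all2 cP 1 31668 = true := by decide +kernel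
theorem hP : ∀ i < 31670, cP i = true := by
  have h0 : ∀ i < 0, cP i = true := fun i hi => absurd hi (Nat.not_lt_zero i)
  have h1 : ∀ i < 8192, cP i = true := range_step h0 hP_0 (by norm_num)
  have h2 : ∀ i < 16384, cP i = true := range_step h1 hP_1 (by norm_num)
  have h3 : ∀ i < 24576, cP i = true := range_step h2 hP_2 (by norm_num)
  have h4 : ∀ i < 28672, cP i = true := range_step h3 hP_3 (by norm_num)
  have h5 : ∀ i < 30720, cP i = true := range_step h4 hP_4 (by norm_num)
  have h6 : ∀ i < 31232, cP i = true := range_step h5 hP_5 (by norm_num)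
  have h7 : ∀ i < 31488, cP i = true := range_step h6 hP_6 (by norm_num)
  have h8 : ∀ i < 31616, cP i = true := range_step h7 hP_7 (by norm_num)
  have h9 : ∀ i < 31648, cP i = true := range_step h8 hP_8 (by norm_num)
  have h10 : ∀ i < 31664, cP i = true := range_step h9 hP_9 (by norm_num)
  have h11 : ∀ i < 31668, cP i = true := range_step h10 hP_10 (by norm_num)
  have h12 : ∀ i < 31670, cP i = true := range_step h11 hP_11 (by norm_num)
  exact h12
theorem htree : ∀ c, Vc E n c → c ≠ 0 → ∃ y < k, ∃ d < c, Vc E n d ∧ T y d = c :=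
  htree_of hP
attribute [local irreducible] f0 f1 f2 f3 f4 f5 f6 f7 f8 f9
noncomputable def cq0_1 (i : ℕ) : Bool := (fun c => (fun d1 => @Bool.rec (fun _ => Bool) ((fun d2 => @Bool.rec (fun _ => Bool) ((fun d3 => @Bool.rec (fun _ => Bool) ((fun d4 => @Bool.rec (fun _ => Bool) ((fun d5 => @Bool.rec (fun _ => Bool) ((fun d6 => @Bool.rec (fun _ => Bool) (Nat.beq d6 c) true (Nat.blt d6 c)) (f1 (d5))) true (Nat.blt d5 c)) (f0 (d4))) true (Nat.blt d4 c)) (f1 (d3))) true (Nat.blt d3 c)) (f0 (d2))) true (Nat.blt d2 c)) (f1 (d1))) true (Nat.blt d1 c)) (f0 (c))) (Nat.mul 20 i)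
theorem hq0_1_0 : all2 cq0_1 14 0 = true := by decide +kernel
theorem hq0_1_1 : all2 cq0_1 13 16384 = true := by decide +kernel
theorem hq0_1_2 : all2 cq0_1 12 24576 = true := by decide +kernel
theorem hq0_1_3 : all2 cq0_1 11 28672 = true := by decide +kernel
theorem hq0_1_4 : all2 cq0_1 9 30720 = true := by decide +kernel
theorem hq0_1_5 : all2 cq0_1 8 31232 = true := by decide +kernel
theorem hq0_1_6 : all2 cq0_1 7 31488 = true := by decide +kernel
theorem hq0_1_7 : all2 cq0_1 5 31616 = true := by decide +kernel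
theorem hq0_1_8 : all2 cq0_1 4 31648 = true := by decide +kernel
theorem hq0_1_9 : all2 cq0_1 2 31664 = true := by decide +kernel
theorem hq0_1_10 : all2 cq0_1 1 31668 = true := by decide +kernel
theorem hq0_1_11 : all2 cq0_1 0 31670 = true := by decide +kernel
theorem hq0_1 : ∀ i < 31671, cq0_1 i = true := by
  have h0 : ∀ i < 0, cq0_1 i = true := fun i hi => absurd hi (Nat.not_lt_zero i)
  have h1 : ∀ i < 16384, cq0_1 i = true := range_step h0 hq0_1_0 (by norm_num)
  have h2 : ∀ i < 24576, cq0_1 i = true := range_step h1 hq0_1_1 (by norm_num)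
  have h3 : ∀ i < 28672, cq0_1 i = true := range_step h2 hq0_1_2 (by norm_num)
  have h4 : ∀ i < 30720, cq0_1 i = true := range_step h3 hq0_1_3 (by norm_num)
  have h5 : ∀ i < 31232, cq0_1 i = true := range_step h4 hq0_1_4 (by norm_num)
  have h6 : ∀ i < 31488, cq0_1 i = true := range_step h5 hq0_1_5 (by norm_num)
  have h7 : ∀ i < 31616, cq0_1 i = true := range_step h6 hq0_1_6 (by norm_num)
  have h8 : ∀ i < 31648, cq0_1 i = true := range_step h7 hq0_1_7 (by norm_num)
  have h9 : ∀ i < 31664, cq0_1 i = true := range_step h8 hq0_1_8 (by norm_num)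
  have h10 : ∀ i < 31668, cq0_1 i = true := range_step h9 hq0_1_9 (by norm_num)
  have h11 : ∀ i < 31670, cq0_1 i = true := range_step h10 hq0_1_10 (by norm_num)
  have h12 : ∀ i < 31671, cq0_1 i = true := range_step h11 hq0_1_11 (by norm_num)
  exact h12
theorem q0_1 : (tab.perm 0 * tab.perm 1) ^ 3 = 1 :=
  dih_spec tab 0 1 3 (by decide) (by decide) rfl rfl (fun c hc => by
    obtain ⟨i, hi, rfl⟩ := hc
    exact hq0_1 i hi)
noncomputable def cq0_2 (i : ℕ) : Bool := (fun c => (fun d1 => @Bool.rec (fun _ => Bool) ((fun d2 => @Bool.rec (fun _ => Bool) ((fun d3 => @Bool.rec (fun _ => Bool) ((fun d4 => @Bool.rec (fun _ => Bool) (Nat.beq d4 c) true (Nat.blt d4 c)) (f2 (d3))) true (Nat.blt d3 c)) (f0 (d2))) true (Nat.blt d2 c)) (f2 (d1))) true (Nat.blt d1 c)) (f0 (c))) (Nat.mul 20 i)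
theorem hq0_2_0 : all2 cq0_2 14 0 = true := by decide +kernel
theorem hq0_2_1 : all2 cq0_2 13 16384 = true := by decide +kernel
theorem hq0_2_2 : all2 cq0_2 12 24576 = true := by decide +kernel
theorem hq0_2_3 : all2 cq0_2 11 28672 = true := by decide +kernel
theorem hq0_2_4 : all2 cq0_2 9 30720 = true := by decide +kernel
theorem hq0_2_5 : all2 cq0_2 8 31232 = true := by decide +kernel
theorem hq0_2_6 : all2 cq0_2 7 31488 = true := by decide +kernel
theorem hq0_2_7 : all2 cq0_2 5 31616 = true := by decide +kernel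
theorem hq0_2_8 : all2 cq0_2 4 31648 = true := by decide +kernel
theorem hq0_2_9 : all2 cq0_2 2 31664 = true := by decide +kernel
theorem hq0_2_10 : all2 cq0_2 1 31668 = true := by decide +kernel
theorem hq0_2_11 : all2 cq0_2 0 31670 = true := by decide +kernel
theorem hq0_2 : ∀ i < 31671, cq0_2 i = true := by
  have h0 : ∀ i < 0, cq0_2 i = true := fun i hi => absurd hi (Nat.not_lt_zero i)
  have h1 : ∀ i < 16384, cq0_2 i = true := range_step h0 hq0_2_0 (by norm_num)
  have h2 : ∀ i < 24576, cq0_2 i = true := range_step h1 hq0_2_1 (by norm_num)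
  have h3 : ∀ i < 28672, cq0_2 i = true := range_step h2 hq0_2_2 (by norm_num)
  have h4 : ∀ i < 30720, cq0_2 i = true := range_step h3 hq0_2_3 (by norm_num)
  have h5 : ∀ i < 31232, cq0_2 i = true := range_step h4 hq0_2_4 (by norm_num)
  have h6 : ∀ i < 31488, cq0_2 i = true := range_step h5 hq0_2_5 (by norm_num)
  have h7 : ∀ i < 31616, cq0_2 i = true := range_step h6 hq0_2_6 (by norm_num)
  have h8 : ∀ i < 31648, cq0_2 i = true := range_step h7 hq0_2_7 (by norm_num)
  have h9 : ∀ i < 31664, cq0_2 i = true := range_step h8 hq0_2_8 (by norm_num)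
  have h10 : ∀ i < 31668, cq0_2 i = true := range_step h9 hq0_2_9 (by norm_num)
  have h11 : ∀ i < 31670, cq0_2 i = true := range_step h10 hq0_2_10 (by norm_num)
  have h12 : ∀ i < 31671, cq0_2 i = true := range_step h11 hq0_2_11 (by norm_num)
  exact h12
theorem q0_2 : (tab.perm 0 * tab.perm 2) ^ 2 = 1 :=
  dih_spec tab 0 2 2 (by decide) (by decide) rfl rfl (fun c hc => by
    obtain ⟨i, hi, rfl⟩ := hc
    exact hq0_2 i hi)
noncomputable def cq0_3 (i : ℕ) : Bool := (fun c => (fun d1 => @Bool.rec (fun _ => Bool) ((fun d2 => @Bool.rec (fun _ => Bool) ((fun d3 => @Bool.rec (fun _ => Bool) ((fun d4 => @Bool.rec (fun _ => Bool) (Nat.beq d4 c) true (Nat.blt d4 c)) (f3 (d3))) true (Nat.blt d3 c)) (f0 (d2))) true (Nat.blt d2 c)) (f3 (d1))) true (Nat.blt d1 c)) (f0 (c))) (Nat.mul 20 i)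
theorem hq0_3_0 : all2 cq0_3 14 0 = true := by decide +kernel
theorem hq0_3_1 : all2 cq0_3 13 16384 = true := by decide +kernel
theorem hq0_3_2 : all2 cq0_3 12 24576 = true := by decide +kernel
theorem hq0_3_3 : all2 cq0_3 11 28672 = true := by decide +kernel
theorem hq0_3_4 : all2 cq0_3 9 30720 = true := by decide +kernel
theorem hq0_3_5 : all2 cq0_3 8 31232 = true := by decide +kernel
theorem hq0_3_6 : all2 cq0_3 7 31488 = true := by decide +kernel
theorem hq0_3_7 : all2 cq0_3 5 31616 = true := by decide +kernel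
theorem hq0_3_8 : all2 cq0_3 4 31648 = true := by decide +kernel
theorem hq0_3_9 : all2 cq0_3 2 31664 = true := by decide +kernel
theorem hq0_3_10 : all2 cq0_3 1 31668 = true := by decide +kernel
theorem hq0_3_11 : all2 cq0_3 0 31670 = true := by decide +kernel
theorem hq0_3 : ∀ i < 31671, cq0_3 i = true := by
  have h0 : ∀ i < 0, cq0_3 i = true := fun i hi => absurd hi (Nat.not_lt_zero i)
  have h1 : ∀ i < 16384, cq0_3 i = true := range_step h0 hq0_3_0 (by norm_num)
  have h2 : ∀ i < 24576, cq0_3 i = true := range_step h1 hq0_3_1 (by norm_num)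
  have h3 : ∀ i < 28672, cq0_3 i = true := range_step h2 hq0_3_2 (by norm_num)
  have h4 : ∀ i < 30720, cq0_3 i = true := range_step h3 hq0_3_3 (by norm_num)
  have h5 : ∀ i < 31232, cq0_3 i = true := range_step h4 hq0_3_4 (by norm_num)
  have h6 : ∀ i < 31488, cq0_3 i = true := range_step h5 hq0_3_5 (by norm_num)
  have h7 : ∀ i < 31616, cq0_3 i = true := range_step h6 hq0_3_6 (by norm_num)
  have h8 : ∀ i < 31648, cq0_3 i = true := range_step h7 hq0_3_7 (by norm_num)
  have h9 : ∀ i < 31664, cq0_3 i = true := range_step h8 hq0_3_8 (by norm_num)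
  have h10 : ∀ i < 31668, cq0_3 i = true := range_step h9 hq0_3_9 (by norm_num)
  have h11 : ∀ i < 31670, cq0_3 i = true := range_step h10 hq0_3_10 (by norm_num)
  have h12 : ∀ i < 31671, cq0_3 i = true := range_step h11 hq0_3_11 (by norm_num)
  exact h12
theorem q0_3 : (tab.perm 0 * tab.perm 3) ^ 2 = 1 :=
  dih_spec tab 0 3 2 (by decide) (by decide) rfl rfl (fun c hc => by
    obtain ⟨i, hi, rfl⟩ := hc
    exact hq0_3 i hi)
noncomputable def cq0_4 (i : ℕ) : Bool := (fun c => (fun d1 => @Bool.rec (fun _ => Bool) ((fun d2 => @Bool.rec (fun _ => Bool) ((fun d3 => @Bool.rec (fun _ => Bool) ((fun d4 => @Bool.rec (fun _ => Bool) (Nat.beq d4 c) true (Nat.blt d4 c)) (f4 (d3))) true (Nat.blt d3 c)) (f0 (d2))) true (Nat.blt d2 c)) (f4 (d1))) true (Nat.blt d1 c)) (f0 (c))) (Nat.mul 20 i)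
theorem hq0_4_0 : all2 cq0_4 14 0 = true := by decide +kernel
theorem hq0_4_1 : all2 cq0_4 13 16384 = true := by decide +kernel
theorem hq0_4_2 : all2 cq0_4 12 24576 = true := by decide +kernel
theorem hq0_4_3 : all2 cq0_4 11 28672 = true := by decide +kernel
theorem hq0_4_4 : all2 cq0_4 9 30720 = true := by decide +kernel
theorem hq0_4_5 : all2 cq0_4 8 31232 = true := by decide +kernel
theorem hq0_4_6 : all2 cq0_4 7 31488 = true := by decide +kernel
theorem hq0_4_7 : all2 cq0_4 5 31616 = true := by decide +kernel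
theorem hq0_4_8 : all2 cq0_4 4 31648 = true := by decide +kernel
theorem hq0_4_9 : all2 cq0_4 2 31664 = true := by decide +kernel
theorem hq0_4_10 : all2 cq0_4 1 31668 = true := by decide +kernel
theorem hq0_4_11 : all2 cq0_4 0 31670 = true := by decide +kernel
theorem hq0_4 : ∀ i < 31671, cq0_4 i = true := by
  have h0 : ∀ i < 0, cq0_4 i = true := fun i hi => absurd hi (Nat.not_lt_zero i)
  have h1 : ∀ i < 16384, cq0_4 i = true := range_step h0 hq0_4_0 (by norm_num)
  have h2 : ∀ i < 24576, cq0_4 i = true := range_step h1 hq0_4_1 (by norm_num)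
  have h3 : ∀ i < 28672, cq0_4 i = true := range_step h2 hq0_4_2 (by norm_num)
  have h4 : ∀ i < 30720, cq0_4 i = true := range_step h3 hq0_4_3 (by norm_num)
  have h5 : ∀ i < 31232, cq0_4 i = true := range_step h4 hq0_4_4 (by norm_num)
  have h6 : ∀ i < 31488, cq0_4 i = true := range_step h5 hq0_4_5 (by norm_num)
  have h7 : ∀ i < 31616, cq0_4 i = true := range_step h6 hq0_4_6 (by norm_num)
  have h8 : ∀ i < 31648, cq0_4 i = true := range_step h7 hq0_4_7 (by norm_num)
  have h9 : ∀ i < 31664, cq0_4 i = true := range_step h8 hq0_4_8 (by norm_num)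
  have h10 : ∀ i < 31668, cq0_4 i = true := range_step h9 hq0_4_9 (by norm_num)
  have h11 : ∀ i < 31670, cq0_4 i = true := range_step h10 hq0_4_10 (by norm_num)
  have h12 : ∀ i < 31671, cq0_4 i = true := range_step h11 hq0_4_11 (by norm_num)
  exact h12
theorem q0_4 : (tab.perm 0 * tab.perm 4) ^ 2 = 1 :=
  dih_spec tab 0 4 2 (by decide) (by decide) rfl rfl (fun c hc => by
    obtain ⟨i, hi, rfl⟩ := hc
    exact hq0_4 i hi)
noncomputable def cq0_5 (i : ℕ) : Bool := (fun c => (fun d1 => @Bool.rec (fun _ => Bool) ((fun d2 => @Bool.rec (fun _ => Bool) ((fun d3 => @Bool.rec (fun _ => Bool) ((fun d4 => @Bool.rec (fun _ => Bool) (Nat.beq d4 c) true (Nat.blt d4 c)) (f5 (d3))) true (Nat.blt d3 c)) (f0 (d2))) true (Nat.blt d2 c)) (f5 (d1))) true (Nat.blt d1 c)) (f0 (c))) (Nat.mul 20 i)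
theorem hq0_5_0 : all2 cq0_5 14 0 = true := by decide +kernel
theorem hq0_5_1 : all2 cq0_5 13 16384 = true := by decide +kernel
theorem hq0_5_2 : all2 cq0_5 12 24576 = true := by decide +kernel
theorem hq0_5_3 : all2 cq0_5 11 28672 = true := by decide +kernel
theorem hq0_5_4 : all2 cq0_5 9 30720 = true := by decide +kernel
theorem hq0_5_5 : all2 cq0_5 8 31232 = true := by decide +kernel
theorem hq0_5_6 : all2 cq0_5 7 31488 = true := by decide +kernel
theorem hq0_5_7 : all2 cq0_5 5 31616 = true := by decide +kernel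
theorem hq0_5_8 : all2 cq0_5 4 31648 = true := by decide +kernel
theorem hq0_5_9 : all2 cq0_5 2 31664 = true := by decide +kernel
theorem hq0_5_10 : all2 cq0_5 1 31668 = true := by decide +kernel
theorem hq0_5_11 : all2 cq0_5 0 31670 = true := by decide +kernel
theorem hq0_5 : ∀ i < 31671, cq0_5 i = true := by
  have h0 : ∀ i < 0, cq0_5 i = true := fun i hi => absurd hi (Nat.not_lt_zero i)
  have h1 : ∀ i < 16384, cq0_5 i = true := range_step h0 hq0_5_0 (by norm_num)
  have h2 : ∀ i < 24576, cq0_5 i = true := range_step h1 hq0_5_1 (by norm_num)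
  have h3 : ∀ i < 28672, cq0_5 i = true := range_step h2 hq0_5_2 (by norm_num)
  have h4 : ∀ i < 30720, cq0_5 i = true := range_step h3 hq0_5_3 (by norm_num)
  have h5 : ∀ i < 31232, cq0_5 i = true := range_step h4 hq0_5_4 (by norm_num)
  have h6 : ∀ i < 31488, cq0_5 i = true := range_step h5 hq0_5_5 (by norm_num)
  have h7 : ∀ i < 31616, cq0_5 i = true := range_step h6 hq0_5_6 (by norm_num)
  have h8 : ∀ i < 31648, cq0_5 i = true := range_step h7 hq0_5_7 (by norm_num)
  have h9 : ∀ i < 31664, cq0_5 i = true := range_step h8 hq0_5_8 (by norm_num)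
  have h10 : ∀ i < 31668, cq0_5 i = true := range_step h9 hq0_5_9 (by norm_num)
  have h11 : ∀ i < 31670, cq0_5 i = true := range_step h10 hq0_5_10 (by norm_num)
  have h12 : ∀ i < 31671, cq0_5 i = true := range_step h11 hq0_5_11 (by norm_num)
  exact h12
theorem q0_5 : (tab.perm 0 * tab.perm 5) ^ 2 = 1 :=
  dih_spec tab 0 5 2 (by decide) (by decide) rfl rfl (fun c hc => by
    obtain ⟨i, hi, rfl⟩ := hc
    exact hq0_5 i hi)
noncomputable def cq0_6 (i : ℕ) : Bool := (fun c => (fun d1 => @Bool.rec (fun _ => Bool) ((fun d2 => @Bool.rec (fun _ => Bool) ((fun d3 => @Bool.rec (fun _ => Bool) ((fun d4 => @Bool.rec (fun _ => Bool) (Nat.beq d4 c) true (Nat.blt d4 c)) (f6 (d3))) true (Nat.blt d3 c)) (f0 (d2))) true (Nat.blt d2 c)) (f6 (d1))) true (Nat.blt d1 c)) (f0 (c))) (Nat.mul 20 i)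
theorem hq0_6_0 : all2 cq0_6 14 0 = true := by decide +kernel
theorem hq0_6_1 : all2 cq0_6 13 16384 = true := by decide +kernel
theorem hq0_6_2 : all2 cq0_6 12 24576 = true := by decide +kernel
theorem hq0_6_3 : all2 cq0_6 11 28672 = true := by decide +kernel
theorem hq0_6_4 : all2 cq0_6 9 30720 = true := by decide +kernel
theorem hq0_6_5 : all2 cq0_6 8 31232 = true := by decide +kernel
theorem hq0_6_6 : all2 cq0_6 7 31488 = true := by decide +kernel
theorem hq0_6_7 : all2 cq0_6 5 31616 = true := by decide +kernel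
theorem hq0_6_8 : all2 cq0_6 4 31648 = true := by decide +kernel
theorem hq0_6_9 : all2 cq0_6 2 31664 = true := by decide +kernel
theorem hq0_6_10 : all2 cq0_6 1 31668 = true := by decide +kernel
theorem hq0_6_11 : all2 cq0_6 0 31670 = true := by decide +kernel
theorem hq0_6 : ∀ i < 31671, cq0_6 i = true := by
  have h0 : ∀ i < 0, cq0_6 i = true := fun i hi => absurd hi (Nat.not_lt_zero i)
  have h1 : ∀ i < 16384, cq0_6 i = true := range_step h0 hq0_6_0 (by norm_num)
  have h2 : ∀ i < 24576, cq0_6 i = true := range_step h1 hq0_6_1 (by norm_num)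
  have h3 : ∀ i < 28672, cq0_6 i = true := range_step h2 hq0_6_2 (by norm_num)
  have h4 : ∀ i < 30720, cq0_6 i = true := range_step h3 hq0_6_3 (by norm_num)
  have h5 : ∀ i < 31232, cq0_6 i = true := range_step h4 hq0_6_4 (by norm_num)
  have h6 : ∀ i < 31488, cq0_6 i = true := range_step h5 hq0_6_5 (by norm_num)
  have h7 : ∀ i < 31616, cq0_6 i = true := range_step h6 hq0_6_6 (by norm_num)
  have h8 : ∀ i < 31648, cq0_6 i = true := range_step h7 hq0_6_7 (by norm_num)
  have h9 : ∀ i < 31664, cq0_6 i = true := range_step h8 hq0_6_8 (by norm_num)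
  have h10 : ∀ i < 31668, cq0_6 i = true := range_step h9 hq0_6_9 (by norm_num)
  have h11 : ∀ i < 31670, cq0_6 i = true := range_step h10 hq0_6_10 (by norm_num)
  have h12 : ∀ i < 31671, cq0_6 i = true := range_step h11 hq0_6_11 (by norm_num)
  exact h12
theorem q0_6 : (tab.perm 0 * tab.perm 6) ^ 2 = 1 :=
  dih_spec tab 0 6 2 (by decide) (by decide) rfl rfl (fun c hc => by
    obtain ⟨i, hi, rfl⟩ := hc
    exact hq0_6 i hi)
noncomputable def cq0_7 (i : ℕ) : Bool := (fun c => (fun d1 => @Bool.rec (fun _ => Bool) ((fun d2 => @Bool.rec (fun _ => Bool) ((fun d3 => @Bool.rec (fun _ => Bool) ((fun d4 => @Bool.rec (fun _ => Bool) (Nat.beq d4 c) true (Nat.blt d4 c)) (f7 (d3))) true (Nat.blt d3 c)) (f0 (d2))) true (Nat.blt d2 c)) (f7 (d1))) true (Nat.blt d1 c)) (f0 (c))) (Nat.mul 20 i)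
theorem hq0_7_0 : all2 cq0_7 14 0 = true := by decide +kernel
theorem hq0_7_1 : all2 cq0_7 13 16384 = true := by decide +kernel
theorem hq0_7_2 : all2 cq0_7 12 24576 = true := by decide +kernel
theorem hq0_7_3 : all2 cq0_7 11 28672 = true := by decide +kernel
theorem hq0_7_4 : all2 cq0_7 9 30720 = true := by decide +kernel
theorem hq0_7_5 : all2 cq0_7 8 31232 = true := by decide +kernel
theorem hq0_7_6 : all2 cq0_7 7 31488 = true := by decide +kernel
theorem hq0_7_7 : all2 cq0_7 5 31616 = true := by decide +kernel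
theorem hq0_7_8 : all2 cq0_7 4 31648 = true := by decide +kernel
theorem hq0_7_9 : all2 cq0_7 2 31664 = true := by decide +kernel
theorem hq0_7_10 : all2 cq0_7 1 31668 = true := by decide +kernel
theorem hq0_7_11 : all2 cq0_7 0 31670 = true := by decide +kernel
theorem hq0_7 : ∀ i < 31671, cq0_7 i = true := by
  have h0 : ∀ i < 0, cq0_7 i = true := fun i hi => absurd hi (Nat.not_lt_zero i)
  have h1 : ∀ i < 16384, cq0_7 i = true := range_step h0 hq0_7_0 (by norm_num)
  have h2 : ∀ i < 24576, cq0_7 i = true := range_step h1 hq0_7_1 (by norm_num)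
  have h3 : ∀ i < 28672, cq0_7 i = true := range_step h2 hq0_7_2 (by norm_num)
  have h4 : ∀ i < 30720, cq0_7 i = true := range_step h3 hq0_7_3 (by norm_num)
  have h5 : ∀ i < 31232, cq0_7 i = true := range_step h4 hq0_7_4 (by norm_num)
  have h6 : ∀ i < 31488, cq0_7 i = true := range_step h5 hq0_7_5 (by norm_num)
  have h7 : ∀ i < 31616, cq0_7 i = true := range_step h6 hq0_7_6 (by norm_num)
  have h8 : ∀ i < 31648, cq0_7 i = true := range_step h7 hq0_7_7 (by norm_num)
  have h9 : ∀ i < 31664, cq0_7 i = true := range_step h8 hq0_7_8 (by norm_num)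
  have h10 : ∀ i < 31668, cq0_7 i = true := range_step h9 hq0_7_9 (by norm_num)
  have h11 : ∀ i < 31670, cq0_7 i = true := range_step h10 hq0_7_10 (by norm_num)
  have h12 : ∀ i < 31671, cq0_7 i = true := range_step h11 hq0_7_11 (by norm_num)
  exact h12
theorem q0_7 : (tab.perm 0 * tab.perm 7) ^ 2 = 1 :=
  dih_spec tab 0 7 2 (by decide) (by decide) rfl rfl (fun c hc => by
    obtain ⟨i, hi, rfl⟩ := hc
    exact hq0_7 i hi)
noncomputable def cq0_8 (i : ℕ) : Bool := (fun c => (fun d1 => @Bool.rec (fun _ => Bool) ((fun d2 => @Bool.rec (fun _ => Bool) ((fun d3 => @Bool.rec (fun _ => Bool) ((fun d4 => @Bool.rec (fun _ => Bool) (Nat.beq d4 c) true (Nat.blt d4 c)) (f8 (d3))) true (Nat.blt d3 c)) (f0 (d2))) true (Nat.blt d2 c)) (f8 (d1))) true (Nat.blt d1 c)) (f0 (c))) (Nat.mul 20 i)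
theorem hq0_8_0 : all2 cq0_8 14 0 = true := by decide +kernel
theorem hq0_8_1 : all2 cq0_8 13 16384 = true := by decide +kernel
theorem hq0_8_2 : all2 cq0_8 12 24576 = true := by decide +kernel
theorem hq0_8_3 : all2 cq0_8 11 28672 = true := by decide +kernel
theorem hq0_8_4 : all2 cq0_8 9 30720 = true := by decide +kernel
theorem hq0_8_5 : all2 cq0_8 8 31232 = true := by decide +kernel
theorem hq0_8_6 : all2 cq0_8 7 31488 = true := by decide +kernel
theorem hq0_8_7 : all2 cq0_8 5 31616 = true := by decide +kernel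
theorem hq0_8_8 : all2 cq0_8 4 31648 = true := by decide +kernel
theorem hq0_8_9 : all2 cq0_8 2 31664 = true := by decide +kernel
theorem hq0_8_10 : all2 cq0_8 1 31668 = true := by decide +kernel
theorem hq0_8_11 : all2 cq0_8 0 31670 = true := by decide +kernel
theorem hq0_8 : ∀ i < 31671, cq0_8 i = true := by
  have h0 : ∀ i < 0, cq0_8 i = true := fun i hi => absurd hi (Nat.not_lt_zero i)
  have h1 : ∀ i < 16384, cq0_8 i = true := range_step h0 hq0_8_0 (by norm_num)
  have h2 : ∀ i < 24576, cq0_8 i = true := range_step h1 hq0_8_1 (by norm_num)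
  have h3 : ∀ i < 28672, cq0_8 i = true := range_step h2 hq0_8_2 (by norm_num)
  have h4 : ∀ i < 30720, cq0_8 i = true := range_step h3 hq0_8_3 (by norm_num)
  have h5 : ∀ i < 31232, cq0_8 i = true := range_step h4 hq0_8_4 (by norm_num)
  have h6 : ∀ i < 31488, cq0_8 i = true := range_step h5 hq0_8_5 (by norm_num)
  have h7 : ∀ i < 31616, cq0_8 i = true := range_step h6 hq0_8_6 (by norm_num)
  have h8 : ∀ i < 31648, cq0_8 i = true := range_step h7 hq0_8_7 (by norm_num)
  have h9 : ∀ i < 31664, cq0_8 i = true := range_step h8 hq0_8_8 (by norm_num)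
  have h10 : ∀ i < 31668, cq0_8 i = true := range_step h9 hq0_8_9 (by norm_num)
  have h11 : ∀ i < 31670, cq0_8 i = true := range_step h10 hq0_8_10 (by norm_num)
  have h12 : ∀ i < 31671, cq0_8 i = true := range_step h11 hq0_8_11 (by norm_num)
  exact h12
theorem q0_8 : (tab.perm 0 * tab.perm 8) ^ 2 = 1 :=
  dih_spec tab 0 8 2 (by decide) (by decide) rfl rfl (fun c hc => by
    obtain ⟨i, hi, rfl⟩ := hc
    exact hq0_8 i hi)
noncomputable def cq0_9 (i : ℕ) : Bool := (fun c => (fun d1 => @Bool.rec (fun _ => Bool) ((fun d2 => @Bool.rec (fun _ => Bool) ((fun d3 => @Bool.rec (fun _ => Bool) ((fun d4 => @Bool.rec (fun _ => Bool) (Nat.beq d4 c) true (Nat.blt d4 c)) (f9 (d3))) true (Nat.blt d3 c)) (f0 (d2))) true (Nat.blt d2 c)) (f9 (d1))) true (Nat.blt d1 c)) (f0 (c))) (Nat.mul 20 i)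
theorem hq0_9_0 : all2 cq0_9 14 0 = true := by decide +kernel
theorem hq0_9_1 : all2 cq0_9 13 16384 = true := by decide +kernel
theorem hq0_9_2 : all2 cq0_9 12 24576 = true := by decide +kernel
theorem hq0_9_3 : all2 cq0_9 11 28672 = true := by decide +kernel
theorem hq0_9_4 : all2 cq0_9 9 30720 = true := by decide +kernel
theorem hq0_9_5 : all2 cq0_9 8 31232 = true := by decide +kernel
theorem hq0_9_6 : all2 cq0_9 7 31488 = true := by decide +kernel
theorem hq0_9_7 : all2 cq0_9 5 31616 = true := by decide +kernel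
theorem hq0_9_8 : all2 cq0_9 4 31648 = true := by decide +kernel
theorem hq0_9_9 : all2 cq0_9 2 31664 = true := by decide +kernel
theorem hq0_9_10 : all2 cq0_9 1 31668 = true := by decide +kernel
theorem hq0_9_11 : all2 cq0_9 0 31670 = true := by decide +kernel
theorem hq0_9 : ∀ i < 31671, cq0_9 i = true := by
  have h0 : ∀ i < 0, cq0_9 i = true := fun i hi => absurd hi (Nat.not_lt_zero i)
  have h1 : ∀ i < 16384, cq0_9 i = true := range_step h0 hq0_9_0 (by norm_num)
  have h2 : ∀ i < 24576, cq0_9 i = true := range_step h1 hq0_9_1 (by norm_num)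
  have h3 : ∀ i < 28672, cq0_9 i = true := range_step h2 hq0_9_2 (by norm_num)
  have h4 : ∀ i < 30720, cq0_9 i = true := range_step h3 hq0_9_3 (by norm_num)
  have h5 : ∀ i < 31232, cq0_9 i = true := range_step h4 hq0_9_4 (by norm_num)
  have h6 : ∀ i < 31488, cq0_9 i = true := range_step h5 hq0_9_5 (by norm_num)
  have h7 : ∀ i < 31616, cq0_9 i = true := range_step h6 hq0_9_6 (by norm_num)
  have h8 : ∀ i < 31648, cq0_9 i = true := range_step h7 hq0_9_7 (by norm_num)
  have h9 : ∀ i < 31664, cq0_9 i = true := range_step h8 hq0_9_8 (by norm_num)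
  have h10 : ∀ i < 31668, cq0_9 i = true := range_step h9 hq0_9_9 (by norm_num)
  have h11 : ∀ i < 31670, cq0_9 i = true := range_step h10 hq0_9_10 (by norm_num)
  have h12 : ∀ i < 31671, cq0_9 i = true := range_step h11 hq0_9_11 (by norm_num)
  exact h12
theorem q0_9 : (tab.perm 0 * tab.perm 9) ^ 2 = 1 :=
  dih_spec tab 0 9 2 (by decide) (by decide) rfl rfl (fun c hc => by
    obtain ⟨i, hi, rfl⟩ := hc
    exact hq0_9 i hi)
noncomputable def cq1_2 (i : ℕ) : Bool := (fun c => (fun d1 => @Bool.rec (fun _ => Bool) ((fun d2 => @Bool.rec (fun _ => Bool) ((fun d3 => @Bool.rec (fun _ => Bool) ((fun d4 => @Bool.rec (fun _ => Bool) ((fun d5 => @Bool.rec (fun _ => Bool) ((fun d6 => @Bool.rec (fun _ => Bool) (Nat.beq d6 c) true (Nat.blt d6 c)) (f2 (d5))) true (Nat.blt d5 c)) (f1 (d4))) true (Nat.blt d4 c)) (f2 (d3))) true (Nat.blt d3 c)) (f1 (d2))) true (Nat.blt d2 c)) (f2 (d1))) true (Nat.blt d1 c)) (f1 (c))) (Nat.mul 20 i)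
theorem hq1_2_0 : all2 cq1_2 14 0 = true := by decide +kernel
theorem hq1_2_1 : all2 cq1_2 13 16384 = true := by decide +kernel
theorem hq1_2_2 : all2 cq1_2 12 24576 = true := by decide +kernel
theorem hq1_2_3 : all2 cq1_2 11 28672 = true := by decide +kernel
theorem hq1_2_4 : all2 cq1_2 9 30720 = true := by decide +kernel
theorem hq1_2_5 : all2 cq1_2 8 31232 = true := by decide +kernel
theorem hq1_2_6 : all2 cq1_2 7 31488 = true := by decide +kernel
theorem hq1_2_7 : all2 cq1_2 5 31616 = true := by decide +kernel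
theorem hq1_2_8 : all2 cq1_2 4 31648 = true := by decide +kernel
theorem hq1_2_9 : all2 cq1_2 2 31664 = true := by decide +kernel
theorem hq1_2_10 : all2 cq1_2 1 31668 = true := by decide +kernel
theorem hq1_2_11 : all2 cq1_2 0 31670 = true := by decide +kernel
theorem hq1_2 : ∀ i < 31671, cq1_2 i = true := by
  have h0 : ∀ i < 0, cq1_2 i = true := fun i hi => absurd hi (Nat.not_lt_zero i)
  have h1 : ∀ i < 16384, cq1_2 i = true := range_step h0 hq1_2_0 (by norm_num)
  have h2 : ∀ i < 24576, cq1_2 i = true := range_step h1 hq1_2_1 (by norm_num)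
  have h3 : ∀ i < 28672, cq1_2 i = true := range_step h2 hq1_2_2 (by norm_num)
  have h4 : ∀ i < 30720, cq1_2 i = true := range_step h3 hq1_2_3 (by norm_num)
  have h5 : ∀ i < 31232, cq1_2 i = true := range_step h4 hq1_2_4 (by norm_num)
  have h6 : ∀ i < 31488, cq1_2 i = true := range_step h5 hq1_2_5 (by norm_num)
  have h7 : ∀ i < 31616, cq1_2 i = true := range_step h6 hq1_2_6 (by norm_num)
  have h8 : ∀ i < 31648, cq1_2 i = true := range_step h7 hq1_2_7 (by norm_num)
  have h9 : ∀ i < 31664, cq1_2 i = true := range_step h8 hq1_2_8 (by norm_num)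
  have h10 : ∀ i < 31668, cq1_2 i = true := range_step h9 hq1_2_9 (by norm_num)
  have h11 : ∀ i < 31670, cq1_2 i = true := range_step h10 hq1_2_10 (by norm_num)
  have h12 : ∀ i < 31671, cq1_2 i = true := range_step h11 hq1_2_11 (by norm_num)
  exact h12
theorem q1_2 : (tab.perm 1 * tab.perm 2) ^ 3 = 1 :=
  dih_spec tab 1 2 3 (by decide) (by decide) rfl rfl (fun c hc => by
    obtain ⟨i, hi, rfl⟩ := hc
    exact hq1_2 i hi)
noncomputable def cq1_3 (i : ℕ) : Bool := (fun c => (fun d1 => @Bool.rec (fun _ => Bool) ((fun d2 => @Bool.rec (fun _ => Bool) ((fun d3 => @Bool.rec (fun _ => Bool) ((fun d4 => @Bool.rec (fun _ => Bool) (Nat.beq d4 c) true (Nat.blt d4 c)) (f3 (d3))) true (Nat.blt d3 c)) (f1 (d2))) true (Nat.blt d2 c)) (f3 (d1))) true (Nat.blt d1 c)) (f1 (c))) (Nat.mul 20 i)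
theorem hq1_3_0 : all2 cq1_3 14 0 = true := by decide +kernel
theorem hq1_3_1 : all2 cq1_3 13 16384 = true := by decide +kernel
theorem hq1_3_2 : all2 cq1_3 12 24576 = true := by decide +kernel
theorem hq1_3_3 : all2 cq1_3 11 28672 = true := by decide +kernel
theorem hq1_3_4 : all2 cq1_3 9 30720 = true := by decide +kernel
theorem hq1_3_5 : all2 cq1_3 8 31232 = true := by decide +kernel
theorem hq1_3_6 : all2 cq1_3 7 31488 = true := by decide +kernel
theorem hq1_3_7 : all2 cq1_3 5 31616 = true := by decide +kernel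
theorem hq1_3_8 : all2 cq1_3 4 31648 = true := by decide +kernel
theorem hq1_3_9 : all2 cq1_3 2 31664 = true := by decide +kernel
theorem hq1_3_10 : all2 cq1_3 1 31668 = true := by decide +kernel
theorem hq1_3_11 : all2 cq1_3 0 31670 = true := by decide +kernel
theorem hq1_3 : ∀ i < 31671, cq1_3 i = true := by
  have h0 : ∀ i < 0, cq1_3 i = true := fun i hi => absurd hi (Nat.not_lt_zero i)
  have h1 : ∀ i < 16384, cq1_3 i = true := range_step h0 hq1_3_0 (by norm_num)
  have h2 : ∀ i < 24576, cq1_3 i = true := range_step h1 hq1_3_1 (by norm_num)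
  have h3 : ∀ i < 28672, cq1_3 i = true := range_step h2 hq1_3_2 (by norm_num)
  have h4 : ∀ i < 30720, cq1_3 i = true := range_step h3 hq1_3_3 (by norm_num)
  have h5 : ∀ i < 31232, cq1_3 i = true := range_step h4 hq1_3_4 (by norm_num)
  have h6 : ∀ i < 31488, cq1_3 i = true := range_step h5 hq1_3_5 (by norm_num)
  have h7 : ∀ i < 31616, cq1_3 i = true := range_step h6 hq1_3_6 (by norm_num)
  have h8 : ∀ i < 31648, cq1_3 i = true := range_step h7 hq1_3_7 (by norm_num)
  have h9 : ∀ i < 31664, cq1_3 i = true := range_step h8 hq1_3_8 (by norm_num)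
  have h10 : ∀ i < 31668, cq1_3 i = true := range_step h9 hq1_3_9 (by norm_num)
  have h11 : ∀ i < 31670, cq1_3 i = true := range_step h10 hq1_3_10 (by norm_num)
  have h12 : ∀ i < 31671, cq1_3 i = true := range_step h11 hq1_3_11 (by norm_num)
  exact h12
theorem q1_3 : (tab.perm 1 * tab.perm 3) ^ 2 = 1 :=
  dih_spec tab 1 3 2 (by decide) (by decide) rfl rfl (fun c hc => by
    obtain ⟨i, hi, rfl⟩ := hc
    exact hq1_3 i hi)
noncomputable def cq1_4 (i : ℕ) : Bool := (fun c => (fun d1 => @Bool.rec (fun _ => Bool) ((fun d2 => @Bool.rec (fun _ => Bool) ((fun d3 => @Bool.rec (fun _ => Bool) ((fun d4 => @Bool.rec (fun _ => Bool) (Nat.beq d4 c) true (Nat.blt d4 c)) (f4 (d3))) true (Nat.blt d3 c)) (f1 (d2))) true (Nat.blt d2 c)) (f4 (d1))) true (Nat.blt d1 c)) (f1 (c))) (Nat.mul 20 i)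
theorem hq1_4_0 : all2 cq1_4 14 0 = true := by decide +kernel
theorem hq1_4_1 : all2 cq1_4 13 16384 = true := by decide +kernel
theorem hq1_4_2 : all2 cq1_4 12 24576 = true := by decide +kernel
theorem hq1_4_3 : all2 cq1_4 11 28672 = true := by decide +kernel
theorem hq1_4_4 : all2 cq1_4 9 30720 = true := by decide +kernel
theorem hq1_4_5 : all2 cq1_4 8 31232 = true := by decide +kernel
theorem hq1_4_6 : all2 cq1_4 7 31488 = true := by decide +kernel
theorem hq1_4_7 : all2 cq1_4 5 31616 = true := by decide +kernel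
theorem hq1_4_8 : all2 cq1_4 4 31648 = true := by decide +kernel
theorem hq1_4_9 : all2 cq1_4 2 31664 = true := by decide +kernel
theorem hq1_4_10 : all2 cq1_4 1 31668 = true := by decide +kernel
theorem hq1_4_11 : all2 cq1_4 0 31670 = true := by decide +kernel
theorem hq1_4 : ∀ i < 31671, cq1_4 i = true := by
  have h0 : ∀ i < 0, cq1_4 i = true := fun i hi => absurd hi (Nat.not_lt_zero i)
  have h1 : ∀ i < 16384, cq1_4 i = true := range_step h0 hq1_4_0 (by norm_num)
  have h2 : ∀ i < 24576, cq1_4 i = true := range_step h1 hq1_4_1 (by norm_num)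
  have h3 : ∀ i < 28672, cq1_4 i = true := range_step h2 hq1_4_2 (by norm_num)
  have h4 : ∀ i < 30720, cq1_4 i = true := range_step h3 hq1_4_3 (by norm_num)
  have h5 : ∀ i < 31232, cq1_4 i = true := range_step h4 hq1_4_4 (by norm_num)
  have h6 : ∀ i < 31488, cq1_4 i = true := range_step h5 hq1_4_5 (by norm_num)
  have h7 : ∀ i < 31616, cq1_4 i = true := range_step h6 hq1_4_6 (by norm_num)
  have h8 : ∀ i < 31648, cq1_4 i = true := range_step h7 hq1_4_7 (by norm_num)
  have h9 : ∀ i < 31664, cq1_4 i = true := range_step h8 hq1_4_8 (by norm_num)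
  have h10 : ∀ i < 31668, cq1_4 i = true := range_step h9 hq1_4_9 (by norm_num)
  have h11 : ∀ i < 31670, cq1_4 i = true := range_step h10 hq1_4_10 (by norm_num)
  have h12 : ∀ i < 31671, cq1_4 i = true := range_step h11 hq1_4_11 (by norm_num)
  exact h12
theorem q1_4 : (tab.perm 1 * tab.perm 4) ^ 2 = 1 :=
  dih_spec tab 1 4 2 (by decide) (by decide) rfl rfl (fun c hc => by
    obtain ⟨i, hi, rfl⟩ := hc
    exact hq1_4 i hi)
noncomputable def cq1_5 (i : ℕ) : Bool := (fun c => (fun d1 => @Bool.rec (fun _ => Bool) ((fun d2 => @Bool.rec (fun _ => Bool) ((fun d3 => @Bool.rec (fun _ => Bool) ((fun d4 => @Bool.rec (fun _ => Bool) (Nat.beq d4 c) true (Nat.blt d4 c)) (f5 (d3))) true (Nat.blt d3 c)) (f1 (d2))) true (Nat.blt d2 c)) (f5 (d1))) true (Nat.blt d1 c)) (f1 (c))) (Nat.mul 20 i)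
theorem hq1_5_0 : all2 cq1_5 14 0 = true := by decide +kernel
theorem hq1_5_1 : all2 cq1_5 13 16384 = true := by decide +kernel
theorem hq1_5_2 : all2 cq1_5 12 24576 = true := by decide +kernel
theorem hq1_5_3 : all2 cq1_5 11 28672 = true := by decide +kernel
theorem hq1_5_4 : all2 cq1_5 9 30720 = true := by decide +kernel
theorem hq1_5_5 : all2 cq1_5 8 31232 = true := by decide +kernel
theorem hq1_5_6 : all2 cq1_5 7 31488 = true := by decide +kernel
theorem hq1_5_7 : all2 cq1_5 5 31616 = true := by decide +kernel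
theorem hq1_5_8 : all2 cq1_5 4 31648 = true := by decide +kernel
theorem hq1_5_9 : all2 cq1_5 2 31664 = true := by decide +kernel
theorem hq1_5_10 : all2 cq1_5 1 31668 = true := by decide +kernel
theorem hq1_5_11 : all2 cq1_5 0 31670 = true := by decide +kernel
theorem hq1_5 : ∀ i < 31671, cq1_5 i = true := by
  have h0 : ∀ i < 0, cq1_5 i = true := fun i hi => absurd hi (Nat.not_lt_zero i)
  have h1 : ∀ i < 16384, cq1_5 i = true := range_step h0 hq1_5_0 (by norm_num)
  have h2 : ∀ i < 24576, cq1_5 i = true := range_step h1 hq1_5_1 (by norm_num)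
  have h3 : ∀ i < 28672, cq1_5 i = true := range_step h2 hq1_5_2 (by norm_num)
  have h4 : ∀ i < 30720, cq1_5 i = true := range_step h3 hq1_5_3 (by norm_num)
  have h5 : ∀ i < 31232, cq1_5 i = true := range_step h4 hq1_5_4 (by norm_num)
  have h6 : ∀ i < 31488, cq1_5 i = true := range_step h5 hq1_5_5 (by norm_num)
  have h7 : ∀ i < 31616, cq1_5 i = true := range_step h6 hq1_5_6 (by norm_num)
  have h8 : ∀ i < 31648, cq1_5 i = true := range_step h7 hq1_5_7 (by norm_num)
  have h9 : ∀ i < 31664, cq1_5 i = true := range_step h8 hq1_5_8 (by norm_num)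
  have h10 : ∀ i < 31668, cq1_5 i = true := range_step h9 hq1_5_9 (by norm_num)
  have h11 : ∀ i < 31670, cq1_5 i = true := range_step h10 hq1_5_10 (by norm_num)
  have h12 : ∀ i < 31671, cq1_5 i = true := range_step h11 hq1_5_11 (by norm_num)
  exact h12
theorem q1_5 : (tab.perm 1 * tab.perm 5) ^ 2 = 1 :=
  dih_spec tab 1 5 2 (by decide) (by decide) rfl rfl (fun c hc => by
    obtain ⟨i, hi, rfl⟩ := hc
    exact hq1_5 i hi)
noncomputable def cq1_6 (i : ℕ) : Bool := (fun c => (fun d1 => @Bool.rec (fun _ => Bool) ((fun d2 => @Bool.rec (fun _ => Bool) ((fun d3 => @Bool.rec (fun _ => Bool) ((fun d4 => @Bool.rec (fun _ => Bool) (Nat.beq d4 c) true (Nat.blt d4 c)) (f6 (d3))) true (Nat.blt d3 c)) (f1 (d2))) true (Nat.blt d2 c)) (f6 (d1))) true (Nat.blt d1 c)) (f1 (c))) (Nat.mul 20 i)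
theorem hq1_6_0 : all2 cq1_6 14 0 = true := by decide +kernel
theorem hq1_6_1 : all2 cq1_6 13 16384 = true := by decide +kernel
theorem hq1_6_2 : all2 cq1_6 12 24576 = true := by decide +kernel
theorem hq1_6_3 : all2 cq1_6 11 28672 = true := by decide +kernel
theorem hq1_6_4 : all2 cq1_6 9 30720 = true := by decide +kernel
theorem hq1_6_5 : all2 cq1_6 8 31232 = true := by decide +kernel
theorem hq1_6_6 : all2 cq1_6 7 31488 = true := by decide +kernel
theorem hq1_6_7 : all2 cq1_6 5 31616 = true := by decide +kernel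
theorem hq1_6_8 : all2 cq1_6 4 31648 = true := by decide +kernel
theorem hq1_6_9 : all2 cq1_6 2 31664 = true := by decide +kernel
theorem hq1_6_10 : all2 cq1_6 1 31668 = true := by decide +kernel
theorem hq1_6_11 : all2 cq1_6 0 31670 = true := by decide +kernel
theorem hq1_6 : ∀ i < 31671, cq1_6 i = true := by
  have h0 : ∀ i < 0, cq1_6 i = true := fun i hi => absurd hi (Nat.not_lt_zero i)
  have h1 : ∀ i < 16384, cq1_6 i = true := range_step h0 hq1_6_0 (by norm_num)
  have h2 : ∀ i < 24576, cq1_6 i = true := range_step h1 hq1_6_1 (by norm_num)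
  have h3 : ∀ i < 28672, cq1_6 i = true := range_step h2 hq1_6_2 (by norm_num)
  have h4 : ∀ i < 30720, cq1_6 i = true := range_step h3 hq1_6_3 (by norm_num)
  have h5 : ∀ i < 31232, cq1_6 i = true := range_step h4 hq1_6_4 (by norm_num)
  have h6 : ∀ i < 31488, cq1_6 i = true := range_step h5 hq1_6_5 (by norm_num)
  have h7 : ∀ i < 31616, cq1_6 i = true := range_step h6 hq1_6_6 (by norm_num)
  have h8 : ∀ i < 31648, cq1_6 i = true := range_step h7 hq1_6_7 (by norm_num)
  have h9 : ∀ i < 31664, cq1_6 i = true := range_step h8 hq1_6_8 (by norm_num)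
  have h10 : ∀ i < 31668, cq1_6 i = true := range_step h9 hq1_6_9 (by norm_num)
  have h11 : ∀ i < 31670, cq1_6 i = true := range_step h10 hq1_6_10 (by norm_num)
  have h12 : ∀ i < 31671, cq1_6 i = true := range_step h11 hq1_6_11 (by norm_num)
  exact h12
theorem q1_6 : (tab.perm 1 * tab.perm 6) ^ 2 = 1 :=
  dih_spec tab 1 6 2 (by decide) (by decide) rfl rfl (fun c hc => by
    obtain ⟨i, hi, rfl⟩ := hc
    exact hq1_6 i hi)
noncomputable def cq1_7 (i : ℕ) : Bool := (fun c => (fun d1 => @Bool.rec (fun _ => Bool) ((fun d2 => @Bool.rec (fun _ => Bool) ((fun d3 => @Bool.rec (fun _ => Bool) ((fun d4 => @Bool.rec (fun _ => Bool) (Nat.beq d4 c) true (Nat.blt d4 c)) (f7 (d3))) true (Nat.blt d3 c)) (f1 (d2))) true (Nat.blt d2 c)) (f7 (d1))) true (Nat.blt d1 c)) (f1 (c))) (Nat.mul 20 i)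
theorem hq1_7_0 : all2 cq1_7 14 0 = true := by decide +kernel
theorem hq1_7_1 : all2 cq1_7 13 16384 = true := by decide +kernel
theorem hq1_7_2 : all2 cq1_7 12 24576 = true := by decide +kernel
theorem hq1_7_3 : all2 cq1_7 11 28672 = true := by decide +kernel
theorem hq1_7_4 : all2 cq1_7 9 30720 = true := by decide +kernel
theorem hq1_7_5 : all2 cq1_7 8 31232 = true := by decide +kernel
theorem hq1_7_6 : all2 cq1_7 7 31488 = true := by decide +kernel
theorem hq1_7_7 : all2 cq1_7 5 31616 = true := by decide +kernel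
theorem hq1_7_8 : all2 cq1_7 4 31648 = true := by decide +kernel
theorem hq1_7_9 : all2 cq1_7 2 31664 = true := by decide +kernel
theorem hq1_7_10 : all2 cq1_7 1 31668 = true := by decide +kernel
theorem hq1_7_11 : all2 cq1_7 0 31670 = true := by decide +kernel
theorem hq1_7 : ∀ i < 31671, cq1_7 i = true := by
  have h0 : ∀ i < 0, cq1_7 i = true := fun i hi => absurd hi (Nat.not_lt_zero i)
  have h1 : ∀ i < 16384, cq1_7 i = true := range_step h0 hq1_7_0 (by norm_num)
  have h2 : ∀ i < 24576, cq1_7 i = true := range_step h1 hq1_7_1 (by norm_num)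
  have h3 : ∀ i < 28672, cq1_7 i = true := range_step h2 hq1_7_2 (by norm_num)
  have h4 : ∀ i < 30720, cq1_7 i = true := range_step h3 hq1_7_3 (by norm_num)
  have h5 : ∀ i < 31232, cq1_7 i = true := range_step h4 hq1_7_4 (by norm_num)
  have h6 : ∀ i < 31488, cq1_7 i = true := range_step h5 hq1_7_5 (by norm_num)
  have h7 : ∀ i < 31616, cq1_7 i = true := range_step h6 hq1_7_6 (by norm_num)
  have h8 : ∀ i < 31648, cq1_7 i = true := range_step h7 hq1_7_7 (by norm_num)
  have h9 : ∀ i < 31664, cq1_7 i = true := range_step h8 hq1_7_8 (by norm_num)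
  have h10 : ∀ i < 31668, cq1_7 i = true := range_step h9 hq1_7_9 (by norm_num)
  have h11 : ∀ i < 31670, cq1_7 i = true := range_step h10 hq1_7_10 (by norm_num)
  have h12 : ∀ i < 31671, cq1_7 i = true := range_step h11 hq1_7_11 (by norm_num)
  exact h12
theorem q1_7 : (tab.perm 1 * tab.perm 7) ^ 2 = 1 :=
  dih_spec tab 1 7 2 (by decide) (by decide) rfl rfl (fun c hc => by
    obtain ⟨i, hi, rfl⟩ := hc
    exact hq1_7 i hi)
noncomputable def cq1_8 (i : ℕ) : Bool := (fun c => (fun d1 => @Bool.rec (fun _ => Bool) ((fun d2 => @Bool.rec (fun _ => Bool) ((fun d3 => @Bool.rec (fun _ => Bool) ((fun d4 => @Bool.rec (fun _ => Bool) (Nat.beq d4 c) true (Nat.blt d4 c)) (f8 (d3))) true (Nat.blt d3 c)) (f1 (d2))) true (Nat.blt d2 c)) (f8 (d1))) true (Nat.blt d1 c)) (f1 (c))) (Nat.mul 20 i)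
theorem hq1_8_0 : all2 cq1_8 14 0 = true := by decide +kernel
theorem hq1_8_1 : all2 cq1_8 13 16384 = true := by decide +kernel
theorem hq1_8_2 : all2 cq1_8 12 24576 = true := by decide +kernel
theorem hq1_8_3 : all2 cq1_8 11 28672 = true := by decide +kernel
theorem hq1_8_4 : all2 cq1_8 9 30720 = true := by decide +kernel
theorem hq1_8_5 : all2 cq1_8 8 31232 = true := by decide +kernel
theorem hq1_8_6 : all2 cq1_8 7 31488 = true := by decide +kernel
theorem hq1_8_7 : all2 cq1_8 5 31616 = true := by decide +kernel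
theorem hq1_8_8 : all2 cq1_8 4 31648 = true := by decide +kernel
theorem hq1_8_9 : all2 cq1_8 2 31664 = true := by decide +kernel
theorem hq1_8_10 : all2 cq1_8 1 31668 = true := by decide +kernel
theorem hq1_8_11 : all2 cq1_8 0 31670 = true := by decide +kernel
theorem hq1_8 : ∀ i < 31671, cq1_8 i = true := by
  have h0 : ∀ i < 0, cq1_8 i = true := fun i hi => absurd hi (Nat.not_lt_zero i)
  have h1 : ∀ i < 16384, cq1_8 i = true := range_step h0 hq1_8_0 (by norm_num)
  have h2 : ∀ i < 24576, cq1_8 i = true := range_step h1 hq1_8_1 (by norm_num)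
  have h3 : ∀ i < 28672, cq1_8 i = true := range_step h2 hq1_8_2 (by norm_num)
  have h4 : ∀ i < 30720, cq1_8 i = true := range_step h3 hq1_8_3 (by norm_num)
  have h5 : ∀ i < 31232, cq1_8 i = true := range_step h4 hq1_8_4 (by norm_num)
  have h6 : ∀ i < 31488, cq1_8 i = true := range_step h5 hq1_8_5 (by norm_num)
  have h7 : ∀ i < 31616, cq1_8 i = true := range_step h6 hq1_8_6 (by norm_num)
  have h8 : ∀ i < 31648, cq1_8 i = true := range_step h7 hq1_8_7 (by norm_num)
  have h9 : ∀ i < 31664, cq1_8 i = true := range_step h8 hq1_8_8 (by norm_num)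
  have h10 : ∀ i < 31668, cq1_8 i = true := range_step h9 hq1_8_9 (by norm_num)
  have h11 : ∀ i < 31670, cq1_8 i = true := range_step h10 hq1_8_10 (by norm_num)
  have h12 : ∀ i < 31671, cq1_8 i = true := range_step h11 hq1_8_11 (by norm_num)
  exact h12
theorem q1_8 : (tab.perm 1 * tab.perm 8) ^ 2 = 1 :=
  dih_spec tab 1 8 2 (by decide) (by decide) rfl rfl (fun c hc => by
    obtain ⟨i, hi, rfl⟩ := hc
    exact hq1_8 i hi)
noncomputable def cq1_9 (i : ℕ) : Bool := (fun c => (fun d1 => @Bool.rec (fun _ => Bool) ((fun d2 => @Bool.rec (fun _ => Bool) ((fun d3 => @Bool.rec (fun _ => Bool) ((fun d4 => @Bool.rec (fun _ => Bool) (Nat.beq d4 c) true (Nat.blt d4 c)) (f9 (d3))) true (Nat.blt d3 c)) (f1 (d2))) true (Nat.blt d2 c)) (f9 (d1))) true (Nat.blt d1 c)) (f1 (c))) (Nat.mul 20 i)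
theorem hq1_9_0 : all2 cq1_9 14 0 = true := by decide +kernel
theorem hq1_9_1 : all2 cq1_9 13 16384 = true := by decide +kernel
theorem hq1_9_2 : all2 cq1_9 12 24576 = true := by decide +kernel
theorem hq1_9_3 : all2 cq1_9 11 28672 = true := by decide +kernel
theorem hq1_9_4 : all2 cq1_9 9 30720 = true := by decide +kernel
theorem hq1_9_5 : all2 cq1_9 8 31232 = true := by decide +kernel
theorem hq1_9_6 : all2 cq1_9 7 31488 = true := by decide +kernel
theorem hq1_9_7 : all2 cq1_9 5 31616 = true := by decide +kernel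
theorem hq1_9_8 : all2 cq1_9 4 31648 = true := by decide +kernel
theorem hq1_9_9 : all2 cq1_9 2 31664 = true := by decide +kernel
theorem hq1_9_10 : all2 cq1_9 1 31668 = true := by decide +kernel
theorem hq1_9_11 : all2 cq1_9 0 31670 = true := by decide +kernel
theorem hq1_9 : ∀ i < 31671, cq1_9 i = true := by
  have h0 : ∀ i < 0, cq1_9 i = true := fun i hi => absurd hi (Nat.not_lt_zero i)
  have h1 : ∀ i < 16384, cq1_9 i = true := range_step h0 hq1_9_0 (by norm_num)
  have h2 : ∀ i < 24576, cq1_9 i = true := range_step h1 hq1_9_1 (by norm_num)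
  have h3 : ∀ i < 28672, cq1_9 i = true := range_step h2 hq1_9_2 (by norm_num)
  have h4 : ∀ i < 30720, cq1_9 i = true := range_step h3 hq1_9_3 (by norm_num)
  have h5 : ∀ i < 31232, cq1_9 i = true := range_step h4 hq1_9_4 (by norm_num)
  have h6 : ∀ i < 31488, cq1_9 i = true := range_step h5 hq1_9_5 (by norm_num)
  have h7 : ∀ i < 31616, cq1_9 i = true := range_step h6 hq1_9_6 (by norm_num)
  have h8 : ∀ i < 31648, cq1_9 i = true := range_step h7 hq1_9_7 (by norm_num)
  have h9 : ∀ i < 31664, cq1_9 i = true := range_step h8 hq1_9_8 (by norm_num)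
  have h10 : ∀ i < 31668, cq1_9 i = true := range_step h9 hq1_9_9 (by norm_num)
  have h11 : ∀ i < 31670, cq1_9 i = true := range_step h10 hq1_9_10 (by norm_num)
  have h12 : ∀ i < 31671, cq1_9 i = true := range_step h11 hq1_9_11 (by norm_num)
  exact h12
theorem q1_9 : (tab.perm 1 * tab.perm 9) ^ 2 = 1 :=
  dih_spec tab 1 9 2 (by decide) (by decide) rfl rfl (fun c hc => by
    obtain ⟨i, hi, rfl⟩ := hc
    exact hq1_9 i hi)
noncomputable def cq2_3 (i : ℕ) : Bool := (fun c => (fun d1 => @Bool.rec (fun _ => Bool) ((fun d2 => @Bool.rec (fun _ => Bool) ((fun d3 => @Bool.rec (fun _ => Bool) ((fun d4 => @Bool.rec (fun _ => Bool) ((fun d5 => @Bool.rec (fun _ => Bool) ((fun d6 => @Bool.rec (fun _ => Bool) (Nat.beq d6 c) true (Nat.blt d6 c)) (f3 (d5))) true (Nat.blt d5 c)) (f2 (d4))) true (Nat.blt d4 c)) (f3 (d3))) true (Nat.blt d3 c)) (f2 (d2))) true (Nat.blt d2 c)) (f3 (d1))) true (Nat.blt d1 c)) (f2 (c))) (Nat.mul 20 i)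
theorem hq2_3_0 : all2 cq2_3 14 0 = true := by decide +kernel
theorem hq2_3_1 : all2 cq2_3 13 16384 = true := by decide +kernel
theorem hq2_3_2 : all2 cq2_3 12 24576 = true := by decide +kernel
theorem hq2_3_3 : all2 cq2_3 11 28672 = true := by decide +kernel
theorem hq2_3_4 : all2 cq2_3 9 30720 = true := by decide +kernel
theorem hq2_3_5 : all2 cq2_3 8 31232 = true := by decide +kernel
theorem hq2_3_6 : all2 cq2_3 7 31488 = true := by decide +kernel
theorem hq2_3_7 : all2 cq2_3 5 31616 = true := by decide +kernel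
theorem hq2_3_8 : all2 cq2_3 4 31648 = true := by decide +kernel
theorem hq2_3_9 : all2 cq2_3 2 31664 = true := by decide +kernel
theorem hq2_3_10 : all2 cq2_3 1 31668 = true := by decide +kernel
theorem hq2_3_11 : all2 cq2_3 0 31670 = true := by decide +kernel
theorem hq2_3 : ∀ i < 31671, cq2_3 i = true := by
  have h0 : ∀ i < 0, cq2_3 i = true := fun i hi => absurd hi (Nat.not_lt_zero i)
  have h1 : ∀ i < 16384, cq2_3 i = true := range_step h0 hq2_3_0 (by norm_num)
  have h2 : ∀ i < 24576, cq2_3 i = true := range_step h1 hq2_3_1 (by norm_num)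
  have h3 : ∀ i < 28672, cq2_3 i = true := range_step h2 hq2_3_2 (by norm_num)
  have h4 : ∀ i < 30720, cq2_3 i = true := range_step h3 hq2_3_3 (by norm_num)
  have h5 : ∀ i < 31232, cq2_3 i = true := range_step h4 hq2_3_4 (by norm_num)
  have h6 : ∀ i < 31488, cq2_3 i = true := range_step h5 hq2_3_5 (by norm_num)
  have h7 : ∀ i < 31616, cq2_3 i = true := range_step h6 hq2_3_6 (by norm_num)
  have h8 : ∀ i < 31648, cq2_3 i = true := range_step h7 hq2_3_7 (by norm_num)
  have h9 : ∀ i < 31664, cq2_3 i = true := range_step h8 hq2_3_8 (by norm_num)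
  have h10 : ∀ i < 31668, cq2_3 i = true := range_step h9 hq2_3_9 (by norm_num)
  have h11 : ∀ i < 31670, cq2_3 i = true := range_step h10 hq2_3_10 (by norm_num)
  have h12 : ∀ i < 31671, cq2_3 i = true := range_step h11 hq2_3_11 (by norm_num)
  exact h12
theorem q2_3 : (tab.perm 2 * tab.perm 3) ^ 3 = 1 :=
  dih_spec tab 2 3 3 (by decide) (by decide) rfl rfl (fun c hc => by
    obtain ⟨i, hi, rfl⟩ := hc
    exact hq2_3 i hi)
noncomputable def cq2_4 (i : ℕ) : Bool := (fun c => (fun d1 => @Bool.rec (fun _ => Bool) ((fun d2 => @Bool.rec (fun _ => Bool) ((fun d3 => @Bool.rec (fun _ => Bool) ((fun d4 => @Bool.rec (fun _ => Bool) (Nat.beq d4 c) true (Nat.blt d4 c)) (f4 (d3))) true (Nat.blt d3 c)) (f2 (d2))) true (Nat.blt d2 c)) (f4 (d1))) true (Nat.blt d1 c)) (f2 (c))) (Nat.mul 20 i)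
theorem hq2_4_0 : all2 cq2_4 14 0 = true := by decide +kernel
theorem hq2_4_1 : all2 cq2_4 13 16384 = true := by decide +kernel
theorem hq2_4_2 : all2 cq2_4 12 24576 = true := by decide +kernel
theorem hq2_4_3 : all2 cq2_4 11 28672 = true := by decide +kernel
theorem hq2_4_4 : all2 cq2_4 9 30720 = true := by decide +kernel
theorem hq2_4_5 : all2 cq2_4 8 31232 = true := by decide +kernel
theorem hq2_4_6 : all2 cq2_4 7 31488 = true := by decide +kernel
theorem hq2_4_7 : all2 cq2_4 5 31616 = true := by decide +kernel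
theorem hq2_4_8 : all2 cq2_4 4 31648 = true := by decide +kernel
theorem hq2_4_9 : all2 cq2_4 2 31664 = true := by decide +kernel
theorem hq2_4_10 : all2 cq2_4 1 31668 = true := by decide +kernel
theorem hq2_4_11 : all2 cq2_4 0 31670 = true := by decide +kernel
theorem hq2_4 : ∀ i < 31671, cq2_4 i = true := by
  have h0 : ∀ i < 0, cq2_4 i = true := fun i hi => absurd hi (Nat.not_lt_zero i)
  have h1 : ∀ i < 16384, cq2_4 i = true := range_step h0 hq2_4_0 (by norm_num)
  have h2 : ∀ i < 24576, cq2_4 i = true := range_step h1 hq2_4_1 (by norm_num)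
  have h3 : ∀ i < 28672, cq2_4 i = true := range_step h2 hq2_4_2 (by norm_num)
  have h4 : ∀ i < 30720, cq2_4 i = true := range_step h3 hq2_4_3 (by norm_num)
  have h5 : ∀ i < 31232, cq2_4 i = true := range_step h4 hq2_4_4 (by norm_num)
  have h6 : ∀ i < 31488, cq2_4 i = true := range_step h5 hq2_4_5 (by norm_num)
  have h7 : ∀ i < 31616, cq2_4 i = true := range_step h6 hq2_4_6 (by norm_num)
  have h8 : ∀ i < 31648, cq2_4 i = true := range_step h7 hq2_4_7 (by norm_num)
  have h9 : ∀ i < 31664, cq2_4 i = true := range_step h8 hq2_4_8 (by norm_num)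
  have h10 : ∀ i < 31668, cq2_4 i = true := range_step h9 hq2_4_9 (by norm_num)
  have h11 : ∀ i < 31670, cq2_4 i = true := range_step h10 hq2_4_10 (by norm_num)
  have h12 : ∀ i < 31671, cq2_4 i = true := range_step h11 hq2_4_11 (by norm_num)
  exact h12
theorem q2_4 : (tab.perm 2 * tab.perm 4) ^ 2 = 1 :=
  dih_spec tab 2 4 2 (by decide) (by decide) rfl rfl (fun c hc => by
    obtain ⟨i, hi, rfl⟩ := hc
    exact hq2_4 i hi)
noncomputable def cq2_5 (i : ℕ) : Bool := (fun c => (fun d1 => @Bool.rec (fun _ => Bool) ((fun d2 => @Bool.rec (fun _ => Bool) ((fun d3 => @Bool.rec (fun _ => Bool) ((fun d4 => @Bool.rec (fun _ => Bool) (Nat.beq d4 c) true (Nat.blt d4 c)) (f5 (d3))) true (Nat.blt d3 c)) (f2 (d2))) true (Nat.blt d2 c)) (f5 (d1))) true (Nat.blt d1 c)) (f2 (c))) (Nat.mul 20 i)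
theorem hq2_5_0 : all2 cq2_5 14 0 = true := by decide +kernel
theorem hq2_5_1 : all2 cq2_5 13 16384 = true := by decide +kernel
theorem hq2_5_2 : all2 cq2_5 12 24576 = true := by decide +kernel
theorem hq2_5_3 : all2 cq2_5 11 28672 = true := by decide +kernel
theorem hq2_5_4 : all2 cq2_5 9 30720 = true := by decide +kernel
theorem hq2_5_5 : all2 cq2_5 8 31232 = true := by decide +kernel
theorem hq2_5_6 : all2 cq2_5 7 31488 = true := by decide +kernel
theorem hq2_5_7 : all2 cq2_5 5 31616 = true := by decide +kernel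
theorem hq2_5_8 : all2 cq2_5 4 31648 = true := by decide +kernel
theorem hq2_5_9 : all2 cq2_5 2 31664 = true := by decide +kernel
theorem hq2_5_10 : all2 cq2_5 1 31668 = true := by decide +kernel
theorem hq2_5_11 : all2 cq2_5 0 31670 = true := by decide +kernel
theorem hq2_5 : ∀ i < 31671, cq2_5 i = true := by
  have h0 : ∀ i < 0, cq2_5 i = true := fun i hi => absurd hi (Nat.not_lt_zero i)
  have h1 : ∀ i < 16384, cq2_5 i = true := range_step h0 hq2_5_0 (by norm_num)
  have h2 : ∀ i < 24576, cq2_5 i = true := range_step h1 hq2_5_1 (by norm_num)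
  have h3 : ∀ i < 28672, cq2_5 i = true := range_step h2 hq2_5_2 (by norm_num)
  have h4 : ∀ i < 30720, cq2_5 i = true := range_step h3 hq2_5_3 (by norm_num)
  have h5 : ∀ i < 31232, cq2_5 i = true := range_step h4 hq2_5_4 (by norm_num)
  have h6 : ∀ i < 31488, cq2_5 i = true := range_step h5 hq2_5_5 (by norm_num)
  have h7 : ∀ i < 31616, cq2_5 i = true := range_step h6 hq2_5_6 (by norm_num)
  have h8 : ∀ i < 31648, cq2_5 i = true := range_step h7 hq2_5_7 (by norm_num)
  have h9 : ∀ i < 31664, cq2_5 i = true := range_step h8 hq2_5_8 (by norm_num)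
  have h10 : ∀ i < 31668, cq2_5 i = true := range_step h9 hq2_5_9 (by norm_num)
  have h11 : ∀ i < 31670, cq2_5 i = true := range_step h10 hq2_5_10 (by norm_num)
  have h12 : ∀ i < 31671, cq2_5 i = true := range_step h11 hq2_5_11 (by norm_num)
  exact h12
theorem q2_5 : (tab.perm 2 * tab.perm 5) ^ 2 = 1 :=
  dih_spec tab 2 5 2 (by decide) (by decide) rfl rfl (fun c hc => by
    obtain ⟨i, hi, rfl⟩ := hc
    exact hq2_5 i hi)
noncomputable def cq2_6 (i : ℕ) : Bool := (fun c => (fun d1 => @Bool.rec (fun _ => Bool) ((fun d2 => @Bool.rec (fun _ => Bool) ((fun d3 => @Bool.rec (fun _ => Bool) ((fun d4 => @Bool.rec (fun _ => Bool) (Nat.beq d4 c) true (Nat.blt d4 c)) (f6 (d3))) true (Nat.blt d3 c)) (f2 (d2))) true (Nat.blt d2 c)) (f6 (d1))) true (Nat.blt d1 c)) (f2 (c))) (Nat.mul 20 i)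
theorem hq2_6_0 : all2 cq2_6 14 0 = true := by decide +kernel
theorem hq2_6_1 : all2 cq2_6 13 16384 = true := by decide +kernel
theorem hq2_6_2 : all2 cq2_6 12 24576 = true := by decide +kernel
theorem hq2_6_3 : all2 cq2_6 11 28672 = true := by decide +kernel
theorem hq2_6_4 : all2 cq2_6 9 30720 = true := by decide +kernel
theorem hq2_6_5 : all2 cq2_6 8 31232 = true := by decide +kernel
theorem hq2_6_6 : all2 cq2_6 7 31488 = true := by decide +kernel
theorem hq2_6_7 : all2 cq2_6 5 31616 = true := by decide +kernel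
theorem hq2_6_8 : all2 cq2_6 4 31648 = true := by decide +kernel
theorem hq2_6_9 : all2 cq2_6 2 31664 = true := by decide +kernel
theorem hq2_6_10 : all2 cq2_6 1 31668 = true := by decide +kernel
theorem hq2_6_11 : all2 cq2_6 0 31670 = true := by decide +kernel
theorem hq2_6 : ∀ i < 31671, cq2_6 i = true := by
  have h0 : ∀ i < 0, cq2_6 i = true := fun i hi => absurd hi (Nat.not_lt_zero i)
  have h1 : ∀ i < 16384, cq2_6 i = true := range_step h0 hq2_6_0 (by norm_num)
  have h2 : ∀ i < 24576, cq2_6 i = true := range_step h1 hq2_6_1 (by norm_num)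
  have h3 : ∀ i < 28672, cq2_6 i = true := range_step h2 hq2_6_2 (by norm_num)
  have h4 : ∀ i < 30720, cq2_6 i = true := range_step h3 hq2_6_3 (by norm_num)
  have h5 : ∀ i < 31232, cq2_6 i = true := range_step h4 hq2_6_4 (by norm_num)
  have h6 : ∀ i < 31488, cq2_6 i = true := range_step h5 hq2_6_5 (by norm_num)
  have h7 : ∀ i < 31616, cq2_6 i = true := range_step h6 hq2_6_6 (by norm_num)
  have h8 : ∀ i < 31648, cq2_6 i = true := range_step h7 hq2_6_7 (by norm_num)
  have h9 : ∀ i < 31664, cq2_6 i = true := range_step h8 hq2_6_8 (by norm_num)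
  have h10 : ∀ i < 31668, cq2_6 i = true := range_step h9 hq2_6_9 (by norm_num)
  have h11 : ∀ i < 31670, cq2_6 i = true := range_step h10 hq2_6_10 (by norm_num)
  have h12 : ∀ i < 31671, cq2_6 i = true := range_step h11 hq2_6_11 (by norm_num)
  exact h12
theorem q2_6 : (tab.perm 2 * tab.perm 6) ^ 2 = 1 :=
  dih_spec tab 2 6 2 (by decide) (by decide) rfl rfl (fun c hc => by
    obtain ⟨i, hi, rfl⟩ := hc
    exact hq2_6 i hi)
noncomputable def cq2_7 (i : ℕ) : Bool := (fun c => (fun d1 => @Bool.rec (fun _ => Bool) ((fun d2 => @Bool.rec (fun _ => Bool) ((fun d3 => @Bool.rec (fun _ => Bool) ((fun d4 => @Bool.rec (fun _ => Bool) (Nat.beq d4 c) true (Nat.blt d4 c)) (f7 (d3))) true (Nat.blt d3 c)) (f2 (d2))) true (Nat.blt d2 c)) (f7 (d1))) true (Nat.blt d1 c)) (f2 (c))) (Nat.mul 20 i)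
theorem hq2_7_0 : all2 cq2_7 14 0 = true := by decide +kernel
theorem hq2_7_1 : all2 cq2_7 13 16384 = true := by decide +kernel
theorem hq2_7_2 : all2 cq2_7 12 24576 = true := by decide +kernel
theorem hq2_7_3 : all2 cq2_7 11 28672 = true := by decide +kernel
theorem hq2_7_4 : all2 cq2_7 9 30720 = true := by decide +kernel
theorem hq2_7_5 : all2 cq2_7 8 31232 = true := by decide +kernel
theorem hq2_7_6 : all2 cq2_7 7 31488 = true := by decide +kernel
theorem hq2_7_7 : all2 cq2_7 5 31616 = true := by decide +kernel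
theorem hq2_7_8 : all2 cq2_7 4 31648 = true := by decide +kernel
theorem hq2_7_9 : all2 cq2_7 2 31664 = true := by decide +kernel
theorem hq2_7_10 : all2 cq2_7 1 31668 = true := by decide +kernel
theorem hq2_7_11 : all2 cq2_7 0 31670 = true := by decide +kernel
theorem hq2_7 : ∀ i < 31671, cq2_7 i = true := by
  have h0 : ∀ i < 0, cq2_7 i = true := fun i hi => absurd hi (Nat.not_lt_zero i)
  have h1 : ∀ i < 16384, cq2_7 i = true := range_step h0 hq2_7_0 (by norm_num)
  have h2 : ∀ i < 24576, cq2_7 i = true := range_step h1 hq2_7_1 (by norm_num)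
  have h3 : ∀ i < 28672, cq2_7 i = true := range_step h2 hq2_7_2 (by norm_num)
  have h4 : ∀ i < 30720, cq2_7 i = true := range_step h3 hq2_7_3 (by norm_num)
  have h5 : ∀ i < 31232, cq2_7 i = true := range_step h4 hq2_7_4 (by norm_num)
  have h6 : ∀ i < 31488, cq2_7 i = true := range_step h5 hq2_7_5 (by norm_num)
  have h7 : ∀ i < 31616, cq2_7 i = true := range_step h6 hq2_7_6 (by norm_num)
  have h8 : ∀ i < 31648, cq2_7 i = true := range_step h7 hq2_7_7 (by norm_num)
  have h9 : ∀ i < 31664, cq2_7 i = true := range_step h8 hq2_7_8 (by norm_num)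
  have h10 : ∀ i < 31668, cq2_7 i = true := range_step h9 hq2_7_9 (by norm_num)
  have h11 : ∀ i < 31670, cq2_7 i = true := range_step h10 hq2_7_10 (by norm_num)
  have h12 : ∀ i < 31671, cq2_7 i = true := range_step h11 hq2_7_11 (by norm_num)
  exact h12
theorem q2_7 : (tab.perm 2 * tab.perm 7) ^ 2 = 1 :=
  dih_spec tab 2 7 2 (by decide) (by decide) rfl rfl (fun c hc => by
    obtain ⟨i, hi, rfl⟩ := hc
    exact hq2_7 i hi)
noncomputable def cq2_8 (i : ℕ) : Bool := (fun c => (fun d1 => @Bool.rec (fun _ => Bool) ((fun d2 => @Bool.rec (fun _ => Bool) ((fun d3 => @Bool.rec (fun _ => Bool) ((fun d4 => @Bool.rec (fun _ => Bool) (Nat.beq d4 c) true (Nat.blt d4 c)) (f8 (d3))) true (Nat.blt d3 c)) (f2 (d2))) true (Nat.blt d2 c)) (f8 (d1))) true (Nat.blt d1 c)) (f2 (c))) (Nat.mul 20 i)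
theorem hq2_8_0 : all2 cq2_8 14 0 = true := by decide +kernel
theorem hq2_8_1 : all2 cq2_8 13 16384 = true := by decide +kernel
theorem hq2_8_2 : all2 cq2_8 12 24576 = true := by decide +kernel
theorem hq2_8_3 : all2 cq2_8 11 28672 = true := by decide +kernel
theorem hq2_8_4 : all2 cq2_8 9 30720 = true := by decide +kernel
theorem hq2_8_5 : all2 cq2_8 8 31232 = true := by decide +kernel
theorem hq2_8_6 : all2 cq2_8 7 31488 = true := by decide +kernel
theorem hq2_8_7 : all2 cq2_8 5 31616 = true := by decide +kernel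
theorem hq2_8_8 : all2 cq2_8 4 31648 = true := by decide +kernel
theorem hq2_8_9 : all2 cq2_8 2 31664 = true := by decide +kernel
theorem hq2_8_10 : all2 cq2_8 1 31668 = true := by decide +kernel
theorem hq2_8_11 : all2 cq2_8 0 31670 = true := by decide +kernel
theorem hq2_8 : ∀ i < 31671, cq2_8 i = true := by
  have h0 : ∀ i < 0, cq2_8 i = true := fun i hi => absurd hi (Nat.not_lt_zero i)
  have h1 : ∀ i < 16384, cq2_8 i = true := range_step h0 hq2_8_0 (by norm_num)
  have h2 : ∀ i < 24576, cq2_8 i = true := range_step h1 hq2_8_1 (by norm_num)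
  have h3 : ∀ i < 28672, cq2_8 i = true := range_step h2 hq2_8_2 (by norm_num)
  have h4 : ∀ i < 30720, cq2_8 i = true := range_step h3 hq2_8_3 (by norm_num)
  have h5 : ∀ i < 31232, cq2_8 i = true := range_step h4 hq2_8_4 (by norm_num)
  have h6 : ∀ i < 31488, cq2_8 i = true := range_step h5 hq2_8_5 (by norm_num)
  have h7 : ∀ i < 31616, cq2_8 i = true := range_step h6 hq2_8_6 (by norm_num)
  have h8 : ∀ i < 31648, cq2_8 i = true := range_step h7 hq2_8_7 (by norm_num)
  have h9 : ∀ i < 31664, cq2_8 i = true := range_step h8 hq2_8_8 (by norm_num)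
  have h10 : ∀ i < 31668, cq2_8 i = true := range_step h9 hq2_8_9 (by norm_num)
  have h11 : ∀ i < 31670, cq2_8 i = true := range_step h10 hq2_8_10 (by norm_num)
  have h12 : ∀ i < 31671, cq2_8 i = true := range_step h11 hq2_8_11 (by norm_num)
  exact h12
theorem q2_8 : (tab.perm 2 * tab.perm 8) ^ 2 = 1 :=
  dih_spec tab 2 8 2 (by decide) (by decide) rfl rfl (fun c hc => by
    obtain ⟨i, hi, rfl⟩ := hc
    exact hq2_8 i hi)
noncomputable def cq2_9 (i : ℕ) : Bool := (fun c => (fun d1 => @Bool.rec (fun _ => Bool) ((fun d2 => @Bool.rec (fun _ => Bool) ((fun d3 => @Bool.rec (fun _ => Bool) ((fun d4 => @Bool.rec (fun _ => Bool) (Nat.beq d4 c) true (Nat.blt d4 c)) (f9 (d3))) true (Nat.blt d3 c)) (f2 (d2))) true (Nat.blt d2 c)) (f9 (d1))) true (Nat.blt d1 c)) (f2 (c))) (Nat.mul 20 i)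
theorem hq2_9_0 : all2 cq2_9 14 0 = true := by decide +kernel
theorem hq2_9_1 : all2 cq2_9 13 16384 = true := by decide +kernel
theorem hq2_9_2 : all2 cq2_9 12 24576 = true := by decide +kernel
theorem hq2_9_3 : all2 cq2_9 11 28672 = true := by decide +kernel
theorem hq2_9_4 : all2 cq2_9 9 30720 = true := by decide +kernel
theorem hq2_9_5 : all2 cq2_9 8 31232 = true := by decide +kernel
theorem hq2_9_6 : all2 cq2_9 7 31488 = true := by decide +kernel
theorem hq2_9_7 : all2 cq2_9 5 31616 = true := by decide +kernel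
theorem hq2_9_8 : all2 cq2_9 4 31648 = true := by decide +kernel
theorem hq2_9_9 : all2 cq2_9 2 31664 = true := by decide +kernel
theorem hq2_9_10 : all2 cq2_9 1 31668 = true := by decide +kernel
theorem hq2_9_11 : all2 cq2_9 0 31670 = true := by decide +kernel
theorem hq2_9 : ∀ i < 31671, cq2_9 i = true := by
  have h0 : ∀ i < 0, cq2_9 i = true := fun i hi => absurd hi (Nat.not_lt_zero i)
  have h1 : ∀ i < 16384, cq2_9 i = true := range_step h0 hq2_9_0 (by norm_num)
  have h2 : ∀ i < 24576, cq2_9 i = true := range_step h1 hq2_9_1 (by norm_num)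
  have h3 : ∀ i < 28672, cq2_9 i = true := range_step h2 hq2_9_2 (by norm_num)
  have h4 : ∀ i < 30720, cq2_9 i = true := range_step h3 hq2_9_3 (by norm_num)
  have h5 : ∀ i < 31232, cq2_9 i = true := range_step h4 hq2_9_4 (by norm_num)
  have h6 : ∀ i < 31488, cq2_9 i = true := range_step h5 hq2_9_5 (by norm_num)
  have h7 : ∀ i < 31616, cq2_9 i = true := range_step h6 hq2_9_6 (by norm_num)
  have h8 : ∀ i < 31648, cq2_9 i = true := range_step h7 hq2_9_7 (by norm_num)
  have h9 : ∀ i < 31664, cq2_9 i = true := range_step h8 hq2_9_8 (by norm_num)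
  have h10 : ∀ i < 31668, cq2_9 i = true := range_step h9 hq2_9_9 (by norm_num)
  have h11 : ∀ i < 31670, cq2_9 i = true := range_step h10 hq2_9_10 (by norm_num)
  have h12 : ∀ i < 31671, cq2_9 i = true := range_step h11 hq2_9_11 (by norm_num)
  exact h12
theorem q2_9 : (tab.perm 2 * tab.perm 9) ^ 2 = 1 :=
  dih_spec tab 2 9 2 (by decide) (by decide) rfl rfl (fun c hc => by
    obtain ⟨i, hi, rfl⟩ := hc
    exact hq2_9 i hi)
noncomputable def cq3_4 (i : ℕ) : Bool := (fun c => (fun d1 => @Bool.rec (fun _ => Bool) ((fun d2 => @Bool.rec (fun _ => Bool) ((fun d3 => @Bool.rec (fun _ => Bool) ((fun d4 => @Bool.rec (fun _ => Bool) ((fun d5 => @Bool.rec (fun _ => Bool) ((fun d6 => @Bool.rec (fun _ => Bool) (Nat.beq d6 c) true (Nat.blt d6 c)) (f4 (d5))) true (Nat.blt d5 c)) (f3 (d4))) true (Nat.blt d4 c)) (f4 (d3))) true (Nat.blt d3 c)) (f3 (d2))) true (Nat.blt d2 c)) (f4 (d1))) true (Nat.blt d1 c)) (f3 (c))) (Nat.mul 20 i)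
theorem hq3_4_0 : all2 cq3_4 14 0 = true := by decide +kernel
theorem hq3_4_1 : all2 cq3_4 13 16384 = true := by decide +kernel
theorem hq3_4_2 : all2 cq3_4 12 24576 = true := by decide +kernel
theorem hq3_4_3 : all2 cq3_4 11 28672 = true := by decide +kernel
theorem hq3_4_4 : all2 cq3_4 9 30720 = true := by decide +kernel
theorem hq3_4_5 : all2 cq3_4 8 31232 = true := by decide +kernel
theorem hq3_4_6 : all2 cq3_4 7 31488 = true := by decide +kernel
theorem hq3_4_7 : all2 cq3_4 5 31616 = true := by decide +kernel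
theorem hq3_4_8 : all2 cq3_4 4 31648 = true := by decide +kernel
theorem hq3_4_9 : all2 cq3_4 2 31664 = true := by decide +kernel
theorem hq3_4_10 : all2 cq3_4 1 31668 = true := by decide +kernel
theorem hq3_4_11 : all2 cq3_4 0 31670 = true := by decide +kernel
theorem hq3_4 : ∀ i < 31671, cq3_4 i = true := by
  have h0 : ∀ i < 0, cq3_4 i = true := fun i hi => absurd hi (Nat.not_lt_zero i)
  have h1 : ∀ i < 16384, cq3_4 i = true := range_step h0 hq3_4_0 (by norm_num)
  have h2 : ∀ i < 24576, cq3_4 i = true := range_step h1 hq3_4_1 (by norm_num)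
  have h3 : ∀ i < 28672, cq3_4 i = true := range_step h2 hq3_4_2 (by norm_num)
  have h4 : ∀ i < 30720, cq3_4 i = true := range_step h3 hq3_4_3 (by norm_num)
  have h5 : ∀ i < 31232, cq3_4 i = true := range_step h4 hq3_4_4 (by norm_num)
  have h6 : ∀ i < 31488, cq3_4 i = true := range_step h5 hq3_4_5 (by norm_num)
  have h7 : ∀ i < 31616, cq3_4 i = true := range_step h6 hq3_4_6 (by norm_num)
  have h8 : ∀ i < 31648, cq3_4 i = true := range_step h7 hq3_4_7 (by norm_num)
  have h9 : ∀ i < 31664, cq3_4 i = true := range_step h8 hq3_4_8 (by norm_num)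
  have h10 : ∀ i < 31668, cq3_4 i = true := range_step h9 hq3_4_9 (by norm_num)
  have h11 : ∀ i < 31670, cq3_4 i = true := range_step h10 hq3_4_10 (by norm_num)
  have h12 : ∀ i < 31671, cq3_4 i = true := range_step h11 hq3_4_11 (by norm_num)
  exact h12
theorem q3_4 : (tab.perm 3 * tab.perm 4) ^ 3 = 1 :=
  dih_spec tab 3 4 3 (by decide) (by decide) rfl rfl (fun c hc => by
    obtain ⟨i, hi, rfl⟩ := hc
    exact hq3_4 i hi)
noncomputable def cq3_5 (i : ℕ) : Bool := (fun c => (fun d1 => @Bool.rec (fun _ => Bool) ((fun d2 => @Bool.rec (fun _ => Bool) ((fun d3 => @Bool.rec (fun _ => Bool) ((fun d4 => @Bool.rec (fun _ => Bool) (Nat.beq d4 c) true (Nat.blt d4 c)) (f5 (d3))) true (Nat.blt d3 c)) (f3 (d2))) true (Nat.blt d2 c)) (f5 (d1))) true (Nat.blt d1 c)) (f3 (c))) (Nat.mul 20 i)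
theorem hq3_5_0 : all2 cq3_5 14 0 = true := by decide +kernel
theorem hq3_5_1 : all2 cq3_5 13 16384 = true := by decide +kernel
theorem hq3_5_2 : all2 cq3_5 12 24576 = true := by decide +kernel
theorem hq3_5_3 : all2 cq3_5 11 28672 = true := by decide +kernel
theorem hq3_5_4 : all2 cq3_5 9 30720 = true := by decide +kernel
theorem hq3_5_5 : all2 cq3_5 8 31232 = true := by decide +kernel
theorem hq3_5_6 : all2 cq3_5 7 31488 = true := by decide +kernel
theorem hq3_5_7 : all2 cq3_5 5 31616 = true := by decide +kernel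
theorem hq3_5_8 : all2 cq3_5 4 31648 = true := by decide +kernel
theorem hq3_5_9 : all2 cq3_5 2 31664 = true := by decide +kernel
theorem hq3_5_10 : all2 cq3_5 1 31668 = true := by decide +kernel
theorem hq3_5_11 : all2 cq3_5 0 31670 = true := by decide +kernel
theorem hq3_5 : ∀ i < 31671, cq3_5 i = true := by
  have h0 : ∀ i < 0, cq3_5 i = true := fun i hi => absurd hi (Nat.not_lt_zero i)
  have h1 : ∀ i < 16384, cq3_5 i = true := range_step h0 hq3_5_0 (by norm_num)
  have h2 : ∀ i < 24576, cq3_5 i = true := range_step h1 hq3_5_1 (by norm_num)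
  have h3 : ∀ i < 28672, cq3_5 i = true := range_step h2 hq3_5_2 (by norm_num)
  have h4 : ∀ i < 30720, cq3_5 i = true := range_step h3 hq3_5_3 (by norm_num)
  have h5 : ∀ i < 31232, cq3_5 i = true := range_step h4 hq3_5_4 (by norm_num)
  have h6 : ∀ i < 31488, cq3_5 i = true := range_step h5 hq3_5_5 (by norm_num)
  have h7 : ∀ i < 31616, cq3_5 i = true := range_step h6 hq3_5_6 (by norm_num)
  have h8 : ∀ i < 31648, cq3_5 i = true := range_step h7 hq3_5_7 (by norm_num)
  have h9 : ∀ i < 31664, cq3_5 i = true := range_step h8 hq3_5_8 (by norm_num)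
  have h10 : ∀ i < 31668, cq3_5 i = true := range_step h9 hq3_5_9 (by norm_num)
  have h11 : ∀ i < 31670, cq3_5 i = true := range_step h10 hq3_5_10 (by norm_num)
  have h12 : ∀ i < 31671, cq3_5 i = true := range_step h11 hq3_5_11 (by norm_num)
  exact h12
theorem q3_5 : (tab.perm 3 * tab.perm 5) ^ 2 = 1 :=
  dih_spec tab 3 5 2 (by decide) (by decide) rfl rfl (fun c hc => by
    obtain ⟨i, hi, rfl⟩ := hc
    exact hq3_5 i hi)
noncomputable def cq3_6 (i : ℕ) : Bool := (fun c => (fun d1 => @Bool.rec (fun _ => Bool) ((fun d2 => @Bool.rec (fun _ => Bool) ((fun d3 => @Bool.rec (fun _ => Bool) ((fun d4 => @Bool.rec (fun _ => Bool) (Nat.beq d4 c) true (Nat.blt d4 c)) (f6 (d3))) true (Nat.blt d3 c)) (f3 (d2))) true (Nat.blt d2 c)) (f6 (d1))) true (Nat.blt d1 c)) (f3 (c))) (Nat.mul 20 i)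
theorem hq3_6_0 : all2 cq3_6 14 0 = true := by decide +kernel
theorem hq3_6_1 : all2 cq3_6 13 16384 = true := by decide +kernel
theorem hq3_6_2 : all2 cq3_6 12 24576 = true := by decide +kernel
theorem hq3_6_3 : all2 cq3_6 11 28672 = true := by decide +kernel
theorem hq3_6_4 : all2 cq3_6 9 30720 = true := by decide +kernel
theorem hq3_6_5 : all2 cq3_6 8 31232 = true := by decide +kernel
theorem hq3_6_6 : all2 cq3_6 7 31488 = true := by decide +kernel
theorem hq3_6_7 : all2 cq3_6 5 31616 = true := by decide +kernel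
theorem hq3_6_8 : all2 cq3_6 4 31648 = true := by decide +kernel
theorem hq3_6_9 : all2 cq3_6 2 31664 = true := by decide +kernel
theorem hq3_6_10 : all2 cq3_6 1 31668 = true := by decide +kernel
theorem hq3_6_11 : all2 cq3_6 0 31670 = true := by decide +kernel
theorem hq3_6 : ∀ i < 31671, cq3_6 i = true := by
  have h0 : ∀ i < 0, cq3_6 i = true := fun i hi => absurd hi (Nat.not_lt_zero i)
  have h1 : ∀ i < 16384, cq3_6 i = true := range_step h0 hq3_6_0 (by norm_num)
  have h2 : ∀ i < 24576, cq3_6 i = true := range_step h1 hq3_6_1 (by norm_num)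
  have h3 : ∀ i < 28672, cq3_6 i = true := range_step h2 hq3_6_2 (by norm_num)
  have h4 : ∀ i < 30720, cq3_6 i = true := range_step h3 hq3_6_3 (by norm_num)
  have h5 : ∀ i < 31232, cq3_6 i = true := range_step h4 hq3_6_4 (by norm_num)
  have h6 : ∀ i < 31488, cq3_6 i = true := range_step h5 hq3_6_5 (by norm_num)
  have h7 : ∀ i < 31616, cq3_6 i = true := range_step h6 hq3_6_6 (by norm_num)
  have h8 : ∀ i < 31648, cq3_6 i = true := range_step h7 hq3_6_7 (by norm_num)
  have h9 : ∀ i < 31664, cq3_6 i = true := range_step h8 hq3_6_8 (by norm_num)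
  have h10 : ∀ i < 31668, cq3_6 i = true := range_step h9 hq3_6_9 (by norm_num)
  have h11 : ∀ i < 31670, cq3_6 i = true := range_step h10 hq3_6_10 (by norm_num)
  have h12 : ∀ i < 31671, cq3_6 i = true := range_step h11 hq3_6_11 (by norm_num)
  exact h12
theorem q3_6 : (tab.perm 3 * tab.perm 6) ^ 2 = 1 :=
  dih_spec tab 3 6 2 (by decide) (by decide) rfl rfl (fun c hc => by
    obtain ⟨i, hi, rfl⟩ := hc
    exact hq3_6 i hi)
noncomputable def cq3_7 (i : ℕ) : Bool := (fun c => (fun d1 => @Bool.rec (fun _ => Bool) ((fun d2 => @Bool.rec (fun _ => Bool) ((fun d3 => @Bool.rec (fun _ => Bool) ((fun d4 => @Bool.rec (fun _ => Bool) (Nat.beq d4 c) true (Nat.blt d4 c)) (f7 (d3))) true (Nat.blt d3 c)) (f3 (d2))) true (Nat.blt d2 c)) (f7 (d1))) true (Nat.blt d1 c)) (f3 (c))) (Nat.mul 20 i)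
theorem hq3_7_0 : all2 cq3_7 14 0 = true := by decide +kernel
theorem hq3_7_1 : all2 cq3_7 13 16384 = true := by decide +kernel
theorem hq3_7_2 : all2 cq3_7 12 24576 = true := by decide +kernel
theorem hq3_7_3 : all2 cq3_7 11 28672 = true := by decide +kernel
theorem hq3_7_4 : all2 cq3_7 9 30720 = true := by decide +kernel
theorem hq3_7_5 : all2 cq3_7 8 31232 = true := by decide +kernel
theorem hq3_7_6 : all2 cq3_7 7 31488 = true := by decide +kernel
theorem hq3_7_7 : all2 cq3_7 5 31616 = true := by decide +kernel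
theorem hq3_7_8 : all2 cq3_7 4 31648 = true := by decide +kernel
theorem hq3_7_9 : all2 cq3_7 2 31664 = true := by decide +kernel
theorem hq3_7_10 : all2 cq3_7 1 31668 = true := by decide +kernel
theorem hq3_7_11 : all2 cq3_7 0 31670 = true := by decide +kernel
theorem hq3_7 : ∀ i < 31671, cq3_7 i = true := by
  have h0 : ∀ i < 0, cq3_7 i = true := fun i hi => absurd hi (Nat.not_lt_zero i)
  have h1 : ∀ i < 16384, cq3_7 i = true := range_step h0 hq3_7_0 (by norm_num)
  have h2 : ∀ i < 24576, cq3_7 i = true := range_step h1 hq3_7_1 (by norm_num)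
  have h3 : ∀ i < 28672, cq3_7 i = true := range_step h2 hq3_7_2 (by norm_num)
  have h4 : ∀ i < 30720, cq3_7 i = true := range_step h3 hq3_7_3 (by norm_num)
  have h5 : ∀ i < 31232, cq3_7 i = true := range_step h4 hq3_7_4 (by norm_num)
  have h6 : ∀ i < 31488, cq3_7 i = true := range_step h5 hq3_7_5 (by norm_num)
  have h7 : ∀ i < 31616, cq3_7 i = true := range_step h6 hq3_7_6 (by norm_num)
  have h8 : ∀ i < 31648, cq3_7 i = true := range_step h7 hq3_7_7 (by norm_num)
  have h9 : ∀ i < 31664, cq3_7 i = true := range_step h8 hq3_7_8 (by norm_num)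
  have h10 : ∀ i < 31668, cq3_7 i = true := range_step h9 hq3_7_9 (by norm_num)
  have h11 : ∀ i < 31670, cq3_7 i = true := range_step h10 hq3_7_10 (by norm_num)
  have h12 : ∀ i < 31671, cq3_7 i = true := range_step h11 hq3_7_11 (by norm_num)
  exact h12
theorem q3_7 : (tab.perm 3 * tab.perm 7) ^ 2 = 1 :=
  dih_spec tab 3 7 2 (by decide) (by decide) rfl rfl (fun c hc => by
    obtain ⟨i, hi, rfl⟩ := hc
    exact hq3_7 i hi)
noncomputable def cq3_8 (i : ℕ) : Bool := (fun c => (fun d1 => @Bool.rec (fun _ => Bool) ((fun d2 => @Bool.rec (fun _ => Bool) ((fun d3 => @Bool.rec (fun _ => Bool) ((fun d4 => @Bool.rec (fun _ => Bool) ((fun d5 => @Bool.rec (fun _ => Bool) ((fun d6 => @Bool.rec (fun _ => Bool) (Nat.beq d6 c) true (Nat.blt d6 c)) (f8 (d5))) true (Nat.blt d5 c)) (f3 (d4))) true (Nat.blt d4 c)) (f8 (d3))) true (Nat.blt d3 c)) (f3 (d2))) true (Nat.blt d2 c)) (f8 (d1))) true (Nat.blt d1 c)) (f3 (c))) (Nat.mul 20 i)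
theorem hq3_8_0 : all2 cq3_8 14 0 = true := by decide +kernel
theorem hq3_8_1 : all2 cq3_8 13 16384 = true := by decide +kernel
theorem hq3_8_2 : all2 cq3_8 12 24576 = true := by decide +kernel
theorem hq3_8_3 : all2 cq3_8 11 28672 = true := by decide +kernel
theorem hq3_8_4 : all2 cq3_8 9 30720 = true := by decide +kernel
theorem hq3_8_5 : all2 cq3_8 8 31232 = true := by decide +kernel
theorem hq3_8_6 : all2 cq3_8 7 31488 = true := by decide +kernel
theorem hq3_8_7 : all2 cq3_8 5 31616 = true := by decide +kernel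
theorem hq3_8_8 : all2 cq3_8 4 31648 = true := by decide +kernel
theorem hq3_8_9 : all2 cq3_8 2 31664 = true := by decide +kernel
theorem hq3_8_10 : all2 cq3_8 1 31668 = true := by decide +kernel
theorem hq3_8_11 : all2 cq3_8 0 31670 = true := by decide +kernel
theorem hq3_8 : ∀ i < 31671, cq3_8 i = true := by
  have h0 : ∀ i < 0, cq3_8 i = true := fun i hi => absurd hi (Nat.not_lt_zero i)
  have h1 : ∀ i < 16384, cq3_8 i = true := range_step h0 hq3_8_0 (by norm_num)
  have h2 : ∀ i < 24576, cq3_8 i = true := range_step h1 hq3_8_1 (by norm_num)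
  have h3 : ∀ i < 28672, cq3_8 i = true := range_step h2 hq3_8_2 (by norm_num)
  have h4 : ∀ i < 30720, cq3_8 i = true := range_step h3 hq3_8_3 (by norm_num)
  have h5 : ∀ i < 31232, cq3_8 i = true := range_step h4 hq3_8_4 (by norm_num)
  have h6 : ∀ i < 31488, cq3_8 i = true := range_step h5 hq3_8_5 (by norm_num)
  have h7 : ∀ i < 31616, cq3_8 i = true := range_step h6 hq3_8_6 (by norm_num)
  have h8 : ∀ i < 31648, cq3_8 i = true := range_step h7 hq3_8_7 (by norm_num)
  have h9 : ∀ i < 31664, cq3_8 i = true := range_step h8 hq3_8_8 (by norm_num)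
  have h10 : ∀ i < 31668, cq3_8 i = true := range_step h9 hq3_8_9 (by norm_num)
  have h11 : ∀ i < 31670, cq3_8 i = true := range_step h10 hq3_8_10 (by norm_num)
  have h12 : ∀ i < 31671, cq3_8 i = true := range_step h11 hq3_8_11 (by norm_num)
  exact h12
theorem q3_8 : (tab.perm 3 * tab.perm 8) ^ 3 = 1 :=
  dih_spec tab 3 8 3 (by decide) (by decide) rfl rfl (fun c hc => by
    obtain ⟨i, hi, rfl⟩ := hc
    exact hq3_8 i hi)
noncomputable def cq3_9 (i : ℕ) : Bool := (fun c => (fun d1 => @Bool.rec (fun _ => Bool) ((fun d2 => @Bool.rec (fun _ => Bool) ((fun d3 => @Bool.rec (fun _ => Bool) ((fun d4 => @Bool.rec (fun _ => Bool) (Nat.beq d4 c) true (Nat.blt d4 c)) (f9 (d3))) true (Nat.blt d3 c)) (f3 (d2))) true (Nat.blt d2 c)) (f9 (d1))) true (Nat.blt d1 c)) (f3 (c))) (Nat.mul 20 i)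
theorem hq3_9_0 : all2 cq3_9 14 0 = true := by decide +kernel
theorem hq3_9_1 : all2 cq3_9 13 16384 = true := by decide +kernel
theorem hq3_9_2 : all2 cq3_9 12 24576 = true := by decide +kernel
theorem hq3_9_3 : all2 cq3_9 11 28672 = true := by decide +kernel
theorem hq3_9_4 : all2 cq3_9 9 30720 = true := by decide +kernel
theorem hq3_9_5 : all2 cq3_9 8 31232 = true := by decide +kernel
theorem hq3_9_6 : all2 cq3_9 7 31488 = true := by decide +kernel
theorem hq3_9_7 : all2 cq3_9 5 31616 = true := by decide +kernel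
theorem hq3_9_8 : all2 cq3_9 4 31648 = true := by decide +kernel
theorem hq3_9_9 : all2 cq3_9 2 31664 = true := by decide +kernel
theorem hq3_9_10 : all2 cq3_9 1 31668 = true := by decide +kernel
theorem hq3_9_11 : all2 cq3_9 0 31670 = true := by decide +kernel
theorem hq3_9 : ∀ i < 31671, cq3_9 i = true := by
  have h0 : ∀ i < 0, cq3_9 i = true := fun i hi => absurd hi (Nat.not_lt_zero i)
  have h1 : ∀ i < 16384, cq3_9 i = true := range_step h0 hq3_9_0 (by norm_num)
  have h2 : ∀ i < 24576, cq3_9 i = true := range_step h1 hq3_9_1 (by norm_num)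
  have h3 : ∀ i < 28672, cq3_9 i = true := range_step h2 hq3_9_2 (by norm_num)
  have h4 : ∀ i < 30720, cq3_9 i = true := range_step h3 hq3_9_3 (by norm_num)
  have h5 : ∀ i < 31232, cq3_9 i = true := range_step h4 hq3_9_4 (by norm_num)
  have h6 : ∀ i < 31488, cq3_9 i = true := range_step h5 hq3_9_5 (by norm_num)
  have h7 : ∀ i < 31616, cq3_9 i = true := range_step h6 hq3_9_6 (by norm_num)
  have h8 : ∀ i < 31648, cq3_9 i = true := range_step h7 hq3_9_7 (by norm_num)
  have h9 : ∀ i < 31664, cq3_9 i = true := range_step h8 hq3_9_8 (by norm_num)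
  have h10 : ∀ i < 31668, cq3_9 i = true := range_step h9 hq3_9_9 (by norm_num)
  have h11 : ∀ i < 31670, cq3_9 i = true := range_step h10 hq3_9_10 (by norm_num)
  have h12 : ∀ i < 31671, cq3_9 i = true := range_step h11 hq3_9_11 (by norm_num)
  exact h12
theorem q3_9 : (tab.perm 3 * tab.perm 9) ^ 2 = 1 :=
  dih_spec tab 3 9 2 (by decide) (by decide) rfl rfl (fun c hc => by
    obtain ⟨i, hi, rfl⟩ := hc
    exact hq3_9 i hi)
noncomputable def cq4_5 (i : ℕ) : Bool := (fun c => (fun d1 => @Bool.rec (fun _ => Bool) ((fun d2 => @Bool.rec (fun _ => Bool) ((fun d3 => @Bool.rec (fun _ => Bool) ((fun d4 => @Bool.rec (fun _ => Bool) ((fun d5 => @Bool.rec (fun _ => Bool) ((fun d6 => @Bool.rec (fun _ => Bool) (Nat.beq d6 c) true (Nat.blt d6 c)) (f5 (d5))) true (Nat.blt d5 c)) (f4 (d4))) true (Nat.blt d4 c)) (f5 (d3))) true (Nat.blt d3 c)) (f4 (d2))) true (Nat.blt d2 c)) (f5 (d1))) true (Nat.blt d1 c)) (f4 (c))) (Nat.mul 20 i)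
theorem hq4_5_0 : all2 cq4_5 14 0 = true := by decide +kernel
theorem hq4_5_1 : all2 cq4_5 13 16384 = true := by decide +kernel
theorem hq4_5_2 : all2 cq4_5 12 24576 = true := by decide +kernel
theorem hq4_5_3 : all2 cq4_5 11 28672 = true := by decide +kernel
theorem hq4_5_4 : all2 cq4_5 9 30720 = true := by decide +kernel
theorem hq4_5_5 : all2 cq4_5 8 31232 = true := by decide +kernel
theorem hq4_5_6 : all2 cq4_5 7 31488 = true := by decide +kernel
theorem hq4_5_7 : all2 cq4_5 5 31616 = true := by decide +kernel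
theorem hq4_5_8 : all2 cq4_5 4 31648 = true := by decide +kernel
theorem hq4_5_9 : all2 cq4_5 2 31664 = true := by decide +kernel
theorem hq4_5_10 : all2 cq4_5 1 31668 = true := by decide +kernel
theorem hq4_5_11 : all2 cq4_5 0 31670 = true := by decide +kernel
theorem hq4_5 : ∀ i < 31671, cq4_5 i = true := by
  have h0 : ∀ i < 0, cq4_5 i = true := fun i hi => absurd hi (Nat.not_lt_zero i)
  have h1 : ∀ i < 16384, cq4_5 i = true := range_step h0 hq4_5_0 (by norm_num)
  have h2 : ∀ i < 24576, cq4_5 i = true := range_step h1 hq4_5_1 (by norm_num)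
  have h3 : ∀ i < 28672, cq4_5 i = true := range_step h2 hq4_5_2 (by norm_num)
  have h4 : ∀ i < 30720, cq4_5 i = true := range_step h3 hq4_5_3 (by norm_num)
  have h5 : ∀ i < 31232, cq4_5 i = true := range_step h4 hq4_5_4 (by norm_num)
  have h6 : ∀ i < 31488, cq4_5 i = true := range_step h5 hq4_5_5 (by norm_num)
  have h7 : ∀ i < 31616, cq4_5 i = true := range_step h6 hq4_5_6 (by norm_num)
  have h8 : ∀ i < 31648, cq4_5 i = true := range_step h7 hq4_5_7 (by norm_num)
  have h9 : ∀ i < 31664, cq4_5 i = true := range_step h8 hq4_5_8 (by norm_num)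
  have h10 : ∀ i < 31668, cq4_5 i = true := range_step h9 hq4_5_9 (by norm_num)
  have h11 : ∀ i < 31670, cq4_5 i = true := range_step h10 hq4_5_10 (by norm_num)
  have h12 : ∀ i < 31671, cq4_5 i = true := range_step h11 hq4_5_11 (by norm_num)
  exact h12
theorem q4_5 : (tab.perm 4 * tab.perm 5) ^ 3 = 1 :=
  dih_spec tab 4 5 3 (by decide) (by decide) rfl rfl (fun c hc => by
    obtain ⟨i, hi, rfl⟩ := hc
    exact hq4_5 i hi)
noncomputable def cq4_6 (i : ℕ) : Bool := (fun c => (fun d1 => @Bool.rec (fun _ => Bool) ((fun d2 => @Bool.rec (fun _ => Bool) ((fun d3 => @Bool.rec (fun _ => Bool) ((fun d4 => @Bool.rec (fun _ => Bool) (Nat.beq d4 c) true (Nat.blt d4 c)) (f6 (d3))) true (Nat.blt d3 c)) (f4 (d2))) true (Nat.blt d2 c)) (f6 (d1))) true (Nat.blt d1 c)) (f4 (c))) (Nat.mul 20 i)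
theorem hq4_6_0 : all2 cq4_6 14 0 = true := by decide +kernel
theorem hq4_6_1 : all2 cq4_6 13 16384 = true := by decide +kernel
theorem hq4_6_2 : all2 cq4_6 12 24576 = true := by decide +kernel
theorem hq4_6_3 : all2 cq4_6 11 28672 = true := by decide +kernel
theorem hq4_6_4 : all2 cq4_6 9 30720 = true := by decide +kernel
theorem hq4_6_5 : all2 cq4_6 8 31232 = true := by decide +kernel
theorem hq4_6_6 : all2 cq4_6 7 31488 = true := by decide +kernel
theorem hq4_6_7 : all2 cq4_6 5 31616 = true := by decide +kernel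
theorem hq4_6_8 : all2 cq4_6 4 31648 = true := by decide +kernel
theorem hq4_6_9 : all2 cq4_6 2 31664 = true := by decide +kernel
theorem hq4_6_10 : all2 cq4_6 1 31668 = true := by decide +kernel
theorem hq4_6_11 : all2 cq4_6 0 31670 = true := by decide +kernel
theorem hq4_6 : ∀ i < 31671, cq4_6 i = true := by
  have h0 : ∀ i < 0, cq4_6 i = true := fun i hi => absurd hi (Nat.not_lt_zero i)
  have h1 : ∀ i < 16384, cq4_6 i = true := range_step h0 hq4_6_0 (by norm_num)
  have h2 : ∀ i < 24576, cq4_6 i = true := range_step h1 hq4_6_1 (by norm_num)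
  have h3 : ∀ i < 28672, cq4_6 i = true := range_step h2 hq4_6_2 (by norm_num)
  have h4 : ∀ i < 30720, cq4_6 i = true := range_step h3 hq4_6_3 (by norm_num)
  have h5 : ∀ i < 31232, cq4_6 i = true := range_step h4 hq4_6_4 (by norm_num)
  have h6 : ∀ i < 31488, cq4_6 i = true := range_step h5 hq4_6_5 (by norm_num)
  have h7 : ∀ i < 31616, cq4_6 i = true := range_step h6 hq4_6_6 (by norm_num)
  have h8 : ∀ i < 31648, cq4_6 i = true := range_step h7 hq4_6_7 (by norm_num)
  have h9 : ∀ i < 31664, cq4_6 i = true := range_step h8 hq4_6_8 (by norm_num)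
  have h10 : ∀ i < 31668, cq4_6 i = true := range_step h9 hq4_6_9 (by norm_num)
  have h11 : ∀ i < 31670, cq4_6 i = true := range_step h10 hq4_6_10 (by norm_num)
  have h12 : ∀ i < 31671, cq4_6 i = true := range_step h11 hq4_6_11 (by norm_num)
  exact h12
theorem q4_6 : (tab.perm 4 * tab.perm 6) ^ 2 = 1 :=
  dih_spec tab 4 6 2 (by decide) (by decide) rfl rfl (fun c hc => by
    obtain ⟨i, hi, rfl⟩ := hc
    exact hq4_6 i hi)
noncomputable def cq4_7 (i : ℕ) : Bool := (fun c => (fun d1 => @Bool.rec (fun _ => Bool) ((fun d2 => @Bool.rec (fun _ => Bool) ((fun d3 => @Bool.rec (fun _ => Bool) ((fun d4 => @Bool.rec (fun _ => Bool) (Nat.beq d4 c) true (Nat.blt d4 c)) (f7 (d3))) true (Nat.blt d3 c)) (f4 (d2))) true (Nat.blt d2 c)) (f7 (d1))) true (Nat.blt d1 c)) (f4 (c))) (Nat.mul 20 i)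
theorem hq4_7_0 : all2 cq4_7 14 0 = true := by decide +kernel
theorem hq4_7_1 : all2 cq4_7 13 16384 = true := by decide +kernel
theorem hq4_7_2 : all2 cq4_7 12 24576 = true := by decide +kernel
theorem hq4_7_3 : all2 cq4_7 11 28672 = true := by decide +kernel
theorem hq4_7_4 : all2 cq4_7 9 30720 = true := by decide +kernel
theorem hq4_7_5 : all2 cq4_7 8 31232 = true := by decide +kernel
theorem hq4_7_6 : all2 cq4_7 7 31488 = true := by decide +kernel
theorem hq4_7_7 : all2 cq4_7 5 31616 = true := by decide +kernel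
theorem hq4_7_8 : all2 cq4_7 4 31648 = true := by decide +kernel
theorem hq4_7_9 : all2 cq4_7 2 31664 = true := by decide +kernel
theorem hq4_7_10 : all2 cq4_7 1 31668 = true := by decide +kernel
theorem hq4_7_11 : all2 cq4_7 0 31670 = true := by decide +kernel
theorem hq4_7 : ∀ i < 31671, cq4_7 i = true := by
  have h0 : ∀ i < 0, cq4_7 i = true := fun i hi => absurd hi (Nat.not_lt_zero i)
  have h1 : ∀ i < 16384, cq4_7 i = true := range_step h0 hq4_7_0 (by norm_num)
  have h2 : ∀ i < 24576, cq4_7 i = true := range_step h1 hq4_7_1 (by norm_num)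
  have h3 : ∀ i < 28672, cq4_7 i = true := range_step h2 hq4_7_2 (by norm_num)
  have h4 : ∀ i < 30720, cq4_7 i = true := range_step h3 hq4_7_3 (by norm_num)
  have h5 : ∀ i < 31232, cq4_7 i = true := range_step h4 hq4_7_4 (by norm_num)
  have h6 : ∀ i < 31488, cq4_7 i = true := range_step h5 hq4_7_5 (by norm_num)
  have h7 : ∀ i < 31616, cq4_7 i = true := range_step h6 hq4_7_6 (by norm_num)
  have h8 : ∀ i < 31648, cq4_7 i = true := range_step h7 hq4_7_7 (by norm_num)
  have h9 : ∀ i < 31664, cq4_7 i = true := range_step h8 hq4_7_8 (by norm_num)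
  have h10 : ∀ i < 31668, cq4_7 i = true := range_step h9 hq4_7_9 (by norm_num)
  have h11 : ∀ i < 31670, cq4_7 i = true := range_step h10 hq4_7_10 (by norm_num)
  have h12 : ∀ i < 31671, cq4_7 i = true := range_step h11 hq4_7_11 (by norm_num)
  exact h12
theorem q4_7 : (tab.perm 4 * tab.perm 7) ^ 2 = 1 :=
  dih_spec tab 4 7 2 (by decide) (by decide) rfl rfl (fun c hc => by
    obtain ⟨i, hi, rfl⟩ := hc
    exact hq4_7 i hi)
noncomputable def cq4_8 (i : ℕ) : Bool := (fun c => (fun d1 => @Bool.rec (fun _ => Bool) ((fun d2 => @Bool.rec (fun _ => Bool) ((fun d3 => @Bool.rec (fun _ => Bool) ((fun d4 => @Bool.rec (fun _ => Bool) (Nat.beq d4 c) true (Nat.blt d4 c)) (f8 (d3))) true (Nat.blt d3 c)) (f4 (d2))) true (Nat.blt d2 c)) (f8 (d1))) true (Nat.blt d1 c)) (f4 (c))) (Nat.mul 20 i)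
theorem hq4_8_0 : all2 cq4_8 14 0 = true := by decide +kernel
theorem hq4_8_1 : all2 cq4_8 13 16384 = true := by decide +kernel
theorem hq4_8_2 : all2 cq4_8 12 24576 = true := by decide +kernel
theorem hq4_8_3 : all2 cq4_8 11 28672 = true := by decide +kernel
theorem hq4_8_4 : all2 cq4_8 9 30720 = true := by decide +kernel
theorem hq4_8_5 : all2 cq4_8 8 31232 = true := by decide +kernel
theorem hq4_8_6 : all2 cq4_8 7 31488 = true := by decide +kernel
theorem hq4_8_7 : all2 cq4_8 5 31616 = true := by decide +kernel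
theorem hq4_8_8 : all2 cq4_8 4 31648 = true := by decide +kernel
theorem hq4_8_9 : all2 cq4_8 2 31664 = true := by decide +kernel
theorem hq4_8_10 : all2 cq4_8 1 31668 = true := by decide +kernel
theorem hq4_8_11 : all2 cq4_8 0 31670 = true := by decide +kernel
theorem hq4_8 : ∀ i < 31671, cq4_8 i = true := by
  have h0 : ∀ i < 0, cq4_8 i = true := fun i hi => absurd hi (Nat.not_lt_zero i)
  have h1 : ∀ i < 16384, cq4_8 i = true := range_step h0 hq4_8_0 (by norm_num)
  have h2 : ∀ i < 24576, cq4_8 i = true := range_step h1 hq4_8_1 (by norm_num)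
  have h3 : ∀ i < 28672, cq4_8 i = true := range_step h2 hq4_8_2 (by norm_num)
  have h4 : ∀ i < 30720, cq4_8 i = true := range_step h3 hq4_8_3 (by norm_num)
  have h5 : ∀ i < 31232, cq4_8 i = true := range_step h4 hq4_8_4 (by norm_num)
  have h6 : ∀ i < 31488, cq4_8 i = true := range_step h5 hq4_8_5 (by norm_num)
  have h7 : ∀ i < 31616, cq4_8 i = true := range_step h6 hq4_8_6 (by norm_num)
  have h8 : ∀ i < 31648, cq4_8 i = true := range_step h7 hq4_8_7 (by norm_num)
  have h9 : ∀ i < 31664, cq4_8 i = true := range_step h8 hq4_8_8 (by norm_num)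
  have h10 : ∀ i < 31668, cq4_8 i = true := range_step h9 hq4_8_9 (by norm_num)
  have h11 : ∀ i < 31670, cq4_8 i = true := range_step h10 hq4_8_10 (by norm_num)
  have h12 : ∀ i < 31671, cq4_8 i = true := range_step h11 hq4_8_11 (by norm_num)
  exact h12
theorem q4_8 : (tab.perm 4 * tab.perm 8) ^ 2 = 1 :=
  dih_spec tab 4 8 2 (by decide) (by decide) rfl rfl (fun c hc => by
    obtain ⟨i, hi, rfl⟩ := hc
    exact hq4_8 i hi)
noncomputable def cq4_9 (i : ℕ) : Bool := (fun c => (fun d1 => @Bool.rec (fun _ => Bool) ((fun d2 => @Bool.rec (fun _ => Bool) ((fun d3 => @Bool.rec (fun _ => Bool) ((fun d4 => @Bool.rec (fun _ => Bool) (Nat.beq d4 c) true (Nat.blt d4 c)) (f9 (d3))) true (Nat.blt d3 c)) (f4 (d2))) true (Nat.blt d2 c)) (f9 (d1))) true (Nat.blt d1 c)) (f4 (c))) (Nat.mul 20 i)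
theorem hq4_9_0 : all2 cq4_9 14 0 = true := by decide +kernel
theorem hq4_9_1 : all2 cq4_9 13 16384 = true := by decide +kernel
theorem hq4_9_2 : all2 cq4_9 12 24576 = true := by decide +kernel
theorem hq4_9_3 : all2 cq4_9 11 28672 = true := by decide +kernel
theorem hq4_9_4 : all2 cq4_9 9 30720 = true := by decide +kernel
theorem hq4_9_5 : all2 cq4_9 8 31232 = true := by decide +kernel
theorem hq4_9_6 : all2 cq4_9 7 31488 = true := by decide +kernel
theorem hq4_9_7 : all2 cq4_9 5 31616 = true := by decide +kernel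
theorem hq4_9_8 : all2 cq4_9 4 31648 = true := by decide +kernel
theorem hq4_9_9 : all2 cq4_9 2 31664 = true := by decide +kernel
theorem hq4_9_10 : all2 cq4_9 1 31668 = true := by decide +kernel
theorem hq4_9_11 : all2 cq4_9 0 31670 = true := by decide +kernel
theorem hq4_9 : ∀ i < 31671, cq4_9 i = true := by
  have h0 : ∀ i < 0, cq4_9 i = true := fun i hi => absurd hi (Nat.not_lt_zero i)
  have h1 : ∀ i < 16384, cq4_9 i = true := range_step h0 hq4_9_0 (by norm_num)
  have h2 : ∀ i < 24576, cq4_9 i = true := range_step h1 hq4_9_1 (by norm_num)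
  have h3 : ∀ i < 28672, cq4_9 i = true := range_step h2 hq4_9_2 (by norm_num)
  have h4 : ∀ i < 30720, cq4_9 i = true := range_step h3 hq4_9_3 (by norm_num)
  have h5 : ∀ i < 31232, cq4_9 i = true := range_step h4 hq4_9_4 (by norm_num)
  have h6 : ∀ i < 31488, cq4_9 i = true := range_step h5 hq4_9_5 (by norm_num)
  have h7 : ∀ i < 31616, cq4_9 i = true := range_step h6 hq4_9_6 (by norm_num)
  have h8 : ∀ i < 31648, cq4_9 i = true := range_step h7 hq4_9_7 (by norm_num)
  have h9 : ∀ i < 31664, cq4_9 i = true := range_step h8 hq4_9_8 (by norm_num)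
  have h10 : ∀ i < 31668, cq4_9 i = true := range_step h9 hq4_9_9 (by norm_num)
  have h11 : ∀ i < 31670, cq4_9 i = true := range_step h10 hq4_9_10 (by norm_num)
  have h12 : ∀ i < 31671, cq4_9 i = true := range_step h11 hq4_9_11 (by norm_num)
  exact h12
theorem q4_9 : (tab.perm 4 * tab.perm 9) ^ 2 = 1 :=
  dih_spec tab 4 9 2 (by decide) (by decide) rfl rfl (fun c hc => by
    obtain ⟨i, hi, rfl⟩ := hc
    exact hq4_9 i hi)
noncomputable def cq5_6 (i : ℕ) : Bool := (fun c => (fun d1 => @Bool.rec (fun _ => Bool) ((fun d2 => @Bool.rec (fun _ => Bool) ((fun d3 => @Bool.rec (fun _ => Bool) ((fun d4 => @Bool.rec (fun _ => Bool) ((fun d5 => @Bool.rec (fun _ => Bool) ((fun d6 => @Bool.rec (fun _ => Bool) (Nat.beq d6 c) true (Nat.blt d6 c)) (f6 (d5))) true (Nat.blt d5 c)) (f5 (d4))) true (Nat.blt d4 c)) (f6 (d3))) true (Nat.blt d3 c)) (f5 (d2))) true (Nat.blt d2 c)) (f6 (d1))) true (Nat.blt d1 c)) (f5 (c))) (Nat.mul 20 i)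
theorem hq5_6_0 : all2 cq5_6 14 0 = true := by decide +kernel
theorem hq5_6_1 : all2 cq5_6 13 16384 = true := by decide +kernel
theorem hq5_6_2 : all2 cq5_6 12 24576 = true := by decide +kernel
theorem hq5_6_3 : all2 cq5_6 11 28672 = true := by decide +kernel
theorem hq5_6_4 : all2 cq5_6 9 30720 = true := by decide +kernel
theorem hq5_6_5 : all2 cq5_6 8 31232 = true := by decide +kernel
theorem hq5_6_6 : all2 cq5_6 7 31488 = true := by decide +kernel
theorem hq5_6_7 : all2 cq5_6 5 31616 = true := by decide +kernel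
theorem hq5_6_8 : all2 cq5_6 4 31648 = true := by decide +kernel
theorem hq5_6_9 : all2 cq5_6 2 31664 = true := by decide +kernel
theorem hq5_6_10 : all2 cq5_6 1 31668 = true := by decide +kernel
theorem hq5_6_11 : all2 cq5_6 0 31670 = true := by decide +kernel
theorem hq5_6 : ∀ i < 31671, cq5_6 i = true := by
  have h0 : ∀ i < 0, cq5_6 i = true := fun i hi => absurd hi (Nat.not_lt_zero i)
  have h1 : ∀ i < 16384, cq5_6 i = true := range_step h0 hq5_6_0 (by norm_num)
  have h2 : ∀ i < 24576, cq5_6 i = true := range_step h1 hq5_6_1 (by norm_num)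
  have h3 : ∀ i < 28672, cq5_6 i = true := range_step h2 hq5_6_2 (by norm_num)
  have h4 : ∀ i < 30720, cq5_6 i = true := range_step h3 hq5_6_3 (by norm_num)
  have h5 : ∀ i < 31232, cq5_6 i = true := range_step h4 hq5_6_4 (by norm_num)
  have h6 : ∀ i < 31488, cq5_6 i = true := range_step h5 hq5_6_5 (by norm_num)
  have h7 : ∀ i < 31616, cq5_6 i = true := range_step h6 hq5_6_6 (by norm_num)
  have h8 : ∀ i < 31648, cq5_6 i = true := range_step h7 hq5_6_7 (by norm_num)
  have h9 : ∀ i < 31664, cq5_6 i = true := range_step h8 hq5_6_8 (by norm_num)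
  have h10 : ∀ i < 31668, cq5_6 i = true := range_step h9 hq5_6_9 (by norm_num)
  have h11 : ∀ i < 31670, cq5_6 i = true := range_step h10 hq5_6_10 (by norm_num)
  have h12 : ∀ i < 31671, cq5_6 i = true := range_step h11 hq5_6_11 (by norm_num)
  exact h12
theorem q5_6 : (tab.perm 5 * tab.perm 6) ^ 3 = 1 :=
  dih_spec tab 5 6 3 (by decide) (by decide) rfl rfl (fun c hc => by
    obtain ⟨i, hi, rfl⟩ := hc
    exact hq5_6 i hi)
noncomputable def cq5_7 (i : ℕ) : Bool := (fun c => (fun d1 => @Bool.rec (fun _ => Bool) ((fun d2 => @Bool.rec (fun _ => Bool) ((fun d3 => @Bool.rec (fun _ => Bool) ((fun d4 => @Bool.rec (fun _ => Bool) (Nat.beq d4 c) true (Nat.blt d4 c)) (f7 (d3))) true (Nat.blt d3 c)) (f5 (d2))) true (Nat.blt d2 c)) (f7 (d1))) true (Nat.blt d1 c)) (f5 (c))) (Nat.mul 20 i)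
theorem hq5_7_0 : all2 cq5_7 14 0 = true := by decide +kernel
theorem hq5_7_1 : all2 cq5_7 13 16384 = true := by decide +kernel
theorem hq5_7_2 : all2 cq5_7 12 24576 = true := by decide +kernel
theorem hq5_7_3 : all2 cq5_7 11 28672 = true := by decide +kernel
theorem hq5_7_4 : all2 cq5_7 9 30720 = true := by decide +kernel
theorem hq5_7_5 : all2 cq5_7 8 31232 = true := by decide +kernel
theorem hq5_7_6 : all2 cq5_7 7 31488 = true := by decide +kernel
theorem hq5_7_7 : all2 cq5_7 5 31616 = true := by decide +kernel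
theorem hq5_7_8 : all2 cq5_7 4 31648 = true := by decide +kernel
theorem hq5_7_9 : all2 cq5_7 2 31664 = true := by decide +kernel
theorem hq5_7_10 : all2 cq5_7 1 31668 = true := by decide +kernel
theorem hq5_7_11 : all2 cq5_7 0 31670 = true := by decide +kernel
theorem hq5_7 : ∀ i < 31671, cq5_7 i = true := by
  have h0 : ∀ i < 0, cq5_7 i = true := fun i hi => absurd hi (Nat.not_lt_zero i)
  have h1 : ∀ i < 16384, cq5_7 i = true := range_step h0 hq5_7_0 (by norm_num)
  have h2 : ∀ i < 24576, cq5_7 i = true := range_step h1 hq5_7_1 (by norm_num)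
  have h3 : ∀ i < 28672, cq5_7 i = true := range_step h2 hq5_7_2 (by norm_num)
  have h4 : ∀ i < 30720, cq5_7 i = true := range_step h3 hq5_7_3 (by norm_num)
  have h5 : ∀ i < 31232, cq5_7 i = true := range_step h4 hq5_7_4 (by norm_num)
  have h6 : ∀ i < 31488, cq5_7 i = true := range_step h5 hq5_7_5 (by norm_num)
  have h7 : ∀ i < 31616, cq5_7 i = true := range_step h6 hq5_7_6 (by norm_num)
  have h8 : ∀ i < 31648, cq5_7 i = true := range_step h7 hq5_7_7 (by norm_num)
  have h9 : ∀ i < 31664, cq5_7 i = true := range_step h8 hq5_7_8 (by norm_num)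
  have h10 : ∀ i < 31668, cq5_7 i = true := range_step h9 hq5_7_9 (by norm_num)
  have h11 : ∀ i < 31670, cq5_7 i = true := range_step h10 hq5_7_10 (by norm_num)
  have h12 : ∀ i < 31671, cq5_7 i = true := range_step h11 hq5_7_11 (by norm_num)
  exact h12
theorem q5_7 : (tab.perm 5 * tab.perm 7) ^ 2 = 1 :=
  dih_spec tab 5 7 2 (by decide) (by decide) rfl rfl (fun c hc => by
    obtain ⟨i, hi, rfl⟩ := hc
    exact hq5_7 i hi)
noncomputable def cq5_8 (i : ℕ) : Bool := (fun c => (fun d1 => @Bool.rec (fun _ => Bool) ((fun d2 => @Bool.rec (fun _ => Bool) ((fun d3 => @Bool.rec (fun _ => Bool) ((fun d4 => @Bool.rec (fun _ => Bool) (Nat.beq d4 c) true (Nat.blt d4 c)) (f8 (d3))) true (Nat.blt d3 c)) (f5 (d2))) true (Nat.blt d2 c)) (f8 (d1))) true (Nat.blt d1 c)) (f5 (c))) (Nat.mul 20 i)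
theorem hq5_8_0 : all2 cq5_8 14 0 = true := by decide +kernel
theorem hq5_8_1 : all2 cq5_8 13 16384 = true := by decide +kernel
theorem hq5_8_2 : all2 cq5_8 12 24576 = true := by decide +kernel
theorem hq5_8_3 : all2 cq5_8 11 28672 = true := by decide +kernel
theorem hq5_8_4 : all2 cq5_8 9 30720 = true := by decide +kernel
theorem hq5_8_5 : all2 cq5_8 8 31232 = true := by decide +kernel
theorem hq5_8_6 : all2 cq5_8 7 31488 = true := by decide +kernel
theorem hq5_8_7 : all2 cq5_8 5 31616 = true := by decide +kernel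
theorem hq5_8_8 : all2 cq5_8 4 31648 = true := by decide +kernel
theorem hq5_8_9 : all2 cq5_8 2 31664 = true := by decide +kernel
theorem hq5_8_10 : all2 cq5_8 1 31668 = true := by decide +kernel
theorem hq5_8_11 : all2 cq5_8 0 31670 = true := by decide +kernel
theorem hq5_8 : ∀ i < 31671, cq5_8 i = true := by
  have h0 : ∀ i < 0, cq5_8 i = true := fun i hi => absurd hi (Nat.not_lt_zero i)
  have h1 : ∀ i < 16384, cq5_8 i = true := range_step h0 hq5_8_0 (by norm_num)
  have h2 : ∀ i < 24576, cq5_8 i = true := range_step h1 hq5_8_1 (by norm_num)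
  have h3 : ∀ i < 28672, cq5_8 i = true := range_step h2 hq5_8_2 (by norm_num)
  have h4 : ∀ i < 30720, cq5_8 i = true := range_step h3 hq5_8_3 (by norm_num)
  have h5 : ∀ i < 31232, cq5_8 i = true := range_step h4 hq5_8_4 (by norm_num)
  have h6 : ∀ i < 31488, cq5_8 i = true := range_step h5 hq5_8_5 (by norm_num)
  have h7 : ∀ i < 31616, cq5_8 i = true := range_step h6 hq5_8_6 (by norm_num)
  have h8 : ∀ i < 31648, cq5_8 i = true := range_step h7 hq5_8_7 (by norm_num)
  have h9 : ∀ i < 31664, cq5_8 i = true := range_step h8 hq5_8_8 (by norm_num)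
  have h10 : ∀ i < 31668, cq5_8 i = true := range_step h9 hq5_8_9 (by norm_num)
  have h11 : ∀ i < 31670, cq5_8 i = true := range_step h10 hq5_8_10 (by norm_num)
  have h12 : ∀ i < 31671, cq5_8 i = true := range_step h11 hq5_8_11 (by norm_num)
  exact h12
theorem q5_8 : (tab.perm 5 * tab.perm 8) ^ 2 = 1 :=
  dih_spec tab 5 8 2 (by decide) (by decide) rfl rfl (fun c hc => by
    obtain ⟨i, hi, rfl⟩ := hc
    exact hq5_8 i hi)
noncomputable def cq5_9 (i : ℕ) : Bool := (fun c => (fun d1 => @Bool.rec (fun _ => Bool) ((fun d2 => @Bool.rec (fun _ => Bool) ((fun d3 => @Bool.rec (fun _ => Bool) ((fun d4 => @Bool.rec (fun _ => Bool) (Nat.beq d4 c) true (Nat.blt d4 c)) (f9 (d3))) true (Nat.blt d3 c)) (f5 (d2))) true (Nat.blt d2 c)) (f9 (d1))) true (Nat.blt d1 c)) (f5 (c))) (Nat.mul 20 i)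
theorem hq5_9_0 : all2 cq5_9 14 0 = true := by decide +kernel
theorem hq5_9_1 : all2 cq5_9 13 16384 = true := by decide +kernel
theorem hq5_9_2 : all2 cq5_9 12 24576 = true := by decide +kernel
theorem hq5_9_3 : all2 cq5_9 11 28672 = true := by decide +kernel
theorem hq5_9_4 : all2 cq5_9 9 30720 = true := by decide +kernel
theorem hq5_9_5 : all2 cq5_9 8 31232 = true := by decide +kernel
theorem hq5_9_6 : all2 cq5_9 7 31488 = true := by decide +kernel
theorem hq5_9_7 : all2 cq5_9 5 31616 = true := by decide +kernel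
theorem hq5_9_8 : all2 cq5_9 4 31648 = true := by decide +kernel
theorem hq5_9_9 : all2 cq5_9 2 31664 = true := by decide +kernel
theorem hq5_9_10 : all2 cq5_9 1 31668 = true := by decide +kernel
theorem hq5_9_11 : all2 cq5_9 0 31670 = true := by decide +kernel
theorem hq5_9 : ∀ i < 31671, cq5_9 i = true := by
  have h0 : ∀ i < 0, cq5_9 i = true := fun i hi => absurd hi (Nat.not_lt_zero i)
  have h1 : ∀ i < 16384, cq5_9 i = true := range_step h0 hq5_9_0 (by norm_num)
  have h2 : ∀ i < 24576, cq5_9 i = true := range_step h1 hq5_9_1 (by norm_num)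
  have h3 : ∀ i < 28672, cq5_9 i = true := range_step h2 hq5_9_2 (by norm_num)
  have h4 : ∀ i < 30720, cq5_9 i = true := range_step h3 hq5_9_3 (by norm_num)
  have h5 : ∀ i < 31232, cq5_9 i = true := range_step h4 hq5_9_4 (by norm_num)
  have h6 : ∀ i < 31488, cq5_9 i = true := range_step h5 hq5_9_5 (by norm_num)
  have h7 : ∀ i < 31616, cq5_9 i = true := range_step h6 hq5_9_6 (by norm_num)
  have h8 : ∀ i < 31648, cq5_9 i = true := range_step h7 hq5_9_7 (by norm_num)
  have h9 : ∀ i < 31664, cq5_9 i = true := range_step h8 hq5_9_8 (by norm_num)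
  have h10 : ∀ i < 31668, cq5_9 i = true := range_step h9 hq5_9_9 (by norm_num)
  have h11 : ∀ i < 31670, cq5_9 i = true := range_step h10 hq5_9_10 (by norm_num)
  have h12 : ∀ i < 31671, cq5_9 i = true := range_step h11 hq5_9_11 (by norm_num)
  exact h12
theorem q5_9 : (tab.perm 5 * tab.perm 9) ^ 2 = 1 :=
  dih_spec tab 5 9 2 (by decide) (by decide) rfl rfl (fun c hc => by
    obtain ⟨i, hi, rfl⟩ := hc
    exact hq5_9 i hi)
noncomputable def cq6_7 (i : ℕ) : Bool := (fun c => (fun d1 => @Bool.rec (fun _ => Bool) ((fun d2 => @Bool.rec (fun _ => Bool) ((fun d3 => @Bool.rec (fun _ => Bool) ((fun d4 => @Bool.rec (fun _ => Bool) ((fun d5 => @Bool.rec (fun _ => Bool) ((fun d6 => @Bool.rec (fun _ => Bool) (Nat.beq d6 c) true (Nat.blt d6 c)) (f7 (d5))) true (Nat.blt d5 c)) (f6 (d4))) true (Nat.blt d4 c)) (f7 (d3))) true (Nat.blt d3 c)) (f6 (d2))) true (Nat.blt d2 c)) (f7 (d1))) true (Nat.blt d1 c)) (f6 (c))) (Nat.mul 20 i)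
theorem hq6_7_0 : all2 cq6_7 14 0 = true := by decide +kernel
theorem hq6_7_1 : all2 cq6_7 13 16384 = true := by decide +kernel
theorem hq6_7_2 : all2 cq6_7 12 24576 = true := by decide +kernel
theorem hq6_7_3 : all2 cq6_7 11 28672 = true := by decide +kernel
theorem hq6_7_4 : all2 cq6_7 9 30720 = true := by decide +kernel
theorem hq6_7_5 : all2 cq6_7 8 31232 = true := by decide +kernel
theorem hq6_7_6 : all2 cq6_7 7 31488 = true := by decide +kernel
theorem hq6_7_7 : all2 cq6_7 5 31616 = true := by decide +kernel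
theorem hq6_7_8 : all2 cq6_7 4 31648 = true := by decide +kernel
theorem hq6_7_9 : all2 cq6_7 2 31664 = true := by decide +kernel
theorem hq6_7_10 : all2 cq6_7 1 31668 = true := by decide +kernel
theorem hq6_7_11 : all2 cq6_7 0 31670 = true := by decide +kernel
theorem hq6_7 : ∀ i < 31671, cq6_7 i = true := by
  have h0 : ∀ i < 0, cq6_7 i = true := fun i hi => absurd hi (Nat.not_lt_zero i)
  have h1 : ∀ i < 16384, cq6_7 i = true := range_step h0 hq6_7_0 (by norm_num)
  have h2 : ∀ i < 24576, cq6_7 i = true := range_step h1 hq6_7_1 (by norm_num)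
  have h3 : ∀ i < 28672, cq6_7 i = true := range_step h2 hq6_7_2 (by norm_num)
  have h4 : ∀ i < 30720, cq6_7 i = true := range_step h3 hq6_7_3 (by norm_num)
  have h5 : ∀ i < 31232, cq6_7 i = true := range_step h4 hq6_7_4 (by norm_num)
  have h6 : ∀ i < 31488, cq6_7 i = true := range_step h5 hq6_7_5 (by norm_num)
  have h7 : ∀ i < 31616, cq6_7 i = true := range_step h6 hq6_7_6 (by norm_num)
  have h8 : ∀ i < 31648, cq6_7 i = true := range_step h7 hq6_7_7 (by norm_num)
  have h9 : ∀ i < 31664, cq6_7 i = true := range_step h8 hq6_7_8 (by norm_num)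
  have h10 : ∀ i < 31668, cq6_7 i = true := range_step h9 hq6_7_9 (by norm_num)
  have h11 : ∀ i < 31670, cq6_7 i = true := range_step h10 hq6_7_10 (by norm_num)
  have h12 : ∀ i < 31671, cq6_7 i = true := range_step h11 hq6_7_11 (by norm_num)
  exact h12
theorem q6_7 : (tab.perm 6 * tab.perm 7) ^ 3 = 1 :=
  dih_spec tab 6 7 3 (by decide) (by decide) rfl rfl (fun c hc => by
    obtain ⟨i, hi, rfl⟩ := hc
    exact hq6_7 i hi)
noncomputable def cq6_8 (i : ℕ) : Bool := (fun c => (fun d1 => @Bool.rec (fun _ => Bool) ((fun d2 => @Bool.rec (fun _ => Bool) ((fun d3 => @Bool.rec (fun _ => Bool) ((fun d4 => @Bool.rec (fun _ => Bool) (Nat.beq d4 c) true (Nat.blt d4 c)) (f8 (d3))) true (Nat.blt d3 c)) (f6 (d2))) true (Nat.blt d2 c)) (f8 (d1))) true (Nat.blt d1 c)) (f6 (c))) (Nat.mul 20 i)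
theorem hq6_8_0 : all2 cq6_8 14 0 = true := by decide +kernel
theorem hq6_8_1 : all2 cq6_8 13 16384 = true := by decide +kernel
theorem hq6_8_2 : all2 cq6_8 12 24576 = true := by decide +kernel
theorem hq6_8_3 : all2 cq6_8 11 28672 = true := by decide +kernel
theorem hq6_8_4 : all2 cq6_8 9 30720 = true := by decide +kernel
theorem hq6_8_5 : all2 cq6_8 8 31232 = true := by decide +kernel
theorem hq6_8_6 : all2 cq6_8 7 31488 = true := by decide +kernel
theorem hq6_8_7 : all2 cq6_8 5 31616 = true := by decide +kernel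
theorem hq6_8_8 : all2 cq6_8 4 31648 = true := by decide +kernel
theorem hq6_8_9 : all2 cq6_8 2 31664 = true := by decide +kernel
theorem hq6_8_10 : all2 cq6_8 1 31668 = true := by decide +kernel
theorem hq6_8_11 : all2 cq6_8 0 31670 = true := by decide +kernel
theorem hq6_8 : ∀ i < 31671, cq6_8 i = true := by
  have h0 : ∀ i < 0, cq6_8 i = true := fun i hi => absurd hi (Nat.not_lt_zero i)
  have h1 : ∀ i < 16384, cq6_8 i = true := range_step h0 hq6_8_0 (by norm_num)
  have h2 : ∀ i < 24576, cq6_8 i = true := range_step h1 hq6_8_1 (by norm_num)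
  have h3 : ∀ i < 28672, cq6_8 i = true := range_step h2 hq6_8_2 (by norm_num)
  have h4 : ∀ i < 30720, cq6_8 i = true := range_step h3 hq6_8_3 (by norm_num)
  have h5 : ∀ i < 31232, cq6_8 i = true := range_step h4 hq6_8_4 (by norm_num)
  have h6 : ∀ i < 31488, cq6_8 i = true := range_step h5 hq6_8_5 (by norm_num)
  have h7 : ∀ i < 31616, cq6_8 i = true := range_step h6 hq6_8_6 (by norm_num)
  have h8 : ∀ i < 31648, cq6_8 i = true := range_step h7 hq6_8_7 (by norm_num)
  have h9 : ∀ i < 31664, cq6_8 i = true := range_step h8 hq6_8_8 (by norm_num)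
  have h10 : ∀ i < 31668, cq6_8 i = true := range_step h9 hq6_8_9 (by norm_num)
  have h11 : ∀ i < 31670, cq6_8 i = true := range_step h10 hq6_8_10 (by norm_num)
  have h12 : ∀ i < 31671, cq6_8 i = true := range_step h11 hq6_8_11 (by norm_num)
  exact h12
theorem q6_8 : (tab.perm 6 * tab.perm 8) ^ 2 = 1 :=
  dih_spec tab 6 8 2 (by decide) (by decide) rfl rfl (fun c hc => by
    obtain ⟨i, hi, rfl⟩ := hc
    exact hq6_8 i hi)
noncomputable def cq6_9 (i : ℕ) : Bool := (fun c => (fun d1 => @Bool.rec (fun _ => Bool) ((fun d2 => @Bool.rec (fun _ => Bool) ((fun d3 => @Bool.rec (fun _ => Bool) ((fun d4 => @Bool.rec (fun _ => Bool) (Nat.beq d4 c) true (Nat.blt d4 c)) (f9 (d3))) true (Nat.blt d3 c)) (f6 (d2))) true (Nat.blt d2 c)) (f9 (d1))) true (Nat.blt d1 c)) (f6 (c))) (Nat.mul 20 i)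
theorem hq6_9_0 : all2 cq6_9 14 0 = true := by decide +kernel
theorem hq6_9_1 : all2 cq6_9 13 16384 = true := by decide +kernel
theorem hq6_9_2 : all2 cq6_9 12 24576 = true := by decide +kernel
theorem hq6_9_3 : all2 cq6_9 11 28672 = true := by decide +kernel
theorem hq6_9_4 : all2 cq6_9 9 30720 = true := by decide +kernel
theorem hq6_9_5 : all2 cq6_9 8 31232 = true := by decide +kernel
theorem hq6_9_6 : all2 cq6_9 7 31488 = true := by decide +kernel
theorem hq6_9_7 : all2 cq6_9 5 31616 = true := by decide +kernel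
theorem hq6_9_8 : all2 cq6_9 4 31648 = true := by decide +kernel
theorem hq6_9_9 : all2 cq6_9 2 31664 = true := by decide +kernel
theorem hq6_9_10 : all2 cq6_9 1 31668 = true := by decide +kernel
theorem hq6_9_11 : all2 cq6_9 0 31670 = true := by decide +kernel
theorem hq6_9 : ∀ i < 31671, cq6_9 i = true := by
  have h0 : ∀ i < 0, cq6_9 i = true := fun i hi => absurd hi (Nat.not_lt_zero i)
  have h1 : ∀ i < 16384, cq6_9 i = true := range_step h0 hq6_9_0 (by norm_num)
  have h2 : ∀ i < 24576, cq6_9 i = true := range_step h1 hq6_9_1 (by norm_num)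
  have h3 : ∀ i < 28672, cq6_9 i = true := range_step h2 hq6_9_2 (by norm_num)
  have h4 : ∀ i < 30720, cq6_9 i = true := range_step h3 hq6_9_3 (by norm_num)
  have h5 : ∀ i < 31232, cq6_9 i = true := range_step h4 hq6_9_4 (by norm_num)
  have h6 : ∀ i < 31488, cq6_9 i = true := range_step h5 hq6_9_5 (by norm_num)
  have h7 : ∀ i < 31616, cq6_9 i = true := range_step h6 hq6_9_6 (by norm_num)
  have h8 : ∀ i < 31648, cq6_9 i = true := range_step h7 hq6_9_7 (by norm_num)
  have h9 : ∀ i < 31664, cq6_9 i = true := range_step h8 hq6_9_8 (by norm_num)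
  have h10 : ∀ i < 31668, cq6_9 i = true := range_step h9 hq6_9_9 (by norm_num)
  have h11 : ∀ i < 31670, cq6_9 i = true := range_step h10 hq6_9_10 (by norm_num)
  have h12 : ∀ i < 31671, cq6_9 i = true := range_step h11 hq6_9_11 (by norm_num)
  exact h12
theorem q6_9 : (tab.perm 6 * tab.perm 9) ^ 2 = 1 :=
  dih_spec tab 6 9 2 (by decide) (by decide) rfl rfl (fun c hc => by
    obtain ⟨i, hi, rfl⟩ := hc
    exact hq6_9 i hi)
noncomputable def cq7_8 (i : ℕ) : Bool := (fun c => (fun d1 => @Bool.rec (fun _ => Bool) ((fun d2 => @Bool.rec (fun _ => Bool) ((fun d3 => @Bool.rec (fun _ => Bool) ((fun d4 => @Bool.rec (fun _ => Bool) (Nat.beq d4 c) true (Nat.blt d4 c)) (f8 (d3))) true (Nat.blt d3 c)) (f7 (d2))) true (Nat.blt d2 c)) (f8 (d1))) true (Nat.blt d1 c)) (f7 (c))) (Nat.mul 20 i)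
theorem hq7_8_0 : all2 cq7_8 14 0 = true := by decide +kernel
theorem hq7_8_1 : all2 cq7_8 13 16384 = true := by decide +kernel
theorem hq7_8_2 : all2 cq7_8 12 24576 = true := by decide +kernel
theorem hq7_8_3 : all2 cq7_8 11 28672 = true := by decide +kernel
theorem hq7_8_4 : all2 cq7_8 9 30720 = true := by decide +kernel
theorem hq7_8_5 : all2 cq7_8 8 31232 = true := by decide +kernel
theorem hq7_8_6 : all2 cq7_8 7 31488 = true := by decide +kernel
theorem hq7_8_7 : all2 cq7_8 5 31616 = true := by decide +kernel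
theorem hq7_8_8 : all2 cq7_8 4 31648 = true := by decide +kernel
theorem hq7_8_9 : all2 cq7_8 2 31664 = true := by decide +kernel
theorem hq7_8_10 : all2 cq7_8 1 31668 = true := by decide +kernel
theorem hq7_8_11 : all2 cq7_8 0 31670 = true := by decide +kernel
theorem hq7_8 : ∀ i < 31671, cq7_8 i = true := by
  have h0 : ∀ i < 0, cq7_8 i = true := fun i hi => absurd hi (Nat.not_lt_zero i)
  have h1 : ∀ i < 16384, cq7_8 i = true := range_step h0 hq7_8_0 (by norm_num)
  have h2 : ∀ i < 24576, cq7_8 i = true := range_step h1 hq7_8_1 (by norm_num)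
  have h3 : ∀ i < 28672, cq7_8 i = true := range_step h2 hq7_8_2 (by norm_num)
  have h4 : ∀ i < 30720, cq7_8 i = true := range_step h3 hq7_8_3 (by norm_num)
  have h5 : ∀ i < 31232, cq7_8 i = true := range_step h4 hq7_8_4 (by norm_num)
  have h6 : ∀ i < 31488, cq7_8 i = true := range_step h5 hq7_8_5 (by norm_num)
  have h7 : ∀ i < 31616, cq7_8 i = true := range_step h6 hq7_8_6 (by norm_num)
  have h8 : ∀ i < 31648, cq7_8 i = true := range_step h7 hq7_8_7 (by norm_num)
  have h9 : ∀ i < 31664, cq7_8 i = true := range_step h8 hq7_8_8 (by norm_num)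
  have h10 : ∀ i < 31668, cq7_8 i = true := range_step h9 hq7_8_9 (by norm_num)
  have h11 : ∀ i < 31670, cq7_8 i = true := range_step h10 hq7_8_10 (by norm_num)
  have h12 : ∀ i < 31671, cq7_8 i = true := range_step h11 hq7_8_11 (by norm_num)
  exact h12
theorem q7_8 : (tab.perm 7 * tab.perm 8) ^ 2 = 1 :=
  dih_spec tab 7 8 2 (by decide) (by decide) rfl rfl (fun c hc => by
    obtain ⟨i, hi, rfl⟩ := hc
    exact hq7_8 i hi)
noncomputable def cq7_9 (i : ℕ) : Bool := (fun c => (fun d1 => @Bool.rec (fun _ => Bool) ((fun d2 => @Bool.rec (fun _ => Bool) ((fun d3 => @Bool.rec (fun _ => Bool) ((fun d4 => @Bool.rec (fun _ => Bool) (Nat.beq d4 c) true (Nat.blt d4 c)) (f9 (d3))) true (Nat.blt d3 c)) (f7 (d2))) true (Nat.blt d2 c)) (f9 (d1))) true (Nat.blt d1 c)) (f7 (c))) (Nat.mul 20 i)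
theorem hq7_9_0 : all2 cq7_9 14 0 = true := by decide +kernel
theorem hq7_9_1 : all2 cq7_9 13 16384 = true := by decide +kernel
theorem hq7_9_2 : all2 cq7_9 12 24576 = true := by decide +kernel
theorem hq7_9_3 : all2 cq7_9 11 28672 = true := by decide +kernel
theorem hq7_9_4 : all2 cq7_9 9 30720 = true := by decide +kernel
theorem hq7_9_5 : all2 cq7_9 8 31232 = true := by decide +kernel
theorem hq7_9_6 : all2 cq7_9 7 31488 = true := by decide +kernel
theorem hq7_9_7 : all2 cq7_9 5 31616 = true := by decide +kernel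
theorem hq7_9_8 : all2 cq7_9 4 31648 = true := by decide +kernel
theorem hq7_9_9 : all2 cq7_9 2 31664 = true := by decide +kernel
theorem hq7_9_10 : all2 cq7_9 1 31668 = true := by decide +kernel
theorem hq7_9_11 : all2 cq7_9 0 31670 = true := by decide +kernel
theorem hq7_9 : ∀ i < 31671, cq7_9 i = true := by
  have h0 : ∀ i < 0, cq7_9 i = true := fun i hi => absurd hi (Nat.not_lt_zero i)
  have h1 : ∀ i < 16384, cq7_9 i = true := range_step h0 hq7_9_0 (by norm_num)
  have h2 : ∀ i < 24576, cq7_9 i = true := range_step h1 hq7_9_1 (by norm_num)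
  have h3 : ∀ i < 28672, cq7_9 i = true := range_step h2 hq7_9_2 (by norm_num)
  have h4 : ∀ i < 30720, cq7_9 i = true := range_step h3 hq7_9_3 (by norm_num)
  have h5 : ∀ i < 31232, cq7_9 i = true := range_step h4 hq7_9_4 (by norm_num)
  have h6 : ∀ i < 31488, cq7_9 i = true := range_step h5 hq7_9_5 (by norm_num)
  have h7 : ∀ i < 31616, cq7_9 i = true := range_step h6 hq7_9_6 (by norm_num)
  have h8 : ∀ i < 31648, cq7_9 i = true := range_step h7 hq7_9_7 (by norm_num)
  have h9 : ∀ i < 31664, cq7_9 i = true := range_step h8 hq7_9_8 (by norm_num)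
  have h10 : ∀ i < 31668, cq7_9 i = true := range_step h9 hq7_9_9 (by norm_num)
  have h11 : ∀ i < 31670, cq7_9 i = true := range_step h10 hq7_9_10 (by norm_num)
  have h12 : ∀ i < 31671, cq7_9 i = true := range_step h11 hq7_9_11 (by norm_num)
  exact h12
theorem q7_9 : (tab.perm 7 * tab.perm 9) ^ 2 = 1 :=
  dih_spec tab 7 9 2 (by decide) (by decide) rfl rfl (fun c hc => by
    obtain ⟨i, hi, rfl⟩ := hc
    exact hq7_9 i hi)
noncomputable def cq8_9 (i : ℕ) : Bool := (fun c => (fun d1 => @Bool.rec (fun _ => Bool) ((fun d2 => @Bool.rec (fun _ => Bool) ((fun d3 => @Bool.rec (fun _ => Bool) ((fun d4 => @Bool.rec (fun _ => Bool) ((fun d5 => @Bool.rec (fun _ => Bool) ((fun d6 => @Bool.rec (fun _ => Bool) (Nat.beq d6 c) true (Nat.blt d6 c)) (f9 (d5))) true (Nat.blt d5 c)) (f8 (d4))) true (Nat.blt d4 c)) (f9 (d3))) true (Nat.blt d3 c)) (f8 (d2))) true (Nat.blt d2 c)) (f9 (d1))) true (Nat.blt d1 c)) (f8 (c))) (Nat.mul 20 i)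
theorem hq8_9_0 : all2 cq8_9 14 0 = true := by decide +kernel
theorem hq8_9_1 : all2 cq8_9 13 16384 = true := by decide +kernel
theorem hq8_9_2 : all2 cq8_9 12 24576 = true := by decide +kernel
theorem hq8_9_3 : all2 cq8_9 11 28672 = true := by decide +kernel
theorem hq8_9_4 : all2 cq8_9 9 30720 = true := by decide +kernel
theorem hq8_9_5 : all2 cq8_9 8 31232 = true := by decide +kernel
theorem hq8_9_6 : all2 cq8_9 7 31488 = true := by decide +kernel
theorem hq8_9_7 : all2 cq8_9 5 31616 = true := by decide +kernel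
theorem hq8_9_8 : all2 cq8_9 4 31648 = true := by decide +kernel
theorem hq8_9_9 : all2 cq8_9 2 31664 = true := by decide +kernel
theorem hq8_9_10 : all2 cq8_9 1 31668 = true := by decide +kernel
theorem hq8_9_11 : all2 cq8_9 0 31670 = true := by decide +kernel
theorem hq8_9 : ∀ i < 31671, cq8_9 i = true := by
  have h0 : ∀ i < 0, cq8_9 i = true := fun i hi => absurd hi (Nat.not_lt_zero i)
  have h1 : ∀ i < 16384, cq8_9 i = true := range_step h0 hq8_9_0 (by norm_num)
  have h2 : ∀ i < 24576, cq8_9 i = true := range_step h1 hq8_9_1 (by norm_num)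
  have h3 : ∀ i < 28672, cq8_9 i = true := range_step h2 hq8_9_2 (by norm_num)
  have h4 : ∀ i < 30720, cq8_9 i = true := range_step h3 hq8_9_3 (by norm_num)
  have h5 : ∀ i < 31232, cq8_9 i = true := range_step h4 hq8_9_4 (by norm_num)
  have h6 : ∀ i < 31488, cq8_9 i = true := range_step h5 hq8_9_5 (by norm_num)
  have h7 : ∀ i < 31616, cq8_9 i = true := range_step h6 hq8_9_6 (by norm_num)
  have h8 : ∀ i < 31648, cq8_9 i = true := range_step h7 hq8_9_7 (by norm_num)
  have h9 : ∀ i < 31664, cq8_9 i = true := range_step h8 hq8_9_8 (by norm_num)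
  have h10 : ∀ i < 31668, cq8_9 i = true := range_step h9 hq8_9_9 (by norm_num)
  have h11 : ∀ i < 31670, cq8_9 i = true := range_step h10 hq8_9_10 (by norm_num)
  have h12 : ∀ i < 31671, cq8_9 i = true := range_step h11 hq8_9_11 (by norm_num)
  exact h12
theorem q8_9 : (tab.perm 8 * tab.perm 9) ^ 3 = 1 :=
  dih_spec tab 8 9 3 (by decide) (by decide) rfl rfl (fun c hc => by
    obtain ⟨i, hi, rfl⟩ := hc
    exact hq8_9 i hi)
noncomputable def cv0 (i : ℕ) : Bool := (fun c => (fun d1 => @Bool.rec (fun _ => Bool) ((fun d2 => @Bool.rec (fun _ => Bool) ((fun d3 => @Bool.rec (fun _ => Bool) ((fun d4 => @Bool.rec (fun _ => Bool) ((fun d5 => @Bool.rec (fun _ => Bool) ((fun d6 => @Bool.rec (fun _ => Bool) ((fun d7 => @Bool.rec (fun _ => Bool) ((fun d8 => @Bool.rec (fun _ => Bool) ((fun d9 => @Bool.rec (fun _ => Bool) ((fun d10 => @Bool.rec (fun _ => Bool) (Nat.beq d10 c) true (Nat.blt d10 c)) (f9 (f8 (f3 (f5 (f4 (f3 (f1 (f2 (f3 (d9))))))))))) true (Nat.blt d9 c)) (f9 (f8 (f3 (f5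 (f4 (f3 (f1 (f2 (f3 (d8))))))))))) true (Nat.blt d8 c)) (f9 (f8 (f3 (f5 (f4 (f3 (f1 (f2 (f3 (d7))))))))))) true (Nat.blt d7 c)) (f9 (f8 (f3 (f5 (f4 (f3 (f1 (f2 (f3 (d6))))))))))) true (Nat.blt d6 c)) (f9 (f8 (f3 (f5 (f4 (f3 (f1 (f2 (f3 (d5))))))))))) true (Nat.blt d5 c)) (f9 (f8 (f3 (f5 (f4 (f3 (f1 (f2 (f3 (d4))))))))))) true (Nat.blt d4 c)) (f9 (f8 (f3 (f5 (f4 (f3 (f1 (f2 (f3 (d3))))))))))) true (Nat.blt d3 c)) (f9 (f8 (f3 (f5 (f4 (f3 (f1 (f2 (f3 (d2))))))))))) true (Nat.blt d2 c)) (f9 (f8 (f3 (f5 (f4 (f3 (f1 (f2 (f3 (d1))))))))))) true (Nat.blt d1 c)) (f9 (f8 (f3 (f5 (f4 (f3 (f1 (f2 (f3 (c))))))))))) (Nat.mul 20 i)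
theorem hv0_0 : all2 cv0 10 0 = true := by decide +kernel
theorem hv0_1 : all2 cv0 10 1024 = true := by decide +kernel
theorem hv0_2 : all2 cv0 10 2048 = true := by decide +kernel
theorem hv0_3 : all2 cv0 10 3072 = true := by decide +kernel
theorem hv0_4 : all2 cv0 10 4096 = true := by decide +kernel
theorem hv0_5 : all2 cv0 10 5120 = true := by decide +kernel
theorem hv0_6 : all2 cv0 10 6144 = true := by decide +kernel
theorem hv0_7 : all2 cv0 10 7168 = true := by decide +kernel
theorem hv0_8 : all2 cv0 11 8192 = true := by decide +kernel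
theorem hv0_9 : all2 cv0 11 10240 = true := by decide +kernel
theorem hv0_10 : all2 cv0 11 12288 = true := by decide +kernel
theorem hv0_11 : all2 cv0 11 14336 = true := by decide +kernel
theorem hv0_12 : all2 cv0 11 16384 = true := by decide +kernel
theorem hv0_13 : all2 cv0 11 18432 = true := by decide +kernel
theorem hv0_14 : all2 cv0 11 20480 = true := by decide +kernel
theorem hv0_15 : all2 cv0 11 22528 = true := by decide +kernel
theorem hv0_16 : all2 cv0 11 24576 = true := by decide +kernel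
theorem hv0_17 : all2 cv0 11 26624 = true := by decide +kernel
theorem hv0_18 : all2 cv0 11 28672 = true := by decide +kernel
theorem hv0_19 : all2 cv0 9 30720 = true := by decide +kernel
theorem hv0_20 : all2 cv0 8 31232 = true := by decide +kernel
theorem hv0_21 : all2 cv0 7 31488 = true := by decide +kernel
theorem hv0_22 : all2 cv0 5 31616 = true := by decide +kernel
theorem hv0_23 : all2 cv0 4 31648 = true := by decide +kernel
theorem hv0_24 : all2 cv0 2 31664 = true := by decide +kernel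
theorem hv0_25 : all2 cv0 1 31668 = true := by decide +kernel
theorem hv0_26 : all2 cv0 0 31670 = true := by decide +kernel
theorem hv0 : ∀ i < 31671, cv0 i = true := by
  have h0 : ∀ i < 0, cv0 i = true := fun i hi => absurd hi (Nat.not_lt_zero i)
  have h1 : ∀ i < 1024, cv0 i = true := range_step h0 hv0_0 (by norm_num)
  have h2 : ∀ i < 2048, cv0 i = true := range_step h1 hv0_1 (by norm_num)
  have h3 : ∀ i < 3072, cv0 i = true := range_step h2 hv0_2 (by norm_num)
  have h4 : ∀ i < 4096, cv0 i = true := range_step h3 hv0_3 (by norm_num)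
  have h5 : ∀ i < 5120, cv0 i = true := range_step h4 hv0_4 (by norm_num)
  have h6 : ∀ i < 6144, cv0 i = true := range_step h5 hv0_5 (by norm_num)
  have h7 : ∀ i < 7168, cv0 i = true := range_step h6 hv0_6 (by norm_num)
  have h8 : ∀ i < 8192, cv0 i = true := range_step h7 hv0_7 (by norm_num)
  have h9 : ∀ i < 10240, cv0 i = true := range_step h8 hv0_8 (by norm_num)
  have h10 : ∀ i < 12288, cv0 i = true := range_step h9 hv0_9 (by norm_num)
  have h11 : ∀ i < 14336, cv0 i = true := range_step h10 hv0_10 (by norm_num)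
  have h12 : ∀ i < 16384, cv0 i = true := range_step h11 hv0_11 (by norm_num)
  have h13 : ∀ i < 18432, cv0 i = true := range_step h12 hv0_12 (by norm_num)
  have h14 : ∀ i < 20480, cv0 i = true := range_step h13 hv0_13 (by norm_num)
  have h15 : ∀ i < 22528, cv0 i = true := range_step h14 hv0_14 (by norm_num)
  have h16 : ∀ i < 24576, cv0 i = true := range_step h15 hv0_15 (by norm_num)
  have h17 : ∀ i < 26624, cv0 i = true := range_step h16 hv0_16 (by norm_num)
  have h18 : ∀ i < 28672, cv0 i = true := range_step h17 hv0_17 (by norm_num)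
  have h19 : ∀ i < 30720, cv0 i = true := range_step h18 hv0_18 (by norm_num)
  have h20 : ∀ i < 31232, cv0 i = true := range_step h19 hv0_19 (by norm_num)
  have h21 : ∀ i < 31488, cv0 i = true := range_step h20 hv0_20 (by norm_num)
  have h22 : ∀ i < 31616, cv0 i = true := range_step h21 hv0_21 (by norm_num)
  have h23 : ∀ i < 31648, cv0 i = true := range_step h22 hv0_22 (by norm_num)
  have h24 : ∀ i < 31664, cv0 i = true := range_step h23 hv0_23 (by norm_num)
  have h25 : ∀ i < 31668, cv0 i = true := range_step h24 hv0_24 (by norm_num)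
  have h26 : ∀ i < 31670, cv0 i = true := range_step h25 hv0_25 (by norm_num)
  have h27 : ∀ i < 31671, cv0 i = true := range_step h26 hv0_26 (by norm_num)
  exact h27
theorem v0 : wd tab.perm [3, 2, 1, 3, 4, 5, 3, 8, 9] ^ 10 = 1 :=
  pow_spec tab [3, 2, 1, 3, 4, 5, 3, 8, 9] 10 (by decide) (fun c hc => by
    obtain ⟨i, hi, rfl⟩ := hc
    exact hv0 i hi)
noncomputable def cv1 (i : ℕ) : Bool := (fun c => (fun d1 => @Bool.rec (fun _ => Bool) ((fun d2 => @Bool.rec (fun _ => Bool) ((fun d3 => @Bool.rec (fun _ => Bool) ((fun d4 => @Bool.rec (fun _ => Bool) ((fun d5 => @Bool.rec (fun _ => Bool) ((fun d6 => @Bool.rec (fun _ => Bool) ((fun d7 => @Bool.rec (fun _ => Bool) ((fun d8 => @Bool.rec (fun _ => Bool) ((fun d9 => @Bool.rec (fun _ => Bool) (Nat.beq d9 c) true (Nat.blt d9 c)) (f8 (f5 (f4 (f3 (f2 (f1 (f0 (d8))))))))) true (Nat.blt d8 c)) (f8 (f5 (f4 (f3 (f2 (f1 (f0 (d7))))))))) true (Nat.blt d7 c)) (f8 (f5 (f4 (f3 (f2 (f1 (f0 (d6))))))))) true (Nat.blt d6 c)) (f8 (f5 (f4 (f3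 (f2 (f1 (f0 (d5))))))))) true (Nat.blt d5 c)) (f8 (f5 (f4 (f3 (f2 (f1 (f0 (d4))))))))) true (Nat.blt d4 c)) (f8 (f5 (f4 (f3 (f2 (f1 (f0 (d3))))))))) true (Nat.blt d3 c)) (f8 (f5 (f4 (f3 (f2 (f1 (f0 (d2))))))))) true (Nat.blt d2 c)) (f8 (f5 (f4 (f3 (f2 (f1 (f0 (d1))))))))) true (Nat.blt d1 c)) (f8 (f5 (f4 (f3 (f2 (f1 (f0 (c))))))))) (Nat.mul 20 i)
theorem hv1_0 : all2 cv1 10 0 = true := by decide +kernel
theorem hv1_1 : all2 cv1 11 1024 = true := by decide +kernel
theorem hv1_2 : all2 cv1 11 3072 = true := by decide +kernel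
theorem hv1_3 : all2 cv1 11 5120 = true := by decide +kernel
theorem hv1_4 : all2 cv1 11 7168 = true := by decide +kernel
theorem hv1_5 : all2 cv1 11 9216 = true := by decide +kernel
theorem hv1_6 : all2 cv1 11 11264 = true := by decide +kernel
theorem hv1_7 : all2 cv1 11 13312 = true := by decide +kernel
theorem hv1_8 : all2 cv1 11 15360 = true := by decide +kernel
theorem hv1_9 : all2 cv1 11 17408 = true := by decide +kernel
theorem hv1_10 : all2 cv1 11 19456 = true := by decide +kernel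
theorem hv1_11 : all2 cv1 11 21504 = true := by decide +kernel
theorem hv1_12 : all2 cv1 11 23552 = true := by decide +kernel
theorem hv1_13 : all2 cv1 12 25600 = true := by decide +kernel
theorem hv1_14 : all2 cv1 10 29696 = true := by decide +kernel
theorem hv1_15 : all2 cv1 9 30720 = true := by decide +kernel
theorem hv1_16 : all2 cv1 8 31232 = true := by decide +kernel
theorem hv1_17 : all2 cv1 7 31488 = true := by decide +kernel
theorem hv1_18 : all2 cv1 5 31616 = true := by decide +kernel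
theorem hv1_19 : all2 cv1 4 31648 = true := by decide +kernel
theorem hv1_20 : all2 cv1 2 31664 = true := by decide +kernel
theorem hv1_21 : all2 cv1 1 31668 = true := by decide +kernel
theorem hv1_22 : all2 cv1 0 31670 = true := by decide +kernel
theorem hv1 : ∀ i < 31671, cv1 i = true := by
  have h0 : ∀ i < 0, cv1 i = true := fun i hi => absurd hi (Nat.not_lt_zero i)
  have h1 : ∀ i < 1024, cv1 i = true := range_step h0 hv1_0 (by norm_num)
  have h2 : ∀ i < 3072, cv1 i = true := range_step h1 hv1_1 (by norm_num)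
  have h3 : ∀ i < 5120, cv1 i = true := range_step h2 hv1_2 (by norm_num)
  have h4 : ∀ i < 7168, cv1 i = true := range_step h3 hv1_3 (by norm_num)
  have h5 : ∀ i < 9216, cv1 i = true := range_step h4 hv1_4 (by norm_num)
  have h6 : ∀ i < 11264, cv1 i = true := range_step h5 hv1_5 (by norm_num)
  have h7 : ∀ i < 13312, cv1 i = true := range_step h6 hv1_6 (by norm_num)
  have h8 : ∀ i < 15360, cv1 i = true := range_step h7 hv1_7 (by norm_num)
  have h9 : ∀ i < 17408, cv1 i = true := range_step h8 hv1_8 (by norm_num)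
  have h10 : ∀ i < 19456, cv1 i = true := range_step h9 hv1_9 (by norm_num)
  have h11 : ∀ i < 21504, cv1 i = true := range_step h10 hv1_10 (by norm_num)
  have h12 : ∀ i < 23552, cv1 i = true := range_step h11 hv1_11 (by norm_num)
  have h13 : ∀ i < 25600, cv1 i = true := range_step h12 hv1_12 (by norm_num)
  have h14 : ∀ i < 29696, cv1 i = true := range_step h13 hv1_13 (by norm_num)
  have h15 : ∀ i < 30720, cv1 i = true := range_step h14 hv1_14 (by norm_num)
  have h16 : ∀ i < 31232, cv1 i = true := range_step h15 hv1_15 (by norm_num)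
  have h17 : ∀ i < 31488, cv1 i = true := range_step h16 hv1_16 (by norm_num)
  have h18 : ∀ i < 31616, cv1 i = true := range_step h17 hv1_17 (by norm_num)
  have h19 : ∀ i < 31648, cv1 i = true := range_step h18 hv1_18 (by norm_num)
  have h20 : ∀ i < 31664, cv1 i = true := range_step h19 hv1_19 (by norm_num)
  have h21 : ∀ i < 31668, cv1 i = true := range_step h20 hv1_20 (by norm_num)
  have h22 : ∀ i < 31670, cv1 i = true := range_step h21 hv1_21 (by norm_num)
  have h23 : ∀ i < 31671, cv1 i = true := range_step h22 hv1_22 (by norm_num)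
  exact h23
theorem v1 : wd tab.perm [0, 1, 2, 3, 4, 5, 8] ^ 9 = 1 :=
  pow_spec tab [0, 1, 2, 3, 4, 5, 8] 9 (by decide) (fun c hc => by
    obtain ⟨i, hi, rfl⟩ := hc
    exact hv1 i hi)
end Cfsg.Agent.H5TC.Fi23_31671
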