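import Cfsg.Agent.Lib.H6AG2

/-! S1954: control of strong fusion passes up from a normal subgroup. -/

set_option autoImplicit false
set_option linter.style.haveILetI false

open Subgroup
open scoped commutatorElement Pointwise

namespace CfsgLib.H6AG

open CfsgLib.Coprime CfsgLib.SylBridge CfsgLib.Alperin CfsgLib.H6Gl

universe u v
variable {G : Type u} [Group G] [Finite G] {p : ℕ} [hp : Fact p.Prime]

/-- Sylow subgroups of `KT` -/
theorem syl_sup' {K S T : Subgroup G} [K.Normal] (hS : IsSyl p S K) (hT : IsPGroup p T) (hTn : T ≤ Subgroup.normalizer (S : Set G)) :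
    IsSyl p (S ⊔ T) (K ⊔ T) := by
  have h1 : IsPGroup p (S ⊔ T : Subgroup G) := IsPGroup.to_sup_of_normal_left' hS.isPGroup hT hTn
  obtain ⟨Q, hQ, hle⟩ := CfsgLib.Coprime.exists_isSyl_ge (sup_le_sup_right hS.1 T) h1
  have h2 : Q ⊓ K = S := by
    exact (isSyl_iff_isSylowIn.1 hS).eq_of_le inf_le_right (hQ.isPGroup.to_le inf_le_left) (le_inf (le_sup_left.trans hle) hS.1)
  have h3 : Q ≤ S ⊔ T := by
    intro q hq
    obtain ⟨k, hk, t, ht, rfl⟩ := Subgroup.mem_sup_of_normal_left.1 (hQ.1 hq)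
    refine mul_mem_sup ?_ ht
    rw [← h2]
    refine mem_inf.2 ⟨?_, hk⟩
    have := Q.mul_mem hq (Q.inv_mem (hle (mem_sup_right ht)))
    simpa using this
  have h4 : Q = S ⊔ T := le_antisymm h3 hle
  rw [← h4]
  exact hQ

/-- conjugation-normalized centralizers -/
theorem conj_cent {D₀ : Subgroup G} {x c : G} (hx : x ∈ Subgroup.normalizer (D₀ : Set G)) (hc : c ∈ Subgroup.centralizer (D₀ : Set G)) :
    x * c * x⁻¹ ∈ Subgroup.centralizer (D₀ : Set G) := by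
  rw [mem_centralizer_iff]
  intro d hd
  have h1 := mem_centralizer_iff.1 hc (x⁻¹ * d * x) (by
    have := (mem_normalizer_iff.1 (inv_mem hx) d).1 hd
    simpa using this)
  have h2 : d * (x * c * x⁻¹) = x * (x⁻¹ * d * x * c) * x⁻¹ := by group
  rw [h2, h1]; group

theorem inner_ctrl {N P₀ V W : Subgroup G} [hN : N.Normal] (hP₀ : IsSyl p P₀ N) (hV : V ≤ P₀)
    (hVn : P₀ ≤ Subgroup.normalizer (V : Set G))
    (hctrl : ∀ A : Subgroup G, A ≤ P₀ → ∀ n ∈ N, A.map (MulAut.conj n).toMonoidHom ≤ P₀ →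
      ∃ h ∈ N ⊓ Subgroup.normalizer (V : Set G), ∃ c ∈ N ⊓ Subgroup.centralizer (A : Set G), n = h * c)
    (hW : ∀ y : G, (∀ x ∈ Subgroup.normalizer (P₀ : Set G), y ∈ Subgroup.normalizer ((V.map (MulAut.conj x).toMonoidHom : Subgroup G) : Set G)) → y ∈ Subgroup.normalizer (W : Set G))
    (A : Set G) (g : G) (hg : g ∈ N) (hA : A ⊆ (P₀ : Set G)) (hAg : ∀ a ∈ A, g⁻¹ * a * g ∈ P₀) :
    ∃ m ∈ Subgroup.normalizer (W : Set G) ⊓ N, ∀ a ∈ A, g⁻¹ * a * g = m⁻¹ * a * m := by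
  apply ag_rel hP₀ (Subgroup.normalizer (W : Set G)) _ A g hg hA hAg
  intro D hD hsyl
  -- factorization for each conjugate of `V`
  have hfac : ∀ x ∈ Subgroup.normalizer (P₀ : Set G), ∀ y ∈ N ⊓ Subgroup.normalizer (D : Set G),
      ∃ h ∈ Subgroup.normalizer ((V.map (MulAut.conj x).toMonoidHom : Subgroup G) : Set G), ∃ c ∈ N ⊓ Subgroup.centralizer (D : Set G), y = h * c := by
    intro x hx y hy
    have hy' := mem_inf.1 hy
    obtain ⟨h, hh, c, hc, hhc⟩ := hctrl (D.map (MulAut.conj x⁻¹).toMonoidHom) (by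
      rintro _ ⟨d, hd, rfl⟩
      exact (mem_normalizer_iff.1 (inv_mem hx) d).1 (hD hd)) (x⁻¹ * y * x) (by
      have := hN.conj_mem y hy'.1 x⁻¹
      simpa using this) (by
      rintro _ ⟨_, ⟨d, hd, rfl⟩, rfl⟩
      have h1 : (MulAut.conj (x⁻¹ * y * x)).toMonoidHom ((MulAut.conj x⁻¹).toMonoidHom d) = x⁻¹ * (y * d * y⁻¹) * x⁻¹⁻¹ := by
        show (x⁻¹ * y * x) * (x⁻¹ * d * x⁻¹⁻¹) * (x⁻¹ * y * x)⁻¹ = _
        group
      rw [h1]
      exact (mem_normalizer_iff.1 (inv_mem hx) _).1 (hD ((mem_normalizer_iff.1 hy'.2 d).1 hd)))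
    have hh' := mem_inf.1 hh
    have hc' := mem_inf.1 hc
    refine ⟨x * h * x⁻¹, ?_, x * c * x⁻¹, mem_inf.2 ⟨hN.conj_mem c hc'.1 x, ?_⟩, ?_⟩
    · rw [← CfsgLib.H7Basic.cj_normalizer]
      exact CfsgLib.H7Basic.conj_mem_cj hh'.2
    · rw [mem_centralizer_iff]
      intro d hd
      have h1 := mem_centralizer_iff.1 hc'.2 (x⁻¹ * d * x⁻¹⁻¹) ⟨d, hd, rfl⟩
      have h2 : d * (x * c * x⁻¹) = x * (x⁻¹ * d * x⁻¹⁻¹ * c) * x⁻¹ := by group
      rw [h2, h1]; group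
    · have h1 : y = x * (x⁻¹ * y * x) * x⁻¹ := by group
      rw [h1, hhc]; group
  by_cases hall : ∀ x ∈ Subgroup.normalizer (P₀ : Set G), V.map (MulAut.conj x).toMonoidHom ≤ D
  · left
    intro y hy
    refine ⟨y, mem_inf.2 ⟨hW y ?_, (mem_inf.1 hy).1⟩, fun d _ => rfl⟩
    intro x hx
    obtain ⟨h, hh, c, hc, rfl⟩ := hfac x hx y hy
    refine mul_mem hh ?_
    apply Subgroup.centralizer_le_normalizer
    exact Subgroup.centralizer_le (hall x hx) (mem_inf.1 hc).2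
  · right
    push Not at hall
    obtain ⟨x, hx, hxD⟩ := hall
    obtain ⟨V', hV'⟩ : ∃ V' : Subgroup G, V' = V.map (MulAut.conj x).toMonoidHom := ⟨_, rfl⟩
    rw [← hV'] at hxD
    have hV'P : V' ≤ P₀ := by
      rw [hV']
      rintro _ ⟨v, hv, rfl⟩
      exact (mem_normalizer_iff.1 hx v).1 (hV hv)
    have hPV' : P₀ ≤ Subgroup.normalizer (V' : Set G) := by
      intro s hs
      rw [hV', ← CfsgLib.H7Basic.cj_normalizer]
      have h1 : x⁻¹ * s * x⁻¹⁻¹ ∈ P₀ := (mem_normalizer_iff.1 (inv_mem hx) s).1 hs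
      refine ⟨x⁻¹ * s * x⁻¹⁻¹, hVn h1, ?_⟩
      show x * (x⁻¹ * s * x⁻¹⁻¹) * x⁻¹ = s
      group
    obtain ⟨C, hC⟩ : ∃ C : Subgroup G, C = N ⊓ Subgroup.centralizer (D : Set G) := ⟨_, rfl⟩
    obtain ⟨U, hU⟩ : ∃ U : Subgroup G, U = V' ⊓ Subgroup.normalizer (D : Set G) := ⟨_, rfl⟩
    have hCn : ∀ y ∈ Subgroup.normalizer (D : Set G), y ∈ Subgroup.normalizer (C : Set G) := by
      intro y hy
      apply CfsgLib.H7Basic.mem_normalizer_of_conj_mem
      intro c hc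
      rw [hC] at hc ⊢
      have hc' := mem_inf.1 hc
      exact mem_inf.2 ⟨hN.conj_mem c hc'.1 y, conj_cent hy hc'.2⟩
    have hUC : U ≤ Subgroup.normalizer (C : Set G) := fun u hu => hCn u (by rw [hU] at hu; exact (mem_inf.1 hu).2)
    have hUP : U ≤ P₀ := by rw [hU]; exact inf_le_left.trans hV'P
    refine ⟨C ⊔ U, ?_, ?_, ?_, ?_⟩
    · apply sup_le
      · rw [hC]; exact inf_le_inf_left _ (Subgroup.centralizer_le_normalizer (s := (D : Set G)))
      · rw [hU]; exact inf_le_inf (hV'P.trans hP₀.1) le_rfl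
    · intro y hy
      have hy' := mem_inf.1 hy
      obtain ⟨h, hh, c, hc, rfl⟩ := hfac x hx y hy
      rw [← hV'] at hh
      have hcN : c ∈ Subgroup.normalizer (D : Set G) := Subgroup.centralizer_le_normalizer (s := (D : Set G)) (mem_inf.1 hc).2
      have hhN : h ∈ Subgroup.normalizer (D : Set G) := by
        have := mul_mem hy'.2 (inv_mem hcN)
        simpa using this
      refine mul_mem ?_ ?_
      · apply sup_norm (hCn h hhN)
        rw [hU]
        apply CfsgLib.H7Basic.mem_normalizer_of_conj_mem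
        intro u hu
        have hu' := mem_inf.1 hu
        exact mem_inf.2 ⟨(mem_normalizer_iff.1 hh u).1 hu'.1, mul_mem (mul_mem hhN hu'.2) (inv_mem hhN)⟩
      · apply Subgroup.le_normalizer
        apply mem_sup_left
        rw [hC]; exact hc
    · intro hcon
      apply hxD
      by_contra hVD
      have hlt : D < V' ⊔ D := lt_of_le_of_ne le_sup_right (fun h => hVD (by rw [h]; exact le_sup_left))
      have hADp : IsPGroup p (V' ⊔ D : Subgroup G) := hP₀.isPGroup.to_le (sup_le hV'P hD)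
      obtain ⟨y, hy, hyD⟩ := SetLike.exists_of_lt (exists_normalizer_gt hADp hlt)
      have hy' := mem_inf.1 hy
      obtain ⟨a, ha, d, hd, rfl⟩ := CfsgLib.H9SC.mem_sup_norm (hD.trans hPV') hy'.1
      have haD : a ∉ D := fun h => hyD (D.mul_mem h hd)
      apply haD
      apply hcon
      refine mem_inf.2 ⟨hV'P ha, mem_sup_right ?_⟩
      rw [hU]
      refine mem_inf.2 ⟨ha, ?_⟩
      have := mul_mem hy'.2 (inv_mem (Subgroup.le_normalizer hd))
      simpa using this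
    · intro k hk
      obtain ⟨c, hc, u, hu, hcu⟩ := CfsgLib.H9SC.mem_sup_norm hUC hk
      refine ⟨c, ?_, u, mem_inf.2 ⟨hUP hu, mem_sup_right hu⟩, hcu.symm⟩
      rw [hC] at hc
      exact (mem_inf.1 hc).2

/-- Step B: fusion by elements of `N` -/
theorem stepB {N P₀ W A : Subgroup G} [hN : N.Normal] (hP₀ : IsSyl p P₀ N) (hAp : IsPGroup p A) (hAP₀ : A ≤ Subgroup.normalizer (P₀ : Set G))
    (hWM : Subgroup.normalizer (P₀ : Set G) ≤ Subgroup.normalizer (W : Set G))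
    (hin : ∀ (B : Set G) (g : G), g ∈ N → B ⊆ (P₀ : Set G) → (∀ a ∈ B, g⁻¹ * a * g ∈ P₀) →
      ∃ m ∈ Subgroup.normalizer (W : Set G) ⊓ N, ∀ a ∈ B, g⁻¹ * a * g = m⁻¹ * a * m)
    (n : G) (hn : n ∈ N) (hAn : ∀ a ∈ A, n⁻¹ * a * n ∈ P₀ ⊔ A) :
    ∃ m ∈ Subgroup.normalizer (W : Set G), ∀ a ∈ A, n⁻¹ * a * n = m⁻¹ * a * m := by
  have hPY : IsSyl p (P₀ ⊔ A) (N ⊔ A) := syl_sup' hP₀ hAp hAP₀
  obtain ⟨P, hP⟩ : ∃ P : Subgroup G, P = P₀ ⊔ A := ⟨_, rfl⟩
  obtain ⟨Y, hY⟩ : ∃ Y : Subgroup G, Y = N ⊔ A := ⟨_, rfl⟩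
  rw [← hP, ← hY] at hPY
  rw [← hP] at hAn
  have hNY : N ≤ Y := by rw [hY]; exact le_sup_left
  have hPM : P ≤ Subgroup.normalizer (P₀ : Set G) := by rw [hP]; exact sup_le Subgroup.le_normalizer hAP₀
  have hPW : P ≤ Subgroup.normalizer (W : Set G) := hPM.trans hWM
  have hP₀P : P₀ ≤ P := by rw [hP]; exact le_sup_left
  have hPN : P ⊓ N = P₀ :=
    (isSyl_iff_isSylowIn.1 hP₀).eq_of_le inf_le_right (hPY.isPGroup.to_le inf_le_left) (le_inf hP₀P hP₀.1)
  obtain ⟨m, hm, hma⟩ := ag_relp hPY (Subgroup.normalizer (W : Set G)) (fun B => Y ≤ N ⊔ closure B) (by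
    intro B B' hBB' _ h
    exact h.trans (sup_le_sup_left (Subgroup.closure_mono hBB') N)) (by
    intro B x _ hx h y hy
    have h1 : x * y * x⁻¹ ∈ Y := Y.mul_mem (Y.mul_mem hx hy) (Y.inv_mem hx)
    have h2 := h h1
    obtain ⟨m, hm, b, hb, hmb⟩ := Subgroup.mem_sup_of_normal_left.1 h2
    have h3 : y = (x⁻¹ * m * x) * (x⁻¹ * b * x) := by
      have : y = x⁻¹ * (x * y * x⁻¹) * x := by group
      rw [this, ← hmb]; group
    rw [h3]
    refine mul_mem_sup ?_ ?_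
    · have := hN.conj_mem m hm x⁻¹
      simpa using this
    · have h4 : (closure B).map (MulAut.conj x⁻¹).toMonoidHom ≤ closure (cj x B) := by
        rw [MonoidHom.map_closure, closure_le]
        rintro _ ⟨c, hc, rfl⟩
        apply Subgroup.subset_closure
        refine ⟨c, hc, ?_⟩
        show x⁻¹ * c * x = x⁻¹ * c * x⁻¹⁻¹
        rw [inv_inv]
      have h5 := h4 ⟨b, hb, rfl⟩
      have h6 : (MulAut.conj x⁻¹).toMonoidHom b = x⁻¹ * b * x := by
        show x⁻¹ * b * x⁻¹⁻¹ = _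
        rw [inv_inv]
      rwa [h6] at h5) (by
    intro D hDP hΨ hsyl
    have hYD : Y ≤ N ⊔ D := by
      have : closure (D : Set G) = D := Subgroup.closure_eq D
      rw [this] at hΨ
      exact hΨ
    obtain ⟨D₀, hD₀⟩ : ∃ D₀ : Subgroup G, D₀ = D ⊓ N := ⟨_, rfl⟩
    have hD₀D : D₀ ≤ D := by rw [hD₀]; exact inf_le_left
    have hD₀P : D₀ ≤ P₀ := by rw [hD₀, ← hPN]; exact inf_le_inf_right N hDP
    have hDp : IsPGroup p D := hPY.isPGroup.to_le hDP
    have hD₀n : Subgroup.normalizer (D : Set G) ≤ Subgroup.normalizer (D₀ : Set G) := by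
      intro y hy
      apply CfsgLib.H7Basic.mem_normalizer_of_conj_mem
      intro d hd
      rw [hD₀] at hd ⊢
      have hd' := mem_inf.1 hd
      exact mem_inf.2 ⟨(mem_normalizer_iff.1 hy d).1 hd'.1, hN.conj_mem d hd'.2 y⟩
    obtain ⟨L, hL⟩ : ∃ L : Subgroup G, L = N ⊓ Subgroup.centralizer (D₀ : Set G) := ⟨_, rfl⟩
    have hLn : Subgroup.normalizer (D : Set G) ≤ Subgroup.normalizer (L : Set G) := by
      intro y hy
      apply CfsgLib.H7Basic.mem_normalizer_of_conj_mem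
      intro c hc
      rw [hL] at hc ⊢
      have hc' := mem_inf.1 hc
      exact mem_inf.2 ⟨hN.conj_mem c hc'.1 y, conj_cent (hD₀n hy) hc'.2⟩
    obtain ⟨K, hK⟩ : ∃ K : Subgroup G, K = L ⊓ Subgroup.normalizer (D : Set G) := ⟨_, rfl⟩
    have hKL : K ≤ L := by rw [hK]; exact inf_le_left
    have hKD : K ≤ Subgroup.normalizer (D : Set G) := by rw [hK]; exact inf_le_right
    have hLN : L ≤ N := by rw [hL]; exact inf_le_left
    have hKY : K ≤ Y ⊓ Subgroup.normalizer (D : Set G) := le_inf ((hKL.trans hLN).trans hNY) hKD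
    have hKn : Y ⊓ Subgroup.normalizer (D : Set G) ≤ Subgroup.normalizer (K : Set G) := by
      intro y hy
      have hy' := mem_inf.1 hy
      apply CfsgLib.H7Basic.mem_normalizer_of_conj_mem
      intro k hk
      rw [hK] at hk ⊢
      have hk' := mem_inf.1 hk
      exact mem_inf.2 ⟨(mem_normalizer_iff.1 (hLn hy'.2) k).1 hk'.1, mul_mem (mul_mem hy'.2 hk'.2) (inv_mem hy'.2)⟩
    have hKc : ∀ k ∈ K, ∀ d ∈ D₀, k * d = d * k := by
      intro k hk d hd
      have := hKL hk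
      rw [hL] at this
      exact (mem_centralizer_iff.1 (mem_inf.1 this).2 d hd).symm
    have hsplit := stab_split (p := p) hDP hD₀D hsyl hKY hKn (by
      intro k hk d hd
      rw [hD₀]
      refine mem_inf.2 ⟨D.mul_mem ((mem_normalizer_iff.1 (hKD hk) d).1 hd) (D.inv_mem hd), ?_⟩
      have h1 : k * d * k⁻¹ * d⁻¹ = k * (d * k⁻¹ * d⁻¹) := by group
      rw [h1]
      exact N.mul_mem (hLN (hKL hk)) (hN.conj_mem _ (N.inv_mem (hLN (hKL hk))) d)) hKc
    by_cases hPK : P ⊓ K ≤ D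
    · left
      -- Sylow in `K`
      have hsK : IsSyl p (P ⊓ K) K := by
        have hs := IsSyl.inf_normal hsyl hKY hKn
        have hR : P ⊓ Subgroup.normalizer (D : Set G) ⊓ K = P ⊓ K := by
          apply le_antisymm
          · exact le_inf (inf_le_left.trans inf_le_left) inf_le_right
          · exact le_inf (le_inf inf_le_left (inf_le_right.trans hKD)) inf_le_right
        rwa [hR] at hs
      have hPKD₀ : P ⊓ K ≤ D₀ := by
        rw [hD₀]
        exact le_inf hPK (inf_le_right.trans (hKL.trans hLN))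
      have hDL : D ≤ Subgroup.normalizer (L : Set G) := Subgroup.le_normalizer.trans hLn
      -- `D` is Sylow in `L D`
      have hDsyl : IsSyl p D (L ⊔ D) := by
        obtain ⟨R, hR, hDR⟩ := CfsgLib.Coprime.exists_isSyl_ge (p := p) (K := L ⊔ D) (U := D) le_sup_right hDp
        rcases eq_or_lt_of_le hDR with h | hlt
        · rw [h]; rw [← h]; rw [← h] at hR; exact hR
        · exfalso
          obtain ⟨y, hy, hyD⟩ := SetLike.exists_of_lt (exists_normalizer_gt hR.isPGroup hlt)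
          have hy' := mem_inf.1 hy
          obtain ⟨l, hl, d, hd, rfl⟩ := CfsgLib.H9SC.mem_sup_norm hDL (hR.1 hy'.1)
          have hlD : l ∉ D := fun h => hyD (D.mul_mem h hd)
          apply hlD
          have hlR : l ∈ R := by
            have := R.mul_mem hy'.1 (R.inv_mem (hDR hd)); simpa using this
          have hlK : l ∈ K := by
            rw [hK]
            refine mem_inf.2 ⟨hl, ?_⟩
            have := mul_mem hy'.2 (inv_mem (Subgroup.le_normalizer hd)); simpa using this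
          have hle : P ⊓ K ≤ R ⊓ K := le_inf (hPKD₀.trans (hD₀D.trans hDR)) inf_le_right
          have heq := (isSyl_iff_isSylowIn.1 hsK).eq_of_le inf_le_right (hR.isPGroup.to_le inf_le_left) hle
          exact hPK (heq ▸ mem_inf.2 ⟨hlR, hlK⟩)
      intro x hx
      have hx' := mem_inf.1 hx
      obtain ⟨n₁, hn₁, d₁, hd₁, rfl⟩ := Subgroup.mem_sup_of_normal_left.1 (hYD hx'.1)
      have hn₁D : n₁ ∈ Subgroup.normalizer (D : Set G) := by
        have := mul_mem hx'.2 (inv_mem (Subgroup.le_normalizer hd₁)); simpa using this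
      suffices hs : ∃ m ∈ Subgroup.normalizer (W : Set G) ⊓ Y, ∀ d ∈ D, n₁⁻¹ * d * n₁ = m⁻¹ * d * m by
        obtain ⟨m, hm, hmd⟩ := hs
        have hm' := mem_inf.1 hm
        refine ⟨m * d₁, mem_inf.2 ⟨mul_mem hm'.1 (hPW (hDP hd₁)), Y.mul_mem hm'.2 (hPY.1 (hDP hd₁))⟩, ?_⟩
        intro d hd
        calc (n₁ * d₁)⁻¹ * d * (n₁ * d₁) = d₁⁻¹ * (n₁⁻¹ * d * n₁) * d₁ := by group
          _ = (m * d₁)⁻¹ * d * (m * d₁) := by rw [hmd d hd]; group
      obtain ⟨h, hh, hhd⟩ := hin (D₀ : Set G) n₁ hn₁ hD₀P (by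
        intro d hd
        have := (mem_normalizer_iff.1 (inv_mem (hD₀n hn₁D)) d).1 hd
        rw [inv_inv] at this
        exact hD₀P this)
      have hh' := mem_inf.1 hh
      obtain ⟨c, hc⟩ : ∃ c, c = n₁ * h⁻¹ := ⟨_, rfl⟩
      have hcL : c ∈ L := by
        rw [hL]
        refine mem_inf.2 ⟨by rw [hc]; exact N.mul_mem hn₁ (N.inv_mem hh'.2), ?_⟩
        rw [mem_centralizer_iff]
        intro d hd
        have h1 := hhd d hd
        have h2 : n₁ * (n₁⁻¹ * d * n₁) * h⁻¹ = n₁ * (h⁻¹ * d * h) * h⁻¹ := by rw [h1]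
        rw [hc]
        calc d * (n₁ * h⁻¹) = n₁ * (n₁⁻¹ * d * n₁) * h⁻¹ := by group
          _ = n₁ * h⁻¹ * d := by rw [h2]; group
      have hcW : ∀ d ∈ D, c⁻¹ * d * c ∈ Subgroup.normalizer (W : Set G) := by
        intro d hd
        have h1 : c⁻¹ * d * c = h * (n₁⁻¹ * d * n₁) * h⁻¹ := by rw [hc]; group
        rw [h1]
        refine mul_mem (mul_mem hh'.1 (hPW (hDP ?_))) (inv_mem hh'.1)
        have := (mem_normalizer_iff.1 (inv_mem hn₁D) d).1 hd
        rwa [inv_inv] at this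
      have hcLD : ∀ d ∈ D, c⁻¹ * d * c ∈ L ⊔ D := by
        intro d hd
        have h1 : c⁻¹ * d * c = (c⁻¹ * (d * c * d⁻¹)) * d := by group
        rw [h1]
        exact mul_mem_sup (L.mul_mem (L.inv_mem hcL) ((mem_normalizer_iff.1 (hDL hd) c).1 hcL)) hd
      have hDB : IsSyl p D ((L ⊔ D) ⊓ Subgroup.normalizer (W : Set G)) :=
        IsSyl.of_le' hDsyl (le_inf le_sup_right (hDP.trans hPW)) inf_le_left
      obtain ⟨b, hb, hbd⟩ := (isSyl_iff_isSylowIn.1 hDB).exists_conj (T := D.map (MulAut.conj c⁻¹).toMonoidHom) (by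
        rintro _ ⟨d, hd, rfl⟩
        have h1 : (MulAut.conj c⁻¹).toMonoidHom d = c⁻¹ * d * c := by
          show c⁻¹ * d * c⁻¹⁻¹ = _
          rw [inv_inv]
        rw [h1]
        exact mem_inf.2 ⟨hcLD d hd, hcW d hd⟩) (hDp.map _)
      have hb' := mem_inf.1 hb
      obtain ⟨d₂, hd₂, l, hl, hdl⟩ := (CfsgLib.Coprime.mem_sup_iff' hDL b).1 hb'.1
      have hlW : l ∈ Subgroup.normalizer (W : Set G) := by
        have : l = d₂⁻¹ * b := by rw [← hdl]; group
        rw [this]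
        exact mul_mem (inv_mem (hPW (hDP hd₂))) hb'.2
      obtain ⟨e, he⟩ : ∃ e, e = c * l⁻¹ := ⟨_, rfl⟩
      have heD : e ∈ Subgroup.normalizer (D : Set G) := by
        have h1 : e⁻¹ ∈ Subgroup.normalizer (D : Set G) := by
          apply CfsgLib.H7Basic.mem_normalizer_of_conj_mem
          intro d hd
          have h2 := hbd _ ⟨d, hd, rfl⟩
          have h3 : b * (MulAut.conj c⁻¹).toMonoidHom d * b⁻¹ = d₂ * (e⁻¹ * d * e⁻¹⁻¹) * d₂⁻¹ := by
            show b * (c⁻¹ * d * c⁻¹⁻¹) * b⁻¹ = _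
            rw [← hdl, he]; group
          rw [h3] at h2
          have h4 := D.mul_mem (D.mul_mem (D.inv_mem hd₂) h2) hd₂
          have h5 : d₂⁻¹ * (d₂ * (e⁻¹ * d * e⁻¹⁻¹) * d₂⁻¹) * d₂ = e⁻¹ * d * e⁻¹⁻¹ := by group
          rwa [h5] at h4
        have := inv_mem h1
        rwa [inv_inv] at this
      have heK : e ∈ K := by
        rw [hK]
        exact mem_inf.2 ⟨by rw [he]; exact L.mul_mem hcL (L.inv_mem hl), heD⟩
      obtain ⟨c₃, hc₃, s, hs, hes⟩ := hsplit e heK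
      have hsD := hPK hs
      refine ⟨s * l * h, mem_inf.2 ⟨mul_mem (mul_mem (hPW (hDP hsD)) hlW) hh'.1, ?_⟩, ?_⟩
      · exact Y.mul_mem (Y.mul_mem (hPY.1 (hDP hsD)) (hNY (hLN hl))) (hNY hh'.2)
      · intro d hd
        have h1 : n₁ = c₃ * (s * l * h) := by
          have h2 : n₁ = e * l * h := by rw [he, hc]; group
          rw [h2, hes]; group
        have h2 : c₃⁻¹ * d * c₃ = d := by
          rw [mul_assoc, mem_centralizer_iff.1 hc₃ d hd]; group
        rw [h1]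
        calc (c₃ * (s * l * h))⁻¹ * d * (c₃ * (s * l * h)) = (s * l * h)⁻¹ * (c₃⁻¹ * d * c₃) * (s * l * h) := by group
          _ = (s * l * h)⁻¹ * d * (s * l * h) := by rw [h2]
    · right
      exact ⟨K, hKY, hKn, hPK, hsplit⟩) (A : Set G) n (by
      show Y ≤ N ⊔ closure (A : Set G)
      rw [Subgroup.closure_eq, hY]) (hNY hn) (by
      intro a ha
      rw [hP]; exact mem_sup_right ha) hAn
  exact ⟨m, (mem_inf.1 hm).1, hma⟩

theorem s1954 (N : Subgroup G) [hN : N.Normal] (P : Sylow p G) (V : Subgroup G)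
    (hV : V ≤ (P : Subgroup G) ⊓ N) (hVn : ∀ x ∈ (P : Subgroup G) ⊓ N, V.map (MulAut.conj x).toMonoidHom = V)
    (hctrl : ∀ A : Subgroup G, A ≤ (P : Subgroup G) ⊓ N → ∀ n ∈ N, A.map (MulAut.conj n).toMonoidHom ≤ (P : Subgroup G) ⊓ N →
      ∃ h ∈ N ⊓ Subgroup.normalizer (V : Set G), ∃ c ∈ N ⊓ Subgroup.centralizer (A : Set G), n = h * c)
    (W : Subgroup G) (hW : W = Subgroup.closure (⋃ x ∈ Subgroup.normalizer (((P : Subgroup G) ⊓ N : Subgroup G) : Set G),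
      ((V.map (MulAut.conj x).toMonoidHom : Subgroup G) : Set G))) :
    ∀ A : Subgroup G, A ≤ (P : Subgroup G) → ∀ g : G, A.map (MulAut.conj g).toMonoidHom ≤ (P : Subgroup G) →
        ∃ h ∈ Subgroup.normalizer (W : Set G), ∃ c ∈ Subgroup.centralizer (A : Set G), g = h * c := by
  obtain ⟨P₀, hP₀⟩ : ∃ P₀ : Subgroup G, P₀ = (P : Subgroup G) ⊓ N := ⟨_, rfl⟩
  have hP₀s : IsSyl p P₀ N := by
    rw [hP₀]
    have h1 : IsSyl p (P : Subgroup G) ⊤ := isSyl_top_iff.2 ⟨P, rfl⟩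
    exact IsSyl.inf_normal h1 le_top (by rw [Subgroup.normalizer_eq_top])
  rw [← hP₀] at hV hVn hctrl hW
  have hPM : (P : Subgroup G) ≤ Subgroup.normalizer (P₀ : Set G) := by
    intro x hx
    apply CfsgLib.H7Basic.mem_normalizer_of_conj_mem
    intro a ha
    rw [hP₀] at ha ⊢
    have ha' := mem_inf.1 ha
    exact mem_inf.2 ⟨mul_mem (mul_mem hx ha'.1) (inv_mem hx), hN.conj_mem a ha'.2 x⟩
  have hWc : ∀ y : G, (∀ x ∈ Subgroup.normalizer (P₀ : Set G), ∃ x' ∈ Subgroup.normalizer (P₀ : Set G), (V.map (MulAut.conj x).toMonoidHom).map (MulAut.conj y).toMonoidHom ≤ V.map (MulAut.conj x').toMonoidHom) → y ∈ Subgroup.normalizer (W : Set G) := by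
    intro y hy
    apply CfsgLib.H7Basic.mem_normalizer_of_cj_le
    rw [hW, MonoidHom.map_closure, closure_le]
    rintro _ ⟨w, hw, rfl⟩
    simp only [Set.mem_iUnion] at hw
    obtain ⟨x, hx, hwx⟩ := hw
    obtain ⟨x', hx', hle⟩ := hy x hx
    apply Subgroup.subset_closure
    simp only [Set.mem_iUnion]
    exact ⟨x', hx', hle ⟨w, hwx, rfl⟩⟩
  have hWM : Subgroup.normalizer (P₀ : Set G) ≤ Subgroup.normalizer (W : Set G) := by
    intro y hy
    apply hWc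
    intro x hx
    refine ⟨y * x, mul_mem hy hx, ?_⟩
    rw [CfsgLib.H7Basic.cj_cj]
  have hin := inner_ctrl (N := N) (V := V) (W := W) hP₀s hV (by
    intro x hx
    rw [← CfsgLib.H7Basic.cj_eq_self_iff]
    exact hVn x hx) hctrl (by
    intro y hy
    apply hWc
    intro x hx
    refine ⟨x, hx, ?_⟩
    have := hy x hx
    rw [← CfsgLib.H7Basic.cj_eq_self_iff] at this
    exact this.le)
  -- right-conjugation version
  have key : ∀ A : Subgroup G, A ≤ (P : Subgroup G) → ∀ g : G, (∀ a ∈ A, g⁻¹ * a * g ∈ (P : Subgroup G)) →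
      ∃ m ∈ Subgroup.normalizer (W : Set G), ∀ a ∈ A, g⁻¹ * a * g = m⁻¹ * a * m := by
    intro A hA g hg
    have hfr := IsSyl.frattini hP₀s (le_top : N ≤ ⊤) (by rw [Subgroup.normalizer_eq_top])
    obtain ⟨n, hn, m, hm, rfl⟩ := Subgroup.mem_sup_of_normal_left.1 (hfr (mem_top g))
    have hm' : m ∈ Subgroup.normalizer (P₀ : Set G) := (mem_inf.1 hm).2
    have hAp : IsPGroup p A := P.isPGroup'.to_le hA
    have hPY : IsSyl p (P₀ ⊔ A) (N ⊔ A) := syl_sup' hP₀s hAp (hA.trans hPM)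
    have hPYM : IsSyl p (P₀ ⊔ A) ((N ⊔ A) ⊓ Subgroup.normalizer (P₀ : Set G)) :=
      IsSyl.of_le' hPY (le_inf hPY.1 (sup_le Subgroup.le_normalizer (hA.trans hPM))) inf_le_left
    obtain ⟨k, hk, hkd⟩ := (isSyl_iff_isSylowIn.1 hPYM).exists_conj (T := A.map (MulAut.conj n⁻¹).toMonoidHom) (by
      rintro _ ⟨a, ha, rfl⟩
      have h1 : (MulAut.conj n⁻¹).toMonoidHom a = n⁻¹ * a * n := by
        show n⁻¹ * a * n⁻¹⁻¹ = _
        rw [inv_inv]
      rw [h1]
      refine mem_inf.2 ⟨?_, ?_⟩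
      · exact mul_mem (mul_mem (inv_mem (mem_sup_left hn)) (mem_sup_right ha)) (mem_sup_left hn)
      · have h2 : n⁻¹ * a * n = m * ((n * m)⁻¹ * a * (n * m)) * m⁻¹ := by group
        rw [h2]
        exact mul_mem (mul_mem hm' (hPM (hg a ha))) (inv_mem hm')) (hAp.map _)
    have hk' := mem_inf.1 hk
    have hk1 := hk'.1
    rw [sup_comm] at hk1
    obtain ⟨a₀, ha₀, n₁, hn₁, han⟩ := Subgroup.mem_sup_of_normal_right.1 hk1
    have hn₁M : n₁ ∈ Subgroup.normalizer (P₀ : Set G) := by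
      have : n₁ = a₀⁻¹ * k := by rw [← han]; group
      rw [this]
      exact mul_mem (inv_mem (hPM (hA ha₀))) hk'.2
    have h1 : ∀ a ∈ A, (n * n₁⁻¹)⁻¹ * a * (n * n₁⁻¹) ∈ P₀ ⊔ A := by
      intro a ha
      have h2 := hkd _ ⟨a, ha, rfl⟩
      have h3 : k * (MulAut.conj n⁻¹).toMonoidHom a * k⁻¹ = a₀ * ((n * n₁⁻¹)⁻¹ * a * (n * n₁⁻¹)) * a₀⁻¹ := by
        show k * (n⁻¹ * a * n⁻¹⁻¹) * k⁻¹ = _
        rw [← han]; group
      rw [h3] at h2
      have ha₀' : a₀ ∈ P₀ ⊔ A := mem_sup_right ha₀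
      have h4 := mul_mem (mul_mem (inv_mem ha₀') h2) ha₀'
      have h5 : a₀⁻¹ * (a₀ * ((n * n₁⁻¹)⁻¹ * a * (n * n₁⁻¹)) * a₀⁻¹) * a₀ = (n * n₁⁻¹)⁻¹ * a * (n * n₁⁻¹) := by group
      rwa [h5] at h4
    obtain ⟨m₂, hm₂, hm₂a⟩ := stepB (W := W) hP₀s hAp (hA.trans hPM) hWM hin (n * n₁⁻¹) (N.mul_mem hn (N.inv_mem hn₁)) h1
    refine ⟨m₂ * (n₁ * m), mul_mem hm₂ (mul_mem (hWM hn₁M) (hWM hm')), ?_⟩
    intro a ha
    calc (n * m)⁻¹ * a * (n * m) = (n₁ * m)⁻¹ * ((n * n₁⁻¹)⁻¹ * a * (n * n₁⁻¹)) * (n₁ * m) := by group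
      _ = (m₂ * (n₁ * m))⁻¹ * a * (m₂ * (n₁ * m)) := by rw [hm₂a a ha]; group
  intro A hA g hg
  obtain ⟨m, hm, hma⟩ := key A hA g⁻¹ (by
    intro a ha
    rw [inv_inv]
    exact hg ⟨a, ha, rfl⟩)
  refine ⟨m⁻¹, inv_mem hm, m * g, ?_, by group⟩
  rw [mem_centralizer_iff]
  intro a ha
  have h1 := hma a ha
  rw [inv_inv] at h1
  calc a * (m * g) = m * (m⁻¹ * a * m) * g := by group
    _ = m * g * a := by rw [← h1]; group

end CfsgLib.H6AG
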