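import Cfsg.Agent.Lib.H6AG2
import Cfsg.Agent.Lib.PGrp
import Cfsg.Agent.Lib.H9SC

/-! S3053: extraspecial Sylow `p`-subgroups of order `p³` and exponent `p²`. -/

set_option autoImplicit false
set_option linter.style.haveILetI false

open Subgroup
open scoped commutatorElement Pointwise

namespace CfsgLib.H6AG

open CfsgLib.Coprime CfsgLib.SylBridge CfsgLib.Alperin CfsgLib.H6Gl

universe u v
variable {G : Type u} [Group G] [Finite G] {p : ℕ} [hp : Fact p.Prime]

/-- the `p`-th power map of an extraspecial group -/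
theorem extra_facts (hp2 : p ≠ 2) {P : Type u} [Group P] [Finite P] (hE : Cfsg.IsExtraspecial p P) (hcard : Nat.card P = p ^ 3)
    (hexp : Monoid.exponent P = p ^ 2) :
    (∀ x y : P, (x * y) ^ p = x ^ p * y ^ p) ∧ (∀ x : P, x ^ p ∈ center P) ∧ (∀ z ∈ center P, z ^ p = 1) ∧ (∃ x : P, x ^ p ≠ 1) ∧
      ∃ E : Subgroup P, Nat.card E = p ^ 2 ∧ ∀ x, x ∈ E ↔ x ^ p = 1 := by
  have hZp : ∀ z ∈ center P, z ^ p = 1 := by
    intro z hz
    have := Subgroup.orderOf_dvd_natCard (center P) hz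
    rw [hE.2] at this
    exact orderOf_dvd_iff_pow_eq_one.1 this
  have hcm : ∀ x y : P, x * y * x⁻¹ * y⁻¹ ∈ center P := by
    intro x y
    rw [← hE.1.2.2]
    exact Subgroup.commutator_mem_commutator (mem_top x) (mem_top y)
  have hmul : ∀ x y : P, (x * y) ^ p = x ^ p * y ^ p := by
    intro x y
    apply CfsgLib.PGrp.mul_pow_prime_of_class_two hp2
    · exact (mem_center_iff.1 (hcm y x) x).symm
    · exact (mem_center_iff.1 (hcm y x) y).symm
    · exact hZp _ (hcm y x)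
  have hpow : ∀ x : P, x ^ p ∈ center P := by
    intro x
    rw [mem_center_iff]
    intro y
    have h1 : (y * x * y⁻¹) ^ p = x ^ p := by
      have h2 : y * x * y⁻¹ = (y * x * y⁻¹ * x⁻¹) * x := by group
      rw [h2, hmul, hZp _ (hcm y x), one_mul]
    rw [conj_pow] at h1
    calc y * x ^ p = (y * x ^ p * y⁻¹) * y := by group
      _ = x ^ p * y := by rw [h1]
  have hex : ∃ x : P, x ^ p ≠ 1 := by
    by_contra hcon
    push Not at hcon
    have h1 := Monoid.exponent_dvd_of_forall_pow_eq_one hcon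
    rw [hexp] at h1
    have h2 := Nat.le_of_dvd hp.out.pos h1
    have := hp.out.one_lt
    nlinarith
  refine ⟨hmul, hpow, hZp, hex, ?_⟩
  let π : P →* P := MonoidHom.mk' (fun x => x ^ p) hmul
  refine ⟨π.ker, ?_, fun x => MonoidHom.mem_ker⟩
  have h1 := Subgroup.card_mul_index π.ker
  rw [Subgroup.index_ker, hcard] at h1
  have h2 : Nat.card π.range ∣ p := by
    rw [← hE.2]
    apply Subgroup.card_dvd_of_le
    rintro _ ⟨x, rfl⟩
    exact hpow x
  have h3 : Nat.card π.range = p := by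
    rcases (Nat.dvd_prime hp.out).1 h2 with h | h
    · exfalso
      obtain ⟨x, hx⟩ := hex
      have h4 := Subgroup.card_eq_one.1 h
      have h5 : x ^ p ∈ π.range := ⟨x, rfl⟩
      rw [h4, mem_bot] at h5
      exact hx h5
    · exact h
  rw [h3] at h1
  have : Nat.card π.ker * p = p ^ 2 * p := by rw [h1]; ring
  exact Nat.eq_of_mul_eq_mul_right hp.out.pos this

/-- a subgroup strictly between is everything -/
theorem eq_of_prime_index {A B C : Subgroup G} (hAB : A < B) (hBC : B ≤ C) {n : ℕ} (hA : Nat.card A = p ^ n) (hC : Nat.card C = p ^ (n + 1)) : B = C := by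
  apply Subgroup.eq_of_le_of_card_ge hBC
  have h1 := Subgroup.card_dvd_of_le hBC
  rw [hC] at h1
  obtain ⟨m, hm, hBm⟩ := (Nat.dvd_prime_pow hp.out).1 h1
  have h2 : Nat.card A < Nat.card B := by
    rcases lt_or_ge (Nat.card A) (Nat.card B) with h | h
    · exact h
    · exact absurd (Subgroup.eq_of_le_of_card_ge hAB.le h) hAB.ne
  rw [hA, hBm] at h2
  have h3 := (Nat.pow_lt_pow_iff_right hp.out.one_lt).1 h2
  have h4 : m = n + 1 := by omega
  rw [hC, hBm, h4]

/-- the inverting element -/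
theorem invert_elt {z z' u v : G} (hzz : Commute z z') {a b k : ℕ} (hzp : z ^ p = 1) (hz'p : z' ^ p = 1)
    (hu : u * z = z * u) (hu' : u * z' * u⁻¹ = z' * z ^ a) (hv' : v * z' = z' * v) (hv : v * z * v⁻¹ = z * z' ^ b) (hk : p ∣ k * a * b + 1) :
    ∃ w : G, (w = u ^ k * v * u ^ k * (u ^ k * v * u ^ k)) ∧ w * z * w⁻¹ = z⁻¹ ∧ w * z' * w⁻¹ = z'⁻¹ := by
  have f1 : MulAut.conj (u ^ k) z = z := by
    rw [MulAut.conj_apply]
    have : u ^ k * z = z * u ^ k := ((show Commute u z from hu).pow_left k).eq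
    rw [this, mul_inv_cancel_right]
  have f2 : MulAut.conj (u ^ k) z' = z' * z ^ (k * a) := by
    clear hk f1
    induction k with
    | zero => simp
    | succ k ih =>
      have h1 : MulAut.conj (u ^ (k + 1)) z' = u ^ k * (u * z' * u⁻¹) * (u ^ k)⁻¹ := by
        rw [MulAut.conj_apply, pow_succ]; group
      have f1' : u ^ k * z = z * u ^ k := ((show Commute u z from hu).pow_left k).eq
      have f1'' : u ^ k * z ^ a = z ^ a * u ^ k := ((show Commute (u ^ k) z from f1').pow_right a).eq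
      rw [MulAut.conj_apply] at ih
      rw [h1, hu']
      calc u ^ k * (z' * z ^ a) * (u ^ k)⁻¹ = u ^ k * z' * (z ^ a * (u ^ k)⁻¹) := by group
        _ = (u ^ k * z' * (u ^ k)⁻¹) * ((u ^ k * z ^ a) * (u ^ k)⁻¹) := by group
        _ = z' * z ^ (k * a) * z ^ a := by rw [ih, f1'']; group
        _ = z' * z ^ ((k + 1) * a) := by rw [mul_assoc, ← pow_add, Nat.succ_mul]
  have g1 : MulAut.conj v z = z * z' ^ b := hv
  have g2 : MulAut.conj v z' = z' := by
    rw [MulAut.conj_apply, hv', mul_inv_cancel_right]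
  obtain ⟨w, hw⟩ : ∃ w, w = u ^ k * v * u ^ k := ⟨_, rfl⟩
  have hconj : ∀ e, MulAut.conj w e = MulAut.conj (u ^ k) (MulAut.conj v (MulAut.conj (u ^ k) e)) := by
    intro e
    rw [hw, map_mul, map_mul]; rfl
  obtain ⟨j, hj⟩ := hk
  have e1 : z ^ (k * a * b + 1) = 1 := by rw [hj, pow_mul, hzp, one_pow]
  have e2 : z' ^ (k * a * b + 1) = 1 := by rw [hj, pow_mul, hz'p, one_pow]
  have w12 : MulAut.conj w z = z' ^ b ∧ MulAut.conj w z' = z ^ (k * a) := by
    rw [hconj, hconj]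
    generalize MulAut.conj (u ^ k) = U at *
    generalize MulAut.conj v = V at *
    constructor
    · rw [f1, g1, map_mul, map_pow, f1, f2, (hzz.symm.pow_right _).mul_pow, ← pow_mul]
      calc z * (z' ^ b * z ^ (k * a * b)) = z' ^ b * (z * z ^ (k * a * b)) := by
            rw [← mul_assoc, (hzz.pow_right b).eq, mul_assoc]
        _ = z' ^ b := by rw [← pow_succ', e1, mul_one]
    · rw [f2, map_mul, map_pow, g1, g2, (hzz.pow_right _).mul_pow, ← pow_mul]
      have h1 : z' * (z ^ (k * a) * z' ^ (b * (k * a))) = z ^ (k * a) * z' ^ (k * a * b + 1) := by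
        rw [← mul_assoc, (hzz.symm.pow_right (k * a)).eq, mul_assoc, ← pow_succ', mul_comm b]
      rw [h1, e2, mul_one, map_pow, f1]
  obtain ⟨w1, w2⟩ := w12
  refine ⟨w * w, by rw [hw], ?_, ?_⟩
  · have h1 : w * w * z * (w * w)⁻¹ = MulAut.conj w (MulAut.conj w z) := by
      rw [MulAut.conj_apply, MulAut.conj_apply]; group
    rw [h1, w1, map_pow, w2, ← pow_mul]
    exact eq_inv_of_mul_eq_one_left (by rw [← pow_succ]; exact e1)
  · have h1 : w * w * z' * (w * w)⁻¹ = MulAut.conj w (MulAut.conj w z') := by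
      rw [MulAut.conj_apply, MulAut.conj_apply]; group
    rw [h1, w2, map_pow, w1, ← pow_mul, mul_comm b]
    exact eq_inv_of_mul_eq_one_left (by rw [← pow_succ]; exact e2)

theorem s3053 (hp2 : p ≠ 2) (P : Sylow p G) (hE : Cfsg.IsExtraspecial p ↥P)
    (hcard : Nat.card P = p ^ 3) (hexp : Monoid.exponent ↥P = p ^ 2) :
    Cfsg.IsStronglyClosed ((Subgroup.center ↥P).map (P : Subgroup G).subtype) (P : Subgroup G) := by
  obtain ⟨hmul', hpow', hZp', ⟨x₀', hx₀'⟩, E', hE'c, hE'm⟩ := extra_facts (p := p) hp2 hE hcard hexp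
  obtain ⟨Z, hZ⟩ : ∃ Z : Subgroup G, Z = (Subgroup.center ↥P).map (P : Subgroup G).subtype := ⟨_, rfl⟩
  obtain ⟨E, hEd⟩ : ∃ E : Subgroup G, E = E'.map (P : Subgroup G).subtype := ⟨_, rfl⟩
  rw [← hZ]
  have hZP : Z ≤ P := by rw [hZ]; exact Subgroup.map_subtype_le _
  have hEP : E ≤ P := by rw [hEd]; exact Subgroup.map_subtype_le _
  have hEm : ∀ x, x ∈ E ↔ x ∈ P ∧ x ^ p = 1 := by
    intro x
    rw [hEd]
    constructor
    · rintro ⟨y, hy, rfl⟩
      exact ⟨y.2, congrArg Subtype.val ((hE'm y).1 hy)⟩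
    · rintro ⟨h1, h2⟩
      exact ⟨⟨x, h1⟩, (hE'm _).2 (Subtype.ext h2), rfl⟩
  have hZm : ∀ x, x ∈ Z ↔ x ∈ P ∧ ∀ y ∈ P, y * x = x * y := by
    intro x
    rw [hZ]
    constructor
    · rintro ⟨y, hy, rfl⟩
      exact ⟨y.2, fun w hw => congrArg Subtype.val (mem_center_iff.1 hy ⟨w, hw⟩)⟩
    · rintro ⟨h1, h2⟩
      refine ⟨⟨x, h1⟩, mem_center_iff.2 ?_, rfl⟩
      intro w
      exact Subtype.ext (h2 w w.2)
  have hmul : ∀ x ∈ P, ∀ y ∈ P, (x * y) ^ p = x ^ p * y ^ p := fun x hx y hy => congrArg Subtype.val (hmul' ⟨x, hx⟩ ⟨y, hy⟩)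
  have hpow : ∀ x ∈ P, x ^ p ∈ Z := by
    intro x hx
    rw [hZ]
    exact ⟨_, hpow' ⟨x, hx⟩, rfl⟩
  have hZp : ∀ z ∈ Z, z ^ p = 1 := by
    rw [hZ]
    rintro _ ⟨z, hz, rfl⟩
    exact congrArg Subtype.val (hZp' z hz)
  have hZE : Z ≤ E := fun z hz => (hEm z).2 ⟨hZP hz, hZp z hz⟩
  have hZc : Nat.card Z = p := by
    rw [hZ, Subgroup.card_map_of_injective (Subgroup.subtype_injective _)]
    exact hE.2
  have hEc : Nat.card E = p ^ 2 := by
    rw [hEd, Subgroup.card_map_of_injective (Subgroup.subtype_injective _)]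
    exact hE'c
  have hp1 := hp.out.one_lt
  obtain ⟨x₀, hx₀P, hx₀⟩ : ∃ x₀ ∈ (P : Subgroup G), x₀ ^ p ≠ 1 := ⟨x₀', x₀'.2, fun h => hx₀' (Subtype.ext h)⟩
  have hx₀E : x₀ ∉ E := fun h => hx₀ ((hEm x₀).1 h).2
  -- `E` is abelian
  have hEab : ∀ a ∈ E, ∀ b ∈ E, a * b = b * a := by
    intro a ha b hb
    haveI : Fact p.Prime := hp
    have h1 : IsMulCommutative E := (IsPGroup.isMulCommutative_of_card_eq_prime_sq (p := p) hEc)
    exact congrArg Subtype.val (h1.is_comm.comm ⟨a, ha⟩ ⟨b, hb⟩)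
  -- generators of `Z`
  have hZgen : ∀ z ∈ Z, z ≠ 1 → ∀ y ∈ Z, ∃ k : ℕ, y = z ^ k := by
    intro z hz hz1 y hy
    have h1 : zpowers z = Z := by
      apply Subgroup.eq_of_le_of_card_ge (zpowers_le.2 hz)
      rw [hZc, Nat.card_zpowers]
      have h2 := Subgroup.orderOf_dvd_natCard Z hz
      rw [hZc] at h2
      rcases (Nat.dvd_prime hp.out).1 h2 with h | h
      · exact absurd (orderOf_eq_one_iff.1 h) hz1
      · exact h.ge
    rw [← h1] at hy
    obtain ⟨k, hk⟩ := (Submonoid.mem_powers_iff _ _).1 (mem_powers_iff_mem_zpowers.2 hy)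
    exact ⟨k, hk.symm⟩
  -- an element of `P ∖ E` centralizing an element of `E` forces it into `Z`
  have hnc : ∀ u ∈ (P : Subgroup G), u ∉ E → ∀ e ∈ E, u * e = e * u → e ∈ Z := by
    intro u hu huE e he hue
    have h1 : (P : Subgroup G) ⊓ Subgroup.centralizer {e} = P := by
      apply eq_of_prime_index (A := E) (C := (P : Subgroup G)) (p := p) (n := 2) _ inf_le_left hEc hcard
      refine lt_of_le_of_ne (le_inf hEP (fun a ha => mem_centralizer_singleton_iff.2 (hEab a ha e he))) ?_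
      intro h
      apply huE
      rw [h]
      exact mem_inf.2 ⟨hu, mem_centralizer_singleton_iff.2 hue⟩
    rw [hZm]
    refine ⟨hEP he, fun y hy => ?_⟩
    have hy' : y ∈ (P : Subgroup G) ⊓ Subgroup.centralizer {e} := by rw [h1]; exact hy
    exact mem_centralizer_singleton_iff.1 (mem_inf.1 hy').2
  have hcomm : ∀ u ∈ (P : Subgroup G), ∀ y ∈ (P : Subgroup G), u * y * u⁻¹ * y⁻¹ ∈ Z := by
    intro u hu y hy
    rw [hZ]
    refine ⟨⟨u, hu⟩ * ⟨y, hy⟩ * ⟨u, hu⟩⁻¹ * ⟨y, hy⟩⁻¹, ?_, rfl⟩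
    rw [SetLike.mem_coe, ← hE.1.2.2]
    exact Subgroup.commutator_mem_commutator (mem_top _) (mem_top _)
  have hPE : (P : Subgroup G) ≤ Subgroup.normalizer (E : Set G) := by
    intro x hx
    apply CfsgLib.H7Basic.mem_normalizer_of_conj_mem
    intro e he
    rw [hEm] at he ⊢
    exact ⟨mul_mem (mul_mem hx he.1) (inv_mem hx), by rw [conj_pow, he.2]; group⟩
  have hEcen : (P : Subgroup G) ⊓ Subgroup.centralizer (E : Set G) ≤ E := by
    intro x hx
    by_contra hxE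
    have hx' := mem_inf.1 hx
    have h1 : E ≤ Z := fun e he => hnc x hx'.1 hxE e he (mem_centralizer_iff.1 hx'.2 e he).symm
    have h2 := Subgroup.card_le_of_le h1
    rw [hZc, hEc] at h2
    nlinarith
  -- the essential case
  have hess : IsSyl p ((P : Subgroup G) ⊓ Subgroup.normalizer (E : Set G)) (Subgroup.normalizer (E : Set G)) →
      Subgroup.normalizer (E : Set G) ≤ Subgroup.normalizer (Z : Set G) := by
    intro hsyl
    rw [inf_eq_left.2 hPE] at hsyl
    by_contra hcon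
    obtain ⟨n, hn, hnZ⟩ := SetLike.not_le_iff_exists.1 hcon
    obtain ⟨z, hz, hznZ⟩ : ∃ z ∈ Z, n * z * n⁻¹ ∉ Z := by
      by_contra hc
      push Not at hc
      exact hnZ (CfsgLib.H7Basic.mem_normalizer_of_conj_mem hc)
    have hz1 : z ≠ 1 := by
      rintro rfl
      apply hznZ
      rw [mul_one, mul_inv_cancel]
      exact Z.one_mem
    obtain ⟨z', hz'⟩ : ∃ z', z' = n * z * n⁻¹ := ⟨_, rfl⟩
    rw [← hz'] at hznZ
    have hz'E : z' ∈ E := by rw [hz']; exact (mem_normalizer_iff.1 hn z).1 (hZE hz)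
    have huz : ∀ u ∈ (P : Subgroup G), u * z = z * u := ((hZm z).1 hz).2
    -- `u` on `z'`
    obtain ⟨a, ha⟩ := hZgen z hz hz1 _ (hcomm x₀ hx₀P z' (hEP hz'E))
    have hu' : x₀ * z' * x₀⁻¹ = z' * z ^ a := by
      have h1 : x₀ * z' * x₀⁻¹ = (x₀ * z' * x₀⁻¹ * z'⁻¹) * z' := by group
      rw [h1, ha]
      exact (Commute.pow_left (show Commute z z' from (huz z' (hEP hz'E)).symm) a).eq
    have hap : ¬ p ∣ a := by
      rintro ⟨j, rfl⟩
      rw [pow_mul, hZp z hz, one_pow, mul_one] at hu'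
      exact hznZ (hnc x₀ hx₀P hx₀E z' hz'E (mul_inv_eq_iff_eq_mul.1 hu'))
    -- `v` on `z`
    obtain ⟨w, hw⟩ : ∃ w, w = n⁻¹ * z * n := ⟨_, rfl⟩
    have hwE : w ∈ E := by
      have := (mem_normalizer_iff.1 (inv_mem hn) z).1 (hZE hz)
      rw [inv_inv] at this
      rw [hw]; exact this
    have hwZ : w ∉ Z := by
      intro hwZ
      obtain ⟨i, hi⟩ := hZgen z hz hz1 w hwZ
      -- `z = n w n⁻¹ = z'^i`, so `z' ∈ Z`
      have h1 : z = z' ^ i := by
        have h2 : z = n * w * n⁻¹ := by rw [hw]; group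
        rw [h2, hi, hz', ← conj_pow]
      have hip : ¬ p ∣ i := by
        rintro ⟨j, rfl⟩
        rw [pow_mul, ((hEm z').1 hz'E).2, one_pow] at h1
        exact hz1 h1
      -- invert `i` modulo `p`
      have h3 : (zpowers z') = zpowers z := by
        symm
        apply Subgroup.eq_of_le_of_card_ge
        · rw [zpowers_le, h1]; exact Subgroup.pow_mem _ (mem_zpowers z') i
        · rw [Nat.card_zpowers, Nat.card_zpowers]
          have h4 : orderOf z' ∣ p := orderOf_dvd_of_pow_eq_one ((hEm z').1 hz'E).2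
          have h5 : orderOf z ∣ p := orderOf_dvd_of_pow_eq_one (hZp z hz)
          rcases (Nat.dvd_prime hp.out).1 h5 with h | h
          · exact absurd (orderOf_eq_one_iff.1 h) hz1
          · rw [h]; exact Nat.le_of_dvd hp.out.pos h4
      apply hznZ
      have h6 : z' ∈ zpowers z := by rw [← h3]; exact mem_zpowers z'
      exact (zpowers_le.2 hz) h6
    obtain ⟨c, hc⟩ := hZgen z hz hz1 _ (hcomm x₀ hx₀P w (hEP hwE))
    have huw : x₀ * w * x₀⁻¹ = w * z ^ c := by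
      have h1 : x₀ * w * x₀⁻¹ = (x₀ * w * x₀⁻¹ * w⁻¹) * w := by group
      rw [h1, hc]
      exact (Commute.pow_left (show Commute z w from (huz w (hEP hwE)).symm) c).eq
    have hcp : ¬ p ∣ c := by
      rintro ⟨j, rfl⟩
      rw [pow_mul, hZp z hz, one_pow, mul_one] at huw
      exact hwZ (hnc x₀ hx₀P hx₀E w hwE (mul_inv_eq_iff_eq_mul.1 huw))
    obtain ⟨v, hv⟩ : ∃ v, v = n * x₀ * n⁻¹ := ⟨_, rfl⟩
    have hvz : v * z * v⁻¹ = z * z' ^ c := by
      have h1 : v * z * v⁻¹ = n * (x₀ * w * x₀⁻¹) * n⁻¹ := by rw [hv, hw]; group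
      have h2 : n * (w * z ^ c) * n⁻¹ = (n * w * n⁻¹) * (n * z ^ c * n⁻¹) := by group
      rw [h1, huw, h2, ← conj_pow, ← hz', hw]; group
    have hvz' : v * z' = z' * v := by
      have h1 : v * z' = n * (x₀ * z) * n⁻¹ := by rw [hv, hz']; group
      rw [h1, huz x₀ hx₀P, hv, hz']; group
    -- choose the exponent
    obtain ⟨k, hk⟩ : ∃ k : ℕ, p ∣ k * a * c + 1 := by
      have hac : (a * c).Coprime p := by
        rw [Nat.coprime_comm, Nat.Prime.coprime_iff_not_dvd hp.out, Nat.Prime.dvd_mul hp.out]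
        push Not; exact ⟨hap, hcp⟩
      have h0 : ((a * c : ℕ) : ZMod p) ≠ 0 := by
        intro h
        rw [ZMod.natCast_eq_zero_iff] at h
        exact (Nat.Prime.coprime_iff_not_dvd hp.out).1 hac.symm h
      refine ⟨(-((a * c : ℕ) : ZMod p)⁻¹).val, ?_⟩
      rw [← ZMod.natCast_eq_zero_iff]
      rw [Nat.cast_add, mul_assoc, Nat.cast_mul _ (a * c), ZMod.natCast_zmod_val, neg_mul, inv_mul_cancel₀ h0]
      simp
    obtain ⟨τ, hτ, hτz, hτz'⟩ := invert_elt (u := x₀) (v := v) (huz z' (hEP hz'E)).symm (hZp z hz) ((hEm z').1 hz'E).2 (huz x₀ hx₀P) hu' hvz' hvz hk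
    have hx₀N := hPE hx₀P
    have hvN : v ∈ Subgroup.normalizer (E : Set G) := by rw [hv]; exact mul_mem (mul_mem hn hx₀N) (inv_mem hn)
    have hτN : τ ∈ Subgroup.normalizer (E : Set G) := by
      rw [hτ]
      have h1 := mul_mem (mul_mem (pow_mem hx₀N k) hvN) (pow_mem hx₀N k)
      exact mul_mem h1 h1
    -- `τ` inverts `E`
    have hinv : ∀ e ∈ E, τ * e * τ⁻¹ = e⁻¹ := by
      let F : Subgroup G :=
        { carrier := {e | e ∈ E ∧ τ * e * τ⁻¹ = e⁻¹}
          one_mem' := ⟨E.one_mem, by group⟩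
          mul_mem' := by
            rintro a b ⟨ha, ha'⟩ ⟨hb, hb'⟩
            refine ⟨E.mul_mem ha hb, ?_⟩
            have h1 : τ * (a * b) * τ⁻¹ = (τ * a * τ⁻¹) * (τ * b * τ⁻¹) := by group
            rw [h1, ha', hb', ← mul_inv_rev, hEab b hb a ha]
          inv_mem' := by
            rintro a ⟨ha, ha'⟩
            refine ⟨E.inv_mem ha, ?_⟩
            have h1 : τ * a⁻¹ * τ⁻¹ = (τ * a * τ⁻¹)⁻¹ := by group
            rw [h1, ha'] }
      have hFE : F ≤ E := fun e he => he.1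
      have hZF : Z ≤ F := by
        intro y hy
        obtain ⟨i, rfl⟩ := hZgen z hz hz1 y hy
        exact F.pow_mem ⟨hZE hz, hτz⟩ i
      have hF : F = E := by
        apply eq_of_prime_index (A := Z) (p := p) (n := 1) _ hFE (by rw [hZc, pow_one]) hEc
        refine lt_of_le_of_ne hZF ?_
        intro h
        apply hznZ
        rw [h]
        exact ⟨hz'E, hτz'⟩
      intro e he
      rw [← hF] at he
      exact he.2
    -- Frattini
    obtain ⟨C, hC⟩ : ∃ C : Subgroup G, C = Subgroup.centralizer (E : Set G) := ⟨_, rfl⟩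
    have hNC : Subgroup.normalizer (E : Set G) ≤ Subgroup.normalizer (C : Set G) := by
      intro y hy
      rw [← CfsgLib.H7Basic.cj_eq_self_iff] at hy ⊢
      rw [hC, CfsgLib.H7Basic.cj_centralizer, hy]
    have hCN : C ≤ Subgroup.normalizer (E : Set G) := by
      rw [hC]; exact Subgroup.centralizer_le_normalizer (s := (E : Set G))
    have hτx : ∀ x ∈ (P : Subgroup G), τ * x * τ⁻¹ * x⁻¹ ∈ C := by
      intro x hx
      rw [hC, mem_centralizer_iff]
      intro e he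
      have h1 : x⁻¹ * e * x ∈ E := by
        have := (mem_normalizer_iff.1 (inv_mem (hPE hx)) e).1 he
        rwa [inv_inv] at this
      have h2 := hinv _ h1
      have h3 : τ⁻¹ * e * τ = e⁻¹ := by
        have h4 := hinv _ (E.inv_mem he)
        rw [inv_inv] at h4
        calc τ⁻¹ * e * τ = τ⁻¹ * (τ * e⁻¹ * τ⁻¹) * τ := by rw [h4]
          _ = e⁻¹ := by group
      -- `[τ,x]⁻¹ e [τ,x] = e`
      have h5 : (τ * x * τ⁻¹ * x⁻¹)⁻¹ * e * (τ * x * τ⁻¹ * x⁻¹) = e := by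
        calc (τ * x * τ⁻¹ * x⁻¹)⁻¹ * e * (τ * x * τ⁻¹ * x⁻¹) = x * (τ * (x⁻¹ * (τ⁻¹ * e * τ) * x) * τ⁻¹) * x⁻¹ := by group
          _ = x * (τ * (x⁻¹ * e * x)⁻¹ * τ⁻¹) * x⁻¹ := by rw [h3]; group
          _ = x * (τ * (x⁻¹ * e * x) * τ⁻¹)⁻¹ * x⁻¹ := by group
          _ = e := by rw [h2]; group
      calc e * (τ * x * τ⁻¹ * x⁻¹) = (τ * x * τ⁻¹ * x⁻¹) * ((τ * x * τ⁻¹ * x⁻¹)⁻¹ * e * (τ * x * τ⁻¹ * x⁻¹)) := by group
        _ = (τ * x * τ⁻¹ * x⁻¹) * e := by rw [h5]
    have hPCn : (P : Subgroup G) ≤ Subgroup.normalizer (C : Set G) := hPE.trans hNC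
    have hτH : τ ∈ Subgroup.normalizer ((C ⊔ P : Subgroup G) : Set G) := by
      apply CfsgLib.H7Basic.mem_normalizer_of_conj_mem
      intro y hy
      obtain ⟨c', hc', x, hx, rfl⟩ := CfsgLib.H9SC.mem_sup_norm hPCn hy
      have h1 : τ * (c' * x) * τ⁻¹ = (τ * c' * τ⁻¹) * (τ * x * τ⁻¹ * x⁻¹) * x := by group
      rw [h1]
      exact mul_mem_sup (C.mul_mem ((mem_normalizer_iff.1 (hNC hτN) c').1 hc') (hτx x hx)) hx
    have hPs : IsSyl p (P : Subgroup G) (C ⊔ P) := IsSyl.of_le' hsyl le_sup_right (sup_le hCN hPE)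
    obtain ⟨y, hy, hyτ⟩ := (isSyl_iff_isSylowIn.1 hPs).frattini Subgroup.le_normalizer le_rfl hτH
    obtain ⟨x₁, hx₁, c₁, hc₁, rfl⟩ := (CfsgLib.Coprime.mem_sup_iff' hPCn y).1 hy
    obtain ⟨σ, hσ⟩ : ∃ σ, σ = c₁ * τ := ⟨_, rfl⟩
    have hσP : σ ∈ Subgroup.normalizer ((P : Subgroup G) : Set G) := by
      have h1 : σ = x₁⁻¹ * (x₁ * c₁ * τ) := by rw [hσ]; group
      rw [h1]
      exact mul_mem (inv_mem (Subgroup.le_normalizer hx₁)) hyτ
    have hσe : ∀ e ∈ E, σ * e * σ⁻¹ = e⁻¹ := by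
      intro e he
      have h1 : σ * e * σ⁻¹ = c₁ * (τ * e * τ⁻¹) * c₁⁻¹ := by rw [hσ]; group
      have h2 : e⁻¹ * c₁ = c₁ * e⁻¹ := by
        have hc₁' : c₁ ∈ Subgroup.centralizer (E : Set G) := hC ▸ hc₁
        exact mem_centralizer_iff.1 hc₁' e⁻¹ (E.inv_mem he)
      rw [h1, hinv e he, ← h2, mul_inv_cancel_right]
    have hf : σ * x₀ * σ⁻¹ * x₀⁻¹ ∈ E := by
      apply hEcen
      refine mem_inf.2 ⟨mul_mem ((mem_normalizer_iff.1 hσP x₀).1 hx₀P) (inv_mem hx₀P), ?_⟩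
      rw [← hC]
      have h1 : σ * x₀ * σ⁻¹ * x₀⁻¹ = c₁ * (τ * x₀ * τ⁻¹ * x₀⁻¹) * (x₀ * c₁⁻¹ * x₀⁻¹) := by rw [hσ]; group
      rw [h1]
      exact C.mul_mem (C.mul_mem hc₁ (hτx x₀ hx₀P)) ((mem_normalizer_iff.1 (hPCn hx₀P) _).1 (C.inv_mem hc₁))
    have h1 : (σ * x₀ * σ⁻¹) ^ p = x₀ ^ p := by
      have h2 : σ * x₀ * σ⁻¹ = (σ * x₀ * σ⁻¹ * x₀⁻¹) * x₀ := by group
      rw [h2, hmul _ (hEP hf) _ hx₀P, ((hEm _).1 hf).2, one_mul]
    rw [conj_pow, hσe _ (hZE (hpow x₀ hx₀P))] at h1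
    have h2 : (x₀ ^ p) ^ 2 = 1 := by
      rw [sq]
      nth_rewrite 1 [← h1]
      exact inv_mul_cancel _
    have h3 := orderOf_dvd_of_pow_eq_one h2
    have h4 := orderOf_dvd_of_pow_eq_one (hZp _ (hpow x₀ hx₀P))
    have h5 : orderOf (x₀ ^ p) = 1 := Nat.eq_one_of_dvd_coprimes ((Nat.coprime_primes Nat.prime_two hp.out).2 (Ne.symm hp2)) h3 h4
    exact hx₀ (orderOf_eq_one_iff.1 h5)
  refine ⟨hZP, ?_⟩
  intro z hz g hg
  obtain ⟨m, hm, hma⟩ := ag P (Subgroup.normalizer (Z : Set G)) (by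
    intro D hDP hsyl
    by_cases hcen : (P : Subgroup G) ⊓ Subgroup.centralizer (D : Set G) ≤ D
    · left
      have hZD : Z ≤ D := by
        intro y hy
        apply hcen
        refine mem_inf.2 ⟨hZP hy, ?_⟩
        rw [mem_centralizer_iff]
        intro d hd
        exact ((hZm y).1 hy).2 d (hDP hd)
      suffices hs : Subgroup.normalizer (D : Set G) ≤ Subgroup.normalizer (Z : Set G) from fun x hx => ⟨x, hs hx, fun d _ => rfl⟩
      by_cases hDE : D ≤ E
      · have hDeq : D = E := by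
          apply le_antisymm hDE
          intro e he
          apply hcen
          refine mem_inf.2 ⟨hEP he, ?_⟩
          rw [mem_centralizer_iff]
          intro d hd
          exact hEab d (hDE hd) e he
        rw [hDeq] at hsyl ⊢
        exact hess hsyl
      · obtain ⟨x, hxD, hxE⟩ := SetLike.not_le_iff_exists.1 hDE
        have hxp : x ^ p ≠ 1 := fun h => hxE ((hEm x).2 ⟨hDP hxD, h⟩)
        intro n hn
        apply CfsgLib.H7Basic.mem_normalizer_of_conj_mem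
        intro y hy
        obtain ⟨k, rfl⟩ := hZgen _ (hpow x (hDP hxD)) hxp y hy
        have h1 : n * (x ^ p) ^ k * n⁻¹ = ((n * x * n⁻¹) ^ p) ^ k := by
          rw [conj_pow, conj_pow]
        rw [h1]
        exact Z.pow_mem (hpow _ (hDP ((mem_normalizer_iff.1 hn x).1 hxD))) k
    · right
      have := centric_alt (H := ⊤) (P := (P : Subgroup G)) (D := D) le_top hcen
      rw [top_inf_eq] at this
      exact this) {z} g⁻¹ (by
      intro y hy
      rw [Set.mem_singleton_iff.1 hy]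
      exact hZP hz) (by
      intro y hy
      rw [Set.mem_singleton_iff.1 hy, inv_inv]
      exact hg)
  have h1 := hma z rfl
  rw [inv_inv] at h1
  rw [h1]
  have := (mem_normalizer_iff.1 (inv_mem hm) z).1 hz
  rwa [inv_inv] at this

end CfsgLib.H6AG
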