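import Cfsg.Agent.Lib.H6Cp1

/-! S1900. -/

set_option autoImplicit false
set_option linter.style.haveILetI false

open Subgroup
open scoped commutatorElement

namespace CfsgLib.H6Cp

open CfsgLib.Coprime

universe u

structure H4 {G : Type u} [Group G] (p q : ℕ) (P Q X₁ X₂ : Subgroup G) : Prop where
  pn : P.Normal
  pp : IsPGroup p P
  qe : Cfsg.IsElementaryAbelian q Q
  qc : Nat.card Q = q ^ 2
  sup : P ⊔ Q = ⊤
  h₁ : X₁ ≤ Q
  h₂ : X₂ ≤ Q
  ne : X₁ ≠ X₂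
  c₁ : Nat.card X₁ = q
  c₂ : Nat.card X₂ = q
  only : ∀ X : Subgroup G, X ≤ Q → Nat.card X = q → P ⊓ Subgroup.centralizer (X : Set G) ≠ ⊥ → X = X₁ ∨ X = X₂

section
variable {G : Type u} [Group G] [Finite G] {p q : ℕ} [hp : Fact p.Prime] [hq : Fact q.Prime] {P Q X₁ X₂ : Subgroup G}

theorem H4.symm (h : H4 p q P Q X₁ X₂) : H4 p q P Q X₂ X₁ :=
  ⟨h.pn, h.pp, h.qe, h.qc, h.sup, h.h₂, h.h₁, h.ne.symm, h.c₂, h.c₁, fun X a b c => (h.only X a b c).symm⟩

theorem H4.ab (h : H4 p q P Q X₁ X₂) : ∀ a ∈ Q, ∀ b ∈ Q, a * b = b * a :=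
  fun a ha b hb => congrArg Subtype.val (h.qe.1.is_comm.comm ⟨a, ha⟩ ⟨b, hb⟩)

theorem zp_card {a : G} (ha : a ^ q = 1) (ha1 : a ≠ 1) : Nat.card (zpowers a) = q := by
  rw [Nat.card_zpowers]; exact orderOf_eq_prime ha ha1

theorem prime_inf {X Y : Subgroup G} (hX : Nat.card X = q) (hY : Nat.card Y = q) (hne : X ≠ Y) : X ⊓ Y = ⊥ := by
  have h1 := Subgroup.card_dvd_of_le (inf_le_left : X ⊓ Y ≤ X)
  rw [hX] at h1
  rcases (Nat.dvd_prime hq.out).1 h1 with h2 | h2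
  · exact Subgroup.card_eq_one.1 h2
  · exfalso
    apply hne
    have h3 : X ⊓ Y = X := Subgroup.eq_of_le_of_card_ge inf_le_left (by rw [h2, hX])
    have h4 : X ⊓ Y = Y := Subgroup.eq_of_le_of_card_ge inf_le_right (by rw [h2, hY])
    rw [← h3, h4]

theorem H4.inf (h : H4 p q P Q X₁ X₂) : (P ⊓ centralizer (X₁ : Set G)) ⊓ (P ⊓ centralizer (X₂ : Set G)) = ⊥ := by
  have hi := prime_inf h.c₁ h.c₂ h.ne
  obtain ⟨x₁, hx₁, hx₁1⟩ : ∃ x ∈ X₁, x ≠ 1 := by
    by_contra hcon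
    push Not at hcon
    have : X₁ = ⊥ := (Subgroup.eq_bot_iff_forall _).2 hcon
    have h1 := h.c₁
    rw [this, Subgroup.card_bot] at h1
    exact hq.out.one_lt.ne h1
  obtain ⟨x₂, hx₂, hx₂1⟩ : ∃ x ∈ X₂, x ≠ 1 := by
    by_contra hcon
    push Not at hcon
    have : X₂ = ⊥ := (Subgroup.eq_bot_iff_forall _).2 hcon
    have h1 := h.c₂
    rw [this, Subgroup.card_bot] at h1
    exact hq.out.one_lt.ne h1
  have hxQ : x₁ * x₂ ∈ Q := Q.mul_mem (h.h₁ hx₁) (h.h₂ hx₂)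
  have hn1 : x₁ * x₂ ∉ X₁ := by
    intro h1
    have h2 : x₂ ∈ X₁ := by
      have := X₁.mul_mem (X₁.inv_mem hx₁) h1
      rwa [inv_mul_cancel_left] at this
    apply hx₂1
    rw [← mem_bot, ← hi]; exact mem_inf.2 ⟨h2, hx₂⟩
  have hn2 : x₁ * x₂ ∉ X₂ := by
    intro h1
    have h2 : x₁ ∈ X₂ := by
      have := X₂.mul_mem h1 (X₂.inv_mem hx₂)
      rwa [mul_inv_cancel_right] at this
    apply hx₁1
    rw [← mem_bot, ← hi]; exact mem_inf.2 ⟨hx₁, h2⟩
  have h31 : x₁ * x₂ ≠ 1 := fun h1 => hn1 (h1 ▸ X₁.one_mem)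
  by_contra hne
  rcases h.only (zpowers (x₁ * x₂)) (zpowers_le.2 hxQ) (zp_card (h.qe.2 _ hxQ) h31) (by
    intro h1
    apply hne
    rw [eq_bot_iff, ← h1]
    intro y hy
    have hy1 := mem_inf.1 (mem_inf.1 hy).1
    have hy2 := mem_inf.1 (mem_inf.1 hy).2
    refine mem_inf.2 ⟨hy1.1, ?_⟩
    rw [mem_centralizer_iff]
    intro z hz
    obtain ⟨k, rfl⟩ := mem_zpowers_iff.1 hz
    have e1 : Commute x₁ y := mem_centralizer_iff.1 hy1.2 x₁ hx₁
    have e2 : Commute x₂ y := mem_centralizer_iff.1 hy2.2 x₂ hx₂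
    exact (e1.mul_left e2).zpow_left k) with h1 | h1
  · exact hn1 (h1 ▸ mem_zpowers _)
  · exact hn2 (h1 ▸ mem_zpowers _)

theorem H4.cop (h : H4 p q P Q X₁ X₂) (hpq : p ≠ q) : (Nat.card Q).Coprime (Nat.card P) := by
  obtain ⟨n, hn⟩ := h.pp.exists_card_eq
  rw [hn, h.qc]
  exact Nat.Coprime.pow _ _ ((Nat.coprime_primes hq.out hp.out).2 hpq.symm)

/-- generation, for invariant subgroups -/
theorem H4.gen (h : H4 p q P Q X₁ X₂) (hpq : p ≠ q) {Y : Subgroup G} (hY : Y ≤ P) (hYn : Q ≤ Subgroup.normalizer (Y : Set G)) :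
    Y ≤ (Y ⊓ centralizer (X₁ : Set G)) ⊔ (Y ⊓ centralizer (X₂ : Set G)) := by
  have hnc : ¬ IsCyclic Q := by
    intro hc
    obtain ⟨g, hg⟩ := hc.exists_generator
    have h1 : Nat.card Q ∣ q := by
      rw [← orderOf_eq_card_of_forall_mem_zpowers hg]
      apply orderOf_dvd_of_pow_eq_one
      exact Subtype.ext (h.qe.2 g g.2)
    rw [h.qc] at h1
    have h2 := Nat.le_of_dvd hq.out.pos h1
    have := hq.out.one_lt
    nlinarith
  refine (le_cgen_of_not_isCyclic h.qe.1 hnc hYn (Nat.Coprime.coprime_dvd_right (Subgroup.card_dvd_of_le hY) (h.cop hpq))).trans (iSup₂_le ?_)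
  rintro a ⟨ha, ha1⟩
  have hz : centralizer ({a} : Set G) ≤ centralizer (zpowers a : Set G) := by
    intro y hy
    rw [mem_centralizer_iff]
    intro z hz
    obtain ⟨k, rfl⟩ := mem_zpowers_iff.1 hz
    have e1 : Commute a y := (mem_centralizer_singleton_iff.1 hy).symm
    exact e1.zpow_left k
  by_cases hb : P ⊓ centralizer (zpowers a : Set G) = ⊥
  · refine le_trans ?_ bot_le
    rw [← hb]
    exact inf_le_inf hY hz
  · rcases h.only (zpowers a) (zpowers_le.2 ha) (zp_card (h.qe.2 a ha) ha1) hb with h1 | h1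
    · rw [h1] at hz
      exact (inf_le_inf_left _ hz).trans le_sup_left
    · rw [h1] at hz
      exact (inf_le_inf_left _ hz).trans le_sup_right

theorem H4.norm (h : H4 p q P Q X₁ X₂) {Y : Subgroup G} (hYn : Q ≤ Subgroup.normalizer (Y : Set G)) :
    Q ≤ Subgroup.normalizer ((Y ⊓ centralizer (X₁ : Set G) : Subgroup G) : Set G) := by
  intro a ha
  apply CfsgLib.H7Basic.mem_normalizer_of_conj_mem
  intro r hr
  have hr' := mem_inf.1 hr
  refine mem_inf.2 ⟨(mem_normalizer_iff.1 (hYn ha) r).1 hr'.1, ?_⟩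
  rw [mem_centralizer_iff]
  intro x hx
  have h1 := mem_centralizer_iff.1 hr'.2 x hx
  have h2 := h.ab a ha x (h.h₁ hx)
  calc x * (a * r * a⁻¹) = (x * a) * r * a⁻¹ := by group
    _ = a * (x * r) * a⁻¹ := by rw [← h2]; group
    _ = a * r * (x * a⁻¹) := by rw [h1]; group
    _ = a * r * (a⁻¹ * (a * x) * a⁻¹) := by group
    _ = a * r * a⁻¹ * x := by rw [h2]; group

theorem H4.core (h : H4 p q P Q X₁ X₂) (hpq : p ≠ q)
    (ih : ∀ (N : Subgroup G) [N.Normal], N ≠ ⊥ → H4 p q (P.map (QuotientGroup.mk' N)) (Q.map (QuotientGroup.mk' N)) (X₁.map (QuotientGroup.mk' N)) (X₂.map (QuotientGroup.mk' N)) →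
      ⁅P.map (QuotientGroup.mk' N) ⊓ centralizer ((X₁.map (QuotientGroup.mk' N) : Subgroup (G ⧸ N)) : Set (G ⧸ N)),
        P.map (QuotientGroup.mk' N) ⊓ centralizer ((X₂.map (QuotientGroup.mk' N) : Subgroup (G ⧸ N)) : Set (G ⧸ N))⁆ = ⊥)
    (hZ : (P ⊓ centralizer (P : Set G)) ⊓ centralizer (X₁ : Set G) ≠ ⊥) :
    ⁅P ⊓ centralizer (X₁ : Set G), P ⊓ centralizer (X₂ : Set G)⁆ = ⊥ := by
  haveI := h.pn
  obtain ⟨N, hN⟩ : ∃ N, N = (P ⊓ centralizer (P : Set G)) ⊓ centralizer (X₁ : Set G) := ⟨_, rfl⟩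
  rw [← hN] at hZ
  have hNP : N ≤ P := by rw [hN]; exact inf_le_left.trans inf_le_left
  have hNC : N ≤ centralizer (P : Set G) := by rw [hN]; exact inf_le_left.trans inf_le_right
  have hNX : N ≤ centralizer (X₁ : Set G) := by rw [hN]; exact inf_le_right
  have hZn : Q ≤ Subgroup.normalizer ((P ⊓ centralizer (P : Set G) : Subgroup G) : Set G) := by
    have : (P ⊓ centralizer (P : Set G)).Normal := inferInstance
    rw [Subgroup.normalizer_eq_top]; exact le_top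
  have hNn : N.Normal := by
    rw [← Subgroup.normalizer_eq_top_iff, eq_top_iff, ← h.sup]
    apply sup_le
    · intro y hy
      apply CfsgLib.H7Basic.mem_normalizer_of_conj_mem
      intro x hx
      have := mem_centralizer_iff.1 (hNC hx) y hy
      rw [this, mul_inv_cancel_right]; exact hx
    · rw [hN]; exact h.norm hZn
  haveI := hNn
  let π := QuotientGroup.mk' N
  have hπs : Function.Surjective π := QuotientGroup.mk'_surjective N
  have hNQ : N ⊓ Q = ⊥ := by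
    rw [← Subgroup.card_eq_one]
    exact Nat.eq_one_of_dvd_coprimes (h.cop hpq) (Subgroup.card_dvd_of_le inf_le_right) (Subgroup.card_dvd_of_le (inf_le_left.trans hNP))
  have hinj : ∀ a ∈ Q, ∀ b ∈ Q, π a = π b → a = b := by
    intro a ha b hb hab
    have h1 : a⁻¹ * b ∈ N := QuotientGroup.eq.1 hab
    have h2 : a⁻¹ * b ∈ N ⊓ Q := mem_inf.2 ⟨h1, Q.mul_mem (Q.inv_mem ha) hb⟩
    rw [hNQ, mem_bot, inv_mul_eq_one] at h2
    exact h2
  have hcardmap : ∀ X ≤ Q, Nat.card (X.map π) = Nat.card X := by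
    intro X hX
    symm
    refine Nat.card_congr (Equiv.ofBijective (fun x : X => (⟨π x, ⟨x, x.2, rfl⟩⟩ : X.map π)) ⟨?_, ?_⟩)
    · intro a b hab
      exact Subtype.ext (hinj a (hX a.2) b (hX b.2) (congrArg Subtype.val hab))
    · rintro ⟨_, ⟨x, hx, rfl⟩⟩
      exact ⟨⟨x, hx⟩, rfl⟩
  have hpull : ∀ X : Subgroup (G ⧸ N), X ≤ Q.map π → ∃ X' ≤ Q, X'.map π = X := by
    intro X hX
    refine ⟨Q ⊓ X.comap π, inf_le_left, ?_⟩
    apply le_antisymm
    · rintro _ ⟨x, hx, rfl⟩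
      exact (mem_inf.1 hx).2
    · intro x hx
      obtain ⟨y, hy, rfl⟩ := hX hx
      exact ⟨y, mem_inf.2 ⟨hy, hx⟩, rfl⟩
  have hcopX : ∀ X ≤ Q, CopAct X P := by
    intro X hX
    refine ⟨by rw [Subgroup.normalizer_eq_top]; exact le_top, Nat.Coprime.coprime_dvd_left (Subgroup.card_dvd_of_le hX) (h.cop hpq), Or.inr ?_⟩
    haveI := h.pp.isNilpotent
    infer_instance
  have hcent : ∀ X ≤ Q, P.map π ⊓ centralizer ((X.map π : Subgroup (G ⧸ N)) : Set (G ⧸ N)) ≤ (P ⊓ centralizer (X : Set G)).map π := by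
    rintro X hX _ hy
    obtain ⟨⟨k, hk, rfl⟩, hy2⟩ := mem_inf.1 hy
    obtain ⟨c, hc, hkc⟩ := (hcopX X hX).exists_fixed_in_left_coset hNP (by rw [Subgroup.normalizer_eq_top]; exact le_top) hk (by
      intro a ha
      have h1 := mem_centralizer_iff.1 hy2 (π a) ⟨a, ha, rfl⟩
      rw [← QuotientGroup.eq_one_iff]
      change π (k⁻¹ * (a * k * a⁻¹)) = 1
      rw [map_mul, map_mul, map_mul, map_inv, map_inv, h1]
      group)
    refine ⟨c, hc, ?_⟩
    exact (QuotientGroup.eq.2 hkc).symm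
  have hQ4 : H4 p q (P.map π) (Q.map π) (X₁.map π) (X₂.map π) := by
    refine ⟨h.pn.map π hπs, h.pp.map π, ?_, ?_, ?_, map_mono h.h₁, map_mono h.h₂, ?_, ?_, ?_, ?_⟩
    · refine ⟨⟨⟨?_⟩⟩, ?_⟩
      · rintro ⟨_, ⟨a, ha, rfl⟩⟩ ⟨_, ⟨b, hb, rfl⟩⟩
        apply Subtype.ext
        show π a * π b = π b * π a
        rw [← map_mul, h.ab a ha b hb, map_mul]
      · rintro _ ⟨a, ha, rfl⟩
        rw [← map_pow, h.qe.2 a ha, map_one]
    · rw [hcardmap Q le_rfl]; exact h.qc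
    · rw [← Subgroup.map_sup, h.sup, Subgroup.map_top_of_surjective _ hπs]
    · intro he
      apply h.ne
      have h1 : ∀ X Y : Subgroup G, X ≤ Q → Y ≤ Q → X.map π = Y.map π → X ≤ Y := by
        intro X Y hX hY he x hx
        have h2 : π x ∈ Y.map π := he ▸ ⟨x, hx, rfl⟩
        obtain ⟨y, hy, hxy⟩ := h2
        rw [← hinj y (hY hy) x (hX hx) hxy]; exact hy
      exact le_antisymm (h1 _ _ h.h₁ h.h₂ he) (h1 _ _ h.h₂ h.h₁ he.symm)
    · rw [hcardmap _ h.h₁]; exact h.c₁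
    · rw [hcardmap _ h.h₂]; exact h.c₂
    · intro X hX hXc hXn
      obtain ⟨X', hX', rfl⟩ := hpull X hX
      rw [hcardmap _ hX'] at hXc
      rcases h.only X' hX' hXc (by
        intro hb
        apply hXn
        rw [eq_bot_iff]
        refine (hcent X' hX').trans ?_
        rw [hb, Subgroup.map_bot]) with h1 | h1
      · left; rw [h1]
      · right; rw [h1]
  have h1 := ih N hZ hQ4
  have h2 : ⁅P ⊓ centralizer (X₁ : Set G), P ⊓ centralizer (X₂ : Set G)⁆ ≤ N := by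
    have h3 : (⁅P ⊓ centralizer (X₁ : Set G), P ⊓ centralizer (X₂ : Set G)⁆).map π = ⊥ := by
      rw [eq_bot_iff, ← h1, Subgroup.map_commutator]
      apply Subgroup.commutator_mono
      · refine le_inf (map_mono inf_le_left) ?_
        rintro _ ⟨y, hy, rfl⟩
        rw [mem_centralizer_iff]
        rintro _ ⟨x, hx, rfl⟩
        rw [← map_mul, ← map_mul, mem_centralizer_iff.1 (mem_inf.1 hy).2 x hx]
      · refine le_inf (map_mono inf_le_left) ?_
        rintro _ ⟨y, hy, rfl⟩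
        rw [mem_centralizer_iff]
        rintro _ ⟨x, hx, rfl⟩
        rw [← map_mul, ← map_mul, mem_centralizer_iff.1 (mem_inf.1 hy).2 x hx]
    rw [Subgroup.map_eq_bot_iff, QuotientGroup.ker_mk'] at h3
    exact h3
  -- `[P₂, X₁] = P₂`
  have hPQ : Q ≤ Subgroup.normalizer (P : Set G) := by rw [Subgroup.normalizer_eq_top]; exact le_top
  have hP₂n := h.symm.norm hPQ
  have hc : CopAct X₁ (P ⊓ centralizer (X₂ : Set G)) := (hcopX X₁ h.h₁).mono_right inf_le_left (h.h₁.trans hP₂n)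
  have h3 : ⁅P ⊓ centralizer (X₂ : Set G), X₁⁆ = P ⊓ centralizer (X₂ : Set G) := by
    have h4 := hc.commutator_sup
    have h5 : (P ⊓ centralizer (X₂ : Set G)) ⊓ centralizer (X₁ : Set G) = ⊥ := by
      rw [eq_bot_iff, ← h.inf]
      refine le_inf (le_inf (inf_le_left.trans inf_le_left) inf_le_right) inf_le_left
    rwa [h5, sup_bot_eq] at h4
  rw [Subgroup.commutator_eq_bot_iff_le_centralizer]
  intro a ha
  have haP := (mem_inf.1 ha).1
  have h6 : P ⊓ centralizer (X₂ : Set G) ≤ centralizer ({a} : Set G) := by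
    nth_rewrite 1 [← h3]
    rw [Subgroup.commutator_le]
    intro b hb x hx
    rw [mem_centralizer_singleton_iff]
    have hbP := (mem_inf.1 hb).1
    obtain ⟨c, hcd⟩ : ∃ c, c = x * b * x⁻¹ := ⟨_, rfl⟩
    have hcP₂ : c ∈ P ⊓ centralizer (X₂ : Set G) := by
      rw [hcd]; exact (mem_normalizer_iff.1 (hP₂n (h.h₁ hx)) b).1 hb
    obtain ⟨z, hz⟩ : ∃ z, z = a * b * a⁻¹ * b⁻¹ := ⟨_, rfl⟩
    have hzN : z ∈ N := by
      rw [hz]; exact h2 (commutator_mem_commutator ha hb)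
    have hax : x * a = a * x := mem_centralizer_iff.1 (mem_inf.1 ha).2 x hx
    have hzx : x * z = z * x := mem_centralizer_iff.1 (hNX hzN) x hx
    have hz2 : z = a * c * a⁻¹ * c⁻¹ := by
      have h7 : x * z * x⁻¹ = z := by rw [hzx, mul_inv_cancel_right]
      have h8 : x * a * x⁻¹ = a := by rw [hax, mul_inv_cancel_right]
      calc z = x * z * x⁻¹ := h7.symm
        _ = (x * a * x⁻¹) * (x * b * x⁻¹) * (x * a * x⁻¹)⁻¹ * (x * b * x⁻¹)⁻¹ := by rw [hz]; group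
        _ = _ := by rw [h8, ← hcd]
    have hab : a * b = z * b * a := by rw [hz]; group
    have hac : a * c = z * c * a := by rw [hz2]; group
    have hzc : c * z = z * c := mem_centralizer_iff.1 (hNC hzN) c (mem_inf.1 hcP₂).1
    have hzb : b * z = z * b := mem_centralizer_iff.1 (hNC hzN) b hbP
    have e1 : ⁅b, x⁆ = b * c⁻¹ := by rw [commutatorElement_def, hcd]; group
    rw [e1]
    -- `b c⁻¹ a = a b c⁻¹`
    have h9 : a * c⁻¹ = c⁻¹ * z⁻¹ * a := by
      calc a * c⁻¹ = (c⁻¹ * z⁻¹) * (z * (c * a)) * c⁻¹ := by group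
        _ = (c⁻¹ * z⁻¹) * (a * c) * c⁻¹ := by rw [hac]; group
        _ = c⁻¹ * z⁻¹ * a := by group
    have h10 : c⁻¹ * z⁻¹ = z⁻¹ * c⁻¹ := by rw [← mul_inv_rev, ← mul_inv_rev, hzc]
    have h11 : z * b * z⁻¹ = b := by rw [← hzb, mul_inv_cancel_right]
    symm
    calc a * (b * c⁻¹) = (a * b) * c⁻¹ := by group
      _ = z * b * (a * c⁻¹) := by rw [hab]; group
      _ = z * b * (z⁻¹ * c⁻¹ * a) := by rw [h9, h10]
      _ = (z * b * z⁻¹) * c⁻¹ * a := by group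
      _ = b * c⁻¹ * a := by rw [h11]
  rw [mem_centralizer_iff]
  intro b hb
  exact (mem_centralizer_singleton_iff.1 (h6 hb))

end

theorem s1900_aux {p q : ℕ} [hp : Fact p.Prime] [hq : Fact q.Prime] (hpq : p ≠ q) (n : ℕ) : ∀ (G : Type u) [Group G] [Finite G], Nat.card G ≤ n →
    ∀ P Q X₁ X₂ : Subgroup G, H4 p q P Q X₁ X₂ → ⁅P ⊓ centralizer (X₁ : Set G), P ⊓ centralizer (X₂ : Set G)⁆ = ⊥ := by
  induction n with
  | zero =>
    intro G _ _ hG
    exact absurd (Nat.card_pos (α := G)) (by omega)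
  | succ n ih =>
    intro G _ _ hG P Q X₁ X₂ h
    have hcard : ∀ (N : Subgroup G) [N.Normal], N ≠ ⊥ → Nat.card (G ⧸ N) ≤ n := by
      intro N _ hN
      have h1 := Subgroup.card_eq_card_quotient_mul_card_subgroup N
      have h2 : 1 < Nat.card N := by
        rw [Subgroup.one_lt_card_iff_ne_bot]; exact hN
      have h3 : 0 < Nat.card (G ⧸ N) := Nat.card_pos
      nlinarith
    haveI := h.pn
    by_cases hP : P = ⊥
    · rw [hP, bot_inf_eq, Subgroup.commutator_bot_left]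
    have hZ : P ⊓ centralizer (P : Set G) ≠ ⊥ := by
      haveI : Nontrivial P := (Subgroup.nontrivial_iff_ne_bot P).2 hP
      have h1 := h.pp.center_nontrivial
      obtain ⟨z, hz⟩ := exists_ne (1 : center P)
      intro hb
      apply hz
      apply Subtype.ext
      apply Subtype.ext
      have h2 : ((z : P) : G) ∈ P ⊓ centralizer (P : Set G) := by
        refine mem_inf.2 ⟨(z : P).2, ?_⟩
        rw [mem_centralizer_iff]
        intro y hy
        exact congrArg Subtype.val (mem_center_iff.1 z.2 ⟨y, hy⟩)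
      rw [hb, mem_bot] at h2
      exact h2
    have hZn : Q ≤ Subgroup.normalizer ((P ⊓ centralizer (P : Set G) : Subgroup G) : Set G) := by
      have : (P ⊓ centralizer (P : Set G)).Normal := inferInstance
      rw [Subgroup.normalizer_eq_top]; exact le_top
    have hgen := h.gen hpq (inf_le_left : P ⊓ centralizer (P : Set G) ≤ P) hZn
    by_cases h1 : (P ⊓ centralizer (P : Set G)) ⊓ centralizer (X₁ : Set G) = ⊥
    · have h2 : (P ⊓ centralizer (P : Set G)) ⊓ centralizer (X₂ : Set G) ≠ ⊥ := by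
        intro h2
        rw [h1, h2, sup_bot_eq] at hgen
        exact hZ (le_bot_iff.1 hgen)
      rw [Subgroup.commutator_comm]
      exact h.symm.core hpq (fun N _ hN h4 => ih _ (hcard N hN) _ _ _ _ h4) h2
    · exact h.core hpq (fun N _ hN h4 => ih _ (hcard N hN) _ _ _ _ h4) h1

theorem s1900 {S : Type*} [Group S] [Finite S] {p q : ℕ} [Fact p.Prime] [Fact q.Prime] (hpq : p ≠ q)
    (P : Sylow p S) [hPn : (P : Subgroup S).Normal] (Q : Subgroup S) (hQ : Cfsg.IsElementaryAbelian q Q) (hQc : Nat.card Q = q ^ 2)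
    (hS : (P : Subgroup S) ⊔ Q = ⊤)
    (X₁ X₂ : Subgroup S) (h₁ : X₁ ≤ Q) (h₂ : X₂ ≤ Q) (h₁₂ : X₁ ≠ X₂) (hc₁ : Nat.card X₁ = q) (hc₂ : Nat.card X₂ = q)
    (honly : ∀ X : Subgroup S, X ≤ Q → Nat.card X = q →
      (P : Subgroup S) ⊓ Subgroup.centralizer (X : Set S) ≠ ⊥ → X = X₁ ∨ X = X₂) :
    ⁅(P : Subgroup S) ⊓ Subgroup.centralizer (X₁ : Set S), (P : Subgroup S) ⊓ Subgroup.centralizer (X₂ : Set S)⁆ = ⊥ ∧
      ((P : Subgroup S) ⊓ Subgroup.centralizer (X₁ : Set S)) ⊓ ((P : Subgroup S) ⊓ Subgroup.centralizer (X₂ : Set S)) = ⊥ ∧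
      ((P : Subgroup S) ⊓ Subgroup.centralizer (X₁ : Set S)) ⊔ ((P : Subgroup S) ⊓ Subgroup.centralizer (X₂ : Set S)) = P := by
  have h : H4 p q (P : Subgroup S) Q X₁ X₂ := ⟨hPn, P.2, hQ, hQc, hS, h₁, h₂, h₁₂, hc₁, hc₂, honly⟩
  refine ⟨s1900_aux hpq (Nat.card S) S le_rfl _ _ _ _ h, h.inf, ?_⟩
  exact le_antisymm (sup_le inf_le_left inf_le_left) (h.gen hpq le_rfl (by rw [Subgroup.normalizer_eq_top]; exact le_top))

end CfsgLib.H6Cp
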