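import Mathlib
import Cfsg.Agent.Lib.Comp
import Cfsg.Agent.Lib.Solv

/-! S1941: automorphisms fixing a Sylow subgroup and the layer are inner -/

namespace CfsgLib.H6Ct
open Subgroup
open scoped BigOperators

/-- a 1-cocycle with values in a normal abelian `p`-subgroup `Z`, trivial on a Sylow subgroup is a coboundary -/
theorem cobound {G : Type*} [Group G] [Finite G] {p : ℕ} [Fact p.Prime] (Z : Subgroup G) [hZn : Z.Normal]
    (hZp : IsPGroup p Z) (hZc : ∀ x ∈ Z, ∀ y ∈ Z, x * y = y * x) (T : Sylow p G) (c : G → G) (hc : ∀ g, c g ∈ Z)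
    (hmul : ∀ g h, c (g * h) = c g * (g * c h * g⁻¹)) (hT : ∀ t ∈ (T : Subgroup G), c t = 1) :
    ∃ w ∈ Z, ∀ g, c g = w * (g * w⁻¹ * g⁻¹) := by
  classical
  letI : CommGroup Z := { (inferInstance : Group Z) with mul_comm := fun a b => Subtype.ext (hZc a a.2 b b.2) }
  haveI : Fintype (G ⧸ (T : Subgroup G)) := Fintype.ofFinite _
  let d : G ⧸ (T : Subgroup G) → Z := fun q => ⟨c q.out, hc _⟩
  have hd : ∀ g : G, d (QuotientGroup.mk g) = ⟨c g, hc g⟩ := by
    intro g
    obtain ⟨t, ht⟩ := QuotientGroup.mk_out_eq_mul (T : Subgroup G) g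
    apply Subtype.ext
    show c (Quotient.out _) = c g
    have h1 : (QuotientGroup.mk g : G ⧸ (T : Subgroup G)).out = g * t := ht
    rw [h1, hmul, hT t t.2]; group
  let z : Z := ∏ q : G ⧸ (T : Subgroup G), d q
  have hcj : ∀ g : G, MulAut.conjNormal g z = (⟨c g, hc g⟩ : Z)⁻¹ ^ (T : Subgroup G).index * z := by
    intro g
    have h1 : MulAut.conjNormal g z = ∏ q : G ⧸ (T : Subgroup G), MulAut.conjNormal g (d q) := map_prod _ _ _
    have h2 : ∀ q : G ⧸ (T : Subgroup G), MulAut.conjNormal g (d q) = (⟨c g, hc g⟩ : Z)⁻¹ * d (g • q) := by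
      intro q
      induction q using QuotientGroup.induction_on with
      | H h =>
        have h3 : g • (QuotientGroup.mk h : G ⧸ (T : Subgroup G)) = QuotientGroup.mk (g * h) := rfl
        rw [h3, hd, hd, eq_inv_mul_iff_mul_eq]
        apply Subtype.ext
        show c g * ((MulAut.conjNormal g (⟨c h, hc h⟩ : Z) : Z) : G) = c (g * h)
        rw [MulAut.conjNormal_apply, hmul]
    rw [h1, Finset.prod_congr rfl (fun q _ => h2 q), Finset.prod_mul_distrib, Finset.prod_const, Finset.card_univ]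
    congr 1
    · rw [Subgroup.index, Nat.card_eq_fintype_card]
    · exact Fintype.prod_equiv (MulAction.toPerm g) _ _ (fun q => rfl)
  have hcop : Nat.Coprime (Nat.card Z) (T : Subgroup G).index := by
    obtain ⟨k, hk⟩ := (IsPGroup.iff_card).1 hZp
    rw [hk]
    exact Nat.Coprime.pow_left _ (((Fact.out : p.Prime).coprime_iff_not_dvd).2 T.not_dvd_index)
  obtain ⟨w, hw⟩ := (powCoprime hcop).surjective z
  rw [powCoprime_apply] at hw
  refine ⟨w, w.2, fun g => ?_⟩
  have h5 : (⟨c g, hc g⟩ : Z) = w * (MulAut.conjNormal g w)⁻¹ := by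
    apply (powCoprime hcop).injective
    rw [powCoprime_apply, powCoprime_apply, mul_pow, inv_pow, ← map_pow, hw, hcj g]
    rw [mul_inv, inv_pow, inv_inv, mul_comm z, mul_assoc, inv_mul_cancel, mul_one]
  have h6 := congrArg Subtype.val h5
  have h7 : ((MulAut.conjNormal g w : Z) : G) = g * w * g⁻¹ := MulAut.conjNormal_apply g w
  simp only [Subgroup.coe_mul, Subgroup.coe_inv, h7] at h6
  rw [h6]; group

theorem s1941 {G : Type*} [Group G] [Finite G] {p : ℕ} [Fact p.Prime] (hcore : Cfsg.pPrimeCore p G = ⊥)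
    (T : Sylow p G) (α : MulAut G) (hfixT : ∀ x ∈ (T : Subgroup G), α x = x)
    (hfixE : ∀ x ∈ Cfsg.layer G, α x = x) : ∃ g : G, ∀ x : G, α x = g * x * g⁻¹ := by
  set F := Cfsg.generalizedFittingSubgroup G with hF
  haveI : F.Characteristic := CfsgLib.Comp.gfs_characteristic
  haveI : F.Normal := inferInstance
  have hfit : Cfsg.fittingSubgroup G = Cfsg.pCore p G := CfsgLib.Solv.fitting_eq_pCore hcore
  have hfix : ∀ x ∈ F, α x = x := by
    have h1 : F ≤ (MonoidHom.eqLocus α.toMonoidHom (MonoidHom.id G)) := by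
      refine sup_le ?_ ?_
      · intro x hx; exact hfixE x hx
      · rw [hfit]
        intro x hx
        exact hfixT x (CfsgLib.Core.pCore_le_sylow T hx)
    exact fun x hx => h1 hx
  set Z := centralizer (F : Set G) with hZdef
  haveI hZn : Z.Normal := by rw [hZdef]; infer_instance
  have hZF : Z ≤ F := CfsgLib.Comp.centralizer_gfs_le
  have hZc : ∀ x ∈ Z, ∀ y ∈ Z, x * y = y * x := fun x hx y hy => (mem_centralizer_iff.1 hy x (hZF hx))
  have hZp : IsPGroup p Z := by
    have h2 : Z ≤ Cfsg.fittingSubgroup G := by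
      letI : CommGroup Z := { (inferInstance : Group Z) with mul_comm := fun a b => Subtype.ext (hZc a a.2 b b.2) }
      exact CfsgLib.Core.le_fitting hZn inferInstance
    rw [hfit] at h2
    exact (CfsgLib.Core.pCore_isPGroup p G).to_le h2
  obtain ⟨w, -, hw⟩ := cobound Z hZp hZc T (fun g => α g * g⁻¹) (by
    intro g
    rw [hZdef, mem_centralizer_iff]
    intro x hx
    have h3 : g⁻¹ * x * g ∈ F := by
      have := (inferInstance : F.Normal).conj_mem x hx g⁻¹
      rwa [inv_inv] at this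
    have h4 := hfix _ h3
    have h5 := hfix x hx
    rw [map_mul, map_mul, map_inv, h5] at h4
    show x * (α g * g⁻¹) = α g * g⁻¹ * x
    calc x * (α g * g⁻¹) = α g * ((α g)⁻¹ * x * α g) * g⁻¹ := by group
      _ = _ := by rw [h4]; group) (by
    intro g h
    show α (g * h) * (g * h)⁻¹ = α g * g⁻¹ * (g * (α h * h⁻¹) * g⁻¹)
    rw [map_mul]; group) (by
    intro t ht
    show α t * t⁻¹ = 1
    rw [hfixT t ht]; group)
  refine ⟨w, fun x => ?_⟩
  have h6 := hw x
  have h7 : α x = (α x * x⁻¹) * x := by group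
  rw [h7]
  show (α x * x⁻¹) * x = _
  rw [h6]; group

end CfsgLib.H6Ct
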