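import Mathlib
import Cfsg.Agent.Lib.H6Ct2

/-! S1944: isolated elements of a Sylow subgroup in the `O_{p'p}`-central case -/

namespace CfsgLib.H6Ct
open Subgroup Pointwise
open scoped BigOperators

theorem split {N : Type*} [Group N] [Finite N] {p : ℕ} [Fact p.Prime] (A : Subgroup N) [hAn : A.Normal]
    (hAc : ∀ x ∈ A, ∀ y ∈ A, x * y = y * x) (hAp : IsPGroup p A) (S : Sylow p N) :
    ∃ K : Subgroup N, K ≤ A ⊓ centralizer ((S : Subgroup N) : Set N) ∧ (A ⊓ center N) ⊓ K = ⊥ ∧
      (A ⊓ center N) ⊔ K = A ⊓ centralizer ((S : Subgroup N) : Set N) := by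
  classical
  letI : CommGroup A := { (inferInstance : Group A) with mul_comm := fun a b => Subtype.ext (hAc a a.2 b b.2) }
  haveI : Fintype (N ⧸ (S : Subgroup N)) := Fintype.ofFinite _
  set B := A ⊓ centralizer ((S : Subgroup N) : Set N) with hB
  let τ : B →* A := MonoidHom.mk' (fun b => ∏ q : N ⧸ (S : Subgroup N), MulAut.conjNormal q.out (⟨b, b.2.1⟩ : A)) (by
    intro a b
    rw [← Finset.prod_mul_distrib]
    refine Finset.prod_congr rfl (fun q _ => ?_)
    rw [← map_mul]; rfl)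
  have hτ : ∀ b : B, τ b = ∏ q : N ⧸ (S : Subgroup N), MulAut.conjNormal q.out (⟨b, b.2.1⟩ : A) := fun b => rfl
  have hcj : ∀ (n : N) (b : B), MulAut.conjNormal n (τ b) = τ b := by
    intro n b
    rw [hτ, map_prod]
    have h2 : ∀ q : N ⧸ (S : Subgroup N), MulAut.conjNormal n (MulAut.conjNormal q.out (⟨b, b.2.1⟩ : A)) =
        MulAut.conjNormal (n • q).out (⟨b, b.2.1⟩ : A) := by
      intro q
      have h3 : (QuotientGroup.mk (n * q.out) : N ⧸ (S : Subgroup N)) = n • q := by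
        conv_rhs => rw [← QuotientGroup.out_eq' q]
        rfl
      obtain ⟨s, hs⟩ := QuotientGroup.mk_out_eq_mul (S : Subgroup N) (n * q.out)
      have h4 : (n • q).out = n * q.out * s := by
        rw [← h3]; exact hs
      apply Subtype.ext
      rw [MulAut.conjNormal_apply, MulAut.conjNormal_apply, MulAut.conjNormal_apply, h4]
      have h5 : (s : N) * b = b * s := mem_centralizer_iff.1 b.2.2 s s.2
      have h6 : n * q.out * s * b * (n * q.out * s)⁻¹ = n * q.out * (s * b) * (n * q.out * s)⁻¹ := by group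
      show n * (q.out * (b : N) * q.out⁻¹) * n⁻¹ = n * q.out * s * b * (n * q.out * s)⁻¹
      rw [h6, h5]; group
    rw [Finset.prod_congr rfl (fun q _ => h2 q)]
    exact Fintype.prod_equiv (MulAction.toPerm n) _ _ (fun q => rfl)
  have hτc : ∀ b : B, ((τ b : A) : N) ∈ A ⊓ center N := by
    intro b
    refine mem_inf.2 ⟨(τ b).2, ?_⟩
    rw [mem_center_iff]
    intro n
    have h7 := congrArg Subtype.val (hcj n b)
    rw [MulAut.conjNormal_apply] at h7
    rw [← mul_inv_eq_iff_eq_mul]; exact h7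
  have hcB : A ⊓ center N ≤ B := inf_le_inf_left _ (center_le_centralizer _)
  have hτw : ∀ (w : N) (hw : w ∈ A ⊓ center N), ((τ ⟨w, hcB hw⟩ : A) : N) = w ^ (S : Subgroup N).index := by
    intro w hw
    have h8 : ∀ q : N ⧸ (S : Subgroup N), MulAut.conjNormal q.out (⟨w, hw.1⟩ : A) = ⟨w, hw.1⟩ := by
      intro q
      apply Subtype.ext
      rw [MulAut.conjNormal_apply]
      show q.out * w * q.out⁻¹ = w
      rw [mem_center_iff.1 hw.2 q.out]; group
    rw [hτ]
    show ((∏ q : N ⧸ (S : Subgroup N), MulAut.conjNormal q.out (⟨w, hw.1⟩ : A) : A) : N) = _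
    rw [Finset.prod_congr rfl (fun q _ => h8 q), Finset.prod_const, Finset.card_univ, Subgroup.index, Nat.card_eq_fintype_card]
    rfl
  set W := A ⊓ center N with hW
  have hcop : Nat.Coprime (Nat.card W) (S : Subgroup N).index := by
    obtain ⟨k, hk⟩ := (IsPGroup.iff_card).1 (hAp.to_le (inf_le_left : W ≤ A))
    rw [hk]
    exact Nat.Coprime.pow_left _ (((Fact.out : p.Prime).coprime_iff_not_dvd).2 S.not_dvd_index)
  refine ⟨τ.ker.map B.subtype, map_subtype_le _, ?_, ?_⟩
  · rw [eq_bot_iff]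
    rintro x ⟨hxW, hxK⟩
    obtain ⟨b, hb, hbx⟩ := hxK
    have hbx' : (b : N) = x := hbx
    have h9 : (τ b : A) = 1 := MonoidHom.mem_ker.1 hb
    have h10 : b = ⟨x, hcB hxW⟩ := Subtype.ext hbx'
    have h11 := hτw x hxW
    rw [← h10, h9] at h11
    have h12 : (⟨x, hxW⟩ : W) = 1 := by
      apply (powCoprime hcop).injective
      rw [powCoprime_apply, powCoprime_apply, one_pow]
      apply Subtype.ext
      rw [coe_pow]; exact h11.symm
    exact congrArg Subtype.val h12
  · apply le_antisymm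
    · exact sup_le hcB (map_subtype_le _)
    · intro z hz
      obtain ⟨w, hw⟩ := (powCoprime hcop).surjective ⟨_, hτc ⟨z, hz⟩⟩
      rw [powCoprime_apply] at hw
      have hw' : (w : N) ^ (S : Subgroup N).index = ((τ ⟨z, hz⟩ : A) : N) := by
        have := congrArg Subtype.val hw
        rwa [coe_pow] at this
      have h13 : z = w * ((w : N)⁻¹ * z) := by group
      rw [h13]
      refine mul_mem (mem_sup_left w.2) (mem_sup_right ⟨⟨(w : N), hcB w.2⟩⁻¹ * ⟨z, hz⟩, ?_, rfl⟩)
      show _ ∈ τ.ker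
      rw [MonoidHom.mem_ker, map_mul, map_inv, inv_mul_eq_one]
      apply Subtype.ext
      rw [hτw w w.2, hw']

theorem s1944 {G : Type*} [Group G] [Finite G] {p : ℕ} [Fact p.Prime] (S : Sylow p G)
    (hZ : ((S : Subgroup G) ⊓ Subgroup.centralizer ((S : Subgroup G) : Set G)) ≤ Cfsg.pPrimePCore p G) :
    ∃ W K : Subgroup G, (∀ x : G, x ∈ W ↔ (x ∈ (S : Subgroup G) ∧ ∀ g : G, g * x * g⁻¹ ∈ (S : Subgroup G) → g * x * g⁻¹ = x)) ∧
      K ≤ ((S : Subgroup G) ⊓ Subgroup.centralizer ((S : Subgroup G) : Set G)) ∧ W ⊓ K = ⊥ ∧ W ⊔ K = ((S : Subgroup G) ⊓ Subgroup.centralizer ((S : Subgroup G) : Set G)) := by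
  set Z := (S : Subgroup G) ⊓ centralizer ((S : Subgroup G) : Set G) with hZd
  set H := (S : Subgroup G) ⊓ Cfsg.pPrimePCore p G with hH
  have hKn : (Cfsg.pPrimePCore p G).Normal := CfsgLib.PSolv.pPrimePCore_normal p G
  have hb := (s1907 S).2
  rw [← hH] at hb
  set N := normalizer (H : Set G) with hN
  have hSN : (S : Subgroup G) ≤ N := by
    intro a haP
    have h1 : (S : Subgroup G).map (MulAut.conj a).toMonoidHom = S := CfsgLib.H7Basic.cj_eq_of_mem haP
    have h2 : (Cfsg.pPrimePCore p G).map (MulAut.conj a).toMonoidHom = Cfsg.pPrimePCore p G := CfsgLib.H7Basic.cj_normal a _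
    have h3 : H.map (MulAut.conj a).toMonoidHom = H := by
      rw [hH, CfsgLib.H7Basic.cj_inf, h1, h2]
    exact CfsgLib.H7Basic.cj_eq_self_iff.1 h3
  have hZH : Z ≤ H := le_inf inf_le_left hZ
  have hHS : H ≤ S := inf_le_left
  have hHN : H ≤ N := le_normalizer
  -- the abelian normal subgroup
  set A := H ⊓ centralizer (H : Set G) with hA
  have hAN : N ≤ normalizer (A : Set G) := by
    intro a ha
    have h2 : H.map (MulAut.conj a).toMonoidHom = H := CfsgLib.H7Basic.cj_eq_self_iff.2 ha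
    exact CfsgLib.H7Basic.cj_eq_self_iff.1 (by rw [hA, CfsgLib.H7Basic.cj_inf, CfsgLib.H7Basic.cj_centralizer, h2])
  haveI : (A.subgroupOf N).Normal := normal_subgroupOf_of_le_normalizer hAN
  obtain ⟨K, hK1, hK2, hK3⟩ := split (A.subgroupOf N) (by
      rintro ⟨x, hx⟩ hxA ⟨y, hy⟩ hyA
      apply Subtype.ext
      show x * y = y * x
      exact (mem_centralizer_iff.1 (mem_inf.1 (mem_subgroupOf.1 hyA)).2 x (mem_inf.1 (mem_subgroupOf.1 hxA)).1))
    ((S.isPGroup'.to_le (inf_le_left.trans hHS)).comap_of_injective _ N.subtype_injective) (S.subtype hSN)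
  have hAle : A ≤ N := inf_le_left.trans hHN
  have hZA : Z ≤ A := le_inf hZH (inf_le_right.trans (centralizer_le hHS))
  have e1 : (A.subgroupOf N ⊓ centralizer (((S.subtype hSN : Sylow p N) : Subgroup N) : Set N)).map N.subtype = Z := by
    apply le_antisymm
    · rintro _ ⟨x, hx, rfl⟩
      have h1 := mem_subgroupOf.1 (mem_inf.1 hx).1
      refine mem_inf.2 ⟨hHS (mem_inf.1 h1).1, ?_⟩
      rw [mem_centralizer_iff]
      intro s hs
      have h2 := mem_centralizer_iff.1 (mem_inf.1 hx).2 ⟨s, hSN hs⟩ (by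
        show _ ∈ ((S.subtype hSN : Sylow p N) : Subgroup N)
        rw [Sylow.coe_subtype, mem_subgroupOf]; exact hs)
      exact congrArg Subtype.val h2
    · intro z hz
      refine ⟨⟨z, hAle (hZA hz)⟩, mem_inf.2 ⟨mem_subgroupOf.2 (hZA hz), ?_⟩, rfl⟩
      rw [mem_centralizer_iff]
      intro s hs
      have hs' : (s : G) ∈ (S : Subgroup G) := by
        have h3 : s ∈ ((S.subtype hSN : Sylow p N) : Subgroup N) := hs
        rw [Sylow.coe_subtype, mem_subgroupOf] at h3
        exact h3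
      exact Subtype.ext (mem_centralizer_iff.1 (mem_inf.1 hz).2 s hs')
  refine ⟨(A.subgroupOf N ⊓ center N).map N.subtype, K.map N.subtype, ?_, ?_, ?_, ?_⟩
  · intro x
    constructor
    · rintro ⟨y, hy, rfl⟩
      have h1 := mem_subgroupOf.1 (mem_inf.1 hy).1
      have h2 := (mem_inf.1 hy).2
      refine ⟨hHS (mem_inf.1 h1).1, ?_⟩
      intro g hg
      obtain ⟨n, hn, hny⟩ := hb (y : G) (g * y * g⁻¹) (hHS (mem_inf.1 h1).1) hg (isConj_iff.2 ⟨g, rfl⟩)
      have h4 := congrArg Subtype.val (mem_center_iff.1 h2 ⟨n, hn⟩)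
      have h5 : n * (y : G) = y * n := h4
      show g * (y : G) * g⁻¹ = y
      rw [← hny, h5]; group
    · rintro ⟨hxS, hx⟩
      have hxZ : x ∈ Z := by
        refine mem_inf.2 ⟨hxS, ?_⟩
        rw [mem_centralizer_iff]
        intro s hs
        have h6 := hx s (mul_mem (mul_mem hs hxS) (inv_mem hs))
        rwa [mul_inv_eq_iff_eq_mul] at h6
      refine ⟨⟨x, hAle (hZA hxZ)⟩, mem_inf.2 ⟨mem_subgroupOf.2 (hZA hxZ), ?_⟩, rfl⟩
      rw [mem_center_iff]
      intro n
      apply Subtype.ext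
      have h7 : (n : G) * x * (n : G)⁻¹ ∈ H := (mem_normalizer_iff.1 n.2 x).1 (hZH hxZ)
      have h8 := hx n (hHS h7)
      show (n : G) * x = x * n
      rwa [mul_inv_eq_iff_eq_mul] at h8
  · rw [← e1]; exact map_mono hK1
  · rw [← map_inf _ _ _ N.subtype_injective, hK2, Subgroup.map_bot]
  · rw [← Subgroup.map_sup, hK3, e1]

end CfsgLib.H6Ct
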