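import Mathlib
import Cfsg.Agent.Lib.H6Ct4
import Cfsg.Agent.Lib.SylBridge
import Cfsg.Agent.Lib.H7Basic

/-! S1905: subgroups containing the centralizers of their involutions -/

namespace CfsgLib.H6Ct
open Subgroup Pointwise
open scoped BigOperators

theorem even_comm {G : Type*} [Group G] [Finite G] {z t : G} (hz : z * z = 1) (ht : t * t = 1) (ho : Even (orderOf (z * t))) :
    ∃ u : G, u ≠ 1 ∧ u * u = 1 ∧ u * z = z * u ∧ u * t = t * u := by
  obtain ⟨k, hk⟩ := ho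
  set a := z * t with ha
  have hkpos : 0 < k := by
    have := orderOf_pos a
    omega
  have hu2 : a ^ k * a ^ k = 1 := by rw [← pow_add, ← hk]; exact pow_orderOf_eq_one a
  have hui : (a ^ k)⁻¹ = a ^ k := inv_eq_of_mul_eq_one_left hu2
  have hzu : z * a ^ k = a ^ k * z := by
    have h1 := zpow_inv hz ht k
    rw [← ha, hui] at h1
    calc z * a ^ k = z * a ^ k * z * z := by rw [mul_assoc (z * a ^ k), hz, mul_one]
      _ = a ^ k * z := by rw [h1]
  have hta : t = z * a := by rw [ha, ← mul_assoc, hz, one_mul]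
  have htu : t * a ^ k = a ^ k * t := by
    calc t * a ^ k = z * a * a ^ k := by rw [← hta]
      _ = z * a ^ k * a := by rw [mul_assoc, ← pow_succ', pow_succ, mul_assoc]
      _ = a ^ k * z * a := by rw [hzu]
      _ = a ^ k * t := by rw [mul_assoc, ← hta]
  refine ⟨a ^ k, ?_, hu2, hzu.symm, htu.symm⟩
  intro hcon
  have := orderOf_le_of_pow_eq_one hkpos hcon
  omega

theorem ord2 {G : Type*} [Group G] {x : G} : orderOf x = 2 ↔ x * x = 1 ∧ x ≠ 1 := by
  constructor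
  · intro h
    refine ⟨by rw [← sq, ← h]; exact pow_orderOf_eq_one x, ?_⟩
    rintro rfl
    rw [orderOf_one] at h
    omega
  · rintro ⟨h1, h2⟩
    exact orderOf_eq_prime (by rw [sq]; exact h1) h2

section
variable {S : Type*} [Group S] [Finite S] (M : Subgroup S) (hM : Even (Nat.card M))
    (hC : ∀ i ∈ M, orderOf i = 2 → Subgroup.centralizer ({i} : Set S) ≤ M) (hcore : Odd (Nat.card M.normalCore))

include hC in
theorem odd_out {i j : S} (hi : i ∈ M) (hi2 : orderOf i = 2) (hj : j ∉ M) (hj2 : orderOf j = 2) : Odd (orderOf (i * j)) := by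
  by_contra hcon
  rw [Nat.not_odd_iff_even] at hcon
  obtain ⟨u, hu1, hu2, hui, huj⟩ := even_comm (ord2.1 hi2).1 (ord2.1 hj2).1 hcon
  have h1 : u ∈ M := hC i hi hi2 (mem_centralizer_singleton_iff.2 hui)
  exact hj (hC u h1 (ord2.2 ⟨hu2, hu1⟩) (mem_centralizer_singleton_iff.2 huj.symm))

include hM hcore in
theorem exists_out : ∃ i ∈ M, orderOf i = 2 ∧ ∃ j, j ∉ M ∧ orderOf j = 2 := by
  haveI : Fact (Nat.Prime 2) := ⟨Nat.prime_two⟩
  obtain ⟨⟨i, hi⟩, hi2⟩ := exists_prime_orderOf_dvd_card' (G := M) 2 (even_iff_two_dvd.1 hM)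
  rw [Subgroup.orderOf_mk] at hi2
  refine ⟨i, hi, hi2, ?_⟩
  by_contra hcon
  push_neg at hcon
  have h1 : ∀ g : S, g * i * g⁻¹ ∈ M := by
    intro g
    by_contra h
    refine hcon _ h ?_
    have h2 : g * i * g⁻¹ = MulAut.conj g i := rfl
    rw [h2]
    exact (MulEquiv.orderOf_eq _ _).trans hi2
  have h3 : i ∈ M.normalCore := h1
  have h4 : 2 ∣ Nat.card M.normalCore := by
    have h5 := orderOf_dvd_natCard (⟨i, h3⟩ : M.normalCore)
    rwa [Subgroup.orderOf_mk, hi2] at h5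
  exact (Nat.not_even_iff_odd.2 hcore) (even_iff_two_dvd.2 h4)

include hM hC hcore in
theorem all_conj (x y : S) (hx : orderOf x = 2) (hy : orderOf y = 2) : IsConj x y := by
  have key : ∀ i j : S, i ∈ M → orderOf i = 2 → j ∉ M → orderOf j = 2 → IsConj i j := by
    intro i j hi hi2 hj hj2
    obtain ⟨w, -, hw⟩ := swap_odd (ord2.1 hi2).1 (ord2.1 hj2).1 (odd_out M hC hi hi2 hj hj2)
    exact isConj_iff.2 ⟨w, hw⟩
  obtain ⟨i, hi, hi2, j, hj, hj2⟩ := exists_out M hM hcore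
  by_cases hxM : x ∈ M
  · by_cases hyM : y ∈ M
    · exact (key x j hxM hx hj hj2).trans (key y j hyM hy hj hj2).symm
    · exact key x y hxM hx hyM hy
  · by_cases hyM : y ∈ M
    · exact (key y x hyM hy hxM hx).symm
    · exact (key i x hi hi2 hxM hx).symm.trans (key i y hi hi2 hyM hy)

theorem orderOf_cj (g x : S) : orderOf (g * x * g⁻¹) = orderOf x := by
  have h2 : g * x * g⁻¹ = MulAut.conj g x := rfl
  rw [h2]
  exact MulEquiv.orderOf_eq _ _

include hC in
theorem strong {X : Subgroup S} (hX : CfsgLib.Coprime.IsSyl 2 X M) (hN : normalizer (X : Set S) ≤ M) {z : S} (hz : z ∈ X) (hz2 : orderOf z = 2)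
    (hzX : ∀ x ∈ X, x * z = z * x) {g i : S} (hi : i ∈ M) (hi2 : orderOf i = 2) (hg : g * i * g⁻¹ ∈ M) : g ∈ M := by
  haveI : Fact (Nat.Prime 2) := ⟨Nat.prime_two⟩
  have hXM : X ≤ M := hX.1
  have step1 : ∀ k : S, k * z * k⁻¹ ∈ M → k ∈ M := by
    intro k hk
    have h1 : X.map (MulAut.conj k).toMonoidHom ≤ M := by
      rintro _ ⟨x, hx, rfl⟩
      apply hC _ hk ((orderOf_cj k z).trans hz2)
      rw [mem_centralizer_singleton_iff]
      show k * x * k⁻¹ * (k * z * k⁻¹) = k * z * k⁻¹ * (k * x * k⁻¹)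
      have h2 : k * x * k⁻¹ * (k * z * k⁻¹) = k * (x * z) * k⁻¹ := by group
      rw [h2, hzX x hx]; group
    have h3 : CfsgLib.Coprime.IsSyl 2 (X.map (MulAut.conj k).toMonoidHom) M := by
      refine ⟨h1, ?_⟩
      rw [Subgroup.card_map_of_injective (MulAut.conj k).injective]
      exact hX.2
    obtain ⟨m, hm, hmX⟩ := h3.exists_conj hX
    have h4 : m * k ∈ normalizer (X : Set S) := by
      apply CfsgLib.H7Basic.cj_eq_self_iff.1
      rw [← CfsgLib.H7Basic.cj_cj]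
      exact hmX
    have h5 : k = m⁻¹ * (m * k) := by group
    rw [h5]
    exact mul_mem (inv_mem hm) (hN h4)
  have hip : IsPGroup 2 (zpowers i) := IsPGroup.of_card (n := 1) (by rw [Nat.card_zpowers, hi2, pow_one])
  obtain ⟨P, hP, hiP⟩ := CfsgLib.Coprime.exists_isSyl_ge (zpowers_le.2 hi) hip
  obtain ⟨m, hm, hmX⟩ := hP.exists_conj hX
  have h6 : m * i * m⁻¹ ∈ X := by
    rw [← hmX]
    exact ⟨i, hiP (mem_zpowers _), rfl⟩
  have h7 : (g * m⁻¹) * (m * i * m⁻¹) * (g * m⁻¹)⁻¹ = g * i * g⁻¹ := by group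
  have h8 : g * m⁻¹ ∈ M := by
    apply step1
    apply hC (g * i * g⁻¹) hg ((orderOf_cj g i).trans hi2)
    rw [mem_centralizer_singleton_iff, ← h7]
    have h9 := hzX _ h6
    have h10 : (g * m⁻¹) * z * (g * m⁻¹)⁻¹ * ((g * m⁻¹) * (m * i * m⁻¹) * (g * m⁻¹)⁻¹) = (g * m⁻¹) * (z * (m * i * m⁻¹)) * (g * m⁻¹)⁻¹ := by group
    have h11 : ((g * m⁻¹) * (m * i * m⁻¹) * (g * m⁻¹)⁻¹) * ((g * m⁻¹) * z * (g * m⁻¹)⁻¹) = (g * m⁻¹) * ((m * i * m⁻¹) * z) * (g * m⁻¹)⁻¹ := by group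
    rw [h10, h11, h9]
  have h12 : g = (g * m⁻¹) * m := by group
  rw [h12]; exact mul_mem h8 hm

include hC in
theorem factor (hs : ∀ g i : S, i ∈ M → orderOf i = 2 → g * i * g⁻¹ ∈ M → g ∈ M) {x : S} (hx : x ∉ M) (hx2 : orderOf x = 2)
    {y : S} (hy : y ∈ M) (hy2 : orderOf y = 2) :
    Odd (Nat.card (M ⊓ M.map (MulAut.conj x).toMonoidHom : Subgroup S)) ∧
    ∀ m ∈ M, ∃ a ∈ M ⊓ M.map (MulAut.conj x).toMonoidHom, ∃ c ∈ M ⊓ centralizer ({y} : Set S), m = a * c := by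
  classical
  haveI : Fact (Nat.Prime 2) := ⟨Nat.prime_two⟩
  have hxx := (ord2.1 hx2).1
  have hxi : x⁻¹ = x := inv_eq_of_mul_eq_one_left hxx
  set D := M ⊓ M.map (MulAut.conj x).toMonoidHom with hD
  have hDmem : ∀ d, d ∈ M → x * d * x ∈ M → d ∈ D := by
    intro d hd hd'
    refine mem_inf.2 ⟨hd, ⟨x * d * x, hd', ?_⟩⟩
    show x * (x * d * x) * x⁻¹ = d
    rw [hxi]
    calc x * (x * d * x) * x = (x * x) * d * (x * x) := by group
      _ = d := by rw [hxx]; group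
  have hDodd : Odd (Nat.card D) := by
    rw [← Nat.not_even_iff_odd]
    intro hcon
    obtain ⟨⟨i, hi⟩, hi2⟩ := exists_prime_orderOf_dvd_card' (G := D) 2 (even_iff_two_dvd.1 hcon)
    rw [Subgroup.orderOf_mk] at hi2
    obtain ⟨m, hm, hmi⟩ := (mem_inf.1 hi).2
    have hmi' : x * m * x⁻¹ = i := hmi
    have h1 : orderOf m = 2 := by rw [← orderOf_cj x m, hmi', hi2]
    exact hx (hs x m hm h1 (by rw [hmi']; exact (mem_inf.1 hi).1))
  refine ⟨hDodd, ?_⟩
  -- J and K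
  let J := {i : S // i ∈ M ∧ orderOf i = 2}
  let K := {d : S // d ∈ M ∧ x * d * x = d⁻¹}
  have hKD : ∀ d : K, (d : S) ∈ D := fun d => hDmem d d.2.1 (by rw [d.2.2]; exact inv_mem d.2.1)
  -- injection J → K
  have hw : ∀ i : J, ∃ w : S, w * w = 1 ∧ w * i * w⁻¹ = x * y * x⁻¹ ∧ w * x ∈ M := by
    intro i
    have h1 : x * y * x⁻¹ ∉ M := fun h => hx (hs x y hy hy2 h)
    have h2 : orderOf (x * y * x⁻¹) = 2 := (orderOf_cj x y).trans hy2
    obtain ⟨w, hwc, hw⟩ := swap_odd (ord2.1 i.2.2).1 (ord2.1 h2).1 (odd_out M hC i.2.1 i.2.2 h1 h2)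
    have hww : w * w = 1 := inv_of_conj (ord2.1 i.2.2).1 hwc
    refine ⟨w, hww, hw, ?_⟩
    have hwi : w⁻¹ = w := inv_eq_of_mul_eq_one_left hww
    apply hs (w * x) y hy hy2
    have h3 : w * x * y * (w * x)⁻¹ = w * (x * y * x⁻¹) * w⁻¹ := by group
    rw [h3, ← hw]
    have h4 : w * (w * (i : S) * w⁻¹) * w⁻¹ = (w * w) * i * (w * w)⁻¹ := by group
    rw [h4, hww]
    simpa using i.2.1
  choose f hf1 hf2 hf3 using hw
  let φ : J → K := fun i => ⟨f i * x, hf3 i, by
    have hwi : (f i)⁻¹ = f i := inv_eq_of_mul_eq_one_left (hf1 i)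
    rw [mul_inv_rev, hxi, hwi]
    calc x * (f i * x) * x = x * f i * (x * x) := by group
      _ = x * f i := by rw [hxx, mul_one]⟩
  have hφ : Function.Injective φ := by
    intro i j hij
    have h1 : f i * x = f j * x := congrArg Subtype.val hij
    have h2 : f i = f j := mul_right_cancel h1
    apply Subtype.ext
    have h3 := (hf2 i).trans (hf2 j).symm
    rw [h2] at h3
    exact mul_left_cancel (mul_right_cancel h3)
  let ψ : K → J := fun d => ⟨(d : S)⁻¹ * y * d, mul_mem (mul_mem (inv_mem d.2.1) hy) d.2.1, by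
    have h1 := orderOf_cj (d : S)⁻¹ y
    rw [inv_inv] at h1
    exact h1.trans hy2⟩
  have hψ : Function.Injective ψ := by
    intro h h' hhh
    have h1 : (h : S)⁻¹ * y * h = (h' : S)⁻¹ * y * h' := congrArg Subtype.val hhh
    set c := (h : S) * (h' : S)⁻¹ with hc
    have hcy : y * c = c * y := by
      have h2 : c * y = (h : S) * ((h' : S)⁻¹ * y * h') * (h' : S)⁻¹ := by rw [hc]; group
      rw [h2, ← h1, hc]; group
    have hcD : c ∈ D := mul_mem (hKD h) (inv_mem (hKD h'))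
    set u := (h : S) * x with hu
    have huu : u * u = 1 := by
      have h3 : u * u = h * (x * h * x) := by rw [hu]; group
      rw [h3, h.2.2]; group
    have huM : u ∉ M := by
      intro hcon
      apply hx
      have h4 : x = (h : S)⁻¹ * u := by rw [hu]; group
      rw [h4]; exact mul_mem (inv_mem h.2.1) hcon
    have hu1 : u ≠ 1 := fun h5 => huM (by rw [h5]; exact one_mem M)
    have hodd := odd_out M hC hy hy2 huM (ord2.2 ⟨huu, hu1⟩)
    have hui : u⁻¹ = u := inv_eq_of_mul_eq_one_left huu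
    have huc : u * c * u⁻¹ = c⁻¹ := by
      rw [hui, hc, mul_inv_rev, inv_inv, hu]
      have h6 : (h : S) * x * (h * (h' : S)⁻¹) * (h * x) = h * ((x * h * x) * (x⁻¹ * (h' : S)⁻¹ * x⁻¹)) * (x * h * x) := by group
      have h7 : x⁻¹ * (h' : S)⁻¹ * x⁻¹ = h' := by
        have h8 : x⁻¹ * (h' : S)⁻¹ * x⁻¹ = (x * h' * x)⁻¹ := by group
        rw [h8, h'.2.2, inv_inv]
      rw [h6, h7, h.2.2]; group
    have hyu : (y * u) * c * (y * u)⁻¹ = c⁻¹ := by
      have h9 : (y * u) * c * (y * u)⁻¹ = y * (u * c * u⁻¹) * y⁻¹ := by group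
      rw [h9, huc]
      have h10 : y * c⁻¹ = c⁻¹ * y := by
        have h11 : c * y * c⁻¹ = y := by rw [← hcy]; group
        calc y * c⁻¹ = c⁻¹ * (c * y * c⁻¹) := by group
          _ = c⁻¹ * y := by rw [h11]
      rw [h10]; group
    have hcc : c = c⁻¹ := by
      obtain ⟨n, hn⟩ := hodd
      have gen : ∀ a b c : S, (a * b) * c * (a * b)⁻¹ = a * (b * c * b⁻¹) * a⁻¹ := by intros; group
      have h12 : ∀ k : ℕ, (y * u) ^ (2 * k) * c * ((y * u) ^ (2 * k))⁻¹ = c := by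
        intro k
        induction k with
        | zero => simp
        | succ k ih =>
          have h13 : (y * u) ^ (2 * (k + 1)) = (y * u) * ((y * u) * (y * u) ^ (2 * k)) := by
            rw [← pow_succ', ← pow_succ']; congr 1
          rw [h13]
          rw [gen (y * u) _ c, gen (y * u) _ c, ih, hyu]
          have h15 : (y * u) * c⁻¹ * (y * u)⁻¹ = ((y * u) * c * (y * u)⁻¹)⁻¹ := by group
          rw [h15, hyu, inv_inv]
      have h16 : (y * u) ^ (2 * n + 1) = 1 := by rw [← hn]; exact pow_orderOf_eq_one _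
      have h17 : (y * u) ^ (2 * n + 1) * c * ((y * u) ^ (2 * n + 1))⁻¹ = c⁻¹ := by
        rw [pow_succ']
        rw [gen (y * u) _ c, h12, hyu]
      rw [h16] at h17
      simpa using h17
    have hc1 : c = 1 := by
      by_contra hne
      have h19 : c * c = 1 := by nth_rewrite 1 [hcc]; exact inv_mul_cancel c
      have h20 : orderOf c = 2 := ord2.2 ⟨h19, hne⟩
      have h21 := orderOf_dvd_natCard (⟨c, hcD⟩ : D)
      rw [Subgroup.orderOf_mk, h20] at h21
      exact (Nat.not_even_iff_odd.2 hDodd) (even_iff_two_dvd.2 h21)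
    apply Subtype.ext
    exact mul_inv_eq_one.1 hc1
  have hJf : Finite J := inferInstance
  have hcard : Nat.card K = Nat.card J := le_antisymm (Nat.card_le_card_of_injective ψ hψ) (Nat.card_le_card_of_injective φ hφ)
  have hsurj : Function.Surjective ψ := ((Nat.bijective_iff_injective_and_card ψ).2 ⟨hψ, hcard⟩).2
  intro m hm
  obtain ⟨d, hd⟩ := hsurj ⟨m * y * m⁻¹, mul_mem (mul_mem hm hy) (inv_mem hm), (orderOf_cj m y).trans hy2⟩
  have hd' : (d : S)⁻¹ * y * d = m * y * m⁻¹ := congrArg Subtype.val hd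
  refine ⟨(d : S)⁻¹, inv_mem (hKD d), d * m, mem_inf.2 ⟨mul_mem d.2.1 hm, ?_⟩, by group⟩
  rw [mem_centralizer_singleton_iff]
  have h22 : (d : S) * m * y = d * (m * y * m⁻¹) * m := by group
  rw [h22, ← hd']; group

include hM hC hcore in
theorem s1905 :
    (∀ x y : S, orderOf x = 2 → orderOf y = 2 → IsConj x y) ∧
      ∀ (X : Sylow 2 M) (I : M), I ∈ (Subgroup.center ↥(X : Subgroup ↥M)).map (X : Subgroup ↥M).subtype → orderOf I = 2 →
        Subgroup.normalizer (((X : Subgroup M).map M.subtype : Subgroup S) : Set S) ≤ M →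
        (∀ x y : M, orderOf x = 2 → orderOf y = 2 → IsConj x y) ∧
          ∃ M₀ : Subgroup M, Odd (Nat.card M₀) ∧
            ∀ m : M, ∃ a ∈ M₀, ∃ c ∈ Subgroup.centralizer ({I} : Set M), m = a * c := by
  have hall := all_conj M hM hC hcore
  refine ⟨hall, ?_⟩
  intro X I hI hI2 hN
  haveI : Fact (Nat.Prime 2) := ⟨Nat.prime_two⟩
  have hXs : CfsgLib.Coprime.IsSyl 2 ((X : Subgroup M).map M.subtype) M := CfsgLib.Coprime.isSyl_of_sylow X
  have hI2' : orderOf (I : S) = 2 := by rw [Subgroup.orderOf_coe]; exact hI2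
  have hst : ∀ g i : S, i ∈ M → orderOf i = 2 → g * i * g⁻¹ ∈ M → g ∈ M := by
    intro g i hi hi2 hg
    obtain ⟨⟨I', hI'X⟩, hI'c, rfl⟩ := hI
    refine strong M hC hXs hN (z := (I' : S)) ⟨I', hI'X, rfl⟩ hI2' ?_ hi hi2 hg
    rintro _ ⟨x, hx, rfl⟩
    have := mem_center_iff.1 hI'c ⟨x, hx⟩
    exact congrArg (fun t : X => ((t : M) : S)) this
  refine ⟨?_, ?_⟩
  · intro x y hx hy
    obtain ⟨g, hg⟩ := isConj_iff.1 (hall x y (by rw [Subgroup.orderOf_coe]; exact hx) (by rw [Subgroup.orderOf_coe]; exact hy))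
    have hgM : g ∈ M := hst g x x.2 (by rw [Subgroup.orderOf_coe]; exact hx) (by rw [hg]; exact y.2)
    exact isConj_iff.2 ⟨⟨g, hgM⟩, Subtype.ext hg⟩
  · obtain ⟨i, hi, hi2, j, hj, hj2⟩ := exists_out M hM hcore
    obtain ⟨h1, h2⟩ := factor M hC hst hj hj2 I.2 hI2'
    set D := M ⊓ M.map (MulAut.conj j).toMonoidHom with hD
    refine ⟨D.subgroupOf M, ?_, ?_⟩
    · have h3 : Nat.card (D.subgroupOf M) = Nat.card D := Nat.card_congr (Subgroup.subgroupOfEquivOfLe (inf_le_left : D ≤ M)).toEquiv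
      rw [h3]; exact h1
    · rintro ⟨m, hm⟩
      obtain ⟨a, ha, c, hc, hmac⟩ := h2 m hm
      refine ⟨⟨a, (mem_inf.1 ha).1⟩, mem_subgroupOf.2 ha, ⟨c, (mem_inf.1 hc).1⟩, ?_, Subtype.ext hmac⟩
      rw [mem_centralizer_singleton_iff]
      exact Subtype.ext (mem_centralizer_singleton_iff.1 (mem_inf.1 hc).2)

end

end CfsgLib.H6Ct
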