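import Mathlib
import Cfsg.Agent.Lib.PL1
import Cfsg.Prelude.Def_PLocal

/-! Thompson replacement for abelian subgroups; S3063 -/

namespace CfsgLib.H6Cu
open Subgroup
open scoped commutatorElement

/-- the subgroup generated by the commutators `[a, u]` -/
def cM {P : Type*} [Group P] (A : Subgroup P) (u : P) : Subgroup P := closure {x : P | ∃ a ∈ A, x = a⁻¹ * (u⁻¹ * a * u)}

theorem repl {P : Type*} [Group P] [Finite P] (A : Subgroup P) (hA : ∀ a ∈ A, ∀ b ∈ A, a * b = b * a) (u : P)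
    (hM : ∀ a ∈ cM A u, ∀ b ∈ cM A u, a * b = b * a) :
    Nat.card A ≤ Nat.card (cM A u ⊔ (A ⊓ centralizer (cM A u : Set P)) : Subgroup P) := by
  classical
  set M := cM A u with hMdef
  set C := A ⊓ centralizer (M : Set P) with hC
  have hin : ∀ a ∈ A, a⁻¹ * (u⁻¹ * a * u) ∈ M := fun a ha => subset_closure ⟨a, ha, rfl⟩
  have key : ∀ a ∈ A, ∀ b ∈ A, (a⁻¹ * (u⁻¹ * a * u))⁻¹ * (b⁻¹ * (u⁻¹ * b * u)) ∈ C → a⁻¹ * b ∈ C := by
    intro a ha b hb hz
    set z := (a⁻¹ * (u⁻¹ * a * u))⁻¹ * (b⁻¹ * (u⁻¹ * b * u)) with hzdef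
    have hzA : ∀ x ∈ A, x * z = z * x := fun x hx => hA x hx z (mem_inf.1 hz).1
    have hzM : ∀ x ∈ M, x * z = z * x := fun x hx => mem_centralizer_iff.1 (mem_inf.1 hz).2 x hx
    have hzU : ∀ x ∈ A, (u⁻¹ * x * u) * z = z * (u⁻¹ * x * u) := by
      intro x hx
      have h1 : u⁻¹ * x * u = x * (x⁻¹ * (u⁻¹ * x * u)) := by group
      rw [h1, mul_assoc, hzM _ (hin x hx), ← mul_assoc, hzA x hx, mul_assoc]
    -- d = a⁻¹ b, d^u = d z
    have hd : u⁻¹ * (a⁻¹ * b) * u = (a⁻¹ * b) * z := by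
      have h2 : b⁻¹ * (u⁻¹ * b * u) = (a⁻¹ * (u⁻¹ * a * u)) * z := by rw [hzdef]; group
      have h3 : u⁻¹ * b * u = b * (a⁻¹ * (u⁻¹ * a * u)) * z := by
        calc u⁻¹ * b * u = b * (b⁻¹ * (u⁻¹ * b * u)) := by group
          _ = b * (a⁻¹ * (u⁻¹ * a * u)) * z := by rw [h2]; group
      have h4 : u⁻¹ * (a⁻¹ * b) * u = (u⁻¹ * a * u)⁻¹ * (u⁻¹ * b * u) := by group
      have h5 : b * a⁻¹ = a⁻¹ * b := hA b hb _ (inv_mem ha)
      rw [h4, h3]
      -- (a^u)⁻¹ * (b a⁻¹ a^u z) ; b a⁻¹ commutes? use u-conjugation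
      have h6 : (u⁻¹ * b * u) * (u⁻¹ * a * u)⁻¹ = b * a⁻¹ * z := by
        rw [h3]
        have h7 := hzU _ (inv_mem ha)
        calc b * (a⁻¹ * (u⁻¹ * a * u)) * z * (u⁻¹ * a * u)⁻¹ = b * a⁻¹ * (u⁻¹ * a * u) * (z * (u⁻¹ * a⁻¹ * u)) := by group
          _ = b * a⁻¹ * (u⁻¹ * a * u) * ((u⁻¹ * a⁻¹ * u) * z) := by rw [h7]
          _ = b * a⁻¹ * z := by group
      have h8 : (u⁻¹ * b * u) * (u⁻¹ * a * u)⁻¹ = (u⁻¹ * a * u)⁻¹ * (u⁻¹ * b * u) := by
        have h9 : (u⁻¹ * b * u) * (u⁻¹ * a * u)⁻¹ = u⁻¹ * (b * a⁻¹) * u := by group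
        rw [h9, h5]; group
      rw [← h3, ← h8, h6, h5]
    refine mem_inf.2 ⟨mul_mem (inv_mem ha) hb, ?_⟩
    have hdA : a⁻¹ * b ∈ A := mul_mem (inv_mem ha) hb
    have h10 : M ≤ centralizer ({a⁻¹ * b} : Set P) := by
      rw [hMdef, cM, closure_le]
      rintro _ ⟨x, hx, rfl⟩
      show _ ∈ centralizer ({a⁻¹ * b} : Set P)
      rw [mem_centralizer_singleton_iff]
      set d := a⁻¹ * b with hddef
      have h11 : (u⁻¹ * x * u) * (u⁻¹ * d * u) = (u⁻¹ * d * u) * (u⁻¹ * x * u) := by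
        have h12 := hA x hx d hdA
        calc (u⁻¹ * x * u) * (u⁻¹ * d * u) = u⁻¹ * (x * d) * u := by group
          _ = (u⁻¹ * d * u) * (u⁻¹ * x * u) := by rw [h12]; group
      rw [hd] at h11
      have h13 : (u⁻¹ * x * u) * d = d * (u⁻¹ * x * u) := by
        have h14 := hzU x hx
        have h15 : (u⁻¹ * x * u) * d * z = d * (u⁻¹ * x * u) * z := by
          calc (u⁻¹ * x * u) * d * z = (u⁻¹ * x * u) * (d * z) := by group
            _ = d * z * (u⁻¹ * x * u) := h11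
            _ = d * (z * (u⁻¹ * x * u)) := by group
            _ = d * ((u⁻¹ * x * u) * z) := by rw [h14]
            _ = _ := by group
        exact mul_right_cancel h15
      have h16 : x⁻¹ * d = d * x⁻¹ := hA _ (inv_mem hx) d hdA
      calc x⁻¹ * (u⁻¹ * x * u) * d = x⁻¹ * ((u⁻¹ * x * u) * d) := by group
        _ = (x⁻¹ * d) * (u⁻¹ * x * u) := by rw [h13]; group
        _ = d * (x⁻¹ * (u⁻¹ * x * u)) := by rw [h16]; group
    rw [mem_centralizer_iff]
    intro m hm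
    exact mem_centralizer_singleton_iff.1 (h10 hm)
  have hCA : C ≤ A := inf_le_left
  have h1 : C.relIndex A ≤ C.relIndex M := by
    rw [Subgroup.relIndex, Subgroup.relIndex, Subgroup.index, Subgroup.index]
    refine Nat.card_le_card_of_injective
      (fun q : A ⧸ C.subgroupOf A => (QuotientGroup.mk (⟨_, hin q.out q.out.2⟩ : M) : M ⧸ C.subgroupOf M)) ?_
    intro q q' hqq
    have h2 := QuotientGroup.eq.1 hqq
    have h3 := key _ q.out.2 _ q'.out.2 (mem_subgroupOf.1 h2)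
    rw [← QuotientGroup.out_eq' q, ← QuotientGroup.out_eq' q', QuotientGroup.eq, mem_subgroupOf]
    exact h3
  have h4 : C.relIndex M ≤ C.relIndex (M ⊔ C) := Subgroup.relIndex_le_of_le_right le_sup_left (by rw [Subgroup.relIndex]; exact Subgroup.index_ne_zero_of_finite)
  have h5 := CfsgLib.PL1.relIndex_mul_card hCA
  have h6 := CfsgLib.PL1.relIndex_mul_card (le_sup_right : C ≤ M ⊔ C)
  rw [← h5, ← h6]
  exact Nat.mul_le_mul_right _ (h1.trans h4)

theorem s3063 {S : Type*} [Group S] [Finite S] (hmeta : IsMulCommutative ↥(commutator S))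
    (A : Subgroup S) (hA : A ∈ Cfsg.maxAbelianSubgroups S) :
    ∃ B ∈ Cfsg.maxAbelianSubgroups S, B.Normal ∧ B ≤ Subgroup.normalClosure (A : Set S) := by
  classical
  have hS' : ∀ x ∈ commutator S, ∀ y ∈ commutator S, x * y = y * x := fun x hx y hy =>
    congrArg Subtype.val (hmeta.is_comm.comm ⟨x, hx⟩ ⟨y, hy⟩)
  set N := normalClosure (A : Set S) with hN
  have hfin : ({B : Subgroup S | B ∈ Cfsg.maxAbelianSubgroups S ∧ B ≤ N}).Finite := Set.toFinite _
  obtain ⟨B, ⟨hB, hBN⟩, hmax⟩ := hfin.exists_maximalFor (fun B : Subgroup S => Nat.card (B ⊓ commutator S : Subgroup S)) _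
    ⟨A, hA, subset_normalClosure⟩
  have hBc : ∀ x ∈ B, ∀ y ∈ B, x * y = y * x := fun x hx y hy =>
    congrArg Subtype.val (hB.1.is_comm.comm ⟨x, hx⟩ ⟨y, hy⟩)
  refine ⟨B, hB, ?_, hBN⟩
  constructor
  intro b hb g
  set u := g⁻¹ with hu
  set M := cM B u with hM
  have hMS : M ≤ commutator S := by
    rw [hM, cM, closure_le]
    rintro _ ⟨a, -, rfl⟩
    have h1 : a⁻¹ * (u⁻¹ * a * u) = ⁅a⁻¹, u⁻¹⁆ := by rw [commutatorElement_def]; group
    rw [h1]
    exact commutator_mem_commutator (mem_top _) (mem_top _)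
  have hMN : M ≤ N := by
    rw [hM, cM, closure_le]
    rintro _ ⟨a, ha, rfl⟩
    refine mul_mem (inv_mem (hBN ha)) ?_
    have h10 : u⁻¹ * a * u = g * a * g⁻¹ := by rw [hu, inv_inv]
    rw [h10]
    exact (normalClosure_normal (s := (A : Set S))).conj_mem a (hBN ha) g
  have hMc : ∀ x ∈ M, ∀ y ∈ M, x * y = y * x := fun x hx y hy => hS' x (hMS hx) y (hMS hy)
  have hle := repl B hBc u hMc
  set C := B ⊓ centralizer (M : Set S) with hC
  have hBst : IsMulCommutative (M ⊔ C : Subgroup S) := by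
    have h2 : ∀ x ∈ C, ∀ y ∈ C, x * y = y * x := fun x hx y hy => hBc x (mem_inf.1 hx).1 y (mem_inf.1 hy).1
    have h3 : ∀ x ∈ M, ∀ y ∈ C, x * y = y * x := fun x hx y hy => mem_centralizer_iff.1 (mem_inf.1 hy).2 x hx
    have h4 : M ⊔ C ≤ centralizer ((M ⊔ C : Subgroup S) : Set S) := by
      have h5 : M ≤ centralizer ((M ⊔ C : Subgroup S) : Set S) := by
        rw [le_centralizer_iff]
        refine sup_le ?_ ?_
        · intro x hx; rw [mem_centralizer_iff]; intro y hy; exact hMc y hy x hx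
        · intro x hx; rw [mem_centralizer_iff]; intro y hy; exact h3 y hy x hx
      have h6 : C ≤ centralizer ((M ⊔ C : Subgroup S) : Set S) := by
        rw [le_centralizer_iff]
        refine sup_le ?_ ?_
        · intro x hx; rw [mem_centralizer_iff]; intro y hy; exact (h3 x hx y hy).symm
        · intro x hx; rw [mem_centralizer_iff]; intro y hy; exact h2 y hy x hx
      exact sup_le h5 h6
    exact ⟨⟨fun a b => Subtype.ext (mem_centralizer_iff.1 (h4 b.2) a a.2)⟩⟩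
  have hmaxB : (M ⊔ C) ∈ Cfsg.maxAbelianSubgroups S := ⟨hBst, fun D hD => (hB.2 D hD).trans hle⟩
  have hcap : B ⊓ commutator S ≤ (M ⊔ C) ⊓ commutator S := by
    refine le_inf ?_ inf_le_right
    intro x hx
    refine mem_sup_right (mem_inf.2 ⟨(mem_inf.1 hx).1, ?_⟩)
    rw [mem_centralizer_iff]
    intro y hy
    exact hS' y (hMS hy) x (mem_inf.1 hx).2
  have hcard : Nat.card ((M ⊔ C) ⊓ commutator S : Subgroup S) ≤ Nat.card (B ⊓ commutator S : Subgroup S) :=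
    hmax (show (M ⊔ C) ∈ {B : Subgroup S | B ∈ Cfsg.maxAbelianSubgroups S ∧ B ≤ N} from ⟨hmaxB, sup_le hMN (inf_le_left.trans hBN)⟩)
      (Nat.card_le_card_of_injective _ (inclusion_injective hcap))
  have heq : B ⊓ commutator S = (M ⊔ C) ⊓ commutator S := Subgroup.eq_of_le_of_card_ge hcap hcard
  have hMB : M ≤ B := (le_inf le_sup_left hMS).trans (heq.ge.trans inf_le_left)
  have h7 : b⁻¹ * (u⁻¹ * b * u) ∈ B := hMB (subset_closure ⟨b, hb, rfl⟩)
  have h8 : g * b * g⁻¹ = b * (b⁻¹ * (u⁻¹ * b * u)) := by rw [hu]; group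
  rw [h8]
  exact mul_mem hb h7

end CfsgLib.H6Cu
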