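import Mathlib
import Cfsg.Agent.Lib.FrobThm
import Cfsg.Agent.Lib.Hall

/-! S3064: an isolated `p`-element centralizing every `p'`-subgroup it normalizes is central -/

namespace CfsgLib.H6Cu
open Subgroup Pointwise

universe u

theorem coprime_of_pow {G : Type u} [Group G] {a : G} {m n : ℕ} (h1 : a ^ m = 1) (h2 : a ^ n = 1) (h : m.Coprime n) : a = 1 := by
  have h3 : orderOf a ∣ Nat.gcd m n := Nat.dvd_gcd (orderOf_dvd_of_pow_eq_one h1) (orderOf_dvd_of_pow_eq_one h2)
  rwa [h.gcd_eq_one, Nat.dvd_one, orderOf_eq_one_iff] at h3

theorem iso_main {p : ℕ} [hp : Fact p.Prime] (n : ℕ) : ∀ (G : Type u) [Group G] [Finite G], Nat.card G ≤ n → ∀ x : G, (∃ k : ℕ, x ^ (p ^ k) = 1) →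
    (∀ g : G, x * (g * x * g⁻¹) = (g * x * g⁻¹) * x → g * x * g⁻¹ = x) →
    (∀ H : Subgroup G, (Nat.card H).Coprime p → (∀ h ∈ H, x * h * x⁻¹ ∈ H) → ∀ h ∈ H, x * h = h * x) → x ∈ center G := by
  induction n with
  | zero =>
    intro G _ _ hn
    have := Nat.card_pos (α := G)
    omega
  | succ n ih =>
    intro G _ _ hn x hxp hiso hcen
    by_contra hx
    obtain ⟨k, hk⟩ := hxp
    have hx1 : x ≠ 1 := fun h => hx (h ▸ one_mem _)
    have hsub : ∀ K : Subgroup G, K ≠ ⊤ → x ∈ K → ∀ g ∈ K, g * x = x * g := by
      intro K hK hxK g hg
      have hcard : Nat.card K < Nat.card G := by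
        refine lt_of_le_of_ne (Nat.card_le_card_of_injective _ K.subtype_injective) ?_
        intro h
        exact hK (Subgroup.eq_top_of_card_eq K h)
      have h1 : (⟨x, hxK⟩ : K) ∈ center K := by
        refine ih K (by omega) ⟨x, hxK⟩ ⟨k, Subtype.ext hk⟩ ?_ ?_
        · rintro ⟨a, ha⟩ hcom
          exact Subtype.ext (hiso a (congrArg Subtype.val hcom))
        · intro H hH hxH h hh
          have h2 : Nat.card (H.map K.subtype) = Nat.card H := Subgroup.card_map_of_injective K.subtype_injective
          apply Subtype.ext
          refine hcen (H.map K.subtype) (by rw [h2]; exact hH) ?_ h ⟨h, hh, rfl⟩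
          rintro _ ⟨l, hl, rfl⟩
          exact ⟨_, hxH l hl, rfl⟩
      exact congrArg Subtype.val (mem_center_iff.1 h1 ⟨g, hg⟩)
    set C := centralizer ({x} : Set G) with hC
    have hxC : x ∈ C := mem_centralizer_singleton_iff.2 rfl
    have hCt : C ≠ ⊤ := by
      intro h
      apply hx
      rw [mem_center_iff]
      intro g
      have : g ∈ C := by rw [h]; exact mem_top g
      exact mem_centralizer_singleton_iff.1 this
    by_cases hZ : center G = ⊥
    · -- Frobenius case
      have hF : Cfsg.IsFrobeniusComplement C := by
        refine ⟨?_, hCt, ?_⟩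
        · intro h
          rw [h, mem_bot] at hxC
          exact hx1 hxC
        · intro g hg
          rw [eq_bot_iff]
          intro y hy
          rw [mem_bot]
          by_contra hy1
          obtain ⟨hyC, c, hc, hcy⟩ := mem_inf.1 hy
          have hcy' : g * c * g⁻¹ = y := hcy
          have hyK : centralizer ({y} : Set G) ≠ ⊤ := by
            intro h
            apply hy1
            have : y ∈ center G := by
              rw [mem_center_iff]
              intro a
              have ha : a ∈ centralizer ({y} : Set G) := by rw [h]; exact mem_top a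
              exact mem_centralizer_singleton_iff.1 ha
            rwa [hZ, mem_bot] at this
          have h3 : x ∈ centralizer ({y} : Set G) := mem_centralizer_singleton_iff.2 (mem_centralizer_singleton_iff.1 hyC).symm
          have h4 : g * x * g⁻¹ ∈ centralizer ({y} : Set G) := by
            rw [mem_centralizer_singleton_iff, ← hcy']
            have h5 := mem_centralizer_singleton_iff.1 (show c ∈ C from hc)
            calc g * x * g⁻¹ * (g * c * g⁻¹) = g * (x * c) * g⁻¹ := by group
              _ = g * c * g⁻¹ * (g * x * g⁻¹) := by rw [← h5]; group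
          have h6 := hiso g (hsub _ hyK h3 _ h4).symm
          apply hg
          rw [hC, mem_centralizer_singleton_iff]
          calc g * x = (g * x * g⁻¹) * g := by group
            _ = x * g := by rw [h6]
      obtain ⟨N, -, hNn, hNC⟩ := CfsgLib.FrobThm.frobenius_theorem C hF
      have hNp : (Nat.card N).Coprime p := by
        letI : MulAction (zpowers x) N := MulAction.compHom N ((MulAut.conjNormal : G →* MulAut N).comp (zpowers x).subtype)
        have hpg : IsPGroup p (zpowers x) := by
          obtain ⟨j, -, hj⟩ := (Nat.dvd_prime_pow hp.out).1 (orderOf_dvd_of_pow_eq_one hk)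
          exact IsPGroup.of_card (n := j) (by rw [Nat.card_zpowers, hj])
        have h7 := hpg.card_modEq_card_fixedPoints N
        have h8 : Nat.card (MulAction.fixedPoints (zpowers x) N) = 1 := by
          rw [Nat.card_eq_one_iff_unique]
          refine ⟨⟨?_⟩, ⟨⟨1, fun g => ?_⟩⟩⟩
          · have h9 : ∀ a : MulAction.fixedPoints (zpowers x) N, ((a : N) : G) = 1 := by
              rintro ⟨a, ha⟩
              have h10 := ha ⟨x, mem_zpowers x⟩
              have h11 : x * (a : G) * x⁻¹ = a := congrArg Subtype.val h10
              have h12 : (a : G) ∈ N ⊓ C := by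
                refine mem_inf.2 ⟨a.2, ?_⟩
                rw [hC, mem_centralizer_singleton_iff]
                exact (mul_inv_eq_iff_eq_mul.1 h11).symm
              rw [hNC.disjoint.eq_bot, mem_bot] at h12
              exact h12
            intro a b
            exact Subtype.ext (Subtype.ext ((h9 a).trans (h9 b).symm))
          · show (MulAut.conjNormal (g : G)) (1 : N) = 1
            exact map_one (MulAut.conjNormal (g : G))
        rw [h8] at h7
        have h13 : ¬ p ∣ Nat.card N := by
          intro hd
          have h14 := (Nat.modEq_zero_iff_dvd.2 hd).symm.trans h7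
          have h15 : p ∣ 1 := Nat.modEq_zero_iff_dvd.1 h14.symm
          exact hp.out.one_lt.ne' (Nat.dvd_one.1 h15)
        exact (hp.out.coprime_iff_not_dvd.2 h13).symm
      have h16 : N ≤ C := by
        intro a ha
        rw [hC, mem_centralizer_singleton_iff]
        exact (hcen N hNp (fun h hh => hNn.conj_mem h hh x) a ha).symm
      have h17 : N = ⊥ := by
        rw [eq_bot_iff, ← hNC.disjoint.eq_bot]
        exact le_inf le_rfl h16
      have h18 := hNC.sup_eq_top
      rw [h17, bot_sup_eq] at h18
      exact hCt h18
    · -- central case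
      haveI : Nontrivial (center G) := (nontrivial_iff_ne_bot _).2 hZ
      obtain ⟨r, hr, hrd⟩ := Nat.exists_prime_and_dvd (Finite.one_lt_card (α := center G)).ne'
      haveI : Fact r.Prime := ⟨hr⟩
      obtain ⟨⟨z, hz⟩, hzo⟩ := exists_prime_orderOf_dvd_card' r hrd
      rw [Subgroup.orderOf_mk] at hzo
      set Z := zpowers z with hZdef
      have hZc : Z ≤ center G := zpowers_le.2 hz
      haveI hZn : Z.Normal := by
        constructor
        intro a ha g
        have h1 := mem_center_iff.1 (hZc ha) g
        have h2 : g * a * g⁻¹ = a := by rw [h1]; group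
        rwa [h2]
      have hZcard : Nat.card Z = r := by rw [hZdef, Nat.card_zpowers, hzo]
      have hcommZ : ∀ a ∈ Z, ∀ g : G, g * a = a * g := fun a ha g => mem_center_iff.1 (hZc ha) g
      have hcardq : Nat.card (G ⧸ Z) < Nat.card G := by
        have h1 := Subgroup.card_eq_card_quotient_mul_card_subgroup Z
        rw [hZcard] at h1
        rw [h1]
        exact lt_mul_of_one_lt_right Nat.card_pos hr.one_lt
      set π := QuotientGroup.mk' Z with hπ
      have hker : ∀ a, π a = 1 ↔ a ∈ Z := by
        intro a
        rw [← MonoidHom.mem_ker, hπ, QuotientGroup.ker_mk']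
      have hπs : Function.Surjective π := QuotientGroup.mk'_surjective Z
      -- conjugates of x congruent to x mod Z are x
      have hmod : ∀ g : G, π (g * x * g⁻¹) = π x → g * x * g⁻¹ = x := by
        intro g hg
        have h1 : x⁻¹ * (g * x * g⁻¹) ∈ Z := by
          rw [← hker, map_mul, hg, map_inv, inv_mul_cancel]
        apply hiso
        have h2 : g * x * g⁻¹ = x * (x⁻¹ * (g * x * g⁻¹)) := by group
        have h3 := hcommZ _ h1 x
        rw [h2]
        rw [mul_assoc x (x⁻¹ * (g * x * g⁻¹)) x, ← h3]
      have hxq : π x ∈ center (G ⧸ Z) := by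
        refine ih (G ⧸ Z) (by omega) (π x) ⟨k, by rw [← map_pow, hk, map_one]⟩ ?_ ?_
        · intro gq hcom
          obtain ⟨g, rfl⟩ := hπs gq
          rw [← map_inv, ← map_mul, ← map_mul] at hcom ⊢
          -- x^{(gxg⁻¹)} ≡ x
          obtain ⟨y, hy⟩ : ∃ y, y = g * x * g⁻¹ := ⟨_, rfl⟩
          rw [← hy] at hcom ⊢
          have h1 : y * x * y⁻¹ = x := by
            apply hmod
            rw [map_mul, map_mul, map_inv, mul_inv_eq_iff_eq_mul]
            exact hcom.symm
          have h3 : y = x := by
            rw [hy]
            apply hiso g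
            rw [← hy]
            exact (mul_inv_eq_iff_eq_mul.1 h1).symm
          rw [h3]
        · intro Hq hHq hxHq
          set H := Hq.comap π with hH
          have hZH : Z ≤ H := by
            intro a ha
            rw [hH, mem_comap, (hker a).2 ha]
            exact one_mem _
          have hxH : ∀ h ∈ H, x * h * x⁻¹ ∈ H := by
            intro h hh
            rw [hH, mem_comap, map_mul, map_mul, map_inv]
            exact hxHq _ hh
          have hcardH : Nat.card H = Nat.card Hq * Nat.card Z := CfsgLib.Hall.card_comap_mk Z Hq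
          by_cases hrp : r = p
          · -- split off Z
            have hi : (Z.subgroupOf H).index = Nat.card Hq := by
              have h1 := Subgroup.card_mul_index (Z.subgroupOf H)
              rw [Nat.card_congr (Subgroup.subgroupOfEquivOfLe hZH).toEquiv, hcardH, mul_comm] at h1
              exact Nat.eq_of_mul_eq_mul_right Nat.card_pos h1
            have hcopZ : Nat.Coprime (Nat.card (Z.subgroupOf H)) (Z.subgroupOf H).index := by
              rw [Nat.card_congr (Subgroup.subgroupOfEquivOfLe hZH).toEquiv, hi, hZcard, hrp]
              exact hHq.symm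
            obtain ⟨L, hL⟩ := Subgroup.exists_right_complement'_of_coprime hcopZ
            have hLcard : Nat.card L = Nat.card Hq := by
              rw [← hi]
              exact hL.symm.index_eq_card.symm
            have hLi : L.index = p := by
              rw [hL.index_eq_card, Nat.card_congr (Subgroup.subgroupOfEquivOfLe hZH).toEquiv, hZcard, hrp]
            have hdec : ∀ g : H, ∃ a ∈ Z.subgroupOf H, ∃ l ∈ L, a * l = g := by
              intro g
              have h1 : g ∈ Z.subgroupOf H ⊔ L := by rw [hL.sup_eq_top]; exact mem_top g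
              obtain ⟨a, ha, l, hl, h2⟩ := mem_sup_of_normal_left.1 h1
              exact ⟨a, ha, l, hl, h2⟩
            have hLn : L.Normal := by
              constructor
              intro l hl g
              obtain ⟨a, ha, b, hb, rfl⟩ := hdec g
              have h2 : ∀ c : H, c * a = a * c := fun c => Subtype.ext (hcommZ a (mem_subgroupOf.1 ha) c)
              have h3 : a * b * l * (a * b)⁻¹ = b * l * b⁻¹ := by
                have h4 : a * b * l * (a * b)⁻¹ = (a * (b * l * b⁻¹)) * a⁻¹ := by group
                rw [h4, ← h2]; group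
              rw [h3]
              exact mul_mem (mul_mem hb hl) (inv_mem hb)
            have hLmem : ∀ h : H, (orderOf h).Coprime p → h ∈ L := by
              intro h hh
              have h1 : QuotientGroup.mk' L h = 1 := by
                apply coprime_of_pow (m := orderOf h) (n := p)
                · rw [← map_pow, pow_orderOf_eq_one, map_one]
                · rw [← hLi]; exact pow_card_eq_one' (G := H ⧸ L)
                · exact hh
              rwa [← MonoidHom.mem_ker, QuotientGroup.ker_mk'] at h1
            have hLord : ∀ l ∈ L, (orderOf l).Coprime p := by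
              intro l hl
              have h1 := orderOf_dvd_natCard (⟨l, hl⟩ : L)
              rw [Subgroup.orderOf_mk, hLcard] at h1
              exact Nat.Coprime.coprime_dvd_left h1 hHq
            have hLx := hcen (L.map H.subtype) (by rw [Subgroup.card_map_of_injective H.subtype_injective, hLcard]; exact hHq) (by
              rintro _ ⟨l, hl, rfl⟩
              refine ⟨⟨x * l * x⁻¹, hxH l l.2⟩, hLmem _ ?_, rfl⟩
              rw [Subgroup.orderOf_mk]
              have h1 : x * (l : G) * x⁻¹ = MulAut.conj x l := rfl
              rw [h1, MulEquiv.orderOf_eq, Subgroup.orderOf_coe]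
              exact hLord l hl)
            intro hq hhq
            obtain ⟨h, rfl⟩ := hπs hq
            obtain ⟨a, ha, l, hl, hal⟩ := hdec ⟨h, hhq⟩
            have h1 : (a : G) * l = h := congrArg Subtype.val hal
            have h2 : x * h = h * x := by
              rw [← h1]
              have h3 := hLx l ⟨l, hl, rfl⟩
              have h4 := hcommZ a (mem_subgroupOf.1 ha) x
              have h3' : x * (l : G) = l * x := h3
              calc x * ((a : G) * l) = (x * a) * l := by group
                _ = a * (x * l) := by rw [h4]; group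
                _ = a * l * x := by rw [h3']; group
            rw [← map_mul, h2, map_mul]
          · intro hq hhq
            obtain ⟨h, rfl⟩ := hπs hq
            have h1 : (Nat.card H).Coprime p := by
              rw [hcardH, hZcard]
              exact Nat.Coprime.mul_left hHq ((Nat.coprime_primes hr hp.out).2 hrp)
            have h2 := hcen H h1 hxH h hhq
            rw [← map_mul, h2, map_mul]
      apply hx
      rw [mem_center_iff]
      intro g
      have h1 : g * x * g⁻¹ = x := by
        apply hmod
        have h2 := mem_center_iff.1 hxq (π g)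
        rw [map_mul, map_mul, map_inv, h2]
        group
      rwa [mul_inv_eq_iff_eq_mul] at h1

theorem s3064 {G : Type u} [Group G] [Finite G] {p : ℕ} [Fact p.Prime]
    (S : Sylow p G) (x : G) (hx : x ∈ S)
    (hU : ∀ g : G, g⁻¹ * x * g ∈ S → g⁻¹ * x * g = x)
    (hb : ∀ H : Subgroup G, (Nat.card H).Coprime p → (∀ h ∈ H, x * h * x⁻¹ ∈ H) → ∀ h ∈ H, x * h = h * x) :
    x ∈ Subgroup.center G := by
  obtain ⟨k, hk⟩ := S.isPGroup' ⟨x, hx⟩
  refine iso_main (p := p) (Nat.card G) G le_rfl x ⟨k, congrArg Subtype.val hk⟩ ?_ hb
  intro g hcom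
  have hxp : x ^ (p ^ k) = 1 := congrArg Subtype.val hk
  -- the group generated by x and its conjugate is a p-group
  have hyp : (g * x * g⁻¹) ^ (p ^ k) = 1 := by rw [conj_pow, hxp]; group
  have hpx : IsPGroup p (zpowers x) := by
    obtain ⟨j, -, hj⟩ := (Nat.dvd_prime_pow (Fact.out : p.Prime)).1 (orderOf_dvd_of_pow_eq_one hxp)
    exact IsPGroup.of_card (n := j) (by rw [Nat.card_zpowers, hj])
  have hpy : IsPGroup p (zpowers (g * x * g⁻¹)) := by
    obtain ⟨j, -, hj⟩ := (Nat.dvd_prime_pow (Fact.out : p.Prime)).1 (orderOf_dvd_of_pow_eq_one hyp)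
    exact IsPGroup.of_card (n := j) (by rw [Nat.card_zpowers, hj])
  have hnorm : zpowers x ≤ normalizer ((zpowers (g * x * g⁻¹) : Subgroup G) : Set G) := by
    rw [zpowers_le]
    apply Subgroup.centralizer_le_normalizer
    rw [mem_centralizer_iff]
    intro y hy
    obtain ⟨m, rfl⟩ := mem_zpowers_iff.1 hy
    have h1 : Commute x (g * x * g⁻¹) := hcom
    exact ((h1.zpow_right m)).symm
  have hpp : IsPGroup p (zpowers x ⊔ zpowers (g * x * g⁻¹) : Subgroup G) := IsPGroup.to_sup_of_normal_right' hpx hpy hnorm
  obtain ⟨T, hT⟩ := hpp.exists_le_sylow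
  obtain ⟨h, hh⟩ := MulAction.exists_smul_eq G S T
  have hmemT : ∀ y ∈ (T : Subgroup G), h⁻¹ * y * h ∈ (S : Subgroup G) := by
    intro y hy
    rw [← hh] at hy
    rw [Sylow.coe_subgroup_smul] at hy
    obtain ⟨s, hs, hsy⟩ := hy
    have hsy' : h * s * h⁻¹ = y := hsy
    have h1 : h⁻¹ * y * h = s := by rw [← hsy']; group
    rw [h1]; exact hs
  have h1 := hU h (hmemT x (hT (mem_sup_left (mem_zpowers x))))
  have h2 := hmemT _ (hT (mem_sup_right (mem_zpowers (g * x * g⁻¹))))
  have h3 : h⁻¹ * (g * x * g⁻¹) * h = (g⁻¹ * h)⁻¹ * x * (g⁻¹ * h) := by group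
  rw [h3] at h2
  have h4 := hU _ h2
  rw [← h3] at h4
  have h5 : h⁻¹ * (g * x * g⁻¹) * h = h⁻¹ * x * h := h4.trans h1.symm
  exact mul_left_cancel (mul_right_cancel h5)

end CfsgLib.H6Cu
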