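import Mathlib
import Cfsg.Agent.Lib.PSolv
import Cfsg.Agent.Lib.Solv
import Cfsg.Agent.Lib.SylBridge
import Cfsg.Agent.Lib.H7Basic
import Cfsg.Prelude.Def_Local

/-! S1958, S2998 -/

namespace CfsgLib.H6Cu
open Subgroup Pointwise CfsgLib.Coprime

theorem core_cent {L : Type*} [Group L] [Finite L] {p : ℕ} [hp : Fact p.Prime] (hs : Group.IsSolvable L) {P D : Subgroup L}
    (hP : IsPGroup p P) (hD : (Nat.card D).Coprime p) (hDP : D ≤ centralizer (P : Set L)) (hn : centralizer (P : Set L) ≤ normalizer (D : Set L)) :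
    D ≤ Cfsg.pPrimeCore p L := by
  haveI : (Cfsg.pPrimeCore p L).Normal := CfsgLib.Core.pPrimeCore_normal p L
  set π := QuotientGroup.mk' (Cfsg.pPrimeCore p L) with hπ
  have hOq : Cfsg.pPrimeCore p (L ⧸ Cfsg.pPrimeCore p L) = ⊥ := CfsgLib.Solv.pPrimeCore_quotient p L
  haveI hsq : Group.IsSolvable (L ⧸ Cfsg.pPrimeCore p L) := by
    haveI := hs
    infer_instance
  have hc := CfsgLib.Solv.centralizer_pCore_le hsq hOq
  have hcm : centralizer ((P.map π : Subgroup (L ⧸ Cfsg.pPrimeCore p L)) : Set (L ⧸ Cfsg.pPrimeCore p L)) = (centralizer (P : Set L)).map π :=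
    CfsgLib.PL3.centralizer_map_mk hP (CfsgLib.Core.card_pPrimeCore_coprime p L)
  haveI := CfsgLib.Core.pCore_normal p (L ⧸ Cfsg.pPrimeCore p L)
  have hDq : (Nat.card (D.map π)).Coprime p := Nat.Coprime.coprime_dvd_left (Subgroup.card_map_dvd D π) hD
  have hb : D.map π = ⊥ := by
    refine CfsgLib.PSolv.eq_bot_of_PxQ hc (P := P.map π) (hP.map π) hDq ?_ ?_
    · rw [le_centralizer_iff, hcm]
      exact map_mono hDP
    · intro a ha
      obtain ⟨ha1, ha2⟩ := mem_inf.1 ha
      rw [hcm] at ha2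
      obtain ⟨c, hcP, rfl⟩ := ha2
      rw [mem_centralizer_iff]
      rintro _ ⟨d, hd, rfl⟩
      have h1 : π c * π d * (π c)⁻¹ * (π d)⁻¹ ∈ Cfsg.pCore p (L ⧸ Cfsg.pPrimeCore p L) ⊓ D.map π := by
        refine mem_inf.2 ⟨?_, ?_⟩
        · have h2 : π c * π d * (π c)⁻¹ * (π d)⁻¹ = π c * (π d * (π c)⁻¹ * (π d)⁻¹) := by group
          rw [h2]
          exact mul_mem ha1 ((CfsgLib.Core.pCore_normal p _).conj_mem _ (inv_mem ha1) _)
        · refine ⟨c * d * c⁻¹ * d⁻¹, mul_mem ((mem_normalizer_iff.1 (hn hcP) d).1 hd) (inv_mem hd), ?_⟩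
          simp only [map_mul, map_inv]
      have h3 : Cfsg.pCore p (L ⧸ Cfsg.pPrimeCore p L) ⊓ D.map π = ⊥ := by
        obtain ⟨n, hn⟩ := IsPGroup.iff_card.1 (CfsgLib.Core.pCore_isPGroup p (L ⧸ Cfsg.pPrimeCore p L))
        exact inf_eq_bot_of_coprime (by rw [hn]; exact (hDq.pow_right _).symm)
      rw [h3, mem_bot, mul_inv_eq_one, mul_inv_eq_iff_eq_mul] at h1
      exact h1.symm
  intro d hd
  have h4 : π d ∈ D.map π := ⟨d, hd, rfl⟩
  rw [hb, mem_bot] at h4
  rwa [hπ, ← MonoidHom.mem_ker, QuotientGroup.ker_mk'] at h4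

theorem bal {G : Type*} [Group G] [Finite G]
    (p : ℕ) [Fact p.Prime] (x y : G) (hx : orderOf x = p) (hxy : x * y = y * x)
    (hCy : Group.IsSolvable ↥(Subgroup.centralizer ({y} : Set G))) :
    Cfsg.centralizerPPrimeCore p x ⊓ Subgroup.centralizer {y} ≤ Cfsg.centralizerPPrimeCore p y := by
  set L := centralizer ({y} : Set G) with hL
  have hxL : x ∈ L := mem_centralizer_singleton_iff.2 hxy
  set D := (Cfsg.centralizerPPrimeCore p x).subgroupOf L with hD
  have hle : Cfsg.centralizerPPrimeCore p x ≤ centralizer ({x} : Set G) := map_subtype_le _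
  have hcard : (Nat.card (Cfsg.centralizerPPrimeCore p x)).Coprime p := by
    rw [Cfsg.centralizerPPrimeCore, Subgroup.card_map_of_injective (centralizer ({x} : Set G)).subtype_injective]
    exact CfsgLib.Core.card_pPrimeCore_coprime p _
  have hmain : D ≤ Cfsg.pPrimeCore p L := by
    refine core_cent hCy (P := zpowers (⟨x, hxL⟩ : L)) ?_ ?_ ?_ ?_
    · refine IsPGroup.of_card (n := 1) ?_
      rw [Nat.card_zpowers, Subgroup.orderOf_mk, hx, pow_one]
    · refine Nat.Coprime.coprime_dvd_left ?_ hcard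
      have h1 : Nat.card D = Nat.card (D.map L.subtype) := (Subgroup.card_map_of_injective L.subtype_injective).symm
      rw [h1]
      apply card_dvd_of_le
      rw [hD, Subgroup.subgroupOf_map_subtype]
      exact inf_le_left
    · intro d hd
      rw [mem_centralizer_iff]
      intro z hz
      obtain ⟨m, rfl⟩ := mem_zpowers_iff.1 hz
      have h2 : Commute (⟨x, hxL⟩ : L) d := by
        have h3 := mem_centralizer_singleton_iff.1 (hle (mem_subgroupOf.1 hd))
        exact Subtype.ext h3.symm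
      exact h2.zpow_left m
    · intro c hc
      have hcx : (c : G) ∈ centralizer ({x} : Set G) := by
        rw [mem_centralizer_singleton_iff]
        have h4 := mem_centralizer_iff.1 hc ⟨x, hxL⟩ (mem_zpowers _)
        exact (congrArg Subtype.val h4).symm
      have hcN : (c : G) ∈ normalizer ((Cfsg.centralizerPPrimeCore p x : Subgroup G) : Set G) := by
        haveI : (Cfsg.pPrimeCore p (centralizer ({x} : Set G))).Normal := CfsgLib.Core.pPrimeCore_normal p _
        exact CfsgLib.PSolv.le_normalizer_map_char hcx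
      rw [mem_normalizer_iff]
      intro d
      rw [hD, mem_subgroupOf, mem_subgroupOf]
      exact mem_normalizer_iff.1 hcN d
  intro d hd
  obtain ⟨hd1, hd2⟩ := mem_inf.1 hd
  exact ⟨⟨d, hd2⟩, hmain (mem_subgroupOf.2 hd1), rfl⟩

theorem s1958 {G : Type*} [Group G] [Finite G]
    (p : ℕ) [Fact p.Prime] (x y : G) (hx : orderOf x = p) (hy : orderOf y = p) (hxy : x * y = y * x)
    (hCx : Group.IsSolvable ↥(Subgroup.centralizer ({x} : Set G))) (hCy : Group.IsSolvable ↥(Subgroup.centralizer ({y} : Set G))) :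
    Cfsg.centralizerPPrimeCore p x ⊓ Subgroup.centralizer {y} = Cfsg.centralizerPPrimeCore p y ⊓ Subgroup.centralizer {x} := by
  apply le_antisymm
  · exact le_inf (bal p x y hx hxy hCy) (inf_le_left.trans (map_subtype_le _))
  · exact le_inf (bal p y x hy hxy.symm hCx) (inf_le_left.trans (map_subtype_le _))

theorem s2998 {G : Type*} [Group G] [Finite G] {p : ℕ} [Fact p.Prime] (P : Sylow p G) (x : G) (hxP : x ∈ (P : Subgroup G)) (hlc : ∀ R : Subgroup G, R ≤ (P : Subgroup G) → R ≠ ⊥ → Subgroup.normalizer (R : Set G) ≤ Subgroup.centralizer ({x} : Set G)) : (P : Subgroup G) ≤ Subgroup.centralizer ({x} : Set G) ∧ (∀ g : G, g * x * g⁻¹ ∈ (P : Subgroup G) → g * x * g⁻¹ = x) ∧ ∀ (N : Subgroup G) [N.Normal], ∀ R : Subgroup (G ⧸ N), R ≤ (P : Subgroup G).map (QuotientGroup.mk' N) → R ≠ ⊥ → Subgroup.normalizer (R : Set (G ⧸ N)) ≤ Subgroup.centralizer ({(QuotientGroup.mk x : G ⧸ N)} : Set (G ⧸ N)) := by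
  have hP1 : (P : Subgroup G) ≤ centralizer ({x} : Set G) := by
    by_cases hP : (P : Subgroup G) = ⊥
    · rw [hP]; exact bot_le
    · exact le_normalizer.trans (hlc P le_rfl hP)
  have hPt : IsSyl p (P : Subgroup G) ⊤ := CfsgLib.SylBridge.isSyl_top_iff.2 ⟨P, rfl⟩
  refine ⟨hP1, ?_, ?_⟩
  · intro g hg
    by_cases hx1 : x = 1
    · rw [hx1]; group
    have hPne : (P : Subgroup G) ≠ ⊥ := by
      intro h
      rw [h, mem_bot] at hxP
      exact hx1 hxP
    set y := g * x * g⁻¹ with hy
    have hy1 : y ≠ 1 := by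
      intro h
      apply hx1
      have h1 : x = g⁻¹ * y * g := by rw [hy]; group
      rw [h1, h]; group
    have h2 : centralizer ({y} : Set G) ≤ centralizer ({x} : Set G) := by
      refine le_trans ?_ (hlc (zpowers y) (zpowers_le.2 hg) (by rw [Ne, zpowers_eq_bot]; exact hy1))
      refine le_trans ?_ (Subgroup.centralizer_le_normalizer _)
      intro c hc
      rw [mem_centralizer_iff]
      intro z hz
      obtain ⟨m, rfl⟩ := mem_zpowers_iff.1 hz
      have h3 : Commute y c := (mem_centralizer_singleton_iff.1 hc).symm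
      exact h3.zpow_left m
    have hgP : (P : Subgroup G).map (MulAut.conj g).toMonoidHom ≤ centralizer ({x} : Set G) := by
      refine le_trans ?_ h2
      rintro _ ⟨a, ha, rfl⟩
      rw [mem_centralizer_singleton_iff]
      have h4 := mem_centralizer_singleton_iff.1 (hP1 ha)
      show g * a * g⁻¹ * (g * x * g⁻¹) = g * x * g⁻¹ * (g * a * g⁻¹)
      calc g * a * g⁻¹ * (g * x * g⁻¹) = g * (a * x) * g⁻¹ := by group
        _ = g * x * g⁻¹ * (g * a * g⁻¹) := by rw [h4]; group
    have hPC := CfsgLib.SylBridge.IsSyl.of_le' hPt hP1 le_top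
    have hgPC : IsSyl p ((P : Subgroup G).map (MulAut.conj g).toMonoidHom) (centralizer ({x} : Set G)) := by
      refine ⟨hgP, ?_⟩
      rw [Subgroup.card_map_of_injective (MulAut.conj g).injective]
      exact hPC.2
    obtain ⟨c, hc, hcP⟩ := hgPC.exists_conj hPC
    have h5 : c * g ∈ normalizer ((P : Subgroup G) : Set G) := by
      apply CfsgLib.H7Basic.cj_eq_self_iff.1
      rw [← CfsgLib.H7Basic.cj_cj]
      exact hcP
    have h6 := hlc P le_rfl hPne h5
    have h7 : g ∈ centralizer ({x} : Set G) := by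
      have h8 : g = c⁻¹ * (c * g) := by group
      rw [h8]; exact mul_mem (inv_mem hc) h6
    rw [hy, mem_centralizer_singleton_iff.1 h7]; group
  · intro N hN R hRP hR1
    set π := QuotientGroup.mk' N with hπ
    have hπs : Function.Surjective π := QuotientGroup.mk'_surjective N
    have hker : ∀ a, π a = 1 ↔ a ∈ N := by
      intro a
      rw [← MonoidHom.mem_ker, hπ, QuotientGroup.ker_mk']
    set H := R.comap π with hH
    have hNH : N ≤ H := by
      intro a ha
      rw [hH, mem_comap, (hker a).2 ha]; exact one_mem _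
    set R₀ := (P : Subgroup G) ⊓ H with hR₀
    have hmap : R₀.map π = R := by
      apply le_antisymm
      · rintro _ ⟨a, ha, rfl⟩
        exact (mem_inf.1 ha).2
      · intro r hr
        obtain ⟨a, ha, rfl⟩ := hRP hr
        exact ⟨a, mem_inf.2 ⟨ha, hr⟩, rfl⟩
    have hR₀1 : R₀ ≠ ⊥ := by
      intro h
      apply hR1
      rw [← hmap, h, Subgroup.map_bot]
    have hNC := hlc R₀ inf_le_left hR₀1
    have hH2 : R₀ ⊔ N = H := by
      apply le_antisymm (sup_le inf_le_right hNH)
      intro a ha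
      have h1 : π a ∈ R₀.map π := by rw [hmap]; exact ha
      obtain ⟨r, hr, hra⟩ := h1
      have h2 : r⁻¹ * a ∈ N := by rw [← hker, map_mul, map_inv, hra, inv_mul_cancel]
      have h3 : a = r * (r⁻¹ * a) := by group
      rw [h3]; exact mul_mem (mem_sup_left hr) (mem_sup_right h2)
    -- R₀ is Sylow in H
    have hPN : IsSyl p ((P : Subgroup G) ⊓ N) N := CfsgLib.SylBridge.IsSyl.inf_normal hPt le_top (by rw [normalizer_eq_top])
    have hR₀H : IsSyl p R₀ H := by
      obtain ⟨Q, hQ, hle⟩ := exists_isSyl_ge (inf_le_right : R₀ ≤ H) (P.isPGroup'.to_le inf_le_left)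
      have h4 : Q ⊓ N = R₀ ⊓ N := by
        have h5 : IsSyl p (Q ⊓ N) N := CfsgLib.SylBridge.IsSyl.inf_normal hQ hNH (by rw [normalizer_eq_top]; exact le_top)
        have h6 : (P : Subgroup G) ⊓ N ≤ R₀ ⊓ N := le_inf (le_inf inf_le_left (inf_le_right.trans hNH)) inf_le_right
        have h7 : R₀ ⊓ N ≤ Q ⊓ N := inf_le_inf_right _ hle
        have h8 : (P : Subgroup G) ⊓ N = Q ⊓ N := isSyl_of_le hPN inf_le_right h5.isPGroup (h6.trans h7)
        exact le_antisymm (h8.ge.trans h6) h7
      have h9 : Q = R₀ := by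
        apply le_antisymm _ hle
        intro q hq
        have h10 : q ∈ R₀ ⊔ N := by rw [hH2]; exact hQ.1 hq
        haveI := hN
        obtain ⟨r, hr, n, hn, rfl⟩ := mem_sup_of_normal_right.1 h10
        have h11 : n ∈ Q ⊓ N := by
          refine mem_inf.2 ⟨?_, hn⟩
          have h12 : n = r⁻¹ * (r * n) := by group
          rw [h12]; exact mul_mem (inv_mem (hle hr)) hq
        rw [h4] at h11
        exact mul_mem hr (mem_inf.1 h11).1
      rw [← h9]; exact hQ
    intro gq hgq
    obtain ⟨g, rfl⟩ := hπs gq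
    have hgH : g ∈ normalizer (H : Set G) := by
      rw [mem_normalizer_iff]
      intro h
      rw [hH, mem_comap, mem_comap, map_mul, map_mul, map_inv]
      exact mem_normalizer_iff.1 hgq (π h)
    have hfr := CfsgLib.SylBridge.IsSyl.frattini hR₀H (le_normalizer : H ≤ normalizer (H : Set G)) le_rfl
    have h13 := hfr hgH
    have h14 : H ⊔ (normalizer (H : Set G) ⊓ normalizer (R₀ : Set G)) ≤ N ⊔ normalizer (R₀ : Set G) := by
      rw [← hH2]
      exact sup_le (sup_le (le_normalizer.trans le_sup_right) le_sup_left) (inf_le_right.trans le_sup_right)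
    haveI := hN
    obtain ⟨n, hn, c, hc, rfl⟩ := mem_sup_of_normal_left.1 (h14 h13)
    have h15 := mem_centralizer_singleton_iff.1 (hNC hc)
    rw [mem_centralizer_singleton_iff]
    show π (n * c) * π x = π x * π (n * c)
    rw [map_mul, (hker n).2 hn, one_mul, ← map_mul, h15, map_mul]

end CfsgLib.H6Cu
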