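import Cfsg.Agent.Lib.PSt

/-! The centre of the (elementary abelian version) Thompson subgroup is normal in `p`-stable, constrained groups. -/
set_option autoImplicit false
set_option linter.style.haveILetI false
set_option linter.unusedVariables false

namespace CfsgLib.ZJE

universe u v
variable {G : Type u} [Group G]

open CfsgLib CfsgLib.Coprime CfsgLib.PL1 CfsgLib.PL2 CfsgLib.PL3 CfsgLib.ZJ CfsgLib.ZJ2 CfsgLib.ZJ3 CfsgLib.ZJ4
open scoped commutatorElement Pointwise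

theorem thompsonOf_eq (p : ℕ) (P : Subgroup G) : Cfsg.thompsonSubgroupOf p P = sSup (MA p P) := by
  unfold Cfsg.thompsonSubgroupOf Cfsg.thompsonSubgroup
  rw [← image_maxEA, (Subgroup.gc_map_comap P.subtype).l_sSup, sSup_image]

theorem mem_center_iff {p : ℕ} {P : Subgroup G} {x : G} :
    x ∈ Cfsg.centerThompsonOf p P ↔ x ∈ sSup (MA p P) ∧ ∀ A ∈ MA p P, ∀ a ∈ A, x * a = a * x := by
  unfold Cfsg.centerThompsonOf
  rw [thompsonOf_eq, Subgroup.mem_inf]
  refine and_congr_right fun _ => ?_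
  rw [Subgroup.mem_centralizer_iff]
  constructor
  · intro h A hA a ha
    exact (h a ((le_sSup hA : A ≤ sSup (MA p P)) ha)).symm
  · intro h y hy
    have h1 : sSup (MA p P) ≤ Subgroup.centralizer {x} := by
      apply sSup_le
      intro A hA a ha
      rw [Subgroup.mem_centralizer_iff]
      rintro _ rfl
      exact h A hA a ha
    exact ((Subgroup.mem_centralizer_iff.mp (h1 hy)) x rfl).symm

/-- elements of exponent `p ^ i` of the centre -/
def Zi (p : ℕ) (D : Subgroup G) (i : ℕ) : Subgroup G where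
  carrier := {x | x ∈ Cfsg.centerThompsonOf p D ∧ x ^ p ^ i = 1}
  one_mem' := ⟨one_mem _, one_pow _⟩
  mul_mem' := by
    rintro x y ⟨hx, hx'⟩ ⟨hy, hy'⟩
    refine ⟨mul_mem hx hy, ?_⟩
    have h1 : Commute x y := by
      have h2 := (Subgroup.mem_inf.mp hy).2
      exact (Subgroup.mem_centralizer_iff.mp h2) x (Subgroup.mem_inf.mp hx).1
    rw [h1.mul_pow, hx', hy', one_mul]
  inv_mem' := by
    rintro x ⟨hx, hx'⟩
    exact ⟨inv_mem hx, by rw [inv_pow, hx', inv_one]⟩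

theorem mem_Zi {p : ℕ} {D : Subgroup G} {i : ℕ} {x : G} : x ∈ Zi p D i ↔ x ∈ Cfsg.centerThompsonOf p D ∧ x ^ p ^ i = 1 := Iff.rfl

theorem cT_comm {p : ℕ} {D : Subgroup G} {x y : G} (hx : x ∈ Cfsg.centerThompsonOf p D) (hy : y ∈ Cfsg.centerThompsonOf p D) :
    x * y = y * x := by
  have h2 := (Subgroup.mem_inf.mp hy).2
  exact (Subgroup.mem_centralizer_iff.mp h2) x (Subgroup.mem_inf.mp hx).1

theorem cT_le {p : ℕ} {D : Subgroup G} : Cfsg.centerThompsonOf p D ≤ D := by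
  intro x hx
  have h1 := (mem_center_iff.mp hx).1
  exact (sSup_le (fun A hA => hA.1) : sSup (MA p D) ≤ D) h1

/-- an element permuting the family normalizes everything -/
theorem conj_mem_cT {p : ℕ} {D : Subgroup G} {n : G} (hn : ∀ A ∈ MA p D, A.map (MulAut.conj n).toMonoidHom ∈ MA p D)
    (hn' : ∀ A ∈ MA p D, A.map (MulAut.conj n⁻¹).toMonoidHom ∈ MA p D) {x : G} (hx : x ∈ Cfsg.centerThompsonOf p D) :
    n * x * n⁻¹ ∈ Cfsg.centerThompsonOf p D := by
  rw [mem_center_iff] at hx ⊢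
  refine ⟨?_, ?_⟩
  · have h1 : sSup (MA p D) ≤ (sSup (MA p D)).comap (MulAut.conj n).toMonoidHom := by
      apply sSup_le
      intro A hA
      rw [← Subgroup.map_le_iff_le_comap]
      exact le_sSup (hn A hA)
    exact h1 hx.1
  · intro A hA a ha
    have h1 := hx.2 _ (hn' A hA) (n⁻¹ * a * n⁻¹⁻¹) (Subgroup.mem_map_of_mem (MulAut.conj n⁻¹).toMonoidHom ha)
    have h2 : n * (x * (n⁻¹ * a * n⁻¹⁻¹)) * n⁻¹ = n * (n⁻¹ * a * n⁻¹⁻¹ * x) * n⁻¹ := congrArg (fun y => n * y * n⁻¹) h1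
    have h3 : n * (x * (n⁻¹ * a * n⁻¹⁻¹)) * n⁻¹ = n * x * n⁻¹ * a := by group
    have h4 : n * (n⁻¹ * a * n⁻¹⁻¹ * x) * n⁻¹ = a * (n * x * n⁻¹) := by group
    rwa [h3, h4] at h2

theorem normalizer_perm {p : ℕ} {D : Subgroup G} {n : G} (hn : n ∈ Subgroup.normalizer (D : Set G)) :
    ∀ A ∈ MA p D, A.map (MulAut.conj n).toMonoidHom ∈ MA p D := by
  intro A hA
  have h1 := MA_conj n hA
  have h2 : D.map (MulAut.conj n).toMonoidHom = D := by
    apply le_antisymm
    · rintro _ ⟨x, hx, rfl⟩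
      exact conj_mem hn hx
    · intro x hx
      refine ⟨n⁻¹ * x * n, ?_, ?_⟩
      · have := conj_mem (inv_mem hn) hx
        rwa [inv_inv] at this
      · show n * (n⁻¹ * x * n) * n⁻¹ = x
        group
  rwa [h2] at h1

theorem tri (n : ℕ) : (n + 1) * n / 2 = n * (n - 1) / 2 + n := by
  cases n with
  | zero => rfl
  | succ k =>
    rw [Nat.add_sub_cancel, show (k + 1 + 1) * (k + 1) = (k + 1) * k + (k + 1) * 2 by ring, Nat.add_mul_div_right _ _ (by norm_num)]

/-- a `p`-th power homomorphism in class two -/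
theorem class2_pow {p : ℕ} [hp : Fact p.Prime] (hp2 : p ≠ 2) {B : Subgroup G}
    (hcl : ∀ x ∈ B, ∀ y ∈ B, ∀ z ∈ B, (x * y * x⁻¹ * y⁻¹) * z = z * (x * y * x⁻¹ * y⁻¹))
    (hex : ∀ x ∈ B, ∀ y ∈ B, (x * y * x⁻¹ * y⁻¹) ^ p = 1) {x y : G} (hx : x ∈ B) (hy : y ∈ B) : (x * y) ^ p = x ^ p * y ^ p := by
  -- (x y)^n = x^n y^n c^{n(n-1)/2}, c = [y⁻¹... ]
  set c := y * x * y⁻¹ * x⁻¹ with hc
  have hcc : ∀ z ∈ B, c * z = z * c := fun z hz => hcl y hy x hx z hz
  have hyx : y * x = c * (x * y) := by rw [hc]; group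
  have hcx : Commute c x := hcc x hx
  have hcy : Commute c y := hcc y hy
  have h1 : ∀ n : ℕ, y ^ n * x = c ^ n * (x * y ^ n) := by
    intro n
    induction n with
    | zero => simp
    | succ n ih =>
      have h2 : Commute (c ^ n) y := hcy.pow_left n
      calc y ^ (n + 1) * x = y * (y ^ n * x) := by rw [pow_succ']; group
        _ = y * (c ^ n * (x * y ^ n)) := by rw [ih]
        _ = (c ^ n * y) * (x * y ^ n) := by rw [h2.eq]; group
        _ = c ^ n * (y * x) * y ^ n := by group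
        _ = c ^ n * (c * (x * y)) * y ^ n := by rw [hyx]
        _ = (c ^ n * c) * (x * (y * y ^ n)) := by group
        _ = c ^ (n + 1) * (x * y ^ (n + 1)) := by rw [← pow_succ, ← pow_succ']
  have h2 : ∀ n : ℕ, (x * y) ^ n = c ^ (n * (n - 1) / 2) * (x ^ n * y ^ n) := by
    intro n
    induction n with
    | zero => simp
    | succ n ih =>
      have h3 : (n + 1) * (n + 1 - 1) / 2 = n * (n - 1) / 2 + n := by
        rw [Nat.add_sub_cancel]
        exact CfsgLib.ZJE.tri n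
      have h4 : Commute (c ^ n) (x ^ n) := (hcx.pow_left n).pow_right n
      calc (x * y) ^ (n + 1) = (x * y) ^ n * (x * y) := pow_succ _ _
        _ = c ^ (n * (n - 1) / 2) * (x ^ n * y ^ n) * (x * y) := by rw [ih]
        _ = c ^ (n * (n - 1) / 2) * (x ^ n * (y ^ n * x) * y) := by group
        _ = c ^ (n * (n - 1) / 2) * (x ^ n * (c ^ n * (x * y ^ n)) * y) := by rw [h1]
        _ = c ^ (n * (n - 1) / 2) * ((x ^ n * c ^ n) * (x * y ^ n * y)) := by group
        _ = c ^ (n * (n - 1) / 2) * ((c ^ n * x ^ n) * (x * y ^ n * y)) := by rw [h4.eq]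
        _ = (c ^ (n * (n - 1) / 2) * c ^ n) * ((x ^ n * x) * (y ^ n * y)) := by group
        _ = c ^ ((n + 1) * (n + 1 - 1) / 2) * (x ^ (n + 1) * y ^ (n + 1)) := by rw [h3, pow_add, pow_succ, pow_succ]
  rw [h2 p]
  have hodd : Odd p := hp.out.odd_of_ne_two hp2
  have h5 : p * (p - 1) / 2 = p * ((p - 1) / 2) := by
    obtain ⟨m, hm⟩ := hodd
    rw [hm, Nat.add_sub_cancel, Nat.mul_div_cancel_left _ (by norm_num), show (2 * m + 1) * (2 * m) = 2 * ((2 * m + 1) * m) by ring,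
      Nat.mul_div_cancel_left _ (by norm_num)]
  have h6 : c ^ p = 1 := hex y hy x hx
  rw [h5, pow_mul, h6, one_pow, one_mul]

end CfsgLib.ZJE
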