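import Cfsg.Agent.Lib.ZJ2
import Cfsg.Agent.Lib.ZJE
import Cfsg.Agent.Lib.PL4
import Cfsg.Agent.Lib.PL3

/-! Glauberman replacement against a subgroup of class two; S3078 -/

set_option autoImplicit false
set_option linter.unusedVariables false

namespace CfsgLib.H6Cu
open CfsgLib CfsgLib.Coprime CfsgLib.PL1 CfsgLib.PL2 CfsgLib.PL3 CfsgLib.ZJ CfsgLib.ZJ2
open scoped commutatorElement Pointwise

theorem rank_le {G : Type*} [Group G] [Finite G] {p : ℕ} [hp : Fact p.Prime] (hp2 : p ≠ 2) (hS : IsPGroup p G) (B : Subgroup G) [hBn : B.Normal]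
    (A : Subgroup G) (hA : IsMulCommutative A) (hBA : ⁅B, B⁆ ≤ A) (b : G) (hb : b ∈ B)
    (hbN : b ∈ Subgroup.normalizer ((Subgroup.normalizer (A : Set G)) : Set G))
    (hAstc : ∀ x ∈ Ast A b, ∀ y ∈ Ast A b, x * y = y * x) :
    Nat.card (Cfsg.omegaOne p A) ≤ Nat.card (Cfsg.omegaOne p (Ast A b)) := by
  classical
  set N := Subgroup.normalizer (A : Set G) with hN
  set A₁ := cb A b with hA₁
  have hAN : A ≤ N := Subgroup.le_normalizer
  have hbNinv : b⁻¹ ∈ Subgroup.normalizer (N : Set G) := inv_mem hbN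
  have hconjN : ∀ n ∈ N, b * n * b⁻¹ ∈ N := fun n hn => conj_mem hbN hn
  have hconjN' : ∀ n ∈ N, b⁻¹ * n * b ∈ N := fun n hn => by
    have := conj_mem hbNinv hn
    rwa [inv_inv] at this
  have hA₁N : A₁ ≤ N := by
    intro x hx
    have h1 := hconjN' _ (hAN (mem_cb.mp hx))
    have h2 : b⁻¹ * (b * x * b⁻¹) * b = x := by group
    rwa [h2] at h1
  have hNA₁ : ∀ n ∈ N, ∀ x ∈ A₁, n * x * n⁻¹ ∈ A₁ := by
    intro n hn x hx
    rw [mem_cb] at hx ⊢
    have h1 := conj_mem (V := A) (hconjN n hn) hx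
    have h2 : b * n * b⁻¹ * (b * x * b⁻¹) * (b * n * b⁻¹)⁻¹ = b * (n * x * n⁻¹) * b⁻¹ := by group
    rwa [h2] at h1
  have hNA : ∀ n ∈ N, ∀ x ∈ A, n * x * n⁻¹ ∈ A := fun n hn x hx => conj_mem hn hx
  have hAcomm : ∀ x ∈ A, ∀ y ∈ A, x * y = y * x := fun x hx y hy => comm_of hA hx hy
  have hA₁comm : ∀ x ∈ A₁, ∀ y ∈ A₁, x * y = y * x := by
    intro x hx y hy
    have h1 := hAcomm _ (mem_cb.mp hx) _ (mem_cb.mp hy)
    have h2 : b * (x * y) * b⁻¹ = b * (y * x) * b⁻¹ := by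
      calc b * (x * y) * b⁻¹ = (b * x * b⁻¹) * (b * y * b⁻¹) := by group
        _ = (b * y * b⁻¹) * (b * x * b⁻¹) := h1
        _ = b * (y * x) * b⁻¹ := by group
    exact mul_left_cancel (mul_right_cancel h2)
  have hcomm : ∀ x ∈ A, ∀ y ∈ A₁, x * y * x⁻¹ * y⁻¹ ∈ A ⊓ A₁ := by
    intro x hx y hy
    refine Subgroup.mem_inf.mpr ⟨?_, mul_mem (hNA₁ x (hAN hx) y hy) (inv_mem hy)⟩
    have h1 : x * y * x⁻¹ * y⁻¹ = x * (y * x⁻¹ * y⁻¹) := by group
    rw [h1]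
    exact mul_mem hx (hNA y (hA₁N hy) _ (inv_mem hx))
  have hBB : ∀ x ∈ B, ∀ y ∈ B, x * y * x⁻¹ * y⁻¹ ∈ A := by
    intro x hx y hy
    exact hBA (Subgroup.commutator_mem_commutator hx hy)
  have hbinf : ∀ x ∈ A ⊓ A₁, b⁻¹ * x * b ∈ A ⊓ A₁ := by
    intro x hx
    obtain ⟨hxA, hxA₁⟩ := Subgroup.mem_inf.mp hx
    refine Subgroup.mem_inf.mpr ⟨?_, ?_⟩
    · set c := b * x * b⁻¹ with hc
      have hcA : c ∈ A := mem_cb.mp hxA₁
      have hy : x * c⁻¹ ∈ A := mul_mem hxA (inv_mem hcA)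
      have hyB : x * c⁻¹ ∈ B := by
        have : x * c⁻¹ = (x * b * x⁻¹) * b⁻¹ := by rw [hc]; group
        rw [this]
        exact mul_mem (hBn.conj_mem b hb x) (inv_mem hb)
      have h1 : b⁻¹ * (x * c⁻¹) * b ∈ A := by
        have h2 : b⁻¹ * (x * c⁻¹) * b = (x * c⁻¹) * ((x * c⁻¹)⁻¹ * b⁻¹ * (x * c⁻¹)⁻¹⁻¹ * b⁻¹⁻¹) := by group
        rw [h2]
        exact mul_mem hy (hBB _ (inv_mem hyB) _ (inv_mem hb))
      have h3 : b⁻¹ * x * b = (b⁻¹ * (x * c⁻¹) * b) * x := by rw [hc]; group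
      rw [h3]
      exact mul_mem h1 hxA
    · rw [mem_cb]
      have : b * (b⁻¹ * x * b) * b⁻¹ = x := by group
      rw [this]; exact hxA
  have hcbmem : ∀ a ∈ A, b⁻¹ * a * b ∈ A₁ := by
    intro a ha
    rw [mem_cb]
    have : b * (b⁻¹ * a * b) * b⁻¹ = a := by group
    rw [this]; exact ha
  have hbI : ∀ x ∈ A ⊓ A₁, b * x * b⁻¹ ∈ A ⊓ A₁ := by
    have h1 : b⁻¹ ∈ Subgroup.normalizer ((A ⊓ A₁ : Subgroup G) : Set G) := by
      apply CfsgLib.H7Basic.mem_normalizer_of_conj_mem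
      intro x hx
      rw [inv_inv]
      exact hbinf x hx
    intro x hx
    have h2 := conj_mem (inv_mem h1) hx
    rwa [inv_inv] at h2
  have hyp : ∀ a ∈ A, a ^ p = 1 → (b⁻¹ * a * b * a⁻¹) ^ p = 1 := by
    intro a ha hap
    set x := b⁻¹ * a * b with hx
    set c := (a * x⁻¹ * a⁻¹ * x) with hcdef
    have hcI : c ∈ A ⊓ A₁ := by
      have h3 := hcomm a ha x⁻¹ (inv_mem (hcbmem a ha))
      rwa [inv_inv] at h3
    have hcx : c * x = x * c := hA₁comm c hcI.2 x (hcbmem a ha)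
    have hca : c * a⁻¹ = a⁻¹ * c := hAcomm c hcI.1 a⁻¹ (inv_mem ha)
    have hrel : a⁻¹ * x = x * a⁻¹ * c := by rw [hcdef]; group
    have h7 : x ^ p = 1 := by
      have : x ^ p = b⁻¹ * a ^ p * b := by
        have h8 : b⁻¹ * a * b = b⁻¹ * a * b⁻¹⁻¹ := by rw [inv_inv]
        rw [hx, h8, conj_pow, inv_inv]
      rw [this, hap]; group
    have hcp : c ^ p = 1 := by
      have h1 : a * x⁻¹ * a⁻¹ = c * x⁻¹ := by rw [hcdef]; group
      have h2 : (a * x⁻¹ * a⁻¹) ^ p = 1 := by rw [conj_pow, inv_pow, h7]; group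
      have h3 : (c * x⁻¹) ^ p = c ^ p * x⁻¹ ^ p := ((show Commute c x from hcx).inv_right).mul_pow p
      rw [h1, h3, inv_pow, h7] at h2
      simpa using h2
    have hediv : p ∣ p * (p - 1) / 2 := by
      obtain ⟨m, hm⟩ := hp.out.odd_of_ne_two hp2
      rw [hm, Nat.add_sub_cancel, show (2 * m + 1) * (2 * m) = 2 * ((2 * m + 1) * m) by ring, Nat.mul_div_cancel_left _ (by norm_num : 0 < 2)]
      exact Dvd.intro m rfl
    rw [CfsgLib.PG5.mul_pow_local hrel hcx hca p]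
    obtain ⟨q, hq'⟩ := hediv
    rw [h7, inv_pow, hap, hq', pow_mul, hcp, one_pow]
    simp
  set Ω := Cfsg.omegaOne p A with hΩ
  set Ω' := Cfsg.omegaOne p (Ast A b) with hΩ'
  have hmΩ : ∀ x, x ∈ Ω ↔ x ∈ A ∧ x ^ p = 1 := fun x => mem_omegaOne_iff hAcomm
  have hmΩ' : ∀ x, x ∈ Ω' ↔ x ∈ Ast A b ∧ x ^ p = 1 := fun x => mem_omegaOne_iff hAstc
  set I := Ω ⊓ A₁ with hI
  have hIΩ : I ≤ Ω := inf_le_left
  have hIΩ' : I ≤ Ω' := by
    intro x hx
    have h1 := (hmΩ x).1 hx.1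
    exact (hmΩ' x).2 ⟨(le_sup_left : A ⊓ A₁ ≤ Ast A b) ⟨h1.1, hx.2⟩, h1.2⟩
  have hin : ∀ a ∈ Ω, b⁻¹ * a * b * a⁻¹ ∈ Ω' := by
    intro a ha
    have h1 := (hmΩ a).1 ha
    exact (hmΩ' _).2 ⟨(le_sup_right : bA b A ≤ Ast A b) (mem_bA h1.1), hyp a h1.1 h1.2⟩
  have key : ∀ a ∈ Ω, ∀ a' ∈ Ω, (b⁻¹ * a * b * a⁻¹)⁻¹ * (b⁻¹ * a' * b * a'⁻¹) ∈ I → a⁻¹ * a' ∈ I := by
    intro a ha a' ha' h
    have h1 := ((hmΩ _).1 h.1).1
    have haA := ((hmΩ a).1 ha).1
    have haA' := ((hmΩ a').1 ha').1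
    have h2 : b⁻¹ * (a⁻¹ * a') * b ∈ A := by
      have h3 := mul_mem (mul_mem (inv_mem haA) h1) haA'
      have h4 : a⁻¹ * ((b⁻¹ * a * b * a⁻¹)⁻¹ * (b⁻¹ * a' * b * a'⁻¹)) * a' = b⁻¹ * (a⁻¹ * a') * b := by group
      rwa [h4] at h3
    have h5 := hbI _ (Subgroup.mem_inf.2 ⟨h2, hcbmem _ (mul_mem (inv_mem haA) haA')⟩)
    have h6 : b * (b⁻¹ * (a⁻¹ * a') * b) * b⁻¹ = a⁻¹ * a' := by group
    rw [h6] at h5
    exact Subgroup.mem_inf.2 ⟨mul_mem (inv_mem ha) ha', h5.2⟩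
  have h1 : I.relIndex Ω ≤ I.relIndex Ω' := by
    rw [Subgroup.relIndex, Subgroup.relIndex, Subgroup.index, Subgroup.index]
    refine Nat.card_le_card_of_injective
      (fun q : Ω ⧸ I.subgroupOf Ω => (QuotientGroup.mk (⟨_, hin q.out q.out.2⟩ : Ω') : Ω' ⧸ I.subgroupOf Ω')) ?_
    intro q q' hqq
    have h2 := QuotientGroup.eq.1 hqq
    have h3 := key _ q.out.2 _ q'.out.2 (Subgroup.mem_subgroupOf.1 h2)
    rw [← QuotientGroup.out_eq' q, ← QuotientGroup.out_eq' q', QuotientGroup.eq, Subgroup.mem_subgroupOf]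
    exact h3
  have h5 := CfsgLib.PL1.relIndex_mul_card hIΩ
  have h6 := CfsgLib.PL1.relIndex_mul_card hIΩ'
  rw [← h5, ← h6]
  exact Nat.mul_le_mul_right _ h1

theorem s3078 {G : Type*} [Group G] [Finite G] {p : ℕ} [hpf : Fact p.Prime] (hp : p ≠ 2) (hG : IsPGroup p G) (A B : Subgroup G) (hA : IsMulCommutative A) (hB2 : ⁅⁅B, B⁆, B⁆ = ⊥) (hBA : ⁅B, B⁆ ≤ A) (hAB : A ≤ Subgroup.normalizer (B : Set G)) (hBnA : ¬ B ≤ Subgroup.normalizer (A : Set G)) : ∃ Astar : Subgroup G, IsMulCommutative Astar ∧ Nat.card Astar = Nat.card A ∧ A ⊓ B < Astar ⊓ B ∧ Astar ≤ Subgroup.normalizer (A : Set G) ∧ Astar ≤ Subgroup.normalClosure (A : Set G) ∧ Monoid.exponent Astar ∣ Monoid.exponent A ∧ Nat.card (Cfsg.omegaOne p A) ≤ Nat.card (Cfsg.omegaOne p Astar) := by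
  classical
  set K := A ⊔ B with hK
  have hAK : A ≤ K := le_sup_left
  have hBK : B ≤ K := le_sup_right
  have hKN : K ≤ Subgroup.normalizer (B : Set G) := sup_le hAB Subgroup.le_normalizer
  set A' := A.subgroupOf K with hA'
  set B' := B.subgroupOf K with hB'
  have hA'm : A'.map K.subtype = A := Subgroup.map_subgroupOf_eq_of_le hAK
  have hB'm : B'.map K.subtype = B := Subgroup.map_subgroupOf_eq_of_le hBK
  haveI hBn : B'.Normal := by
    constructor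
    intro x hx g
    have h1 := conj_mem (V := B) (hKN g.2) (Subgroup.mem_subgroupOf.1 hx)
    exact Subgroup.mem_subgroupOf.2 h1
  have hKp : IsPGroup p K := hG.to_subgroup K
  have hAc : ∀ x ∈ A, ∀ y ∈ A, x * y = y * x := fun x hx y hy => comm_of hA hx hy
  have hA'c : IsMulCommutative A' := by
    apply mul_comm_mk
    intro x hx y hy
    exact Subtype.ext (hAc _ (Subgroup.mem_subgroupOf.1 hx) _ (Subgroup.mem_subgroupOf.1 hy))
  have hnA : ∀ g : K, g ∈ Subgroup.normalizer (A' : Set K) ↔ (g : G) ∈ Subgroup.normalizer (A : Set G) := by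
    intro g
    constructor
    · intro hg
      apply CfsgLib.H7Basic.mem_normalizer_of_conj_mem
      intro x hx
      have h1 := conj_mem (V := A') hg (show (⟨x, hAK hx⟩ : K) ∈ A' from Subgroup.mem_subgroupOf.2 hx)
      exact Subgroup.mem_subgroupOf.1 h1
    · intro hg
      apply CfsgLib.H7Basic.mem_normalizer_of_conj_mem
      intro x hx
      exact Subgroup.mem_subgroupOf.2 (conj_mem (V := A) hg (Subgroup.mem_subgroupOf.1 hx))
  have hnot : ¬ B' ≤ Subgroup.normalizer (A' : Set K) := by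
    intro h
    apply hBnA
    intro x hx
    exact (hnA ⟨x, hBK hx⟩).1 (h (Subgroup.mem_subgroupOf.2 hx))
  obtain ⟨b, hb, hbN, hbA⟩ := CfsgLib.PL4.exists_normalizing_normalizer hKp B' _ hnot
  have hBA' : ⁅B', B'⁆ ≤ A' := by
    rw [Subgroup.commutator_le]
    intro x hx y hy
    exact Subgroup.mem_subgroupOf.2 (hBA (Subgroup.commutator_mem_commutator (Subgroup.mem_subgroupOf.1 hx) (Subgroup.mem_subgroupOf.1 hy)))
  obtain ⟨h1, h2, -, h3, -, -, h4, -, -, h5⟩ := replacement hKp B' (fun h => absurd h hp) A' hA'c hBA' b hb hbN hbA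
  have h2' : ∀ x ∈ Ast A' b, ∀ y ∈ Ast A' b, x * y = y * x := fun x hx y hy => comm_of h2 hx hy
  have h6 := rank_le hp hKp B' A' hA'c hBA' b hb hbN h2'
  have hinj : Function.Injective K.subtype := K.subtype_injective
  refine ⟨(Ast A' b).map K.subtype, ?_, ?_, ?_, ?_, ?_, ?_, ?_⟩
  · apply mul_comm_mk
    rintro _ ⟨x, hx, rfl⟩ _ ⟨y, hy, rfl⟩
    rw [← map_mul, ← map_mul, h2' x hx y hy]
  · rw [Subgroup.card_map_of_injective hinj, h1]
    exact Nat.card_congr (Subgroup.subgroupOfEquivOfLe hAK).toEquiv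
  · have e1 : (A' ⊓ B').map K.subtype = A ⊓ B := by rw [Subgroup.map_inf _ _ _ hinj, hA'm, hB'm]
    have e2 : (Ast A' b ⊓ B').map K.subtype = (Ast A' b).map K.subtype ⊓ B := by rw [Subgroup.map_inf _ _ _ hinj, hB'm]
    rw [← e1, ← e2]
    refine lt_of_le_of_ne (Subgroup.map_mono h3.le) fun h => h3.ne (Subgroup.map_injective hinj h)
  · rintro _ ⟨x, hx, rfl⟩
    exact (hnA x).1 (h4 hx)
  · rw [Subgroup.map_le_iff_le_comap]
    have hnc : (Subgroup.normalClosure (A : Set G)).Normal := Subgroup.normalClosure_normal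
    refine sup_le (inf_le_left.trans ?_) ?_
    · intro x hx
      exact Subgroup.subset_normalClosure (Subgroup.mem_subgroupOf.1 hx)
    · unfold bA
      rw [Subgroup.closure_le]
      rintro _ ⟨a, ha, rfl⟩
      have ha2 : (a : G) ∈ Subgroup.normalClosure (A : Set G) := Subgroup.subset_normalClosure (Subgroup.mem_subgroupOf.1 ha)
      have h7 := mul_mem (hnc.conj_mem _ ha2 ((b : G)⁻¹)) (inv_mem ha2)
      rw [inv_inv] at h7
      exact h7
  · have e1 : Monoid.exponent ((Ast A' b).map K.subtype) = Monoid.exponent (Ast A' b) :=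
      (Monoid.exponent_eq_of_mulEquiv ((Ast A' b).equivMapOfInjective K.subtype hinj)).symm
    have e2 : Monoid.exponent A' = Monoid.exponent A :=
      Monoid.exponent_eq_of_mulEquiv (Subgroup.subgroupOfEquivOfLe hAK)
    rw [e1, ← e2]
    exact h5 hp
  · have e1 : Nat.card (Cfsg.omegaOne p A) = Nat.card (Cfsg.omegaOne p A') := by
      have h8 := omegaOne_map K.subtype (p := p) (H := A') hinj.injOn
      rw [hA'm] at h8
      rw [← h8, Subgroup.card_map_of_injective hinj]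
    have e2 : Nat.card (Cfsg.omegaOne p ((Ast A' b).map K.subtype)) = Nat.card (Cfsg.omegaOne p (Ast A' b)) := by
      have h8 := omegaOne_map K.subtype (p := p) (H := Ast A' b) hinj.injOn
      rw [← h8, Subgroup.card_map_of_injective hinj]
    rw [e1, e2]
    exact h6

end CfsgLib.H6Cu
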