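import Mathlib
import Cfsg.Agent.Lib.Transfer
import Cfsg.Agent.Lib.SylBridge
import Cfsg.Agent.Lib.PL1
import Cfsg.Prelude.Def_Transfer

/-! Odd permutations and Thompson transfer with a dihedral quotient; S1924 -/

set_option autoImplicit false
set_option linter.unusedVariables false

namespace CfsgLib.H6Cu
open Subgroup

theorem sign_of_free {X : Type*} [Fintype X] [DecidableEq X] (σ : Equiv.Perm X) (k m : ℕ) (hσ : σ ^ (2 ^ (k + 1)) = 1)
    (hfree : ∀ a : X, (σ ^ (2 ^ k)) a ≠ a) (hX : Fintype.card X = 2 ^ (k + 1) * m) (hm : Odd m) : Equiv.Perm.sign σ = -1 := by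
  have h1 : ∀ n ∈ σ.cycleType, n = 2 ^ (k + 1) := by
    intro n hn
    obtain ⟨c, τ, hct, hd, hc, hcn⟩ := Equiv.Perm.mem_cycleType_iff.1 hn
    have h2 : n ∣ 2 ^ (k + 1) := (Equiv.Perm.dvd_of_mem_cycleType hn).trans (orderOf_dvd_of_pow_eq_one hσ)
    obtain ⟨j, hj, hnj⟩ := (Nat.dvd_prime_pow Nat.prime_two).1 h2
    rcases Nat.lt_or_ge j (k + 1) with h3 | h3
    · exfalso
      have h4 : n ∣ 2 ^ k := by rw [hnj]; exact pow_dvd_pow 2 (by omega)
      obtain ⟨a, ha⟩ := hc.nonempty_support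
      apply hfree a
      have h5 : σ ^ (2 ^ k) = c ^ (2 ^ k) * τ ^ (2 ^ k) := by rw [hct]; exact hd.commute.mul_pow _
      have h6 : c ^ (2 ^ k) = 1 := by
        apply orderOf_dvd_iff_pow_eq_one.1
        rw [hc.orderOf, hcn]; exact h4
      have h7 : τ a = a := by
        rcases hd a with h | h
        · exact absurd h (Equiv.Perm.mem_support.1 ha)
        · exact h
      rw [h5, h6, one_mul]
      exact Equiv.Perm.pow_apply_eq_self_of_apply_eq_self h7 _
    · rw [hnj]; congr 1; omega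
  have h2 : σ.cycleType = Multiset.replicate (Multiset.card σ.cycleType) (2 ^ (k + 1)) := Multiset.eq_replicate.2 ⟨rfl, h1⟩
  have h3 : σ.support = Finset.univ := by
    ext a
    simp only [Equiv.Perm.mem_support, Finset.mem_univ, iff_true]
    intro h
    exact hfree a (Equiv.Perm.pow_apply_eq_self_of_apply_eq_self h _)
  have h4 : σ.cycleType.sum = 2 ^ (k + 1) * m := by
    rw [Equiv.Perm.sum_cycleType, h3, Finset.card_univ, hX]
  have h5 : σ.cycleType.sum = Multiset.card σ.cycleType * 2 ^ (k + 1) := by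
    conv_lhs => rw [h2]
    rw [Multiset.sum_replicate, smul_eq_mul]
  have h6 : Multiset.card σ.cycleType = m := by
    rw [h4, mul_comm] at h5
    exact (Nat.eq_of_mul_eq_mul_right (by positivity) h5).symm
  rw [Equiv.Perm.sign_of_cycleType, h4, h6]
  have h7 : Odd (2 ^ (k + 1) * m + m) := by
    rw [Nat.odd_add]
    constructor
    · intro h
      exact absurd h (by rw [Nat.not_odd_iff_even]; exact (((even_two).pow_of_ne_zero (by omega)).mul_right m))
    · intro h
      exact absurd hm (by rwa [Nat.not_odd_iff_even])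
  exact h7.neg_one_pow

theorem odd_res {G : Type*} [Group G] [Finite G] (H : Subgroup G) (y : G) (k m : ℕ) (hy : orderOf y = 2 ^ (k + 1))
    (hfix : ∀ g : G, g⁻¹ * y ^ (2 ^ k) * g ∉ H) (hidx : H.index = 2 ^ (k + 1) * m) (hm : Odd m) : y ∉ Cfsg.pResidual 2 G := by
  classical
  letI : Fintype (G ⧸ H) := Fintype.ofFinite _
  intro hmem
  set φ := MulAction.toPermHom G (G ⧸ H) with hφ
  have hker : ∀ g ∈ Cfsg.pResidual 2 G, Equiv.Perm.sign (φ g) = 1 := by
    intro g hg
    refine Subgroup.closure_induction (p := fun g _ => Equiv.Perm.sign (φ g) = 1) ?_ ?_ ?_ ?_ hg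
    · intro g hg
      have h1 : (Equiv.Perm.sign (φ g)) ^ (orderOf g) = 1 := by rw [← map_pow, ← map_pow, pow_orderOf_eq_one, map_one, map_one]
      rcases Int.units_eq_one_or (Equiv.Perm.sign (φ g)) with h | h
      · exact h
      · exfalso
        have hodd : Odd (orderOf g) := Nat.coprime_two_right.1 hg
        rw [h, hodd.neg_one_pow] at h1
        exact absurd h1 (by decide)
    · rw [map_one, map_one]
    · intro a b _ _ ha hb
      rw [map_mul, map_mul, ha, hb, one_mul]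
    · intro a _ ha
      rw [map_inv, map_inv, ha, inv_one]
  have h1 := hker y hmem
  have h2 : Equiv.Perm.sign (φ y) = -1 := by
    apply sign_of_free (φ y) k m
    · rw [← map_pow, ← hy, pow_orderOf_eq_one, map_one]
    · intro a
      obtain ⟨g, rfl⟩ := QuotientGroup.mk_surjective a
      intro h
      rw [← map_pow] at h
      apply hfix g
      have h3 : (QuotientGroup.mk (y ^ 2 ^ k * g) : G ⧸ H) = QuotientGroup.mk g := h
      have h4 := QuotientGroup.eq.1 h3.symm
      rwa [← mul_assoc] at h4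
    · rw [← Nat.card_eq_fintype_card, ← Subgroup.index_eq_card, hidx]
    · exact hm
  rw [h1] at h2
  exact absurd h2 (by decide)

theorem dih_out {D : Type*} [Group D] {n : ℕ} (hn : 2 ≤ n) (e : D ≃* DihedralGroup n) (C : Subgroup D) (hC : IsCyclic C)
    (hCi : C.index = 2) (x : D) (hx : x ∉ C) : orderOf x = 2 := by
  classical
  haveI : NeZero n := ⟨by omega⟩
  obtain ⟨⟨c, hc⟩, hcg⟩ := hC.exists_generator
  have hgen : zpowers c = C := by
    apply le_antisymm (zpowers_le.2 hc)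
    intro z hz
    obtain ⟨k, hk⟩ := mem_zpowers_iff.1 (hcg ⟨z, hz⟩)
    exact mem_zpowers_iff.2 ⟨k, congrArg Subtype.val hk⟩
  have hcardD : Nat.card D = 2 * n := by rw [Nat.card_congr e.toEquiv, DihedralGroup.nat_card]
  haveI : Finite D := Nat.finite_of_card_ne_zero (by rw [hcardD]; omega)
  have hcardC : Nat.card C = n := by
    have h1 := C.card_mul_index
    rw [hCi, hcardD] at h1
    omega
  have hoc : orderOf c = n := by rw [← Nat.card_zpowers, hgen, hcardC]
  rw [← MulEquiv.orderOf_eq e x]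
  rw [← MulEquiv.orderOf_eq e c] at hoc
  rcases hxe : e x with i | i
  · rcases hce : e c with j | j
    · exfalso
      apply hx
      rw [hce] at hoc
      have h1 : zpowers (DihedralGroup.r j : DihedralGroup n) = zpowers (DihedralGroup.r 1) := by
        apply Subgroup.eq_of_le_of_card_ge
        · rw [zpowers_le]
          refine mem_zpowers_iff.2 ⟨(j.val : ℤ), ?_⟩
          rw [zpow_natCast, DihedralGroup.r_one_pow, ZMod.natCast_zmod_val]
        · rw [Nat.card_zpowers, Nat.card_zpowers, hoc, DihedralGroup.orderOf_r_one]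
      have h2 : (DihedralGroup.r i : DihedralGroup n) ∈ zpowers (DihedralGroup.r j : DihedralGroup n) := by
        rw [h1]
        refine mem_zpowers_iff.2 ⟨(i.val : ℤ), ?_⟩
        rw [zpow_natCast, DihedralGroup.r_one_pow, ZMod.natCast_zmod_val]
      obtain ⟨k, hk⟩ := mem_zpowers_iff.1 h2
      rw [← hgen]
      refine mem_zpowers_iff.2 ⟨k, e.injective ?_⟩
      rw [map_zpow, hce, hk, hxe]
    · rw [hce, DihedralGroup.orderOf_sr] at hoc
      subst hoc
      have hi : i ≠ 0 := by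
        rintro rfl
        apply hx
        have h1 : x = 1 := e.injective (by rw [hxe, map_one]; rfl)
        rw [h1]; exact one_mem _
      have h1 : orderOf (DihedralGroup.r i : DihedralGroup 2) = 2 := by
        apply orderOf_eq_prime
        · rw [DihedralGroup.r_pow]
          have : (i * (2 : ℕ) : ZMod 2) = 0 := by
            have h0 : ((2 : ℕ) : ZMod 2) = 0 := by decide
            rw [h0, mul_zero]
          rw [this]; rfl
        · intro h
          rw [DihedralGroup.one_def] at h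
          exact hi (DihedralGroup.r.inj h)
      exact h1
  · exact DihedralGroup.orderOf_sr i

theorem res_self {G : Type*} [Group G] [Finite G] : Cfsg.pResidual 2 ↥(Cfsg.pResidual 2 G) = ⊤ := by
  rw [eq_top_iff]
  have h1 : Cfsg.pResidual 2 G ≤ (Cfsg.pResidual 2 ↥(Cfsg.pResidual 2 G)).map (Cfsg.pResidual 2 G).subtype := by
    conv_lhs => unfold Cfsg.pResidual
    rw [closure_le]
    intro x hx
    have hx' : x ∈ Cfsg.pResidual 2 G := subset_closure hx
    refine ⟨⟨x, hx'⟩, subset_closure ?_, rfl⟩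
    show Nat.Coprime (orderOf (⟨x, hx'⟩ : ↥(Cfsg.pResidual 2 G))) 2
    rw [Subgroup.orderOf_mk]; exact hx
  rintro ⟨x, hx⟩ -
  obtain ⟨y, hy, hyx⟩ := h1 hx
  have : y = ⟨x, hx⟩ := Subtype.ext hyx
  rwa [← this]

theorem s1924 {G : Type*} [Group G] [Finite G] (L T S D C : Subgroup G) (hL : Cfsg.pResidual 2 ↥L = ⊤)
    (hTL : T ≤ L) (hT2 : IsPGroup 2 T) (hTsyl : ¬ 2 ∣ T.relIndex L)
    (hS2 : IsPGroup 2 S) (hSsyl : ¬ 2 ∣ S.index) (hTS : T ≤ S)
    (hDS : D ≤ S) (hDih : ∃ n : ℕ, 2 ≤ n ∧ Nonempty (↥D ≃* DihedralGroup n)) (hDT : D ⊓ T = ⊥) (hTD : T ⊔ D = S) (hTDc : Nat.card T * Nat.card D = Nat.card S)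
    (hCD : C ≤ D) (hC : IsCyclic ↥C) (hCi : C.relIndex D = 2)
    (h1 : ∀ x ∈ D, x ∉ C → orderOf x = 2 → ∀ g : G, g * x * g⁻¹ ∈ T ⊔ C → False)
    (h2 : ∀ c ∈ C, orderOf c = 2 → ∀ g : G, g * c * g⁻¹ ∈ T → False) :
    ∃ K : Subgroup G, K.Normal ∧ K ⊔ D = ⊤ ∧
      ∀ T' : Subgroup G, T' ≤ L → IsPGroup 2 T' → ¬ 2 ∣ T'.relIndex L → T' ≤ K ∧ ¬ 2 ∣ T'.relIndex K := by
  classical
  haveI : Fact (Nat.Prime 2) := ⟨Nat.prime_two⟩
  obtain ⟨n, hn, ⟨e⟩⟩ := hDih
  have hCS : C ≤ S := hCD.trans hDS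
  -- elements outside C
  have hout : ∀ x ∈ D, x ∉ C → orderOf x = 2 := by
    intro x hx hxC
    haveI hCc : IsCyclic (C.subgroupOf D) := by
      haveI := hC
      exact isCyclic_of_injective (Subgroup.subgroupOfEquivOfLe hCD).toMonoidHom (Subgroup.subgroupOfEquivOfLe hCD).injective
    have h3 := dih_out hn e (C.subgroupOf D) hCc hCi ⟨x, hx⟩ (fun h => hxC (Subgroup.mem_subgroupOf.1 h))
    rwa [Subgroup.orderOf_mk] at h3
  have hcardD : Nat.card C * 2 = Nat.card D := by
    have h3 := CfsgLib.PL1.relIndex_mul_card hCD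
    rw [hCi] at h3
    rw [mul_comm]; exact h3
  obtain ⟨x₀, hx₀, hx₀C⟩ : ∃ x ∈ D, x ∉ C := by
    by_contra hcon
    push Not at hcon
    have h3 : C = D := le_antisymm hCD hcon
    rw [h3, Subgroup.relIndex_self] at hCi
    omega
  -- the index of T ⊔ C
  have hdisTC : Disjoint T C := by
    rw [disjoint_iff, eq_bot_iff, ← hDT]
    exact le_inf (inf_le_right.trans hCD) inf_le_left
  have hTCS : T ⊔ C ≤ S := sup_le hTS hCS
  have hcardTC : Nat.card T * Nat.card C ≤ Nat.card (T ⊔ C : Subgroup G) := by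
    rw [← Nat.card_prod]
    refine Nat.card_le_card_of_injective (fun q : T × C => (⟨q.1 * q.2, mul_mem (mem_sup_left q.1.2) (mem_sup_right q.2.2)⟩ : (T ⊔ C : Subgroup G))) ?_
    intro q q' h
    exact Subgroup.mul_injective_of_disjoint hdisTC (congrArg Subtype.val h)
  have hne : T ⊔ C ≠ S := fun h => h1 x₀ hx₀ hx₀C (hout x₀ hx₀ hx₀C) 1 (by
    rw [one_mul, inv_one, mul_one, h]; exact hDS hx₀)
  have hrel : (T ⊔ C).relIndex S = 2 := by
    have h3 := CfsgLib.PL1.relIndex_mul_card hTCS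
    have h4 : (T ⊔ C).relIndex S ≠ 1 := fun h => hne (le_antisymm hTCS (Subgroup.relIndex_eq_one.1 h))
    have h5 : (T ⊔ C).relIndex S ≠ 0 := Subgroup.index_ne_zero_of_finite
    have h6 : (T ⊔ C).relIndex S ≤ 2 := by
      have h7 : (T ⊔ C).relIndex S * Nat.card (T ⊔ C : Subgroup G) = 2 * (Nat.card T * Nat.card C) := by
        rw [h3, ← hTDc, ← hcardD]; ring
      have h8 : (T ⊔ C).relIndex S * Nat.card (T ⊔ C : Subgroup G) ≤ 2 * Nat.card (T ⊔ C : Subgroup G) := by
        rw [h7]; exact Nat.mul_le_mul_left _ hcardTC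
      exact Nat.le_of_mul_le_mul_right h8 Nat.card_pos
    omega
  have hSodd : Odd S.index := by
    rw [← Nat.not_even_iff_odd, even_iff_two_dvd]; exact hSsyl
  have hidxTC : (T ⊔ C).index = 2 ^ (0 + 1) * S.index := by
    rw [← Subgroup.relIndex_mul_index hTCS, hrel]; norm_num
  set R := Cfsg.pResidual 2 G with hR
  haveI hRn : R.Normal := CfsgLib.Transfer.pResidual_normal 2
  have hDR : D ⊓ R ≤ C := by
    intro x hx
    by_contra hxC
    have ho := hout x hx.1 hxC
    refine odd_res (T ⊔ C) x 0 S.index (by rw [ho]; norm_num) ?_ hidxTC hSodd hx.2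
    intro g hg
    apply h1 x hx.1 hxC ho g⁻¹
    rw [inv_inv]
    simpa using hg
  -- L ≤ R
  have hLR : L ≤ R := by
    have h3 : (⊤ : Subgroup L) ≤ R.subgroupOf L := by
      rw [← hL]
      unfold Cfsg.pResidual
      rw [closure_le]
      intro x hx
      refine Subgroup.mem_subgroupOf.2 (subset_closure ?_)
      show Nat.Coprime (orderOf (x : G)) 2
      rw [Subgroup.orderOf_coe]; exact hx
    intro x hx
    exact Subgroup.mem_subgroupOf.1 (h3 (Subgroup.mem_top (⟨x, hx⟩ : L)))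
  have hTR : T ≤ R := hTL.trans hLR
  -- S = T D as a set
  have hdisTD : Disjoint T D := by
    rw [disjoint_iff, inf_comm]; exact hDT
  have hprod : ∀ s ∈ S, ∃ t ∈ T, ∃ d ∈ D, t * d = s := by
    intro s hs
    have hinj : Function.Injective (fun q : T × D => (⟨q.1 * q.2, mul_mem (hTS q.1.2) (hDS q.2.2)⟩ : S)) := by
      intro q q' h
      exact Subgroup.mul_injective_of_disjoint hdisTD (congrArg Subtype.val h)
    have hbij := (Nat.bijective_iff_injective_and_card _).2 ⟨hinj, by rw [Nat.card_prod]; exact hTDc⟩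
    obtain ⟨⟨t, d⟩, htd⟩ := hbij.2 ⟨s, hs⟩
    exact ⟨t, t.2, d, d.2, congrArg Subtype.val htd⟩
  have hcardSR : Nat.card (S ⊓ R : Subgroup G) = Nat.card T * Nat.card (D ⊓ R : Subgroup G) := by
    rw [← Nat.card_prod]
    symm
    refine Nat.card_congr (Equiv.ofBijective (fun q : T × (D ⊓ R : Subgroup G) =>
      (⟨q.1 * q.2, mul_mem (mem_inf.2 ⟨hTS q.1.2, hTR q.1.2⟩) (mem_inf.2 ⟨hDS q.2.2.1, q.2.2.2⟩)⟩ : (S ⊓ R : Subgroup G))) ⟨?_, ?_⟩)
    · intro q q' h
      exact Subgroup.mul_injective_of_disjoint (hdisTD.mono_right inf_le_left) (congrArg Subtype.val h)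
    · rintro ⟨s, hs⟩
      obtain ⟨t, ht, d, hd, htd⟩ := hprod s hs.1
      have hdR : d ∈ R := by
        have : d = t⁻¹ * s := by rw [← htd]; group
        rw [this]; exact mul_mem (inv_mem (hTR ht)) hs.2
      exact ⟨(⟨t, ht⟩, ⟨d, mem_inf.2 ⟨hd, hdR⟩⟩), Subtype.ext htd⟩
  -- Sylow facts
  have hSyl : CfsgLib.Coprime.IsSyl 2 S ⊤ := CfsgLib.SylBridge.isSyl_iff.2 ⟨le_top, hS2, by rwa [Subgroup.relIndex_top_right]⟩
  have hSylR : CfsgLib.Coprime.IsSyl 2 (S ⊓ R) R := by
    have h3 := CfsgLib.SylBridge.IsSyl.inf_normal hSyl (N := R) le_top (by rw [Subgroup.normalizer_eq_top R])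
    exact h3
  have hSRodd : Odd ((S ⊓ R).relIndex R) := by
    rw [← Nat.not_even_iff_odd, even_iff_two_dvd]
    exact (CfsgLib.SylBridge.isSyl_iff.1 hSylR).2.2
  have hidxT : T.relIndex R = Nat.card (D ⊓ R : Subgroup G) * (S ⊓ R).relIndex R := by
    have h3 := CfsgLib.PL1.relIndex_mul_card hTR
    have h4 := CfsgLib.PL1.relIndex_mul_card (inf_le_right : S ⊓ R ≤ R)
    rw [hcardSR] at h4
    rw [← h4] at h3
    have h5 : T.relIndex R * Nat.card T = (Nat.card (D ⊓ R : Subgroup G) * (S ⊓ R).relIndex R) * Nat.card T := by rw [h3]; ring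
    exact Nat.eq_of_mul_eq_mul_right Nat.card_pos h5
  -- D ∩ R = 1
  have hbot : D ⊓ R = ⊥ := by
    by_contra hnb
    haveI hcyc : IsCyclic (D ⊓ R : Subgroup G) := by
      haveI := hC
      exact isCyclic_of_injective (Subgroup.inclusion hDR) (Subgroup.inclusion_injective hDR)
    obtain ⟨⟨y, hy⟩, hyg⟩ := hcyc.exists_generator
    have hgen : zpowers y = D ⊓ R := by
      apply le_antisymm (zpowers_le.2 hy)
      intro z hz
      obtain ⟨k, hk⟩ := mem_zpowers_iff.1 (hyg ⟨z, hz⟩)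
      exact mem_zpowers_iff.2 ⟨k, congrArg Subtype.val hk⟩
    have hoy : orderOf y = Nat.card (D ⊓ R : Subgroup G) := by rw [← Nat.card_zpowers, hgen]
    obtain ⟨k', hk'⟩ := IsPGroup.iff_card.1 (hS2.to_le (inf_le_left.trans hDS : D ⊓ R ≤ S))
    have hk0 : k' ≠ 0 := by
      rintro rfl
      rw [pow_zero] at hk'
      exact hnb (Subgroup.card_eq_one.1 hk')
    obtain ⟨k, rfl⟩ := Nat.exists_eq_succ_of_ne_zero hk0
    rw [Nat.succ_eq_add_one] at hk'
    have hoy2 : orderOf (y ^ (2 ^ k)) = 2 := by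
      rw [orderOf_pow, hoy, hk', Nat.gcd_eq_right (pow_dvd_pow 2 (Nat.le_succ k)), pow_succ,
        Nat.mul_div_cancel_left _ (by positivity)]
    have h5 := odd_res (G := R) (T.subgroupOf R) ⟨y, hy.2⟩ k ((S ⊓ R).relIndex R) (by rw [Subgroup.orderOf_mk, hoy, hk']) ?_ ?_ hSRodd
    · apply h5
      have h8 : Cfsg.pResidual 2 ↥R = ⊤ := res_self
      have h9 : (⟨y, hy.2⟩ : R) ∈ (⊤ : Subgroup R) := Subgroup.mem_top _
      rwa [← h8] at h9
    · intro g hg
      have h6 := Subgroup.mem_subgroupOf.1 hg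
      apply h2 (y ^ 2 ^ k) (pow_mem (hDR hy) _) hoy2 ((g : G)⁻¹)
      rw [inv_inv]
      exact h6
    · show T.relIndex R = _
      rw [hidxT, hk']
  refine ⟨R, hRn, ?_, ?_⟩
  · have h3 : R ⊔ S = ⊤ := by
      obtain ⟨P, hP⟩ := CfsgLib.SylBridge.isSyl_top_iff.1 hSyl
      have h4 := CfsgLib.Transfer.sup_pResidual P
      rw [hP, sup_comm] at h4
      exact h4
    rw [eq_top_iff, ← h3, ← hTD]
    exact sup_le le_sup_left (sup_le (hTR.trans le_sup_left) le_sup_right)
  · intro T' hT'L hT'2 hT's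
    have h3 : CfsgLib.Coprime.IsSyl 2 T L := CfsgLib.SylBridge.isSyl_iff.2 ⟨hTL, hT2, hTsyl⟩
    have h4 : CfsgLib.Coprime.IsSyl 2 T' L := CfsgLib.SylBridge.isSyl_iff.2 ⟨hT'L, hT'2, hT's⟩
    have h5 : Nat.card T' = Nat.card (S ⊓ R : Subgroup G) := by
      rw [h4.2, ← h3.2, hcardSR, hbot, Subgroup.card_bot, mul_one]
    have h6 : CfsgLib.Coprime.IsSyl 2 T' R := ⟨hT'L.trans hLR, by rw [h5]; exact hSylR.2⟩
    exact ⟨hT'L.trans hLR, (CfsgLib.SylBridge.isSyl_iff.1 h6).2.2⟩

end CfsgLib.H6Cu
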