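import Cfsg.Agent.Lib.PSolv
import Cfsg.Agent.Lib.SylBridge
import Cfsg.Agent.Lib.H7Basic
import Cfsg.Agent.Lib.H6PR2

/-! S1948 -/

set_option autoImplicit false
set_option linter.unusedVariables false

namespace CfsgLib.H6Cv
open Subgroup
open CfsgLib.Coprime CfsgLib.SylBridge CfsgLib.H6PR

universe u
variable {G : Type u} [Group G] [Finite G] {p : ℕ} [hp : Fact p.Prime]

theorem psolv_of (S : Sylow p G) (h : Subgroup.normalizer ((S : Subgroup G) : Set G) ⊔ Cfsg.pPrimeCore p G = ⊤) : Cfsg.IsPSolvable p G := by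
  have hDn : (Cfsg.pPrimeCore p G).Normal := CfsgLib.Core.pPrimeCore_normal p G
  have hDc := CfsgLib.Core.card_pPrimeCore_coprime p G
  have hSD : ((S : Subgroup G) ⊔ Cfsg.pPrimeCore p G).Normal := by
    apply Subgroup.normalizer_eq_top_iff.1
    rw [eq_top_iff, ← h]
    refine sup_le ?_ (le_sup_right.trans le_normalizer)
    intro n hn
    rw [← CfsgLib.H7Basic.cj_eq_self_iff, Subgroup.map_sup, CfsgLib.H7Basic.cj_eq_self_iff.2 hn,
      CfsgLib.H7Basic.cj_eq_self_iff.2 (by rw [Subgroup.normalizer_eq_top_iff.2 hDn]; trivial)]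
  refine ⟨3, ![⊥, Cfsg.pPrimeCore p G, (S : Subgroup G) ⊔ Cfsg.pPrimeCore p G, ⊤], rfl, rfl, ?_, ?_, ?_⟩
  · rw [Fin.monotone_iff_le_succ]
    intro i
    fin_cases i
    · exact bot_le
    · exact le_sup_right
    · exact le_top
  · intro i
    fin_cases i
    · exact Subgroup.normal_bot
    · exact hDn
    · exact hSD
    · exact Subgroup.normal_top
  · intro i
    fin_cases i
    · right
      show ((⊥ : Subgroup G).relIndex (Cfsg.pPrimeCore p G)).Coprime p
      rw [Subgroup.relIndex_bot_left]; exact hDc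
    · left
      show ∃ m : ℕ, (Cfsg.pPrimeCore p G).relIndex ((S : Subgroup G) ⊔ Cfsg.pPrimeCore p G) = p ^ m
      rw [Subgroup.relIndex_sup_right]
      obtain ⟨k, hk⟩ := IsPGroup.iff_card.1 S.isPGroup'
      have h1 : (Cfsg.pPrimeCore p G).relIndex (S : Subgroup G) ∣ p ^ k := by
        rw [← hk]; exact Subgroup.relIndex_dvd_card _ _
      obtain ⟨m, -, hm⟩ := (Nat.dvd_prime_pow hp.out).1 h1
      exact ⟨m, hm⟩
    · right
      show (((S : Subgroup G) ⊔ Cfsg.pPrimeCore p G).relIndex ⊤).Coprime p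
      rw [Subgroup.relIndex_top_right]
      have h1 : ((S : Subgroup G) ⊔ Cfsg.pPrimeCore p G).index ∣ (S : Subgroup G).index := Subgroup.index_dvd_of_le le_sup_left
      have h2 : ((S : Subgroup G).index).Coprime p := by
        rw [Nat.coprime_comm, hp.out.coprime_iff_not_dvd]
        exact S.not_dvd_index
      exact Nat.Coprime.coprime_dvd_left h1 h2

theorem s1948 (S : Sylow p G) :
    Subgroup.normalizer ((S : Subgroup G) : Set G) ⊔ Cfsg.pPrimeCore p G = ⊤ ↔
      (Cfsg.IsPConstrained p G ∧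
        ∀ Q : Subgroup G, Q ≤ (S : Subgroup G) → ∀ g : G, Q.map (MulAut.conj g).toMonoidHom ≤ (S : Subgroup G) →
          ∃ n ∈ Subgroup.normalizer ((S : Subgroup G) : Set G), ∃ c ∈ Subgroup.centralizer (Q : Set G), g = n * c) := by
  haveI hDn : (Cfsg.pPrimeCore p G).Normal := CfsgLib.Core.pPrimeCore_normal p G
  have hDc := CfsgLib.Core.card_pPrimeCore_coprime p G
  constructor
  · intro h
    refine ⟨CfsgLib.PSolv.isPConstrained_of_isPSolvable (psolv_of S h), ?_⟩
    intro Q hQ g hg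
    have h1 : g ∈ Subgroup.normalizer ((S : Subgroup G) : Set G) ⊔ Cfsg.pPrimeCore p G := by rw [h]; trivial
    rw [← SetLike.mem_coe, Subgroup.mul_normal] at h1
    obtain ⟨n, hn, d, hd, hnd⟩ := h1
    refine ⟨n, hn, d, ?_, hnd.symm⟩
    have hnd' : g = n * d := hnd.symm
    rw [Subgroup.mem_centralizer_iff]
    intro q hq
    have h2 : g * q * g⁻¹ ∈ (S : Subgroup G) := hg ⟨q, hq, rfl⟩
    have h3 : d * q * d⁻¹ ∈ (S : Subgroup G) := by
      have h4 := CfsgLib.PL1.conj_mem (inv_mem hn) h2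
      have h5 : n⁻¹ * (g * q * g⁻¹) * n⁻¹⁻¹ = d * q * d⁻¹ := by rw [hnd']; group
      rwa [h5] at h4
    have h4 : d * q * d⁻¹ * q⁻¹ ∈ (S : Subgroup G) := mul_mem h3 (inv_mem (hQ hq))
    have h5 : d * q * d⁻¹ * q⁻¹ ∈ Cfsg.pPrimeCore p G := by
      have h6 := mul_mem hd (hDn.conj_mem _ (inv_mem hd) q)
      have h7 : d * (q * d⁻¹ * q⁻¹) = d * q * d⁻¹ * q⁻¹ := by group
      rwa [h7] at h6
    have hdis : Disjoint (S : Subgroup G) (Cfsg.pPrimeCore p G) := by
      apply Subgroup.disjoint_of_coprime_natCard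
      obtain ⟨n, hn⟩ := IsPGroup.iff_card.1 S.isPGroup'
      rw [hn]; exact Nat.Coprime.pow_left n hDc.symm
    have h6 : d * q * d⁻¹ * q⁻¹ = 1 := Subgroup.disjoint_def.1 hdis h4 h5
    rw [mul_inv_eq_one, mul_inv_eq_iff_eq_mul] at h6
    exact h6.symm
  · rintro ⟨hc, hctl⟩
    have hKn : (Cfsg.pPrimePCore p G).Normal := CfsgLib.PSolv.pPrimePCore_normal p G
    have hSyl : IsSyl p ((S : Subgroup G) ⊓ Cfsg.pPrimePCore p G) (Cfsg.pPrimePCore p G) :=
      CfsgLib.SylBridge.IsSyl.inf_normal (syl_top S) le_top (by rw [Subgroup.normalizer_eq_top_iff.2 hKn])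
    have hCK : Subgroup.centralizer (((S : Subgroup G) ⊓ Cfsg.pPrimePCore p G : Subgroup G) : Set G) ≤ Cfsg.pPrimePCore p G := by
      have h1 := hc hSyl.toSylow
      rwa [hSyl.toSylow_map] at h1
    obtain ⟨k, hk⟩ := CfsgLib.PSolv.relIndex_pPrimePCore (G := G) p
    have h1 := CfsgLib.PSolv.isSyl_sup_eq hSyl (CfsgLib.PSolv.pPrimeCore_le_pPrimePCore p G) (by rw [Subgroup.normalizer_eq_top]; exact le_top) hk
    have hKle : Cfsg.pPrimePCore p G ≤ Subgroup.normalizer ((S : Subgroup G) : Set G) ⊔ Cfsg.pPrimeCore p G := by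
      rw [← h1]
      exact sup_le (inf_le_left.trans (le_normalizer.trans le_sup_left)) le_sup_right
    have hfr := CfsgLib.SylBridge.IsSyl.frattini hSyl le_top (by rw [Subgroup.normalizer_eq_top_iff.2 hKn])
    rw [eq_top_iff]
    refine hfr.trans (sup_le hKle ?_)
    rintro g ⟨-, hg⟩
    obtain ⟨n, hn, c, hcc, rfl⟩ := hctl _ inf_le_left g (by
      rw [CfsgLib.H7Basic.cj_eq_self_iff.2 hg]; exact inf_le_left)
    exact mul_mem (Subgroup.mem_sup_left hn) (hKle (hCK hcc))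

end CfsgLib.H6Cv
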