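import Cfsg.Agent.Lib.H6SJ
import Cfsg.Agent.Lib.H6SPE2
import Cfsg.Agent.Lib.H7Basic
import Cfsg.Prelude.Def_SylowControl
import Cfsg.Prelude.Def_SylowChains

/-! S2955 -/

set_option autoImplicit false
set_option linter.unusedVariables false

namespace CfsgLib.H6Cv
open Subgroup
open CfsgLib.Coprime CfsgLib.SylBridge

variable {G : Type*} [Group G] [Finite G] {p : ℕ} [hp : Fact p.Prime]

theorem s2955 (𝓕 : Set (Subgroup G)) (h𝓕 : Cfsg.IsNormalSet 𝓕) (hc : Cfsg.ControlsSylowIntersections p 𝓕)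
    (hconn : Cfsg.IsSylowChainConnected p G) (S : Sylow p G) :
    (⨆ X ∈ Cfsg.sylowMembers p 𝓕 (S : Subgroup G), X) ⊔ Subgroup.normalizer ((S : Subgroup G) : Set G) = ⊤ := by
  set H := (⨆ X ∈ Cfsg.sylowMembers p 𝓕 (S : Subgroup G), X) ⊔ Subgroup.normalizer ((S : Subgroup G) : Set G) with hH
  have hstep : ∀ (T U : Sylow p G) (X : Subgroup G) (x : G), (∃ h ∈ H, (S : Subgroup G).map (MulAut.conj h).toMonoidHom = T) →
      X ∈ Cfsg.sylowMembers p 𝓕 (T : Subgroup G) → x ∈ X → Cfsg.subgroupConjRight x (U : Subgroup G) = (T : Subgroup G) →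
      (∃ h ∈ H, (S : Subgroup G).map (MulAut.conj h).toMonoidHom = U) := by
    rintro T U X x ⟨h, hh, hT⟩ ⟨hX, P, hP⟩ hx hU
    have h1 : IsSyl p ((T : Subgroup G) ⊓ X) X := by rw [← hP]; exact isSyl_of_sylow P
    have h2 := CfsgLib.H6SJ.isSyl_map_of (MulAut.conj h⁻¹).toMonoidHom h1
    have hTS : (T : Subgroup G).map (MulAut.conj h⁻¹).toMonoidHom = S := by
      rw [← hT, CfsgLib.H7Basic.cj_cj, inv_mul_cancel, CfsgLib.H7Basic.cj_one]
    rw [Subgroup.map_inf _ _ _ (MulAut.conj h⁻¹).injective, hTS] at h2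
    have hmem : X.map (MulAut.conj h⁻¹).toMonoidHom ∈ Cfsg.sylowMembers p 𝓕 (S : Subgroup G) :=
      ⟨h𝓕 X hX h, h2.toSylow, h2.toSylow_map⟩
    have hle : X.map (MulAut.conj h⁻¹).toMonoidHom ≤ H :=
      (le_iSup₂ (f := fun (X : Subgroup G) (_ : X ∈ Cfsg.sylowMembers p 𝓕 (S : Subgroup G)) => X) _ hmem).trans le_sup_left
    have hxH : x ∈ H := by
      have h3 : h⁻¹ * x * h⁻¹⁻¹ ∈ H := hle ⟨x, hx, rfl⟩
      have h4 := mul_mem (mul_mem hh h3) (inv_mem hh)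
      have h5 : h * (h⁻¹ * x * h⁻¹⁻¹) * h⁻¹ = x := by group
      rwa [h5] at h4
    refine ⟨x * h, mul_mem hxH hh, ?_⟩
    have hU' : (U : Subgroup G).map (MulAut.conj x⁻¹).toMonoidHom = T := hU
    rw [← CfsgLib.H7Basic.cj_cj, hT, ← hU', CfsgLib.H7Basic.cj_cj, mul_inv_cancel, CfsgLib.H7Basic.cj_one]
  have hstep2 : ∀ (T U : Sylow p G), (∃ h ∈ H, (S : Subgroup G).map (MulAut.conj h).toMonoidHom = T) → T ≠ U →
      (T : Subgroup G) ⊓ (U : Subgroup G) ≠ ⊥ → (∃ h ∈ H, (S : Subgroup G).map (MulAut.conj h).toMonoidHom = U) := by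
    intro T U hT hne hinf
    obtain ⟨n, c, X, x, hc0, hcn, hcc⟩ := hc T U hne hinf
    have h1 : ∀ k : ℕ, ∀ hk : k < n + 1, ∃ h ∈ H, (S : Subgroup G).map (MulAut.conj h).toMonoidHom = c ⟨k, hk⟩ := by
      intro k
      induction k with
      | zero => intro hk; obtain ⟨h, hh, hS⟩ := hT; exact ⟨h, hh, by rw [hS, ← hc0]; rfl⟩
      | succ k ih =>
        intro hk
        obtain ⟨h2, -, h4, h5, -⟩ := hcc ⟨k, by omega⟩
        exact hstep _ _ _ _ (ih (by omega)) h2 h4 h5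
    rw [← hcn]
    exact h1 n (by omega)
  rw [eq_top_iff]
  rintro g -
  have hall : ∃ h ∈ H, (S : Subgroup G).map (MulAut.conj h).toMonoidHom = (g • S : Sylow p G) := by
    obtain ⟨n, c, hc0, hcn, -, hcc⟩ := hconn S (g • S)
    have h1 : ∀ k : ℕ, ∀ hk : k < n + 1, ∃ h ∈ H, (S : Subgroup G).map (MulAut.conj h).toMonoidHom = c ⟨k, hk⟩ := by
      intro k
      induction k with
      | zero => intro hk; exact ⟨1, one_mem _, by rw [CfsgLib.H7Basic.cj_one, ← hc0]; rfl⟩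
      | succ k ih =>
        intro hk
        exact hstep2 _ _ (ih (by omega)) (hcc ⟨k, by omega⟩).1 (hcc ⟨k, by omega⟩).2
    rw [← hcn]
    exact h1 n (by omega)
  obtain ⟨h, hh, hS⟩ := hall
  rw [CfsgLib.H7Basic.sylow_smul_coe] at hS
  have h1 : h⁻¹ * g ∈ Subgroup.normalizer ((S : Subgroup G) : Set G) := by
    rw [← CfsgLib.H7Basic.cj_eq_self_iff, ← CfsgLib.H7Basic.cj_cj, ← hS, CfsgLib.H7Basic.cj_cj, inv_mul_cancel, CfsgLib.H7Basic.cj_one]
  have h2 := mul_mem hh ((le_sup_right : _ ≤ H) h1)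
  rwa [mul_inv_cancel_left] at h2

end CfsgLib.H6Cv
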