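import Cfsg.Agent.Lib.H6Qd
import Cfsg.Agent.Lib.PGrp
import Cfsg.Prelude.Def_Transfer

/-! The Sylow subgroup of `Qd(p)` is extraspecial. -/

set_option autoImplicit false
set_option linter.style.haveILetI false

open scoped commutatorElement
open Subgroup CfsgLib.ThmA CfsgLib.Dick

namespace CfsgLib.H6Qd

universe u

variable {p : ℕ} [hp : Fact p.Prime]

theorem te_zero : (te 0 0 0 : tsub p) = 1 := Subtype.ext tt_zero

theorem te_comm (a : ZMod p) : ⁅(te 1 0 0 : tsub p), te 0 0 a⁆ = te 0 a 0 := by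
  rw [commutatorElement_def, mul_inv_eq_iff_eq_mul, mul_inv_eq_iff_eq_mul, te_mul, te_mul, te_mul]
  congr 1 <;> ring

theorem te_pow (t a b : ZMod p) (n : ℕ) : te t a b ^ n = te ((n : ZMod p) * t) ((n : ZMod p) * a + ((n.choose 2 : ℕ) : ZMod p) * (t * b)) ((n : ZMod p) * b) := by
  induction n with
  | zero => rw [pow_zero, ← te_zero]; congr 1 <;> simp
  | succ n ih =>
    rw [pow_succ, ih, te_mul]
    have h3 : (n + 1).choose 2 = n.choose 2 + n := by
      rw [Nat.choose_succ_succ' n 1, Nat.choose_one_right, add_comm]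
    rw [h3]
    push_cast
    congr 1 <;> ring

theorem te_pow_p (hp2 : p ≠ 2) (x : tsub p) : x ^ p = 1 := by
  obtain ⟨t, a, b, rfl⟩ := te_surj x
  rw [te_pow, ← te_zero]
  have h1 : ((p.choose 2 : ℕ) : ZMod p) = 0 := by
    rw [CharP.cast_eq_zero_iff (ZMod p) p]
    exact hp.out.dvd_choose_self (by norm_num) (by have := hp.out.two_le; omega)
  have h2 : ((p : ℕ) : ZMod p) = 0 := CharP.cast_eq_zero _ _
  rw [h1, h2]
  congr 1 <;> ring

variable {Y : Type u} [Group Y] [Finite Y] (φ : Cfsg.qd p ≃* Y)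

theorem TY_card : Nat.card (TY φ) = p ^ 3 := by
  rw [← tsub_card]; exact card_map_of_injective φ.injective

theorem centerY : center (TY φ) = (ZY φ).subgroupOf (TY φ) := by
  ext x
  rw [mem_center_iff, mem_subgroupOf, ← ZY_eq]
  constructor
  · intro h
    refine ⟨x.2, ?_⟩
    change _ ∈ centralizer _
    rw [mem_centralizer_iff]
    intro y hy
    exact congrArg Subtype.val (h ⟨y, hy⟩)
  · rintro ⟨-, h⟩ y
    exact Subtype.ext (mem_centralizer_iff.1 h y y.2)

theorem Z_le_commutator : (ZY φ).subgroupOf (TY φ) ≤ commutator (TY φ) := by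
  rintro x hx
  rw [mem_subgroupOf] at hx
  obtain ⟨_, ⟨a, rfl⟩, ha⟩ := hx
  have hx' : x = eY φ (te 0 a 0) := Subtype.ext ha.symm
  rw [hx', ← te_comm, map_commutatorElement, commutator_def]
  exact commutator_mem_commutator (mem_top _) (mem_top _)

theorem frattini_le_Z : frattini (TY φ) ≤ (ZY φ).subgroupOf (TY φ) := by
  set M : Subgroup (TY φ) := (VY φ).subgroupOf (TY φ) with hM
  have hM1 : M.index = p := VY_relIndex φ
  have hM2 : (M.comap (tauY φ).toMonoidHom).index = p := by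
    rw [index_comap_of_surjective _ (tauY φ).surjective, hM1]
  intro x hx
  have h1 : x ∈ M := frattini_le_coatom (CfsgLib.PGrp.isCoatom_of_index_prime hM1) hx
  have h2 : x ∈ M.comap (tauY φ).toMonoidHom := frattini_le_coatom (CfsgLib.PGrp.isCoatom_of_index_prime hM2) hx
  rw [mem_subgroupOf]
  exact tauY_inter φ h1 h2

theorem espY : Cfsg.IsExtraspecial p (TY φ) := by
  have h1 := Z_le_commutator φ
  have h2 := CfsgLib.PGrp.commutator_le_frattini (TY_isPGroup φ)
  have h3 := frattini_le_Z φ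
  refine ⟨⟨TY_isPGroup φ, ?_, ?_⟩, ?_⟩
  · rw [centerY]; exact le_antisymm h3 (h1.trans h2)
  · rw [centerY]; exact le_antisymm (h2.trans h3) h1
  · rw [centerY, Nat.card_congr (subgroupOfEquivOfLe ((ZY_le φ).trans (VY_le φ))).toEquiv, ZY_card]

theorem expY (hp2 : p ≠ 2) : Monoid.exponent (TY φ) = p := by
  have h1 : Monoid.exponent (TY φ) ∣ p := by
    apply Monoid.exponent_dvd_of_forall_pow_eq_one
    intro x
    obtain ⟨y, rfl⟩ := (eY φ).surjective x
    rw [← map_pow, te_pow_p hp2, map_one]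
  rcases (Nat.dvd_prime hp.out).1 h1 with h2 | h2
  · exfalso
    have := TY_nontrivial φ
    obtain ⟨x, hx⟩ := exists_ne (1 : TY φ)
    apply hx
    have := Monoid.pow_exponent_eq_one x
    rwa [h2, pow_one] at this
  · exact h2

theorem exists_sylow (P : Sylow p (Cfsg.qd p)) : ∃ g : Cfsg.qd p, (P : Subgroup (Cfsg.qd p)) = TY (MulAut.conj g) := by
  obtain ⟨g, hg⟩ := CfsgLib.H7Basic.exists_cj_sylow_eq (TS (MulEquiv.refl (Cfsg.qd p))) P
  refine ⟨g, ?_⟩
  rw [← hg, TS_coe]
  unfold TY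
  rw [Subgroup.map_map]
  congr 1

end CfsgLib.H6Qd
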