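import Mathlib
import Cfsg.Prelude.Def_Transfer
import Cfsg.Agent.Lib.Quat
import Cfsg.Agent.Lib.H9Sig
import Cfsg.Agent.Lib.H3Misc
import Cfsg.Agent.Lib.H7Mult3

set_option autoImplicit false
set_option linter.style.haveILetI false

namespace CfsgLib.H7D
open Subgroup
open scoped commutatorElement

universe u

/-- generalized quaternion groups of order at least 16 have cyclic and noncyclic subgroups of order 8 -/
theorem quat_two (n : ℕ) (hn : 2 ≤ n) : ∃ H K : Subgroup (QuaternionGroup (2 ^ n)),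
    Nat.card H = 8 ∧ Nat.card K = 8 ∧ IsCyclic H ∧ ¬ IsCyclic K := by
  haveI : NeZero (2 ^ n : ℕ) := ⟨by positivity⟩
  have hcard : Nat.card (QuaternionGroup (2 ^ n)) = 4 * 2 ^ n := by
    rw [Nat.card_eq_fintype_card, QuaternionGroup.card]
  obtain ⟨m, rfl⟩ : ∃ m, n = m + 2 := ⟨n - 2, by omega⟩
  have h1 : orderOf (QuaternionGroup.a 1 : QuaternionGroup (2 ^ (m + 2))) = 2 ^ m * 8 := by
    rw [QuaternionGroup.orderOf_a_one]; ring
  have h2 : orderOf ((QuaternionGroup.a 1 : QuaternionGroup (2 ^ (m + 2))) ^ (2 ^ m)) = 8 := by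
    rw [orderOf_pow_of_dvd (by positivity) (by rw [h1]; exact Dvd.intro _ rfl), h1]
    exact Nat.mul_div_cancel_left 8 (by positivity)
  have h3 : Nat.card (zpowers (QuaternionGroup.xa 0 : QuaternionGroup (2 ^ (m + 2)))) = 2 ^ 2 := by
    rw [Nat.card_zpowers, QuaternionGroup.orderOf_xa]; norm_num
  haveI : Fact (Nat.Prime 2) := ⟨Nat.prime_two⟩
  obtain ⟨K, hK, hle⟩ := Sylow.exists_subgroup_card_pow_succ (p := 2) (n := 2)
    (G := QuaternionGroup (2 ^ (m + 2))) (by
      rw [hcard]
      exact ⟨2 ^ m * 2, by ring⟩) h3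
  refine ⟨zpowers ((QuaternionGroup.a 1 : QuaternionGroup (2 ^ (m + 2))) ^ (2 ^ m)), K,
    by rw [Nat.card_zpowers, h2], by rw [hK]; norm_num, inferInstance, ?_⟩
  intro hcyc
  obtain ⟨g, hg⟩ := hcyc.exists_generator
  have h4 : orderOf g = 8 := by
    rw [orderOf_eq_card_of_forall_mem_zpowers hg, hK]; norm_num
  have h5 : orderOf (g : QuaternionGroup (2 ^ (m + 2))) = 8 := by
    rw [Subgroup.orderOf_coe]; exact h4
  have h6 : (QuaternionGroup.xa 0 : QuaternionGroup (2 ^ (m + 2))) ∈ K := hle (mem_zpowers _)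
  obtain ⟨k, hk⟩ := hg ⟨_, h6⟩
  have h7 : (g : QuaternionGroup (2 ^ (m + 2))) ^ k = QuaternionGroup.xa 0 := congrArg Subtype.val hk
  have h8 : (QuaternionGroup.xa 0 : QuaternionGroup (2 ^ (m + 2))) ∈ Submonoid.powers (g : QuaternionGroup (2 ^ (m + 2))) := by
    rw [mem_powers_iff_mem_zpowers]; exact ⟨k, h7⟩
  obtain ⟨j, hj⟩ := h8
  have h9 : (g : QuaternionGroup (2 ^ (m + 2))) ^ j = QuaternionGroup.xa 0 := hj
  rcases hgg : (g : QuaternionGroup (2 ^ (m + 2))) with i | i
  · rw [hgg] at h9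
    have : ∀ j : ℕ, ∃ l, (QuaternionGroup.a i : QuaternionGroup (2 ^ (m + 2))) ^ j = QuaternionGroup.a l := by
      intro j
      induction j with
      | zero => exact ⟨0, rfl⟩
      | succ j ih =>
        obtain ⟨l, hl⟩ := ih
        refine ⟨l + i, ?_⟩
        have h10 := pow_succ (QuaternionGroup.a i : QuaternionGroup (2 ^ (m + 2))) j
        rw [hl, QuaternionGroup.a_mul_a] at h10
        exact h10
    obtain ⟨l, hl⟩ := this j
    rw [hl] at h9
    cases h9
  · rw [hgg, QuaternionGroup.orderOf_xa] at h5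
    norm_num at h5

section PG
variable {p : ℕ} [hp : Fact p.Prime]

theorem mem_pair {G : Type u} [Group G] {w z : G} (hc : w * z = z * w) {x : G}
    (hx : x ∈ zpowers w ⊔ zpowers z) : ∃ i j : ℤ, x = w ^ i * z ^ j := by
  let R : Subgroup G :=
    { carrier := {x | ∃ i j : ℤ, x = w ^ i * z ^ j}
      one_mem' := ⟨0, 0, by simp⟩
      mul_mem' := by
        rintro _ _ ⟨i, j, rfl⟩ ⟨k, l, rfl⟩
        refine ⟨i + k, j + l, ?_⟩
        have h : Commute (z ^ j) (w ^ k) := ((show Commute w z from hc).symm.zpow_left j).zpow_right k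
        rw [zpow_add, zpow_add]
        calc w ^ i * z ^ j * (w ^ k * z ^ l) = w ^ i * (z ^ j * w ^ k) * z ^ l := by group
          _ = w ^ i * (w ^ k * z ^ j) * z ^ l := by rw [h.eq]
          _ = w ^ i * w ^ k * (z ^ j * z ^ l) := by group
      inv_mem' := by
        rintro _ ⟨i, j, rfl⟩
        refine ⟨-i, -j, ?_⟩
        have h : Commute (z ^ j) (w ^ i) := ((show Commute w z from hc).symm.zpow_left j).zpow_right i
        rw [← h.eq, mul_inv_rev, zpow_neg, zpow_neg] }
  have hle : zpowers w ⊔ zpowers z ≤ R := by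
    rw [sup_le_iff, zpowers_le, zpowers_le]
    exact ⟨⟨1, 0, by simp⟩, ⟨0, 1, by simp⟩⟩
  exact hle hx

theorem zpowers_inf {G : Type u} [Group G] {w : G} (hw : orderOf w = p) {B : Subgroup G} (hB : w ∉ B) :
    B ⊓ zpowers w = ⊥ := by
  haveI : Finite (zpowers w) := Nat.finite_of_card_ne_zero (by
    rw [Nat.card_zpowers, hw]; exact hp.out.ne_zero)
  have h1 : Nat.card ↥(B ⊓ zpowers w) ∣ p := by
    have := Subgroup.card_dvd_of_le (inf_le_right : B ⊓ zpowers w ≤ zpowers w)
    rwa [Nat.card_zpowers, hw] at this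
  rcases (Nat.dvd_prime hp.out).mp h1 with h | h
  · exact Subgroup.card_eq_one.mp h
  · exfalso
    have h2 : B ⊓ zpowers w = zpowers w :=
      Subgroup.eq_of_le_of_card_ge inf_le_right (by rw [h, Nat.card_zpowers, hw])
    apply hB
    have h3 : w ∈ B ⊓ zpowers w := by rw [h2]; exact mem_zpowers w
    exact h3.1

theorem card_pair {G : Type u} [Group G] [Finite G] {w z : G} (hw : orderOf w = p) (hz : orderOf z = p)
    (hc : w * z = z * w) (hne : w ∉ zpowers z) : Nat.card ↥(zpowers w ⊔ zpowers z) = p ^ 2 := by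
  rw [CfsgLib.H3Misc.card_sup_norm (zpowers w) (zpowers z) ?_ ?_, Nat.card_zpowers, Nat.card_zpowers, hw, hz,
    pow_two]
  · rw [zpowers_le]
    apply CfsgLib.H7Mult.mem_norm_of_le
    rintro _ ⟨j, rfl⟩
    have h : Commute w (z ^ j) := (show Commute w z from hc).zpow_right j
    show w * z ^ j * w⁻¹ ∈ _
    rw [h.eq, mul_inv_cancel_right]
    exact ⟨j, rfl⟩
  · exact zpowers_inf hw hne

theorem pow_pair {G : Type u} [Group G] {w z : G} (hw : orderOf w = p) (hz : orderOf z = p)
    (hc : w * z = z * w) {x : G} (hx : x ∈ zpowers w ⊔ zpowers z) : x ^ p = 1 := by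
  obtain ⟨i, j, rfl⟩ := mem_pair hc hx
  have h : Commute (w ^ i) (z ^ j) := ((show Commute w z from hc).zpow_left i).zpow_right j
  rw [h.mul_pow, ← zpow_natCast, ← zpow_natCast, ← zpow_mul, ← zpow_mul, mul_comm i, mul_comm j, zpow_mul,
    zpow_mul, zpow_natCast, zpow_natCast, ← hw, pow_orderOf_eq_one, hw, ← hz, pow_orderOf_eq_one]
  simp

theorem comm_pair {G : Type u} [Group G] {w z : G} (hc : w * z = z * w) {x y : G}
    (hx : x ∈ zpowers w ⊔ zpowers z) (hy : y ∈ zpowers w ⊔ zpowers z) : x * y = y * x := by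
  obtain ⟨i, j, rfl⟩ := mem_pair hc hx
  obtain ⟨k, l, rfl⟩ := mem_pair hc hy
  have h0 : Commute w z := hc
  have h1 : Commute w (w ^ k * z ^ l) := ((Commute.refl w).zpow_right k).mul_right (h0.zpow_right l)
  have h2 : Commute z (w ^ k * z ^ l) := (h0.symm.zpow_right k).mul_right ((Commute.refl z).zpow_right l)
  exact (h1.zpow_left i).mul_left (h2.zpow_left j)

/-- structure of nonabelian `p`-groups of exponent `p` all of whose subgroups of order `p^3` are nonabelian -/
theorem struct {Q : Type u} [Group Q] [Finite Q] (hQ : IsPGroup p Q) (hna : ∃ a b : Q, a * b ≠ b * a)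
    (hexp : ∀ x : Q, x ^ p = 1)
    (hsame : ∀ H K : Subgroup Q, Nat.card H = p ^ 3 → Nat.card K = p ^ 3 →
      (∀ a ∈ H, ∀ b ∈ H, a * b = b * a) → (∀ a ∈ K, ∀ b ∈ K, a * b = b * a)) :
    Nat.card Q = p ^ 3 ∧ ∃ x y c : Q, c = x * y * x⁻¹ * y⁻¹ ∧ c ≠ 1 ∧ (∀ g, c * g = g * c) ∧ x ∉ zpowers c ∧
      ∀ g, ∃ i : ℤ, x * g * x⁻¹ * g⁻¹ = c ^ i := by
  classical
  haveI : Nontrivial Q := by
    obtain ⟨a, b, hab⟩ := hna
    refine ⟨a, b, ?_⟩
    rintro rfl
    exact hab rfl
  have hcn : center Q ≠ ⊤ := by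
    intro h
    obtain ⟨a, b, hab⟩ := hna
    apply hab
    have : b ∈ center Q := by rw [h]; exact mem_top b
    exact Subgroup.mem_center_iff.mp this a
  have hquot : IsPGroup p (Q ⧸ center Q) := hQ.to_quotient _
  haveI : Nontrivial (Q ⧸ center Q) := QuotientGroup.nontrivial_iff.mpr hcn
  haveI := hquot.center_nontrivial
  obtain ⟨xb, hxb⟩ := exists_ne (1 : center (Q ⧸ center Q))
  obtain ⟨x, hx⟩ := QuotientGroup.mk_surjective (xb : Q ⧸ center Q)
  have hxc : x ∉ center Q := by
    intro h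
    apply hxb
    apply Subtype.ext
    rw [← hx]
    exact (QuotientGroup.eq_one_iff x).mpr h
  have hcom : ∀ g, x * g * x⁻¹ * g⁻¹ ∈ center Q := by
    intro g
    have h1 := Subgroup.mem_center_iff.mp xb.2 (g : Q ⧸ center Q)
    rw [← hx] at h1
    have h2 : ((x * g : Q) : Q ⧸ center Q) = ((g * x : Q) : Q ⧸ center Q) := by
      rw [QuotientGroup.mk_mul, QuotientGroup.mk_mul]; exact h1.symm
    rw [← QuotientGroup.eq_one_iff]
    have h3 : x * g * x⁻¹ * g⁻¹ = (x * g) * (g * x)⁻¹ := by group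
    rw [h3, QuotientGroup.mk_mul, h2, ← QuotientGroup.mk_mul, mul_inv_cancel, QuotientGroup.mk_one]
  obtain ⟨y, hxy⟩ : ∃ y, x * y ≠ y * x := by
    by_contra h
    push Not at h
    exact hxc (Subgroup.mem_center_iff.mpr (fun g => (h g).symm))
  set c := x * y * x⁻¹ * y⁻¹ with hcdef
  have hc1 : c ≠ 1 := by
    intro h
    apply hxy
    have h2 : x * y * x⁻¹ * y⁻¹ = 1 := h
    have h3 : (x * y) * (y * x)⁻¹ = 1 := by rw [← h2]; group
    exact mul_inv_eq_one.mp h3
  have hcc : ∀ g, c * g = g * c := fun g => (Subgroup.mem_center_iff.mp (hcom y) g).symm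
  have hco : orderOf c = p := orderOf_eq_prime (hexp c) hc1
  have hx1 : x ≠ 1 := by rintro rfl; exact hxc (one_mem _)
  have hy1 : y ≠ 1 := by
    intro h; apply hxy; rw [h]; simp
  have hxo : orderOf x = p := orderOf_eq_prime (hexp x) hx1
  have hyo : orderOf y = p := orderOf_eq_prime (hexp y) hy1
  have hxzc : x ∉ zpowers c := by
    rintro ⟨k, hk⟩
    apply hxc
    rw [← hk]
    exact (center Q).zpow_mem (hcom y) k
  have hcx : c * x = x * c := hcc x
  -- D nonabelian of order p^3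
  let A : Subgroup Q := zpowers x ⊔ zpowers c
  have hAcard : Nat.card A = p ^ 2 := card_pair hxo hco hcx.symm hxzc
  have hxA : x ∈ A := (le_sup_left : zpowers x ≤ A) (mem_zpowers x)
  have hcA : c ∈ A := (le_sup_right : zpowers c ≤ A) (mem_zpowers c)
  have hcardP : ∀ H : Subgroup Q, ∃ k, Nat.card H = p ^ k := fun H => (hQ.to_subgroup H).exists_card_eq
  have hyA : zpowers y ≤ normalizer (A : Set Q) := by
    rw [zpowers_le]
    apply CfsgLib.H7Mult.mem_norm_of_le
    intro m hm
    obtain ⟨i, j, rfl⟩ := mem_pair hcx.symm hm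
    have h1 : y * x * y⁻¹ = c⁻¹ * x := by
      rw [hcdef]; group
    have h2 : y * (x ^ i * c ^ j) * y⁻¹ = (y * x * y⁻¹) ^ i * c ^ j := by
      have h3 : Commute (c ^ j) y⁻¹ := ((show Commute c y from hcc y).zpow_left j).inv_right
      rw [conj_zpow]
      calc y * (x ^ i * c ^ j) * y⁻¹ = y * x ^ i * (c ^ j * y⁻¹) := by group
        _ = y * x ^ i * (y⁻¹ * c ^ j) := by rw [h3.eq]
        _ = _ := by group
    rw [h2, h1]
    exact A.mul_mem (A.zpow_mem (A.mul_mem (A.inv_mem hcA) hxA) i) (A.zpow_mem hcA j)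
  let D : Subgroup Q := A ⊔ zpowers y
  have hDdvd : Nat.card D ∣ p ^ 3 := by
    have := CfsgLib.H9Sig.card_sup_dvd hyA
    rw [hAcard, Nat.card_zpowers, hyo] at this
    rwa [pow_succ]
  have hDna : ¬ ∀ a ∈ D, ∀ b ∈ D, a * b = b * a := by
    intro h
    exact hxy (h x ((le_sup_left : A ≤ D) hxA) y ((le_sup_right : zpowers y ≤ D) (mem_zpowers y)))
  have hsmall : ∀ H : Subgroup Q, Nat.card H ∣ p ^ 2 → ∀ a ∈ H, ∀ b ∈ H, a * b = b * a := by
    intro H hH a ha b hb
    obtain ⟨k, hk, hk2⟩ := (Nat.dvd_prime_pow hp.out).mp hH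
    have h1 : (⟨a, ha⟩ : H) * ⟨b, hb⟩ = ⟨b, hb⟩ * ⟨a, ha⟩ := by
      interval_cases k
      · haveI : Subsingleton H := (Nat.card_eq_one_iff_unique.mp (by rw [hk2, pow_zero])).1
        exact Subsingleton.elim _ _
      · haveI : IsCyclic H := isCyclic_of_prime_card (p := p) (by rw [hk2, pow_one])
        exact IsMulCommutative.is_comm.comm _ _
      · exact (IsPGroup.isMulCommutative_of_card_eq_prime_sq (p := p) hk2).is_comm.comm _ _
    exact congrArg Subtype.val h1
  have hDcard : Nat.card D = p ^ 3 := by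
    obtain ⟨k, hk, hk2⟩ := (Nat.dvd_prime_pow hp.out).mp hDdvd
    by_cases h3 : k = 3
    · rw [hk2, h3]
    · exfalso
      exact hDna (hsmall D (by rw [hk2]; exact pow_dvd_pow p (by omega)))
  have hN3 : ∀ H : Subgroup Q, Nat.card H = p ^ 3 → ¬ ∀ a ∈ H, ∀ b ∈ H, a * b = b * a :=
    fun H hH hab => hDna (hsame H D hH hDcard hab)
  -- centralizer of x
  let C : Subgroup Q := centralizer {x}
  have hAC : A ≤ C := by
    show zpowers x ⊔ zpowers c ≤ C
    rw [sup_le_iff, zpowers_le, zpowers_le]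
    exact ⟨Subgroup.mem_centralizer_singleton_iff.mpr rfl, Subgroup.mem_centralizer_singleton_iff.mpr hcx⟩
  have hCA : C = A := by
    apply le_antisymm _ hAC
    intro w hw
    by_contra hwA
    have hwx : w * x = x * w := Subgroup.mem_centralizer_singleton_iff.mp hw
    have hw1 : w ≠ 1 := by rintro rfl; exact hwA (one_mem _)
    have hwo : orderOf w = p := orderOf_eq_prime (hexp w) hw1
    have hwc : ∀ a ∈ A, w * a = a * w := by
      intro a ha
      obtain ⟨i, j, rfl⟩ := mem_pair hcx.symm ha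
      exact ((show Commute w x from hwx).zpow_right i).mul_right ((show Commute w c from (hcc w).symm).zpow_right j)
    have hn : zpowers w ≤ normalizer (A : Set Q) := by
      rw [zpowers_le]
      apply CfsgLib.H7Mult.mem_norm_of_le
      intro m hm
      rw [hwc m hm, mul_inv_cancel_right]; exact hm
    have h1 : Nat.card ↥(zpowers w ⊔ A) = p ^ 3 := by
      rw [CfsgLib.H3Misc.card_sup_norm (zpowers w) A hn (zpowers_inf hwo hwA), Nat.card_zpowers, hwo, hAcard]
      ring
    apply hN3 _ h1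
    -- abelian
    have h2 : ∀ a ∈ zpowers w ⊔ A, ∀ b ∈ zpowers w ⊔ A, a * b = b * a := by
      have hle : zpowers w ⊔ A ≤ centralizer ((zpowers w ⊔ A : Subgroup Q) : Set Q) := by
        have hgen : ∀ g : Q, (g * w = w * g) → (∀ a ∈ A, g * a = a * g) → g ∈ centralizer ((zpowers w ⊔ A : Subgroup Q) : Set Q) := by
          intro g hg1 hg2
          have hle2 : zpowers w ⊔ A ≤ centralizer {g} := by
            rw [sup_le_iff, zpowers_le]
            refine ⟨Subgroup.mem_centralizer_singleton_iff.mpr hg1.symm, fun a ha => ?_⟩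
            exact Subgroup.mem_centralizer_singleton_iff.mpr (hg2 a ha).symm
          rw [Subgroup.mem_centralizer_iff]
          intro h hh
          exact Subgroup.mem_centralizer_singleton_iff.mp (hle2 hh)
        rw [sup_le_iff, zpowers_le]
        refine ⟨hgen w rfl hwc, fun a ha => hgen a (hwc a ha).symm ?_⟩
        intro b hb
        exact comm_pair hcx.symm ha hb
      intro a ha b hb
      exact (Subgroup.mem_centralizer_iff.mp (hle hb) a ha)
    exact h2
  have hCcard : Nat.card C = p ^ 2 := by rw [hCA]; exact hAcard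
  -- center
  have hZC : center Q ≤ C := Subgroup.center_le_centralizer _
  have hZcard : Nat.card (center Q) = p := by
    have h1 : Nat.card (center Q) ∣ p ^ 2 := by rw [← hCcard]; exact Subgroup.card_dvd_of_le hZC
    obtain ⟨k, hk, hk2⟩ := (Nat.dvd_prime_pow hp.out).mp h1
    haveI := hQ.center_nontrivial
    have h2 : 1 < Nat.card (center Q) := Finite.one_lt_card
    interval_cases k
    · rw [hk2] at h2; simp at h2
    · rw [hk2, pow_one]
    · exfalso
      have h3 : center Q = C := Subgroup.eq_of_le_of_card_ge hZC (by rw [hk2, hCcard])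
      apply hxc
      rw [h3]
      exact Subgroup.mem_centralizer_singleton_iff.mpr rfl
  have hZc : zpowers c = center Q := by
    apply Subgroup.eq_of_le_of_card_ge
    · rw [zpowers_le]; exact hcom y
    · rw [hZcard, Nat.card_zpowers, hco]
  let φ : Q →* center Q :=
    { toFun := fun g => ⟨x * g * x⁻¹ * g⁻¹, hcom g⟩
      map_one' := by apply Subtype.ext; simp
      map_mul' := by
        intro g h
        apply Subtype.ext
        show x * (g * h) * x⁻¹ * (g * h)⁻¹ = (x * g * x⁻¹ * g⁻¹) * (x * h * x⁻¹ * h⁻¹)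
        have h1 : (x * g * x⁻¹ * g⁻¹) * (x * h * x⁻¹ * h⁻¹) = x * g * x⁻¹ * ((x * h * x⁻¹ * h⁻¹) * g⁻¹) := by
          have := Subgroup.mem_center_iff.mp (hcom h) g⁻¹
          rw [← this]; group
        rw [h1]; group }
  have hker : φ.ker = C := by
    ext g
    rw [MonoidHom.mem_ker]
    constructor
    · intro h
      have h1 : x * g * x⁻¹ * g⁻¹ = 1 := congrArg Subtype.val h
      apply Subgroup.mem_centralizer_singleton_iff.mpr
      have h2 : (x * g) * (g * x)⁻¹ = 1 := by rw [← h1]; group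
      exact (mul_inv_eq_one.mp h2).symm
    · intro h
      have h1 : g * x = x * g := Subgroup.mem_centralizer_singleton_iff.mp h
      apply Subtype.ext
      show x * g * x⁻¹ * g⁻¹ = 1
      rw [← h1]; group
  refine ⟨?_, x, y, c, hcdef, hc1, hcc, hxzc, ?_⟩
  · have h1 : Nat.card Q = Nat.card C * Nat.card φ.range := by
      rw [← hker, ← Subgroup.index_ker, Subgroup.card_mul_index]
    have h2 : Nat.card φ.range ∣ p := by rw [← hZcard]; exact Subgroup.card_subgroup_dvd_card _
    have h3 : p ^ 3 ∣ Nat.card Q := by rw [← hDcard]; exact Subgroup.card_subgroup_dvd_card _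
    rcases (Nat.dvd_prime hp.out).mp h2 with h | h
    · exfalso
      rw [h1, h, mul_one, hCcard] at h3
      have := Nat.le_of_dvd (pow_pos hp.out.pos 2) h3
      have h4 : p ^ 2 < p ^ 3 := Nat.pow_lt_pow_right hp.out.one_lt (by norm_num)
      omega
    · rw [h1, h, hCcard]; ring
  · intro g
    have h1 := hcom g
    rw [← hZc] at h1
    obtain ⟨i, hi⟩ := h1
    exact ⟨i, hi.symm⟩

end PG

end CfsgLib.H7D
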