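import Mathlib
import Cfsg.Prelude.Def_Transfer
import Cfsg.Agent.Lib.H7D1
import Cfsg.Agent.Lib.Invol
import Cfsg.Agent.Lib.Core

set_option autoImplicit false
set_option linter.style.haveILetI false

namespace CfsgLib.H7D
open Subgroup
open scoped commutatorElement Pointwise

universe u

def Same (p : ℕ) (G : Type u) [Group G] : Prop :=
  ∀ H K : Subgroup G, IsPGroup p H → IsPGroup p K → Nat.card H = Nat.card K →
    ∃ g : G, K = H.map (MulAut.conj g).toMonoidHom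

section
variable {G : Type u} [Group G]

theorem conj_odd {x y : G} (hx' : x * x = 1) (hy' : y * y = 1)
    (hodd : Odd (orderOf (x * y))) : ∃ d ∈ zpowers (x * y), d * x * d⁻¹ = y := by
  obtain ⟨m, hm⟩ := hodd
  refine ⟨(x * y) ^ m, ⟨m, by simp⟩, ?_⟩
  have hxi : x⁻¹ = x := inv_eq_of_mul_eq_one_left hx'
  have hyi : y⁻¹ = y := inv_eq_of_mul_eq_one_left hy'
  have h1 : x * (x * y) ^ (m : ℤ) * x⁻¹ = (x * y) ^ (-(m : ℤ)) := CfsgLib.Invol.conj_mul_zpow hx' hy' m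
  have h2 : x * ((x * y) ^ m)⁻¹ = (x * y) ^ m * x := by
    have h3 : x * ((x * y) ^ m) * x⁻¹ = ((x * y) ^ m)⁻¹ := by
      rw [zpow_natCast, zpow_neg, zpow_natCast] at h1; exact h1
    rw [← h3]
    calc x * (x * (x * y) ^ m * x⁻¹) = (x * x) * (x * y) ^ m * x⁻¹ := by group
      _ = (x * y) ^ m * x := by rw [hx', one_mul, hxi]
  have h4 : (x * y) ^ m * (x * y) ^ m * (x * y) = 1 := by
    rw [← pow_add, ← pow_succ, ← two_mul, ← hm, pow_orderOf_eq_one]
  calc (x * y) ^ m * x * ((x * y) ^ m)⁻¹ = (x * y) ^ m * (x * ((x * y) ^ m)⁻¹) := by rw [mul_assoc]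
    _ = (x * y) ^ m * (x * y) ^ m * x := by rw [h2, mul_assoc]
    _ = (x * y)⁻¹ * x := by rw [eq_inv_of_mul_eq_one_left h4]
    _ = y := by rw [mul_inv_rev, hxi, hyi, mul_assoc, hx', mul_one]

def Act (z x g : G) (a b c d : ℤ) : Prop := g * z * g⁻¹ = z ^ a * x ^ c ∧ g * x * g⁻¹ = z ^ b * x ^ d

theorem Act.apply {z x g : G} {a b c d : ℤ} (h : Act z x g a b c d) (hc : z * x = x * z) (i j : ℤ) :
    g * (z ^ i * x ^ j) * g⁻¹ = z ^ (a * i + b * j) * x ^ (c * i + d * j) := by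
  have h0 : Commute z x := hc
  have h1 : g * (z ^ i * x ^ j) * g⁻¹ = (g * z * g⁻¹) ^ i * (g * x * g⁻¹) ^ j := by
    rw [conj_zpow, conj_zpow]; group
  rw [h1, h.1, h.2, ((h0.zpow_left a).zpow_right c).mul_zpow, ((h0.zpow_left b).zpow_right d).mul_zpow,
    ← zpow_mul, ← zpow_mul, ← zpow_mul, ← zpow_mul, zpow_add, zpow_add]
  have h2 : Commute (x ^ (c * i)) (z ^ (b * j)) := (h0.symm.zpow_left _).zpow_right _
  calc z ^ (a * i) * x ^ (c * i) * (z ^ (b * j) * x ^ (d * j))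
      = z ^ (a * i) * (x ^ (c * i) * z ^ (b * j)) * x ^ (d * j) := by group
    _ = z ^ (a * i) * (z ^ (b * j) * x ^ (c * i)) * x ^ (d * j) := by rw [h2.eq]
    _ = _ := by group

theorem Act.mul {z x g h : G} {a b c d a' b' c' d' : ℤ} (hg : Act z x g a b c d) (hh : Act z x h a' b' c' d')
    (hc : z * x = x * z) :
    Act z x (g * h) (a * a' + b * c') (a * b' + b * d') (c * a' + d * c') (c * b' + d * d') := by
  constructor
  · rw [← hg.apply hc a' c', ← hh.1]; group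
  · rw [← hg.apply hc b' d', ← hh.2]; group

theorem zpow_congr {p : ℕ} {z : G} (hz : z ^ p = 1) {a a' : ℤ} (h : (a : ZMod p) = (a' : ZMod p)) :
    z ^ a = z ^ a' := by
  have h1 : (p : ℤ) ∣ a' - a := by
    rw [← ZMod.intCast_zmod_eq_zero_iff_dvd]
    push_cast
    rw [h, sub_self]
  obtain ⟨k, hk⟩ := h1
  have h2 : a' = a + p * k := by linarith
  rw [h2, zpow_add, zpow_mul, zpow_natCast, hz, one_zpow, mul_one]

theorem Act.congr {p : ℕ} {z x g : G} (hz : z ^ p = 1) (hx : x ^ p = 1) {a b c d a' b' c' d' : ℤ}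
    (h : Act z x g a b c d) (ha : (a : ZMod p) = a') (hb : (b : ZMod p) = b') (hc : (c : ZMod p) = c')
    (hd : (d : ZMod p) = d') : Act z x g a' b' c' d' := by
  refine ⟨?_, ?_⟩
  · rw [h.1, zpow_congr hz ha, zpow_congr hx hc]
  · rw [h.2, zpow_congr hz hb, zpow_congr hx hd]

theorem Act.powU {z x g : G} {s : ℤ} (h : Act z x g 1 s 0 1) (hc : z * x = x * z) (k : ℕ) :
    Act z x (g ^ k) 1 (k * s) 0 1 := by
  induction k with
  | zero => constructor <;> simp
  | succ k ih =>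
    rw [pow_succ]
    have := ih.mul h hc
    convert this using 1 <;> push_cast <;> ring

theorem Act.powL {z x g : G} {s : ℤ} (h : Act z x g 1 0 s 1) (hc : z * x = x * z) (k : ℕ) :
    Act z x (g ^ k) 1 0 (k * s) 1 := by
  induction k with
  | zero => constructor <;> simp
  | succ k ih =>
    rw [pow_succ]
    have := ih.mul h hc
    convert this using 1 <;> push_cast <;> ring

/-- all of `SL₂(p)` is induced -/
theorem act_sl {p : ℕ} [hp : Fact p.Prime] {z x y w : G} (hz : z ^ p = 1) (hx : x ^ p = 1) (hc : z * x = x * z)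
    {s j : ℤ} (hy : Act z x y 1 s 0 1) (hs : (s : ZMod p) ≠ 0) (hw : Act z x w 1 0 j 1) (hj : (j : ZMod p) ≠ 0)
    (a b c d : ℤ) (hc0 : (c : ZMod p) ≠ 0) (hdet : (a : ZMod p) * d - b * c = 1) :
    ∃ g ∈ Subgroup.closure {y, w}, Act z x g a b c d := by
  have hU : ∀ r : ZMod p, ∃ g ∈ Subgroup.closure {y, w}, ∃ k : ℤ, (k : ZMod p) = r ∧ Act z x g 1 k 0 1 := by
    intro r
    refine ⟨y ^ (r / s).val, pow_mem (Subgroup.subset_closure (by simp)) _, _, ?_, hy.powU hc _⟩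
    push_cast
    rw [ZMod.natCast_zmod_val, div_mul_cancel₀ _ hs]
  have hL : ∀ r : ZMod p, ∃ g ∈ Subgroup.closure {y, w}, ∃ k : ℤ, (k : ZMod p) = r ∧ Act z x g 1 0 k 1 := by
    intro r
    refine ⟨w ^ (r / j).val, pow_mem (Subgroup.subset_closure (by simp)) _, _, ?_, hw.powL hc _⟩
    push_cast
    rw [ZMod.natCast_zmod_val, div_mul_cancel₀ _ hj]
  obtain ⟨g1, h1, k1, hk1, a1⟩ := hU (((a : ZMod p) - 1) / c)
  obtain ⟨g2, h2, k2, hk2, a2⟩ := hL c
  obtain ⟨g3, h3, k3, hk3, a3⟩ := hU (((d : ZMod p) - 1) / c)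
  refine ⟨g1 * g2 * g3, mul_mem (mul_mem h1 h2) h3, ?_⟩
  refine Act.congr hz hx ((a1.mul a2 hc).mul a3 hc) ?_ ?_ ?_ ?_
  · push_cast
    rw [hk1, hk2]
    field_simp
    ring
  · push_cast
    rw [hk1, hk2, hk3]
    field_simp
    linear_combination hdet
  · push_cast
    rw [hk2]; ring
  · push_cast
    rw [hk2, hk3]
    field_simp
    ring

end

end CfsgLib.H7D
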