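import Mathlib
import Cfsg.Prelude.Def_Transfer
import Cfsg.Agent.Lib.H7D1
import Cfsg.Agent.Lib.H7D2
import Cfsg.Agent.Lib.Invol
import Cfsg.Agent.Lib.Core

set_option autoImplicit false
set_option linter.style.haveILetI false

namespace CfsgLib.H7D
open Subgroup
open scoped commutatorElement Pointwise

universe u

section
variable {G : Type u} [Group G] [Finite G] {p : ℕ} [hp : Fact p.Prime]

theorem Same.cyclic (hD : Same p G) {H K : Subgroup G} (hH : IsPGroup p H) (hK : IsPGroup p K)
    (hc : Nat.card H = Nat.card K) (h : IsCyclic H) : IsCyclic K := by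
  obtain ⟨g, rfl⟩ := hD H K hH hK hc
  exact isCyclic_of_surjective (H.equivMapOfInjective (MulAut.conj g).toMonoidHom (MulAut.conj g).injective)
    (MulEquiv.surjective _)

theorem Same.comm (hD : Same p G) {H K : Subgroup G} (hH : IsPGroup p H) (hK : IsPGroup p K)
    (hc : Nat.card H = Nat.card K) (h : ∀ a ∈ H, ∀ b ∈ H, a * b = b * a) : ∀ a ∈ K, ∀ b ∈ K, a * b = b * a := by
  obtain ⟨g, rfl⟩ := hD H K hH hK hc
  rintro _ ⟨a, ha, rfl⟩ _ ⟨b, hb, rfl⟩
  rw [← map_mul, ← map_mul, h a ha b hb]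

theorem Same.exp (hD : Same p G) {H K : Subgroup G} (hH : IsPGroup p H) (hK : IsPGroup p K)
    (hc : Nat.card H = Nat.card K) (h : ∀ a ∈ H, a ^ p = 1) : ∀ a ∈ K, a ^ p = 1 := by
  obtain ⟨g, rfl⟩ := hD H K hH hK hc
  rintro _ ⟨a, ha, rfl⟩
  rw [← map_pow, h a ha, map_one]

theorem trichotomy (hD : Same p G) (P : Sylow p G) : IsCyclic (P : Subgroup G) ∨
    (p = 2 ∧ Nonempty ((P : Subgroup G) ≃* QuaternionGroup 2)) ∨ (∀ x : G, (∃ k, orderOf x = p ^ k) → x ^ p = 1) := by
  classical
  by_cases huniq : ∀ H K : Subgroup ↥(P : Subgroup G), Nat.card H = p → Nat.card K = p → H = K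
  · rcases CfsgLib.Quat.unique_subgroup p P.isPGroup' huniq with h | ⟨h2, n, ⟨e⟩⟩
    · exact Or.inl h
    · subst h2
      by_cases hn0 : n = 0
      · subst hn0
        left
        haveI : IsCyclic (QuaternionGroup (2 ^ 0)) := QuaternionGroup.quaternionGroup_one_isCyclic
        exact isCyclic_of_surjective e.symm e.symm.surjective
      by_cases hn1 : n = 1
      · subst hn1
        right; left
        exact ⟨rfl, ⟨e⟩⟩
      exfalso
      obtain ⟨H, K, hH, hK, hHc, hKc⟩ := quat_two n (by omega)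
      let f : QuaternionGroup (2 ^ n) →* G := (P : Subgroup G).subtype.comp e.symm.toMonoidHom
      have hf : Function.Injective f := (Subgroup.subtype_injective _).comp e.symm.injective
      have hH1 : Nat.card (H.map f) = 8 := by rw [Subgroup.card_map_of_injective hf, hH]
      have hK1 : Nat.card (K.map f) = 8 := by rw [Subgroup.card_map_of_injective hf, hK]
      have hHp : IsPGroup 2 (H.map f) := IsPGroup.of_card (n := 3) (by rw [hH1]; norm_num)
      have hKp : IsPGroup 2 (K.map f) := IsPGroup.of_card (n := 3) (by rw [hK1]; norm_num)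
      have h1 : IsCyclic (H.map f) :=
        isCyclic_of_surjective (H.equivMapOfInjective f hf) (MulEquiv.surjective _)
      have h2 := hD.cyclic hHp hKp (by rw [hH1, hK1]) h1
      apply hKc
      exact isCyclic_of_surjective (K.equivMapOfInjective f hf).symm (MulEquiv.surjective _)
  · push Not at huniq
    obtain ⟨H, K, hH, hK, hne⟩ := huniq
    right; right
    -- central subgroup of order p
    haveI : Nontrivial ↥(P : Subgroup G) := by
      by_contra h
      haveI := not_nontrivial_iff_subsingleton.mp h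
      exact hne (Subsingleton.elim _ _)
    haveI := P.isPGroup'.center_nontrivial
    have hcp : p ∣ Nat.card (Subgroup.center ↥(P : Subgroup G)) := by
      obtain ⟨n, hn⟩ := (P.isPGroup'.to_subgroup (Subgroup.center ↥(P : Subgroup G))).exists_card_eq
      have h2 : 1 < Nat.card (Subgroup.center ↥(P : Subgroup G)) := Finite.one_lt_card
      rw [hn] at h2 ⊢
      apply dvd_pow_self
      rintro rfl
      simp at h2
    obtain ⟨z0, hz0⟩ := exists_prime_orderOf_dvd_card' p hcp
    have hz : orderOf (z0 : ↥(P : Subgroup G)) = p := by rw [Subgroup.orderOf_coe]; exact hz0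
    obtain ⟨w, hw, hwz⟩ : ∃ w : ↥(P : Subgroup G), orderOf w = p ∧ w ∉ zpowers (z0 : ↥(P : Subgroup G)) := by
      have hgen : ∀ W : Subgroup ↥(P : Subgroup G), Nat.card W = p → W ≠ zpowers (z0 : ↥(P : Subgroup G)) →
          ∃ w : ↥(P : Subgroup G), orderOf w = p ∧ w ∉ zpowers (z0 : ↥(P : Subgroup G)) := by
        intro W hW hWz
        obtain ⟨w, hw⟩ := exists_prime_orderOf_dvd_card' (G := W) p (by rw [hW])
        have hw1 : orderOf (w : ↥(P : Subgroup G)) = p := by rw [Subgroup.orderOf_coe]; exact hw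
        refine ⟨w, hw1, fun hcon => hWz ?_⟩
        have h1 : zpowers (w : ↥(P : Subgroup G)) ≤ W := by rw [zpowers_le]; exact w.2
        have h2 : zpowers (w : ↥(P : Subgroup G)) = W :=
          Subgroup.eq_of_le_of_card_ge h1 (by rw [Nat.card_zpowers, hw1, hW])
        have h3 : zpowers (w : ↥(P : Subgroup G)) ≤ zpowers (z0 : ↥(P : Subgroup G)) := by
          rw [zpowers_le]; exact hcon
        rw [← h2]
        exact Subgroup.eq_of_le_of_card_ge h3 (by rw [Nat.card_zpowers, Nat.card_zpowers, hw1, hz])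
      by_cases h1 : H = zpowers (z0 : ↥(P : Subgroup G))
      · exact hgen K hK (fun h => hne (h1.trans h.symm))
      · exact hgen H hH h1
    have hwz' : w * (z0 : ↥(P : Subgroup G)) = z0 * w := Subgroup.mem_center_iff.mp z0.2 w
    -- transfer to G
    have hwG : orderOf (w : G) = p := by rw [Subgroup.orderOf_coe]; exact hw
    have hzG : orderOf ((z0 : ↥(P : Subgroup G)) : G) = p := by rw [Subgroup.orderOf_coe]; exact hz
    have hcG : (w : G) * ((z0 : ↥(P : Subgroup G)) : G) = ((z0 : ↥(P : Subgroup G)) : G) * w :=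
      congrArg Subtype.val hwz'
    have hnG : (w : G) ∉ zpowers ((z0 : ↥(P : Subgroup G)) : G) := by
      rintro ⟨k, hk⟩
      exact hwz ⟨k, Subtype.ext hk⟩
    have hE := card_pair hwG hzG hcG hnG
    have hEp : IsPGroup p ↥(zpowers (w : G) ⊔ zpowers ((z0 : ↥(P : Subgroup G)) : G)) := IsPGroup.of_card hE
    have hEe : ∀ a ∈ zpowers (w : G) ⊔ zpowers ((z0 : ↥(P : Subgroup G)) : G), a ^ p = 1 :=
      fun a ha => pow_pair hwG hzG hcG ha
    intro x hx
    obtain ⟨k, hk⟩ := hx
    by_cases hk2 : k ≤ 1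
    · apply orderOf_dvd_iff_pow_eq_one.mp
      rw [hk]
      calc p ^ k ∣ p ^ 1 := pow_dvd_pow p hk2
        _ = p := pow_one p
    · exfalso
      obtain ⟨m, rfl⟩ : ∃ m, k = m + 2 := ⟨k - 2, by omega⟩
      have h1 : orderOf (x ^ (p ^ m)) = p ^ 2 := by
        rw [orderOf_pow_of_dvd (pow_ne_zero m hp.out.ne_zero) (by rw [hk]; exact pow_dvd_pow p (by omega)), hk,
          pow_add]
        exact Nat.mul_div_cancel_left _ (pow_pos hp.out.pos m)
      have h2 : Nat.card (zpowers (x ^ (p ^ m))) = p ^ 2 := by rw [Nat.card_zpowers, h1]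
      have h3 := hD.exp hEp (IsPGroup.of_card h2) (by rw [hE, h2]) hEe (x ^ (p ^ m)) (mem_zpowers _)
      have h4 := orderOf_dvd_of_pow_eq_one h3
      rw [h1] at h4
      have h5 := Nat.le_of_dvd hp.out.pos h4
      have h6 : p ^ 1 < p ^ 2 := Nat.pow_lt_pow_right hp.out.one_lt (by norm_num)
      rw [pow_one] at h6
      omega

/-- facts on the quaternion group of order 8 -/
theorem q8_facts : (∀ g : QuaternionGroup 2, g * g = 1 → g = 1 ∨ g = QuaternionGroup.a 2) ∧
    (∀ g h : QuaternionGroup 2, g * h * g⁻¹ * h⁻¹ = 1 ∨ g * h * g⁻¹ * h⁻¹ = QuaternionGroup.a 2) ∧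
    (∀ g : QuaternionGroup 2, g * g = 1 ∨ g * g = QuaternionGroup.a 2) ∧
    (QuaternionGroup.a 2 : QuaternionGroup 2) * QuaternionGroup.a 2 = 1 ∧
    (QuaternionGroup.a 2 : QuaternionGroup 2) ≠ 1 := by
  refine ⟨by decide, by decide, by decide, by decide, by decide⟩

end

end CfsgLib.H7D
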