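import Mathlib
import Cfsg.Prelude.Def_Transfer
import Cfsg.Agent.Lib.H7D1
import Cfsg.Agent.Lib.H7D2
import Cfsg.Agent.Lib.H7D3
import Cfsg.Agent.Lib.Invol
import Cfsg.Agent.Lib.Core

set_option autoImplicit false
set_option linter.style.haveILetI false

namespace CfsgLib.H7D
open Subgroup
open scoped commutatorElement Pointwise

universe u

section
variable {G : Type u} [Group G] [Finite G] {p : ℕ} [hp : Fact p.Prime]

theorem Act.mem_norm {z x g : G} {a b c d : ℤ} (h : Act z x g a b c d) (hc : z * x = x * z) :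
    g ∈ normalizer ((zpowers z ⊔ zpowers x : Subgroup G) : Set G) := by
  apply CfsgLib.H7Mult.mem_norm_of_le
  intro m hm
  obtain ⟨i, j, rfl⟩ := mem_pair hc hm
  rw [h.apply hc i j]
  exact mul_mem ((le_sup_left : zpowers z ≤ zpowers z ⊔ zpowers x) ⟨_, rfl⟩)
    ((le_sup_right : zpowers x ≤ zpowers z ⊔ zpowers x) ⟨_, rfl⟩)

theorem Act.inv {z x g : G} (h : Act z x g (-1) 0 0 (-1)) (hc : z * x = x * z) {m : G}
    (hm : m ∈ zpowers z ⊔ zpowers x) : g * m * g⁻¹ = m⁻¹ := by
  obtain ⟨i, j, rfl⟩ := mem_pair hc hm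
  rw [h.apply hc i j]
  have h0 : Commute (z ^ (-i)) (x ^ (-j)) := ((show Commute z x from hc).zpow_left _).zpow_right _
  rw [show -1 * i + 0 * j = -i by ring, show 0 * i + -1 * j = -j by ring, mul_inv_rev, ← zpow_neg, ← zpow_neg,
    h0.eq]

/-- existence of an element of the normaliser fixing `x` but moving `z` -/
theorem exists_y2 (hD : Same p G) (hexp : ∀ x : G, (∃ k, orderOf x = p ^ k) → x ^ p = 1)
    (P : Sylow p G) (hcard : Nat.card P = p ^ 3) (hna : ¬ ∀ a ∈ (P : Subgroup G), ∀ b ∈ (P : Subgroup G), a * b = b * a)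
    {x z : G} (hzo : orderOf z = p) (hxo : orderOf x = p) (hc : z * x = x * z) (hzx : z ∉ zpowers x)
    (hzc : ∀ g ∈ (P : Subgroup G), z * g = g * z) :
    ∃ (w : G) (j : ℤ), (j : ZMod p) ≠ 0 ∧ Act z x w 1 0 j 1 := by
  classical
  have hAcard := card_pair hzo hxo hc hzx
  set A : Subgroup G := zpowers z ⊔ zpowers x with hA
  have hAp : IsPGroup p A := IsPGroup.of_card hAcard
  obtain ⟨g, hg⟩ := hD (zpowers z) (zpowers x) (IsPGroup.of_card (n := 1) (by rw [Nat.card_zpowers, hzo, pow_one]))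
    (IsPGroup.of_card (n := 1) (by rw [Nat.card_zpowers, hxo, pow_one])) (by rw [Nat.card_zpowers, Nat.card_zpowers, hzo, hxo])
  have hxg : x ∈ (zpowers z).map (MulAut.conj g).toMonoidHom := by rw [← hg]; exact mem_zpowers x
  obtain ⟨_, ⟨i, rfl⟩, hi⟩ := hxg
  have hi' : g * z ^ i * g⁻¹ = x := hi
  let CX : Subgroup G := centralizer {x}
  have hPC : (P : Subgroup G).map (MulAut.conj g).toMonoidHom ≤ CX := by
    rintro _ ⟨a, ha, rfl⟩
    apply Subgroup.mem_centralizer_singleton_iff.mpr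
    show g * a * g⁻¹ * x = x * (g * a * g⁻¹)
    rw [← hi']
    have h1 : Commute (z ^ i) a := (show Commute z a from hzc a ha).zpow_left i
    calc g * a * g⁻¹ * (g * z ^ i * g⁻¹) = g * (a * z ^ i) * g⁻¹ := by group
      _ = g * (z ^ i * a) * g⁻¹ := by rw [h1.eq]
      _ = _ := by group
  have hPCc : Nat.card ((P : Subgroup G).map (MulAut.conj g).toMonoidHom) = p ^ 3 := by
    rw [Subgroup.card_map_of_injective (MulAut.conj g).injective]; exact hcard
  have hdv : p ^ 3 ∣ Nat.card CX := by rw [← hPCc]; exact Subgroup.card_dvd_of_le hPC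
  have hAC : A ≤ CX := by
    rw [hA, sup_le_iff, zpowers_le, zpowers_le]
    exact ⟨Subgroup.mem_centralizer_singleton_iff.mpr hc, Subgroup.mem_centralizer_singleton_iff.mpr rfl⟩
  have hAp' : IsPGroup p (A.subgroupOf CX) :=
    hAp.of_equiv (Subgroup.subgroupOfEquivOfLe hAC).symm
  obtain ⟨PX, hPX⟩ := hAp'.exists_le_sylow
  have hPXc : Nat.card PX = p ^ 3 := by
    have h1 := PX.card_eq_multiplicity
    have h2 := P.card_eq_multiplicity
    rw [hcard] at h2
    have h3 : (Nat.card G).factorization p = 3 := (Nat.pow_right_injective hp.out.two_le h2).symm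
    have h4 : (Nat.card CX).factorization p ≤ (Nat.card G).factorization p :=
      (Nat.factorization_le_iff_dvd Nat.card_pos.ne' Nat.card_pos.ne').mpr (Subgroup.card_subgroup_dvd_card CX) p
    have h5 : 3 ≤ (Nat.card CX).factorization p :=
      (hp.out.pow_dvd_iff_le_factorization Nat.card_pos.ne').mp hdv
    rw [h1]
    congr 1
    omega
  let P1 : Subgroup G := (PX : Subgroup CX).map CX.subtype
  have hP1c : Nat.card P1 = p ^ 3 := by
    rw [Subgroup.card_map_of_injective CX.subtype_injective]; exact hPXc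
  have hP1p : IsPGroup p P1 := IsPGroup.of_card hP1c
  have hAP1 : A ≤ P1 := by
    intro a ha
    exact ⟨⟨a, hAC ha⟩, hPX ha, rfl⟩
  have hP1x : ∀ a ∈ P1, a * x = x * a := by
    rintro _ ⟨a, _, rfl⟩
    exact Subgroup.mem_centralizer_singleton_iff.mp a.2
  have hP1exp : ∀ a ∈ P1, a ^ p = 1 := by
    intro a ha
    apply hexp
    obtain ⟨k, hk⟩ := IsPGroup.iff_orderOf.mp hP1p ⟨a, ha⟩
    exact ⟨k, by rw [← hk, Subgroup.orderOf_mk]⟩
  have hP1na : ¬ ∀ a ∈ P1, ∀ b ∈ P1, a * b = b * a := by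
    intro h
    exact hna (hD.comm hP1p P.isPGroup' (by rw [hP1c]; exact hcard.symm) h)
  obtain ⟨w, hwP, hwz⟩ : ∃ w ∈ P1, w * z ≠ z * w := by
    by_contra hcon
    push Not at hcon
    apply hP1na
    intro a ha b hb
    by_cases haA : a ∈ A
    · obtain ⟨i, j, rfl⟩ := mem_pair hc haA
      exact (((show Commute z b from (hcon b hb).symm).zpow_left i).mul_left
        ((show Commute x b from (hP1x b hb).symm).zpow_left j)).eq
    have ha1 : a ≠ 1 := by rintro rfl; exact haA (one_mem _)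
    have hao : orderOf a = p := orderOf_eq_prime (hP1exp a ha) ha1
    have hacomm : ∀ m ∈ A, a * m = m * a := by
      intro m hm
      obtain ⟨i, j, rfl⟩ := mem_pair hc hm
      exact (((show Commute a z from hcon a ha).zpow_right i).mul_right
        ((show Commute a x from hP1x a ha).zpow_right j)).eq
    have hn : zpowers a ≤ normalizer (A : Set G) := by
      rw [zpowers_le]
      apply CfsgLib.H7Mult.mem_norm_of_le
      intro m hm
      rw [hacomm m hm, mul_inv_cancel_right]; exact hm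
    have h1 : Nat.card ↥(zpowers a ⊔ A) = p ^ 3 := by
      rw [CfsgLib.H3Misc.card_sup_norm (zpowers a) A hn (zpowers_inf hao haA), Nat.card_zpowers, hao, hAcard]
      ring
    have h2 : zpowers a ⊔ A = P1 := by
      apply Subgroup.eq_of_le_of_card_ge
      · rw [sup_le_iff, zpowers_le]; exact ⟨ha, hAP1⟩
      · rw [h1, hP1c]
    have h3 : zpowers a ⊔ A ≤ centralizer {a} := by
      rw [sup_le_iff, zpowers_le]
      exact ⟨Subgroup.mem_centralizer_singleton_iff.mpr rfl,
        fun m hm => Subgroup.mem_centralizer_singleton_iff.mpr (hacomm m hm).symm⟩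
    rw [h2] at h3
    exact (Subgroup.mem_centralizer_singleton_iff.mp (h3 hb)).symm
  -- quotient by x
  have hxP1 : x ∈ P1 := hAP1 ((le_sup_right : zpowers x ≤ A) (mem_zpowers x))
  have hzP1 : z ∈ P1 := hAP1 ((le_sup_left : zpowers z ≤ A) (mem_zpowers z))
  let X1 : Subgroup P1 := (zpowers x).subgroupOf P1
  haveI hX1n : X1.Normal := by
    refine ⟨?_⟩
    intro n hn g
    have h1 : ((n : P1) : G) ∈ zpowers x := hn
    show (g : G) * n * (g : G)⁻¹ ∈ zpowers x
    obtain ⟨k, hk⟩ := h1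
    have h2 : Commute (g : G) (x ^ k) := (show Commute (g : G) x from hP1x g g.2).zpow_right k
    have h3 : x ^ k = (n : G) := hk
    rw [← h3, h2.eq, mul_inv_cancel_right]
    exact ⟨k, rfl⟩
  have hX1c : Nat.card X1 = p := by
    rw [Nat.card_congr (Subgroup.subgroupOfEquivOfLe (by rw [zpowers_le]; exact hxP1 : zpowers x ≤ P1)).toEquiv,
      Nat.card_zpowers, hxo]
  have hqc : Nat.card (P1 ⧸ X1) = p ^ 2 := by
    have h1 := Subgroup.card_eq_card_quotient_mul_card_subgroup X1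
    rw [hP1c, hX1c, pow_succ] at h1
    exact (Nat.eq_of_mul_eq_mul_right hp.out.pos h1).symm
  have hqcomm := (IsPGroup.isMulCommutative_of_card_eq_prime_sq (p := p) hqc).is_comm.comm
    (QuotientGroup.mk (⟨w, hwP⟩ : P1)) (QuotientGroup.mk (⟨z, hzP1⟩ : P1))
  have h4 : ((⟨w, hwP⟩ * ⟨z, hzP1⟩) * (⟨z, hzP1⟩ * ⟨w, hwP⟩)⁻¹ : P1) ∈ X1 := by
    rw [← QuotientGroup.eq_one_iff, QuotientGroup.mk_mul, QuotientGroup.mk_inv, QuotientGroup.mk_mul,
      QuotientGroup.mk_mul, hqcomm, mul_inv_cancel]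
  have h5 : w * z * (z * w)⁻¹ ∈ zpowers x := h4
  obtain ⟨j, hj⟩ := h5
  have hj' : x ^ j = w * z * (z * w)⁻¹ := hj
  have h6 : w * z * w⁻¹ = x ^ j * z := by rw [hj']; group
  have h7 : Commute (x ^ j) z := (show Commute x z from hc.symm).zpow_left j
  refine ⟨w, j, ?_, ?_, ?_⟩
  · intro hj0
    apply hwz
    have h8 : x ^ j = x ^ (0 : ℤ) := zpow_congr (p := p) (by rw [← hxo, pow_orderOf_eq_one]) (by rw [hj0]; simp)
    rw [zpow_zero] at h8
    rw [h8, one_mul] at h6
    exact mul_inv_eq_iff_eq_mul.mp h6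
  · rw [h6, h7.eq, zpow_one]
  · rw [hP1x w hwP, mul_inv_cancel_right, zpow_zero, zpow_one, one_mul]

end

end CfsgLib.H7D
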