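import Mathlib
import Cfsg.Prelude.Def_Transfer
import Cfsg.Agent.Lib.H7D1
import Cfsg.Agent.Lib.H7D2
import Cfsg.Agent.Lib.H7D3
import Cfsg.Agent.Lib.H7D4
import Cfsg.Agent.Lib.Invol
import Cfsg.Agent.Lib.Core

set_option autoImplicit false
set_option linter.style.haveILetI false

namespace CfsgLib.H7D
open Subgroup
open scoped commutatorElement Pointwise

universe u

section
variable {G : Type u} [Group G] [Finite G] {p : ℕ} [hp : Fact p.Prime]

/-- There is an involution in `N_G(A)` inverting `A`, and all involutions of `N_G(A)` invert `A`. -/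
theorem all_invert (hp2 : p ≠ 2) (hD2 : Same 2 G) {x z u v : G} {α β : ℤ}
    (hzo : orderOf z = p) (hxo : orderOf x = p) (hc : z * x = x * z)
    (hu : Act z x u 0 1 (-1) 0) (hv : Act z x v α β β (-α)) (hαβ : (α : ZMod p) ^ 2 + (β : ZMod p) ^ 2 = -1) :
    (∃ t ∈ normalizer ((zpowers z ⊔ zpowers x : Subgroup G) : Set G), t * t = 1 ∧ t ≠ 1) ∧
    ∀ s ∈ normalizer ((zpowers z ⊔ zpowers x : Subgroup G) : Set G), s * s = 1 → s ≠ 1 →
      ∀ m ∈ zpowers z ⊔ zpowers x, s * m * s⁻¹ = m⁻¹ := by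
  classical
  have hzp : z ^ p = 1 := by rw [← hzo, pow_orderOf_eq_one]
  have hxp : x ^ p = 1 := by rw [← hxo, pow_orderOf_eq_one]
  have hz1 : z ≠ 1 := by
    rintro rfl; rw [orderOf_one] at hzo; exact hp.out.one_lt.ne hzo
  set A : Subgroup G := zpowers z ⊔ zpowers x with hA
  have hzA : z ∈ A := (le_sup_left : zpowers z ≤ A) (mem_zpowers z)
  have hzinv : z⁻¹ ≠ z := by
    intro h
    have h1 : z ^ 2 = 1 := by rw [pow_two]; nth_rewrite 1 [← h]; exact inv_mul_cancel z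
    have h2 : p ∣ 2 := by rw [← hzo]; exact orderOf_dvd_of_pow_eq_one h1
    exact hp2 ((Nat.prime_dvd_prime_iff_eq hp.out Nat.prime_two).mp h2)
  have huN : u ∈ normalizer (A : Set G) := hu.mem_norm hc
  have hvN : v ∈ normalizer (A : Set G) := hv.mem_norm hc
  have huu : ∀ m ∈ A, (u * u) * m * (u * u)⁻¹ = m⁻¹ := by
    intro m hm
    refine Act.inv (Act.congr (p := p) hzp hxp (hu.mul hu hc) ?_ ?_ ?_ ?_) hc hm <;> push_cast <;> ring
  have hvv : ∀ m ∈ A, (v * v) * m * (v * v)⁻¹ = m⁻¹ := by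
    intro m hm
    refine Act.inv (Act.congr (p := p) hzp hxp (hv.mul hv hc) ?_ ?_ ?_ ?_) hc hm <;> push_cast
    · linear_combination hαβ
    · ring
    · ring
    · linear_combination hαβ
  -- u v acts as the inverse of v u
  have huv : ∀ m ∈ A, (u * v) * m * (u * v)⁻¹ = ((v * u) * m * (v * u)⁻¹)⁻¹ := by
    intro m hm
    obtain ⟨i, j, rfl⟩ := mem_pair hc hm
    have h1 := (hu.mul hv hc).apply hc i j
    have h2 := (hv.mul hu hc).apply hc i j
    rw [h1, h2, mul_inv_rev, ← zpow_neg, ← zpow_neg]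
    have h0 : ∀ a b : ℤ, x ^ a * z ^ b = z ^ b * x ^ a := fun a b =>
      (((show Commute z x from hc).symm.zpow_left a).zpow_right b).eq
    rw [h0]
    congr 2 <;> ring
  let N : Subgroup G := normalizer (A : Set G)
  let ρ : ↥N →* MulAut ↥A := A.normalizerMonoidHom
  have hρ : ∀ (n : ↥N) (a : ↥A), ((ρ n a : ↥A) : G) = (n : G) * a * (n : G)⁻¹ := fun n a => rfl
  let I : MulAut ↥A := ρ ⟨u, huN⟩
  let J : MulAut ↥A := ρ ⟨v, hvN⟩
  have hII : ∀ a : ↥A, (I * I) a = a⁻¹ := by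
    intro a
    apply Subtype.ext
    have : I * I = ρ (⟨u, huN⟩ * ⟨u, huN⟩) := (map_mul ρ _ _).symm
    rw [this, hρ]
    exact huu a a.2
  have hJJ : ∀ a : ↥A, (J * J) a = a⁻¹ := by
    intro a
    apply Subtype.ext
    have : J * J = ρ (⟨v, hvN⟩ * ⟨v, hvN⟩) := (map_mul ρ _ _).symm
    rw [this, hρ]
    exact hvv a a.2
  have hIJ : ∀ a : ↥A, (I * J) a = ((J * I) a)⁻¹ := by
    intro a
    apply Subtype.ext
    have h1 : I * J = ρ (⟨u, huN⟩ * ⟨v, hvN⟩) := (map_mul ρ _ _).symm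
    have h2 : J * I = ρ (⟨v, hvN⟩ * ⟨u, huN⟩) := (map_mul ρ _ _).symm
    rw [h1, h2, hρ]
    show _ = ((ρ (⟨v, hvN⟩ * ⟨u, huN⟩) a : ↥A) : G)⁻¹
    rw [hρ]
    exact huv a a.2
  have hI4 : I ^ 4 = 1 := by
    ext a
    have h1 : I ^ 4 = (I * I) * (I * I) := by rw [← pow_two, ← pow_two, ← pow_mul]
    rw [h1, MulAut.mul_apply, hII, hII, inv_inv, MulAut.one_apply]
  have hJ4 : J ^ 4 = 1 := by
    ext a
    have h1 : J ^ 4 = (J * J) * (J * J) := by rw [← pow_two, ← pow_two, ← pow_mul]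
    rw [h1, MulAut.mul_apply, hJJ, hJJ, inv_inv, MulAut.one_apply]
  have hJIJ : J * I * J⁻¹ = I⁻¹ := by
    -- J I = (I I)(I J) pointwise
    have h1 : J * I = I * I * (I * J) := by
      ext a
      rw [MulAut.mul_apply A (I * I) (I * J), hII, hIJ, inv_inv]
    rw [h1]
    have h2 : I * I * (I * J) * J⁻¹ = I ^ 4 * I⁻¹ := by
      simp only [pow_succ, pow_zero, one_mul, mul_assoc, mul_inv_cancel, mul_one]
    rw [h2, hI4, one_mul]
  haveI : Finite (MulAut ↥A) := inferInstance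
  have hQ2 : IsPGroup 2 ↥(zpowers I ⊔ zpowers J) := by
    have hn : zpowers J ≤ normalizer ((zpowers I : Subgroup (MulAut ↥A)) : Set (MulAut ↥A)) := by
      rw [zpowers_le]
      apply CfsgLib.H7Mult.mem_norm_of_le
      rintro _ ⟨k, rfl⟩
      show J * I ^ k * J⁻¹ ∈ _
      rw [← conj_zpow, hJIJ, inv_zpow]
      exact Subgroup.inv_mem _ ⟨k, rfl⟩
    have h1 := CfsgLib.H9Sig.card_sup_dvd hn
    rw [Nat.card_zpowers, Nat.card_zpowers] at h1
    have h2 : orderOf I * orderOf J ∣ 2 ^ 4 :=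
      (mul_dvd_mul (orderOf_dvd_of_pow_eq_one hI4) (orderOf_dvd_of_pow_eq_one hJ4)).trans (by norm_num)
    obtain ⟨k, -, hk⟩ := (Nat.dvd_prime_pow Nat.prime_two).mp (h1.trans h2)
    exact IsPGroup.of_card hk
  haveI : Fact (Nat.Prime 2) := ⟨Nat.prime_two⟩
  -- Sylow
  obtain ⟨T⟩ : Nonempty (Sylow 2 ↥N) := inferInstance
  have hfs : Function.Surjective ρ.rangeRestrict := ρ.rangeRestrict_surjective
  let Tb : Sylow 2 ↥ρ.range := T.mapSurjective hfs
  have hQr : zpowers I ⊔ zpowers J ≤ ρ.range := by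
    rw [sup_le_iff, zpowers_le, zpowers_le]
    exact ⟨⟨_, rfl⟩, ⟨_, rfl⟩⟩
  have hQ2' : IsPGroup 2 ↥((zpowers I ⊔ zpowers J).subgroupOf ρ.range) :=
    hQ2.of_equiv (Subgroup.subgroupOfEquivOfLe hQr).symm
  obtain ⟨Rb, hRb⟩ := hQ2'.exists_le_sylow
  obtain ⟨r, hr⟩ := MulAction.exists_smul_eq ↥ρ.range Rb Tb
  have hlift : ∀ X : ↥ρ.range, X ∈ (zpowers I ⊔ zpowers J).subgroupOf ρ.range →
      ∃ τ ∈ T, ρ τ = (r : MulAut ↥A) * X * (r : MulAut ↥A)⁻¹ := by
    intro X hX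
    have h1 : r * X * r⁻¹ ∈ (Tb : Subgroup ↥ρ.range) := by
      rw [← hr]
      show r * X * r⁻¹ ∈ (MulAut.conj r • (Rb : Subgroup ↥ρ.range))
      exact ⟨X, hRb hX, rfl⟩
    obtain ⟨τ, hτ, hτ2⟩ := h1
    exact ⟨τ, hτ, congrArg Subtype.val hτ2⟩
  obtain ⟨τ₁, hτ₁, hτ₁'⟩ := hlift ⟨I, ⟨_, rfl⟩⟩ ((le_sup_left : zpowers I ≤ _) (mem_zpowers I))
  obtain ⟨τ₂, hτ₂, hτ₂'⟩ := hlift ⟨J, ⟨_, rfl⟩⟩ ((le_sup_right : zpowers J ≤ _) (mem_zpowers J))
  have hτ₁'' : ρ τ₁ = (r : MulAut ↥A) * I * (r : MulAut ↥A)⁻¹ := hτ₁'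
  have hτ₂'' : ρ τ₂ = (r : MulAut ↥A) * J * (r : MulAut ↥A)⁻¹ := hτ₂'
  have hnc : τ₁ * τ₂ ≠ τ₂ * τ₁ := by
    intro h
    have h1 : ρ τ₁ * ρ τ₂ = ρ τ₂ * ρ τ₁ := by rw [← map_mul, ← map_mul, h]
    rw [hτ₁'', hτ₂''] at h1
    have h2 : I * J = J * I := by
      have h3 : (r : MulAut ↥A) * (I * J) * (r : MulAut ↥A)⁻¹ = (r : MulAut ↥A) * (J * I) * (r : MulAut ↥A)⁻¹ := by
        calc _ = (r : MulAut ↥A) * I * (r : MulAut ↥A)⁻¹ * ((r : MulAut ↥A) * J * (r : MulAut ↥A)⁻¹) := by group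
          _ = _ := h1
          _ = _ := by group
      exact mul_left_cancel (mul_right_cancel h3)
    -- evaluate at (J I)⁻¹ z
    have h4 : ∀ a : ↥A, a = a⁻¹ := by
      intro a
      obtain ⟨b, rfl⟩ := (J * I).surjective a
      rw [← hIJ b, h2]
    have h5 := congrArg Subtype.val (h4 ⟨z, hzA⟩)
    exact hzinv h5.symm
  have hτinv : ∀ m ∈ A, ((τ₁ : G) * τ₁) * m * ((τ₁ : G) * τ₁)⁻¹ = m⁻¹ := by
    intro m hm
    have h1 : ρ (τ₁ * τ₁) = (r : MulAut ↥A) * (I * I) * (r : MulAut ↥A)⁻¹ := by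
      rw [map_mul, hτ₁'']; group
    have h2 : (ρ (τ₁ * τ₁)) ⟨m, hm⟩ = (⟨m, hm⟩ : ↥A)⁻¹ := by
      rw [h1, MulAut.mul_apply, MulAut.mul_apply, hII, map_inv, ← MulAut.mul_apply, mul_inv_cancel, MulAut.one_apply]
    have h3 := congrArg Subtype.val h2
    rw [hρ] at h3
    exact h3
  -- to G
  let T1 : Subgroup G := (T : Subgroup ↥N).map N.subtype
  have hT1p : IsPGroup 2 T1 := T.isPGroup'.map _
  obtain ⟨S, hS⟩ := hT1p.exists_le_sylow
  have hτ₁S : (τ₁ : G) ∈ (S : Subgroup G) := hS ⟨τ₁, hτ₁, rfl⟩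
  have hτ₂S : (τ₂ : G) ∈ (S : Subgroup G) := hS ⟨τ₂, hτ₂, rfl⟩
  have hncG : (τ₁ : G) * τ₂ ≠ τ₂ * τ₁ := fun h => hnc (Subtype.ext h)
  have key : ∃ t : G, t ∈ (S : Subgroup G) ∧ (∀ g ∈ (S : Subgroup G), g * g = 1 → g = 1 ∨ g = t) ∧
      (∀ g ∈ (S : Subgroup G), g * g = 1 ∨ g * g = t) ∧ t * t = 1 ∧ t ≠ 1 := by
    rcases trichotomy hD2 S with h | ⟨-, ⟨e⟩⟩ | h
    · exfalso
      apply hncG
      have := (inferInstance : IsMulCommutative ↥(S : Subgroup G)).is_comm.comm ⟨_, hτ₁S⟩ ⟨_, hτ₂S⟩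
      exact congrArg Subtype.val this
    · obtain ⟨q1, q2, q3, q4, q5⟩ := q8_facts
      refine ⟨(e.symm (QuaternionGroup.a 2) : ↥(S : Subgroup G)), Subtype.property _, ?_, ?_, ?_, ?_⟩
      · intro g hg hgg
        have h1 : e ⟨g, hg⟩ * e ⟨g, hg⟩ = 1 := by
          rw [← map_mul, show (⟨g, hg⟩ * ⟨g, hg⟩ : ↥(S : Subgroup G)) = 1 from Subtype.ext hgg, map_one]
        rcases q1 _ h1 with h | h
        · left
          have := e.map_eq_one_iff.mp h
          exact congrArg Subtype.val this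
        · right
          rw [← h, e.symm_apply_apply]
      · intro g hg
        rcases q3 (e ⟨g, hg⟩) with h | h
        · left
          rw [← map_mul] at h
          have := e.map_eq_one_iff.mp h
          exact congrArg Subtype.val this
        · right
          rw [← h, ← map_mul, e.symm_apply_apply]; rfl
      · have := congrArg e.symm q4
        rw [map_mul, map_one] at this
        exact congrArg Subtype.val this
      · intro h
        apply q5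
        have h1 : e.symm (QuaternionGroup.a 2) = 1 := Subtype.ext h
        rwa [e.symm.map_eq_one_iff] at h1
    · exfalso
      apply hncG
      have hsq : ∀ g ∈ (S : Subgroup G), g * g = 1 := by
        intro g hg
        have h1 := h g (by
          obtain ⟨k, hk⟩ := IsPGroup.iff_orderOf.mp S.isPGroup' ⟨g, hg⟩
          exact ⟨k, by rw [← hk, Subgroup.orderOf_mk]⟩)
        rw [pow_two] at h1; exact h1
      have h1 := hsq _ hτ₁S
      have h2 := hsq _ hτ₂S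
      have h3 := hsq _ (mul_mem hτ₁S hτ₂S)
      have h4 : (τ₁ : G)⁻¹ = τ₁ := inv_eq_of_mul_eq_one_left h1
      have h5 : (τ₂ : G)⁻¹ = τ₂ := inv_eq_of_mul_eq_one_left h2
      have h6 : ((τ₁ : G) * τ₂)⁻¹ = τ₁ * τ₂ := inv_eq_of_mul_eq_one_left h3
      rw [mul_inv_rev, h4, h5] at h6
      exact h6.symm
  obtain ⟨t, htS, ht1, ht2, ht3, ht4⟩ := key
  have htτ : (τ₁ : G) * τ₁ = t := by
    rcases ht2 _ hτ₁S with h | h
    · exfalso
      have h1 := hτinv z hzA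
      rw [h, one_mul, inv_one, mul_one] at h1
      exact hzinv h1.symm
    · exact h
  have htN : t ∈ N := by rw [← htτ]; exact N.mul_mem τ₁.2 τ₁.2
  have htinv : ∀ m ∈ A, t * m * t⁻¹ = m⁻¹ := by
    intro m hm; rw [← htτ]; exact hτinv m hm
  refine ⟨⟨t, htN, ht3, ht4⟩, ?_⟩
  intro s hs hss hs1 m hm
  -- conjugate into T
  have hsp : IsPGroup 2 (zpowers (⟨s, hs⟩ : ↥N)) := by
    refine IsPGroup.of_card (n := 1) ?_
    rw [Nat.card_zpowers, pow_one]
    apply orderOf_eq_prime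
    · rw [pow_two]; exact Subtype.ext hss
    · intro h; exact hs1 (congrArg Subtype.val h)
  obtain ⟨T', hT'⟩ := hsp.exists_le_sylow
  obtain ⟨n, hn⟩ := MulAction.exists_smul_eq ↥N T T'
  have hsT : (⟨s, hs⟩ : ↥N) ∈ (T' : Subgroup ↥N) := hT' (mem_zpowers _)
  rw [← hn] at hsT
  have hsT' : (⟨s, hs⟩ : ↥N) ∈ MulAut.conj n • (T : Subgroup ↥N) := hsT
  obtain ⟨τ', hτ', hτ'2⟩ := hsT'
  have h1 : (n : G) * τ' * (n : G)⁻¹ = s := congrArg Subtype.val hτ'2
  have h2 : (τ' : G) = (n : G)⁻¹ * s * n := by rw [← h1]; group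
  have h3 : (τ' : G) * τ' = 1 := by
    rw [h2]
    calc (n : G)⁻¹ * s * n * ((n : G)⁻¹ * s * n) = (n : G)⁻¹ * (s * s) * n := by group
      _ = 1 := by rw [hss]; group
  have h4 : (τ' : G) ≠ 1 := by
    intro h
    apply hs1
    rw [← h1, h]; group
  have h5 : (τ' : G) = t := by
    rcases ht1 _ (hS ⟨τ', hτ', rfl⟩) h3 with h | h
    · exact absurd h h4
    · exact h
  have h6 : (n : G)⁻¹ * m * n ∈ A := by
    have := (Subgroup.mem_normalizer_iff.mp (N.inv_mem n.2) m).mp hm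
    rwa [inv_inv] at this
  have h7 := htinv _ h6
  rw [← h1, h5]
  calc (n : G) * t * (n : G)⁻¹ * m * ((n : G) * t * (n : G)⁻¹)⁻¹
      = (n : G) * (t * ((n : G)⁻¹ * m * n) * t⁻¹) * (n : G)⁻¹ := by group
    _ = m⁻¹ := by rw [h7]; group

theorem no_cube (hp2 : p ≠ 2) (hD : Same p G) (hD2 : Same 2 G)
    (hexp : ∀ x : G, (∃ k, orderOf x = p ^ k) → x ^ p = 1)
    (P : Sylow p G) (hcard : Nat.card P = p ^ 3) (hna : ¬ ∀ a ∈ (P : Subgroup G), ∀ b ∈ (P : Subgroup G), a * b = b * a)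
    {x y z : G} (hxP : x ∈ (P : Subgroup G)) (hyP : y ∈ (P : Subgroup G)) (hz : z = x * y * x⁻¹ * y⁻¹)
    (hz1 : z ≠ 1) (hzc : ∀ g ∈ (P : Subgroup G), z * g = g * z) (hxz : x ∉ zpowers z) : False := by
  classical
  have hPe : ∀ g ∈ (P : Subgroup G), g ^ p = 1 := by
    intro g hg
    apply hexp
    obtain ⟨k, hk⟩ := IsPGroup.iff_orderOf.mp P.isPGroup' ⟨g, hg⟩
    exact ⟨k, by rw [← hk, Subgroup.orderOf_mk]⟩
  have hzP : z ∈ (P : Subgroup G) := by
    rw [hz]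
    exact mul_mem (mul_mem (mul_mem hxP hyP) (inv_mem hxP)) (inv_mem hyP)
  have hzo : orderOf z = p := orderOf_eq_prime (hPe z hzP) hz1
  have hx1 : x ≠ 1 := by rintro rfl; exact hxz (one_mem _)
  have hxo : orderOf x = p := orderOf_eq_prime (hPe x hxP) hx1
  have hc : z * x = x * z := hzc x hxP
  have hzy : z * y = y * z := hzc y hyP
  have hzx : z ∉ zpowers x := by
    intro h
    have h1 : zpowers z ≤ zpowers x := by rw [zpowers_le]; exact h
    have h2 : zpowers z = zpowers x := Subgroup.eq_of_le_of_card_ge h1 (by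
      rw [Nat.card_zpowers, Nat.card_zpowers, hzo, hxo])
    apply hxz
    rw [h2]; exact mem_zpowers x
  obtain ⟨w, j, hj, hw⟩ := exists_y2 hD hexp P hcard hna hzo hxo hc hzx hzc
  have hy : Act z x y 1 (-1) 0 1 := by
    constructor
    · rw [← hzy, mul_inv_cancel_right, zpow_one, zpow_zero, mul_one]
    · rw [zpow_neg, zpow_one, zpow_one, hz]; group
  have hzp : z ^ p = 1 := hPe z hzP
  have hxp : x ^ p = 1 := hPe x hxP
  have hneg1 : ((-1 : ℤ) : ZMod p) ≠ 0 := by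
    push_cast
    exact neg_ne_zero.mpr one_ne_zero
  obtain ⟨α, β, hβ, hαβ⟩ : ∃ α β : ℤ, (β : ZMod p) ≠ 0 ∧ (α : ZMod p) ^ 2 + (β : ZMod p) ^ 2 = -1 := by
    obtain ⟨a, b, hab⟩ := ZMod.sq_add_sq p (-1)
    by_cases hb : b = 0
    · have ha : a ≠ 0 := by
        rintro rfl
        rw [hb] at hab
        simp at hab
      refine ⟨b.val, a.val, ?_, ?_⟩
      · push_cast; rw [ZMod.natCast_zmod_val]; exact ha
      · push_cast; rw [ZMod.natCast_zmod_val, ZMod.natCast_zmod_val, add_comm]; exact hab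
    · refine ⟨a.val, b.val, ?_, ?_⟩
      · push_cast; rw [ZMod.natCast_zmod_val]; exact hb
      · push_cast; rw [ZMod.natCast_zmod_val, ZMod.natCast_zmod_val]; exact hab
  obtain ⟨u, -, hu⟩ := act_sl (p := p) hzp hxp hc hy hneg1 hw hj 0 1 (-1) 0 hneg1 (by push_cast; ring)
  obtain ⟨v, -, hv⟩ := act_sl (p := p) hzp hxp hc hy hneg1 hw hj α β β (-α) hβ
    (by push_cast; linear_combination -hαβ)
  obtain ⟨⟨t, htN, htt, ht1⟩, hinv⟩ := all_invert hp2 hD2 hzo hxo hc hu hv hαβ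
  have hAcard := card_pair hzo hxo hc hzx
  set A : Subgroup G := zpowers z ⊔ zpowers x with hA
  have hzA : z ∈ A := (le_sup_left : zpowers z ≤ A) (mem_zpowers z)
  have hxA : x ∈ A := (le_sup_right : zpowers x ≤ A) (mem_zpowers x)
  have hAp : IsPGroup p A := IsPGroup.of_card hAcard
  have hyN : y ∈ normalizer (A : Set G) := hy.mem_norm hc
  have hyx : y * x ≠ x * y := by
    intro h
    apply hz1
    rw [hz, ← h]; group
  have hp_odd : ∀ g : G, g * g = 1 → g ^ p = 1 → g = 1 := by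
    intro g h1 h2
    have h3 : orderOf g ∣ 2 := orderOf_dvd_of_pow_eq_one (by rw [pow_two]; exact h1)
    have h4 : orderOf g ∣ p := orderOf_dvd_of_pow_eq_one h2
    have h5 : Nat.gcd 2 p = 1 := (Nat.coprime_primes Nat.prime_two hp.out).mpr (Ne.symm hp2)
    have h6 := Nat.dvd_gcd h3 h4
    rw [h5] at h6
    exact orderOf_eq_one_iff.mp (Nat.dvd_one.mp h6)
  -- any involution normalising a subgroup of order p^2 inverts it
  have hgen : ∀ E : Subgroup G, IsPGroup p E → Nat.card E = p ^ 2 → ∀ s ∈ normalizer (E : Set G), s * s = 1 → s ≠ 1 →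
      ∀ m ∈ E, s * m * s⁻¹ = m⁻¹ := by
    intro E hE hEc s hs hss hs1 m hm
    obtain ⟨g, rfl⟩ := hD A E hAp hE (by rw [hAcard, hEc])
    obtain ⟨a, ha, rfl⟩ := hm
    have h1 : g⁻¹ * s * g ∈ normalizer (A : Set G) := by
      rw [Subgroup.mem_normalizer_iff]
      intro h
      have h2 := Subgroup.mem_normalizer_iff.mp hs (g * h * g⁻¹)
      have h3 : ∀ k : G, g * k * g⁻¹ ∈ A.map (MulAut.conj g).toMonoidHom ↔ k ∈ A := by
        intro k
        constructor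
        · rintro ⟨b, hb, hbk⟩
          have h4 : g * b * g⁻¹ = g * k * g⁻¹ := hbk
          rw [← mul_left_cancel (mul_right_cancel h4)]; exact hb
        · intro hk; exact ⟨k, hk, rfl⟩
      have h5 : s * (g * h * g⁻¹) * s⁻¹ = g * (g⁻¹ * s * g * h * (g⁻¹ * s * g)⁻¹) * g⁻¹ := by group
      rw [h5, h3, h3] at h2
      exact h2
    have h2 := hinv (g⁻¹ * s * g) h1 (by
      calc g⁻¹ * s * g * (g⁻¹ * s * g) = g⁻¹ * (s * s) * g := by group
        _ = 1 := by rw [hss]; group) (by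
      intro h
      apply hs1
      have : s = g * (g⁻¹ * s * g) * g⁻¹ := by group
      rw [this, h]; group) a ha
    show s * (g * a * g⁻¹) * s⁻¹ = (g * a * g⁻¹)⁻¹
    have h3 : s * (g * a * g⁻¹) * s⁻¹ = g * (g⁻¹ * s * g * a * (g⁻¹ * s * g)⁻¹) * g⁻¹ := by group
    rw [h3, h2]; group
  -- t and its conjugate by y
  set s := y * t * y⁻¹ with hs
  have hss : s * s = 1 := by
    rw [hs]
    calc y * t * y⁻¹ * (y * t * y⁻¹) = y * (t * t) * y⁻¹ := by group
      _ = 1 := by rw [htt]; group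
  have hs1 : s ≠ 1 := by
    intro h
    apply ht1
    have : t = y⁻¹ * s * y := by rw [hs]; group
    rw [this, h]; group
  have hsN : s ∈ normalizer (A : Set G) := mul_mem (mul_mem hyN htN) (inv_mem hyN)
  have htsc : ∀ m ∈ A, (t * s) * m = m * (t * s) := by
    intro m hm
    have h1 := hinv s hsN hss hs1 m hm
    have h2 := hinv t htN htt ht1 m⁻¹ (A.inv_mem hm)
    rw [inv_inv] at h2
    have h3 : t * s * m * (t * s)⁻¹ = m := by
      have : t * s * m * (t * s)⁻¹ = t * (s * m * s⁻¹) * t⁻¹ := by group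
      rw [this, h1, h2]
    exact mul_inv_eq_iff_eq_mul.mp h3
  have hodd : Odd (orderOf (t * s)) := by
    rw [← Nat.not_even_iff_odd]
    intro heven
    obtain ⟨k, hk⟩ := heven
    have hpos : 0 < orderOf (t * s) := orderOf_pos _
    have h1 : (t * s) ^ k * (t * s) ^ k = 1 := by rw [← pow_add, ← hk, pow_orderOf_eq_one]
    have h2 : (t * s) ^ k ≠ 1 := by
      intro h
      have := orderOf_dvd_of_pow_eq_one h
      have := Nat.le_of_dvd (by omega) this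
      omega
    have h3 : (t * s) ^ k ∈ normalizer (A : Set G) := pow_mem (mul_mem htN hsN) k
    have h4 := hinv _ h3 h1 h2 x hxA
    have h5 : Commute ((t * s) ^ k) x := (show Commute (t * s) x from htsc x hxA).pow_left k
    rw [h5.eq, mul_inv_cancel_right] at h4
    apply hx1
    apply hp_odd x _ hxp
    nth_rewrite 2 [h4]
    exact mul_inv_cancel x
  obtain ⟨d, hd, hdt⟩ := conj_odd htt hss hodd
  have hdc : ∀ m ∈ A, d * m = m * d := by
    intro m hm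
    obtain ⟨k, hk⟩ := hd
    have hk' : (t * s) ^ k = d := hk
    rw [← hk']
    exact ((show Commute (t * s) m from htsc m hm).zpow_left k).eq
  set c₀ := d⁻¹ * y with hc₀
  have hc₀t : c₀ * t = t * c₀ := by
    have h1 : c₀ * t * c₀⁻¹ = t := by
      have h2 : c₀ * t * c₀⁻¹ = d⁻¹ * (y * t * y⁻¹) * d := by rw [hc₀]; group
      rw [h2, ← hs, ← hdt]; group
    exact mul_inv_eq_iff_eq_mul.mp h1
  have hdi : ∀ m ∈ A, d⁻¹ * m = m * d⁻¹ := fun m hm => ((show Commute d m from hdc m hm).inv_left).eq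
  have hc₀act : ∀ m ∈ A, c₀ * m * c₀⁻¹ = y * m * y⁻¹ := by
    intro m hm
    have h1 : y * m * y⁻¹ ∈ A := (Subgroup.mem_normalizer_iff.mp hyN m).mp hm
    have h2 : c₀ * m * c₀⁻¹ = d⁻¹ * (y * m * y⁻¹) * d := by rw [hc₀]; group
    rw [h2, hdi _ h1, inv_mul_cancel_right]
  have hyA : ∀ k : ℕ, ∀ m ∈ A, c₀ ^ k * m * (c₀ ^ k)⁻¹ = y ^ k * m * (y ^ k)⁻¹ ∧ y ^ k * m * (y ^ k)⁻¹ ∈ A := by
    intro k
    induction k with
    | zero => intro m hm; refine ⟨by simp, by simpa using hm⟩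
    | succ k ih =>
      intro m hm
      obtain ⟨h1, h2⟩ := ih m hm
      have h3 : c₀ ^ (k + 1) * m * (c₀ ^ (k + 1))⁻¹ = c₀ * (c₀ ^ k * m * (c₀ ^ k)⁻¹) * c₀⁻¹ := by
        rw [pow_succ']; group
      have h4 : y ^ (k + 1) * m * (y ^ (k + 1))⁻¹ = y * (y ^ k * m * (y ^ k)⁻¹) * y⁻¹ := by
        rw [pow_succ']; group
      rw [h3, h4, h1]
      exact ⟨hc₀act _ h2, (Subgroup.mem_normalizer_iff.mp hyN _).mp h2⟩
  obtain ⟨i, l, hil, ⟨k, hk⟩, hl⟩ := CfsgLib.Core.exists_ppart c₀ p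
  -- x₁ = c₀ ^ i
  have hx₁p : (c₀ ^ i) ^ p = 1 := hexp _ ⟨k, hk⟩
  have hx₁nc : ¬ ∀ m ∈ A, c₀ ^ i * m = m * c₀ ^ i := by
    intro hcon
    -- then c₀ acts as c₀ ^ l
    have h1 : ∀ m ∈ A, c₀ ^ l * m = m * c₀ ^ l := by
      intro m hm
      -- (c₀^l) ^ p acts trivially and (c₀^l)^(orderOf) = 1
      have h2 : ∀ m ∈ A, Commute (c₀ ^ p) m := by
        intro m hm
        have h3 := (hyA p m hm).1
        rw [hPe y hyP] at h3
        have h4 : c₀ ^ p * m * (c₀ ^ p)⁻¹ = m := by rw [h3]; simp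
        exact mul_inv_eq_iff_eq_mul.mp h4
      have h5 : Commute ((c₀ ^ l) ^ p) m := by
        rw [← pow_mul, mul_comm, pow_mul]
        exact (h2 m hm).pow_left l
      have hcop : Nat.Coprime p (orderOf (c₀ ^ l)) := (Nat.Prime.coprime_iff_not_dvd hp.out).mpr hl
      obtain ⟨r, hr⟩ := exists_pow_eq_self_of_coprime hcop
      have h6 : c₀ ^ l = ((c₀ ^ l) ^ p) ^ r := hr.symm
      rw [h6]
      exact (h5.pow_left r).eq
    apply hyx
    have h7 : c₀ * x * c₀⁻¹ = x := by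
      have h8 : c₀ * x = x * c₀ := by
        rw [hil, mul_assoc, h1 x hxA, ← mul_assoc, hcon x hxA, mul_assoc]
      rw [h8, mul_inv_cancel_right]
    rw [hc₀act x hxA] at h7
    exact mul_inv_eq_iff_eq_mul.mp h7
  have hx₁1 : c₀ ^ i ≠ 1 := by
    intro h
    apply hx₁nc
    intro m _
    rw [h, one_mul, mul_one]
  have hx₁o : orderOf (c₀ ^ i) = p := orderOf_eq_prime hx₁p hx₁1
  have hx₁z : c₀ ^ i * z = z * c₀ ^ i := by
    have h1 := (hyA i z hzA).1
    have h2 : y ^ i * z * (y ^ i)⁻¹ = z := by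
      have : Commute (y ^ i) z := (show Commute y z from hzy.symm).pow_left i
      rw [this.eq, mul_inv_cancel_right]
    rw [h2] at h1
    exact mul_inv_eq_iff_eq_mul.mp h1
  have hx₁A : c₀ ^ i ∉ zpowers z := by
    intro h
    apply hx₁nc
    intro m hm
    exact comm_pair hc ((le_sup_left : zpowers z ≤ A) h) hm
  have hx₁t : t * c₀ ^ i * t⁻¹ = c₀ ^ i := by
    have h1 : Commute (c₀ ^ i) t := (show Commute c₀ t from hc₀t).pow_left i
    rw [← h1.eq, mul_inv_cancel_right]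
  have hEcard := card_pair hx₁o hzo hx₁z hx₁A
  have htE : t ∈ normalizer ((zpowers (c₀ ^ i) ⊔ zpowers z : Subgroup G) : Set G) := by
    apply CfsgLib.H7Mult.mem_norm_of_le
    intro m hm
    obtain ⟨a, b, rfl⟩ := mem_pair hx₁z hm
    have h1 : t * ((c₀ ^ i) ^ a * z ^ b) * t⁻¹ = (t * c₀ ^ i * t⁻¹) ^ a * (t * z * t⁻¹) ^ b := by
      rw [conj_zpow, conj_zpow]; group
    rw [h1, hx₁t, hinv t htN htt ht1 z hzA]
    exact mul_mem ((le_sup_left : zpowers (c₀ ^ i) ≤ zpowers (c₀ ^ i) ⊔ zpowers z) ⟨a, rfl⟩)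
      ((le_sup_right : zpowers z ≤ zpowers (c₀ ^ i) ⊔ zpowers z) (Subgroup.zpow_mem _ (Subgroup.inv_mem _ (mem_zpowers z)) b))
  have h1 := hgen _ (IsPGroup.of_card hEcard) hEcard t htE htt ht1 (c₀ ^ i)
    ((le_sup_left : zpowers (c₀ ^ i) ≤ zpowers (c₀ ^ i) ⊔ zpowers z) (mem_zpowers _))
  rw [hx₁t] at h1
  apply hx₁1
  apply hp_odd _ _ hx₁p
  nth_rewrite 2 [h1]
  exact mul_inv_cancel _

end

end CfsgLib.H7D
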