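import Mathlib
import Cfsg.Agent.Lib.H7Npc
import Cfsg.Agent.Lib.SylBridge
import Cfsg.Agent.Lib.CFRed

set_option autoImplicit false
set_option linter.style.haveILetI false

/-! Groups with a modular Sylow `2`-subgroup. -/

namespace CfsgLib.H7Npc

open Subgroup

section modular

variable {G : Type*} [Group G] {n : ℕ} {a b : G}

theorem mod_conj (hrel : b * a * b⁻¹ = a ^ (2 ^ (n - 1) + 1)) (i : ℤ) :
    b * a ^ i = a ^ (i + i * 2 ^ (n - 1)) * b := by
  have h1 : b * a ^ i * b⁻¹ = a ^ (i + i * 2 ^ (n - 1)) := by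
    rw [← conj_zpow, hrel, ← zpow_natCast, ← zpow_mul]
    congr 1
    push_cast
    ring
  rw [← h1, inv_mul_cancel_right]

theorem mod_mul (hrel : b * a * b⁻¹ = a ^ (2 ^ (n - 1) + 1)) (hb : b * b = 1) (i j : ℤ) :
    (a ^ i * b) * (a ^ j * b) = a ^ (i + j + j * 2 ^ (n - 1)) := by
  calc (a ^ i * b) * (a ^ j * b) = a ^ i * (b * a ^ j) * b := by group
    _ = a ^ i * (a ^ (j + j * 2 ^ (n - 1)) * b) * b := by rw [mod_conj hrel]
    _ = a ^ i * a ^ (j + j * 2 ^ (n - 1)) * (b * b) := by group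
    _ = _ := by rw [hb, mul_one, ← zpow_add]; congr 1; ring

theorem mod_not_mem (hn : 3 ≤ n) (hao : orderOf a = 2 ^ n) (hrel : b * a * b⁻¹ = a ^ (2 ^ (n - 1) + 1)) :
    b ∉ zpowers a := by
  rintro ⟨i, rfl⟩
  simp only at hrel
  rw [((Commute.refl a).zpow_left i).eq, mul_inv_cancel_right, pow_succ', left_eq_mul] at hrel
  have h1 := orderOf_dvd_of_pow_eq_one hrel
  rw [hao] at h1
  have h2 := Nat.le_of_dvd (by positivity) h1
  have h3 : 2 ^ (n - 1) < 2 ^ n := Nat.pow_lt_pow_right (by norm_num) (by omega)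
  omega

theorem mod_elems {S : Subgroup G} [Finite G] (hn : 3 ≤ n) (hS : Nat.card S = 2 ^ (n + 1)) (ha : a ∈ S) (hb : b ∈ S)
    (hao : orderOf a = 2 ^ n) (hbo : b * b = 1) (hrel : b * a * b⁻¹ = a ^ (2 ^ (n - 1) + 1)) :
    ∀ x ∈ S, ∃ i : ℤ, x = a ^ i ∨ x = a ^ i * b := by
  intro x hx
  have hle : zpowers a ≤ S := by rw [zpowers_le]; exact ha
  have hidx : ((zpowers a).subgroupOf S).index = 2 := by
    have h1 := ((zpowers a).subgroupOf S).card_mul_index
    rw [Nat.card_congr (Subgroup.subgroupOfEquivOfLe hle).toEquiv, Nat.card_zpowers, hao, hS, pow_succ] at h1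
    exact Nat.eq_of_mul_eq_mul_left (by positivity) h1
  by_cases hxa : x ∈ zpowers a
  · obtain ⟨i, hi⟩ := hxa
    exact ⟨i, Or.inl hi.symm⟩
  · have h1 := index_two_prop hidx (⟨x, hx⟩⁻¹ : S) ⟨b, hb⟩ (by
      rw [inv_mem_iff]
      exact hxa) (mod_not_mem hn hao hrel)
    rw [inv_inv] at h1
    have h2 : x * b ∈ zpowers a := h1
    obtain ⟨i, hi⟩ := h2
    simp only at hi
    refine ⟨i, Or.inr ?_⟩
    rw [hi, mul_assoc, hbo, mul_one]

/-- divisibility from a power being trivial -/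
theorem mod_dvd (hao : orderOf a = 2 ^ n) {i : ℤ} (h : a ^ i = 1) : (2 : ℤ) ^ n ∣ i := by
  have := orderOf_dvd_iff_zpow_eq_one.2 h
  rw [hao] at this
  exact_mod_cast this

theorem pow_dvd_of_mul {k : ℕ} {i c : ℤ} (hc : Odd c) (h : (2 : ℤ) ^ k ∣ i * c) : (2 : ℤ) ^ k ∣ i := by
  refine IsCoprime.dvd_of_dvd_mul_right ?_ h
  exact (Int.isCoprime_iff_gcd_eq_one.2 (by
    rw [Int.gcd_comm]
    exact Int.isCoprime_iff_gcd_eq_one.1 (Int.isCoprime_two_right.2 hc))).pow_left

end modular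

end CfsgLib.H7Npc

namespace CfsgLib.H7Npc

open Subgroup

section modular2

variable {G : Type*} [Group G] {n : ℕ} {a b z : G}

theorem zpow_of_sq (hz : z * z = 1) (k : ℤ) : z ^ k = 1 ∨ z ^ k = z := by
  have h2 : z ^ (2 : ℤ) = 1 := by rw [zpow_ofNat, sq, hz]
  rcases Int.even_or_odd' k with ⟨c, rfl | rfl⟩
  · left; rw [zpow_mul, h2, one_zpow]
  · right; rw [zpow_add, zpow_mul, h2, one_zpow, one_mul, zpow_one]

theorem mod_facts {S : Subgroup G} [Finite G] (hn : 3 ≤ n) (hS : Nat.card S = 2 ^ (n + 1)) (ha : a ∈ S) (hb : b ∈ S)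
    (hao : orderOf a = 2 ^ n) (hbo : b * b = 1) (hrel : b * a * b⁻¹ = a ^ (2 ^ (n - 1) + 1))
    (hz : z = a ^ (2 ^ (n - 1))) :
    z * z = 1 ∧ z ≠ 1 ∧ (∀ x ∈ S, z * x = x * z) ∧ (∀ x ∈ S, x * x ∈ zpowers (a ^ 2)) ∧
    (∀ x ∈ S, x * x = 1 → x = 1 ∨ x = z ∨ x = b ∨ x = z * b) ∧
    (∀ x ∈ S, x ^ 4 = 1 → ∀ y ∈ S, y ^ 4 = 1 → x * y = y * x) ∧
    (∀ x ∈ S, ∀ y ∈ S, x * y = y * x ∨ x * y = z * (y * x)) := by
  obtain ⟨M, hM⟩ : ∃ M : ℤ, M = 2 ^ (n - 2) := ⟨_, rfl⟩
  have hN2 : (2 : ℤ) ^ (n - 1) = 2 * M := by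
    rw [hM, ← pow_succ']; congr 1; omega
  have hn2 : (2 : ℤ) ^ n = 2 * 2 ^ (n - 1) := by
    rw [← pow_succ']; congr 1; omega
  have hMe : Even M := by
    rw [hM]
    exact (Int.even_pow.2 ⟨even_two, by omega⟩)
  have hMo : Odd (1 + M) := by
    rw [add_comm]; exact hMe.add_one
  have hz' : ∀ k : ℤ, a ^ (k * 2 ^ (n - 1)) = z ^ k := by
    intro k
    rw [hz, ← zpow_natCast, ← zpow_mul]
    congr 1
    push_cast; ring
  have han : ∀ k : ℤ, a ^ (k * 2 ^ n) = 1 := by
    intro k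
    have h1 : a ^ ((2 : ℤ) ^ n) = 1 := by
      have : ((2 : ℤ) ^ n) = ((2 ^ n : ℕ) : ℤ) := by push_cast; ring
      rw [this, zpow_natCast, ← hao, pow_orderOf_eq_one]
    rw [mul_comm, zpow_mul, h1, one_zpow]
  have hz2 : z * z = 1 := by
    have h1 := hz' 1
    rw [zpow_one] at h1
    rw [← h1, ← zpow_add]
    have h2 : (1 * 2 ^ (n - 1) + 1 * 2 ^ (n - 1) : ℤ) = 1 * 2 ^ n := by rw [hn2]; ring
    rw [h2, han]
  have hz1 : z ≠ 1 := by
    intro h
    rw [hz] at h
    have h1 := orderOf_dvd_of_pow_eq_one h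
    rw [hao] at h1
    have h2 := Nat.le_of_dvd (by positivity) h1
    have h3 : 2 ^ (n - 1) < 2 ^ n := Nat.pow_lt_pow_right (by norm_num) (by omega)
    omega
  have hel := mod_elems hn hS ha hb hao hbo hrel
  have hza : ∀ i : ℤ, z * a ^ i = a ^ i * z := by
    intro i
    have h1 := hz' 1
    rw [zpow_one] at h1
    rw [← h1]
    exact ((Commute.refl a).zpow_zpow _ _).eq
  have hzb : z * b = b * z := by
    have h1 := hz' 1
    rw [zpow_one] at h1
    rw [← h1, mod_conj hrel]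
    congr 1
    have h2 : (1 * 2 ^ (n - 1) + 1 * 2 ^ (n - 1) * 2 ^ (n - 1) : ℤ) = 1 * 2 ^ (n - 1) + M * 2 ^ n := by
      rw [hn2]; rw [hN2]; ring
    rw [h2, zpow_add, han, mul_one]
  have hzS : ∀ x ∈ S, z * x = x * z := by
    intro x hx
    obtain ⟨i, rfl | rfl⟩ := hel x hx
    · exact hza i
    · rw [← mul_assoc, hza, mul_assoc, hzb, mul_assoc]
  have hsq : ∀ i : ℤ, (a ^ i * b) * (a ^ i * b) = a ^ (i * (1 + M) * 2) := by
    intro i
    rw [mod_mul hrel hbo]
    congr 1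
    rw [hN2]; ring
  have hsq0 : ∀ i : ℤ, (a ^ i) * (a ^ i) = a ^ (i * 2) := by
    intro i
    rw [← zpow_add]; congr 1; ring
  have h4 : ∀ x ∈ S, x ^ 4 = 1 → ∃ j : ℤ, x = a ^ (j * M) ∨ x = a ^ (j * M) * b := by
    intro x hx hx4
    have e4 : x ^ 4 = (x * x) * (x * x) := by rw [← mul_assoc]; simp only [pow_succ, pow_zero, one_mul]
    rw [e4] at hx4
    have hn4 : (2 : ℤ) ^ n = M * 4 := by rw [hn2, hN2]; ring
    obtain ⟨i, rfl | rfl⟩ := hel x hx
    · rw [hsq0, ← zpow_add] at hx4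
      have h5 := mod_dvd hao hx4
      rw [hn4, show i * 2 + i * 2 = i * 4 by ring] at h5
      obtain ⟨j, hj⟩ := Int.dvd_of_mul_dvd_mul_right (by norm_num) h5
      exact ⟨j, Or.inl (by rw [hj, mul_comm])⟩
    · rw [hsq, ← zpow_add] at hx4
      have h5 := mod_dvd hao hx4
      rw [hn4, show i * (1 + M) * 2 + i * (1 + M) * 2 = i * (1 + M) * 4 by ring] at h5
      have h6 := Int.dvd_of_mul_dvd_mul_right (by norm_num) h5
      rw [hM] at h6
      have h7 := pow_dvd_of_mul (by rw [← hM]; exact hMo) h6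
      rw [← hM] at h7
      obtain ⟨j, hj⟩ := h7
      exact ⟨j, Or.inr (by rw [hj, mul_comm])⟩
  have hbM : ∀ j : ℤ, b * a ^ (j * M) = a ^ (j * M) * b := by
    intro j
    rw [mod_conj hrel]
    congr 1
    obtain ⟨c, hc⟩ := hMe
    have h2 : (j * M + j * M * 2 ^ (n - 1) : ℤ) = j * M + (j * c) * 2 ^ n := by
      rw [hn2]; nth_rewrite 2 [hc]; ring
    rw [h2, zpow_add, han, mul_one]
  refine ⟨hz2, hz1, hzS, ?_, ?_, ?_, ?_⟩
  · intro x hx
    obtain ⟨i, rfl | rfl⟩ := hel x hx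
    · rw [hsq0]
      refine ⟨i, ?_⟩
      simp only
      rw [← zpow_natCast, ← zpow_mul]; congr 1; push_cast; ring
    · rw [hsq]
      refine ⟨i * (1 + M), ?_⟩
      simp only
      rw [← zpow_natCast, ← zpow_mul]; congr 1; push_cast; ring
  · intro x hx hx2
    obtain ⟨i, rfl | rfl⟩ := hel x hx
    · rw [hsq0] at hx2
      have h5 := mod_dvd hao hx2
      rw [hn2, mul_comm i] at h5
      obtain ⟨j, hj⟩ := Int.dvd_of_mul_dvd_mul_left (by norm_num) h5
      rw [hj, mul_comm, hz']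
      rcases zpow_of_sq hz2 j with h | h
      · left; exact h
      · right; left; exact h
    · rw [hsq] at hx2
      have h5 := mod_dvd hao hx2
      rw [hn2, mul_comm _ (2 : ℤ)] at h5
      have h6 := Int.dvd_of_mul_dvd_mul_left (by norm_num) h5
      obtain ⟨j, hj⟩ := pow_dvd_of_mul hMo h6
      rw [hj, mul_comm ((2 : ℤ) ^ (n - 1)), hz']
      rcases zpow_of_sq hz2 j with h | h
      · right; right; left; rw [h, one_mul]
      · right; right; right; rw [h]
  · intro x hx hx4 y hy hy4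
    obtain ⟨i, hi⟩ := h4 x hx hx4
    obtain ⟨j, hj⟩ := h4 y hy hy4
    have hA : Commute (a ^ (i * M)) (a ^ (j * M)) := (Commute.refl a).zpow_zpow _ _
    have hB : ∀ j, Commute b (a ^ (j * M)) := hbM
    have hb' : Commute b b := Commute.refl b
    rcases hi with rfl | rfl <;> rcases hj with rfl | rfl
    · exact hA.eq
    · exact (hA.mul_right (hB i).symm).eq
    · exact (hA.mul_left (hB j)).eq
    · exact ((hA.mul_right (hB i).symm).mul_left ((hB j).mul_right hb')).eq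
  · intro x hx y hy
    have key : ∀ i j : ℤ, (a ^ j * b) * a ^ i = z ^ i * (a ^ i * (a ^ j * b)) := by
      intro i j
      rw [mul_assoc, mod_conj hrel, ← hz']
      rw [← mul_assoc, ← mul_assoc, ← mul_assoc, ← zpow_add, ← zpow_add, ← zpow_add]
      congr 2; ring
    obtain ⟨i, hi⟩ := hel x hx
    obtain ⟨j, hj⟩ := hel y hy
    rcases hi with rfl | rfl <;> rcases hj with rfl | rfl
    · left; exact ((Commute.refl a).zpow_zpow _ _).eq
    · have h1 := key i j
      rcases zpow_of_sq hz2 i with h | h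
      · left; rw [h1, h, one_mul]
      · right; rw [h1, h, ← mul_assoc z z, hz2, one_mul]
    · have h1 := key j i
      rcases zpow_of_sq hz2 j with h | h
      · left; rw [h1, h, one_mul]
      · right; rw [h1, h]
    · have h1 : (a ^ i * b) * (a ^ j * b) = z ^ (j - i) * ((a ^ j * b) * (a ^ i * b)) := by
        rw [mod_mul hrel hbo, mod_mul hrel hbo, ← hz', ← zpow_add]
        congr 1; ring
      rcases zpow_of_sq hz2 (j - i) with h | h
      · left; rw [h1, h, one_mul]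
      · right; rw [h1, h]

end modular2

end CfsgLib.H7Npc

namespace CfsgLib.H7Npc

open Subgroup

section modular3

open scoped Pointwise

variable {G : Type*} [Group G] [Finite G] {n : ℕ} {a b z : G}

theorem mod_aut {S : Subgroup G} (hS2 : IsPGroup 2 S) (hbS : b ∈ S) (hbb : b * b = 1) (hz2 : z * z = 1)
    (hzS : ∀ x ∈ S, z * x = x * z)
    (hA : ∀ x ∈ S, x * x ∈ zpowers (a ^ 2)) (hza : ∀ x ∈ zpowers (a ^ 2), x * x = 1 → x = 1 ∨ x = z)
    (hB : ∀ x ∈ S, x * x = 1 → x = 1 ∨ x = z ∨ x = b ∨ x = z * b)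
    (hC : ∀ x ∈ S, x ^ 4 = 1 → ∀ y ∈ S, y ^ 4 = 1 → x * y = y * x)
    (hD : ∀ x ∈ S, ∀ y ∈ S, x * y = y * x ∨ x * y = z * (y * x))
    {Q : Subgroup G} (hQ : Q ≤ S) {φ : MulAut Q} {m : ℕ} (hm : φ ^ m = 1) (hodd : m.Coprime 2) :
    φ = 1 ∨ ((∀ y : Q, y * y = 1) ∧ ∃ x : Q, (x : G) = z ∧ φ x ≠ x) := by
  have hQ2 : IsPGroup 2 Q := hS2.to_le hQ
  have inj : ∀ {x y : Q}, (x : G) = y → x = y := fun h => Subtype.ext h
  have tool : ∀ x : Q, φ (x⁻¹ * φ x) = x⁻¹ * φ x → φ x = x := by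
    intro x h
    obtain ⟨k, hk⟩ := hQ2 (x⁻¹ * φ x)
    exact fix_of_chain hm hodd (k := k) h (by rw [mul_inv_cancel_left]) hk
  have hsq : ∀ x : Q, φ (x * x) = x * x := by
    obtain ⟨K, hK⟩ : ∃ K : Subgroup Q, K = closure {y | ∃ x : Q, y = x * x} := ⟨_, rfl⟩
    have hKc : IsCyclic K := by
      have hle : K.map Q.subtype ≤ zpowers (a ^ 2) := by
        rw [hK, MonoidHom.map_closure, closure_le]
        rintro _ ⟨_, ⟨x, rfl⟩, rfl⟩
        exact hA x (hQ x.2)
      let f : K →* zpowers (a ^ 2) := (Q.subtype.comp K.subtype).codRestrict _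
        (fun x => hle ⟨(x : Q), x.2, rfl⟩)
      refine isCyclic_of_injective f ?_
      intro x y hxy
      have h1 : ((x : Q) : G) = ((y : Q) : G) := congrArg (fun w : zpowers (a ^ 2) => (w : G)) hxy
      exact Subtype.ext (Subtype.ext h1)
    obtain ⟨c, hc⟩ := (Subgroup.isCyclic_iff_exists_zpowers_eq_top K).1 hKc
    obtain ⟨k, hk⟩ := (IsPGroup.iff_orderOf.1 hQ2) c
    have hφK : ∀ y ∈ K, φ y ∈ K := by
      intro y hy
      have h1 : K ≤ K.comap φ.toMonoidHom := by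
        nth_rewrite 1 [hK]
        rw [closure_le]
        rintro _ ⟨x, rfl⟩
        change φ (x * x) ∈ K
        rw [map_mul, hK]
        exact subset_closure ⟨φ x, rfl⟩
      exact h1 hy
    have hcK : c ∈ K := by rw [← hc]; exact mem_zpowers c
    have h1 := fix_cyclic hm hodd k c hk (by rw [hc]; exact hφK c hcK)
    intro x
    have h2 : x * x ∈ K := by rw [hK]; exact subset_closure ⟨x, rfl⟩
    rw [← hc] at h2
    obtain ⟨i, hi⟩ := h2
    simp only at hi
    rw [← hi, map_zpow, h1]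
  by_cases hz : ∀ x : Q, (x : G) = z → φ x = x
  · left
    have hzz : ∀ c : Q, ((c : G) = 1 ∨ (c : G) = z) → φ c = c := by
      rintro c (h | h)
      · rw [show c = 1 from inj h, map_one]
      · exact hz c h
    have ha' : ∀ x : Q, x * x = 1 → φ x = x := by
      intro x hx
      have hφx : φ x * φ x = 1 := by rw [← map_mul, hx, map_one]
      have hx1 := hB x (hQ x.2) (congrArg Subtype.val hx)
      have hx2 := hB (φ x) (hQ (φ x).2) (congrArg Subtype.val hφx)
      have hxi : x⁻¹ = x := inv_eq_of_mul_eq_one_right hx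
      have hzb := hzS b hbS
      by_cases hx0 : (x : G) = 1 ∨ (x : G) = z
      · exact hzz x hx0
      by_cases hy0 : (φ x : G) = 1 ∨ (φ x : G) = z
      · have h3 := hzz (φ x) hy0
        exact φ.injective h3
      have h1 : (x : G) = b ∨ (x : G) = z * b := by tauto
      have h2 : (φ x : G) = b ∨ (φ x : G) = z * b := by tauto
      apply tool
      apply hzz
      rw [hxi, Subgroup.coe_mul]
      rcases h1 with h1 | h1 <;> rcases h2 with h2 | h2 <;> rw [h1, h2]
      · left; exact hbb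
      · right; rw [hzb, ← mul_assoc, hbb, one_mul]
      · right; rw [mul_assoc, hbb, mul_one]
      · left
        calc z * b * (z * b) = z * (b * z) * b := by group
          _ = (z * z) * (b * b) := by rw [← hzb]; group
          _ = 1 := by rw [hz2, hbb, mul_one]
    have hb' : ∀ x : Q, x ^ 4 = 1 → φ x = x := by
      intro x hx
      have hφx : (φ x) ^ 4 = 1 := by rw [← map_pow, hx, map_one]
      have hcm : x * φ x = φ x * x := inj (hC x (hQ x.2) (congrArg Subtype.val hx) _ (hQ (φ x).2) (congrArg Subtype.val hφx))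
      have h2 := hsq x
      rw [map_mul] at h2
      apply tool
      apply ha'
      have hcm' : Commute x (φ x) := hcm
      calc x⁻¹ * φ x * (x⁻¹ * φ x) = x⁻¹ * (φ x * x⁻¹) * φ x := by group
        _ = x⁻¹ * (x⁻¹ * φ x) * φ x := by rw [hcm'.inv_left.eq]
        _ = x⁻¹ * x⁻¹ * (φ x * φ x) := by group
        _ = 1 := by rw [h2]; group
    ext x
    rw [MulAut.one_apply]
    congr 1
    have h2 := hsq x
    rw [map_mul] at h2
    have h2' : (φ x : G) * φ x = x * x := congrArg Subtype.val h2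
    apply tool
    apply hb'
    apply inj
    rw [Subgroup.coe_pow, Subgroup.coe_mul, Subgroup.coe_inv, Subgroup.coe_one]
    have e4 : ∀ w : G, w ^ 4 = (w * w) * (w * w) := by
      intro w; rw [← mul_assoc]; simp only [pow_succ, pow_zero, one_mul]
    rw [e4]
    have hx : (x : G) ∈ S := hQ x.2
    have hy : (φ x : G) ∈ S := hQ (φ x).2
    generalize hX : (x : G) = X at *
    generalize hY : (φ x : G) = Y at *
    have hc1 : (X⁻¹ * Y) * (X⁻¹ * Y) = 1 ∨ (X⁻¹ * Y) * (X⁻¹ * Y) = z := by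
      rcases hD Y hy X⁻¹ (inv_mem hx) with h | h
      · left
        calc (X⁻¹ * Y) * (X⁻¹ * Y) = X⁻¹ * (Y * X⁻¹) * Y := by group
          _ = X⁻¹ * X⁻¹ * (Y * Y) := by rw [h]; group
          _ = 1 := by rw [h2']; group
      · right
        calc (X⁻¹ * Y) * (X⁻¹ * Y) = X⁻¹ * (Y * X⁻¹) * Y := by group
          _ = (X⁻¹ * z) * X⁻¹ * (Y * Y) := by rw [h]; group
          _ = (z * X⁻¹) * X⁻¹ * (Y * Y) := by rw [hzS _ (inv_mem hx)]
          _ = z := by rw [h2']; group
    rcases hc1 with h | h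
    · rw [h, one_mul]
    · rw [h, hz2]
  · right
    push Not at hz
    obtain ⟨x, hx, hφx⟩ := hz
    refine ⟨?_, x, hx, hφx⟩
    intro y
    by_contra hy
    obtain ⟨k, hk⟩ := (IsPGroup.iff_orderOf.1 hQ2) y
    have hk2 : 2 ≤ k := by
      by_contra h
      apply hy
      rw [← sq, ← orderOf_dvd_iff_pow_eq_one, hk]
      calc 2 ^ k ∣ 2 ^ 1 := pow_dvd_pow 2 (by omega)
        _ = 2 := by norm_num
    obtain ⟨w, hw⟩ : ∃ w, w = y ^ 2 ^ (k - 2) := ⟨_, rfl⟩
    have hw4 : w ^ 4 = 1 := by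
      rw [hw, ← pow_mul, show 2 ^ (k - 2) * 4 = 2 ^ k by
        rw [show (4 : ℕ) = 2 ^ 2 by norm_num, ← pow_add]; congr 1; omega, ← hk, pow_orderOf_eq_one]
    have hw2 : w * w ≠ 1 := by
      rw [← sq, hw, ← pow_mul]
      intro h
      have h1 := orderOf_dvd_of_pow_eq_one h
      rw [hk, ← pow_succ] at h1
      have h3 := (Nat.pow_dvd_pow_iff_le_right (by norm_num : 1 < 2)).1 h1
      omega
    have e4 : ∀ w : Q, w ^ 4 = (w * w) * (w * w) := by
      intro w; rw [← mul_assoc]; simp only [pow_succ, pow_zero, one_mul]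
    rw [e4] at hw4
    have h5 : ((w * w : Q) : G) ∈ zpowers (a ^ 2) := hA w (hQ w.2)
    rcases hza _ h5 (congrArg Subtype.val hw4) with h6 | h6
    · exact hw2 (inj h6)
    · apply hφx
      have h7 : x = w * w := inj (hx.trans h6.symm)
      rw [h7]; exact hsq w

theorem mod_npc {S : Sylow 2 G} (hn : 3 ≤ n) (hS : Nat.card (S : Subgroup G) = 2 ^ (n + 1))
    (ha : a ∈ (S : Subgroup G)) (hb : b ∈ (S : Subgroup G))
    (hao : orderOf a = 2 ^ n) (hbo : b * b = 1) (hb1 : b ≠ 1) (hrel : b * a * b⁻¹ = a ^ (2 ^ (n - 1) + 1)) :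
    CfsgLib.NPC.NPC 2 G := by
  haveI : Fact (Nat.Prime 2) := ⟨Nat.prime_two⟩
  obtain ⟨z, hz⟩ : ∃ z, z = a ^ (2 ^ (n - 1)) := ⟨_, rfl⟩
  obtain ⟨hz2, hz1, hzS, hA, hB, hC, hD⟩ := mod_facts hn hS ha hb hao hbo hrel hz
  have hbn := mod_not_mem hn hao hrel
  have hza0 : z ∈ zpowers a := by rw [hz]; exact pow_mem (mem_zpowers a) _
  have hle2 : zpowers (a ^ 2) ≤ zpowers a := by rw [zpowers_le]; exact pow_mem (mem_zpowers a) 2
  have haS : zpowers a ≤ (S : Subgroup G) := by rw [zpowers_le]; exact ha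
  have hza : ∀ x ∈ zpowers (a ^ 2), x * x = 1 → x = 1 ∨ x = z := by
    intro x hx hxx
    rcases hB x (haS (hle2 hx)) hxx with h | h | h | h
    · exact Or.inl h
    · exact Or.inr h
    · exact absurd (hle2 hx) (by rw [h]; exact hbn)
    · refine absurd (hle2 hx) ?_
      rw [h]
      intro h1
      exact hbn ((Subgroup.mul_mem_cancel_left _ hza0).1 h1)
  refine CfsgLib.NPC.npc_iff_frobCond.2 (CfsgLib.NPC.frobCond_of_sylow S ?_)
  intro Q hQ g hg hgo
  refine centralize_of hg ?_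
  intro φ m hm hmg hφ
  rcases mod_aut S.isPGroup' hb hbo hz2 hzS hA hza hB hC hD hQ hm (by rw [hmg]; exact hgo) with h | ⟨hall, x, hx, hφx⟩
  · exact h
  · exfalso
    have hzS' : z ∈ (S : Subgroup G) := haS hza0
    have hzb := hzS b hb
    -- `v = g z g⁻¹`
    obtain ⟨v, hv⟩ : ∃ v, v = g * z * g⁻¹ := ⟨_, rfl⟩
    have hvQ : v ∈ Q := by
      rw [hv, ← hx, ← hφ]; exact (φ x).2
    have hv' : v = b ∨ v = z * b := by
      have hvv : v * v = 1 := by rw [hv]; calc
          g * z * g⁻¹ * (g * z * g⁻¹) = g * (z * z) * g⁻¹ := by group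
          _ = 1 := by rw [hz2]; group
      rcases hB v (hQ hvQ) hvv with h | h | h | h
      · exfalso
        rw [hv, mul_inv_eq_one] at h
        exact hz1 (mul_eq_left.1 h)
      · exfalso
        apply hφx
        apply Subtype.ext
        rw [hφ, hx, ← hv, h]
      · exact Or.inl h
      · exact Or.inr h
    have hvn : v ∉ zpowers a := by
      rcases hv' with h | h
      · rw [h]; exact hbn
      · rw [h]
        intro h1
        exact hbn ((Subgroup.mul_mem_cancel_left _ hza0).1 h1)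
    have hzQ : z ∈ Q := by rw [← hx]; exact x.2
    have hbQ : b ∈ Q := by
      rcases hv' with h | h
      · rw [← h]; exact hvQ
      · rw [h] at hvQ
        exact (Subgroup.mul_mem_cancel_left _ hzQ).1 hvQ
    have hQall : ∀ y ∈ (S : Subgroup G), y * y = 1 → y ∈ Q := by
      intro y hy hyy
      rcases hB y hy hyy with h | h | h | h
      · rw [h]; exact one_mem _
      · rw [h]; exact hzQ
      · rw [h]; exact hbQ
      · rw [h]; exact mul_mem hzQ hbQ
    have hSN : (S : Subgroup G) ≤ normalizer (Q : Set G) := by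
      intro s hs
      have key : ∀ s ∈ (S : Subgroup G), ∀ q ∈ Q, s * q * s⁻¹ ∈ Q := by
        intro s hs q hq
        apply hQall _ (mul_mem (mul_mem hs (hQ hq)) (inv_mem hs))
        have h1 : q * q = 1 := congrArg Subtype.val (hall ⟨q, hq⟩)
        calc s * q * s⁻¹ * (s * q * s⁻¹) = s * (q * q) * s⁻¹ := by group
          _ = 1 := by rw [h1]; group
      rw [Subgroup.mem_normalizer_iff]
      intro q
      refine ⟨fun hq => key s hs q hq, fun hq => ?_⟩
      have h2 := key s⁻¹ (inv_mem hs) _ hq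
      have e : s⁻¹ * (s * q * s⁻¹) * s⁻¹⁻¹ = q := by group
      rwa [e] at h2
    -- the element `s` with `s * s = z`
    obtain ⟨s, hs⟩ : ∃ s, s = a ^ (2 ^ (n - 2)) := ⟨_, rfl⟩
    have hss : s * s = z := by
      rw [hs, hz, ← pow_add]; congr 1
      rw [← two_mul, ← pow_succ']; congr 1; omega
    have hsS : s ∈ (S : Subgroup G) := by rw [hs]; exact pow_mem ha _
    have e4 : ∀ w : G, w ^ 4 = (w * w) * (w * w) := by
      intro w; rw [← mul_assoc]; simp only [pow_succ, pow_zero, one_mul]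
    have hsC : s ∈ centralizer (Q : Set G) := by
      rw [mem_centralizer_iff]
      intro q hq
      have h1 : q * q = 1 := congrArg Subtype.val (hall ⟨q, hq⟩)
      exact hC q (hQ hq) (by rw [e4, h1, one_mul]) s hsS (by rw [e4, hss, hz2])
    have hs'C : g * s * g⁻¹ ∈ centralizer (Q : Set G) := by
      rw [mem_centralizer_iff] at hsC ⊢
      intro q hq
      have h1 : g⁻¹ * q * g ∈ Q := (Subgroup.mem_normalizer_iff''.1 hg q).1 hq
      have h2 := hsC _ h1
      calc q * (g * s * g⁻¹) = g * ((g⁻¹ * q * g) * s) * g⁻¹ := by group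
        _ = g * (s * (g⁻¹ * q * g)) * g⁻¹ := by rw [h2]
        _ = g * s * g⁻¹ * q := by group
    have hs'2 : (g * s * g⁻¹) * (g * s * g⁻¹) = v := by
      rw [hv, ← hss]; group
    have hS' : CfsgLib.Coprime.IsSyl 2 (S : Subgroup G) ⊤ := CfsgLib.SylBridge.isSyl_top_iff.2 ⟨S, rfl⟩
    have hSN' := CfsgLib.SylBridge.IsSyl.of_le' hS' hSN le_top
    have hCN : centralizer (Q : Set G) ≤ normalizer (Q : Set G) := Subgroup.centralizer_le_normalizer _
    have hK := CfsgLib.SylBridge.IsSyl.inf_normal hSN' hCN (by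
      intro y hy
      rw [Subgroup.mem_normalizer_iff]
      have key : ∀ y ∈ normalizer (Q : Set G), ∀ c ∈ centralizer (Q : Set G), y * c * y⁻¹ ∈ centralizer (Q : Set G) := by
        intro y hy c hc
        rw [mem_centralizer_iff] at hc ⊢
        intro q hq
        have h1 : y⁻¹ * q * y ∈ Q := (Subgroup.mem_normalizer_iff''.1 hy q).1 hq
        have h2 := hc _ h1
        calc q * (y * c * y⁻¹) = y * ((y⁻¹ * q * y) * c) * y⁻¹ := by group
          _ = y * (c * (y⁻¹ * q * y)) * y⁻¹ := by rw [h2]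
          _ = y * c * y⁻¹ * q := by group
      intro c
      refine ⟨fun hc => key y hy c hc, fun hc => ?_⟩
      have h2 := key y⁻¹ (inv_mem hy) _ hc
      have e : y⁻¹ * (y * c * y⁻¹) * y⁻¹⁻¹ = c := by group
      rwa [e] at h2)
    have hp : IsPGroup 2 (zpowers (g * s * g⁻¹)) := by
      obtain ⟨k, hk⟩ := (IsPGroup.iff_orderOf.1 S.isPGroup') ⟨s, hsS⟩
      rw [← Subgroup.orderOf_coe] at hk
      refine IsPGroup.of_card (n := k) ?_
      rw [Nat.card_zpowers]
      rw [← hk]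
      exact orderOf_injective (MulAut.conj g).toMonoidHom (MulAut.conj g).injective s
    obtain ⟨k, hkK, hk⟩ := CfsgLib.CF.exists_conj_le hK hp (by rw [zpowers_le]; exact hs'C)
    have hk1 : k * (g * s * g⁻¹) * k⁻¹ ∈ (S : Subgroup G) := by
      have h1 : k * (g * s * g⁻¹) * k⁻¹ ∈ MulAut.conj k • zpowers (g * s * g⁻¹) := by
        refine ⟨g * s * g⁻¹, mem_zpowers _, rfl⟩
      exact (hk h1).1
    have hk2 := hA _ hk1
    have hk3 : k * (g * s * g⁻¹) * k⁻¹ * (k * (g * s * g⁻¹) * k⁻¹) = v := by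
      calc k * (g * s * g⁻¹) * k⁻¹ * (k * (g * s * g⁻¹) * k⁻¹)
          = k * ((g * s * g⁻¹) * (g * s * g⁻¹)) * k⁻¹ := by group
        _ = k * v * k⁻¹ := by rw [hs'2]
        _ = v * k * k⁻¹ := by rw [mem_centralizer_iff.1 hkK v hvQ]
        _ = v := by group
    rw [hk3] at hk2
    exact hvn (hle2 hk2)

end modular3

end CfsgLib.H7Npc
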