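import Mathlib
import Cfsg.Agent.Lib.H7SJ

/-!
# The Suzuki groups: subfield subgroups
-/

set_option autoImplicit false
set_option linter.style.haveILetI false
set_option linter.unusedSectionVars false

open MulAction Cfsg Matrix
open scoped Pointwise commutatorElement

namespace CfsgLib.H7S

universe u

variable {F : Type u} [Field F] [Fintype F] {m : ℕ}

/-- elements with entries fixed by a field endomorphism -/
def fixSz (φ : F →+* F) (m : ℕ) : Subgroup (Sz F m) :=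
  (MonoidHom.eqLocus (Matrix.SpecialLinearGroup.map (n := Fin 4) φ) (MonoidHom.id _)).comap (Sz F m).subtype

omit [Fintype F] in
theorem mem_fixSz {φ : F →+* F} {g : Sz F m} : g ∈ fixSz φ m ↔ ∀ i j, φ ((g : SpecialLinearGroup (Fin 4) F).1 i j) = (g : SpecialLinearGroup (Fin 4) F).1 i j := by
  show Matrix.SpecialLinearGroup.map φ (g : SpecialLinearGroup (Fin 4) F) = (g : SpecialLinearGroup (Fin 4) F) ↔ _
  rw [Matrix.SpecialLinearGroup.ext_iff]
  rfl

namespace SD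

variable (D : SD F m)

include D

omit [Fintype F] in
theorem t_comm (φ : F →+* F) (x : F) : φ (D.t x) = D.t (φ x) := by
  rw [D.ht, D.ht, map_pow]

theorem T_mem_fixSz (φ : F →+* F) {a b : F} : D.T a b ∈ fixSz φ m ↔ φ a = a ∧ φ b = b := by
  rw [mem_fixSz]
  constructor
  · intro h
    exact ⟨h 0 1, h 1 3⟩
  · rintro ⟨ha, hb⟩
    have hta : φ (D.t a) = D.t a := by rw [D.t_comm, ha]
    have htb : φ (D.t b) = D.t b := by rw [D.t_comm, hb]
    intro i j
    show φ ((!![1, a, b + D.t a * a, a * b + D.t a * a ^ 2 + D.t b; 0, 1, D.t a, b; 0, 0, 1, a; 0, 0, 0, 1] : Matrix (Fin 4) (Fin 4) F) i j) =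
      (!![1, a, b + D.t a * a, a * b + D.t a * a ^ 2 + D.t b; 0, 1, D.t a, b; 0, 0, 1, a; 0, 0, 0, 1] : Matrix (Fin 4) (Fin 4) F) i j
    fin_cases i <;> fin_cases j <;> simp [ha, hb, hta, htb]

theorem h_mem_fixSz (φ : F →+* F) {μ : Fˣ} : D.h μ ∈ fixSz φ m ↔ φ μ = μ := by
  rw [mem_fixSz]
  constructor
  · intro h
    exact h 1 1
  · intro hμ
    have htμ : φ (D.t μ) = D.t μ := by rw [D.t_comm, hμ]
    intro i j
    show φ ((!![(μ : F) * D.t μ, 0, 0, 0; 0, (μ : F), 0, 0; 0, 0, (μ : F)⁻¹, 0; 0, 0, 0, ((μ : F) * D.t μ)⁻¹] : Matrix (Fin 4) (Fin 4) F) i j) =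
      (!![(μ : F) * D.t μ, 0, 0, 0; 0, (μ : F), 0, 0; 0, 0, (μ : F)⁻¹, 0; 0, 0, 0, ((μ : F) * D.t μ)⁻¹] : Matrix (Fin 4) (Fin 4) F) i j
    fin_cases i <;> fin_cases j <;> simp [hμ, htμ]

theorem w_mem_fixSz (φ : F →+* F) : wS D ∈ fixSz φ m := by
  rw [mem_fixSz]
  intro i j
  show φ ((!![0, 0, 0, 1; 0, 0, 1, 0; 0, 1, 0, 0; 1, 0, 0, 0] : Matrix (Fin 4) (Fin 4) F) i j) =
    (!![0, 0, 0, 1; 0, 0, 1, 0; 0, 1, 0, 0; 1, 0, 0, 0] : Matrix (Fin 4) (Fin 4) F) i j
  fin_cases i <;> fin_cases j <;> simp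

/-- generation of the fixed subgroup -/
theorem fixSz_le (hm : 1 ≤ m) (hF : Fintype.card F = 2 ^ (2 * m + 1)) {φ : F →+* F} {M : Subgroup (Sz F m)}
    (hT : ∀ a b : F, φ a = a → φ b = b → D.T a b ∈ M) (hh : ∀ μ : Fˣ, φ μ = μ → D.h μ ∈ M) (hw : wS D ∈ M) : fixSz φ m ≤ M := by
  -- elements fixing infinity
  have h1 : ∀ g ∈ fixSz φ m, g • oinf F m = oinf F m → g ∈ M := by
    intro g hg hgi
    obtain ⟨a, b, μ, rfl⟩ := D.stab_inf hm hF hgi
    have hμ : φ μ = μ := by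
      have h := mem_fixSz.mp hg 1 1
      have e : ((D.T a b * D.h μ : Sz F m) : SpecialLinearGroup (Fin 4) F).1 1 1 = μ := by
        show ((!![1, a, b + D.t a * a, a * b + D.t a * a ^ 2 + D.t b; 0, 1, D.t a, b; 0, 0, 1, a; 0, 0, 0, 1] : Matrix (Fin 4) (Fin 4) F) *
          !![(μ : F) * D.t μ, 0, 0, 0; 0, (μ : F), 0, 0; 0, 0, (μ : F)⁻¹, 0; 0, 0, 0, ((μ : F) * D.t μ)⁻¹]) 1 1 = μ
        simp [Matrix.mul_apply, Fin.sum_univ_four]
      rwa [e] at h
    have hhμ := (D.h_mem_fixSz φ).mpr hμ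
    have hT' : D.T a b ∈ fixSz φ m := by
      have := mul_mem hg (inv_mem hhμ)
      rwa [mul_inv_cancel_right] at this
    obtain ⟨ha, hb⟩ := (D.T_mem_fixSz φ).mp hT'
    exact mul_mem (hT a b ha hb) (hh μ hμ)
  intro g hg
  rcases oex (g • oinf F m) with h | ⟨x, y, h⟩
  · exact h1 g hg h
  · have hv : g.1 • suzukiPointInfinity F = pt m x y := congrArg Subtype.val h
    rw [smul_inf_eq_pt] at hv
    obtain ⟨-, e1, e2⟩ := hv
    have hg' := mem_fixSz.mp hg
    have h30 : g.1.1 3 0 ≠ 0 := by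
      intro h30
      rw [h30, mul_zero] at e1 e2
      have : g.1 • suzukiPointInfinity F = suzukiPointInfinity F := smul_inf_eq_inf.mpr ⟨e1, e2, h30⟩
      exact opt_ne_inf x y (h.symm.trans (Subtype.ext this))
    have hx : φ x = x := by
      have e3 : x = g.1.1 2 0 / g.1.1 3 0 := by rw [e2]; field_simp
      rw [e3, map_div₀, hg', hg']
    have hy : φ y = y := by
      have e3 : y = g.1.1 1 0 / g.1.1 3 0 := by rw [e1]; field_simp
      rw [e3, map_div₀, hg', hg']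
    have h2 : wS D * (D.T x y)⁻¹ * g ∈ M := by
      apply h1
      · exact mul_mem (mul_mem (D.w_mem_fixSz φ) (inv_mem ((D.T_mem_fixSz φ).mpr ⟨hx, hy⟩))) hg
      · rw [mul_smul, mul_smul, h, ← D.T_from_zero x y, inv_smul_smul, D.w_zero]
    have hw' : (wS D)⁻¹ = wS D := inv_eq_of_mul_eq_one_left D.w_w
    have e : g = D.T x y * (wS D)⁻¹ * (wS D * (D.T x y)⁻¹ * g) := by group
    rw [e]
    exact mul_mem (mul_mem (hT x y hx hy) (inv_mem hw)) h2

end SD

/-! ### Embeddings -/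

section emb

variable {K : Type*} [Field K] [Fintype K] {k : ℕ} (ι : K →+* F) (DK : SD K k) (D : SD F m)
  (hc : ∀ x : K, ι (DK.t x) = D.t (ι x))

include hc

omit [Fintype F] [Fintype K] in
theorem ι_ff (x y : K) : ι (ff k x y) = ff m (ι x) (ι y) := by
  rw [DK.ff_eq, D.ff_eq]
  simp only [map_add, map_mul, map_pow, hc]

omit [Fintype F] [Fintype K] in
theorem ovoid_map {v : Fin 4 → K} (hv : v ≠ 0) (hv' : (fun i => ι (v i)) ≠ 0) :
    Projectivization.mk F (fun i => ι (v i)) hv' ∈ suzukiOvoid F m ↔ Projectivization.mk K v hv ∈ suzukiOvoid K k := by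
  have hinj : Function.Injective ι := ι.injective
  rw [mem_ovoid, mem_ovoid, mk_eq_inf, mk_eq_inf]
  apply or_congr
  · constructor
    · rintro ⟨h1, h2, h3⟩
      exact ⟨(map_eq_zero_iff ι hinj).mp h1, (map_eq_zero_iff ι hinj).mp h2, (map_eq_zero_iff ι hinj).mp h3⟩
    · rintro ⟨h1, h2, h3⟩
      exact ⟨by rw [h1, map_zero], by rw [h2, map_zero], by rw [h3, map_zero]⟩
  · constructor
    · rintro ⟨x, y, h⟩
      rw [mk_eq_pt] at h
      obtain ⟨e0, e1, e2⟩ := h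
      have h3 : v 3 ≠ 0 := by
        intro h3
        rw [h3, map_zero, mul_zero] at e0 e1 e2
        apply hv
        ext i
        fin_cases i
        · exact (map_eq_zero_iff ι hinj).mp e0
        · exact (map_eq_zero_iff ι hinj).mp e1
        · exact (map_eq_zero_iff ι hinj).mp e2
        · exact h3
      have h3' : ι (v 3) ≠ 0 := fun h => h3 ((map_eq_zero_iff ι hinj).mp h)
      have ex : x = ι (v 2 / v 3) := by rw [map_div₀, e2]; field_simp
      have ey : y = ι (v 1 / v 3) := by rw [map_div₀, e1]; field_simp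
      refine ⟨v 2 / v 3, v 1 / v 3, ?_⟩
      rw [mk_eq_pt]
      refine ⟨hinj ?_, by field_simp, by field_simp⟩
      rw [e0, ex, ey, map_mul, ι_ff ι DK D hc]
    · rintro ⟨x, y, h⟩
      rw [mk_eq_pt] at h
      obtain ⟨e0, e1, e2⟩ := h
      refine ⟨ι x, ι y, ?_⟩
      rw [mk_eq_pt]
      refine ⟨?_, ?_, ?_⟩
      · rw [e0, map_mul, ι_ff ι DK D hc]
      · rw [e1, map_mul]
      · rw [e2, map_mul]

/-- the image of the smaller group is the fixed subgroup -/
theorem map_mem_iff {g : SpecialLinearGroup (Fin 4) K} (h : Matrix.SpecialLinearGroup.map ι g ∈ Sz F m) : g ∈ Sz K k := by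
  apply mem_Sz
  intro p hp
  obtain ⟨v, hv, rfl⟩ : ∃ (v : Fin 4 → K) (hv : v ≠ 0), p = Projectivization.mk K v hv := ⟨p.rep, p.rep_nonzero, p.mk_rep.symm⟩
  have hinj : Function.Injective ι := ι.injective
  have hv' : (fun i => ι (v i)) ≠ 0 := by
    intro h0
    apply hv
    ext i
    exact (map_eq_zero_iff ι hinj).mp (congrFun h0 i)
  obtain ⟨hw, h1⟩ := smul_mk' g hv
  rw [h1]
  rw [← ovoid_map ι DK D hc hv hv'] at hp
  have h2 := smul_mem_ovoid h hp
  obtain ⟨hw', h3⟩ := smul_mk' (Matrix.SpecialLinearGroup.map ι g) hv'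
  rw [h3] at h2
  have e : (Matrix.SpecialLinearGroup.map ι g).1 *ᵥ (fun i => ι (v i)) = fun i => ι ((g.1 *ᵥ v) i) := by
    ext i
    simp [Matrix.mulVec, dotProduct, map_sum]
  have hw2 : (fun i => ι ((g.1 *ᵥ v) i)) ≠ 0 := by rw [← e]; exact hw'
  rw [← ovoid_map ι DK D hc hw hw2]
  convert! h2 using 2
  exact e.symm

end emb

end CfsgLib.H7S
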