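import Mathlib

/-!
# Elements of order four in SL₂ over a finite field of odd order
-/

set_option autoImplicit false
set_option linter.style.haveILetI false
set_option linter.unusedSectionVars false

namespace CfsgLib.H7SL

open Matrix MatrixGroups

variable {F : Type*} [Field F] [Fintype F]

theorem two_ne (hF : Odd (Fintype.card F)) : (2 : F) ≠ 0 := by
  intro h
  have h1 : ringChar F = 2 := by
    have := CharP.ringChar_of_prime_eq_zero Nat.prime_two (by exact_mod_cast h)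
    exact this
  haveI : CharP F 2 := by rw [← h1]; exact ringChar.charP F
  have := FiniteField.even_card_of_char_two (F := F) h1
  rw [← Nat.not_even_iff_odd, Nat.even_iff] at hF
  exact hF this

theorem sum_sq (hF : Odd (Fintype.card F)) (c : F) : ∃ a b : F, a * a + b * b = c := by
  obtain ⟨a, b, hab⟩ := FiniteField.exists_root_sum_quadratic (R := F) (f := Polynomial.X ^ 2) (g := Polynomial.X ^ 2 - Polynomial.C c)
    (by simp) (by rw [Polynomial.degree_X_pow_sub_C (by norm_num)]; rfl) (Nat.odd_iff.1 hF)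
  refine ⟨a, b, ?_⟩
  simp only [Polynomial.eval_pow, Polynomial.eval_X, Polynomial.eval_sub, Polynomial.eval_C] at hab
  linear_combination hab

/-- entries -/
theorem det_eq (a : SL(2, F)) : a 0 0 * a 1 1 - a 0 1 * a 1 0 = 1 := by
  have := a.det_coe
  rwa [Matrix.det_fin_two] at this

theorem mul_entries (a b : SL(2, F)) : (a * b) 0 0 = a 0 0 * b 0 0 + a 0 1 * b 1 0 ∧ (a * b) 0 1 = a 0 0 * b 0 1 + a 0 1 * b 1 1 ∧
    (a * b) 1 0 = a 1 0 * b 0 0 + a 1 1 * b 1 0 ∧ (a * b) 1 1 = a 1 0 * b 0 1 + a 1 1 * b 1 1 := by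
  have h : ((a * b : SL(2, F)) : Matrix (Fin 2) (Fin 2) F) = (a : Matrix (Fin 2) (Fin 2) F) * b := Matrix.SpecialLinearGroup.coe_mul a b
  refine ⟨?_, ?_, ?_, ?_⟩
  all_goals
    rw [h, Matrix.mul_apply, Fin.sum_univ_two]

theorem ext4 {a b : SL(2, F)} (h0 : a 0 0 = b 0 0) (h1 : a 0 1 = b 0 1) (h2 : a 1 0 = b 1 0) (h3 : a 1 1 = b 1 1) : a = b := by
  apply Matrix.SpecialLinearGroup.ext
  intro i j
  fin_cases i <;> fin_cases j <;> assumption

theorem one_entries : ((1 : SL(2, F)) 0 0 : F) = 1 ∧ ((1 : SL(2, F)) 0 1 : F) = 0 ∧ ((1 : SL(2, F)) 1 0 : F) = 0 ∧ ((1 : SL(2, F)) 1 1 : F) = 1 := by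
  refine ⟨?_, ?_, ?_, ?_⟩ <;> simp

theorem neg_entries (a : SL(2, F)) : ((-a) 0 0 : F) = - a 0 0 ∧ ((-a) 0 1 : F) = - a 0 1 ∧ ((-a) 1 0 : F) = - a 1 0 ∧ ((-a) 1 1 : F) = - a 1 1 := by
  refine ⟨?_, ?_, ?_, ?_⟩ <;> simp [Matrix.SpecialLinearGroup.coe_neg]

theorem trace_of_sq {a : SL(2, F)} (h : a * a = -1) : a 1 1 = - a 0 0 := by
  have h1 := mul_entries a a
  have h2 := neg_entries (1 : SL(2, F))
  have h3 := one_entries (F := F)
  have hd := det_eq a
  rw [h] at h1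
  obtain ⟨e1, e2, e3, e4⟩ := h1
  rw [h2.1, h3.1] at e1
  rw [h2.2.1, h3.2.1] at e2
  rw [h2.2.2.1, h3.2.2.1] at e3
  rw [h2.2.2.2, h3.2.2.2] at e4
  -- a00 (a00 + a11) = 0 etc
  have f1 : a 0 0 * (a 0 0 + a 1 1) = 0 := by linear_combination hd - e1
  have f2 : a 0 1 * (a 0 0 + a 1 1) = 0 := by linear_combination -e2
  have f3 : a 1 0 * (a 0 0 + a 1 1) = 0 := by linear_combination -e3
  have f4 : a 1 1 * (a 0 0 + a 1 1) = 0 := by linear_combination hd - e4
  by_contra hne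
  have hs : a 0 0 + a 1 1 ≠ 0 := fun h' => hne (by linear_combination h')
  have g1 := (mul_eq_zero.1 f1).resolve_right hs
  have g4 := (mul_eq_zero.1 f4).resolve_right hs
  apply hs
  rw [g1, g4, add_zero]

theorem sq_of_trace {a : SL(2, F)} (h : a 1 1 = - a 0 0) : a * a = -1 := by
  have h1 := mul_entries a a
  have h2 := neg_entries (1 : SL(2, F))
  have h3 := one_entries (F := F)
  have hd := det_eq a
  rw [h] at hd
  apply ext4
  · rw [h1.1, h2.1, h3.1]; linear_combination -hd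
  · rw [h1.2.1, h2.2.1, h3.2.1, h]; ring
  · rw [h1.2.2.1, h2.2.2.1, h3.2.2.1, h]; ring
  · rw [h1.2.2.2, h2.2.2.2, h3.2.2.2, h]; linear_combination -hd

theorem sq_one (hF : Odd (Fintype.card F)) {a : SL(2, F)} (h : a * a = 1) : a = 1 ∨ a = -1 := by
  have h1 := mul_entries a a
  have h2 := neg_entries (1 : SL(2, F))
  have h3 := one_entries (F := F)
  have hd := det_eq a
  have h20 := two_ne hF
  rw [h] at h1
  obtain ⟨e1, e2, e3, e4⟩ := h1
  rw [h3.1] at e1
  rw [h3.2.1] at e2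
  rw [h3.2.2.1] at e3
  rw [h3.2.2.2] at e4
  have f1 : a 0 0 * (a 0 0 + a 1 1) = 2 := by linear_combination hd - e1
  have hs : a 0 0 + a 1 1 ≠ 0 := by
    intro h'; rw [h', mul_zero] at f1; exact h20 f1.symm
  have g2 : a 0 1 = 0 := by
    have : a 0 1 * (a 0 0 + a 1 1) = 0 := by linear_combination -e2
    exact (mul_eq_zero.1 this).resolve_right hs
  have g3 : a 1 0 = 0 := by
    have : a 1 0 * (a 0 0 + a 1 1) = 0 := by linear_combination -e3
    exact (mul_eq_zero.1 this).resolve_right hs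
  rw [g2, zero_mul, add_zero] at e1
  rw [g2, zero_mul, sub_zero] at hd
  have g1 : (a 0 0 - 1) * (a 0 0 + 1) = 0 := by linear_combination -e1
  rcases mul_eq_zero.1 g1 with h' | h'
  · left
    have g : a 0 0 = 1 := by linear_combination h'
    rw [g, one_mul] at hd
    apply ext4
    · rw [h3.1, g]
    · rw [h3.2.1, g2]
    · rw [h3.2.2.1, g3]
    · rw [h3.2.2.2, hd]
  · right
    have g : a 0 0 = -1 := by linear_combination h'
    rw [g] at hd
    apply ext4
    · rw [h2.1, h3.1, g]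
    · rw [h2.2.1, h3.2.1, g2, neg_zero]
    · rw [h2.2.2.1, h3.2.2.1, g3, neg_zero]
    · rw [h2.2.2.2, h3.2.2.2]; linear_combination -hd

/-- the standard element of order four -/
def JJ : SL(2, F) := ⟨!![0, -1; 1, 0], by simp [Matrix.det_fin_two]⟩

theorem JJ_sq : (JJ : SL(2, F)) * JJ = -1 := by
  apply sq_of_trace
  simp [JJ]

theorem conj_JJ (hF : Odd (Fintype.card F)) {a : SL(2, F)} (h : a * a = -1) : ∃ g : SL(2, F), g * JJ * g⁻¹ = a := by
  have ht := trace_of_sq h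
  have hd := det_eq a
  rw [ht] at hd
  have h20 := two_ne hF
  obtain ⟨x, y, hxy⟩ : ∃ x y : F, a 1 0 * (x * x) - 2 * a 0 0 * (x * y) - a 0 1 * (y * y) = 1 := by
    by_cases hc : a 1 0 = 0
    · rw [hc, mul_zero, sub_zero] at hd
      have ha : a 0 0 ≠ 0 := by intro h'; rw [h'] at hd; simp at hd
      refine ⟨-(1 + a 0 1) / (2 * a 0 0), 1, ?_⟩
      rw [hc]
      field_simp
      ring
    · obtain ⟨u, y, huy⟩ := sum_sq hF (a 1 0)
      refine ⟨(u + a 0 0 * y) / a 1 0, y, ?_⟩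
      field_simp
      linear_combination huy + y * y * hd
  have hdet : (!![x, a 0 0 * x + a 0 1 * y; y, a 1 0 * x - a 0 0 * y] : Matrix (Fin 2) (Fin 2) F).det = 1 := by
    rw [Matrix.det_fin_two_of]; linear_combination hxy
  obtain ⟨M, hM⟩ : ∃ M : SL(2, F), M = ⟨_, hdet⟩ := ⟨_, rfl⟩
  refine ⟨M, ?_⟩
  rw [mul_inv_eq_iff_eq_mul]
  have m1 : M 0 0 = x := by rw [hM]; rfl
  have m2 : M 0 1 = a 0 0 * x + a 0 1 * y := by rw [hM]; rfl
  have m3 : M 1 0 = y := by rw [hM]; rfl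
  have m4 : M 1 1 = a 1 0 * x - a 0 0 * y := by rw [hM]; rfl
  have j1 : (JJ : SL(2, F)) 0 0 = 0 := rfl
  have j2 : (JJ : SL(2, F)) 0 1 = -1 := rfl
  have j3 : (JJ : SL(2, F)) 1 0 = 1 := rfl
  have j4 : (JJ : SL(2, F)) 1 1 = 0 := rfl
  have p := mul_entries M JJ
  have q := mul_entries a M
  apply ext4
  · rw [p.1, q.1, j1, j3, m1, m2, m3]; ring
  · rw [p.2.1, q.2.1, j2, j4, m1, m2, m4]; linear_combination x * hd
  · rw [p.2.2.1, q.2.2.1, j1, j3, m1, m3, m4, ht]; ring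
  · rw [p.2.2.2, q.2.2.2, j2, j4, m2, m3, m4, ht]; linear_combination y * hd

theorem conj_of_sq (hF : Odd (Fintype.card F)) {a b : SL(2, F)} (ha : a * a = -1) (hb : b * b = -1) : ∃ g : SL(2, F), g * a * g⁻¹ = b := by
  obtain ⟨g, hg⟩ := conj_JJ hF ha
  obtain ⟨h, hh⟩ := conj_JJ hF hb
  refine ⟨h * g⁻¹, ?_⟩
  rw [← hh, ← hg]; group

/-- trace -/
theorem trace_anti (hF : Odd (Fintype.card F)) {a y : SL(2, F)} (h : y * a = -(a * y)) : y 1 1 = - y 0 0 := by
  have h20 := two_ne hF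
  have h1 : a * y * a⁻¹ = -y := by
    have : a * y = -(y * a) := by rw [h, neg_neg]
    rw [this, neg_mul, mul_inv_cancel_right]
  have h2 : (a * y * a⁻¹ : SL(2, F)) 0 0 + (a * y * a⁻¹ : SL(2, F)) 1 1 = y 0 0 + y 1 1 := by
    have h3 : ((a * y * a⁻¹ : SL(2, F)) : Matrix (Fin 2) (Fin 2) F).trace = (y : Matrix (Fin 2) (Fin 2) F).trace := by
      rw [mul_assoc, Matrix.SpecialLinearGroup.coe_mul, Matrix.trace_mul_comm, ← Matrix.SpecialLinearGroup.coe_mul, inv_mul_cancel_right]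
    rwa [Matrix.trace_fin_two, Matrix.trace_fin_two] at h3
  have h3 := neg_entries y
  rw [h1, h3.1, h3.2.2.2] at h2
  have : 2 * (y 0 0 + y 1 1) = 0 := by linear_combination -h2
  have := (mul_eq_zero.1 this).resolve_left h20
  linear_combination this

theorem sq_of_anti (hF : Odd (Fintype.card F)) {a y : SL(2, F)} (h : y * a = -(a * y)) : y * y = -1 :=
  sq_of_trace (trace_anti hF h)

/-- abstract properties -/
structure SLL {G : Type*} [Group G] (L : Subgroup G) (j : G) : Prop where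
  mem : j ∈ L
  uniq : ∀ x ∈ L, x * x = 1 → x = 1 ∨ x = j
  conj : ∀ a ∈ L, ∀ b ∈ L, a * a = j → b * b = j → ∃ x ∈ L, x * a * x⁻¹ = b
  sq : ∀ a ∈ L, ∀ y ∈ L, y * a * y⁻¹ = a * j → y * y = j
  cen : ∀ x ∈ L, x * j = j * x
  ex : ∃ a ∈ L, a * a = j

theorem sll {G : Type*} [Group G] {L : Subgroup G} {j : G} (hj : orderOf j = 2) (hjL : j ∈ L) (hF : Odd (Fintype.card F)) (e : L ≃* SL(2, F)) :
    SLL L j := by
  have hj1 : j ≠ 1 := by rintro rfl; simp at hj
  have hj2 : j * j = 1 := by rw [← pow_two, ← hj]; exact pow_orderOf_eq_one j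
  have hej : e ⟨j, hjL⟩ = -1 := by
    rcases sq_one hF (a := e ⟨j, hjL⟩) (by rw [← map_mul, show (⟨j, hjL⟩ : L) * ⟨j, hjL⟩ = 1 from Subtype.ext hj2, map_one]) with h | h
    · exfalso
      apply hj1
      have : (⟨j, hjL⟩ : L) = 1 := by apply e.injective; rw [h, map_one]
      exact congrArg Subtype.val this
    · exact h
  have hsq : ∀ x : L, (x : G) * x = j ↔ e x * e x = -1 := by
    intro x
    rw [← map_mul, ← hej]
    constructor
    · intro h; congr 1; exact Subtype.ext h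
    · intro h; exact congrArg Subtype.val (e.injective h)
  refine ⟨hjL, ?_, ?_, ?_, ?_, ?_⟩
  · intro x hx h
    rcases sq_one hF (a := e ⟨x, hx⟩) (by rw [← map_mul, show (⟨x, hx⟩ : L) * ⟨x, hx⟩ = 1 from Subtype.ext h, map_one]) with h' | h'
    · left
      have : (⟨x, hx⟩ : L) = 1 := by apply e.injective; rw [h', map_one]
      exact congrArg Subtype.val this
    · right
      have : (⟨x, hx⟩ : L) = ⟨j, hjL⟩ := by apply e.injective; rw [h', hej]
      exact congrArg Subtype.val this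
  · intro a ha b hb haj hbj
    obtain ⟨g, hg⟩ := conj_of_sq hF ((hsq ⟨a, ha⟩).1 haj) ((hsq ⟨b, hb⟩).1 hbj)
    refine ⟨(e.symm g : L), (e.symm g).2, ?_⟩
    have : e.symm g * ⟨a, ha⟩ * (e.symm g)⁻¹ = ⟨b, hb⟩ := by
      apply e.injective
      rw [map_mul, map_mul, map_inv, MulEquiv.apply_symm_apply, hg]
    exact congrArg Subtype.val this
  · intro a ha y hy h
    refine (hsq ⟨y, hy⟩).2 (sq_of_anti hF (a := e ⟨a, ha⟩) ?_)
    have h1 : (⟨y, hy⟩ : L) * ⟨a, ha⟩ = ⟨a, ha⟩ * ⟨j, hjL⟩ * ⟨y, hy⟩ := by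
      apply Subtype.ext
      rw [mul_inv_eq_iff_eq_mul] at h
      exact h
    rw [← map_mul, h1, map_mul, map_mul, hej]
    simp
  · intro x hx
    have : (⟨x, hx⟩ : L) * ⟨j, hjL⟩ = ⟨j, hjL⟩ * ⟨x, hx⟩ := by
      apply e.injective
      rw [map_mul, map_mul, hej]; simp
    exact congrArg Subtype.val this
  · refine ⟨(e.symm JJ : L), (e.symm JJ).2, (hsq _).2 ?_⟩
    rw [MulEquiv.apply_symm_apply]; exact JJ_sq

end CfsgLib.H7SL
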