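import Cfsg.Agent.Lib.H7SL
import Cfsg.Agent.Lib.H8ZApp
import Cfsg.Agent.Lib.Core
import Cfsg.Agent.Lib.H7Mult3

/-!
# Central products of two SL₂'s
-/

set_option autoImplicit false
set_option linter.style.haveILetI false
set_option linter.unusedSectionVars false

namespace CfsgLib.H7SL

open Subgroup CfsgLib.Coprime CfsgLib.Zstar CfsgLib.Invol

variable {G : Type*} [Group G] [Finite G]

/-- two commuting copies -/
structure Pair (L₁ L₂ : Subgroup G) (j : G) : Prop where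
  hj : orderOf j = 2
  h1 : SLL L₁ j
  h2 : SLL L₂ j
  hc : ∀ x ∈ L₁, ∀ y ∈ L₂, x * y = y * x
  hm : L₁ ⊓ L₂ = Subgroup.zpowers j

variable {L₁ L₂ : Subgroup G} {j : G}

theorem Pair.j1 (P : Pair L₁ L₂ j) : j ≠ 1 := by
  intro h; have := P.hj; rw [h, orderOf_one] at this; omega

theorem Pair.j2 (P : Pair L₁ L₂ j) : j * j = 1 := by
  have := P.hj; rw [← pow_two, ← this]; exact pow_orderOf_eq_one j

theorem Pair.jinv (P : Pair L₁ L₂ j) : j⁻¹ = j := inv_eq_of_mul_eq_one_left P.j2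

theorem Pair.cap (P : Pair L₁ L₂ j) {x : G} (h1 : x ∈ L₁) (h2 : x ∈ L₂) : x = 1 ∨ x = j := by
  have h : x ∈ Subgroup.zpowers j := by rw [← P.hm]; exact ⟨h1, h2⟩
  obtain ⟨k, rfl⟩ := Subgroup.mem_zpowers_iff.1 h
  rcases Int.even_or_odd' k with ⟨m, rfl | rfl⟩
  · left; rw [zpow_mul, zpow_two, P.j2, one_zpow]
  · right; rw [zpow_add, zpow_mul, zpow_two, P.j2, one_zpow, one_mul, zpow_one]

theorem Pair.sup (P : Pair L₁ L₂ j) {y : G} (hy : y ∈ L₁ ⊔ L₂) : ∃ y₁ ∈ L₁, ∃ y₂ ∈ L₂, y₁ * y₂ = y := by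
  exact (mem_sup_iff (K := L₁) (A := L₂) (by
      intro r hr
      apply CfsgLib.H7Mult.mem_norm_of_le
      intro q hq
      rw [← P.hc q hq r hr, mul_inv_cancel_right]; exact hq) _).1 hy

theorem Pair.mulm (P : Pair L₁ L₂ j) {x y : G} (hx : x ∈ L₁) (hy : y ∈ L₂) : x * y ∈ L₁ ⊔ L₂ :=
  Subgroup.mul_mem _ ((le_sup_left : L₁ ≤ _) hx) ((le_sup_right : L₂ ≤ _) hy)

theorem Pair.form (P : Pair L₁ L₂ j) {y : G} (hy : y ∈ L₁ ⊔ L₂) (hy2 : y * y = 1) :
    y = 1 ∨ y = j ∨ ∃ a₁ ∈ L₁, ∃ a₂ ∈ L₂, a₁ * a₁ = j ∧ a₂ * a₂ = j ∧ y = a₁ * a₂ := by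
  obtain ⟨x, hx, z, hz, rfl⟩ := P.sup hy
  have h1 : x * x * (z * z) = 1 := by
    rw [← hy2, show x * z * (x * z) = x * (z * x) * z by group, ← P.hc x hx z hz]; group
  have h2 : x * x = (z * z)⁻¹ := eq_inv_of_mul_eq_one_left h1
  rcases P.cap (x := x * x) (mul_mem hx hx) (by rw [h2]; exact inv_mem (mul_mem hz hz)) with h | h
  · rw [h, one_mul] at h1
    rcases P.h1.uniq x hx h with rfl | rfl <;> rcases P.h2.uniq z hz h1 with rfl | rfl
    · left; rw [one_mul]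
    · right; left; rw [one_mul]
    · right; left; rw [mul_one]
    · left; exact P.j2
  · right; right
    refine ⟨x, hx, z, hz, h, ?_, rfl⟩
    rw [h] at h1
    rw [← P.jinv]; exact eq_inv_of_mul_eq_one_right h1

theorem Pair.classes (P : Pair L₁ L₂ j) :
    ∃ x ∈ L₁ ⊔ L₂, orderOf x = 2 ∧ x ≠ j ∧
      ∀ y ∈ L₁ ⊔ L₂, orderOf y = 2 → y = j ∨ ∃ g ∈ L₁ ⊔ L₂, g * x * g⁻¹ = y := by
  obtain ⟨a, ha, haj⟩ := P.h1.ex
  obtain ⟨b, hb, hbj⟩ := P.h2.ex
  refine ⟨a * b, P.mulm ha hb, ?_, ?_, ?_⟩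
  · apply orderOf_eq_prime
    · rw [pow_two, show a * b * (a * b) = a * (b * a) * b by group, ← P.hc a ha b hb,
        show a * (a * b) * b = (a * a) * (b * b) by group, haj, hbj, P.j2]
    · intro h
      have h1 := eq_inv_of_mul_eq_one_left h
      rcases P.cap ha (by rw [h1]; exact inv_mem hb) with h2 | h2
      · rw [h2, one_mul] at haj; exact P.j1 haj.symm
      · rw [h2, P.j2] at haj; exact P.j1 haj.symm
  · intro h
    have h1 : a = j * b⁻¹ := by rw [← h]; group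
    rcases P.cap ha (by rw [h1]; exact mul_mem P.h2.mem (inv_mem hb)) with h2 | h2
    · rw [h2, one_mul] at haj; exact P.j1 haj.symm
    · rw [h2, P.j2] at haj; exact P.j1 haj.symm
  · intro y hy hyo
    have hy2 : y * y = 1 := by rw [← pow_two, ← hyo]; exact pow_orderOf_eq_one y
    rcases P.form hy hy2 with h | h | ⟨c, hc, d, hd, hcj, hdj, hcd⟩
    · rw [h, orderOf_one] at hyo; omega
    · left; exact h
    · right
      obtain ⟨u, hu, hua⟩ := P.h1.conj a ha c hc haj hcj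
      obtain ⟨v, hv, hvb⟩ := P.h2.conj b hb d hd hbj hdj
      refine ⟨u * v, P.mulm hu hv, ?_⟩
      rw [hcd, ← hua, ← hvb]
      have e1 := P.hc u hu v hv
      have e2 := P.hc a ha v hv
      have e3 := P.hc u⁻¹ (inv_mem hu) (v * b * v⁻¹) (mul_mem (mul_mem hv hb) (inv_mem hv))
      calc u * v * (a * b) * (u * v)⁻¹ = u * (v * a) * b * (v⁻¹ * u⁻¹) := by group
        _ = u * (a * v) * b * (v⁻¹ * u⁻¹) := by rw [e2]
        _ = u * a * (v * b * v⁻¹ * u⁻¹) := by group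
        _ = u * a * (u⁻¹ * (v * b * v⁻¹)) := by rw [e3]
        _ = _ := by group

/-- the factorization from an isolated involution -/
theorem cover_of_iso {t : G} (h : Iso t) : centralizer ({t} : Set G) ⊔ Cfsg.pPrimeCore 2 G = ⊤ := by
  obtain ⟨N, hN, hNo, hNc⟩ := zstar (Nat.card G) G le_rfl t h
  have hNle : N ≤ Cfsg.pPrimeCore 2 G := CfsgLib.Core.le_pPrimeCore hN (Nat.Coprime.symm (Nat.coprime_two_left.2 hNo))
  have ht := h.1
  have ht2 := mul_self_of_orderOf ht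
  rw [eq_top_iff]
  intro g _
  have hgo : orderOf (g * t * g⁻¹) = 2 := by rw [orderOf_conj]; exact ht
  have hm : t * (g * t * g⁻¹) ∈ N := by
    have h1 := hN.conj_mem _ (hNc g) g
    have h2 := hNc g
    -- t * g * t⁻¹ * g⁻¹ ∈ N
    rw [inv_eq_of_mul_self ht2] at h2
    rwa [show t * (g * t * g⁻¹) = t * g * t * g⁻¹ by group]
  have hodd : Odd (orderOf (t * (g * t * g⁻¹))) := by
    have h1 : orderOf (t * (g * t * g⁻¹)) ∣ Nat.card N := by
      rw [← Subgroup.orderOf_mk _ hm]; exact orderOf_dvd_natCard _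
    exact Odd.of_dvd_nat hNo h1
  obtain ⟨d, hd, hdt⟩ := CfsgLib.H7Invol.conj_of_odd ht hgo hodd
  have hdN : d ∈ N := (Subgroup.zpowers_le.2 hm) hd
  have h3 : d⁻¹ * g ∈ centralizer ({t} : Set G) := by
    rw [mem_centralizer_singleton_iff]
    calc d⁻¹ * g * t = d⁻¹ * (g * t * g⁻¹) * g := by group
      _ = d⁻¹ * (d * t * d⁻¹) * g := by rw [hdt]
      _ = _ := by group
  have h4 : g = d * (d⁻¹ * g) := by group
  rw [h4]
  exact Subgroup.mul_mem _ ((le_sup_right : Cfsg.pPrimeCore 2 G ≤ _) (hNle hdN)) ((le_sup_left : centralizer ({t} : Set G) ≤ _) h3)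

end CfsgLib.H7SL
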