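import Mathlib
import Cfsg.Agent.Lib.H7SK

/-!
# The Suzuki groups: subfield subgroups are Suzuki groups
-/

set_option autoImplicit false
set_option linter.style.haveILetI false
set_option linter.unusedSectionVars false

open MulAction Cfsg Matrix
open scoped Pointwise commutatorElement

namespace CfsgLib.H7S

universe u v

variable {F : Type u} [Field F] [Fintype F] {m : ℕ}

section emb

variable {K : Type v} [Field K] [Fintype K] {k : ℕ} (ι : K →+* F) (DK : SD K k) (D : SD F m)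
  (hc : ∀ x : K, ι (DK.t x) = D.t (ι x))

include hc

theorem map_TT (a b : K) : Matrix.SpecialLinearGroup.map ι (DK.TT a b) = D.TT (ι a) (ι b) := by
  apply Matrix.SpecialLinearGroup.ext
  intro i j
  show ι ((!![1, a, b + DK.t a * a, a * b + DK.t a * a ^ 2 + DK.t b; 0, 1, DK.t a, b; 0, 0, 1, a; 0, 0, 0, 1] : Matrix (Fin 4) (Fin 4) K) i j) =
    (!![1, ι a, ι b + D.t (ι a) * ι a, ι a * ι b + D.t (ι a) * (ι a) ^ 2 + D.t (ι b); 0, 1, D.t (ι a), ι b; 0, 0, 1, ι a; 0, 0, 0, 1] : Matrix (Fin 4) (Fin 4) F) i j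
  fin_cases i <;> fin_cases j <;> simp [hc]

theorem map_HH (μ : Kˣ) : Matrix.SpecialLinearGroup.map ι (DK.HH μ) = D.HH (Units.map ι.toMonoidHom μ) := by
  apply Matrix.SpecialLinearGroup.ext
  intro i j
  show ι ((!![(μ : K) * DK.t μ, 0, 0, 0; 0, (μ : K), 0, 0; 0, 0, (μ : K)⁻¹, 0; 0, 0, 0, ((μ : K) * DK.t μ)⁻¹] : Matrix (Fin 4) (Fin 4) K) i j) =
    (!![ι μ * D.t (ι μ), 0, 0, 0; 0, ι μ, 0, 0; 0, 0, (ι μ)⁻¹, 0; 0, 0, 0, (ι μ * D.t (ι μ))⁻¹] : Matrix (Fin 4) (Fin 4) F) i j
  fin_cases i <;> fin_cases j <;> simp [hc]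

omit hc in
theorem map_WW : Matrix.SpecialLinearGroup.map ι (WW K) = WW F := by
  apply Matrix.SpecialLinearGroup.ext
  intro i j
  show ι ((!![0, 0, 0, 1; 0, 0, 1, 0; 0, 1, 0, 0; 1, 0, 0, 0] : Matrix (Fin 4) (Fin 4) K) i j) =
    (!![0, 0, 0, 1; 0, 0, 1, 0; 0, 1, 0, 0; 1, 0, 0, 0] : Matrix (Fin 4) (Fin 4) F) i j
  fin_cases i <;> fin_cases j <;> simp

theorem map_mem (hk : 1 ≤ k) (hK : Fintype.card K = 2 ^ (2 * k + 1)) (g : Sz K k) :
    Matrix.SpecialLinearGroup.map ι (g : SpecialLinearGroup (Fin 4) K) ∈ Sz F m := by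
  have hT : ∀ a b : K, Matrix.SpecialLinearGroup.map ι (DK.T a b : SpecialLinearGroup (Fin 4) K) ∈ Sz F m := by
    intro a b
    have h := map_TT ι DK D hc a b
    show Matrix.SpecialLinearGroup.map ι (DK.TT a b) ∈ Sz F m
    rw [h]
    exact D.TT_mem _ _
  have hh : ∀ μ : Kˣ, Matrix.SpecialLinearGroup.map ι (DK.h μ : SpecialLinearGroup (Fin 4) K) ∈ Sz F m := by
    intro μ
    have h := map_HH ι DK D hc μ
    show Matrix.SpecialLinearGroup.map ι (DK.HH μ) ∈ Sz F m
    rw [h]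
    exact D.HH_mem _
  have hw : Matrix.SpecialLinearGroup.map ι (wS DK : SpecialLinearGroup (Fin 4) K) ∈ Sz F m := by
    show Matrix.SpecialLinearGroup.map ι (WW K) ∈ Sz F m
    rw [map_WW]
    exact D.WW_mem
  rcases DK.bruhat hk hK g with ⟨a, b, μ, rfl⟩ | ⟨a, b, c, d, μ, rfl⟩
  · rw [Subgroup.coe_mul, map_mul]
    exact mul_mem (hT _ _) (hh _)
  · rw [Subgroup.coe_mul, Subgroup.coe_mul, Subgroup.coe_mul, map_mul, map_mul, map_mul]
    exact mul_mem (mul_mem (mul_mem (hT _ _) hw) (hT _ _)) (hh _)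

/-- the fixed subgroup of the suitable power of Frobenius is a Suzuki group -/
theorem fix_iso (hk : 1 ≤ k) (hK : Fintype.card K = 2 ^ (2 * k + 1)) {φ : F →+* F} (hφ1 : ∀ y, φ (ι y) = ι y)
    (hφ2 : ∀ x, φ x = x → ∃ y, ι y = x) : Nonempty (fixSz φ m ≃* Sz K k) := by
  obtain ⟨f, hf⟩ : ∃ f : Sz K k →* Sz F m, ∀ g, (f g : SpecialLinearGroup (Fin 4) F) = Matrix.SpecialLinearGroup.map ι (g : SpecialLinearGroup (Fin 4) K) :=
    ⟨((Matrix.SpecialLinearGroup.map (n := Fin 4) ι).comp (Sz K k).subtype).codRestrict (Sz F m) (fun g => map_mem ι DK D hc hk hK g), fun g => rfl⟩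
  have hinj : Function.Injective f := by
    intro a b hab
    apply Subtype.ext
    apply Matrix.SpecialLinearGroup.ext
    intro i j
    apply ι.injective
    have h1 : (f a : SpecialLinearGroup (Fin 4) F).1 i j = (f b : SpecialLinearGroup (Fin 4) F).1 i j := by rw [hab]
    rw [hf, hf] at h1
    exact h1
  have hrange : f.range = fixSz φ m := by
    apply le_antisymm
    · rintro _ ⟨g, rfl⟩
      rw [mem_fixSz]
      intro i j
      rw [hf]
      exact hφ1 _
    · intro g hg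
      rw [mem_fixSz] at hg
      choose g' hg' using fun i j => hφ2 _ (hg i j)
      have hdet : Matrix.det (Matrix.of g') = 1 := by
        apply ι.injective
        rw [map_one, RingHom.map_det]
        have e : ι.mapMatrix (Matrix.of g') = (g : SpecialLinearGroup (Fin 4) F).1 := by
          ext i j
          exact hg' i j
        rw [e]
        exact (g : SpecialLinearGroup (Fin 4) F).2
      have e : Matrix.SpecialLinearGroup.map ι (⟨Matrix.of g', hdet⟩ : SpecialLinearGroup (Fin 4) K) = (g : SpecialLinearGroup (Fin 4) F) := by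
        apply Matrix.SpecialLinearGroup.ext
        intro i j
        exact hg' i j
      refine ⟨⟨⟨Matrix.of g', hdet⟩, map_mem_iff ι DK D hc (by rw [e]; exact g.2)⟩, ?_⟩
      apply Subtype.ext
      rw [hf]
      exact e
  exact ⟨((MonoidHom.ofInjective hinj).trans (MulEquiv.subgroupCongr hrange)).symm⟩

end emb

end CfsgLib.H7S
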