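import Mathlib
import Cfsg.Agent.Lib.H7SLs

/-!
# The Suzuki groups: finite field facts
-/

set_option autoImplicit false
set_option linter.style.haveILetI false
set_option linter.unusedSectionVars false

open MulAction Cfsg Matrix
open scoped Pointwise commutatorElement

namespace CfsgLib.H7S

universe u v

theorem card_fix_le {F : Type u} [Field F] [Fintype F] {s : ℕ} (hs : 2 ≤ s) : Nat.card {x : F // x ^ s = x} ≤ s := by
  classical
  have h1 : (Polynomial.X ^ s - Polynomial.X : Polynomial F) ≠ 0 := FiniteField.X_pow_card_sub_X_ne_zero F hs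
  have h2 := Polynomial.card_roots' (Polynomial.X ^ s - Polynomial.X : Polynomial F)
  rw [FiniteField.X_pow_card_sub_X_natDegree_eq F hs] at h2
  refine le_trans ?_ h2
  refine le_trans ?_ (Multiset.toFinset_card_le _)
  rw [Nat.card_eq_fintype_card, Fintype.card_subtype]
  apply Finset.card_le_card
  intro x hx
  rw [Finset.mem_filter] at hx
  rw [Multiset.mem_toFinset, Polynomial.mem_roots h1]
  simp [hx.2]

/-- a subset with enough elements of the fixed field is the fixed field -/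
theorem fix_of_card {F : Type u} [Field F] [Fintype F] {s : ℕ} (hs : 2 ≤ s) {B : Set F} (hB : ∀ x ∈ B, x ^ s = x)
    (hc : s ≤ Nat.card B) {x : F} (hx : x ^ s = x) : x ∈ B := by
  have h1 : B ⊆ {x : F | x ^ s = x} := hB
  have h2 : {x : F | x ^ s = x}.ncard ≤ B.ncard := (card_fix_le hs).trans hc
  have h3 := Set.eq_of_subset_of_ncard_le h1 h2 (Set.toFinite _)
  rw [h3]
  exact hx

variable {F : Type u} [Field F] [Fintype F] {m : ℕ} {K : Type v} [Field K] [Fintype K] {k : ℕ}

theorem char_two_of_card (hF : Fintype.card F = 2 ^ (2 * m + 1)) : CharP F 2 := by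
  obtain ⟨D⟩ := exists_SD hF
  exact CharTwo.of_one_ne_zero_of_two_eq_zero one_ne_zero D.two

theorem exists_emb (hK : Fintype.card K = 2 ^ (2 * k + 1)) (hF : Fintype.card F = 2 ^ (2 * m + 1)) (hdiv : 2 * k + 1 ∣ 2 * m + 1) :
    Nonempty (K →+* F) := by
  haveI := char_two_of_card hF
  haveI := char_two_of_card hK
  letI : Algebra (ZMod 2) K := ZMod.algebra K 2
  letI : Algebra (ZMod 2) F := ZMod.algebra F 2
  haveI : Fact (Nat.Prime 2) := ⟨Nat.prime_two⟩
  have h1 : Module.finrank (ZMod 2) K = 2 * k + 1 := by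
    have h := FiniteField.pow_finrank_eq_card 2 K
    rw [hK] at h
    exact Nat.pow_right_injective le_rfl h
  have h2 : Module.finrank (ZMod 2) F = 2 * m + 1 := by
    have h := FiniteField.pow_finrank_eq_card 2 F
    rw [hF] at h
    exact Nat.pow_right_injective le_rfl h
  obtain ⟨f⟩ := FiniteField.nonempty_algHom_of_finrank_dvd (F := ZMod 2) (K := K) (L := F) (by rw [h1, h2]; exact hdiv)
  exact ⟨f.toRingHom⟩

theorem emb_t (DK : SD K k) (D : SD F m) (hK : Fintype.card K = 2 ^ (2 * k + 1)) (hdiv : 2 * k + 1 ∣ 2 * m + 1) (ι : K →+* F) (x : K) :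
    ι (DK.t x) = D.t (ι x) := by
  rw [DK.ht, D.ht, ← map_pow]
  congr 1
  obtain ⟨e, he⟩ := hdiv
  obtain ⟨j, hj⟩ : Odd e := by
    have h1 : Odd (2 * m + 1) := ⟨m, rfl⟩
    rw [he] at h1
    exact (Nat.odd_mul.mp h1).2
  have h2 : m + 1 = (2 * k + 1) * j + (k + 1) := by
    rw [hj] at he
    have : (2 * k + 1) * (2 * j + 1) = 2 * ((2 * k + 1) * j) + (2 * k + 1) := by ring
    omega
  have h3 : 2 ^ ((2 * k + 1) * j + (k + 1)) = Fintype.card K ^ j * 2 ^ (k + 1) := by rw [pow_add, pow_mul, hK]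
  rw [h2, h3, pow_mul x (Fintype.card K ^ j), FiniteField.pow_card_pow]

theorem emb_fix (hK : Fintype.card K = 2 ^ (2 * k + 1)) (ι : K →+* F) (y : K) : (ι y) ^ (2 ^ (2 * k + 1)) = ι y := by
  rw [← map_pow, ← hK, FiniteField.pow_card]

theorem emb_surj (hK : Fintype.card K = 2 ^ (2 * k + 1)) (ι : K →+* F) {x : F} (hx : x ^ (2 ^ (2 * k + 1)) = x) : ∃ y, ι y = x := by
  have h := fix_of_card (F := F) (s := 2 ^ (2 * k + 1)) (B := Set.range ι) (by
    calc 2 = 2 ^ 1 := by norm_num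
      _ ≤ 2 ^ (2 * k + 1) := Nat.pow_le_pow_right (by norm_num) (by omega)) (by
      rintro _ ⟨y, rfl⟩
      exact emb_fix hK ι y) (by
      rw [← hK, Nat.card_range_of_injective ι.injective, Nat.card_eq_fintype_card]) hx
  exact h

/-- the fixed group of the `2k+1`-st power of Frobenius -/
theorem exists_frob (hF : Fintype.card F = 2 ^ (2 * m + 1)) (d : ℕ) : ∃ φ : F →+* F, ∀ x, φ x = x ^ (2 ^ d) := by
  haveI := char_two_of_card hF
  exact ⟨iterateFrobenius F 2 d, fun x => iterateFrobenius_def 2 d x⟩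

theorem fix_iso' (hk : 1 ≤ k) (hK : Fintype.card K = 2 ^ (2 * k + 1)) (hF : Fintype.card F = 2 ^ (2 * m + 1))
    (hdiv : 2 * k + 1 ∣ 2 * m + 1) {φ : F →+* F} (hφ : ∀ x, φ x = x ^ (2 ^ (2 * k + 1))) : Nonempty (fixSz φ m ≃* Sz K k) := by
  obtain ⟨ι⟩ := exists_emb hK hF hdiv
  obtain ⟨DK⟩ := exists_SD hK
  obtain ⟨D⟩ := exists_SD hF
  exact fix_iso ι DK D (emb_t DK D hK hdiv ι) hk hK (fun y => by rw [hφ]; exact emb_fix hK ι y)
    (fun x hx => emb_surj hK ι (by rw [← hφ]; exact hx))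

end CfsgLib.H7S
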