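import Mathlib
import Cfsg.Agent.Lib.H7SM

/-!
# The Suzuki groups: counting involutions in a subgroup
-/

set_option autoImplicit false
set_option linter.style.haveILetI false
set_option linter.unusedSectionVars false

open MulAction Cfsg Matrix
open scoped Pointwise commutatorElement

namespace CfsgLib.H7S

universe u v

variable {F : Type u} [Field F] [Fintype F] {m : ℕ}

/-- a normalized subgroup -/
structure Nrm (D : SD F m) (M : Subgroup (Sz F m)) : Prop where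
  one : D.T 0 1 ∈ M
  move : ∃ y ∈ M, y • oinf F m ≠ oinf F m
  split : ∀ (a b : F) (μ : Fˣ), D.T a b * D.h μ ∈ M → D.h μ ∈ M

/-- the nontrivial part of the orbit of infinity -/
abbrev Dl (M : Subgroup (Sz F m)) := {p : suzukiOvoid F m // p ≠ oinf F m ∧ ∃ y ∈ M, y • oinf F m = p}
abbrev Qt (D : SD F m) (M : Subgroup (Sz F m)) := {p : F × F // D.T p.1 p.2 ∈ M}
abbrev Bz (D : SD F m) (M : Subgroup (Sz F m)) := {b : F // b ≠ 0 ∧ D.T 0 b ∈ M}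
abbrev Kz (D : SD F m) (M : Subgroup (Sz F m)) := {μ : Fˣ // D.h μ ∈ M}
abbrev Kz1 (D : SD F m) (M : Subgroup (Sz F m)) := {μ : Fˣ // μ ≠ 1 ∧ D.h μ ∈ M}
abbrev Yt (M : Subgroup (Sz F m)) := {g : Sz F m // g ≠ 1 ∧ g ∈ M ∧ g • oinf F m = oinf F m ∧ ∃ ω : Dl M, g • ω.1 = ω.1}
abbrev It (M : Subgroup (Sz F m)) := {s : Sz F m // s ∈ M ∧ s * s = 1 ∧ s ≠ 1 ∧ s • oinf F m ≠ oinf F m}

namespace SD

variable (D : SD F m)

include D

theorem N_inj {μ ν : F} (hν : ν ≠ 0) (h : μ ^ 2 * D.t μ = ν ^ 2 * D.t ν) : μ = ν := by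
  have htν : D.t ν ≠ 0 := fun h => hν (D.t_eq_zero.mp h)
  have h1 : D.t (D.t (μ / ν)) * D.t (μ / ν) = 1 := by
    rw [D.tt, map_div₀]
    field_simp
    exact h
  have h2 := D.eq_one_of_t_mul h1
  have h3 : μ / ν = 1 := D.t_inj (by rw [h2, map_one])
  field_simp at h3
  exact h3

end SD

variable {D : SD F m} {M : Subgroup (Sz F m)}

theorem Nrm.K_le_B (h : Nrm D M) : Nat.card (Kz D M) ≤ Nat.card (Bz D M) := by
  refine Nat.card_le_card_of_injective (fun μ : Kz D M => (⟨(μ.1 : F) ^ 2 * D.t μ.1, ?_, ?_⟩ : Bz D M)) ?_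
  · exact mul_ne_zero (pow_ne_zero 2 μ.1.ne_zero) (D.t_unit_ne μ.1)
  · have h1 := mul_mem (mul_mem μ.2 h.one) (inv_mem μ.2)
    rw [D.h_conj_T, mul_zero, mul_one] at h1
    exact h1
  · intro μ ν hμν
    have h1 : (μ.1 : F) ^ 2 * D.t μ.1 = (ν.1 : F) ^ 2 * D.t ν.1 := congrArg (fun b : Bz D M => b.1) hμν
    exact Subtype.ext (Units.ext (D.N_inj ν.1.ne_zero h1))

theorem T_semireg {a b : F} {p : suzukiOvoid F m} (hp : p ≠ oinf F m) (h : D.T a b • p = p) : a = 0 ∧ b = 0 := by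
  by_contra hab
  exact hp (D.T_fix hab h)

theorem Q_le_Dl_aux (ω : Dl M) : Function.Injective (fun q : Qt D M => (⟨D.T q.1.1 q.1.2 • ω.1, by
    intro h
    apply ω.2.1
    have h1 : D.T q.1.1 q.1.2 • ω.1 = D.T q.1.1 q.1.2 • oinf F m := by rw [h, D.T_inf]
    exact smul_left_cancel _ h1, by
    obtain ⟨y, hy, hy2⟩ := ω.2.2
    exact ⟨D.T q.1.1 q.1.2 * y, mul_mem q.2 hy, by rw [mul_smul, hy2]⟩⟩ : Dl M)) := by
  rintro ⟨⟨a, b⟩, hab⟩ ⟨⟨c, d⟩, hcd⟩ h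
  have h1 : D.T a b • ω.1 = D.T c d • ω.1 := congrArg (fun p : Dl M => p.1) h
  have h2 : ((D.T c d)⁻¹ * D.T a b) • ω.1 = ω.1 := by rw [mul_smul, h1, inv_smul_smul]
  rw [D.T_inv, D.T_mul] at h2
  obtain ⟨h3, h4⟩ := T_semireg ω.2.1 h2
  have h5 : a = c := (D.add_eq_zero.mp h3).symm
  subst h5
  have h6 : b = d := by linear_combination h4 - (d + D.t a * a) * D.two
  subst h6
  rfl

theorem Nrm.Dl_nonempty (h : Nrm D M) : Nonempty (Dl M) := by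
  obtain ⟨y, hy, hne⟩ := h.move
  exact ⟨⟨y • oinf F m, hne, y, hy, rfl⟩⟩

theorem Nrm.Q_le_Dl (h : Nrm D M) : Nat.card (Qt D M) ≤ Nat.card (Dl M) := by
  obtain ⟨ω⟩ := h.Dl_nonempty
  exact Nat.card_le_card_of_injective _ (Q_le_Dl_aux ω)

theorem Dl_Bz_le : Nat.card (Dl M) * Nat.card (Bz D M) ≤ Nat.card (It M) := by
  rw [← Nat.card_prod]
  have hch : ∀ ω : Dl M, ∃ y ∈ M, y • oinf F m = ω.1 := fun ω => ω.2.2
  choose y hyM hy using hch
  refine Nat.card_le_card_of_injective (fun p : Dl M × Bz D M => (⟨y p.1 * D.T 0 p.2.1 * (y p.1)⁻¹, ?_, ?_, ?_, ?_⟩ : It M)) ?_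
  · exact mul_mem (mul_mem (hyM _) p.2.2.2) (inv_mem (hyM _))
  · calc y p.1 * D.T 0 p.2.1 * (y p.1)⁻¹ * (y p.1 * D.T 0 p.2.1 * (y p.1)⁻¹) = y p.1 * (D.T 0 p.2.1 * D.T 0 p.2.1) * (y p.1)⁻¹ := by group
      _ = 1 := by rw [D.T_sq, mul_zero, D.T_zero]; group
  · intro h
    apply D.T_ne_one (a := 0) (b := p.2.1) (fun h => p.2.2.1 h.2)
    calc D.T 0 p.2.1 = (y p.1)⁻¹ * (y p.1 * D.T 0 p.2.1 * (y p.1)⁻¹) * y p.1 := by group
      _ = 1 := by rw [h]; group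
  · intro h
    rw [mul_smul, mul_smul, ← eq_inv_smul_iff] at h
    have h1 := D.T_fix (fun h => p.2.2.1 h.2) h
    rw [inv_smul_eq_iff, hy] at h1
    exact p.1.2.1 h1.symm
  · rintro ⟨ω, b⟩ ⟨ω', b'⟩ h
    have h1 : y ω * D.T 0 b.1 * (y ω)⁻¹ = y ω' * D.T 0 b'.1 * (y ω')⁻¹ := congrArg (fun s : It M => s.1) h
    have h2 : (y ω' * D.T 0 b'.1 * (y ω')⁻¹) • ω.1 = ω.1 := by
      rw [← h1, mul_smul, mul_smul, ← hy, inv_smul_smul, D.T_inf]
    rw [mul_smul, mul_smul, ← eq_inv_smul_iff] at h2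
    have h3 := D.T_fix (fun h => b'.2.1 h.2) h2
    rw [inv_smul_eq_iff, hy] at h3
    have h4 : ω = ω' := Subtype.ext h3
    subst h4
    have h5 : D.T 0 b.1 = D.T 0 b'.1 := mul_left_cancel (mul_right_cancel h1)
    rw [D.T_inj] at h5
    exact Prod.ext rfl (Subtype.ext h5.2)

theorem It_le (hm : 1 ≤ m) (hF : Fintype.card F = 2 ^ (2 * m + 1)) : Nat.card (It M) ≤ Nat.card (Dl M) + Nat.card (Yt M) := by
  classical
  rw [← Nat.card_sum]
  obtain ⟨D⟩ := exists_SD hF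
  have hZ := D.zassenhaus hm hF
  -- the point of an involution
  obtain ⟨pt', hpt'⟩ : ∃ f : It M → Dl M, ∀ s, (f s).1 = s.1 • oinf F m := ⟨fun s => ⟨s.1 • oinf F m, s.2.2.2.2, s.1, s.2.1, rfl⟩, fun s => rfl⟩
  -- choice
  have hch : ∀ ω : Dl M, ∃ s : Sz F m, (∃ s' : It M, pt' s' = ω) → ∃ s' : It M, pt' s' = ω ∧ s'.1 = s := by
    intro ω
    by_cases hω : ∃ s' : It M, pt' s' = ω
    · obtain ⟨s', hs'⟩ := hω
      exact ⟨s'.1, fun _ => ⟨s', hs', rfl⟩⟩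
    · exact ⟨1, fun h => absurd h hω⟩
  choose σ hσ using hch
  have hσ2 : ∀ s : It M, ∃ s' : It M, pt' s' = pt' s ∧ s'.1 = σ (pt' s) := fun s => hσ _ ⟨s, rfl⟩
  have hσM : ∀ s : It M, σ (pt' s) ∈ M ∧ σ (pt' s) • oinf F m = s.1 • oinf F m ∧ σ (pt' s) • (s.1 • oinf F m) = oinf F m := by
    intro s
    obtain ⟨s', h1, h2⟩ := hσ2 s
    rw [← h2]
    have h3 : s'.1 • oinf F m = s.1 • oinf F m := by rw [← hpt', ← hpt', h1]
    refine ⟨s'.2.1, h3, ?_⟩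
    rw [← h3, smul_smul, s'.2.2.1, one_smul]
  have hsw : ∀ s : It M, s.1 • (s.1 • oinf F m) = oinf F m := by
    intro s
    rw [smul_smul, s.2.2.1, one_smul]
  have hfix : ∀ s : It M, (s.1 * σ (pt' s)) • oinf F m = oinf F m ∧ (s.1 * σ (pt' s)) • (pt' s).1 = (pt' s).1 := by
    intro s
    obtain ⟨-, h2, h3⟩ := hσM s
    rw [mul_smul, mul_smul, h2, hpt', h3]
    exact ⟨hsw s, rfl⟩
  have hne : ∀ s : It M, s.1 ≠ σ (pt' s) → s.1 * σ (pt' s) ≠ 1 := by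
    intro s hs h
    apply hs
    rw [← mul_left_inj (σ (pt' s)), h]
    obtain ⟨s', h1, h2⟩ := hσ2 s
    rw [← h2, s'.2.2.1]
  refine Nat.card_le_card_of_injective (fun s : It M => if h : s.1 = σ (pt' s) then (Sum.inl (pt' s) : Dl M ⊕ Yt M) else
    Sum.inr ⟨s.1 * σ (pt' s), hne s h, mul_mem s.2.1 (hσM s).1, (hfix s).1, pt' s, (hfix s).2⟩) ?_
  intro s s' hss
  by_cases h : s.1 = σ (pt' s) <;> by_cases h' : s'.1 = σ (pt' s')
  · simp only [dif_pos h, dif_pos h', Sum.inl.injEq] at hss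
    exact Subtype.ext (by rw [h, h', hss])
  · simp only [dif_pos h, dif_neg h'] at hss
    cases hss
  · simp only [dif_neg h, dif_pos h'] at hss
    cases hss
  · simp only [dif_neg h, dif_neg h', Sum.inr.injEq, Subtype.mk.injEq] at hss
    have h1 := hfix s
    have h2 := hfix s'
    have h3 := hne s h
    rw [← hss] at h2
    have h4 : (pt' s).1 = (pt' s').1 := by
      rcases CfsgLib.H7Z.fix3 hZ h3 (pt' s).2.1.symm h1.1 h1.2 h2.2 with h5 | h5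
      · exact absurd h5 (pt' s').2.1
      · exact h5.symm
    have h5 : pt' s = pt' s' := Subtype.ext h4
    rw [h5] at hss
    exact Subtype.ext (mul_right_cancel hss)

theorem Yt_form (hm : 1 ≤ m) (hF : Fintype.card F = 2 ^ (2 * m + 1)) (h : Nrm D M) (g : Yt M) :
    ∃ (q : Qt D M) (μ : Kz1 D M), g.1 = D.T q.1.1 q.1.2 * D.h μ.1 := by
  obtain ⟨g, hg1, hgM, hgi, ω, hω⟩ := g
  obtain ⟨a, b, μ, rfl⟩ := D.stab_inf hm hF hgi
  have h1 := h.split a b μ hgM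
  have h2 : D.T a b ∈ M := by
    have := mul_mem hgM (inv_mem h1)
    rwa [mul_inv_cancel_right] at this
  have hμ : μ ≠ 1 := by
    rintro rfl
    rw [D.h_one, mul_one] at hω hg1
    obtain ⟨h3, h4⟩ := T_semireg ω.2.1 hω
    apply hg1
    rw [h3, h4, D.T_zero]
  exact ⟨⟨(a, b), h2⟩, ⟨μ, hμ, h1⟩, rfl⟩

theorem Y_le (hm : 1 ≤ m) (hF : Fintype.card F = 2 ^ (2 * m + 1)) (h : Nrm D M) :
    Nat.card (Yt M) ≤ Nat.card (Qt D M) * Nat.card (Kz1 D M) := by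
  rw [← Nat.card_prod]
  choose q μ hqμ using Yt_form hm hF h
  refine Nat.card_le_card_of_injective (fun g : Yt M => (q g, μ g)) ?_
  intro g g' hg
  have h1 : q g = q g' := congrArg Prod.fst hg
  have h2 : μ g = μ g' := congrArg Prod.snd hg
  exact Subtype.ext (by rw [hqμ, hqμ, h1, h2])

theorem Y_lt (hm : 1 ≤ m) (hF : Fintype.card F = 2 ^ (2 * m + 1)) (h : Nrm D M) (h0 : ∀ y ∈ M, y • oinf F m ≠ opt m (0 : F) 0) :
    Nat.card (Yt M) + Nat.card (Kz1 D M) ≤ Nat.card (Qt D M) * Nat.card (Kz1 D M) := by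
  rw [← Nat.card_prod, ← Nat.card_sum]
  choose q μ hqμ using Yt_form hm hF h
  have hz : (0 : F × F) ∈ {p : F × F | D.T p.1 p.2 ∈ M} := by
    show D.T 0 0 ∈ M
    rw [D.T_zero]; exact one_mem M
  have hne : ∀ g : Yt M, (q g).1 ≠ 0 := by
    intro g h1
    have h2 := hqμ g
    have h3 : D.T (q g).1.1 (q g).1.2 = 1 := by rw [h1]; exact D.T_zero
    rw [h3, one_mul] at h2
    obtain ⟨ω, hω⟩ := g.2.2.2.2
    rw [h2] at hω
    rcases oex ω.1 with h4 | ⟨x, y, h4⟩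
    · exact ω.2.1 h4
    · rw [h4] at hω
      have hxy : ¬ (x = 0 ∧ y = 0) := by
        rintro ⟨rfl, rfl⟩
        obtain ⟨z, hz, hz2⟩ := ω.2.2
        exact h0 z hz (by rw [hz2, h4])
      exact (μ g).2.1 (D.h_fix hxy hω)
  refine Nat.card_le_card_of_injective (fun s : Yt M ⊕ Kz1 D M => match s with
    | Sum.inl g => (q g, μ g)
    | Sum.inr ν => (⟨0, hz⟩, ν)) ?_
  rintro (g | ν) (g' | ν') hss
  · have h1 : q g = q g' := congrArg Prod.fst hss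
    have h2 : μ g = μ g' := congrArg Prod.snd hss
    exact congrArg Sum.inl (Subtype.ext (by rw [hqμ, hqμ, h1, h2]))
  · exfalso
    have h1 : q g = ⟨0, hz⟩ := congrArg Prod.fst hss
    exact hne g (congrArg Subtype.val h1)
  · exfalso
    have h1 : (⟨0, hz⟩ : Qt D M) = q g' := congrArg Prod.fst hss
    exact hne g' (congrArg Subtype.val h1).symm
  · have h2 : ν = ν' := congrArg Prod.snd hss
    rw [h2]

theorem card_Kz (D : SD F m) (M : Subgroup (Sz F m)) : Nat.card (Kz D M) = Nat.card (Kz1 D M) + 1 := by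
  classical
  haveI := Fintype.ofFinite (Kz D M)
  haveI := Fintype.ofFinite (Kz1 D M)
  have h1 : D.h 1 ∈ M := by rw [D.h_one]; exact one_mem M
  have h2 : Nat.card (Kz1 D M) = Nat.card {μ : Kz D M // μ ≠ ⟨1, h1⟩} := by
    refine Nat.card_congr ⟨fun μ => ⟨⟨μ.1, μ.2.2⟩, fun h => μ.2.1 (congrArg Subtype.val h)⟩,
      fun μ => ⟨μ.1.1, fun h => μ.2 (Subtype.ext h), μ.1.2⟩, fun μ => rfl, fun μ => rfl⟩
  rw [h2, Nat.card_eq_fintype_card, Nat.card_eq_fintype_card, Fintype.card_subtype_compl, Fintype.card_subtype_eq]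
  have : 0 < Fintype.card (Kz D M) := Fintype.card_pos_iff.mpr ⟨⟨1, h1⟩⟩
  omega

theorem Nrm.count (hm : 1 ≤ m) (hF : Fintype.card F = 2 ^ (2 * m + 1)) (h : Nrm D M) (htor : ∃ μ : Fˣ, μ ≠ 1 ∧ D.h μ ∈ M) :
    Nat.card (Qt D M) = Nat.card (Dl M) ∧ Nat.card (Bz D M) = Nat.card (Kz D M) ∧ ∃ y ∈ M, y • oinf F m = opt m (0 : F) 0 := by
  have h1 := h.K_le_B
  have h2 := h.Q_le_Dl
  have h3 := Dl_Bz_le (D := D) (M := M)
  have h4 := It_le (M := M) hm hF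
  have h5 := Y_le hm hF h
  have h6 := card_Kz D M
  haveI := h.Dl_nonempty
  have h7 : 0 < Nat.card (Dl M) := Nat.card_pos
  have h8 : 0 < Nat.card (Kz1 D M) := by
    obtain ⟨μ, hμ1, hμ2⟩ := htor
    haveI : Nonempty (Kz1 D M) := ⟨⟨μ, hμ1, hμ2⟩⟩
    exact Nat.card_pos
  have h9 := fun h0 => Y_lt (D := D) (M := M) hm hF h h0
  obtain ⟨n, hn⟩ : ∃ n, Nat.card (Dl M) = n := ⟨_, rfl⟩
  obtain ⟨z, hz⟩ : ∃ n, Nat.card (Bz D M) = n := ⟨_, rfl⟩
  obtain ⟨q, hq⟩ : ∃ n, Nat.card (Qt D M) = n := ⟨_, rfl⟩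
  obtain ⟨k, hk⟩ : ∃ n, Nat.card (Kz1 D M) = n := ⟨_, rfl⟩
  obtain ⟨y, hy⟩ : ∃ n, Nat.card (Yt M) = n := ⟨_, rfl⟩
  obtain ⟨i, hi⟩ : ∃ n, Nat.card (It M) = n := ⟨_, rfl⟩
  rw [hk] at h6 h8 h5
  rw [h6] at h1 ⊢
  rw [hn, hz, hi] at h3
  rw [hn, hi, hy] at h4
  rw [hq, hn] at h2 ⊢
  rw [hy, hq] at h5
  rw [hz] at h1 ⊢
  rw [hn] at h7
  -- arithmetic
  have e1 : n * z ≤ n + q * k := by omega
  have e2 : n + q * k ≤ n + n * k := by
    have : q * k ≤ n * k := Nat.mul_le_mul_right k h2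
    omega
  have e3 : n * (k + 1) ≤ n * z := Nat.mul_le_mul_left n h1
  have e4 : n * (k + 1) = n + n * k := by ring
  have e5 : q * k = n * k := by omega
  have e6 : q = n := Nat.eq_of_mul_eq_mul_right h8 e5
  have e7 : n * z = n * (k + 1) := by omega
  have e8 : z = k + 1 := Nat.eq_of_mul_eq_mul_left h7 e7
  refine ⟨e6, e8, ?_⟩
  by_contra hne
  push Not at hne
  have h10 := h9 hne
  rw [hk, hy, hq] at h10
  omega

end CfsgLib.H7S
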