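import Mathlib
import Cfsg.Agent.Lib.H7SN

/-!
# The Suzuki groups: identification of the subfield subgroups
-/

set_option autoImplicit false
set_option linter.style.haveILetI false
set_option linter.unusedSectionVars false

open MulAction Cfsg Matrix
open scoped Pointwise commutatorElement

namespace CfsgLib.H7S

universe u v

variable {F : Type u} [Field F] [Fintype F] {m : ℕ} {D : SD F m} {M : Subgroup (Sz F m)}

/-- the additive group of a subgroup -/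
def BB (D : SD F m) (M : Subgroup (Sz F m)) : AddSubgroup F where
  carrier := {b | D.T 0 b ∈ M}
  zero_mem' := by
    show D.T 0 0 ∈ M
    rw [D.T_zero]; exact one_mem M
  add_mem' := by
    intro a b ha hb
    have h := mul_mem (S := Subgroup (Sz F m)) (show D.T 0 a ∈ M from ha) (show D.T 0 b ∈ M from hb)
    rw [D.T_mul] at h
    simpa using h
  neg_mem' := by
    intro a ha
    show D.T 0 (-a) ∈ M
    rw [D.neg_eq]
    exact ha

theorem card_BB : Nat.card (BB D M) = Nat.card (Bz D M) + 1 := by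
  classical
  haveI := Fintype.ofFinite (BB D M)
  haveI := Fintype.ofFinite (Bz D M)
  have h2 : Nat.card (Bz D M) = Nat.card {μ : BB D M // μ ≠ 0} := by
    refine Nat.card_congr ⟨fun μ => ⟨⟨μ.1, μ.2.2⟩, fun h => μ.2.1 (congrArg Subtype.val h)⟩,
      fun μ => ⟨μ.1.1, fun h => μ.2 (Subtype.ext h), μ.1.2⟩, fun μ => rfl, fun μ => rfl⟩
  rw [h2, Nat.card_eq_fintype_card, Nat.card_eq_fintype_card, Fintype.card_subtype_compl, Fintype.card_subtype_eq]
  have : 0 < Fintype.card (BB D M) := Fintype.card_pos_iff.mpr ⟨0⟩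
  omega

/-- the multiplicative group of a subgroup -/
def KK (D : SD F m) (M : Subgroup (Sz F m)) : Subgroup Fˣ where
  carrier := {μ | D.h μ ∈ M}
  one_mem' := by
    show D.h 1 ∈ M
    rw [D.h_one]; exact one_mem M
  mul_mem' := by
    intro a b ha hb
    have h := mul_mem (S := Subgroup (Sz F m)) (show D.h a ∈ M from ha) (show D.h b ∈ M from hb)
    rw [D.h_mul] at h
    exact h
  inv_mem' := by
    intro a ha
    have h : (D.h a)⁻¹ ∈ M := inv_mem (show D.h a ∈ M from ha)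
    have e : (D.h a)⁻¹ = D.h a⁻¹ := by
      rw [inv_eq_iff_mul_eq_one, D.h_mul, mul_inv_cancel, D.h_one]
    rw [e] at h
    exact h

theorem Nrm.field (hm : 1 ≤ m) (hF : Fintype.card F = 2 ^ (2 * m + 1)) (h : Nrm D M) (htor : ∃ μ : Fˣ, μ ≠ 1 ∧ D.h μ ∈ M) :
    ∃ d : ℕ, 2 ≤ d ∧ Nat.card (Kz D M) = 2 ^ d - 1 ∧ Nat.card (BB D M) = 2 ^ d ∧ (2 ^ d - 1 ∣ Fintype.card F - 1) ∧
      (∀ b : F, D.T 0 b ∈ M ↔ b ^ (2 ^ d) = b) ∧ (∀ μ : Fˣ, D.h μ ∈ M ↔ (μ : F) ^ (2 ^ d) = μ) := by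
  obtain ⟨-, hc, -⟩ := h.count hm hF htor
  -- the order of the additive group
  have h1 : Nat.card (BB D M) ∣ 2 ^ (2 * m + 1) := by
    rw [← hF, ← Nat.card_eq_fintype_card]
    exact AddSubgroup.card_addSubgroup_dvd_card _
  obtain ⟨d, -, hd⟩ := (Nat.dvd_prime_pow Nat.prime_two).mp h1
  have h2 := card_BB (D := D) (M := M)
  rw [hd] at h2
  have h3 : 2 ≤ Nat.card (Kz D M) := by
    rw [card_Kz]
    obtain ⟨μ, hμ1, hμ2⟩ := htor
    haveI : Nonempty (Kz1 D M) := ⟨⟨μ, hμ1, hμ2⟩⟩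
    have : 0 < Nat.card (Kz1 D M) := Nat.card_pos
    omega
  have h4 : Nat.card (Kz D M) = 2 ^ d - 1 := by omega
  have hd2 : 2 ≤ d := by
    by_contra hlt
    have : d = 0 ∨ d = 1 := by omega
    rcases this with rfl | rfl <;> omega
  have hKK : Nat.card (KK D M) = 2 ^ d - 1 := h4
  have hpow : ∀ μ : Fˣ, D.h μ ∈ M → (μ : F) ^ (2 ^ d) = μ := by
    intro μ hμ
    have h5 : (⟨μ, hμ⟩ : KK D M) ^ (2 ^ d - 1) = 1 := by rw [← hKK]; exact pow_card_eq_one'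
    have h6 : μ ^ (2 ^ d - 1) = 1 := congrArg Subtype.val h5
    have h7 : (μ : F) ^ (2 ^ d - 1) = 1 := by rw [← Units.val_pow_eq_pow_val, h6, Units.val_one]
    have h8 : 2 ^ d = 2 ^ d - 1 + 1 := by
      have : 0 < 2 ^ d := Nat.two_pow_pos d
      omega
    rw [h8, pow_succ, h7, one_mul]
  -- surjectivity of the orbit map
  have hsurj : ∀ b : F, b ≠ 0 → D.T 0 b ∈ M → ∃ μ : Fˣ, D.h μ ∈ M ∧ b = (μ : F) ^ 2 * D.t μ := by
    obtain ⟨f, hf⟩ : ∃ f : Kz D M → Bz D M, ∀ μ, (f μ).1 = (μ.1 : F) ^ 2 * D.t μ.1 :=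
      ⟨fun μ : Kz D M => (⟨(μ.1 : F) ^ 2 * D.t μ.1, mul_ne_zero (pow_ne_zero 2 μ.1.ne_zero) (D.t_unit_ne μ.1), by
        have h1 := mul_mem (mul_mem μ.2 h.one) (inv_mem μ.2)
        rw [D.h_conj_T, mul_zero, mul_one] at h1
        exact h1⟩ : Bz D M), fun _ => rfl⟩
    have hinj : Function.Injective f := by
      intro μ ν hμν
      have h1 : (μ.1 : F) ^ 2 * D.t μ.1 = (ν.1 : F) ^ 2 * D.t ν.1 := by rw [← hf, ← hf, hμν]
      exact Subtype.ext (Units.ext (D.N_inj ν.1.ne_zero h1))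
    have hbij := hinj.bijective_of_nat_card_le (le_of_eq hc)
    intro b hb hbM
    obtain ⟨μ, hμ⟩ := hbij.2 ⟨b, hb, hbM⟩
    refine ⟨μ.1, μ.2, ?_⟩
    rw [← hf, hμ]
  have hBpow : ∀ b : F, D.T 0 b ∈ M → b ^ (2 ^ d) = b := by
    intro b hb
    by_cases hb0 : b = 0
    · rw [hb0, zero_pow (by positivity)]
    · obtain ⟨μ, hμ, rfl⟩ := hsurj b hb0 hb
      rw [mul_pow, ← pow_mul, mul_comm 2 (2 ^ d), pow_mul, hpow μ hμ, ← map_pow, hpow μ hμ]
  have h2d : 2 ≤ 2 ^ d := by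
    calc 2 = 2 ^ 1 := by norm_num
      _ ≤ 2 ^ d := Nat.pow_le_pow_right (by norm_num) (by omega)
  have hBiff : ∀ b : F, D.T 0 b ∈ M ↔ b ^ (2 ^ d) = b := by
    intro b
    refine ⟨hBpow b, fun hb => ?_⟩
    exact fix_of_card (F := F) h2d (B := {b | D.T 0 b ∈ M}) hBpow (le_of_eq hd.symm) hb
  refine ⟨d, hd2, h4, hd, ?_, hBiff, fun μ => ⟨hpow μ, fun hμ => ?_⟩⟩
  · rw [← hKK, ← Nat.card_eq_fintype_card, ← Nat.card_units]
    exact Subgroup.card_subgroup_dvd_card _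
  · have h5 : D.T 0 ((μ : F) ^ 2 * D.t μ) ∈ M := by
      rw [hBiff, mul_pow, ← pow_mul, mul_comm 2 (2 ^ d), pow_mul, hμ, ← map_pow, hμ]
    obtain ⟨ν, hν1, hν2⟩ := hsurj _ (mul_ne_zero (pow_ne_zero 2 μ.ne_zero) (D.t_unit_ne μ)) h5
    have h6 : μ = ν := Units.ext (D.N_inj ν.ne_zero hν2)
    rw [h6]
    exact hν1

theorem orbit_card (M : Subgroup (Sz F m)) : Nat.card (orbit M (oinf F m)) = Nat.card (Dl M) + 1 := by
  classical
  rw [← Finite.card_option]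
  refine Nat.card_congr (Equiv.symm (Equiv.ofBijective (fun o : Option (Dl M) => match o with
    | none => (⟨oinf F m, mem_orbit_self _⟩ : orbit M (oinf F m))
    | some ω => ⟨ω.1, by
      obtain ⟨y, hy, hy2⟩ := ω.2.2
      exact ⟨⟨y, hy⟩, hy2⟩⟩) ⟨?_, ?_⟩))
  · rintro (_ | ω) (_ | ω') h
    · rfl
    · exact absurd (congrArg Subtype.val h).symm ω'.2.1
    · exact absurd (congrArg Subtype.val h) ω.2.1
    · have h1 : ω.1 = ω'.1 := congrArg (fun z : orbit M (oinf F m) => z.1) h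
      rw [Subtype.ext h1]
  · rintro ⟨p, ⟨⟨y, hy⟩, hyp⟩⟩
    by_cases hp : p = oinf F m
    · exact ⟨none, Subtype.ext hp.symm⟩
    · exact ⟨some ⟨p, hp, y, hy, hyp⟩, rfl⟩

/-- the parameter `a` is not always zero -/
theorem Nrm.exists_a (hm : 1 ≤ m) (hF : Fintype.card F = 2 ^ (2 * m + 1)) (h : Nrm D M) (htor : ∃ μ : Fˣ, μ ≠ 1 ∧ D.h μ ∈ M) :
    ∃ a b : F, a ≠ 0 ∧ D.T a b ∈ M := by
  by_contra hne
  push Not at hne
  obtain ⟨d, hd2, hK, hB, hdvd, -, -⟩ := h.field hm hF htor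
  obtain ⟨hc1, -, -⟩ := h.count hm hF htor
  have h1 : Nat.card (Qt D M) = Nat.card (BB D M) := by
    refine Nat.card_congr ⟨fun q => ⟨q.1.2, ?_⟩, fun b => ⟨(0, b.1), b.2⟩, fun q => ?_, fun b => rfl⟩
    · show D.T 0 q.1.2 ∈ M
      have h2 : q.1.1 = 0 := by
        by_contra h0
        exact hne _ _ h0 q.2
      have h3 := q.2
      rw [h2] at h3
      exact h3
    · have h2 : q.1.1 = 0 := by
        by_contra h0
        exact hne _ _ h0 q.2
      apply Subtype.ext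
      exact Prod.ext h2.symm rfl
  rw [hc1, hB] at h1
  have h2 := orbit_card M
  rw [h1] at h2
  have h3 : 2 ^ d + 1 ∣ Nat.card M := by
    have h4 := Nat.card_congr (orbitProdStabilizerEquivGroup M (oinf F m))
    rw [Nat.card_prod, h2] at h4
    exact ⟨_, h4.symm⟩
  have h4 : ¬ 3 ∣ Nat.card (Sz F m) := not_three_dvd hm hF
  have h5 : Nat.card M ∣ Nat.card (Sz F m) := Subgroup.card_subgroup_dvd_card M
  have h6 : Fintype.card F - 1 ∣ Nat.card (Sz F m) := by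
    rw [D.card_Sz hm hF]
    exact Dvd.intro_left _ rfl
  have h7 : 3 ∣ 2 ^ d + 1 ∨ 3 ∣ 2 ^ d - 1 := by
    have h8 : 2 ^ d % 3 = 1 ∨ 2 ^ d % 3 = 2 := by
      clear hd2 hK hB hdvd h1 h2 h3
      induction d with
      | zero => left; rfl
      | succ n ih => rw [pow_succ]; omega
    have : 0 < 2 ^ d := Nat.two_pow_pos d
    omega
  rcases h7 with h7 | h7
  · exact h4 ((h7.trans h3).trans h5)
  · exact h4 ((h7.trans hdvd).trans h6)

theorem Nrm.eq_fix (hm : 1 ≤ m) (hF : Fintype.card F = 2 ^ (2 * m + 1)) (h : Nrm D M) (htor : ∃ μ : Fˣ, μ ≠ 1 ∧ D.h μ ∈ M) :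
    ∃ (d : ℕ) (φ : F →+* F), 2 ≤ d ∧ (2 ^ d - 1 ∣ Fintype.card F - 1) ∧ (∀ x, φ x = x ^ (2 ^ d)) ∧ M = fixSz φ m := by
  obtain ⟨d, hd2, -, -, hdvd, hB', hK'⟩ := h.field hm hF htor
  obtain ⟨hQc, -, y0, hy0, hy0i⟩ := h.count hm hF htor
  obtain ⟨φ, hφ⟩ := exists_frob hF d
  refine ⟨d, φ, hd2, hdvd, hφ, ?_⟩
  have hB : ∀ b : F, D.T 0 b ∈ M ↔ φ b = b := fun b => by rw [hB', hφ]
  have hK : ∀ μ : Fˣ, D.h μ ∈ M ↔ φ μ = μ := fun μ => by rw [hK', hφ]
  have hφt : ∀ x, φ (D.t x) = D.t (φ x) := D.t_comm φ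
  have hφinj : Function.Injective φ := φ.injective
  -- difference of two elements
  have hdiff : ∀ a b c : F, D.T a b ∈ M → D.T a c ∈ M → φ (b + c) = b + c := by
    intro a b c h1 h2
    rw [← hB]
    have h3 := mul_mem (inv_mem h1) h2
    rw [D.T_inv, D.T_mul] at h3
    have e1 : a + a = 0 := D.add_self a
    have e2 : b + D.t a * a + c + D.t a * a = b + c := by linear_combination D.t a * a * D.two
    rw [e1, e2] at h3
    exact h3
  -- first coordinates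
  have ha : ∀ a b : F, D.T a b ∈ M → φ a = a := by
    intro a b hab
    by_cases ha0 : a = 0
    · rw [ha0, map_zero]
    have h1 := mul_mem hab hab
    rw [D.T_sq, hB, map_mul, hφt] at h1
    have h2 : D.t (φ a / a) * (φ a / a) = 1 := by
      have h3 : D.t a ≠ 0 := fun h => ha0 (D.t_eq_zero.mp h)
      rw [map_div₀]
      field_simp
      exact h1
    have h4 := D.eq_one_of_t_mul h2
    field_simp at h4
    exact h4
  -- lifting torus elements
  have hlift : ∀ x : F, x ≠ 0 → φ x = x → ∃ μ : Fˣ, D.h μ ∈ M ∧ D.t μ = x := by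
    intro x hx hφx
    obtain ⟨μ, hμ⟩ := D.exists_t_unit (Units.mk0 x hx)
    rw [Units.val_mk0] at hμ
    refine ⟨μ, ?_, hμ⟩
    rw [hK]
    apply D.t_inj
    rw [← hφt, hμ, hφx]
  -- normalize
  obtain ⟨a0, b0, ha0, hab0⟩ := h.exists_a hm hF htor
  obtain ⟨b1, hb1⟩ : ∃ b1, D.T 1 b1 ∈ M := by
    have h1 : φ a0⁻¹ = a0⁻¹ := by rw [map_inv₀, ha _ _ hab0]
    obtain ⟨μ, hμ, hμ2⟩ := hlift a0⁻¹ (inv_ne_zero ha0) h1
    have h2 := mul_mem (mul_mem hμ hab0) (inv_mem hμ)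
    rw [D.h_conj_T, hμ2, inv_mul_cancel₀ ha0] at h2
    exact ⟨_, h2⟩
  have hx1 : ∀ x : F, x ≠ 0 → φ x = x → D.T x (x * D.t x * b1) ∈ M := by
    intro x hx hφx
    obtain ⟨μ, hμ, hμ2⟩ := hlift x hx hφx
    have h2 := mul_mem (mul_mem hμ hb1) (inv_mem hμ)
    rw [D.h_conj_T, hμ2, mul_one] at h2
    have h3 : (μ : F) ^ 2 = D.t x := by rw [← D.tt, hμ2]
    rw [h3, mul_comm (D.t x) x] at h2
    exact h2
  have hb1φ : φ b1 = b1 := by
    obtain ⟨μ0, hμ1, hμM⟩ := htor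
    have hx : φ μ0 = μ0 := (hK μ0).mp hμM
    have hx0 : (μ0 : F) ≠ 0 := μ0.ne_zero
    have hx1' : (μ0 : F) ≠ 1 := fun h => hμ1 (Units.ext h)
    obtain ⟨x, hxe⟩ : ∃ x : F, x = μ0 := ⟨_, rfl⟩
    rw [← hxe] at hx hx0 hx1'
    have h1x : x + 1 ≠ 0 := fun h => hx1' (D.add_eq_zero.mp h)
    have hφ1x : φ (x + 1) = x + 1 := by rw [map_add, map_one, hx]
    have h1 := hx1 x hx0 hx
    have h2 := hx1 (x + 1) h1x hφ1x
    have h3 := mul_mem h1 hb1
    rw [D.T_mul] at h3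
    have h4 := hdiff _ _ _ h3 h2
    have h5 : x * D.t x * b1 + b1 + D.t x * 1 + (x + 1) * D.t (x + 1) * b1 = (x + D.t x) * b1 + D.t x := by
      rw [map_add, map_one]
      linear_combination (x * D.t x * b1 + b1) * D.two
    rw [h5, map_add, map_mul, map_add, hφt, hx] at h4
    have h6 : x + D.t x ≠ 0 := by
      intro h0
      have h7 : D.t x = x := (D.add_eq_zero.mp h0).symm
      rcases D.t_fix h7 with h8 | h8
      · exact hx0 h8
      · exact hx1' h8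
    exact mul_left_cancel₀ h6 (add_right_cancel h4)
  have hTiff : ∀ a b : F, D.T a b ∈ M ↔ φ a = a ∧ φ b = b := by
    have key : ∀ a : F, φ a = a → ∃ c, φ c = c ∧ D.T a c ∈ M := by
      intro a hφa
      by_cases ha0 : a = 0
      · exact ⟨0, map_zero φ, by rw [ha0, D.T_zero]; exact one_mem M⟩
      · exact ⟨a * D.t a * b1, by rw [map_mul, map_mul, hφt, hφa, hb1φ], hx1 a ha0 hφa⟩
    intro a b
    constructor
    · intro hab
      have h1 := ha a b hab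
      refine ⟨h1, ?_⟩
      obtain ⟨c, hc, hcM⟩ := key a h1
      have h2 := hdiff a b c hab hcM
      rw [map_add, hc] at h2
      exact add_right_cancel h2
    · rintro ⟨h1, h2⟩
      obtain ⟨c, hc, hcM⟩ := key a h1
      have h3 : D.T 0 (c + b) ∈ M := by rw [hB, map_add, hc, h2]
      have h4 := mul_mem hcM h3
      rw [D.T_mul] at h4
      have e1 : c + (c + b) + D.t a * 0 = b := by linear_combination c * D.two
      rw [add_zero, e1] at h4
      exact h4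
  -- transitivity on the orbit
  have hbij : ∀ ω : Dl M, ∀ ω' : Dl M, ∃ a b : F, D.T a b ∈ M ∧ D.T a b • ω.1 = ω'.1 := by
    intro ω ω'
    have h1 := (Q_le_Dl_aux (D := D) ω).bijective_of_nat_card_le (le_of_eq hQc.symm)
    obtain ⟨q, hq⟩ := h1.2 ω'
    exact ⟨q.1.1, q.1.2, q.2, congrArg (fun p : Dl M => p.1) hq⟩
  obtain ⟨ω0, hω0⟩ : ∃ ω0 : Dl M, ω0.1 = opt m (0 : F) 0 := ⟨⟨opt m (0 : F) 0, opt_ne_inf _ _, y0, hy0, hy0i⟩, rfl⟩
  have hDl : ∀ ω : Dl M, ∃ a b : F, D.T a b ∈ M ∧ ω.1 = opt m a b := by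
    intro ω
    obtain ⟨a, b, hab, h2⟩ := hbij ω0 ω
    refine ⟨a, b, hab, ?_⟩
    rw [← h2, hω0, D.T_from_zero]
  -- the swap
  have hwM : wS D ∈ M := by
    have h1 : y0⁻¹ • oinf F m ≠ oinf F m := by
      intro h1
      rw [inv_smul_eq_iff, hy0i] at h1
      exact opt_ne_inf _ _ h1.symm
    obtain ⟨ω1, hω1⟩ : ∃ ω1 : Dl M, ω1.1 = y0⁻¹ • oinf F m := ⟨⟨y0⁻¹ • oinf F m, h1, y0⁻¹, inv_mem hy0, rfl⟩, rfl⟩
    obtain ⟨a, b, hab, h2⟩ := hbij ω0 ω1
    rw [hω0, hω1] at h2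
    have h3 : y0 * D.T a b ∈ M := mul_mem hy0 hab
    have h4 : (y0 * D.T a b) • opt m (0 : F) 0 = oinf F m := by rw [mul_smul, h2, smul_inv_smul]
    have h5 : (y0 * D.T a b) • oinf F m = opt m (0 : F) 0 := by rw [mul_smul, D.T_inf, hy0i]
    obtain ⟨ν, hν⟩ := D.stab2' hm hF (g := wS D * (y0 * D.T a b)) (by rw [mul_smul, h5, D.w_zero]) (by rw [mul_smul, h4, D.w_inf])
    have hw' : (wS D)⁻¹ = wS D := inv_eq_of_mul_eq_one_left D.w_w
    have h6 : wS D * D.h ν ∈ M := by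
      rw [← hν, ← mul_assoc, D.w_w, one_mul]
      exact h3
    -- apply to the point `(0, 1)`
    have hT01 : D.T 0 1 • opt m (0 : F) 0 = opt m (0 : F) 1 := D.T_from_zero 0 1
    have h7 : (wS D * D.h ν) • opt m (0 : F) 1 = opt m ((D.t ν)⁻¹) 0 := by
      have hν0 : (ν : F) ≠ 0 := ν.ne_zero
      have htν : D.t ν ≠ 0 := D.t_unit_ne ν
      have hff : ff m (0 : F) (ν ^ 2 * D.t ν) = D.t ν ^ 2 * ν ^ 2 := by
        rw [D.ff_eq, map_zero, map_mul, map_pow, D.tt]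
        ring
      rw [mul_smul, D.h_pt, mul_zero, mul_one, D.w_pt (by rw [hff]; exact mul_ne_zero (pow_ne_zero 2 htν) (pow_ne_zero 2 hν0)), hff, opt_inj]
      constructor
      · field_simp
      · rw [zero_div]
    obtain ⟨ω2, hω2⟩ : ∃ ω2 : Dl M, ω2.1 = opt m ((D.t ν)⁻¹) 0 := by
      refine ⟨⟨opt m ((D.t ν)⁻¹) 0, opt_ne_inf _ _, wS D * D.h ν * (D.T 0 1 * y0), mul_mem h6 (mul_mem h.one hy0), ?_⟩, rfl⟩
      rw [mul_smul (wS D * D.h ν), mul_smul (D.T 0 1), hy0i, hT01, h7]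
    obtain ⟨a', b', hab', h8⟩ := hDl ω2
    rw [hω2, opt_inj] at h8
    have h9 : φ ((D.t ν)⁻¹) = (D.t ν)⁻¹ := by
      rw [h8.1]
      exact ha _ _ hab'
    have h10 : φ ν = ν := by
      apply D.t_inj
      rw [← hφt]
      rw [map_inv₀, _root_.inv_inj] at h9
      exact h9
    have h11 := mul_mem h6 (inv_mem ((hK ν).mpr h10))
    rwa [mul_inv_cancel_right] at h11
  apply le_antisymm
  · have h1 : ∀ g ∈ M, g • oinf F m = oinf F m → g ∈ fixSz φ m := by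
      intro g hg hgi
      obtain ⟨a, b, μ, rfl⟩ := D.stab_inf hm hF hgi
      have h2 := h.split a b μ hg
      have h3 : D.T a b ∈ M := by
        have := mul_mem hg (inv_mem h2)
        rwa [mul_inv_cancel_right] at this
      exact mul_mem ((D.T_mem_fixSz φ).mpr ((hTiff a b).mp h3)) ((D.h_mem_fixSz φ).mpr ((hK μ).mp h2))
    intro g hg
    by_cases hgi : g • oinf F m = oinf F m
    · exact h1 g hg hgi
    · obtain ⟨a, b, hab, h2⟩ := hDl ⟨g • oinf F m, hgi, g, hg, rfl⟩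
      have h2' : g • oinf F m = opt m a b := h2
      have h3 : wS D * (D.T a b)⁻¹ * g ∈ fixSz φ m := by
        apply h1
        · exact mul_mem (mul_mem hwM (inv_mem hab)) hg
        · rw [mul_smul, mul_smul, h2', ← D.T_from_zero a b, inv_smul_smul, D.w_zero]
      have e : g = D.T a b * (wS D)⁻¹ * (wS D * (D.T a b)⁻¹ * g) := by group
      rw [e]
      exact mul_mem (mul_mem ((D.T_mem_fixSz φ).mpr ((hTiff a b).mp hab)) (inv_mem (D.w_mem_fixSz φ))) h3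
  · exact D.fixSz_le hm hF (fun a b h1 h2 => (hTiff a b).mpr ⟨h1, h2⟩) (fun μ hμ => (hK μ).mpr hμ) hwM

end CfsgLib.H7S
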