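import Mathlib
import Cfsg.Agent.Lib.H7SO
import Cfsg.Agent.Lib.Invol

/-!
# The Suzuki groups: the Frobenius case
-/

set_option autoImplicit false
set_option linter.style.haveILetI false
set_option linter.unusedSectionVars false

open MulAction Cfsg Matrix
open scoped Pointwise commutatorElement

namespace CfsgLib.H7S

universe u v

/-- Frobenius groups with complements of even order, elementary form -/
theorem frob_even {G Ω : Type*} [Group G] [Finite G] [MulAction G Ω] [Finite Ω] (htr : IsPretransitive G Ω) (hne : Nonempty Ω)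
    (hfrob : ∀ g : G, g ≠ 1 → ∀ a b : Ω, g • a = a → g • b = b → a = b)
    (hex : ∀ ω : Ω, ∃ t : G, t * t = 1 ∧ t ≠ 1 ∧ t • ω = ω)
    (huniq : ∀ (ω : Ω) (s t : G), s * s = 1 → s ≠ 1 → s • ω = ω → t * t = 1 → t ≠ 1 → t • ω = ω → s = t)
    {i j k : G} (hi : i * i = 1 ∧ i ≠ 1) (hj : j * j = 1 ∧ j ≠ 1) (hk : k * k = 1 ∧ k ≠ 1) :
    i * j * k * (i * j * k) = 1 ∧ i * j * k ≠ 1 := by
  classical
  haveI := Fintype.ofFinite G
  haveI := Fintype.ofFinite Ω
  -- number of involutions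
  have h1 : Nat.card Ω ≤ Nat.card {s : G // s * s = 1 ∧ s ≠ 1} := by
    choose f hf using hex
    refine Nat.card_le_card_of_injective (fun ω => (⟨f ω, (hf ω).1, (hf ω).2.1⟩ : {s : G // s * s = 1 ∧ s ≠ 1})) ?_
    intro ω ω' h
    have h2 : f ω = f ω' := congrArg Subtype.val h
    exact hfrob _ (hf ω).2.1 _ _ (hf ω).2.2 (by rw [h2]; exact (hf ω').2.2)
  -- number of fixed-point-free elements
  have h2 : Nat.card {g : G // g = 1 ∨ ∀ ω : Ω, g • ω ≠ ω} ≤ Nat.card Ω := by
    have h3 := sum_card_fixedBy_eq_card_orbits_mul_card_group G Ω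
    have h4 : Fintype.card (Quotient (orbitRel G Ω)) = 1 := by
      rw [Fintype.card_eq_one_iff_nonempty_unique]
      haveI : Subsingleton (Quotient (orbitRel G Ω)) := (pretransitive_iff_subsingleton_quotient G Ω).mp htr
      obtain ⟨ω⟩ := hne
      exact ⟨⟨⟨Quotient.mk _ ω⟩, fun _ => Subsingleton.elim _ _⟩⟩
    rw [h4, one_mul, ← Finset.add_sum_erase Finset.univ _ (Finset.mem_univ (1 : G))] at h3
    have h5 : Fintype.card (fixedBy Ω (1 : G)) = Fintype.card Ω := by
      rw [Fintype.card_congr (Equiv.setCongr (show fixedBy Ω (1 : G) = Set.univ by ext; simp))]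
      exact Fintype.card_congr (Equiv.Set.univ Ω)
    rw [h5] at h3
    have h6 : ∀ g : G, g ≠ 1 → Fintype.card (fixedBy Ω g) + (if (∀ ω : Ω, g • ω ≠ ω) then 1 else 0) = 1 := by
      intro g hg
      by_cases h : ∀ ω : Ω, g • ω ≠ ω
      · rw [if_pos h]
        haveI : IsEmpty (fixedBy Ω g) := ⟨fun p => h p.1 p.2⟩
        rw [Fintype.card_eq_zero]
      · rw [if_neg h]
        push Not at h
        obtain ⟨ω, hω⟩ := h
        rw [add_zero, Fintype.card_eq_one_iff]
        exact ⟨⟨ω, hω⟩, fun p => Subtype.ext (hfrob g hg _ _ p.2 hω)⟩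
    have h7 : ∑ g ∈ Finset.univ.erase (1 : G), (Fintype.card (fixedBy Ω g) + (if (∀ ω : Ω, g • ω ≠ ω) then 1 else 0)) = Fintype.card G - 1 := by
      rw [Finset.sum_congr rfl (fun g hg => h6 g (Finset.ne_of_mem_erase hg)), Finset.sum_const, smul_eq_mul, mul_one,
        Finset.card_erase_of_mem (Finset.mem_univ _), Finset.card_univ]
    rw [Finset.sum_add_distrib, ← Finset.card_filter] at h7
    have h8 : Nat.card {g : G // g = 1 ∨ ∀ ω : Ω, g • ω ≠ ω} = (Finset.filter (fun g : G => ∀ ω : Ω, g • ω ≠ ω) (Finset.univ.erase (1 : G))).card + 1 := by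
      rw [Nat.card_eq_fintype_card, Fintype.card_subtype]
      have e : (Finset.univ.filter (fun g : G => g = 1 ∨ ∀ ω : Ω, g • ω ≠ ω)) =
          insert 1 (Finset.filter (fun g : G => ∀ ω : Ω, g • ω ≠ ω) (Finset.univ.erase (1 : G))) := by
        ext g
        simp only [Finset.mem_filter, Finset.mem_univ, true_and, Finset.mem_insert, Finset.mem_erase, and_true]
        constructor
        · rintro (h | h)
          · exact Or.inl h
          · by_cases hg : g = 1
            · exact Or.inl hg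
            · exact Or.inr ⟨hg, h⟩
        · rintro (h | h)
          · exact Or.inl h
          · exact Or.inr h.2
      rw [e, Finset.card_insert_of_notMem (by simp)]
    have h9 : 0 < Fintype.card G := Fintype.card_pos
    rw [h8, Nat.card_eq_fintype_card]
    omega
  -- products of two involutions
  have h3 : ∀ a b : G, a * a = 1 ∧ a ≠ 1 → b * b = 1 ∧ b ≠ 1 → a * b = 1 ∨ ∀ ω : Ω, (a * b) • ω ≠ ω := by
    intro a b ha hb
    by_contra hne2
    push Not at hne2
    obtain ⟨hab1, ω, hω⟩ := hne2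
    have hinv : (a * b) • (b * a) • ω = ω := by
      rw [smul_smul]
      have : a * b * (b * a) = 1 := by
        calc a * b * (b * a) = a * (b * b) * a := by group
          _ = 1 := by rw [hb.1, mul_one, ha.1]
      rw [this, one_smul]
    have h4 : (b * a) • ω = ω := by
      have h5 : (b * a) • ((a * b) • ω) = ω := by
        rw [smul_smul]
        have : b * a * (a * b) = 1 := by
          calc b * a * (a * b) = b * (a * a) * b := by group
            _ = 1 := by rw [ha.1, mul_one, hb.1]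
        rw [this, one_smul]
      rwa [hω] at h5
    have h5 : (a * b) • (a • ω) = a • ω := by
      rw [mul_smul, ← mul_smul b a, h4]
    have h6 : a • ω = ω := hfrob _ hab1 _ _ h5 hω
    have h7 : b • ω = ω := by
      rw [mul_smul] at hω
      have h8 : a • (a • b • ω) = a • ω := by rw [hω]
      rw [smul_smul, ha.1, one_smul, h6] at h8
      exact h8
    have h8 := huniq ω a b ha.1 ha.2 h6 hb.1 hb.2 h7
    rw [h8] at hab1
    exact hab1 hb.1
  -- surjectivity
  have h4 : ∀ x : G, (x = 1 ∨ ∀ ω : Ω, x • ω ≠ ω) → ∃ l : G, (l * l = 1 ∧ l ≠ 1) ∧ x = i * l := by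
    obtain ⟨f, hf⟩ : ∃ f : {s : G // s * s = 1 ∧ s ≠ 1} → {g : G // g = 1 ∨ ∀ ω : Ω, g • ω ≠ ω}, ∀ s, (f s).1 = i * s.1 :=
      ⟨fun s => ⟨i * s.1, h3 i s.1 hi s.2⟩, fun _ => rfl⟩
    have hinj : Function.Injective f := by
      intro s s' h
      have h5 : i * s.1 = i * s'.1 := by rw [← hf, ← hf, h]
      exact Subtype.ext (mul_left_cancel h5)
    have hbij := hinj.bijective_of_nat_card_le (h2.trans h1)
    intro x hx
    obtain ⟨l, hl⟩ := hbij.2 ⟨x, hx⟩
    exact ⟨l.1, l.2, by rw [← hf, hl]⟩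
  obtain ⟨l, hl, hl2⟩ := h4 (j * k) (h3 j k hj hk)
  have e : i * j * k = l := by
    rw [mul_assoc, hl2, ← mul_assoc, hi.1, one_mul]
  rw [e]
  exact hl

/-- products of two involutions commute -/
theorem frob_comm {G Ω : Type*} [Group G] [Finite G] [MulAction G Ω] [Finite Ω] (htr : IsPretransitive G Ω) (hne : Nonempty Ω)
    (hfrob : ∀ g : G, g ≠ 1 → ∀ a b : Ω, g • a = a → g • b = b → a = b)
    (hex : ∀ ω : Ω, ∃ t : G, t * t = 1 ∧ t ≠ 1 ∧ t • ω = ω)
    (huniq : ∀ (ω : Ω) (s t : G), s * s = 1 → s ≠ 1 → s • ω = ω → t * t = 1 → t ≠ 1 → t • ω = ω → s = t)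
    {i j k l : G} (hi : i * i = 1 ∧ i ≠ 1) (hj : j * j = 1 ∧ j ≠ 1) (hk : k * k = 1 ∧ k ≠ 1)
    (hl : l * l = 1 ∧ l ≠ 1) : (i * j) * (k * l) = (k * l) * (i * j) := by
  have h1 : ∀ a b c : G, a * a = 1 ∧ a ≠ 1 → b * b = 1 ∧ b ≠ 1 → c * c = 1 ∧ c ≠ 1 → a * b * c = c * b * a := by
    intro a b c ha hb hc
    have h2 := (frob_even htr hne hfrob hex huniq ha hb hc).1
    have h3 : (c * b * a) * (a * b * c) = 1 := by
      calc (c * b * a) * (a * b * c) = c * (b * (a * a) * b) * c := by group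
        _ = 1 := by rw [ha.1, mul_one, hb.1, mul_one, hc.1]
    exact mul_right_cancel (h2.trans h3.symm)
  calc (i * j) * (k * l) = (i * j * k) * l := by group
    _ = (k * j * i) * l := by rw [h1 i j k hi hj hk]
    _ = k * (j * i * l) := by group
    _ = k * (l * i * j) := by rw [h1 j i l hj hi hl]
    _ = (k * l) * (i * j) := by group

variable {F : Type u} [Field F] [Fintype F] {m : ℕ} {D : SD F m} {M : Subgroup (Sz F m)}

/-- the Frobenius case -/
theorem case_frob (hm : 1 ≤ m) (hF : Fintype.card F = 2 ^ (2 * m + 1)) (h1 : D.T 0 1 ∈ M) (hmove : ∃ y ∈ M, y • oinf F m ≠ oinf F m)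
    (hK : ∀ g ∈ M, g • oinf F m = oinf F m → ∃ a b : F, g = D.T a b) :
    ∃ x : Sz F m, x ≠ 1 ∧ ((∃ c d : suzukiOvoid F m, c ≠ d ∧ x • c = c ∧ x • d = d) ∨ FP x) ∧
      ∀ g ∈ M, g * x * g⁻¹ ∈ Subgroup.centralizer ({x} : Set (Sz F m)) := by
  have hN : Nrm D M := by
    refine ⟨h1, hmove, fun a b μ hM => ?_⟩
    obtain ⟨a', b', h2⟩ := hK _ hM (by
      show (D.T a b * D.h μ) • oinf F m = oinf F m
      rw [mul_smul, D.h_inf, D.T_inf])
    have h3 : D.h μ = D.T a (b + D.t a * a) * D.T a' b' := by rw [← D.T_inv, ← h2]; group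
    rw [D.T_mul] at h3
    have h4 : D.h μ • opt m (0 : F) 0 = opt m (0 : F) 0 := by rw [D.h_pt, mul_zero, mul_zero]
    rw [h3] at h4
    obtain ⟨h5, h6⟩ := T_semireg (opt_ne_inf _ _) h4
    rw [h3, h5, h6, D.T_zero]
    exact one_mem M
  -- the unique involution
  have hz : ∀ b : F, b ≠ 0 → D.T 0 b ∈ M → b = 1 := by
    have e1 := Dl_Bz_le (D := D) (M := M)
    have e2 := It_le (M := M) hm hF
    have e3 := Y_le hm hF hN
    have e4 : Nat.card (Kz1 D M) = 0 := by
      haveI : IsEmpty (Kz1 D M) := by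
        constructor
        rintro ⟨μ, hμ1, hμ2⟩
        obtain ⟨a, b, h2⟩ := hK _ hμ2 (D.h_inf μ)
        have h4 : D.h μ • opt m (0 : F) 0 = opt m (0 : F) 0 := by rw [D.h_pt, mul_zero, mul_zero]
        rw [h2] at h4
        obtain ⟨h5, h6⟩ := T_semireg (opt_ne_inf _ _) h4
        rw [h5, h6, D.T_zero] at h2
        exact hμ1 (D.h_inj (by rw [h2, D.h_one]))
      exact Nat.card_of_isEmpty
    rw [e4, mul_zero] at e3
    haveI := hN.Dl_nonempty
    have e5 : 0 < Nat.card (Dl M) := Nat.card_pos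
    have e6 : Nat.card (Dl M) * Nat.card (Bz D M) ≤ Nat.card (Dl M) * 1 := by omega
    have e7 : Nat.card (Bz D M) ≤ 1 := Nat.le_of_mul_le_mul_left e6 e5
    haveI : Subsingleton (Bz D M) := Finite.card_le_one_iff_subsingleton.mp e7
    intro b hb hbM
    have e8 : (⟨b, hb, hbM⟩ : Bz D M) = ⟨1, one_ne_zero, h1⟩ := Subsingleton.elim _ _
    exact congrArg Subtype.val e8
  obtain ⟨y0, hy0, hy0i⟩ := hmove
  -- the action on the orbit
  obtain ⟨i0, hi0⟩ : ∃ i0 : orbit M (oinf F m), i0.1 = oinf F m := ⟨⟨_, mem_orbit_self _⟩, rfl⟩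
  have hval : ∀ (g : M) (p : orbit M (oinf F m)), (g • p).1 = (g : Sz F m) • p.1 := fun _ _ => rfl
  have hreach : ∀ p : orbit M (oinf F m), ∃ y ∈ M, y • oinf F m = p.1 := by
    rintro ⟨p, ⟨y, hy⟩, hyp⟩
    exact ⟨y, hy, hyp⟩
  have hfrob : ∀ g : M, g ≠ 1 → ∀ a b : orbit M (oinf F m), g • a = a → g • b = b → a = b := by
    intro g hg a b ha hb
    by_contra hab
    obtain ⟨y, hy, hya⟩ := hreach a
    have ha' : (g : Sz F m) • a.1 = a.1 := congrArg Subtype.val ha
    have hb' : (g : Sz F m) • b.1 = b.1 := congrArg Subtype.val hb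
    have h2 : (y⁻¹ * g * y) • oinf F m = oinf F m := by
      rw [mul_smul, mul_smul, hya, ha', ← hya, inv_smul_smul]
    obtain ⟨c, d, h3⟩ := hK _ (mul_mem (mul_mem (inv_mem hy) g.2) hy) h2
    have h4 : (y⁻¹ * g * y) • (y⁻¹ • b.1) = y⁻¹ • b.1 := by
      rw [mul_smul, mul_smul, smul_inv_smul, hb']
    have h5 : y⁻¹ • b.1 ≠ oinf F m := by
      intro h
      rw [inv_smul_eq_iff, hya] at h
      exact hab (Subtype.ext h).symm
    rw [h3] at h4
    obtain ⟨h6, h7⟩ := T_semireg h5 h4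
    rw [h6, h7, D.T_zero] at h3
    apply hg
    apply Subtype.ext
    calc (g : Sz F m) = y * (y⁻¹ * g * y) * y⁻¹ := by group
      _ = 1 := by rw [h3]; group
  have hT1 : D.T 0 1 * D.T 0 1 = 1 := by rw [D.T_sq, mul_zero, D.T_zero]
  have hT2 : D.T 0 1 ≠ 1 := D.T_ne_one (fun h => one_ne_zero h.2)
  have hex : ∀ ω : orbit M (oinf F m), ∃ t : M, t * t = 1 ∧ t ≠ 1 ∧ t • ω = ω := by
    intro ω
    obtain ⟨y, hy, hyω⟩ := hreach ω
    refine ⟨⟨y * D.T 0 1 * y⁻¹, mul_mem (mul_mem hy h1) (inv_mem hy)⟩, ?_, ?_, ?_⟩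
    · apply Subtype.ext
      show y * D.T 0 1 * y⁻¹ * (y * D.T 0 1 * y⁻¹) = 1
      calc y * D.T 0 1 * y⁻¹ * (y * D.T 0 1 * y⁻¹) = y * (D.T 0 1 * D.T 0 1) * y⁻¹ := by group
        _ = 1 := by rw [hT1]; group
    · intro h
      have h2 : y * D.T 0 1 * y⁻¹ = 1 := congrArg Subtype.val h
      apply hT2
      calc D.T 0 1 = y⁻¹ * (y * D.T 0 1 * y⁻¹) * y := by group
        _ = 1 := by rw [h2]; group
    · apply Subtype.ext
      rw [hval]
      show (y * D.T 0 1 * y⁻¹) • ω.1 = ω.1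
      rw [← hyω, mul_smul, mul_smul, inv_smul_smul, D.T_inf]
  have huniq : ∀ (ω : orbit M (oinf F m)) (s t : M), s * s = 1 → s ≠ 1 → s • ω = ω → t * t = 1 → t ≠ 1 → t • ω = ω → s = t := by
    intro ω
    obtain ⟨y, hy, hyω⟩ := hreach ω
    have h2 : ∀ s : M, s * s = 1 → s ≠ 1 → s • ω = ω → y⁻¹ * s * y = D.T 0 1 := by
      intro s hs hs1 hsω
      have hsω' : (s : Sz F m) • ω.1 = ω.1 := congrArg Subtype.val hsω
      have h3 : (y⁻¹ * s * y) • oinf F m = oinf F m := by
        rw [mul_smul, mul_smul, hyω, hsω', ← hyω, inv_smul_smul]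
      have hsM : y⁻¹ * s * y ∈ M := mul_mem (mul_mem (inv_mem hy) s.2) hy
      obtain ⟨c, d, h4⟩ := hK _ hsM h3
      have hss : (s : Sz F m) * s = 1 := congrArg Subtype.val hs
      have h5 : (y⁻¹ * s * y) * (y⁻¹ * s * y) = 1 := by
        calc (y⁻¹ * s * y) * (y⁻¹ * s * y) = y⁻¹ * (s * s) * y := by group
          _ = 1 := by rw [hss]; group
      rw [h4, D.T_sq, ← D.T_zero, D.T_inj] at h5
      have hc : c = 0 := by
        rcases mul_eq_zero.mp h5.2 with h | h
        · exact D.t_eq_zero.mp h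
        · exact h
      rw [hc] at h4
      have hd : d ≠ 0 := by
        rintro rfl
        rw [D.T_zero] at h4
        apply hs1
        apply Subtype.ext
        calc (s : Sz F m) = y * (y⁻¹ * s * y) * y⁻¹ := by group
          _ = 1 := by rw [h4]; group
      rw [h4] at hsM ⊢
      rw [hz d hd hsM]
    intro s t hs hs1 hsω ht ht1 htω
    have h3 := (h2 s hs hs1 hsω).trans (h2 t ht ht1 htω).symm
    apply Subtype.ext
    exact mul_left_cancel (mul_right_cancel h3)
  haveI : Nonempty (orbit M (oinf F m)) := ⟨i0⟩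
  obtain ⟨t, ht⟩ : ∃ t : M, (t : Sz F m) = D.T 0 1 := ⟨⟨D.T 0 1, h1⟩, rfl⟩
  obtain ⟨s, hs⟩ : ∃ s : M, (s : Sz F m) = y0 * D.T 0 1 * y0⁻¹ := ⟨⟨_, mul_mem (mul_mem hy0 h1) (inv_mem hy0)⟩, rfl⟩
  have htt : t * t = 1 ∧ t ≠ 1 := ⟨Subtype.ext (by rw [Subgroup.coe_mul, ht]; exact hT1), fun h => hT2 (by rw [← ht, h]; rfl)⟩
  have hconj : ∀ (g u : M), u * u = 1 ∧ u ≠ 1 → (g * u * g⁻¹) * (g * u * g⁻¹) = 1 ∧ g * u * g⁻¹ ≠ 1 := by
    intro g u hu
    refine ⟨?_, fun h => hu.2 ?_⟩
    · calc (g * u * g⁻¹) * (g * u * g⁻¹) = g * (u * u) * g⁻¹ := by group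
        _ = 1 := by rw [hu.1]; group
    · calc u = g⁻¹ * (g * u * g⁻¹) * g := by group
        _ = 1 := by rw [h]; group
  have hss : s * s = 1 ∧ s ≠ 1 := by
    have e : s = ⟨y0, hy0⟩ * t * ⟨y0, hy0⟩⁻¹ := by
      apply Subtype.ext
      rw [hs, ← ht]
      rfl
    rw [e]
    exact hconj _ _ htt
  have hst : (t : Sz F m) * s ≠ 1 := by
    intro h
    have h2 : (t : Sz F m) = s := by
      have h3 : (s : Sz F m) * s = 1 := congrArg Subtype.val hss.1
      exact mul_right_cancel (h.trans h3.symm)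
    have h3 : (s : Sz F m) • oinf F m = oinf F m := by rw [← h2, ht, D.T_inf]
    rw [hs, mul_smul, mul_smul, ← eq_inv_smul_iff] at h3
    have h4 := D.T_fix (fun h => one_ne_zero h.2) h3
    rw [inv_smul_eq_iff] at h4
    exact hy0i h4.symm
  refine ⟨t * s, hst, ?_, ?_⟩
  · rcases trichotomy hm hF hst with ⟨k, hk⟩ | h | h
    · exfalso
      -- the fixed point of `ts`
      obtain ⟨a, b, hab⟩ := (exists_SD hF).some.mem_P.mp hk
      have h2 : ((t : Sz F m) * s) • (k⁻¹ • oinf F m) = k⁻¹ • oinf F m := by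
        have h3 : (k * (t * s) * k⁻¹) • oinf F m = oinf F m := by rw [hab, SD.T_inf]
        rw [mul_smul, mul_smul] at h3
        exact eq_inv_smul_iff.mpr h3
      have h3 : ∀ p : suzukiOvoid F m, ((t : Sz F m) * s) • p = p → p = k⁻¹ • oinf F m := by
        intro p hp
        have hne : ¬ (a = 0 ∧ b = 0) := by
          rintro ⟨rfl, rfl⟩
          rw [SD.T_zero] at hab
          apply hst
          calc (t : Sz F m) * s = k⁻¹ * (k * (t * s) * k⁻¹) * k := by group
            _ = 1 := by rw [hab]; group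
        have h4 : (exists_SD hF).some.T a b • (k • p) = k • p := by
          rw [← hab, smul_smul, inv_mul_cancel_right, mul_smul, hp]
        have h5 := SD.T_fix _ hne h4
        rw [← h5, inv_smul_smul]
      have htt' : (t : Sz F m) * t = 1 := congrArg Subtype.val htt.1
      have hss' : (s : Sz F m) * s = 1 := congrArg Subtype.val hss.1
      have h4 : ((t : Sz F m) * s) • ((t : Sz F m) • (k⁻¹ • oinf F m)) = (t : Sz F m) • (k⁻¹ • oinf F m) := by
        have h5 : ((s : Sz F m) * t) • (k⁻¹ • oinf F m) = k⁻¹ • oinf F m := by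
          have h6 : ((s : Sz F m) * t) • (((t : Sz F m) * s) • (k⁻¹ • oinf F m)) = k⁻¹ • oinf F m := by
            rw [smul_smul]
            have : (s : Sz F m) * t * (t * s) = 1 := by
              calc (s : Sz F m) * t * (t * s) = s * (t * t) * s := by group
                _ = 1 := by rw [htt', mul_one, hss']
            rw [this, one_smul]
          rwa [h2] at h6
        rw [mul_smul, ← mul_smul (s : Sz F m) (t : Sz F m), h5]
      have h5 := h3 _ h4
      rw [ht] at h5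
      have h6 := D.T_fix (fun h => one_ne_zero h.2) h5
      rw [h6] at h2
      have h7 : (s : Sz F m) • oinf F m = oinf F m := by
        rw [mul_smul] at h2
        have h8 : (t : Sz F m) • ((t : Sz F m) • ((s : Sz F m) • oinf F m)) = (t : Sz F m) • oinf F m := by rw [h2]
        rw [smul_smul, htt', one_smul, ht, D.T_inf] at h8
        exact h8
      rw [hs, mul_smul, mul_smul, ← eq_inv_smul_iff] at h7
      have h8 := D.T_fix (fun h => one_ne_zero h.2) h7
      rw [inv_smul_eq_iff] at h8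
      exact hy0i h8.symm
    · exact Or.inl h
    · exact Or.inr h
  · intro g hg
    rw [Subgroup.mem_centralizer_singleton_iff]
    have h2 := frob_comm (G := M) (Ω := orbit M (oinf F m)) inferInstance inferInstance hfrob hex huniq
      (hconj ⟨g, hg⟩ t htt) (hconj ⟨g, hg⟩ s hss) htt hss
    have h3 := congrArg Subtype.val h2
    have e : g * (t * s) * g⁻¹ = (g * t * g⁻¹) * (g * s * g⁻¹) := by group
    rw [e]
    exact h3

end CfsgLib.H7S
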