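import Mathlib
import Cfsg.Agent.Lib.H7SP

/-!
# The Suzuki groups: classification of subgroups
-/

set_option autoImplicit false
set_option linter.style.haveILetI false
set_option linter.unusedSectionVars false

open MulAction Cfsg Matrix
open scoped Pointwise commutatorElement

namespace CfsgLib.H7S

universe u v

/-- conjugate subgroup `k M k⁻¹` -/
def cj {G : Type*} [Group G] (k : G) (M : Subgroup G) : Subgroup G := M.comap (MulAut.conj k⁻¹).toMonoidHom

theorem mem_cj {G : Type*} [Group G] {k g : G} {M : Subgroup G} : g ∈ cj k M ↔ k⁻¹ * g * k ∈ M := by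
  show (MulAut.conj k⁻¹) g ∈ M ↔ _
  rw [MulAut.conj_apply, inv_inv]

theorem mem_cj' {G : Type*} [Group G] {k g : G} {M : Subgroup G} : k * g * k⁻¹ ∈ cj k M ↔ g ∈ M := by
  rw [mem_cj]
  have : k⁻¹ * (k * g * k⁻¹) * k = g := by group
  rw [this]

variable {F : Type u} [Field F] [Fintype F] {m : ℕ}

/-- the three types of subgroups -/
def Good (M : Subgroup (Sz F m)) : Prop :=
  (∃ c : suzukiOvoid F m, M ≤ stabilizer (Sz F m) c) ∨
  (∃ x : Sz F m, x ≠ 1 ∧ ((∃ c d : suzukiOvoid F m, c ≠ d ∧ x • c = c ∧ x • d = d) ∨ FP x) ∧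
    ∀ g ∈ M, g * x * g⁻¹ ∈ Subgroup.centralizer ({x} : Set (Sz F m))) ∨
  (∃ (d : ℕ) (φ : F →+* F) (k : Sz F m), 2 ≤ d ∧ (2 ^ d - 1 ∣ Fintype.card F - 1) ∧ (∀ x, φ x = x ^ (2 ^ d)) ∧
    ∀ g : Sz F m, g ∈ M ↔ k * g * k⁻¹ ∈ fixSz φ m)

theorem Good_of_cj {M : Subgroup (Sz F m)} (k : Sz F m) (h : Good (cj k M)) : Good M := by
  rcases h with ⟨c, hc⟩ | ⟨x, hx1, hx, hM⟩ | ⟨d, φ, l, h1, h2, h3, h4⟩
  · left
    refine ⟨k⁻¹ • c, fun g hg => ?_⟩
    have h1 : (k * g * k⁻¹) • c = c := hc (mem_cj'.mpr hg)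
    show g • (k⁻¹ • c) = k⁻¹ • c
    rw [mul_smul, mul_smul] at h1
    exact eq_inv_smul_iff.mpr h1
  · right; left
    refine ⟨k⁻¹ * x * k, ?_, ?_, ?_⟩
    · intro h
      apply hx1
      calc x = k * (k⁻¹ * x * k) * k⁻¹ := by group
        _ = 1 := by rw [h]; group
    · rcases hx with ⟨c, d, hcd, hc, hd⟩ | hx
      · left
        refine ⟨k⁻¹ • c, k⁻¹ • d, fun h => hcd (smul_left_cancel _ h), ?_, ?_⟩
        · rw [mul_smul, mul_smul, smul_inv_smul, hc]
        · rw [mul_smul, mul_smul, smul_inv_smul, hd]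
      · right
        have := FP_conj k⁻¹ hx
        rwa [inv_inv] at this
    · intro g hg
      have h1 := hM _ (mem_cj'.mpr hg)
      rw [Subgroup.mem_centralizer_singleton_iff] at h1 ⊢
      calc g * (k⁻¹ * x * k) * g⁻¹ * (k⁻¹ * x * k) = k⁻¹ * (k * g * k⁻¹ * x * (k * g * k⁻¹)⁻¹ * x) * k := by group
        _ = k⁻¹ * (x * (k * g * k⁻¹ * x * (k * g * k⁻¹)⁻¹)) * k := by rw [h1]
        _ = k⁻¹ * x * k * (g * (k⁻¹ * x * k) * g⁻¹) := by group
  · right; right
    refine ⟨d, φ, l * k, h1, h2, h3, fun g => ?_⟩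
    rw [← mem_cj' (k := k), h4]
    have : l * (k * g * k⁻¹) * l⁻¹ = l * k * g * (l * k)⁻¹ := by group
    rw [this]

theorem T_h_unique {D : SD F m} {a b a' b' : F} {μ ν : Fˣ} (h : D.T a b * D.h μ = D.T a' b' * D.h ν) : μ = ν := by
  have h1 : (D.T a' b')⁻¹ * D.T a b = D.h ν * (D.h μ)⁻¹ := by
    calc (D.T a' b')⁻¹ * D.T a b = (D.T a' b')⁻¹ * (D.T a b * D.h μ) * (D.h μ)⁻¹ := by group
      _ = D.h ν * (D.h μ)⁻¹ := by rw [h]; group
  have h2 : (D.h ν * (D.h μ)⁻¹) • opt m (0 : F) 0 = opt m (0 : F) 0 := by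
    have h3 : ∀ ρ : Fˣ, D.h ρ • opt m (0 : F) 0 = opt m (0 : F) 0 := fun ρ => by rw [D.h_pt, mul_zero, mul_zero]
    have h4 : (D.h μ)⁻¹ • opt m (0 : F) 0 = opt m (0 : F) 0 := by rw [inv_smul_eq_iff, h3]
    rw [mul_smul, h4, h3]
  rw [← h1, D.T_inv, D.T_mul] at h2
  obtain ⟨h3, h4⟩ := T_semireg (opt_ne_inf _ _) h2
  rw [D.T_inv, D.T_mul, h3, h4, D.T_zero] at h1
  exact D.h_inj (mul_inv_eq_one.mp h1.symm).symm

/-- normalized case -/
theorem Good_of_Nrm (hm : 1 ≤ m) (hF : Fintype.card F = 2 ^ (2 * m + 1)) {D : SD F m} {M : Subgroup (Sz F m)} (h : Nrm D M) : Good M := by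
  by_cases htor : ∃ μ : Fˣ, μ ≠ 1 ∧ D.h μ ∈ M
  · obtain ⟨d, φ, h1, h2, h3, h4⟩ := h.eq_fix hm hF htor
    right; right
    refine ⟨d, φ, 1, h1, h2, h3, fun g => ?_⟩
    rw [h4]
    simp
  · push Not at htor
    right; left
    apply case_frob hm hF h.one h.move
    intro g hg hgi
    obtain ⟨a, b, μ, rfl⟩ := D.stab_inf hm hF hgi
    have h1 := h.split a b μ hg
    have h2 : μ = 1 := by
      by_contra hne
      exact htor μ hne h1
    rw [h2, D.h_one, mul_one]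
    exact ⟨a, b, rfl⟩

theorem exists_N (D : SD F m) {b : F} (hb : b ≠ 0) : ∃ ν : Fˣ, (ν : F) ^ 2 * D.t ν = b := by
  obtain ⟨a, ha⟩ := D.exists_norm b
  have ha0 : a ≠ 0 := by
    rintro rfl
    rw [mul_zero] at ha
    exact hb ha.symm
  obtain ⟨ν, hν⟩ := D.exists_t_unit (Units.mk0 a ha0)
  rw [Units.val_mk0] at hν
  refine ⟨ν, ?_⟩
  rw [← D.tt, hν, ha]

theorem Good_of_split (hm : 1 ≤ m) (hF : Fintype.card F = 2 ^ (2 * m + 1)) {D : SD F m} {M : Subgroup (Sz F m)} {b0 : F} (hb0 : b0 ≠ 0)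
    (hT : D.T 0 b0 ∈ M) (hmove : ∃ y ∈ M, y • oinf F m ≠ oinf F m)
    (hsplit : ∀ (a b : F) (μ : Fˣ), D.T a b * D.h μ ∈ M → D.h μ ∈ M) : Good M := by
  obtain ⟨ν, hν⟩ := exists_N D (inv_ne_zero hb0)
  apply Good_of_cj (D.h ν)
  apply Good_of_Nrm hm hF (D := D)
  refine ⟨?_, ?_, ?_⟩
  · have h1 : D.T 0 1 = D.h ν * D.T 0 b0 * (D.h ν)⁻¹ := by
      rw [D.h_conj_T, mul_zero, hν, inv_mul_cancel₀ hb0]
    rw [h1]
    exact mem_cj'.mpr hT
  · obtain ⟨y, hy, hyi⟩ := hmove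
    refine ⟨D.h ν * y * (D.h ν)⁻¹, mem_cj'.mpr hy, fun h => hyi ?_⟩
    have h2 : (D.h ν)⁻¹ • oinf F m = oinf F m := by rw [inv_smul_eq_iff, D.h_inf]
    rw [mul_smul, mul_smul, h2] at h
    exact smul_left_cancel _ (h.trans (D.h_inf ν).symm)
  · intro a b μ h
    rw [mem_cj] at h ⊢
    have hcomm : ∀ ρ : Fˣ, (D.h ν)⁻¹ * D.h ρ * D.h ν = D.h ρ := by
      intro ρ
      rw [mul_assoc, D.h_mul, mul_comm ρ ν, ← D.h_mul]
      group
    rw [hcomm]
    apply hsplit (a / D.t ν) (b / (ν ^ 2 * D.t ν)) μ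
    have h2 : (D.h ν)⁻¹ * (D.T a b * D.h μ) * D.h ν = D.T (a / D.t ν) (b / (ν ^ 2 * D.t ν)) * D.h μ := by
      have h3 := D.T_h ν a b
      calc (D.h ν)⁻¹ * (D.T a b * D.h μ) * D.h ν = (D.h ν)⁻¹ * (D.T a b * D.h ν) * ((D.h ν)⁻¹ * D.h μ * D.h ν) := by group
        _ = D.T (a / D.t ν) (b / (ν ^ 2 * D.t ν)) * D.h μ := by rw [h3, hcomm]; group
    rw [← h2]
    exact h

/-- splitting the point stabilizer -/
theorem exists_split (hm : 1 ≤ m) (hF : Fintype.card F = 2 ^ (2 * m + 1)) (D : SD F m) (M : Subgroup (Sz F m)) :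
    ∃ c d : F, ∀ (a b : F) (μ : Fˣ), D.T a b * D.h μ ∈ cj (D.T c d) M → D.h μ ∈ cj (D.T c d) M := by
  obtain ⟨S, hS⟩ : ∃ S : Subgroup (Sz F m), S = M ⊓ stabilizer (Sz F m) (oinf F m) := ⟨_, rfl⟩
  have hS' : ∀ g : S, (g : Sz F m) ∈ M ∧ (g : Sz F m) • oinf F m = oinf F m := fun g => by
    have h := hS.le g.2
    exact ⟨h.1, h.2⟩
  have hPn : (D.P.subgroupOf S).Normal := by
    constructor
    intro x hx g
    rw [Subgroup.mem_subgroupOf] at hx ⊢
    obtain ⟨a, b, hab⟩ := D.mem_P.mp hx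
    have hg : (g : Sz F m) • oinf F m = oinf F m := (hS' g).2
    obtain ⟨c, d, μ, hμ⟩ := D.stab_inf hm hF hg
    have e : ((g * x * g⁻¹ : S) : Sz F m) = D.T c d * (D.h μ * D.T a b * (D.h μ)⁻¹) * (D.T c d)⁻¹ := by
      show (g : Sz F m) * x * (g : Sz F m)⁻¹ = _
      rw [hμ, hab]; group
    rw [e, D.h_conj_T]
    exact mul_mem (mul_mem (D.T_mem_P _ _) (D.T_mem_P _ _)) (inv_mem (D.T_mem_P _ _))
  -- coprimality
  have hidx : Odd (D.P.subgroupOf S).index := by
    -- the index divides `q - 1`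
    have h1 : (D.P.subgroupOf S).index ∣ Fintype.card F - 1 := by
      -- map to units
      have h2 : ∀ g : S, ∃ μ : Fˣ, ∃ a b : F, (g : Sz F m) = D.T a b * D.h μ := by
        intro g
        have hg : (g : Sz F m) • oinf F m = oinf F m := (hS' g).2
        obtain ⟨c, d, μ, hμ⟩ := D.stab_inf hm hF hg
        exact ⟨μ, c, d, hμ⟩
      choose f hf using h2
      have hmul : ∀ g g' : S, f (g * g') = f g * f g' := by
        intro g g'
        obtain ⟨a, b, h3⟩ := hf g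
        obtain ⟨a', b', h4⟩ := hf g'
        obtain ⟨a'', b'', h5⟩ := hf (g * g')
        have h6 : (D.T a b * D.h (f g)) * (D.T a' b' * D.h (f g')) = D.T a'' b'' * D.h (f (g * g')) := by
          rw [← h3, ← h4, ← h5]; rfl
        have h7 : (D.T a b * D.h (f g)) * (D.T a' b' * D.h (f g')) =
            (D.T a b * D.T (D.t (f g) * a') ((f g : F) ^ 2 * D.t (f g) * b')) * D.h (f g * f g') := by
          rw [← D.h_mul, ← D.h_conj_T]; group
        rw [h7, D.T_mul] at h6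
        exact (T_h_unique h6).symm
      obtain ⟨F', hF'⟩ : ∃ F' : S →* Fˣ, ∀ g, F' g = f g := ⟨MonoidHom.mk' f hmul, fun _ => rfl⟩
      have hker : F'.ker = D.P.subgroupOf S := by
        ext g
        rw [MonoidHom.mem_ker, hF', Subgroup.mem_subgroupOf]
        obtain ⟨a, b, h3⟩ := hf g
        constructor
        · intro h4
          rw [h3, h4, D.h_one, mul_one]
          exact D.T_mem_P a b
        · intro h4
          obtain ⟨c, d, h5⟩ := D.mem_P.mp h4
          have h6 : D.T a b * D.h (f g) = D.T c d * D.h 1 := by rw [D.h_one, mul_one, ← h3, ← h5]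
          exact T_h_unique h6
      rw [← hker, Subgroup.index_ker, ← Nat.card_eq_fintype_card, ← Nat.card_units]
      exact Subgroup.card_subgroup_dvd_card _
    refine Odd.of_dvd_nat ?_ h1
    have h8 := SD.card_ge (F := F) hm hF
    obtain ⟨r, hr⟩ := D.even_q hF
    exact ⟨r - 1, by omega⟩
  have hP2 : ∃ n, Nat.card (D.P.subgroupOf S) = 2 ^ n := by
    have h1 : IsPGroup 2 (D.P.subgroupOf S) := (D.isPGroup_P hF).comap_subtype
    exact (IsPGroup.iff_card.mp h1)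
  have hcop : Nat.Coprime (Nat.card (D.P.subgroupOf S)) (D.P.subgroupOf S).index := by
    obtain ⟨n, hn⟩ := hP2
    rw [hn]
    exact Nat.Coprime.pow_left n (Nat.coprime_two_left.mpr hidx)
  haveI := hPn
  obtain ⟨H, hH⟩ := Subgroup.exists_right_complement'_of_coprime hcop
  have hHodd : Odd (Nat.card (H.map S.subtype)) := by
    rw [Subgroup.card_map_of_injective S.subtype_injective, ← hH.symm.index_eq_card]
    exact hidx
  -- the common fixed point
  have key : ∃ e : suzukiOvoid F m, e ≠ oinf F m ∧ ∀ y ∈ H.map S.subtype, y • e = e := by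
    by_cases hbot : H.map S.subtype = ⊥
    · refine ⟨opt m (0 : F) 0, opt_ne_inf _ _, fun y hy => ?_⟩
      rw [hbot, Subgroup.mem_bot] at hy
      rw [hy, one_smul]
    · obtain ⟨x, hx, hx1⟩ := (Subgroup.bot_or_exists_ne_one _).resolve_left hbot
      have hSi : ∀ y ∈ H.map S.subtype, y • oinf F m = oinf F m := by
        rintro _ ⟨y, -, rfl⟩
        exact (hS' y).2
      have hxo : Odd (orderOf x) := Odd.of_dvd_nat hHodd (Subgroup.orderOf_dvd_natCard _ hx)
      have hxi := hSi x hx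
      rcases cent_odd hm hF hx1 hxo with ⟨c, d, hcd, hc, hd⟩ | hFP
      · have hZ := D.zassenhaus hm hF
        have h3 : ∃ e : suzukiOvoid F m, e ≠ oinf F m ∧ x • e = e := by
          by_cases h : c = oinf F m
          · exact ⟨d, fun h' => hcd (h.trans h'.symm), hd⟩
          · exact ⟨c, h, hc⟩
        obtain ⟨e, he, hxe⟩ := h3
        refine ⟨e, he, fun y hy => ?_⟩
        have h4 := cent_EE hm hF he hxe hxi hx1
        have h5 : y ∈ Subgroup.centralizer ({x} : Set (Sz F m)) := by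
          rw [Subgroup.mem_centralizer_singleton_iff]
          exact odd_abelian hm hF hHodd hy hx
        rw [h4] at h5
        exact h5.1
      · exact absurd hxi (hFP _)
  obtain ⟨e, he, hfix⟩ := key
  rcases oex e with h | ⟨x, y, h⟩
  · exact absurd h he
  subst h
  refine ⟨x, y + D.t x * x, fun a b μ hM => ?_⟩
  obtain ⟨v, hv⟩ : ∃ v, v = D.T x (y + D.t x * x) := ⟨_, rfl⟩
  have hv0 : v • opt m x y = opt m (0 : F) 0 := by rw [hv]; exact D.T_to_zero x y
  have hvi : v • oinf F m = oinf F m := by rw [hv]; exact D.T_inf _ _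
  have hvi' : v⁻¹ • oinf F m = oinf F m := by rw [inv_smul_eq_iff, hvi]
  rw [← hv] at hM ⊢
  rw [mem_cj] at hM
  have hgi : (v⁻¹ * (D.T a b * D.h μ) * v) • oinf F m = oinf F m := by
    rw [mul_smul, mul_smul, hvi, mul_smul, D.h_inf, D.T_inf, hvi']
  have hgS : v⁻¹ * (D.T a b * D.h μ) * v ∈ S := by
    rw [hS]
    exact ⟨hM, hgi⟩
  obtain ⟨⟨n, l⟩, hnl⟩ := hH.2 ⟨_, hgS⟩
  have h1 : ((n : S) : Sz F m) * ((l : S) : Sz F m) = v⁻¹ * (D.T a b * D.h μ) * v := congrArg Subtype.val hnl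
  have hnP : ((n : S) : Sz F m) ∈ D.P := n.2
  have hlM : ((l : S) : Sz F m) ∈ M := (hS' l).1
  have hle : ((l : S) : Sz F m) • opt m x y = opt m x y := hfix _ ⟨_, l.2, rfl⟩
  have hli : ((l : S) : Sz F m) • oinf F m = oinf F m := (hS' l).2
  obtain ⟨ν, hν⟩ := D.stab2' hm hF (g := v * ((l : S) : Sz F m) * v⁻¹) (by rw [mul_smul, mul_smul, hvi', hli, hvi])
    (by rw [mul_smul, mul_smul, ← hv0, inv_smul_smul, hle])
  obtain ⟨c, d, hcd⟩ : ∃ c d : F, v * ((n : S) : Sz F m) * v⁻¹ = D.T c d := by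
    rw [← D.mem_P]
    have hvP : v ∈ D.P := by rw [hv]; exact D.T_mem_P _ _
    exact mul_mem (mul_mem hvP hnP) (inv_mem hvP)
  have h2 : D.T a b * D.h μ = D.T c d * D.h ν := by
    rw [← hcd, ← hν]
    calc D.T a b * D.h μ = v * (v⁻¹ * (D.T a b * D.h μ) * v) * v⁻¹ := by group
      _ = v * (((n : S) : Sz F m) * ((l : S) : Sz F m)) * v⁻¹ := by rw [h1]
      _ = _ := by group
  rw [T_h_unique h2, ← hν]
  exact mem_cj'.mpr hlM

/-- **The subgroups of the Suzuki groups** -/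
theorem classify (hm : 1 ≤ m) (hF : Fintype.card F = 2 ^ (2 * m + 1)) (M : Subgroup (Sz F m)) : Good M := by
  obtain ⟨D⟩ := exists_SD hF
  by_cases hbot : M = ⊥
  · left
    exact ⟨oinf F m, by rw [hbot]; exact bot_le⟩
  by_cases hodd : Odd (Nat.card M)
  · obtain ⟨x, hx, hx1⟩ := (Subgroup.bot_or_exists_ne_one _).resolve_left hbot
    right; left
    refine ⟨x, hx1, cent_odd hm hF hx1 (Odd.of_dvd_nat hodd (Subgroup.orderOf_dvd_natCard _ hx)), fun g hg => ?_⟩
    rw [Subgroup.mem_centralizer_singleton_iff]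
    exact odd_abelian hm hF hodd (mul_mem (mul_mem hg hx) (inv_mem hg)) hx
  · rw [Nat.not_odd_iff_even, even_iff_two_dvd] at hodd
    haveI : Fact (Nat.Prime 2) := ⟨Nat.prime_two⟩
    obtain ⟨⟨t, ht⟩, hto⟩ := exists_prime_orderOf_dvd_card' 2 hodd
    rw [Subgroup.orderOf_mk] at hto
    have ht1 : t ≠ 1 := by
      rintro rfl
      rw [orderOf_one] at hto
      exact absurd hto (by decide)
    have ht2 : t * t = 1 := by rw [← sq, ← hto, pow_orderOf_eq_one]
    obtain ⟨k, b, hb, hk⟩ := D.invol_conj hm hF ht2 ht1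
    apply Good_of_cj k
    have h1 : D.T 0 b ∈ cj k M := by rw [← hk]; exact mem_cj'.mpr ht
    by_cases hmove : ∃ y ∈ cj k M, y • oinf F m ≠ oinf F m
    · obtain ⟨c, d, hsplit⟩ := exists_split hm hF D (cj k M)
      apply Good_of_cj (D.T c d)
      apply Good_of_split hm hF hb _ _ hsplit
      · have h2 : D.T 0 b = D.T c d * D.T 0 b * (D.T c d)⁻¹ := by
          have : D.T c d * D.T 0 b = D.T 0 b * D.T c d := by
            rw [D.T_mul, D.T_mul, D.T_inj]
            simp [add_comm]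
          rw [this]; group
        rw [h2]
        exact mem_cj'.mpr h1
      · obtain ⟨y, hy, hyi⟩ := hmove
        refine ⟨D.T c d * y * (D.T c d)⁻¹, mem_cj'.mpr hy, fun h => hyi ?_⟩
        have h2 : (D.T c d)⁻¹ • oinf F m = oinf F m := by rw [inv_smul_eq_iff, D.T_inf]
        rw [mul_smul, mul_smul, h2] at h
        exact smul_left_cancel _ (h.trans (D.T_inf c d).symm)
    · push Not at hmove
      left
      exact ⟨oinf F m, hmove⟩

end CfsgLib.H7S
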