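import Mathlib
import Cfsg.Agent.Lib.H7SQ

/-!
# The Suzuki groups: consequences of the classification of subgroups
-/

set_option autoImplicit false
set_option linter.style.haveILetI false
set_option linter.unusedSectionVars false

open MulAction Cfsg Matrix
open scoped Pointwise commutatorElement

namespace CfsgLib.H7S

universe u v

variable {F : Type u} [Field F] [Fintype F] {m : ℕ}

/-- each point stabilizer is the normalizer of a Sylow `2`-subgroup -/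
theorem sylow_of_point (hm : 1 ≤ m) (hF : Fintype.card F = 2 ^ (2 * m + 1)) (c : suzukiOvoid F m) :
    ∃ P : Sylow 2 (Sz F m), Subgroup.normalizer ((P : Subgroup (Sz F m)) : Set (Sz F m)) = stabilizer (Sz F m) c := by
  obtain ⟨D⟩ := exists_SD hF
  haveI : Fact (Nat.Prime 2) := ⟨Nat.prime_two⟩
  obtain ⟨k, hk⟩ := D.exists_to_inf c
  have hsur : Function.Surjective (MulAut.conj k⁻¹).toMonoidHom := (MulAut.conj k⁻¹).surjective
  refine ⟨(D.PS hm hF).mapSurjective hsur, ?_⟩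
  have hmem : ∀ x : Sz F m, x ∈ (((D.PS hm hF).mapSurjective hsur : Sylow 2 (Sz F m)) : Subgroup (Sz F m)) ↔ k * x * k⁻¹ ∈ D.P := by
    intro x
    rw [Sylow.coe_mapSurjective, SD.PS_coe, Subgroup.mem_map]
    constructor
    · rintro ⟨y, hy, rfl⟩
      have : k * (MulAut.conj k⁻¹).toMonoidHom y * k⁻¹ = y := by
        show k * (k⁻¹ * y * k⁻¹⁻¹) * k⁻¹ = y
        group
      rw [this]; exact hy
    · intro h
      refine ⟨_, h, ?_⟩
      show k⁻¹ * (k * x * k⁻¹) * k⁻¹⁻¹ = x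
      group
  apply normalizer_sylow hm hF
  · intro x hx
    have h1 := D.P_le ((hmem x).mp hx)
    have h2 : (k * x * k⁻¹) • oinf F m = oinf F m := h1
    rw [← hk, mul_smul, mul_smul, inv_smul_smul] at h2
    exact smul_left_cancel _ h2
  · rw [Sylow.coe_mapSurjective, Subgroup.card_map_of_injective (MulAut.conj k⁻¹).injective, SD.PS_coe, D.P_card_add]
  · intro x hx hx1 d hd
    have h1 : k * x * k⁻¹ ≠ 1 := by
      intro h
      apply hx1
      calc x = k⁻¹ * (k * x * k⁻¹) * k := by group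
        _ = 1 := by rw [h]; group
    have h2 : (k * x * k⁻¹) • (k • d) = k • d := by rw [smul_smul, inv_mul_cancel_right, mul_smul, hd]
    have h3 := D.P_fix _ ((hmem x).mp hx) h1 _ h2
    rw [← hk] at h3
    exact smul_left_cancel _ h3

/-- tori -/
theorem torus_normalizer (hm : 1 ≤ m) (hF : Fintype.card F = 2 ^ (2 * m + 1)) {x : Sz F m} (hx1 : x ≠ 1)
    (hx : (∃ c d : suzukiOvoid F m, c ≠ d ∧ x • c = c ∧ x • d = d) ∨ FP x) {g : Sz F m}
    (hg : g * x * g⁻¹ ∈ Subgroup.centralizer ({x} : Set (Sz F m))) :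
    g ∈ Subgroup.normalizer (Subgroup.centralizer ({x} : Set (Sz F m)) : Set (Sz F m)) := by
  have hgx1 : g * x * g⁻¹ ≠ 1 := by
    intro h
    apply hx1
    calc x = g⁻¹ * (g * x * g⁻¹) * g := by group
      _ = 1 := by rw [h]; group
  have h1 : Subgroup.centralizer ({g * x * g⁻¹} : Set (Sz F m)) = Subgroup.centralizer ({x} : Set (Sz F m)) := by
    rcases hx with ⟨c, d, hcd, hc, hd⟩ | hFP
    · have h2 := cent_EE hm hF hcd hc hd hx1
      rw [h2] at hg ⊢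
      exact cent_EE hm hF hcd hg.1 hg.2 hgx1
    · exact cent_FP_cent hm hF hFP hg hgx1
  rw [Subgroup.mem_normalizer_iff]
  intro y
  have h3 := (CC_conj x g y).symm
  have h4 : CC (g * x * g⁻¹) = CC x := h1
  rw [h4] at h3
  exact h3

theorem torus_cyclic (hm : 1 ≤ m) (hF : Fintype.card F = 2 ^ (2 * m + 1)) {x : Sz F m} (hx1 : x ≠ 1)
    (hx : (∃ c d : suzukiOvoid F m, c ≠ d ∧ x • c = c ∧ x • d = d) ∨ FP x) :
    IsCyclic (Subgroup.centralizer ({x} : Set (Sz F m))) ∧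
    (Nat.card (Subgroup.centralizer ({x} : Set (Sz F m))) = Fintype.card F - 1 ∨
      Nat.card (Subgroup.centralizer ({x} : Set (Sz F m))) = Fintype.card F + 2 ^ (m + 1) + 1 ∨
      Nat.card (Subgroup.centralizer ({x} : Set (Sz F m))) = Fintype.card F - 2 ^ (m + 1) + 1) := by
  rcases hx with ⟨c, d, hcd, hc, hd⟩ | hFP
  · have h2 := cent_EE hm hF hcd hc hd hx1
    rw [h2]
    exact ⟨cyc_EE hm hF hcd, Or.inl (card_EE hm hF hcd)⟩
  · exact ⟨cent_FP_cyclic hm hF hFP, Or.inr (card_CC_cases hm hF hFP)⟩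

theorem dvd_of_pow_sub (hF : Fintype.card F = 2 ^ (2 * m + 1)) {d : ℕ} (hd : 2 ≤ d) (h : 2 ^ d - 1 ∣ Fintype.card F - 1) :
    ∃ k, 1 ≤ k ∧ d = 2 * k + 1 ∧ 2 * k + 1 ∣ 2 * m + 1 := by
  rw [hF] at h
  have h1 := Nat.gcd_eq_left h
  rw [Nat.pow_sub_one_gcd_pow_sub_one] at h1
  have h2 : 2 ^ Nat.gcd d (2 * m + 1) = 2 ^ d := by
    have : 0 < 2 ^ Nat.gcd d (2 * m + 1) := Nat.two_pow_pos _
    have : 0 < 2 ^ d := Nat.two_pow_pos _
    omega
  have h3 : Nat.gcd d (2 * m + 1) = d := Nat.pow_right_injective le_rfl h2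
  have h4 : d ∣ 2 * m + 1 := by rw [← h3]; exact Nat.gcd_dvd_right _ _
  obtain ⟨k, hk⟩ : Odd d := Odd.of_dvd_nat ⟨m, rfl⟩ h4
  exact ⟨k, by omega, hk, by rw [← hk]; exact h4⟩

theorem fixSz_top (hF : Fintype.card F = 2 ^ (2 * m + 1)) {φ : F →+* F} (hφ : ∀ x, φ x = x ^ (2 ^ (2 * m + 1))) : fixSz φ m = ⊤ := by
  rw [eq_top_iff]
  intro g _
  rw [mem_fixSz]
  intro i j
  rw [hφ, ← hF, FiniteField.pow_card]

/-- conjugate subgroups are isomorphic -/
theorem equiv_of_conj {G : Type*} [Group G] {M N : Subgroup G} {k : G} (h : ∀ g, g ∈ M ↔ k * g * k⁻¹ ∈ N) : Nonempty (M ≃* N) := by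
  refine ⟨⟨⟨fun x => ⟨k * x.1 * k⁻¹, (h x.1).mp x.2⟩, fun y => ⟨k⁻¹ * y.1 * k, (h _).mpr ?_⟩, fun x => ?_, fun y => ?_⟩, fun x y => ?_⟩⟩
  · have : k * (k⁻¹ * y.1 * k) * k⁻¹ = y.1 := by group
    rw [this]; exact y.2
  · apply Subtype.ext
    show k⁻¹ * (k * x.1 * k⁻¹) * k = x.1
    group
  · apply Subtype.ext
    show k * (k⁻¹ * y.1 * k) * k⁻¹ = y.1
    group
  · apply Subtype.ext
    show k * (x.1 * y.1) * k⁻¹ = (k * x.1 * k⁻¹) * (k * y.1 * k⁻¹)
    group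

end CfsgLib.H7S
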