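import Mathlib
import Cfsg.Agent.Lib.H7SR

/-!
# The Suzuki groups: subgroups isomorphic to Suzuki groups
-/

set_option autoImplicit false
set_option linter.style.haveILetI false
set_option linter.unusedSectionVars false

open MulAction Cfsg Matrix
open scoped Pointwise commutatorElement

namespace CfsgLib.H7S

universe u v

variable {F : Type u} [Field F] [Fintype F] {m : ℕ} {K : Type v} [Field K] [Fintype K] {k : ℕ}

/-- fourth powers of elements of torus normalizers -/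
theorem torus_pow_four (hm : 1 ≤ m) (hF : Fintype.card F = 2 ^ (2 * m + 1)) {x : Sz F m} (hx1 : x ≠ 1)
    (hx : (∃ c d : suzukiOvoid F m, c ≠ d ∧ x • c = c ∧ x • d = d) ∨ FP x) {g : Sz F m}
    (hg : g * x * g⁻¹ ∈ Subgroup.centralizer ({x} : Set (Sz F m))) : g ^ 4 ∈ Subgroup.centralizer ({x} : Set (Sz F m)) := by
  rcases hx with ⟨c, d, hcd, hc, hd⟩ | hFP
  · have h1 := cent_EE hm hF hcd hc hd hx1
    rw [h1] at hg ⊢
    have hc' : (g * x * g⁻¹) • c = c := hg.1
    have hd' : (g * x * g⁻¹) • d = d := hg.2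
    have e1 : x • (g⁻¹ • c) = g⁻¹ • c := by
      rw [mul_smul, mul_smul, ← eq_inv_smul_iff] at hc'
      exact hc'
    have e2 : x • (g⁻¹ • d) = g⁻¹ • d := by
      rw [mul_smul, mul_smul, ← eq_inv_smul_iff] at hd'
      exact hd'
    obtain ⟨D⟩ := exists_SD hF
    have hZ := D.zassenhaus hm hF
    have hsq : g⁻¹ ^ 2 ∈ stabilizer (Sz F m) c ⊓ stabilizer (Sz F m) d := by
      rcases CfsgLib.H7Z.fix3 hZ hx1 hcd hc hd e1 with h3 | h3
      · rcases CfsgLib.H7Z.fix3 hZ hx1 hcd hc hd e2 with h4 | h4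
        · exact absurd (smul_left_cancel g⁻¹ (h4.trans h3.symm)) hcd.symm
        · exact Subgroup.pow_mem (stabilizer (Sz F m) c ⊓ stabilizer (Sz F m) d) (Subgroup.mem_inf.mpr ⟨h3, h4⟩) 2
      · rcases CfsgLib.H7Z.fix3 hZ hx1 hcd hc hd e2 with h4 | h4
        · constructor
          · show g⁻¹ ^ 2 • c = c
            rw [sq, mul_smul, h3, h4]
          · show g⁻¹ ^ 2 • d = d
            rw [sq, mul_smul, h4, h3]
        · exact absurd (smul_left_cancel g⁻¹ (h3.trans h4.symm)) hcd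
    have h5 := Subgroup.pow_mem _ (inv_mem hsq) 2
    have h6 : ((g⁻¹ ^ 2)⁻¹) ^ 2 = g ^ 4 := by group
    rwa [h6] at h5
  · have h1 : g ∈ Subgroup.normalizer (CC x : Set (Sz F m)) :=
      CC_ti hm hF hFP g x (self_mem_CC x) hx1 hg
    have h2 := index_four hm hF hFP
    have hn : ((CC x).subgroupOf (Subgroup.normalizer (CC x : Set (Sz F m)))).index = 4 := by
      have h4 := Subgroup.card_mul_index ((CC x).subgroupOf (Subgroup.normalizer (CC x : Set (Sz F m))))
      rw [h2, Nat.card_congr (Subgroup.subgroupOfEquivOfLe Subgroup.le_normalizer).toEquiv, mul_comm] at h4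
      exact Nat.eq_of_mul_eq_mul_right Nat.card_pos h4
    have h5 := Subgroup.pow_index_mem ((CC x).subgroupOf (Subgroup.normalizer (CC x : Set (Sz F m)))) ⟨g, h1⟩
    rw [hn] at h5
    exact h5

/-- a suitable odd prime -/
theorem exists_odd_prime (hm : 1 ≤ m) (hF : Fintype.card F = 2 ^ (2 * m + 1)) : ∃ p : ℕ, p.Prime ∧ p ≠ 2 ∧ p ∣ Fintype.card F ^ 2 + 1 := by
  have h8 := SD.card_ge (F := F) hm hF
  obtain ⟨D⟩ := exists_SD hF
  obtain ⟨p, hp, hpd⟩ := Nat.exists_prime_and_dvd (n := Fintype.card F ^ 2 + 1) (by nlinarith)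
  refine ⟨p, hp, ?_, hpd⟩
  rintro rfl
  have h1 : Even (Fintype.card F ^ 2 + 1) := even_iff_two_dvd.mpr hpd
  rw [Nat.even_add_one] at h1
  exact h1 ((D.even_q hF).pow_of_ne_zero two_ne_zero)

theorem card_Sz_inj {s s' : ℕ} (hs : 1 < s) (hs' : 1 < s') (h : (s ^ 2 + 1) * s ^ 2 * (s - 1) = (s' ^ 2 + 1) * s' ^ 2 * (s' - 1)) : s = s' := by
  have key : ∀ a b : ℕ, 1 < a → a < b → (a ^ 2 + 1) * a ^ 2 * (a - 1) < (b ^ 2 + 1) * b ^ 2 * (b - 1) := by
    intro a b ha hab
    have h1 : a ^ 2 < b ^ 2 := Nat.pow_lt_pow_left hab two_ne_zero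
    have h2 : a - 1 < b - 1 := by omega
    have h3 : (a ^ 2 + 1) * a ^ 2 < (b ^ 2 + 1) * b ^ 2 := Nat.mul_lt_mul'' (by omega) h1
    exact Nat.mul_lt_mul'' h3 h2
  rcases lt_trichotomy s s' with h1 | h1 | h1
  · exact absurd h (key s s' hs h1).ne
  · exact h1
  · exact absurd h (key s' s hs' h1).ne'

/-- a subgroup isomorphic to `Sz(s)` is conjugate to the standard one -/
theorem conj_fix (hm : 1 ≤ m) (hF : Fintype.card F = 2 ^ (2 * m + 1)) (hk : 1 ≤ k) (hK : Fintype.card K = 2 ^ (2 * k + 1))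
    (hdiv : 2 * k + 1 ∣ 2 * m + 1) {φ : F →+* F} (hφ : ∀ x, φ x = x ^ (2 ^ (2 * k + 1))) {S : Subgroup (Sz F m)}
    (hS : Nonempty (S ≃* Sz K k)) : ∃ l : Sz F m, ∀ g, g ∈ S ↔ l * g * l⁻¹ ∈ fixSz φ m := by
  obtain ⟨e⟩ := hS
  obtain ⟨D⟩ := exists_SD hF
  obtain ⟨DK⟩ := exists_SD hK
  haveI := isSimple (F := K) (m := k) hk hK
  haveI : IsSimpleGroup S := e.isSimpleGroup
  -- an element of odd prime order
  obtain ⟨p, hp, hp2, hpd⟩ := exists_odd_prime (F := K) hk hK
  haveI : Fact p.Prime := ⟨hp⟩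
  have hcS : Nat.card S = (Fintype.card K ^ 2 + 1) * Fintype.card K ^ 2 * (Fintype.card K - 1) := by
    rw [Nat.card_congr e.toEquiv, DK.card_Sz hk hK]
  have hpS : p ∣ Nat.card S := by
    rw [hcS]
    exact (hpd.mul_right _).mul_right _
  have hpF : p ∣ Fintype.card F ^ 2 + 1 := by
    refine hpd.trans ?_
    obtain ⟨j, hj⟩ := hdiv
    have hjodd : Odd j := by
      have h1 : Odd (2 * m + 1) := ⟨m, rfl⟩
      rw [hj] at h1
      exact (Nat.odd_mul.mp h1).2
    have h1 : Fintype.card F = Fintype.card K ^ j := by rw [hF, hK, hj, pow_mul]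
    have h2 : Fintype.card F ^ 2 + 1 = (Fintype.card K ^ 2) ^ j + 1 ^ j := by
      rw [h1, one_pow, ← pow_mul, ← pow_mul, mul_comm j 2]
    rw [h2]
    exact hjodd.nat_add_dvd_pow_add_pow _ _
  have hab : ∃ a b : S, a * b ≠ b * a := by
    by_contra hne
    push Not at hne
    have h1 : ∀ a b : Sz K k, a * b = b * a := by
      intro a b
      have := hne (e.symm a) (e.symm b)
      rw [← map_mul, ← map_mul] at this
      exact e.symm.injective this
    have h2 := h1 (DK.T 1 0) (wS DK)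
    have h3 : (DK.T 1 0 * wS DK) • oinf K k = (wS DK * DK.T 1 0) • oinf K k := by rw [h2]
    rw [mul_smul, mul_smul, DK.w_inf, DK.T_inf, DK.w_inf, DK.T_from_zero, opt_inj] at h3
    exact one_ne_zero h3.1
  rcases classify hm hF S with ⟨c, hc⟩ | ⟨x, hx1, hx, hg⟩ | ⟨d, φ', l, hd, hdvd, hφ', hl⟩
  · exfalso
    obtain ⟨y, hy⟩ := D.exists_to_inf c
    have h1 : Nat.card S ∣ Fintype.card F ^ 2 * (Fintype.card F - 1) := by
      have h2 : Nat.card (stabilizer (Sz F m) c) = Fintype.card F ^ 2 * (Fintype.card F - 1) := by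
        rw [← D.card_stab hm hF, ← hy, stabilizer_smul_eq_stabilizer_map_conj]
        exact (Subgroup.card_map_of_injective (MulAut.conj y).injective).symm
      rw [← h2]
      exact Subgroup.card_dvd_of_le hc
    exact coprime_q hm hF hp hp2 hpF (hpS.trans h1)
  · exfalso
    obtain ⟨hcyc, -⟩ := torus_cyclic hm hF hx1 hx
    have hn : ((Subgroup.centralizer ({x} : Set (Sz F m))).subgroupOf S).Normal := by
      constructor
      intro y hy g
      rw [Subgroup.mem_subgroupOf] at hy ⊢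
      have h1 := torus_normalizer hm hF hx1 hx (hg g g.2)
      exact (Subgroup.mem_normalizer_iff.mp h1 _).mp hy
    rcases hn.eq_bot_or_eq_top with h | h
    · obtain ⟨y, hy⟩ := exists_prime_orderOf_dvd_card' p hpS
      have h1 : y ^ 4 ∈ (Subgroup.centralizer ({x} : Set (Sz F m))).subgroupOf S :=
        torus_pow_four hm hF hx1 hx (hg y y.2)
      rw [h, Subgroup.mem_bot] at h1
      have h2 := orderOf_dvd_of_pow_eq_one h1
      rw [hy] at h2
      have h3 : p ∣ 2 ^ 2 := h2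
      exact hp2 ((Nat.prime_dvd_prime_iff_eq hp Nat.prime_two).mp (hp.dvd_of_dvd_pow h3))
    · obtain ⟨a, b, hne⟩ := hab
      apply hne
      have ha : a ∈ (Subgroup.centralizer ({x} : Set (Sz F m))).subgroupOf S := by rw [h]; trivial
      have hb : b ∈ (Subgroup.centralizer ({x} : Set (Sz F m))).subgroupOf S := by rw [h]; trivial
      exact Subtype.ext (cyc_comm hcyc ha hb)
  · obtain ⟨j, hj1, rfl, hdiv'⟩ := dvd_of_pow_sub hF hd hdvd
    haveI : Fact (Nat.Prime 2) := ⟨Nat.prime_two⟩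
    haveI := Fintype.ofFinite (GaloisField 2 (2 * j + 1))
    have hKc : Fintype.card (GaloisField 2 (2 * j + 1)) = 2 ^ (2 * j + 1) := by
      rw [← Nat.card_eq_fintype_card, GaloisField.card 2 (2 * j + 1) (by omega)]
    obtain ⟨e1⟩ := equiv_of_conj hl
    obtain ⟨e2⟩ := fix_iso' (K := GaloisField 2 (2 * j + 1)) hj1 hKc hF hdiv' hφ'
    obtain ⟨DG⟩ := exists_SD hKc
    have h2 : Nat.card S = ((2 ^ (2 * j + 1)) ^ 2 + 1) * (2 ^ (2 * j + 1)) ^ 2 * (2 ^ (2 * j + 1) - 1) := by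
      rw [Nat.card_congr (e1.trans e2).toEquiv, DG.card_Sz hj1 hKc, hKc]
    rw [hcS, hK] at h2
    have hpow : ∀ n, 1 < 2 ^ (2 * n + 1) := fun n => Nat.one_lt_two_pow (by omega)
    have h3 := card_Sz_inj (hpow k) (hpow j) h2
    have h4 : φ' = φ := by
      ext y
      rw [hφ', hφ, h3]
    rw [h4] at hl
    exact ⟨l, hl⟩

end CfsgLib.H7S
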