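import Mathlib
import Cfsg.Agent.Lib.H7SJ

/-!
# The Suzuki groups: minimal degree of a complex representation
-/

set_option autoImplicit false
set_option linter.style.haveILetI false
set_option linter.unusedSectionVars false

open MulAction Cfsg Matrix
open scoped Pointwise commutatorElement

namespace CfsgLib.H7S

universe u v

variable {F : Type u} [Field F] [Fintype F] {m : ℕ}

namespace SD

variable (D : SD F m)

/-- the commutator map -/
def L (a : F) : F →+ F where
  toFun c := D.t a * c + D.t c * a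
  map_zero' := by simp
  map_add' x y := by rw [map_add]; ring

theorem L_apply (a c : F) : D.L a c = D.t a * c + D.t c * a := rfl

theorem L_add (a a' c : F) : D.L (a + a') c = D.L a c + D.L a' c := by
  rw [L_apply, L_apply, L_apply, map_add]; ring

theorem L_self (a : F) : D.L a a = 0 := by
  rw [L_apply]; exact D.add_self _

theorem L_eq_zero {a c : F} (ha : a ≠ 0) (h : D.L a c = 0) : c = 0 ∨ c = a := by
  have hta : D.t a ≠ 0 := fun h => ha (D.t_eq_zero.mp h)
  obtain ⟨s, rfl⟩ : ∃ s, c = a * s := ⟨c / a, by field_simp⟩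
  rw [L_apply, map_mul] at h
  have h1 : D.t a * a * (s + D.t s) = 0 := by linear_combination h
  have h2 : s + D.t s = 0 := by
    rcases mul_eq_zero.mp h1 with h3 | h3
    · exact absurd h3 (mul_ne_zero hta ha)
    · exact h3
  have h3 : D.t s = s := (D.add_eq_zero.mp h2).symm
  rcases D.t_fix h3 with h4 | h4
  · left; rw [h4, mul_zero]
  · right; rw [h4, mul_one]

theorem L_index {a : F} (ha : a ≠ 0) : (D.L a).range.index = 2 := by
  have h1 : Nat.card (D.L a).ker = 2 := by
    have h2 : ((D.L a).ker : Set F) = {0, a} := by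
      ext c
      constructor
      · intro hc
        exact D.L_eq_zero ha hc
      · rintro (rfl | rfl)
        · exact (D.L a).map_zero
        · exact D.L_self _
    have h3 : Nat.card (D.L a).ker = ((D.L a).ker : Set F).ncard := rfl
    rw [h3, h2, Set.ncard_pair ha.symm]
  have h2 := AddSubgroup.card_mul_index (D.L a).ker
  rw [AddSubgroup.index_ker, h1] at h2
  have h3 := AddSubgroup.card_mul_index (D.L a).range
  rw [← h2, mul_comm] at h3
  exact Nat.eq_of_mul_eq_mul_right Nat.card_pos h3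

/-- a nontrivial character is orthogonal to at most one hyperplane of commutators -/
theorem radical (χ : AddChar F ℂ) (hχ : χ ≠ 1) {a a' : F} (ha : a ≠ 0) (ha' : a' ≠ 0)
    (h : ∀ c, χ (D.L a c) = 1) (h' : ∀ c, χ (D.L a' c) = 1) : a = a' := by
  obtain ⟨ν, rfl⟩ : ∃ ν, a' = ν * a := ⟨a' / a, by field_simp⟩
  have hν : ν ≠ 0 := left_ne_zero_of_mul ha'
  obtain ⟨η, hη⟩ : ∃ η, η = D.t ν * ν := ⟨_, rfl⟩
  -- both `χ` and `χ(η ·)` are trivial on the image
  have h1 : ∀ x ∈ (D.L a).range, χ (η * x) = 1 := by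
    rintro _ ⟨c, rfl⟩
    have h2 := h' (ν * c)
    have e : D.L (ν * a) (ν * c) = η * D.L a c := by
      rw [L_apply, L_apply, map_mul, map_mul, hη]; ring
    rwa [e] at h2
  have h2 : ∀ x ∈ (D.L a).range, χ x = 1 := by
    rintro _ ⟨c, rfl⟩
    exact h c
  have hidx := D.L_index ha
  -- outside the image
  have hsq : ∀ (ψ : AddChar F ℂ) (x : F), ψ x * ψ x = 1 := by
    intro ψ x
    rw [← AddChar.map_add_eq_mul, D.add_self, AddChar.map_zero_eq_one]
  have h3 : ∀ (ψ : AddChar F ℂ), ψ ≠ 1 → (∀ x ∈ (D.L a).range, ψ x = 1) → ∀ x ∉ (D.L a).range, ψ x = -1 := by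
    intro ψ hψ hψ1 x hx
    rcases mul_self_eq_one_iff.mp (hsq ψ x) with h4 | h4
    · exfalso
      apply hψ
      ext y
      rw [AddChar.one_apply]
      by_cases hy : y ∈ (D.L a).range
      · exact hψ1 y hy
      · have h5 : x + y ∈ (D.L a).range := by
          rw [AddSubgroup.add_mem_iff_of_index_two hidx]
          exact iff_of_false hx hy
        have h6 := hψ1 _ h5
        rw [AddChar.map_add_eq_mul, h4, one_mul] at h6
        exact h6
    · exact h4
  by_contra hne
  have hη1 : η ≠ 1 := by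
    intro h4
    rw [hη] at h4
    have h5 := D.eq_one_of_t_mul h4
    rw [h5, one_mul] at hne
    exact hne rfl
  have hη0 : η ≠ 0 := by
    rw [hη]
    exact mul_ne_zero (fun h => hν (D.t_eq_zero.mp h)) hν
  obtain ⟨ψ, hψ⟩ : ∃ ψ : AddChar F ℂ, ∀ x, ψ x = χ (η * x) := ⟨χ.mulShift η, fun x => rfl⟩
  have hψ1 : ψ ≠ 1 := by
    intro h4
    apply hχ
    ext x
    have h5 := hψ (x / η)
    rw [h4, AddChar.one_apply, mul_div_cancel₀ _ hη0] at h5
    rw [AddChar.one_apply, ← h5]
  have h4 : ∀ x, χ (η * x) = χ x := by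
    intro x
    rw [← hψ]
    by_cases hx : x ∈ (D.L a).range
    · rw [hψ, h1 x hx, h2 x hx]
    · rw [h3 χ hχ h2 x hx, h3 ψ hψ1 (fun y hy => by rw [hψ, h1 y hy]) x hx]
  apply hχ
  ext x
  have h5 : η + 1 ≠ 0 := fun h6 => hη1 (D.add_eq_zero.mp h6)
  have h6 : χ ((η + 1) * (x / (η + 1))) = 1 := by
    have e : (η + 1) * (x / (η + 1)) = η * (x / (η + 1)) + x / (η + 1) := by ring
    rw [e, AddChar.map_add_eq_mul, h4, hsq]
  rw [mul_div_cancel₀ _ h5] at h6
  rw [h6, AddChar.one_apply]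

end SD

section rep

variable {V : Type v} [AddCommGroup V] [Module ℂ V] [FiniteDimensional ℂ V] (ρ : Representation ℂ (Sz F m) V) (D : SD F m) (χ : AddChar F ℂ)

/-- projection to an eigenspace -/
noncomputable def ee : V →ₗ[ℂ] V := (Fintype.card F : ℂ)⁻¹ • ∑ b : F, χ b • ρ (D.T 0 b)

theorem card_ne_zero' : (Fintype.card F : ℂ) ≠ 0 := by
  exact_mod_cast (Fintype.card_pos (α := F)).ne'

theorem A_mul (b c : F) : ρ (D.T 0 b) * ρ (D.T 0 c) = ρ (D.T 0 (b + c)) := by
  rw [← map_mul, D.T_mul]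
  simp

theorem A_ee (c : F) : ρ (D.T 0 c) * ee ρ D χ = χ c • ee ρ D χ := by
  rw [ee, mul_smul_comm, Finset.mul_sum, smul_comm (χ c)]
  congr 1
  rw [Finset.smul_sum]
  rw [← Equiv.sum_comp (Equiv.addLeft c) (fun b => χ c • χ b • ρ (D.T 0 b))]
  refine Finset.sum_congr rfl fun b _ => ?_
  rw [mul_smul_comm, A_mul]
  show χ b • ρ (D.T 0 (c + b)) = χ c • χ (c + b) • ρ (D.T 0 (c + b))
  rw [smul_smul, ← AddChar.map_add_eq_mul]
  congr 2
  linear_combination -c * D.two

theorem ee_idem : ee ρ D χ * ee ρ D χ = ee ρ D χ := by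
  nth_rewrite 1 [ee]
  rw [smul_mul_assoc, Finset.sum_mul]
  have h1 : ∀ b ∈ Finset.univ, (χ b • ρ (D.T 0 b)) * ee ρ D χ = ee ρ D χ := by
    intro b _
    rw [smul_mul_assoc, A_ee, smul_smul, ← AddChar.map_add_eq_mul, D.add_self, AddChar.map_zero_eq_one, one_smul]
  rw [Finset.sum_congr rfl h1, Finset.sum_const, Finset.card_univ, ← Nat.cast_smul_eq_nsmul ℂ, smul_smul,
    inv_mul_cancel₀ card_ne_zero', one_smul]

theorem ee_comm (a c : F) : ρ (D.T a c) * ee ρ D χ = ee ρ D χ * ρ (D.T a c) := by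
  rw [ee, mul_smul_comm, smul_mul_assoc, Finset.mul_sum, Finset.sum_mul]
  congr 1
  refine Finset.sum_congr rfl fun b _ => ?_
  rw [mul_smul_comm, smul_mul_assoc, ← map_mul, ← map_mul, D.T_mul, D.T_mul]
  congr 3
  · rw [add_comm]
  · rw [map_zero]; ring

theorem trace_A {b : F} (hb : b ≠ 0) : LinearMap.trace ℂ V (ρ (D.T 0 b)) = LinearMap.trace ℂ V (ρ (D.T 0 1)) := by
  obtain ⟨a, ha⟩ := D.exists_norm b
  have ha0 : a ≠ 0 := by
    rintro rfl
    rw [mul_zero] at ha
    exact hb ha.symm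
  obtain ⟨ν, hν⟩ := D.exists_t_unit (Units.mk0 a ha0)
  rw [Units.val_mk0] at hν
  have h1 : D.T 0 b = D.h ν * D.T 0 1 * (D.h ν)⁻¹ := by
    rw [D.h_conj_T, mul_zero, mul_one, ← D.tt, hν, ha]
  rw [h1, map_mul, LinearMap.trace_mul_comm, ← map_mul]
  congr 2
  group

theorem trace_ee (hχ : χ ≠ 1) : (Fintype.card F : ℂ) * LinearMap.trace ℂ V (ee ρ D χ) =
    Module.finrank ℂ V - LinearMap.trace ℂ V (ρ (D.T 0 1)) := by
  classical
  rw [ee, map_smul, smul_eq_mul, ← mul_assoc, mul_inv_cancel₀ card_ne_zero', one_mul, map_sum]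
  rw [← Finset.add_sum_erase Finset.univ _ (Finset.mem_univ (0 : F))]
  have h1 : ∀ b ∈ Finset.univ.erase (0 : F), LinearMap.trace ℂ V (χ b • ρ (D.T 0 b)) = χ b * LinearMap.trace ℂ V (ρ (D.T 0 1)) := by
    intro b hb
    rw [map_smul, smul_eq_mul, trace_A ρ D (Finset.ne_of_mem_erase hb)]
  rw [Finset.sum_congr rfl h1, ← Finset.sum_mul]
  have h2 : ∑ b ∈ Finset.univ.erase (0 : F), χ b = -1 := by
    have h3 := AddChar.sum_eq_zero_of_ne_one hχ
    rw [← Finset.add_sum_erase Finset.univ _ (Finset.mem_univ (0 : F)), AddChar.map_zero_eq_one] at h3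
    linear_combination h3
  rw [h2, AddChar.map_zero_eq_one, one_smul, D.T_zero, map_one, LinearMap.trace_one]
  ring

theorem trace_ee_one : (Fintype.card F : ℂ) * LinearMap.trace ℂ V (ee ρ D 1) =
    Module.finrank ℂ V + (Fintype.card F - 1) * LinearMap.trace ℂ V (ρ (D.T 0 1)) := by
  classical
  rw [ee, map_smul, smul_eq_mul, ← mul_assoc, mul_inv_cancel₀ card_ne_zero', one_mul, map_sum]
  rw [← Finset.add_sum_erase Finset.univ _ (Finset.mem_univ (0 : F))]
  have h1 : ∀ b ∈ Finset.univ.erase (0 : F), LinearMap.trace ℂ V ((1 : AddChar F ℂ) b • ρ (D.T 0 b)) = LinearMap.trace ℂ V (ρ (D.T 0 1)) := by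
    intro b hb
    rw [map_smul, smul_eq_mul, trace_A ρ D (Finset.ne_of_mem_erase hb), AddChar.one_apply, one_mul]
  rw [Finset.sum_congr rfl h1, Finset.sum_const, Finset.card_erase_of_mem (Finset.mem_univ _), Finset.card_univ]
  rw [AddChar.map_zero_eq_one, one_smul, D.T_zero, map_one, LinearMap.trace_one, nsmul_eq_mul]
  have : 1 ≤ Fintype.card F := Fintype.card_pos
  push_cast [this]
  ring

/-- the dimensions add up -/
theorem dim_formula (hχ : χ ≠ 1) : Module.finrank ℂ V = Module.finrank ℂ (LinearMap.range (ee ρ D 1)) +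
    (Fintype.card F - 1) * Module.finrank ℂ (LinearMap.range (ee ρ D χ)) := by
  have h1 := trace_ee ρ D χ hχ
  have h2 := trace_ee_one ρ D
  have h3 : LinearMap.trace ℂ V (ee ρ D χ) = Module.finrank ℂ (LinearMap.range (ee ρ D χ)) :=
    (LinearMap.IsIdempotentElem.isProj_range (ee ρ D χ) (ee_idem ρ D χ)).trace
  have h4 : LinearMap.trace ℂ V (ee ρ D 1) = Module.finrank ℂ (LinearMap.range (ee ρ D 1)) :=
    (LinearMap.IsIdempotentElem.isProj_range (ee ρ D 1) (ee_idem ρ D 1)).trace
  rw [h3] at h1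
  rw [h4] at h2
  have h5 : (Fintype.card F : ℂ) ≠ 0 := card_ne_zero'
  have h6 : ((Module.finrank ℂ V : ℕ) : ℂ) = ((Module.finrank ℂ (LinearMap.range (ee ρ D 1)) +
    (Fintype.card F - 1) * Module.finrank ℂ (LinearMap.range (ee ρ D χ)) : ℕ) : ℂ) := by
    have : 1 ≤ Fintype.card F := Fintype.card_pos
    push_cast [this]
    apply mul_left_cancel₀ h5
    linear_combination -(Fintype.card F - 1 : ℂ) * h1 - h2
  exact_mod_cast h6

/-- the additive characters attached to elements -/
noncomputable def psi (a : F) : AddChar F ℂ := χ.compAddMonoidHom (D.L a)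

theorem psi_apply (a c : F) : psi D χ a c = χ (D.L a c) := rfl

theorem psi_add (a a' : F) : psi D χ (a + a') = psi D χ a * psi D χ a' := by
  ext c
  rw [AddChar.mul_apply, psi_apply, psi_apply, psi_apply, D.L_add, AddChar.map_add_eq_mul]

theorem char_sq (D : SD F m) (p : AddChar F ℂ) : p * p = 1 := by
  ext c
  rw [AddChar.mul_apply, AddChar.one_apply, ← AddChar.map_add_eq_mul, D.add_self, AddChar.map_zero_eq_one]

theorem psi_fiber (hχ : χ ≠ 1) : ∃ r : F, ∀ a a' : F, psi D χ a = psi D χ a' → a' = a ∨ a' = a + r := by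
  by_cases h : ∃ r : F, r ≠ 0 ∧ psi D χ r = 1
  · obtain ⟨r, hr, hr1⟩ := h
    refine ⟨r, fun a a' haa => ?_⟩
    have h1 : psi D χ (a + a') = 1 := by rw [psi_add, haa, char_sq D]
    by_cases h0 : a + a' = 0
    · left
      exact (D.add_eq_zero.mp h0).symm
    · right
      have h2 := D.radical χ hχ h0 hr (fun c => by rw [← psi_apply, h1, AddChar.one_apply]) (fun c => by rw [← psi_apply, hr1, AddChar.one_apply])
      rw [← h2]
      linear_combination -a * D.two
  · push Not at h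
    refine ⟨0, fun a a' haa => ?_⟩
    left
    have h1 : psi D χ (a + a') = 1 := by rw [psi_add, haa, char_sq D]
    by_contra hne
    exact h (a + a') (fun h0 => hne (D.add_eq_zero.mp h0).symm) h1

theorem card_le_range (hχ : χ ≠ 1) : Fintype.card F ≤ 2 * Nat.card (Set.range (psi D χ)) := by
  classical
  obtain ⟨r, hr⟩ := psi_fiber D χ hχ
  have h1 := Finset.card_le_mul_card_image (f := psi D χ) (Finset.univ : Finset F) 2 (by
    intro p _
    by_cases hne : (Finset.univ.filter (fun a => psi D χ a = p)).Nonempty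
    · obtain ⟨a, ha⟩ := hne
      rw [Finset.mem_filter] at ha
      have hsub : Finset.univ.filter (fun a => psi D χ a = p) ⊆ {a, a + r} := by
        intro b hb
        rw [Finset.mem_filter] at hb
        rw [Finset.mem_insert, Finset.mem_singleton]
        exact hr a b (ha.2.trans hb.2.symm)
      exact (Finset.card_le_card hsub).trans (Finset.card_le_two)
    · rw [Finset.not_nonempty_iff_eq_empty] at hne
      rw [hne]; simp)
  rw [Finset.card_univ] at h1
  have h2 : Nat.card (Set.range (psi D χ)) = (Finset.univ.image (psi D χ)).card := by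
    rw [Nat.card_eq_card_toFinset, Set.toFinset_range]
  rw [h2]
  exact h1

/-- the dimension of a nontrivial eigenspace -/
theorem dim_sq (hχ : χ ≠ 1) (he : ee ρ D χ ≠ 0) : Fintype.card F ≤ 2 * (Module.finrank ℂ (LinearMap.range (ee ρ D χ)) * Module.finrank ℂ (LinearMap.range (ee ρ D χ))) := by
  classical
  obtain ⟨W, hW⟩ : ∃ W, W = LinearMap.range (ee ρ D χ) := ⟨_, rfl⟩
  have hWe : ∀ v ∈ W, ee ρ D χ v = v := by
    intro v hv
    rw [hW] at hv
    obtain ⟨u, rfl⟩ := hv
    exact LinearMap.congr_fun (ee_idem ρ D χ) u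
  have hmap : ∀ x ∈ D.P, ∀ v ∈ W, ρ x v ∈ W := by
    intro x hx v hv
    obtain ⟨a, b, rfl⟩ := D.mem_P.mp hx
    rw [← hWe v hv]
    have h1 := LinearMap.congr_fun (ee_comm ρ D χ a b) v
    change ρ (D.T a b) (ee ρ D χ v) = ee ρ D χ (ρ (D.T a b) v) at h1
    rw [h1, hW]
    exact ⟨_, rfl⟩
  obtain ⟨R, hR⟩ : ∃ R : D.P → (W →ₗ[ℂ] W), ∀ x w, ((R x w : W) : V) = ρ x.1 w.1 :=
    ⟨fun x => (ρ x.1).restrict (hmap x.1 x.2), fun x w => rfl⟩
  have hRmul : ∀ x y, R x * R y = R (x * y) := by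
    intro x y
    apply LinearMap.ext
    intro w
    apply Subtype.ext
    rw [Module.End.mul_apply, hR, hR, hR, Subgroup.coe_mul, map_mul]
    rfl
  have hRZ : ∀ (b : F) (hb : D.T 0 b ∈ D.P), R ⟨D.T 0 b, hb⟩ = χ b • 1 := by
    intro b hb
    apply LinearMap.ext
    intro w
    apply Subtype.ext
    rw [hR]
    show ρ (D.T 0 b) w.1 = χ b • w.1
    have h1 := LinearMap.congr_fun (A_ee ρ D χ b) w.1
    change ρ (D.T 0 b) (ee ρ D χ w.1) = χ b • (ee ρ D χ w.1) at h1
    rwa [hWe w.1 w.2] at h1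
  obtain ⟨U, hU⟩ : ∃ U : F → D.P, ∀ a, (U a : Sz F m) = D.T a 0 := ⟨fun a => ⟨D.T a 0, D.T_mem_P a 0⟩, fun _ => rfl⟩
  have hconj : ∀ c a : F, R (U c) * R (U a) * R (U c)⁻¹ = psi D χ a c • R (U a) := by
    intro c a
    rw [hRmul, hRmul]
    have h1 : U c * U a * (U c)⁻¹ = ⟨D.T 0 (D.L a c), D.T_mem_P _ _⟩ * U a := by
      apply Subtype.ext
      rw [Subgroup.coe_mul, Subgroup.coe_mul, Subgroup.coe_mul, InvMemClass.coe_inv, hU, hU]
      rw [D.T_inv, D.T_mul, D.T_mul, D.T_mul, D.T_inj, SD.L_apply]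
      constructor
      · linear_combination c * D.two
      · rw [map_add, map_zero]
        linear_combination (D.t c * c) * D.two
    rw [h1, ← hRmul, hRZ, smul_mul_assoc, one_mul]
    rfl
  -- nonvanishing
  have hW0 : ∃ w : W, w ≠ 0 := by
    by_contra h0
    push Not at h0
    apply he
    apply LinearMap.ext
    intro v
    have h1 := h0 ⟨ee ρ D χ v, by rw [hW]; exact ⟨v, rfl⟩⟩
    exact congrArg Subtype.val h1
  have hRne : ∀ x, R x ≠ 0 := by
    intro x h0
    obtain ⟨w, hw⟩ := hW0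
    have h1 : R x⁻¹ * R x = 1 := by
      rw [hRmul, inv_mul_cancel]
      apply LinearMap.ext
      intro w
      apply Subtype.ext
      rw [hR]
      show ρ 1 w.1 = w.1
      rw [map_one]; rfl
    rw [h0, mul_zero] at h1
    apply hw
    have := LinearMap.congr_fun h1 w
    exact this.symm
  -- linear independence
  haveI : Fintype (Set.range (psi D χ)) := Fintype.ofFinite _
  choose sec hsec using fun p : Set.range (psi D χ) => p.2
  have hli : LinearIndependent ℂ (fun p : Set.range (psi D χ) => R (U (sec p))) := by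
    rw [Fintype.linearIndependent_iff]
    intro g hg p0
    have h1 : ∑ c : F, (p0.1 c) • (R (U c) * (∑ p, g p • R (U (sec p))) * R (U c)⁻¹) = 0 := by
      rw [hg]
      apply Finset.sum_eq_zero
      intro c _
      rw [mul_zero, zero_mul, smul_zero]
    have h2 : ∀ c : F, R (U c) * (∑ p, g p • R (U (sec p))) * R (U c)⁻¹ = ∑ p, (g p * p.1 c) • R (U (sec p)) := by
      intro c
      rw [Finset.mul_sum, Finset.sum_mul]
      refine Finset.sum_congr rfl fun p _ => ?_
      rw [mul_smul_comm, smul_mul_assoc, hconj, hsec, smul_smul]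
    simp only [h2, Finset.smul_sum, smul_smul] at h1
    rw [Finset.sum_comm] at h1
    have h3 : ∀ p : Set.range (psi D χ), ∑ c : F, (p0.1 c * (g p * p.1 c)) • R (U (sec p)) =
        (if p = p0 then g p0 * Fintype.card F else 0) • R (U (sec p)) := by
      intro p
      rw [← Finset.sum_smul]
      congr 1
      have h4 : ∑ c : F, p0.1 c * (g p * p.1 c) = g p * ∑ c : F, (p0.1 * p.1) c := by
        rw [Finset.mul_sum]
        refine Finset.sum_congr rfl fun c _ => ?_
        rw [AddChar.mul_apply]; ring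
      rw [h4]
      by_cases hp : p = p0
      · rw [if_pos hp, hp, char_sq D]
        simp
      · rw [if_neg hp]
        have h5 : p0.1 * p.1 ≠ 1 := by
          intro h6
          apply hp
          apply Subtype.ext
          exact (mul_left_cancel (h6.trans (char_sq D p0.1).symm))
        rw [AddChar.sum_eq_zero_of_ne_one h5, mul_zero]
    rw [Finset.sum_congr rfl (fun p _ => h3 p)] at h1
    simp only [ite_smul, zero_smul, Finset.sum_ite_eq', Finset.mem_univ, if_true] at h1
    rcases smul_eq_zero.mp h1 with h6 | h6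
    · rcases mul_eq_zero.mp h6 with h7 | h7
      · exact h7
      · exact absurd h7 card_ne_zero'
    · exact absurd h6 (hRne _)
  have h1 := hli.fintype_card_le_finrank
  rw [Module.finrank_linearMap] at h1
  have h2 := card_le_range D χ hχ
  rw [Nat.card_eq_fintype_card] at h2
  rw [← hW]
  omega

/-- the minimal degree bound -/
theorem min_degree (hF : Fintype.card F = 2 ^ (2 * m + 1)) (hρ : ρ (D.T 0 1) ≠ 1) :
    2 ^ m * (2 ^ (2 * m + 1) - 1) ≤ Module.finrank ℂ V := by
  -- a nontrivial character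
  obtain ⟨χ, hχ1⟩ : ∃ χ : AddChar F ℂ, χ 1 ≠ 1 := AddChar.exists_apply_ne_zero.mpr one_ne_zero
  have hχ : χ ≠ 1 := by
    rintro rfl
    exact hχ1 (AddChar.one_apply 1)
  have hdim := dim_formula ρ D χ hχ
  have he : ee ρ D χ ≠ 0 := by
    intro h0
    rw [h0, LinearMap.range_zero, finrank_bot, mul_zero, add_zero] at hdim
    have h1 : LinearMap.range (ee ρ D 1) = ⊤ := Submodule.eq_top_of_finrank_eq hdim.symm
    have h2 : ee ρ D 1 = 1 := by
      apply LinearMap.ext
      intro v
      have hv : v ∈ LinearMap.range (ee ρ D 1) := by rw [h1]; trivial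
      obtain ⟨u, rfl⟩ := hv
      exact LinearMap.congr_fun (ee_idem ρ D 1) u
    have h3 := A_ee ρ D 1 1
    rw [h2, mul_one, AddChar.one_apply, one_smul] at h3
    exact hρ h3
  have h1 := dim_sq ρ D χ hχ he
  obtain ⟨d, hd⟩ : ∃ d, Module.finrank ℂ (LinearMap.range (ee ρ D χ)) = d := ⟨_, rfl⟩
  rw [hd, hF] at h1 hdim
  have h2 : 2 ^ m ≤ d := by
    have h3 : 2 ^ m * 2 ^ m ≤ d * d := by
      have h4 : 2 ^ (2 * m + 1) = 2 * (2 ^ m * 2 ^ m) := by ring
      omega
    exact Nat.mul_self_le_mul_self_iff.mp h3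
  calc 2 ^ m * (2 ^ (2 * m + 1) - 1) ≤ d * (2 ^ (2 * m + 1) - 1) := Nat.mul_le_mul_right _ h2
    _ = (2 ^ (2 * m + 1) - 1) * d := mul_comm _ _
    _ ≤ _ := by rw [hdim]; exact Nat.le_add_left _ _

end rep

end CfsgLib.H7S
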