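import Mathlib
import Cfsg.Agent.Lib.H7Npc
import Cfsg.Agent.Lib.SylBridge
import Cfsg.Agent.Lib.CFRed
import Cfsg.Agent.S0111
import Cfsg.Agent.S0076

set_option autoImplicit false
set_option linter.style.haveILetI false

/-! Sylow `2`-subgroups of type `Z₂ × D₈`. -/

namespace CfsgLib.H7Z2D8

open Subgroup
open scoped Pointwise

abbrev T := Multiplicative (ZMod 2) × DihedralGroup 4
def u : T := (Multiplicative.ofAdd 1, 1)
def z : T := (1, DihedralGroup.r 2)
def r : T := (1, DihedralGroup.r 1)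
def t1 : T := (1, DihedralGroup.sr 0)
def t2 : T := (1, DihedralGroup.sr 1)

/-- central elements -/
def Cen (x : T) : Prop := x = 1 ∨ x = u ∨ x = z ∨ x = u * z
def E1 (x : T) : Prop := x = t1 ∨ x = t1 * z ∨ x = t1 * u ∨ x = t1 * (u * z)
def E2 (x : T) : Prop := x = t2 ∨ x = t2 * z ∨ x = t2 * u ∨ x = t2 * (u * z)

instance (x : T) : Decidable (Cen x) := by unfold Cen; infer_instance
instance (x : T) : Decidable (E1 x) := by unfold E1; infer_instance
instance (x : T) : Decidable (E2 x) := by unfold E2; infer_instance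

set_option maxRecDepth 100000

theorem sq_cases : ∀ x : T, x * x = 1 ∨ x * x = z := by decide +kernel
theorem cen_comm : ∀ x : T, Cen x → ∀ y : T, x * y = y * x := by decide +kernel
theorem inv_cases : ∀ x : T, x * x = 1 → Cen x ∨ E1 x ∨ E2 x := by decide +kernel
theorem cent_E1 : ∀ x : T, E1 x → ∀ y : T, x * y = y * x → Cen y ∨ E1 y := by decide +kernel
theorem cent_t1 : ∀ y : T, Cen y ∨ E1 y → t1 * y = y * t1 := by decide +kernel
theorem rr : r * r = z := by decide +kernel
theorem zz : z * z = 1 := by decide +kernel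
theorem z_ne : z ≠ 1 := by decide +kernel
theorem conjE1 : r * t1 * r⁻¹ = t1 * z := by decide +kernel
theorem conjE1' : r * (t1 * u) * r⁻¹ = t1 * (u * z) := by decide +kernel
theorem conjE2 : r * t2 * r⁻¹ = t2 * z := by decide +kernel
theorem conjE2' : r * (t2 * u) * r⁻¹ = t2 * (u * z) := by decide +kernel

theorem cen_facts1 : Cen u ∧ Cen (u * z) ∧ u ≠ u * z ∧ u ≠ z ∧ u * z * z = u ∧ u * u = 1 := by decide +kernel
theorem cen_facts2 : Cen (u * z) ∧ Cen u ∧ u * z ≠ u ∧ u * z ≠ z ∧ u * z = u * z ∧ u * z * (u * z) = 1 := by decide +kernel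

/-- linear characters -/
def chi (i j : ZMod 2) (x : T) : ZMod 2 :=
  Multiplicative.toAdd x.1 + (match x.2 with
    | DihedralGroup.r k => ((k.val : ℕ) : ZMod 2) * (i + j)
    | DihedralGroup.sr k => i + ((k.val : ℕ) : ZMod 2) * (i + j))

theorem chi_mul : ∀ i j : ZMod 2, ∀ x y : T, chi i j (x * y) = chi i j x + chi i j y := by decide +kernel
theorem chi_u : ∀ i j : ZMod 2, chi i j u = 1 := by decide +kernel
theorem chi_uz : ∀ i j : ZMod 2, chi i j (u * z) = 1 := by decide +kernel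
/-- `u ^ i` -/
def W (i : ZMod 2) : T := if i = 1 then u else 1
/-- the involutions in the kernel -/
def InM (i j : ZMod 2) (y : T) : Prop :=
  y = z ∨ y = t1 * W i ∨ y = t1 * W i * z ∨ y = t2 * W j ∨ y = t2 * W j * z
instance (i j : ZMod 2) (y : T) : Decidable (InM i j y) := by unfold InM; infer_instance
theorem chi_inv : ∀ i j : ZMod 2, ∀ y : T, chi i j y = 0 → y * y = 1 → y ≠ 1 → InM i j y := by decide +kernel
theorem uz_ne_one : ¬ u * z = 1 := by decide +kernel
theorem uz_ne_z : ¬ u * z = z := by decide +kernel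
theorem u_ne_one : ¬ u = 1 := by decide +kernel
theorem u_ne_z : ¬ u = z := by decide +kernel
theorem u_ne_uz : ¬ u = u * z := by decide +kernel
theorem zmod2 : ∀ a b : ZMod 2, a ≠ 0 → b ≠ 0 → -a + b = 0 := by decide +kernel

/-- kernel of `chi` -/
def M (i j : ZMod 2) : Subgroup T :=
  { carrier := {x | chi i j x = 0}
    mul_mem' := by
      intro x y hx hy
      rw [Set.mem_setOf_eq] at *
      rw [chi_mul, hx, hy, add_zero]
    one_mem' := by
      have := chi_mul i j 1 1
      rw [mul_one] at this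
      exact (left_eq_add.1 this)
    inv_mem' := by
      intro x hx
      rw [Set.mem_setOf_eq] at *
      have h1 := chi_mul i j x x⁻¹
      have h2 := chi_mul i j 1 1
      rw [mul_one] at h2
      rw [mul_inv_cancel, hx, zero_add, (left_eq_add.1 h2)] at h1
      exact h1.symm }

theorem chi_one (i j : ZMod 2) : chi i j 1 = 0 := (M i j).one_mem'

theorem M_index (i j : ZMod 2) : (M i j).index = 2 := by
  refine CfsgLib.H7Npc.index_of_prop (x₀ := u) ?_ ?_
  · intro x y hx hy
    have h1 := chi_mul i j x x⁻¹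
    rw [mul_inv_cancel, chi_one] at h1
    change chi i j (x⁻¹ * y) = 0
    rw [chi_mul, show chi i j x⁻¹ = - chi i j x from (neg_eq_of_add_eq_zero_right h1.symm).symm]
    exact zmod2 _ _ hx hy
  · intro h
    have : chi i j u = 0 := h
    rw [chi_u] at this
    exact absurd this (by decide)

variable {G : Type*} [Group G]

/-- conjugacy in `G` -/
def Cj (ι : T →* G) (x y : T) : Prop := ∃ g : G, g * ι x * g⁻¹ = ι y

variable {ι : T →* G}

theorem Cj.refl (x : T) : Cj ι x x := ⟨1, by group⟩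

theorem Cj.symm {x y : T} (h : Cj ι x y) : Cj ι y x := by
  obtain ⟨g, hg⟩ := h
  exact ⟨g⁻¹, by rw [← hg]; group⟩

theorem Cj.trans {x y w : T} (h : Cj ι x y) (h' : Cj ι y w) : Cj ι x w := by
  obtain ⟨g, hg⟩ := h
  obtain ⟨k, hk⟩ := h'
  exact ⟨k * g, by rw [← hk, ← hg]; group⟩

theorem Cj.conj (s x : T) {y : T} (h : s * x * s⁻¹ = y) : Cj ι x y :=
  ⟨ι s, by rw [← map_inv, ← map_mul, ← map_mul, h]⟩

variable [Finite G] {S : Sylow 2 G}

theorem center_fusion (hι : Function.Injective ι) (hr : ι.range = (S : Subgroup G)) {x y : T} (hx : Cen x) (hy : Cen y)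
    (h : Cj ι x y) : x = y := by
  haveI : Fact (Nat.Prime 2) := ⟨Nat.prime_two⟩
  have hxS : ∀ x : T, ι x ∈ (S : Subgroup G) := fun x => by rw [← hr]; exact ⟨x, rfl⟩
  have hc : ∀ x : T, Cen x → ∀ s ∈ S, (fun y => s * y * s⁻¹) '' {ι x} = {ι x} := by
    intro x hx s hs
    have hs' : s ∈ (S : Subgroup G) := hs
    rw [← hr] at hs'
    obtain ⟨w, rfl⟩ := hs'
    rw [Set.image_singleton]
    congr 1
    rw [← map_inv, ← map_mul, ← map_mul, ← cen_comm x hx w, mul_inv_cancel_right]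
  obtain ⟨g, hg⟩ := h
  obtain ⟨n, hn, hxy⟩ := Cfsg.Agent.S0076.result S {ι x} {ι y} (by
    rintro _ rfl; exact hxS x) (by rintro _ rfl; exact hxS y) (hc x hx) (hc y hy) g (by
      rw [Set.image_singleton, hg])
  rw [Set.image_singleton, Set.singleton_eq_singleton_iff] at hxy
  -- `n` fixes `z`
  have hzf : n * ι z * n⁻¹ = ι z := by
    have h1 : n * ι r * n⁻¹ ∈ (S : Subgroup G) := (Subgroup.mem_normalizer_iff.1 hn _).1 (hxS r)
    rw [← hr] at h1
    obtain ⟨w, hw⟩ := h1
    have h2 : n * ι z * n⁻¹ = ι (w * w) := by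
      rw [map_mul, hw, ← rr, map_mul]; group
    rcases sq_cases w with h3 | h3
    · exfalso
      rw [h3, map_one, mul_inv_eq_one] at h2
      have h4 : ι z = 1 := mul_eq_left.1 h2
      rw [← map_one ι] at h4
      exact z_ne (hι h4)
    · rw [h2, h3]
  have hfix : y = x * z → False := by
    intro hyx
    rw [hyx, map_mul] at hxy
    have h0 : orderOf n ≠ 0 := (orderOf_pos n).ne'
    obtain ⟨a, m, hm, hkm⟩ := Nat.exists_eq_two_pow_mul_odd h0
    have hnm : n ^ m ∈ (S : Subgroup G) := by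
      have hp : IsPGroup 2 (zpowers (n ^ m)) := by
        have h1 : orderOf (n ^ m) ∣ 2 ^ a := by
          apply orderOf_dvd_of_pow_eq_one
          rw [← pow_mul, mul_comm, ← hkm, pow_orderOf_eq_one]
        obtain ⟨b, _, hb⟩ := (Nat.dvd_prime_pow Nat.prime_two).1 h1
        exact IsPGroup.of_card (n := b) (by rw [Nat.card_zpowers, hb])
      have h2 : n ^ m ∈ zpowers (n ^ m) ⊓ Subgroup.normalizer (S : Set G) :=
        ⟨mem_zpowers _, pow_mem hn m⟩
      rw [hp.inf_normalizer_sylow S] at h2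
      exact h2.2
    have h1 := CfsgLib.H7Npc.iter (φ := MulAut.conj n) (x := ι x) (c := ι z) hzf hxy m
    rw [← map_pow, MulAut.conj_apply] at h1
    rw [← hr] at hnm
    obtain ⟨w, hw⟩ := hnm
    rw [← hw, ← map_mul, ← cen_comm x hx w, map_mul, mul_inv_cancel_right] at h1
    obtain ⟨c, rfl⟩ := hm
    rw [pow_succ, pow_mul, sq, ← map_mul, zz, map_one, one_pow, one_mul] at h1
    have h4 : ι z = 1 := (left_eq_mul.1 h1)
    rw [← map_one ι] at h4
    exact z_ne (hι h4)
  rcases hx with rfl | rfl | rfl | rfl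
  · rw [map_one, mul_one, mul_inv_cancel, ← map_one ι] at hxy
    exact hι hxy
  · rcases hy with rfl | rfl | rfl | rfl
    · exfalso
      rw [map_one, mul_inv_eq_one] at hxy
      have h4 : ι u = 1 := mul_eq_left.1 hxy
      rw [← map_one ι] at h4
      exact u_ne_one (hι h4)
    · rfl
    · exfalso
      rw [← hzf] at hxy
      have h4 : ι u = ι z := by
        have := mul_right_cancel hxy
        exact mul_left_cancel this
      exact u_ne_z (hι h4)
    · exact absurd rfl hfix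
  · exact hι (hzf.symm.trans hxy)
  · rcases hy with rfl | rfl | rfl | rfl
    · exfalso
      rw [map_one, mul_inv_eq_one] at hxy
      have h4 : ι (u * z) = 1 := mul_eq_left.1 hxy
      rw [← map_one ι] at h4
      exact uz_ne_one (hι h4)
    · exact (hfix (by rw [mul_assoc, zz, mul_one])).elim
    · exfalso
      rw [← hzf] at hxy
      have h4 : ι (u * z) = ι z := by
        have := mul_right_cancel hxy
        exact mul_left_cancel this
      exact uz_ne_z (hι h4)
    · rfl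

theorem transfer [IsSimpleGroup G] (hG : ¬ IsMulCommutative G) (hι : Function.Injective ι)
    (hr : ι.range = (S : Subgroup G)) (i j : ZMod 2) {v : T} (hv : v * v = 1) (hv1 : v ≠ 1) (hvM : v ∉ M i j) :
    ∃ y ∈ M i j, Cj ι v y := by
  have hMS : (M i j).map ι ≤ (S : Subgroup G) := by
    rw [← hr]; exact (by rintro _ ⟨w, _, rfl⟩; exact ⟨w, rfl⟩)
  have hidx : ((M i j).map ι).relIndex (S : Subgroup G) = 2 := by
    rw [← hr, MonoidHom.range_eq_map, Subgroup.relIndex_map_map, (MonoidHom.ker_eq_bot_iff ι).2 hι, sup_bot_eq,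
      sup_bot_eq, Subgroup.relIndex_top_right, M_index]
  have hvo : orderOf (ι v) = 2 := by
    rw [orderOf_injective ι hι]
    exact orderOf_eq_prime (by rw [sq, hv]) hv1
  have hvS : ι v ∈ (S : Subgroup G) := by rw [← hr]; exact ⟨v, rfl⟩
  rcases Cfsg.Agent.S0111.result S ((M i j).map ι) hMS hidx (ι v) hvo hvS (by
    rintro ⟨w, hw, hwv⟩
    exact hvM (hι hwv ▸ hw)) with ⟨N, hN, hN2, _⟩ | ⟨g, w, hw, hwg⟩
  · exfalso
    rcases hN.eq_bot_or_eq_top with h | h
    · rw [h, Subgroup.index_bot] at hN2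
      apply hG
      haveI : Fact (Nat.Prime 2) := ⟨Nat.prime_two⟩
      have hcyc : IsCyclic G := isCyclic_of_prime_card hN2
      exact hcyc.commutative
    · rw [h, Subgroup.index_top] at hN2
      norm_num at hN2
  · exact ⟨w, hw, g, hwg.symm⟩

theorem final (hι : Function.Injective ι) (hr : ι.range = (S : Subgroup G)) {v v' : T}
    (hv : (v = u ∧ v' = u * z) ∨ (v = u * z ∧ v' = u)) (h1 : ∀ x, E1 x → Cj ι v x) (h2 : ∀ x, E2 x → Cj ι v' x) :
    False := by
  haveI : Fact (Nat.Prime 2) := ⟨Nat.prime_two⟩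
  have hv0 : Cen v ∧ Cen v' ∧ v ≠ v' ∧ v ≠ z ∧ v' * z = v ∧ v * v = 1 := by
    rcases hv with ⟨rfl, rfl⟩ | ⟨rfl, rfl⟩
    · exact cen_facts1
    · exact cen_facts2
  obtain ⟨hvc, hvc', hvv', hvz, hvz', hvv⟩ := hv0
  have hxS : ∀ x : T, ι x ∈ (S : Subgroup G) := fun x => by rw [← hr]; exact ⟨x, rfl⟩
  obtain ⟨g, hg⟩ := (h1 t1 (Or.inl rfl)).symm
  -- the subgroup `E₁`
  obtain ⟨D, hD⟩ : ∃ D : Subgroup T, D = centralizer {t1} := ⟨_, rfl⟩
  have hDm : ∀ w, w ∈ D ↔ w * t1 = t1 * w := by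
    intro w; rw [hD, mem_centralizer_singleton_iff]
  have hS' : CfsgLib.Coprime.IsSyl 2 (S : Subgroup G) ⊤ := CfsgLib.SylBridge.isSyl_top_iff.2 ⟨S, rfl⟩
  have hSK : (S : Subgroup G) ≤ centralizer {ι v} := by
    intro s hs
    rw [← hr] at hs
    obtain ⟨w, rfl⟩ := hs
    rw [mem_centralizer_singleton_iff, ← map_mul, ← map_mul, cen_comm v hvc w]
  have hK := CfsgLib.SylBridge.IsSyl.of_le' hS' hSK le_top
  have hDp : IsPGroup 2 ((D.map ι).map (MulAut.conj g).toMonoidHom) := by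
    have h3 : IsPGroup 2 (D.map ι) := S.isPGroup'.to_le (by rw [← hr]; exact (by rintro _ ⟨w, _, rfl⟩; exact ⟨w, rfl⟩))
    exact h3.map _
  obtain ⟨k, hkK, hk⟩ := CfsgLib.CF.exists_conj_le hK hDp (by
    rintro _ ⟨_, ⟨w, hw, rfl⟩, rfl⟩
    rw [mem_centralizer_singleton_iff]
    change g * ι w * g⁻¹ * ι v = ι v * (g * ι w * g⁻¹)
    rw [← hg]
    have h3 := (hDm w).1 hw
    calc g * ι w * g⁻¹ * (g * ι t1 * g⁻¹) = g * (ι w * ι t1) * g⁻¹ := by group
      _ = g * (ι t1 * ι w) * g⁻¹ := by rw [← map_mul, h3, map_mul]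
      _ = g * ι t1 * g⁻¹ * (g * ι w * g⁻¹) := by group)
  obtain ⟨h, hh⟩ : ∃ h, h = k * g := ⟨_, rfl⟩
  have hθ : ∀ w ∈ D, ∃ x : T, ι x = h * ι w * h⁻¹ := by
    intro w hw
    have h3 : k * (g * ι w * g⁻¹) * k⁻¹ ∈ MulAut.conj k • ((D.map ι).map (MulAut.conj g).toMonoidHom) :=
      ⟨g * ι w * g⁻¹, ⟨ι w, ⟨w, hw, rfl⟩, rfl⟩, rfl⟩
    have h4 := hk h3
    rw [← hr] at h4
    obtain ⟨x, hx⟩ := h4
    exact ⟨x, by rw [hx, hh]; group⟩
  choose! θ hθ using hθ
  have ht1 : h * ι t1 * h⁻¹ = ι v := by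
    rw [hh]
    calc k * g * ι t1 * (k * g)⁻¹ = k * (g * ι t1 * g⁻¹) * k⁻¹ := by group
      _ = k * ι v * k⁻¹ := by rw [hg]
      _ = ι v := by rw [mem_centralizer_singleton_iff.1 hkK, mul_inv_cancel_right]
  have hθi : ∀ w ∈ D, ∀ w' ∈ D, θ w = θ w' → w = w' := by
    intro w hw w' hw' he
    have h3 := hθ w hw
    rw [he, hθ w' hw'] at h3
    exact (hι (mul_left_cancel (mul_right_cancel h3))).symm
  have hθm : ∀ w ∈ D, ∀ w' ∈ D, θ (w * w') = θ w * θ w' := by
    intro w hw w' hw'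
    apply hι
    rw [hθ _ (mul_mem hw hw'), map_mul, map_mul, hθ w hw, hθ w' hw']
    group
  have hθc : ∀ w ∈ D, Cj ι w (θ w) := fun w hw => ⟨h, (hθ w hw).symm⟩
  have hcD : ∀ w, Cen w → w ∈ D := fun w hw => (hDm w).2 (cen_comm w hw t1)
  have htD : t1 ∈ D := (hDm t1).2 rfl
  have hθt : θ t1 = v := hι ((hθ t1 htD).trans ht1)
  have hvD := hcD v hvc
  have hvD' := hcD v' hvc'
  have hzc : Cen z := Or.inr (Or.inr (Or.inl rfl))
  have hzD := hcD z hzc
  have ht1c : ¬ Cen t1 := by decide +kernel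
  -- `θ v` is noncentral
  have hnc : ¬ Cen (θ v) := by
    intro hc
    have h3 := center_fusion hι hr hvc hc (hθc v hvD)
    have h4 := hθi t1 htD v hvD (by rw [hθt, ← h3])
    exact ht1c (h4 ▸ hvc)
  have hsq : ∀ w ∈ D, w * w = 1 → θ w * θ w = 1 := by
    intro w hw hww
    apply hι
    rw [map_mul, hθ w hw, map_one]
    calc h * ι w * h⁻¹ * (h * ι w * h⁻¹) = h * (ι w * ι w) * h⁻¹ := by group
      _ = 1 := by rw [← map_mul, hww, map_one]; group
  have hE1 : E1 (θ v) := by
    rcases inv_cases _ (hsq v hvD hvv) with h3 | h3 | h3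
    · exact absurd h3 hnc
    · exact h3
    · exfalso
      exact hvv' (center_fusion hι hr hvc hvc' ((hθc v hvD).trans (h2 _ h3).symm))
  have hin : ∀ w ∈ D, Cen (θ w) ∨ E1 (θ w) := by
    intro w hw
    apply cent_E1 _ hE1
    rw [← hθm v hvD w hw, ← hθm w hw v hvD, cen_comm v hvc w]
  have hv'f : θ v' = v' := by
    rcases hin v' hvD' with h3 | h3
    · exact (center_fusion hι hr hvc' h3 (hθc v' hvD')).symm
    · exfalso
      exact hvv' (center_fusion hι hr hvc hvc' ((h1 _ h3).trans (hθc v' hvD').symm))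
  have hzf : θ z = z := by
    rcases hin z hzD with h3 | h3
    · exact (center_fusion hι hr hzc h3 (hθc z hzD)).symm
    · exfalso
      exact hvz (center_fusion hι hr hvc hzc ((h1 _ h3).trans (hθc z hzD).symm))
  have h5 := hθm v' hvD' z hzD
  rw [hv'f, hzf, hvz'] at h5
  rw [h5] at hnc
  exact hnc hvc

theorem main [IsSimpleGroup G] (hG : ¬ IsMulCommutative G) (hι : Function.Injective ι)
    (hr : ι.range = (S : Subgroup G)) : False := by
  have huc : Cen u := Or.inr (Or.inl rfl)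
  have hzc : Cen z := Or.inr (Or.inr (Or.inl rfl))
  have huzc : Cen (u * z) := Or.inr (Or.inr (Or.inr rfl))
  have key : ∀ i j : ZMod 2, ∀ v : T, (v = u ∨ v = u * z) → Cj ι v (t1 * W i) ∨ Cj ι v (t2 * W j) := by
    intro i j v hv
    have hv' : Cen v ∧ v * v = 1 ∧ v ≠ 1 ∧ v ≠ z ∧ ∀ i j, chi i j v = 1 := by
      rcases hv with rfl | rfl
      · exact ⟨huc, by decide +kernel, u_ne_one, u_ne_z, chi_u⟩
      · exact ⟨huzc, by decide +kernel, uz_ne_one, uz_ne_z, chi_uz⟩
    obtain ⟨hvc, hvv, hv1, hvz, hchi⟩ := hv'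
    obtain ⟨y, hy, hvy⟩ := transfer hG hι hr i j hvv hv1 (by
      intro h
      have : chi i j v = 0 := h
      rw [hchi] at this
      exact absurd this (by decide))
    have hyy : y * y = 1 ∧ y ≠ 1 := by
      obtain ⟨g, hg⟩ := hvy
      constructor
      · apply hι
        rw [map_mul, ← hg, map_one]
        calc g * ι v * g⁻¹ * (g * ι v * g⁻¹) = g * (ι v * ι v) * g⁻¹ := by group
          _ = 1 := by rw [← map_mul, hvv, map_one]; group
      · rintro rfl
        rw [map_one, mul_inv_eq_one] at hg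
        have h4 : ι v = 1 := mul_eq_left.1 hg
        rw [← map_one ι] at h4
        exact hv1 (hι h4)
    have hcz : ∀ (X : T), r * X * r⁻¹ = X * z → Cj ι v (X * z) → Cj ι v X := fun X hX h =>
      h.trans (Cj.conj r X hX).symm
    have hr1 : ∀ i, r * (t1 * W i) * r⁻¹ = t1 * W i * z := by decide +kernel
    have hr2 : ∀ i, r * (t2 * W i) * r⁻¹ = t2 * W i * z := by decide +kernel
    rcases chi_inv i j y hy hyy.1 hyy.2 with rfl | rfl | rfl | rfl | rfl
    · exact absurd (center_fusion hι hr hvc hzc hvy) hvz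
    · exact Or.inl hvy
    · exact Or.inl (hcz _ (hr1 i) hvy)
    · exact Or.inr hvy
    · exact Or.inr (hcz _ (hr2 j) hvy)
  have hno : ∀ X : T, Cj ι u X → Cj ι (u * z) X → False := fun X h1 h2 =>
    u_ne_uz (center_fusion hι hr huc huzc (h1.trans h2.symm))
  have hW0 : W 0 = 1 := by decide +kernel
  have hW1 : W 1 = u := by decide +kernel
  have all1 : ∀ v, Cj ι v t1 → Cj ι v (t1 * u) → ∀ x, E1 x → Cj ι v x := by
    intro v h1 h2 x hx
    rcases hx with rfl | rfl | rfl | rfl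
    · exact h1
    · exact h1.trans (Cj.conj r _ conjE1)
    · exact h2
    · exact h2.trans (Cj.conj r _ conjE1')
  have all2 : ∀ v, Cj ι v t2 → Cj ι v (t2 * u) → ∀ x, E2 x → Cj ι v x := by
    intro v h1 h2 x hx
    rcases hx with rfl | rfl | rfl | rfl
    · exact h1
    · exact h1.trans (Cj.conj r _ conjE2)
    · exact h2
    · exact h2.trans (Cj.conj r _ conjE2')
  have k00 := key 0 0
  have k10 := key 1 0
  have k01 := key 0 1
  rw [hW0, mul_one] at k00 k10 k01
  rw [hW1] at k10 k01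
  try rw [mul_one] at k00 k10 k01
  have a1 := k00 u (Or.inl rfl)
  have a2 := k00 (u * z) (Or.inr rfl)
  have b1 := k10 u (Or.inl rfl)
  have b2 := k10 (u * z) (Or.inr rfl)
  have c1 := k01 u (Or.inl rfl)
  have c2 := k01 (u * z) (Or.inr rfl)
  rcases a1 with a1 | a1
  · have a2' : Cj ι (u * z) t2 := by
      rcases a2 with a2 | a2
      · exact (hno _ a1 a2).elim
      · exact a2
    have b1' : Cj ι u (t1 * u) := by
      rcases b1 with b1 | b1
      · exact b1
      · exact (hno _ b1 a2').elim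
    have c2' : Cj ι (u * z) (t2 * u) := by
      rcases c2 with c2 | c2
      · exact (hno _ a1 c2).elim
      · exact c2
    exact final hι hr (Or.inl ⟨rfl, rfl⟩) (all1 _ a1 b1') (all2 _ a2' c2')
  · have a2' : Cj ι (u * z) t1 := by
      rcases a2 with a2 | a2
      · exact a2
      · exact (hno _ a1 a2).elim
    have b2' : Cj ι (u * z) (t1 * u) := by
      rcases b2 with b2 | b2
      · exact b2
      · exact (hno _ a1 b2).elim
    have c1' : Cj ι u (t2 * u) := by
      rcases c1 with c1 | c1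
      · exact (hno _ c1 a2').elim
      · exact c1
    exact final hι hr (Or.inr ⟨rfl, rfl⟩) (all1 _ a2' b2') (all2 _ a1 c1')

end CfsgLib.H7Z2D8
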