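import Cfsg.Agent.Lib.FusionExt2

/-!
`p^n`-th powers of central elements in fusion systems over `p`-groups of small class.
-/
set_option autoImplicit false
set_option maxHeartbeats 400000

namespace CfsgLib.H9Cl

open Cfsg Cfsg.FusionSystem CfsgLib.SylowIn CfsgLib.Fusion

section Alg

open Polynomial

theorem exists_h {p : ℕ} (hp : p.Prime) : ∃ h : ℤ[X], (1 + X : ℤ[X]) ^ p = 1 + X ^ p + (p : ℤ[X]) * X * (1 + X * h) := by
  obtain ⟨r, hr⟩ := exists_add_pow_prime_eq hp (1 : ℤ[X]) X
  rw [one_pow, mul_one] at hr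
  have h0 : r.coeff 0 = 1 := by
    have h1 : ((1 + X : ℤ[X]) ^ p).coeff 1 = ((1 : ℤ[X]) + X ^ p + (p : ℤ[X]) * X * r).coeff 1 := by rw [hr]
    have e1 : ((1 + X : ℤ[X]) ^ p).coeff 1 = p := by
      rw [add_comm, Polynomial.coeff_X_add_one_pow]
      simp
    have e2 : ((1 : ℤ[X]) + X ^ p + (p : ℤ[X]) * X * r).coeff 1 = p * r.coeff 0 := by
      have e3 : (p : ℤ[X]) * X * r = X * (C (p : ℤ) * r) := by
        rw [mul_comm (p : ℤ[X]) X, mul_assoc]
        simp
      rw [e3, coeff_add, coeff_add, coeff_X_mul, coeff_C_mul, coeff_X_pow, if_neg hp.one_lt.ne, coeff_one,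
        if_neg one_ne_zero]
      ring
    rw [e1, e2] at h1
    have hp0 : (p : ℤ) ≠ 0 := by exact_mod_cast hp.ne_zero
    have : (p : ℤ) * r.coeff 0 = p * 1 := by rw [← h1, mul_one]
    exact mul_left_cancel₀ hp0 this
  obtain ⟨h, hh⟩ := (X_dvd_iff (f := r - 1)).2 (by rw [coeff_sub, h0, coeff_one_zero, sub_self])
  refine ⟨h, ?_⟩
  rw [← hh, hr]
  ring

theorem ring_aux {A : Type*} [CommRing A] {p : ℕ} (hp : p.Prime) (u : A) (h1 : (1 + u) ^ p = 1) (hn : IsNilpotent u)
    (m : ℕ) : ∀ c : A, c * u ^ (m * (p - 1) + 1) = 0 → c * (p : A) ^ m * u = 0 := by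
  obtain ⟨h, hh⟩ := exists_h hp
  have h2 := congrArg (Polynomial.aeval u) hh
  simp only [map_add, map_pow, map_mul, map_one, Polynomial.aeval_X, map_natCast] at h2
  rw [h1] at h2
  have hw : IsUnit (1 + u * Polynomial.aeval u h) := (Commute.isNilpotent_mul_right (Commute.all _ _) hn).isUnit_one_add
  have h3 : u ^ p = - ((p : A) * u * (1 + u * Polynomial.aeval u h)) := by linear_combination - h2
  induction m with
  | zero => intro c hc; simpa using hc
  | succ m ih =>
    intro c hc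
    have h4 : c * u ^ (p - 1) * u ^ (m * (p - 1) + 1) = 0 := by
      rw [mul_assoc, ← pow_add]
      rw [show p - 1 + (m * (p - 1) + 1) = (m + 1) * (p - 1) + 1 by ring]
      exact hc
    have h5 := ih _ h4
    have h6 : c * (p : A) ^ m * u ^ p = 0 := by
      have : u ^ p = u ^ (p - 1) * u := by rw [← pow_succ, Nat.sub_add_cancel hp.one_le]
      rw [this]; linear_combination h5
    rw [h3] at h6
    have h7 : (c * (p : A) ^ (m + 1) * u) * (1 + u * Polynomial.aeval u h) = 0 := by
      rw [pow_succ]; linear_combination - h6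
    exact (hw.mul_left_eq_zero).1 h7

theorem end_aux {R : Type*} [Ring R] {p : ℕ} (hp : p.Prime) (u : R) (h1 : (1 + u) ^ p = 1) (m : ℕ)
    (h2 : u ^ (m * (p - 1) + 1) = 0) : (p : R) ^ m * u = 0 := by
  set I : Ideal ℤ[X] := Ideal.span {(1 + X) ^ p - 1, X ^ (m * (p - 1) + 1)} with hI
  have e1 : (1 + (Ideal.Quotient.mk I X)) ^ p = 1 := by
    have : Ideal.Quotient.mk I ((1 + X) ^ p - 1) = 0 := Ideal.Quotient.eq_zero_iff_mem.2
      (Ideal.subset_span (by simp))
    rw [map_sub, map_pow, map_add, map_one, sub_eq_zero] at this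
    exact this
  have e2 : (Ideal.Quotient.mk I X) ^ (m * (p - 1) + 1) = 0 := by
    have : Ideal.Quotient.mk I (X ^ (m * (p - 1) + 1)) = 0 := Ideal.Quotient.eq_zero_iff_mem.2
      (Ideal.subset_span (by simp))
    rwa [map_pow] at this
  have e3 := ring_aux hp (Ideal.Quotient.mk I X) e1 ⟨_, e2⟩ m 1 (by rw [one_mul, e2])
  rw [one_mul] at e3
  have e4 : (p : ℤ[X]) ^ m * X ∈ I := by
    rw [← Ideal.Quotient.eq_zero_iff_mem, map_mul, map_pow, map_natCast]
    exact e3
  rw [hI, Ideal.mem_span_pair] at e4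
  obtain ⟨a, b, hab⟩ := e4
  have e5 := congrArg (Polynomial.aeval u) hab
  simp only [map_add, map_pow, map_mul, map_one, map_sub, Polynomial.aeval_X, map_natCast] at e5
  rw [h1, h2, sub_self, mul_zero, mul_zero, add_zero] at e5
  exact e5.symm

end Alg

theorem grp_aux {M : Type*} [CommGroup M] {p : ℕ} (hp : p.Prime) (τ : M →* M) (hτ : ∀ v, (τ)^[p] v = v) (n : ℕ)
    (hN : ∀ v, (fun v => τ v * v⁻¹)^[n * (p - 1) + 1] v = 1) (v : M) : τ v ^ (p ^ n) = v ^ (p ^ n) := by
  set T : AddMonoid.End (Additive M) := MonoidHom.toAdditive τ with hT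
  have hTv : ∀ v : Additive M, T v = Additive.ofMul (τ v.toMul) := fun v => rfl
  have hu : ∀ v : Additive M, (T - 1) v = Additive.ofMul ((fun v => τ v * v⁻¹) v.toMul) := by
    intro v
    show T v - v = _
    rw [hTv, sub_eq_add_neg]
    rfl
  have h1 : (1 + (T - 1)) ^ p = 1 := by
    rw [add_sub_cancel]
    ext v
    have : ∀ k : ℕ, ∀ v : Additive M, (T ^ k) v = Additive.ofMul ((τ)^[k] v.toMul) := by
      intro k
      induction k with
      | zero => intro v; rfl
      | succ k ih =>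
        intro v
        rw [pow_succ, Function.iterate_succ_apply]
        show (T ^ k) (T v) = _
        rw [ih, hTv]
        rfl
    rw [this, hτ]
    rfl
  have h2 : (T - 1) ^ (n * (p - 1) + 1) = 0 := by
    ext v
    have : ∀ k : ℕ, ∀ v : Additive M, ((T - 1) ^ k) v = Additive.ofMul ((fun v => τ v * v⁻¹)^[k] v.toMul) := by
      intro k
      induction k with
      | zero => intro v; rfl
      | succ k ih =>
        intro v
        rw [pow_succ, Function.iterate_succ_apply]
        show ((T - 1) ^ k) ((T - 1) v) = _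
        rw [ih, hu]
        rfl
    rw [this, hN]
    rfl
  have h3 := end_aux hp (T - 1) h1 n h2
  have h4 : ((p : AddMonoid.End (Additive M)) ^ n * (T - 1)) (Additive.ofMul v) = 0 := by rw [h3]; rfl
  have h5 : ∀ (k : ℕ) (f : AddMonoid.End (Additive M)) (w : Additive M), (((k : ℕ) : AddMonoid.End (Additive M)) * f) w = k • f w := by
    intro k f w
    rw [← nsmul_eq_mul]
    rfl
  rw [← Nat.cast_pow, h5, hu] at h4
  have h6 : τ v ^ (p ^ n) * (v ^ (p ^ n))⁻¹ = 1 := by
    have := congrArg Additive.toMul h4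
    simpa using this
  exact mul_inv_eq_one.1 h6

end CfsgLib.H9Cl
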