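import Cfsg.Agent.Lib.H9Cl

/-!
`p^n`-th powers of central elements in fusion systems over `p`-groups of small class (2).
-/
set_option autoImplicit false
set_option maxHeartbeats 400000

namespace CfsgLib.H9Cl

open Cfsg Cfsg.FusionSystem CfsgLib.SylowIn CfsgLib.Fusion

variable {Ω : Type*} [Group Ω] {S : Subgroup Ω}

/-- a criterion for normality of a central subgroup by downward induction -/
theorem isNormal_of_step {F : FusionSystem S} [Finite S] {p : ℕ} [Fact p.Prime]
    (hS : IsPGroup p S) (hF : F.IsSaturated p) {W : Subgroup Ω} (hW : W ≤ S ⊓ Subgroup.centralizer (S : Set Ω))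
    (hWS : ∀ f, FMap F S f → ∀ x ∈ W, f x ∈ W)
    (hstep : ∀ Q, F.IsCentric Q → F.IsFullyNormalized Q → Q < S → W ≤ Q →
      (∀ R f, F.IsCentric R → Q < R → FMap F R f → ∀ x ∈ W, f x ∈ W) →
      ∀ f, FMap F Q f → img Q f = Q → ∀ x ∈ W, f x ∈ W) : F.IsNormal W := by
  have hQS : W ≤ S := hW.trans inf_le_left
  have : Finite W := finite_of_le hQS
  have hcen : ∀ x ∈ W, ∀ y ∈ S, y * x = x * y := fun x hx y hy => Subgroup.mem_centralizer_iff.1 (hW hx).2 y hy
  have hWQ : ∀ Q, F.IsCentric Q → W ≤ Q := by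
    intro Q hQ x hx
    apply hQ.2 Q (isConj_refl hQ.1)
    rw [mem_centralizerIn]
    refine ⟨hQS hx, fun y hy => ?_⟩
    exact (hcen x hx y (hQ.1 hy)).symm
  have hQn : normalizerIn S W = S := by
    apply le_antisymm inf_le_left
    intro g hg
    refine ⟨hg, ?_⟩
    apply mem_normalizer_of_conj_mem
    intro x hx
    rw [hcen x hx g hg, mul_assoc, mul_inv_cancel, mul_one]
    exact hx
  have hmk : ∀ P f, F.IsCentric P → FMap F P f → (∀ x ∈ W, f x ∈ W) → FMap (castFS hQn (normSys F W hQS)) P f := by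
    intro P f hP hf hfW
    have hWP := hWQ P hP
    rw [FMap_castFS, FMap_normSys]
    have hsup : P ⊔ W = P := sup_eq_left.2 hWP
    refine ⟨hf, by rw [hQn]; exact hP.1, fun x hx => by rw [hQn]; exact hf.mapsTo hx, f,
        by rw [hsup]; exact hf, fun x _ => rfl, ?_⟩
    exact (hf.restrict hWP).img_eq_of_mapsTo hfW
  have hun : ∀ P f, F.IsCentric P → FMap (castFS hQn (normSys F W hQS)) P f → (∀ x ∈ W, f x ∈ W) := by
    intro P f hP hf x hx
    rw [FMap_castFS, FMap_normSys] at hf
    obtain ⟨-, -, -, g, hg, hgf, hgW⟩ := hf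
    rw [← hgf x (hWQ P hP hx)]
    have := apply_mem_img (f := g) hx
    rwa [hgW] at this
  have hSc : F.IsCentric S := Saturated.isCentric_of hS hF
    (Saturated.fullyCentralized_of_fullyNormalized hS hF ⟨le_rfl, fun Q hQ => by
      have h1 := isConj_card hQ
      have h2 : Q = S := eq_of_le_card (IsConj_le_right hQ) h1.le
      rw [h2]⟩) inf_le_left
  have hle : F ≤ castFS hQn (normSys F W hQS) := by
    apply le_of_step hS hF
    · rw [le_iff_FMap]
      intro P f hf
      rw [FMap_castFS, FMap_normSys] at hf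
      exact hf.1
    · intro f hf
      exact hmk S f hSc hf (hWS f hf)
    · intro Q hQ hQn' hlt ih f hf hfQ
      apply hmk Q f hQ hf
      apply hstep Q hQ hQn' hlt (hWQ Q hQ) _ f hf hfQ
      intro R g hR hQR hg
      have : Finite R := finite_of_le hR.1
      exact hun R g hR (ih R g hR (card_lt_of_lt hQR) hg)
  rw [isNormal_iff]
  refine ⟨hQS, fun P f hf => ?_⟩
  have h1 := le_iff_FMap.1 hle P f hf
  rw [FMap_castFS, FMap_normSys] at h1
  exact h1.2.2.2

end CfsgLib.H9Cl
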