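import Cfsg.Agent.Lib.H9Cl2
import Cfsg.Prelude.Def_PLocal

/-!
`p^n`-th powers of central elements in fusion systems over `p`-groups of small class (3).
-/
set_option autoImplicit false
set_option maxHeartbeats 400000

namespace CfsgLib.H9Cl

open Cfsg Cfsg.FusionSystem CfsgLib.SylowIn CfsgLib.Fusion

variable {Ω : Type*} [Group Ω] {S : Subgroup Ω}

theorem conj_pow_fix {p : ℕ} (hp : p.Prime) {n : ℕ} (hcl : Subgroup.lowerCentralSeries S (n * (p - 1) + 1) = ⊥)
    {Q : Subgroup Ω} (hQ : Q ≤ S) {g : Ω} (hg : g ∈ S) (hgn : g ∈ Subgroup.normalizer (Q : Set Ω)) (hgp : g ^ p ∈ Q)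
    (z : Subgroup.center Q) :
    (conjAut Q g hgn) ((z : Q) ^ (p ^ n)) = (z : Q) ^ (p ^ n) := by
  set α := conjAut Q g hgn with hα
  have hαc : ∀ z : Subgroup.center Q, α (z : Q) ∈ Subgroup.center Q := by
    intro z
    rw [Subgroup.mem_center_iff]
    intro y
    have h1 := Subgroup.mem_center_iff.1 z.2 (α⁻¹ y)
    have h2 := congrArg α h1
    rw [map_mul, map_mul] at h2
    have h3 : α (α⁻¹ y) = y := by
      show (α * α⁻¹) y = y
      rw [mul_inv_cancel]; rfl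
    rwa [h3] at h2
  set τ : Subgroup.center Q →* Subgroup.center Q :=
    (α.toMonoidHom.comp (Subgroup.center Q).subtype).codRestrict (Subgroup.center Q) hαc with hτ
  have hτv : ∀ v : Subgroup.center Q, ((τ v : Q) : Ω) = g * ((v : Q) : Ω) * g⁻¹ := fun v => rfl
  have h1 : ∀ k : ℕ, ∀ v : Subgroup.center Q, (((τ)^[k] v : Q) : Ω) = g ^ k * ((v : Q) : Ω) * (g ^ k)⁻¹ := by
    intro k
    induction k with
    | zero => intro v; simp
    | succ k ih =>
      intro v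
      rw [Function.iterate_succ_apply, ih, hτv, pow_succ]
      group
  have h2 : ∀ v : Subgroup.center Q, (τ)^[p] v = v := by
    intro v
    apply Subtype.ext
    apply Subtype.ext
    rw [h1]
    have h3 := congrArg Subtype.val (Subgroup.mem_center_iff.1 v.2 ⟨g ^ p, hgp⟩)
    have h4 : g ^ p * ((v : Q) : Ω) = ((v : Q) : Ω) * g ^ p := h3
    rw [h4, mul_assoc, mul_inv_cancel, mul_one]
  have h3 : ∀ k : ℕ, ∀ v : Subgroup.center Q, ((((fun v => τ v * v⁻¹)^[k] v : Subgroup.center Q) : Q) : Ω) ∈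
      Subgroup.lowerCentralSeries S k := by
    intro k v
    induction k with
    | zero => exact hQ (v : Q).2
    | succ k ih =>
      rw [Function.iterate_succ_apply']
      set w := (fun v => τ v * v⁻¹)^[k] v with hw
      have e1 : (((τ w * w⁻¹ : Subgroup.center Q) : Q) : Ω) = (((w : Q) : Ω) * g * ((w : Q) : Ω)⁻¹ * g⁻¹)⁻¹ := by
        show ((τ w : Q) : Ω) * ((w : Q) : Ω)⁻¹ = _
        rw [hτv]; group
      rw [e1]
      apply Subgroup.inv_mem
      exact Subgroup.commutator_mem_commutator ih hg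
  letI : CommGroup (Subgroup.center Q) := { (inferInstance : Group (Subgroup.center Q)) with
    mul_comm := fun a b => Subtype.ext (Subgroup.mem_center_iff.1 b.2 a) }
  have h4 := grp_aux hp τ h2 n (fun v => by
    apply Subtype.ext
    apply Subtype.ext
    have := h3 (n * (p - 1) + 1) v
    rw [hcl, Subgroup.mem_bot] at this
    exact this) z
  have h5 := congrArg (Subtype.val : Subgroup.center Q → Q) h4
  rw [map_pow]
  exact h5

/-- automorphisms fixing the `p^n`-th powers of central elements -/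
def KK (Q : Subgroup Ω) (p n : ℕ) : Subgroup (MulAut Q) where
  carrier := {β | ∀ z : Subgroup.center Q, β ((z : Q) ^ (p ^ n)) = (z : Q) ^ (p ^ n)}
  one_mem' := fun z => rfl
  mul_mem' := by
    intro a b ha hb z
    show a (b _) = _
    rw [hb z, ha z]
  inv_mem' := by
    intro a ha z
    apply a.injective
    rw [ha z]
    show (a * a⁻¹) _ = _
    rw [mul_inv_cancel]; rfl

theorem mem_KK {Q : Subgroup Ω} {p n : ℕ} {β : MulAut Q} :
    β ∈ KK Q p n ↔ ∀ z : Subgroup.center Q, β ((z : Q) ^ (p ^ n)) = (z : Q) ^ (p ^ n) := Iff.rfl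

theorem KK_normal (Q : Subgroup Ω) (p n : ℕ) : (KK Q p n).Normal := by
  constructor
  intro β hβ γ z
  have hc : γ⁻¹ (z : Q) ∈ Subgroup.center Q := by
    rw [Subgroup.mem_center_iff]
    intro y
    have h1 := Subgroup.mem_center_iff.1 z.2 (γ y)
    have h2 := congrArg (γ⁻¹ : MulAut Q) h1
    rw [map_mul, map_mul] at h2
    have h3 : (γ⁻¹ : MulAut Q) (γ y) = y := by
      show (γ⁻¹ * γ) y = y
      rw [inv_mul_cancel]; rfl
    rwa [h3] at h2
  have h1 := hβ ⟨_, hc⟩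
  have h1' : β ((γ⁻¹ (z : Q)) ^ (p ^ n)) = (γ⁻¹ (z : Q)) ^ (p ^ n) := h1
  show γ (β (γ⁻¹ ((z : Q) ^ (p ^ n)))) = _
  rw [map_pow γ⁻¹, h1', ← map_pow]
  show (γ * γ⁻¹) _ = _
  rw [mul_inv_cancel]; rfl

theorem exists_pow_mem {p : ℕ} [Fact p.Prime] [Finite S] (hS : IsPGroup p S) {Q : Subgroup Ω} (hQ : Q < S) :
    ∃ x, x ∈ normalizerIn S Q ∧ x ∉ Q ∧ x ^ p ∈ Q := by
  classical
  have h1 := lt_normalizerIn hS hQ
  obtain ⟨y, hy, hyQ⟩ := SetLike.exists_of_lt h1
  obtain ⟨m, hm⟩ := hS ⟨y, hy.1⟩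
  have hm' : y ^ p ^ m ∈ Q := by
    have := congrArg Subtype.val hm
    have e : y ^ p ^ m = 1 := this
    rw [e]; exact Q.one_mem
  have hex : ∃ k, y ^ p ^ k ∈ Q := ⟨m, hm'⟩
  have h2 := Nat.find_spec hex
  have h3 : Nat.find hex ≠ 0 := by
    intro h0
    rw [h0, pow_zero, pow_one] at h2
    exact hyQ h2
  obtain ⟨k, hk⟩ := Nat.exists_eq_succ_of_ne_zero h3
  refine ⟨y ^ p ^ k, Subgroup.pow_mem _ hy _, Nat.find_min hex (by omega), ?_⟩
  rw [hk, pow_succ, pow_mul] at h2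
  exact h2

theorem agemo_normal {F : FusionSystem S} [Finite S] {p : ℕ} [Fact p.Prime]
    (hS : IsPGroup p S) (hF : F.IsSaturated p) (n : ℕ)
    (hcl : Subgroup.lowerCentralSeries S (n * (p - 1) + 1) = ⊥) :
    F.IsNormal (Cfsg.powerClosure p n (S ⊓ Subgroup.centralizer (S : Set Ω))) := by
  set Z := S ⊓ Subgroup.centralizer (S : Set Ω) with hZ
  set W := Cfsg.powerClosure p n Z with hW
  have hpp : p.Prime := Fact.out
  have hZc : ∀ x ∈ Z, ∀ y ∈ S, y * x = x * y := fun x hx y hy => Subgroup.mem_centralizer_iff.1 hx.2 y hy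
  have hWZ : W ≤ Z := by
    rw [hW, Cfsg.powerClosure, Subgroup.closure_le]
    rintro y ⟨x, hx, rfl⟩
    exact Z.pow_mem hx _
  have hWind : ∀ (f : Ω → Ω) (P : Subgroup Ω), W ≤ P → FMap F P f → (∀ z ∈ Z, f (z ^ (p ^ n)) ∈ W) → ∀ x ∈ W, f x ∈ W := by
    intro f P hWP hf hz x hx
    have hx2 := hx
    rw [hW, Cfsg.powerClosure] at hx2
    induction hx2 using Subgroup.closure_induction with
    | mem y hy => obtain ⟨z, hzZ, rfl⟩ := hy; exact hz z hzZ
    | one => rw [hf.map_one]; exact W.one_mem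
    | mul a b ha hb iha ihb =>
      have ha' : a ∈ W := ha
      have hb' : b ∈ W := hb
      rw [hf.map_mul (hWP ha') (hWP hb')]
      exact W.mul_mem (iha ha') (ihb hb')
    | inv a ha iha =>
      have ha' : a ∈ W := ha
      rw [hf.map_inv (hWP ha')]
      exact W.inv_mem (iha ha')
  apply isNormal_of_step hS hF hWZ
  · intro f hf
    apply hWind f S (hWZ.trans inf_le_left) hf
    intro z hz
    rw [hf.map_pow hz.1]
    apply Subgroup.subset_closure
    refine ⟨f z, ⟨hf.mapsTo hz.1, ?_⟩, rfl⟩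
    refine Subgroup.mem_centralizer_iff.2 fun y hy => ?_
    have himg : img S f = S := hf.img_eq_of_mapsTo fun x hx => hf.mapsTo hx
    rw [SetLike.mem_coe, ← himg] at hy
    obtain ⟨w, hw, rfl⟩ := hf.mem_img.1 hy
    rw [← hf.map_mul hw hz.1, ← hf.map_mul hz.1 hw, hZc z hz w hw]
  · intro Q hQ hQn hlt hWQ ih f hf hfQ x hx
    have hQf : Finite Q := finite_of_le hQ.1
    have hC : centralizerIn S Q ≤ Q := hQ.2 Q (isConj_refl hQ.1)
    have hZQ : Z ≤ Q := by
      intro z hz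
      apply hC
      rw [mem_centralizerIn]
      exact ⟨hz.1, fun y hy => (hZc z hz y (hQ.1 hy)).symm⟩
    obtain ⟨hfa, hr⟩ := Saturated.of_fullyNormalized hS hF hQn
    obtain ⟨α, hα, hαf⟩ := hf.exists_aut hfQ
    -- the subgroup `K`
    set K : Subgroup (MulAut Q) := F.autGroup Q ⊓ KK Q p n with hK
    have hKn := KK_normal Q p n
    have hnorm : F.autGroup Q ≤ Subgroup.normalizer (K : Set (MulAut Q)) := by
      intro γ hγ
      rw [Subgroup.mem_normalizer_iff]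
      intro β
      constructor
      · rintro ⟨h1, h2⟩
        exact ⟨(F.autGroup Q).mul_mem ((F.autGroup Q).mul_mem hγ h1) ((F.autGroup Q).inv_mem hγ), hKn.conj_mem β h2 γ⟩
      · rintro ⟨h1, h2⟩
        have e : β = γ⁻¹ * (γ * β * γ⁻¹) * γ⁻¹⁻¹ := by group
        rw [e]
        exact ⟨(F.autGroup Q).mul_mem ((F.autGroup Q).mul_mem ((F.autGroup Q).inv_mem hγ) h1)
          ((F.autGroup Q).inv_mem ((F.autGroup Q).inv_mem hγ)), hKn.conj_mem _ h2 γ⁻¹⟩
    have hsyl := (autS_sylowIn hfa).inf_normal (inf_le_left : K ≤ F.autGroup Q) hnorm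
    obtain ⟨ν, hν, hνn⟩ := hsyl.frattini inf_le_left hnorm hα
    have hνF : ν ∈ F.autGroup Q := hν.1
    have hβF : ν * α ∈ F.autGroup Q := (F.autGroup Q).mul_mem hνF hα
    set D := autInducedBy S Q ⊓ K with hD
    have hDS : D ≤ autInducedBy S Q := inf_le_left
    have hI : Inn Q < D := by
      have hle : Inn Q ≤ D := by
        rintro _ ⟨y, rfl⟩
        refine ⟨inn_le_autInducedBy hQ.1 ⟨y, rfl⟩, inn_le_autGroup F hQ.1 ⟨y, rfl⟩, fun z => ?_⟩
        show y * (z : Q) ^ (p ^ n) * y⁻¹ = _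
        have h1 := Subgroup.mem_center_iff.1 (Subgroup.pow_mem _ z.2 (p ^ n)) y
        rw [h1, mul_assoc, mul_inv_cancel, mul_one]
      refine lt_of_le_of_ne hle fun h => ?_
      obtain ⟨g, hgN, hgQ, hgp⟩ := exists_pow_mem hS hlt
      have h1 : conjAut Q g hgN.2 ∈ D := by
        have h2 := conjAut_mem_autInducedBy hgN.1 hgN.2
        exact ⟨h2, autInducedBy_le_autGroup F hQ.1 h2, fun z => conj_pow_fix hpp hcl hQ.1 hgN.1 hgN.2 hgp z⟩
      rw [← h] at h1
      obtain ⟨z, hz⟩ := h1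
      apply hgQ
      have h2 : (z : Ω)⁻¹ * g ∈ centralizerIn S Q := by
        rw [mem_centralizerIn]
        refine ⟨S.mul_mem (S.inv_mem (hQ.1 z.2)) hgN.1, fun y hy => ?_⟩
        have h3 : ((MulAut.conj z : MulAut Q) ⟨y, hy⟩ : Ω) = (conjAut Q g hgN.2 ⟨y, hy⟩ : Q) := by
          rw [hz]
        have h4 : (z : Ω) * y * (z : Ω)⁻¹ = g * y * g⁻¹ := h3
        calc (z : Ω)⁻¹ * g * y = (z : Ω)⁻¹ * (g * y * g⁻¹) * g := by group
          _ = (z : Ω)⁻¹ * ((z : Ω) * y * (z : Ω)⁻¹) * g := by rw [h4]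
          _ = y * ((z : Ω)⁻¹ * g) := by group
      have := Q.mul_mem z.2 (hC h2)
      rwa [mul_inv_cancel_left] at this
    obtain ⟨g, hg, hgx⟩ := extend_of_conj hr hβF (pre_le (S := S) (D := D)) (by
      rw [autInducedBy_pre hDS]
      intro γ hγ
      exact ((Subgroup.mem_normalizer_iff.1 hνn γ).1 hγ).1)
    have hltU := lt_pre hQ.1 hDS hI
    have h1 := ih _ g (IsCentric.mono hQ hltU.le (pre_le.trans inf_le_left)) hltU hg x hx
    rw [hgx x (hWQ hx), aext_of_mem _ (hWQ hx)] at h1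
    have h2 : (((ν * α) ⟨x, hWQ hx⟩ : Q) : Ω) ∈ W := h1
    -- `ν` fixes `W`
    have hfix : ∀ κ ∈ KK Q p n, ∀ w (hw : w ∈ W), ((κ ⟨w, hWQ hw⟩ : Q) : Ω) = w := by
      intro κ hκ w hw
      have : W ≤ (((MonoidHom.eqLocus κ.toMonoidHom (MonoidHom.id Q))).map Q.subtype) := by
        rw [hW, Cfsg.powerClosure, Subgroup.closure_le]
        rintro _ ⟨z, hz, rfl⟩
        have hzc : (⟨z, hZQ hz⟩ : Q) ∈ Subgroup.center Q := by
          rw [Subgroup.mem_center_iff]
          intro y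
          exact Subtype.ext (hZc z hz y (hQ.1 y.2))
        exact ⟨⟨z, hZQ hz⟩ ^ (p ^ n), hκ ⟨_, hzc⟩, rfl⟩
      obtain ⟨w', hw', hww⟩ := this hw
      have e1 : w' = ⟨w, hWQ hw⟩ := Subtype.ext hww
      subst e1
      exact congrArg Subtype.val hw'
    have h3 := hfix ν⁻¹ ((KK Q p n).inv_mem hν.2) _ h2
    have h4 : (ν⁻¹ : MulAut Q) ((ν * α) ⟨x, hWQ hx⟩) = α ⟨x, hWQ hx⟩ := by
      show (ν⁻¹ * (ν * α)) _ = _
      rw [inv_mul_cancel_left]
    have h5 : ((α ⟨x, hWQ hx⟩ : Q) : Ω) = f x := hαf _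
    rw [← h5, ← h4]
    have h6 : (⟨(((ν * α) ⟨x, hWQ hx⟩ : Q) : Ω), hWQ h2⟩ : Q) = (ν * α) ⟨x, hWQ hx⟩ := rfl
    rw [h6] at h3
    rw [h3]
    exact h2

end CfsgLib.H9Cl
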