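import Cfsg.Agent.Lib.H9Cl3
import Cfsg.Agent.Lib.FusionCore

/-!
Exponents of `p`-groups of small class supporting a fusion system without normal subgroups.
-/
set_option autoImplicit false
set_option maxHeartbeats 400000

namespace CfsgLib.H9Cl

open Cfsg Cfsg.FusionSystem CfsgLib.Fusion
open scoped commutatorElement

theorem comm_pow {G : Type*} [Group G] {x g : G} (h : Commute ⁅x, g⁆ x) (m : ℕ) : ⁅x ^ m, g⁆ = ⁅x, g⁆ ^ m := by
  induction m with
  | zero => simp
  | succ m ih =>
    have h1 : Commute ⁅x, g⁆ (x ^ m) := h.pow_right m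
    have e1 : ⁅x ^ (m + 1), g⁆ = x ^ m * ⁅x, g⁆ * (g * (x ^ m)⁻¹ * g⁻¹) := by
      rw [commutatorElement_def, commutatorElement_def, pow_succ]; group
    rw [e1, ← h1.eq, pow_succ', ← ih, commutatorElement_def (x ^ m) g]
    group

theorem pow_mem_upper {G : Type*} [Group G] {e : ℕ} (h : ∀ z ∈ Subgroup.center G, z ^ e = 1) (k : ℕ) :
    ∀ x ∈ Subgroup.upperCentralSeries G (k + 1), x ^ e ∈ Subgroup.upperCentralSeries G k := by
  induction k with
  | zero =>
    intro x hx
    rw [Subgroup.upperCentralSeries_one] at hx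
    rw [h x hx]
    exact Subgroup.one_mem _
  | succ k ih =>
    intro x hx
    rw [Subgroup.mem_upperCentralSeries_succ_iff]
    intro g
    have hn : (Subgroup.upperCentralSeries G k).Normal := inferInstance
    have hc := Subgroup.mem_upperCentralSeries_succ_iff.1 hx g
    have hcx := Subgroup.mem_upperCentralSeries_succ_iff.1 hc x
    set π := QuotientGroup.mk' (Subgroup.upperCentralSeries G k) with hπ
    have hker : ∀ y, π y = 1 ↔ y ∈ Subgroup.upperCentralSeries G k := by
      intro y
      rw [← MonoidHom.mem_ker, hπ, QuotientGroup.ker_mk']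
    have h1 : Commute ⁅π x, π g⁆ (π x) := by
      rw [← commutatorElement_eq_one_iff_commute, ← map_commutatorElement, ← map_commutatorElement, hker]
      exact hcx
    rw [← hker, map_commutatorElement, map_pow, comm_pow h1, ← map_commutatorElement, ← map_pow, hker]
    exact ih _ hc

theorem pow_pow_eq_one {G : Type*} [Group G] {e : ℕ} (h : ∀ z ∈ Subgroup.center G, z ^ e = 1) (k : ℕ) :
    ∀ x ∈ Subgroup.upperCentralSeries G k, x ^ (e ^ k) = 1 := by
  induction k with
  | zero => intro x hx; rw [Subgroup.upperCentralSeries_zero, Subgroup.mem_bot] at hx; rw [hx, one_pow]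
  | succ k ih =>
    intro x hx
    rw [pow_succ', pow_mul]
    exact ih _ (pow_mem_upper h k x hx)

theorem exponent_dvd {Ω : Type*} [Group Ω] {S : Subgroup Ω} {F : FusionSystem S} [Finite S] {p : ℕ} [Fact p.Prime]
    (hS : IsPGroup p S) (hF : F.IsSaturated p) (n : ℕ)
    (hcl : Subgroup.lowerCentralSeries S (n * (p - 1) + 1) = ⊥) (hcore : F.core = ⊥) :
    Monoid.exponent ↥S ∣ p ^ (n ^ 2 * (p - 1) + n) := by
  have h1 := IsNormal.le_core (agemo_normal hS hF n hcl)
  rw [hcore] at h1
  have h2 : ∀ z ∈ Subgroup.center S, z ^ (p ^ n) = 1 := by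
    intro z hz
    apply Subtype.ext
    have h3 : (z : Ω) ^ (p ^ n) ∈ powerClosure p n (S ⊓ Subgroup.centralizer (S : Set Ω)) := by
      apply Subgroup.subset_closure
      refine ⟨z, ⟨z.2, ?_⟩, rfl⟩
      refine Subgroup.mem_centralizer_iff.2 fun y hy => ?_
      exact congrArg Subtype.val (Subgroup.mem_center_iff.1 hz ⟨y, hy⟩)
    exact Subgroup.mem_bot.1 (h1 h3)
  have h3 : Subgroup.lowerCentralSeries (⊤ : Subgroup S) (n * (p - 1) + 1) = ⊥ := by
    rw [← Subgroup.map_eq_bot_iff_of_injective _ S.subtype_injective, Subgroup.top_subtype_lowerCentralSeries, hcl]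
  have h4 := Subgroup.lowerCentralSeries_eq_bot_iff_upperCentralSeries_eq_top.1 h3
  rw [Monoid.exponent_dvd_iff_forall_pow_eq_one]
  intro x
  have h5 := pow_pow_eq_one h2 (n * (p - 1) + 1) x (by rw [h4]; trivial)
  rw [← pow_mul] at h5
  rw [show n ^ 2 * (p - 1) + n = n * (n * (p - 1) + 1) by ring]
  exact h5

end CfsgLib.H9Cl
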