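import Mathlib
import Cfsg.Agent.Lib.H9FT
set_option autoImplicit false
set_option maxHeartbeats 800000

/-! Characteristic functors controlling transfer in fusion systems: the induction. -/

namespace CfsgLib.Fusion

open Cfsg Cfsg.FusionSystem CfsgLib.SylowIn CfsgLib.StronglyEmb
open scoped commutatorElement

universe u

variable {p : ℕ} [hp : Fact p.Prime] {W : ∀ (Q : Type u) [Group Q], Subgroup Q}

/-- the quotient step -/
theorem ft_quot (hW1 : ∀ (Q : Type u) [Group Q] [Finite Q], IsPGroup p Q → Nontrivial Q → W Q ≠ ⊥)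
    (hW2 : ∀ (Q R : Type u) [Group Q] [Group R] [Finite Q], IsPGroup p Q → ∀ φ : Q ≃* R, (W Q).map φ.toMonoidHom = W R)
    {Ω : Type u} [Group Ω] {S : Subgroup Ω} [Finite S] (hS : IsPGroup p S)
    (ih : ∀ (Ω' : Type u) [Group Ω'] (S' : Subgroup Ω') [Finite S'], Nat.card S' < Nat.card S → IsPGroup p S' →
      ∀ F' : FusionSystem S', F'.IsSaturated p → F'.focalSubgroup ≤ focN F' (wS W S'))
    {F : FusionSystem S} (hF : F.IsSaturated p) {Q : Subgroup Ω} (hQ : F.IsNormal Q) (hQ0 : Q ≠ ⊥) (hQS : Q < S) :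
    ∃ V, Q < V ∧ V ≤ S ∧ normalizerIn S V = S ∧ F.focalSubgroup ≤ focN F V ⊔ Q := by
  have hQf : Finite Q := finite_of_le hQ.1
  have hQSn : (Q.subgroupOf S).Normal := ⟨fun x hx s => IsNormal.conj_mem hQ s.2 hx⟩
  let θ : S →* (S ⧸ (Q.subgroupOf S)) := QuotientGroup.mk' (Q.subgroupOf S)
  have hker : ∀ s ∈ S, tx θ s = 1 ↔ s ∈ Q := by
    intro s hs
    rw [tx_of_mem hs]
    exact QuotientGroup.eq_one_iff _
  have hsc := IsNormal.stronglyClosed hQ
  have hspec := quotSys_spec hsc θ hker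
  have hfac := Fac.of hS hF hsc hspec
  have hF₂ := surjectiveMorphism_saturated hS hF (factorSystem_surjective hS hF hsc hspec)
  have hfin₂ := hfac.finite
  have hp₂ := hfac.isPGroup hS
  have hcard₂ := hfac.card_pre (le_refl θ.range)
  rw [hfac.pre_top] at hcard₂
  have hQ2 : 1 < Nat.card Q := by
    rw [← not_le]
    intro h
    exact hQ0 (Subgroup.card_eq_one.1 (le_antisymm h Nat.card_pos))
  have hlt₂ : Nat.card θ.range < Nat.card S := by
    rw [hcard₂]
    exact lt_mul_of_one_lt_right Nat.card_pos hQ2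
  have h1 := ih _ θ.range hlt₂ hp₂ _ hF₂
  have hcS := card_lt_of_lt hQS
  have hrng : θ.range ≠ ⊥ := by
    intro h
    rw [h, Subgroup.card_bot, one_mul] at hcard₂
    omega
  have hw₂ := wS_ne_bot hW1 hp₂ hrng
  set W' := wS W θ.range with hW'
  have hW'le : W' ≤ θ.range := wS_le W _
  obtain ⟨V, hVeq⟩ : ∃ V, V = preimageAlong θ W' := ⟨_, rfl⟩
  have hVS : V ≤ S := by rw [hVeq]; exact preimageAlong_le
  have hVf : Finite V := finite_of_le hVS
  have hQV : Nat.card Q < Nat.card V := by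
    rw [hVeq, hfac.card_pre hW'le]
    have h1 : 1 < Nat.card W' := by
      rw [← not_le]
      intro h
      have : Finite W' := finite_of_le hW'le
      exact hw₂ (Subgroup.card_eq_one.1 (le_antisymm h Nat.card_pos))
    exact lt_mul_of_one_lt_left Nat.card_pos h1
  have hQleV : Q ≤ V := by rw [hVeq]; exact hfac.le_pre _
  have hVN : normalizerIn S V = S := by
    rw [hVeq, ← hfac.pre_normalizer hW'le, hW', normalizerIn_wS hW2 hp₂ (quotSys F Q hsc θ hker), hfac.pre_top]
  refine ⟨V, lt_of_le_of_ne hQleV (fun h => by rw [h] at hQV; exact lt_irrefl _ hQV), hVS, hVN, ?_⟩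
  have h2 : focN (quotSys F Q hsc θ hker) W' ≤ imageAlong θ (focN F V) := by
    rw [focN_le_iff]
    intro R' f' hWR hf' hfW y hy
    obtain ⟨f, hf, hi⟩ := hfac.lift hf'
    have hVR : V ≤ preimageAlong θ R' := by rw [hVeq]; exact hfac.pre_mono hWR
    obtain ⟨x, hx, rfl⟩ : ∃ x ∈ preimageAlong θ R', tx θ x = y := by
      have := hy
      rw [← hfac.image_pre hf'.le] at this
      exact (mem_imageAlong preimageAlong_le).1 this
    have hfV : img V f = V := by
      rw [hVeq]
      rw [hfac.img_lift (hf.restrict (hfac.pre_mono hWR)) (hf'.restrict hWR) ?_, hfW]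
      intro z hz
      obtain ⟨hz1, hz2⟩ := mem_preimageAlong.1 hz
      exact ⟨hz2, (hi z (hfac.pre_mono hWR hz)).2⟩
    rw [(hi x hx).2, ← tx_inv (hf.le hx), ← tx_mul (S.inv_mem (hf.le hx)) (hf.mapsTo hx)]
    exact (mem_imageAlong (focN_le_foc.trans foc_le)).2 ⟨_, focN_mem hVR hf hfV hx, rfl⟩
  intro x hx
  have hxS := foc_le hx
  have h3 : tx θ x ∈ imageAlong θ (focN F V) := by
    apply h2
    apply h1
    rw [hfac.foc]
    exact (mem_imageAlong foc_le).2 ⟨x, hx, rfl⟩
  obtain ⟨z, hz, hzx⟩ := (mem_imageAlong (focN_le_foc.trans foc_le)).1 h3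
  have hzS : z ∈ S := foc_le (focN_le_foc hz)
  rw [tx_eq_iff hker hzS hxS] at hzx
  have e : x = z * (z⁻¹ * x) := by group
  rw [e]
  exact Subgroup.mul_mem_sup hz hzx

/-- the case of a nontrivial normal subgroup -/
theorem ft_base (hW1 : ∀ (Q : Type u) [Group Q] [Finite Q], IsPGroup p Q → Nontrivial Q → W Q ≠ ⊥)
    (hW2 : ∀ (Q R : Type u) [Group Q] [Group R] [Finite Q], IsPGroup p Q → ∀ φ : Q ≃* R, (W Q).map φ.toMonoidHom = W R)
    (hT : ∀ (G : Type u) [Group G] [Finite G] (P : Sylow p G), Subgroup.centralizer ((Cfsg.pCore p G : Subgroup G) : Set G) ≤ Cfsg.pCore p G → Cfsg.pCore p G ⊓ commutator G = Cfsg.pCore p G ⊓ (commutator ↥(Subgroup.normalizer (((W ↥(P : Subgroup G)).map (P : Subgroup G).subtype : Subgroup G) : Set G))).map (Subgroup.normalizer (((W ↥(P : Subgroup G)).map (P : Subgroup G).subtype : Subgroup G) : Set G)).subtype)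
    {Ω : Type u} [Group Ω] {S : Subgroup Ω} [Finite S] (hS : IsPGroup p S)
    (ih : ∀ (Ω' : Type u) [Group Ω'] (S' : Subgroup Ω') [Finite S'], Nat.card S' < Nat.card S → IsPGroup p S' →
      ∀ F' : FusionSystem S', F'.IsSaturated p → F'.focalSubgroup ≤ focN F' (wS W S')) :
    ∀ (m : ℕ) (F : FusionSystem S), F.IsSaturated p → ∀ Q : Subgroup Ω, F.IsNormal Q → Q ≠ ⊥ →
      Nat.card S ≤ Nat.card Q + m → F.focalSubgroup ≤ focN F (wS W S) := by
  intro m
  induction m using Nat.strong_induction_on with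
  | _ m ihm =>
  intro F hF Q₀ hQ₀ hQ₀0 hm₀
  have hNS := normalizerIn_wS hW2 hS F
  have hwSle := wS_le W S
  -- work with the core
  set Q := F.core with hQdef
  have hQ : F.IsNormal Q := isNormal_core F
  have hQS : Q ≤ S := hQ.1
  have hQf : Finite Q := finite_of_le hQS
  have hQ₀Q : Q₀ ≤ Q := IsNormal.le_core hQ₀
  have hQ0 : Q ≠ ⊥ := fun h => hQ₀0 (eq_bot_iff.2 (h ▸ hQ₀Q))
  have hm : Nat.card S ≤ Nat.card Q + m := by
    have := card_le_of_le hQ₀Q
    omega
  have hN : normalizerIn S Q = S := by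
    apply le_antisymm inf_le_left
    intro s hs
    exact ⟨hs, mem_normalizer_of_conj_mem fun x hx => IsNormal.conj_mem hQ hs hx⟩
  have hcS := commutator_le_focN (F := F) hwSle hNS
  -- passing to the normalizer of a larger normal subgroup
  have hbig : ∀ (F₁ : FusionSystem S), F₁.IsSaturated p → ∀ V : Subgroup Ω, Q < V → V ≤ S → normalizerIn S V = S →
      focN F₁ V ≤ focN F₁ (wS W S) := by
    intro F₁ hF₁ V hQV hVS hVN
    have hVf : Finite V := finite_of_le hVS
    have hVn : F₁.IsFullyNormalized V := by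
      refine ⟨hVS, fun R _ => ?_⟩
      rw [hVN]; exact card_le_of_le inf_le_left
    let E := castFS hVN (normSys F₁ V hVS)
    have hE : ∀ P f, FMap E P f ↔ FMap (normSys F₁ V hVS) P f := fun P f => FMap_castFS _ _
    have hEs : E.IsSaturated p := (castFS_saturated _ _).2 (normSys_saturated hS hF₁ hVn)
    have hEF : ∀ P f, FMap E P f → FMap F₁ P f := fun P f hf => (FMap_normSys.1 ((hE P f).1 hf)).1
    have hEof : ∀ P f, V ≤ P → FMap F₁ P f → img V f = V → FMap E P f := by
      intro P f hVP hf hfV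
      rw [hE]
      exact FMap_normSys_of_le hf hVP (by rw [hVN]; exact hf.le) hfV
    have hEV : E.IsNormal V := by
      rw [isNormal_iff]
      refine ⟨hVS, fun P f hf => ?_⟩
      obtain ⟨h1, h2, h3, g, hg, hgP, hgV⟩ := FMap_normSys.1 ((hE P f).1 hf)
      exact ⟨g, hEof _ _ le_sup_right hg hgV, hgP, hgV⟩
    have hlt := card_lt_of_lt hQV
    have hVS' := card_le_of_le hVS
    have h1 := ihm (m - (Nat.card V - Nat.card Q)) (by omega) E hEs V hEV
      (fun h => hQ0 (eq_bot_iff.2 (le_of_le_of_eq hQV.le h))) (by omega)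
    refine le_trans ?_ (h1.trans (focN_mono hEF))
    rw [focN_le_iff]
    intro R f hVR hf hfV x hx
    exact foc_mem (hEof R f hVR hf hfV) hx
  -- the combination of the quotient step and the previous one
  have hcomb : ∀ (F₁ : FusionSystem S), F₁.IsSaturated p → F₁.IsNormal Q → Q < S →
      F₁.focalSubgroup ⊓ Q ≤ focN F₁ (wS W S) → F₁.focalSubgroup ≤ focN F₁ (wS W S) := by
    intro F₁ hF₁ hQ₁ hQS' hinf
    obtain ⟨V, hQV, hVS, hVN, hV⟩ := ft_quot hW1 hW2 hS ih hF₁ hQ₁ hQ0 hQS'
    have h1 := hbig F₁ hF₁ V hQV hVS hVN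
    intro x hx
    have h2 := hV hx
    have hle : focN F₁ V ≤ Subgroup.normalizer (Q : Set Ω) := by
      intro y hy
      have hyS := foc_le (focN_le_foc hy)
      exact mem_normalizer_of_conj_mem fun x hx => IsNormal.conj_mem hQ hyS hx
    obtain ⟨a, ha, b, hb, rfl⟩ := mem_sup_prod hle h2
    have ha' := h1 ha
    have hb' : b ∈ F₁.focalSubgroup := by
      have := Subgroup.mul_mem _ (Subgroup.inv_mem _ (focN_le_foc ha)) hx
      rwa [inv_mul_cancel_left] at this
    exact Subgroup.mul_mem _ ha' (hinf ⟨hb', hb⟩)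
  rcases eq_or_lt_of_le hQS with hQeq | hQS'
  · -- `S` is normal
    rw [foc_le_iff]
    intro P f hf x hx
    obtain ⟨g, hg, hgP, hgQ⟩ := (isNormal_iff.1 hQ).2 P f hf
    rw [hQeq] at hg hgQ
    have hgS : FMap F S g := hg.restrict le_sup_right
    have h1 : img (wS W S) g = wS W S := by
      rw [wS_img hW2 hS hgS, hgQ]
    have h2 := focN_mem hwSle hgS h1 (hf.le hx)
    rwa [hgP x hx] at h2
  by_cases hC : centralizerIn S Q ≤ Q
  · -- the constrained case
    have hQn : F.IsFullyNormalized Q := by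
      refine ⟨hQS, fun R _ => ?_⟩
      rw [hN]; exact card_le_of_le inf_le_left
    have hQc : F.IsCentric Q := Saturated.isCentric_of hS hF
      (Saturated.fullyCentralized_of_fullyNormalized hS hF hQn) hC
    obtain ⟨L, _, ι, hL, -⟩ := exists_model hS hF hQ hQc
    have hcore := IsModel.map_core hS hL
    obtain ⟨hLf, hreal, ⟨T, hT'⟩, hLC⟩ := id hL
    refine hcomb F hF hQ hQS' ?_
    rintro x ⟨hxf, hxQ⟩
    have hxS : x ∈ S := hQS hxQ
    have h1 := realized_foc hreal ⟨x, hxS⟩ hxf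
    have h2 : ι ⟨x, hxS⟩ ∈ pCore p L := by
      rw [← hcore]
      exact ⟨⟨x, hxS⟩, hxQ, rfl⟩
    have h3 : ι ⟨x, hxS⟩ ∈ pCore p L ⊓ commutator L := ⟨h2, h1⟩
    rw [hT L T hLC] at h3
    have h4 := h3.2
    have h5 := wS_hom hW2 hS hreal.1 hT'
    rw [h5, ← wS_subgroupOf W S] at h4
    exact realized_focN hreal T hT' hwSle hNS ⟨x, hxS⟩ h4
  · -- the nonconstrained case
    have hRS : Q ⊔ centralizerIn S Q ≤ S := sup_le hQS inf_le_left
    have hQR : Q < Q ⊔ centralizerIn S Q :=
      lt_of_le_of_ne le_sup_left fun h => hC (le_of_le_of_eq le_sup_right h.symm)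
    have hNR : normalizerIn S (Q ⊔ centralizerIn S Q) = S := by
      apply le_antisymm inf_le_left
      have := normalizerIn_le_sup_centralizer F hQS (S := S)
      rwa [hN] at this
    set D := focN F (wS W S) with hD
    have h1 : ∀ P f, FMap (normSys F Q hQS) P f → FMap (inD F D hcS) P f := by
      refine normSys_le_of_decomp hS hF hQS hN (inD F D hcS) ?_ ?_
      · intro P f hf
        obtain ⟨g1, g2, g3, g, hg, hgP, hgR⟩ := FMap_normSys.1 hf
        rw [FMap_inD]
        refine ⟨g1, fun x hx => ?_⟩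
        have h2 := focN_mem (le_sup_right : (Q ⊔ centralizerIn S Q) ≤ P ⊔ (Q ⊔ centralizerIn S Q)) hg hgR (le_sup_left (a := P) hx)
        rw [hgP x hx] at h2
        exact hbig F hF _ hQR hRS hNR h2
      · rw [le_iff_FMap]
        have hF₁ := innSys_saturated hS hF hQS hN
        have hQ₁ : (innSys F Q hQS hN).IsNormal Q := isNormal_innSys
        have hsub : ∀ P f, FMap (innSys F Q hQS hN) P f → FMap F P f := fun P f hf => (FMap_innSys.1 hf).1
        have h2 := hcomb _ hF₁ hQ₁ hQS' (by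
          have hc₁ := commutator_le_focN (F := innSys F Q hQS hN) hwSle hNS
          refine le_trans ?_ hc₁
          refine CfsgLib.BSet.foc_inf_le hS hF₁ le_rfl ?_ hQS ?_
          · rw [Subgroup.commutator_le]
            intro a ha b hb
            rw [commutatorElement_def]
            exact S.mul_mem (S.mul_mem (S.mul_mem ha hb) (S.inv_mem ha)) (S.inv_mem hb)
          · intro P f hf a ha haQ
            obtain ⟨g1, g, g2, g3, s, hs, g4⟩ := FMap_innSys.1 hf
            rw [← g3 a ha, g4 a haQ]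
            have e : a⁻¹ * (s * a * s⁻¹) = ⁅a⁻¹, s⁆ := by rw [commutatorElement_def]; group
            rw [e]
            exact Subgroup.commutator_mem_commutator (S.inv_mem (hQS haQ)) hs)
        intro P f hf
        rw [FMap_inD]
        refine ⟨hsub P f hf, fun x hx => ?_⟩
        exact focN_mono hsub (h2 (foc_mem hf hx))
    rw [foc_le_iff]
    intro P f hf x hx
    obtain ⟨g, hg, hgP, hgQ⟩ := (isNormal_iff.1 hQ).2 P f hf
    have h2 := h1 _ _ (FMap_normSys_of_le (hQ := hQS) hg le_sup_right (by rw [hN]; exact hg.le) hgQ)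
    have h3 := (FMap_inD.1 h2).2 x (le_sup_left (a := P) hx)
    rwa [hgP x hx] at h3

/-- `W` controls transfer -/
theorem ft_main (hW1 : ∀ (Q : Type u) [Group Q] [Finite Q], IsPGroup p Q → Nontrivial Q → W Q ≠ ⊥)
    (hW2 : ∀ (Q R : Type u) [Group Q] [Group R] [Finite Q], IsPGroup p Q → ∀ φ : Q ≃* R, (W Q).map φ.toMonoidHom = W R)
    (hT : ∀ (G : Type u) [Group G] [Finite G] (P : Sylow p G), Subgroup.centralizer ((Cfsg.pCore p G : Subgroup G) : Set G) ≤ Cfsg.pCore p G → Cfsg.pCore p G ⊓ commutator G = Cfsg.pCore p G ⊓ (commutator ↥(Subgroup.normalizer (((W ↥(P : Subgroup G)).map (P : Subgroup G).subtype : Subgroup G) : Set G))).map (Subgroup.normalizer (((W ↥(P : Subgroup G)).map (P : Subgroup G).subtype : Subgroup G) : Set G)).subtype) :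
    ∀ (n : ℕ) (Ω : Type u) [Group Ω] (S : Subgroup Ω) [Finite S], Nat.card S = n → IsPGroup p S →
      ∀ F : FusionSystem S, F.IsSaturated p → F.focalSubgroup ≤ focN F (wS W S) := by
  intro n
  induction n using Nat.strong_induction_on with
  | _ n ihn =>
  intro Ω _ S _ hn hS F hF
  have ih : ∀ (Ω' : Type u) [Group Ω'] (S' : Subgroup Ω') [Finite S'], Nat.card S' < Nat.card S → IsPGroup p S' →
      ∀ F' : FusionSystem S', F'.IsSaturated p → F'.focalSubgroup ≤ focN F' (wS W S') :=
    fun Ω' _ S' _ h1 h2 F' h3 => ihn _ (by omega) Ω' S' rfl h2 F' h3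
  have hNS := normalizerIn_wS hW2 hS F
  have hwSle := wS_le W S
  have hcS := commutator_le_focN (F := F) hwSle hNS
  set D := focN F (wS W S) with hD
  suffices h : F ≤ inD F D hcS by
    rw [foc_le_iff]
    intro P f hf x hx
    exact (FMap_inD.1 ((le_iff_FMap.1 h) P f hf)).2 x hx
  refine alperin_gorenstein hS hF (inD F D hcS) ?_ (wS W) (fun P _ => wS_le W P) ?_ ?_ ?_ ?_ ?_
  · rw [le_iff_FMap]
    exact fun P f hf => (FMap_inD.1 hf).1
  · intro P hP h0
    have : Finite P := finite_of_le hP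
    exact wS_ne_bot hW1 (hS.to_le hP) h0
  · intro P hP
    exact normalizerIn_le_wS hW2 hS F hP
  · intro f hf
    have h1 := wS_img hW2 hS hf
    have h2 : img S f = S := hf.img_eq_of_mapsTo fun x hx => hf.mapsTo hx
    rw [h2] at h1
    rw [FMap_inD]
    exact ⟨hf, fun x hx => focN_mem hwSle hf h1 hx⟩
  · intro Q hQ hQ0 hQn hlt hA P f hf
    have hNf : Finite (normalizerIn S Q) := finite_of_le inf_le_left
    have hNp : IsPGroup p (normalizerIn S Q) := hS.to_le inf_le_left
    have hlt' := card_lt_of_lt hlt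
    have h1 := ih Ω (normalizerIn S Q) hlt' hNp (normSys F Q hQ) (normSys_saturated hS hF hQn)
    have h2 : focN (normSys F Q hQ) (wS W (normalizerIn S Q)) ≤ D := by
      rw [focN_le_iff]
      intro R g hR hg hgw x hx
      have hgF := (FMap_normSys.1 hg).1
      have hle : R ≤ normalizerIn S (wS W (normalizerIn S Q)) := by
        have h1 := hg.le
        refine h1.trans ?_
        exact (le_normalizerIn inf_le_left).trans (normalizerIn_le_wS hW2 hS F inf_le_left)
      have hgN := FMap_normSys_of_le (hQ := (wS_le W (normalizerIn S Q)).trans inf_le_left) hgF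
        hR hle hgw
      exact (FMap_inD.1 (hA _ _ hgN)).2 x hx
    rw [FMap_inD]
    exact ⟨(FMap_normSys.1 hf).1, fun x hx => h2 (h1 (foc_mem hf hx))⟩
  · intro Q hQ hQ0 hN P f hf
    have hQf : Finite Q := finite_of_le hQ
    have hQn : F.IsFullyNormalized Q := by
      refine ⟨hQ, fun R _ => ?_⟩
      rw [hN]; exact card_le_of_le inf_le_left
    let E := castFS hN (normSys F Q hQ)
    have hE : ∀ P f, FMap E P f ↔ FMap (normSys F Q hQ) P f := fun P f => FMap_castFS _ _
    have hEs : E.IsSaturated p := (castFS_saturated _ _).2 (normSys_saturated hS hF hQn)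
    have hEF : ∀ P f, FMap E P f → FMap F P f := fun P f hf => (FMap_normSys.1 ((hE P f).1 hf)).1
    have hEQ : E.IsNormal Q := by
      rw [isNormal_iff]
      refine ⟨hQ, fun P f hf => ?_⟩
      obtain ⟨h1, h2, h3, g, hg, hgP, hgQ⟩ := FMap_normSys.1 ((hE P f).1 hf)
      refine ⟨g, ?_, hgP, hgQ⟩
      rw [hE]
      exact FMap_normSys_of_le hg le_sup_right (by rw [hN]; exact hg.le) hgQ
    have h1 := ft_base hW1 hW2 hT hS ih (Nat.card S) E hEs Q hEQ hQ0 (by omega)
    rw [FMap_inD]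
    exact ⟨(FMap_normSys.1 hf).1, fun x hx => focN_mono hEF (h1 (foc_mem ((hE P f).2 hf) hx))⟩

end CfsgLib.Fusion

namespace CfsgLib.Fusion

open Cfsg Cfsg.FusionSystem

universe u

theorem s5197_aux {Ω : Type u} [Group Ω] {S : Subgroup Ω} [Finite S] {F : Cfsg.FusionSystem S} {A : Subgroup Ω} (hA : A ≤ S)
    (hNS : normalizerIn S A = S) (hF : F.focalSubgroup ≤ focN F A)
    (N : Cfsg.FusionSystem (Cfsg.FusionSystem.normalizerIn S A)) (hN : F.IsNormalizerSystem A N) : N.focalSubgroup = F.focalSubgroup := by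
  rw [eq_normSys hA hN, normSys_foc hA hNS]
  exact le_antisymm focN_le_foc hF

/-- S5197 -/
theorem s5197 {p : ℕ} [Fact p.Prime] (W : ∀ (Q : Type u) [Group Q], Subgroup Q) (hW1 : ∀ (Q : Type u) [Group Q] [Finite Q], IsPGroup p Q → Nontrivial Q → W Q ≠ ⊥) (hW2 : ∀ (Q R : Type u) [Group Q] [Group R] [Finite Q], IsPGroup p Q → ∀ φ : Q ≃* R, (W Q).map φ.toMonoidHom = W R) (hT : ∀ (G : Type u) [Group G] [Finite G] (P : Sylow p G), Subgroup.centralizer ((Cfsg.pCore p G : Subgroup G) : Set G) ≤ Cfsg.pCore p G → Cfsg.pCore p G ⊓ commutator G = Cfsg.pCore p G ⊓ (commutator ↥(Subgroup.normalizer (((W ↥(P : Subgroup G)).map (P : Subgroup G).subtype : Subgroup G) : Set G))).map (Subgroup.normalizer (((W ↥(P : Subgroup G)).map (P : Subgroup G).subtype : Subgroup G) : Set G)).subtype) {Ω : Type u} [Group Ω] {S : Subgroup Ω} [Finite S] (hS : IsPGroup p S) (F : Cfsg.FusionSystem S) (hF : F.IsSaturated p) (N : Cfsg.FusionSystem (Cfsg.FusionSystem.normalizerIn S ((W ↥S).map S.subtype)))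 (hN : F.IsNormalizerSystem ((W ↥S).map S.subtype) N) : N.focalSubgroup = F.focalSubgroup := by
  exact s5197_aux (wS_le W S) (normalizerIn_wS hW2 hS F) (ft_main hW1 hW2 hT _ Ω S rfl hS F hF) N hN

end CfsgLib.Fusion
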