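import Cfsg.Agent.Lib.ThmA6
import Cfsg.Agent.Lib.Involves
/-!
Transfer of natural `SL₂(p)`-sections.
-/
set_option autoImplicit false
set_option maxHeartbeats 400000

namespace CfsgLib.ThmA
open CfsgLib.Dick CfsgLib CfsgLib.SylowIn

variable {p : ℕ} [hp : Fact p.Prime]

theorem natSec_transfer {G L : Type*} [Group G] [Group L] {P X : Subgroup G} (h : NatSec p P X)
    (i : P →* L) (hi : Function.Injective i) (M : Subgroup L)
    (hM : ∀ x ∈ X, ∃ m ∈ M, ∀ v (hv : v ∈ P) (h : x * v * x⁻¹ ∈ P), m * i ⟨v, hv⟩ * m⁻¹ = i ⟨x * v * x⁻¹, h⟩) :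
    NatSec p i.range M := by
  classical
  obtain ⟨Y, V, ρ, e, hYX, hVP, hρ, he, hact⟩ := h
  -- the image of `V`
  let j : V →* L := i.comp (Subgroup.inclusion hVP)
  have hj : Function.Injective j := hi.comp (Subgroup.inclusion_injective hVP)
  let E : V ≃* j.range := MonoidHom.ofInjective hj
  have hE : ∀ v, ((E v : j.range) : L) = i ⟨v, hVP v.2⟩ := fun v => rfl
  let Y' : Subgroup L :=
    { carrier := {m | m ∈ M ∧ ∃ y : Y, ∀ v (hv : v ∈ V) (h : (y : G) * v * (y : G)⁻¹ ∈ V),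
        m * i ⟨v, hVP hv⟩ * m⁻¹ = i ⟨(y : G) * v * (y : G)⁻¹, hVP h⟩}
      one_mem' := ⟨M.one_mem, 1, fun v hv h => by
        rw [inv_one, mul_one, one_mul]; congr 1; apply Subtype.ext; simp⟩
      mul_mem' := by
        rintro m n ⟨hm, y, hy⟩ ⟨hn, z, hz⟩
        refine ⟨M.mul_mem hm hn, y * z, fun v hv h => ?_⟩
        obtain ⟨h1, -⟩ := hact z ⟨v, hv⟩
        obtain ⟨h2, -⟩ := hact y ⟨_, h1⟩
        have e1 : m * n * i ⟨v, hVP hv⟩ * (m * n)⁻¹ = m * (n * i ⟨v, hVP hv⟩ * n⁻¹) * m⁻¹ := by group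
        rw [e1, hz v hv h1, hy _ h1 h2]
        congr 1
        apply Subtype.ext
        show (y : G) * ((z : G) * v * (z : G)⁻¹) * (y : G)⁻¹ = ((y * z : Y) : G) * v * ((y * z : Y) : G)⁻¹
        rw [Subgroup.coe_mul]; group
      inv_mem' := by
        rintro m ⟨hm, y, hy⟩
        refine ⟨M.inv_mem hm, y⁻¹, fun v hv h => ?_⟩
        have h' : (y : G) * (((y⁻¹ : Y) : G) * v * ((y⁻¹ : Y) : G)⁻¹) * (y : G)⁻¹ ∈ V := by
          have : (y : G) * (((y⁻¹ : Y) : G) * v * ((y⁻¹ : Y) : G)⁻¹) * (y : G)⁻¹ = v := by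
            rw [Subgroup.coe_inv]; group
          rw [this]; exact hv
        have h1 := hy _ h h'
        have e1 : (⟨_, hVP h'⟩ : P) = ⟨v, hVP hv⟩ := by
          apply Subtype.ext
          show (y : G) * (((y⁻¹ : Y) : G) * v * ((y⁻¹ : Y) : G)⁻¹) * (y : G)⁻¹ = v
          rw [Subgroup.coe_inv]; group
        rw [e1] at h1
        rw [← h1]; group }
  obtain ⟨ρ', hρ'⟩ := exists_hom_of_rel (A := Y') (B := SL2 (ZMod p))
    (fun m b => ∃ y : Y, (∀ v (hv : v ∈ V) (h : (y : G) * v * (y : G)⁻¹ ∈ V),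
        (m : L) * i ⟨v, hVP hv⟩ * (m : L)⁻¹ = i ⟨(y : G) * v * (y : G)⁻¹, hVP h⟩) ∧ ρ y = b)
    (fun m => by
      obtain ⟨-, y, hy⟩ := m.2
      exact ⟨ρ y, y, hy, rfl⟩)
    (by
      rintro m _ _ ⟨y, hy, rfl⟩ ⟨z, hz, rfl⟩
      apply Subtype.ext
      apply mulVec_inj
      intro c
      obtain ⟨v, hv⟩ := he (Multiplicative.ofAdd c)
      obtain ⟨h1, h1'⟩ := hact y v
      obtain ⟨h2, h2'⟩ := hact z v
      have h3 := (hy v v.2 h1).symm.trans (hz v v.2 h2)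
      have h4 := hi h3
      have h5 : (⟨_, h1⟩ : V) = ⟨_, h2⟩ := by
        apply Subtype.ext
        exact congrArg (fun x : P => (x : G)) h4
      rw [h5] at h1'
      rw [hv] at h1' h2'
      exact h1'.symm.trans h2')
    (by
      rintro m n _ _ ⟨y, hy, rfl⟩ ⟨z, hz, rfl⟩
      refine ⟨y * z, fun v hv h => ?_, map_mul ρ y z⟩
      obtain ⟨h1, -⟩ := hact z ⟨v, hv⟩
      obtain ⟨h2, -⟩ := hact y ⟨_, h1⟩
      have e1 : ((m * n : Y') : L) * i ⟨v, hVP hv⟩ * ((m * n : Y') : L)⁻¹ =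
          (m : L) * ((n : L) * i ⟨v, hVP hv⟩ * (n : L)⁻¹) * (m : L)⁻¹ := by
        rw [Subgroup.coe_mul]; group
      rw [e1, hz v hv h1, hy _ h1 h2]
      congr 1
      apply Subtype.ext
      show (y : G) * ((z : G) * v * (z : G)⁻¹) * (y : G)⁻¹ = ((y * z : Y) : G) * v * ((y * z : Y) : G)⁻¹
      rw [Subgroup.coe_mul]; group)
  refine ⟨Y', j.range, ρ', e.comp E.symm.toMonoidHom, fun m hm => hm.1, ?_, ?_, ?_, ?_⟩
  · rintro _ ⟨v, rfl⟩
    exact ⟨⟨v, hVP v.2⟩, rfl⟩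
  · intro b
    obtain ⟨y, rfl⟩ := hρ b
    obtain ⟨m, hm, hmv⟩ := hM y (hYX y.2)
    have hmY : m ∈ Y' := ⟨hm, y, fun v hv h => hmv v (hVP hv) (hVP h)⟩
    refine ⟨⟨m, hmY⟩, ?_⟩
    obtain ⟨z, hz, hzρ⟩ := hρ' ⟨m, hmY⟩
    rw [← hzρ]
    apply Subtype.ext
    apply mulVec_inj
    intro c
    obtain ⟨v, hv⟩ := he (Multiplicative.ofAdd c)
    obtain ⟨h1, h1'⟩ := hact z v
    obtain ⟨h2, h2'⟩ := hact y v
    have h3 := (hz v v.2 h1).symm.trans (hmv v (hVP v.2) (hVP h2))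
    have h4 := hi h3
    have h5 : (⟨_, h1⟩ : V) = ⟨_, h2⟩ := by
      apply Subtype.ext
      exact congrArg (fun x : P => (x : G)) h4
    rw [h5] at h1'
    rw [hv] at h1' h2'
    exact h1'.symm.trans h2'
  · exact he.comp E.symm.surjective
  · intro m v'
    obtain ⟨v, rfl⟩ := E.surjective v'
    obtain ⟨y, hy, hyρ⟩ := hρ' m
    obtain ⟨h1, h1'⟩ := hact y v
    have h2 := hy v v.2 h1
    have h3 : (m : L) * ((E v : j.range) : L) * (m : L)⁻¹ ∈ j.range := by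
      rw [hE, h2]
      exact ⟨⟨_, h1⟩, rfl⟩
    refine ⟨h3, ?_⟩
    have h4 : (⟨_, h3⟩ : j.range) = E ⟨_, h1⟩ := by
      apply Subtype.ext
      exact h2
    rw [h4]
    show (e (E.symm (E ⟨_, h1⟩))).toAdd = (ρ' m : Matrix (Fin 2) (Fin 2) (ZMod p)).mulVec (e (E.symm (E v))).toAdd
    rw [MulEquiv.symm_apply_apply, MulEquiv.symm_apply_apply, h1', hyρ]

/-- a group involving `Qd(p)` has a natural `SL₂(p)`-section on a `p`-subgroup in its normalizer. -/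
theorem natSec_of_involves {G : Type*} [Group G] [Finite G] (h : Cfsg.Involves ↥(Cfsg.qd p) G) :
    ∃ Q : Subgroup G, IsPGroup p Q ∧ NatSec p Q (Subgroup.normalizer (Q : Set G)) := by
  obtain ⟨K, f, hf⟩ := CfsgLib.involves_iff.1 h
  obtain ⟨P, hP, hPm, hPn⟩ := exists_lift_pgroup f hf (tr2_isPGroup (p := p))
  have hlin : ∀ x : Cfsg.qd p, ∃ A v, x = qi A v := qi_surj
  obtain ⟨ℓ, hℓ⟩ := exists_hom_of_rel (A := ↥(Cfsg.qd p)) (B := SL2 (ZMod p)) (fun x A => ∃ v, x = qi A v)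
    (fun x => by obtain ⟨A, v, h⟩ := qi_surj x; exact ⟨A, v, h⟩)
    (by
      rintro x A B ⟨v, rfl⟩ ⟨w, hw⟩
      exact (qi_inj hw).1)
    (by
      rintro _ _ A B ⟨v, rfl⟩ ⟨w, rfl⟩
      exact ⟨_, qi_mul A B v w⟩)
  obtain ⟨τ, hτ⟩ := exists_hom_of_rel (A := ↥(tr2 p)) (B := Multiplicative (Fin 2 → ZMod p))
    (fun x c => (x : Cfsg.qd p) = qi 1 c.toAdd)
    (fun x => by obtain ⟨v, hv⟩ := x.2; exact ⟨Multiplicative.ofAdd v, hv⟩)
    (by
      rintro x c d h1 h2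
      exact (qi_inj (h1.symm.trans h2)).2)
    (by
      rintro x y c d h1 h2
      show ((x * y : tr2 p) : Cfsg.qd p) = _
      rw [Subgroup.coe_mul, h1, h2, qi_mul, one_mul, one_mv]; rfl)
  have hPf : ∀ v : P, f v ∈ tr2 p := fun v => by
    rw [← hPm]; exact ⟨v, v.2, rfl⟩
  let fP : P →* tr2 p := (f.comp P.subtype).codRestrict (tr2 p) hPf
  have key : NatSec p P (Subgroup.normalizer (P : Set K)) := by
    refine ⟨Subgroup.normalizer (P : Set K), P, (ℓ.comp f).comp (Subgroup.subtype _), τ.comp fP,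
      le_rfl, le_rfl, ?_, ?_, ?_⟩
    · intro A
      have hn : qi A 0 ∈ Subgroup.normalizer ((tr2 p : Subgroup (Cfsg.qd p)) : Set (Cfsg.qd p)) := by
        have := tr2_normal (p := p)
        rw [Subgroup.normalizer_eq_top]; trivial
      obtain ⟨k, hk, hkA⟩ := hPn _ hn
      refine ⟨⟨k, hk⟩, ?_⟩
      show ℓ (f k) = A
      obtain ⟨v, hv⟩ := hℓ (f k)
      rw [hkA] at hv
      rw [hkA]
      exact (qi_inj hv).1.symm
    · intro c
      have h1 : qi 1 c.toAdd ∈ tr2 p := ⟨_, rfl⟩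
      have h2 := h1
      rw [← hPm] at h2
      obtain ⟨v, hv, hvc⟩ := h2
      refine ⟨⟨v, hv⟩, ?_⟩
      show τ (fP ⟨v, hv⟩) = c
      have h3 := hτ (fP ⟨v, hv⟩)
      have h4 : ((fP ⟨v, hv⟩ : tr2 p) : Cfsg.qd p) = f v := rfl
      rw [h4, hvc] at h3
      exact (qi_inj h3).2.symm
    · intro y v
      have h1 : (y : K) * v * (y : K)⁻¹ ∈ P := (Subgroup.mem_normalizer_iff.1 y.2 _).1 v.2
      refine ⟨h1, ?_⟩
      show (τ (fP ⟨_, h1⟩)).toAdd = (ℓ (f y) : Matrix (Fin 2) (Fin 2) (ZMod p)).mulVec (τ (fP v)).toAdd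
      have h3 := hτ (fP ⟨_, h1⟩)
      have h4 : ((fP ⟨_, h1⟩ : tr2 p) : Cfsg.qd p) = f ((y : K) * v * (y : K)⁻¹) := rfl
      have h5 := hτ (fP v)
      have h6 : ((fP v : tr2 p) : Cfsg.qd p) = f v := rfl
      obtain ⟨w, hw⟩ := hℓ (f y)
      rw [h4, map_mul, map_mul, map_inv, ← h6, h5] at h3
      set A := ℓ (f y) with hA
      rw [hw, mul_inv_eq_iff_eq_mul, qi_mul, qi_mul, mul_one, one_mul, one_mv] at h3
      have h7 := (qi_inj h3).2
      have h8 : w + (A : Matrix (Fin 2) (Fin 2) (ZMod p)).mulVec (τ (fP v)).toAdd =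
        w + (τ (fP ⟨_, h1⟩)).toAdd := by rw [h7, add_comm]
      exact (add_left_cancel h8).symm
  refine ⟨P.map K.subtype, hP.map _, ?_⟩
  have h2 := natSec_transfer key (K.subtype.comp P.subtype)
    (K.subtype_injective.comp P.subtype_injective)
    (Subgroup.normalizer ((P.map K.subtype : Subgroup G) : Set G)) ?_
  · have h3 : (K.subtype.comp P.subtype).range = P.map K.subtype := by
      ext x
      constructor
      · rintro ⟨v, rfl⟩; exact ⟨v, v.2, rfl⟩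
      · rintro ⟨v, hv, rfl⟩; exact ⟨⟨v, hv⟩, rfl⟩
    rwa [h3] at h2
  · intro x hx
    refine ⟨x, ?_, fun v hv h => rfl⟩
    apply mem_normalizer_of_conj_mem
    rintro _ ⟨v, hv, rfl⟩
    exact ⟨x * v * x⁻¹, (Subgroup.mem_normalizer_iff.1 hx _).1 hv, rfl⟩

end CfsgLib.ThmA
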