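import Cfsg.Agent.Lib.H9Ve

/-! # S5233: generalized extraspecial strongly closed subgroups -/

set_option autoImplicit false
set_option maxHeartbeats 1000000

namespace CfsgLib.H9V

open Cfsg Cfsg.FusionSystem CfsgLib.SylowIn CfsgLib.Fusion
open Subgroup
open scoped commutatorElement

variable {Ω : Type*} [Group Ω] {S : Subgroup Ω}

theorem s5233 [Finite S] (p : ℕ) [hp : Fact p.Prime] (hS : IsPGroup p S) (F : Cfsg.FusionSystem S)
    (hF : F.IsSaturated p) (P : Subgroup Ω) (hP : F.StronglyClosed P)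
    (hge : frattini ↥P = commutator ↥P ∧ Nat.card ↥(commutator ↥P) = p)
    (h2 : p = 2 → ¬ ∃ (A : Type) (_ : CommGroup A), (∀ a : A, a ^ 2 = 1) ∧ Nonempty (↥P ≃* DihedralGroup 4 × A))
    (hodd : p ≠ 2 → ¬ ∃ (E : Type) (_ : Group E) (A : Type) (_ : CommGroup A), Cfsg.IsExtraspecial p E ∧ Nat.card E = p ^ 3 ∧
      Monoid.exponent E = p ∧ (∀ a : A, a ^ p = 1) ∧ Nonempty (↥P ≃* E × A)) : F.IsNormal P := by
  obtain ⟨hfr, hcard⟩ := hge
  have hPf : Finite P := finite_of_le hP.1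
  have hPp : IsPGroup p P := hS.to_le hP.1
  set D := (commutator ↥P).map P.subtype with hD
  have hDP : D ≤ P := map_subtype_le _
  have hDc : Nat.card D = p := by
    rw [hD, card_map_of_injective P.subtype_injective, hcard]
  have hcomP : ∀ a b : P, ⁅a, b⁆ ∈ commutator P := fun a b => commutator_mem_commutator (mem_top a) (mem_top b)
  have hpowP : ∀ a : P, a ^ p ∈ commutator P := fun a => hfr ▸ CfsgLib.PGrp.pow_mem_frattini hPp a
  have hcom : ∀ a ∈ P, ∀ b ∈ P, a * b * a⁻¹ * b⁻¹ ∈ D := fun a ha b hb => ⟨_, hcomP ⟨a, ha⟩ ⟨b, hb⟩, rfl⟩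
  have hpow : ∀ a ∈ P, a ^ p ∈ D := fun a ha => ⟨_, hpowP ⟨a, ha⟩, rfl⟩
  have hchar : ∀ f, FMap F P f → ∀ x ∈ D, f x ∈ D := by
    rintro f hf _ ⟨x, hx, rfl⟩
    obtain ⟨α, -, hα⟩ := hf.exists_aut_of_mapsTo (fun a ha => StronglyClosed.map_mem hP hf ha ha)
    refine ⟨α x, ?_, hα x⟩
    have h1 : (commutator P).map α.toMonoidHom = commutator P := characteristic_iff_map_eq.1 inferInstance α
    have h3 : α.toMonoidHom x ∈ (commutator P).map α.toMonoidHom := mem_map_of_mem _ hx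
    rw [h1] at h3
    exact h3
  have hDS : D ≤ S := hDP.trans hP.1
  have hDz : ∀ d ∈ D, ∀ s ∈ S, s * d = d * s := by
    have hn : (D.subgroupOf S).Normal := ⟨fun n hn g => by
      rw [mem_subgroupOf] at hn ⊢
      exact hchar _ (FMap.conj hP.1 g.2) _ hn⟩
    have h1 := CfsgLib.PGrp.le_center_of_card_eq_prime hS hn (by
      rw [← hDc]; exact Nat.card_congr (subgroupOfEquivOfLe hDS).toEquiv)
    intro d hd s hs
    have h3 : (⟨d, hDS hd⟩ : S) ∈ center S := h1 (by rw [mem_subgroupOf]; exact hd)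
    exact congrArg Subtype.val (mem_center_iff.1 h3 ⟨s, hs⟩)
  by_cases hns : F.StronglyClosed D
  · apply isNormal_of_chain hS hF (Q := P) 2 (fun i => if i = 0 then ⊥ else if i = 1 then D else P) (by simp) (by simp)
    · intro i hi
      interval_cases i
      · simpa using hns
      · simpa using hP
    · intro i hi a ha b hb
      interval_cases i
      · have hb : b ∈ D := by simpa using hb
        have : b⁻¹ * (a * b * a⁻¹) = 1 := by
          rw [hDz b hb a (hP.1 ha)]; group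
        rw [this]
        exact Subgroup.one_mem _
      · have hb : b ∈ P := by simpa using hb
        have h4 : b⁻¹ * (a * b * a⁻¹) = b⁻¹ * a * (b⁻¹)⁻¹ * a⁻¹ := by group
        rw [h4]
        have := hcom _ (P.inv_mem hb) a ha
        simpa using this
  · exfalso
    obtain ⟨y, hyP, z, hzD, φ, hz1, hyD, hyp, hφ, hφy⟩ := exists_move hS hF hP hDP hDc hDz hns
    obtain ⟨⟨x, hxP, hxy⟩, hab, hexp⟩ := move_facts hP hDP hDc hDz hchar hcom hpow hyP hzD hz1 hyD hφ hφy
    have hzc : commutator P ≤ center P := by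
      intro d hd
      rw [mem_center_iff]
      intro g
      apply Subtype.ext
      exact hDz _ (mem_map_of_mem _ hd) g (hP.1 g.2)
    have hxy' : (⟨x, hxP⟩ : P) * ⟨y, hyP⟩ ≠ ⟨y, hyP⟩ * ⟨x, hxP⟩ := fun h => hxy (congrArg Subtype.val h)
    have hab' : ∀ a b : P, a * ⟨y, hyP⟩ = ⟨y, hyP⟩ * a → b * ⟨y, hyP⟩ = ⟨y, hyP⟩ * b → a * b = b * a :=
      fun a b ha hb => Subtype.ext (hab a a.2 b b.2 (congrArg Subtype.val ha) (congrArg Subtype.val hb))
    have hexp' : ∀ a : P, a * ⟨y, hyP⟩ = ⟨y, hyP⟩ * a → a ^ p = 1 := fun a ha => Subtype.ext (hexp a a.2 (congrArg Subtype.val ha))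
    by_cases hp2 : p = 2
    · subst hp2
      exact h2 rfl (case_two hPp hcard hzc hcomP hpowP hxy' hab' hexp')
    · by_cases hall : ∀ g ∈ P, g ^ p = 1
      · exact hodd hp2 (case_odd hPp hcard hzc hcomP hxy' hab' (fun g => Subtype.ext (hall g g.2)))
      · push Not at hall
        obtain ⟨x', hx'P, hx'p⟩ := hall
        exact main_odd hp2 hS hF hP hDP hDc hDz hchar hcom hpow hyP hzD hz1 hyD hyp hφ hφy hx'P hx'p

end CfsgLib.H9V
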