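import Mathlib

/-! # Zsigmondy's theorem -/

set_option autoImplicit false
set_option maxHeartbeats 1000000

namespace CfsgLib.H9Zs

open Polynomial

/-- value of the cyclotomic polynomial -/
noncomputable def C (n a : ℕ) : ℕ := ((cyclotomic n ℤ).eval (a : ℤ)).natAbs

theorem C_cast {n a : ℕ} (ha : 1 < a) : ((C n a : ℕ) : ℤ) = (cyclotomic n ℤ).eval (a : ℤ) := by
  unfold C
  rw [Int.natCast_natAbs, abs_of_pos]
  exact cyclotomic_pos' n (by exact_mod_cast ha)

theorem C_pos {n a : ℕ} (ha : 1 < a) : 0 < C n a := by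
  have h := cyclotomic_pos' n (R := ℤ) (x := (a : ℤ)) (by exact_mod_cast ha)
  rw [← C_cast ha] at h
  exact_mod_cast h

theorem C_dvd {n a : ℕ} (ha : 1 < a) : C n a ∣ a ^ n - 1 := by
  have h1 := (cyclotomic.dvd_X_pow_sub_one n ℤ)
  have h2 := eval_dvd (x := (a : ℤ)) h1
  rw [← C_cast ha] at h2
  simp only [eval_sub, eval_pow, eval_X, eval_one] at h2
  have h3 : ((a ^ n - 1 : ℕ) : ℤ) = (a : ℤ) ^ n - 1 := by
    rw [Nat.cast_sub (Nat.one_le_pow _ _ (by omega))]; push_cast; rfl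
  rw [← h3] at h2
  exact_mod_cast h2

theorem prim {n a r j m : ℕ} (ha : 1 < a) (hr : r.Prime) (hrC : r ∣ C n a) (hn : n = r ^ j * m) (hm : ¬ r ∣ m) :
    IsPrimitiveRoot (a : ZMod r) m := by
  haveI : Fact r.Prime := ⟨hr⟩
  haveI : NeZero (m : ZMod r) := ⟨fun h => hm ((ZMod.natCast_eq_zero_iff m r).1 h)⟩
  rw [← isRoot_cyclotomic_prime_pow_mul_iff_of_charP (k := j) (p := r), ← hn, IsRoot.def]
  have h1 : ((C n a : ℤ) : ZMod r) = 0 := by
    rw [Int.cast_natCast]; exact (ZMod.natCast_eq_zero_iff _ _).2 hrC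
  rw [C_cast ha] at h1
  rw [← map_cyclotomic_int n (ZMod r)]
  have h2 := eval_intCast_map (Int.castRingHom (ZMod r)) (cyclotomic n ℤ) (a : ℤ)
  rw [Int.cast_natCast] at h2
  rw [h2]
  simpa using h1

theorem dvd_pow_sub_one {a k r : ℕ} (ha : 1 < a) : r ∣ a ^ k - 1 ↔ (a : ZMod r) ^ k = 1 := by
  have h1 : 1 ≤ a ^ k := Nat.one_le_pow _ _ (by omega)
  rw [← ZMod.natCast_eq_zero_iff, Nat.cast_sub h1, Nat.cast_pow, Nat.cast_one, sub_eq_zero]

theorem prim_dvd {a r m : ℕ} (hr : r.Prime) (hm : 0 < m) (h : IsPrimitiveRoot (a : ZMod r) m) : m ∣ r - 1 := by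
  haveI : Fact r.Prime := ⟨hr⟩
  apply h.dvd_of_pow_eq_one
  apply ZMod.pow_card_sub_one_eq_one
  intro h0
  have h1 := h.pow_eq_one
  rw [h0, zero_pow hm.ne'] at h1
  exact zero_ne_one h1

theorem prime_dvd {n a r : ℕ} (ha : 1 < a) (hn : 0 < n) (hr : r.Prime) (hrC : r ∣ C n a) :
    (∀ k, 0 < k → k < n → ¬ r ∣ a ^ k - 1) ∨
      (∃ j m, n = r ^ (j+1) * m ∧ ¬ r ∣ m ∧ m ∣ r - 1 ∧ IsPrimitiveRoot (a : ZMod r) m) := by
  obtain ⟨j, m, hm, hn'⟩ := Nat.exists_eq_pow_mul_and_not_dvd hn.ne' r hr.ne_one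
  have h1 := prim ha hr hrC hn' hm
  have hm0 : 0 < m := by
    rcases Nat.eq_zero_or_pos m with rfl | h
    · simp at hn'; omega
    · exact h
  rcases j with _ | j
  · left
    intro k hk hkn hd
    rw [pow_zero, one_mul] at hn'
    subst hn'
    exact absurd (Nat.le_of_dvd hk (h1.dvd_of_pow_eq_one k ((dvd_pow_sub_one ha).1 hd))) (by omega)
  · right
    exact ⟨j, m, hn', hm, prim_dvd hr hm0 h1, h1⟩

theorem C_dvd_geom {n a r d : ℕ} (ha : 1 < a) (hr : 1 < r) (hd : 0 < d) (hn : n = d * r) :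
    ((C n a : ℕ) : ℤ) ∣ ∑ i ∈ Finset.range r, ((a : ℤ) ^ d) ^ i := by
  have hdn : d ∈ n.properDivisors := by
    rw [Nat.mem_properDivisors]
    refine ⟨⟨r, hn⟩, ?_⟩
    rw [hn]; nlinarith
  have h1 := X_pow_sub_one_mul_cyclotomic_dvd_X_pow_sub_one_of_dvd ℤ hdn
  have h2 := eval_dvd (x := (a : ℤ)) h1
  simp only [eval_mul, eval_sub, eval_pow, eval_X, eval_one] at h2
  rw [← C_cast ha] at h2
  have h3 : (a : ℤ) ^ n - 1 = ((a : ℤ) ^ d - 1) * ∑ i ∈ Finset.range r, ((a : ℤ) ^ d) ^ i := by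
    rw [mul_comm, geom_sum_mul, hn, pow_mul]
  rw [h3] at h2
  have h4 : (a : ℤ) ^ d - 1 ≠ 0 := by
    have : (1 : ℤ) < (a : ℤ) ^ d := one_lt_pow₀ (by exact_mod_cast ha) hd.ne'
    omega
  exact (mul_dvd_mul_iff_left h4).1 h2

theorem not_sq {n a r j m : ℕ} (ha : 1 < a) (hn2 : 2 < n) (hr : r.Prime) (hn : n = r ^ (j+1) * m) (hm : m ∣ r - 1)
    (hp : IsPrimitiveRoot (a : ZMod r) m) : ¬ r ^ 2 ∣ C n a := by
  intro hd
  haveI : Fact r.Prime := ⟨hr⟩
  have hm0 : 0 < m := by
    rcases Nat.eq_zero_or_pos m with rfl | h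
    · simp at hn; omega
    · exact h
  have hd0 : 0 < r ^ j * m := Nat.mul_pos (pow_pos hr.pos _) hm0
  have h1 := C_dvd_geom (a := a) ha hr.one_lt hd0 (n := n) (by rw [hn]; ring)
  have h2 : ((r : ℤ) ^ 2) ∣ ∑ i ∈ Finset.range r, ((a : ℤ) ^ (r ^ j * m)) ^ i := by
    refine dvd_trans ?_ h1
    exact_mod_cast hd
  have h3 : (a : ZMod r) ^ (r ^ j * m) = 1 := by
    rw [mul_comm, pow_mul, hp.pow_eq_one, one_pow]
  rcases hr.eq_two_or_odd' with rfl | hodd
  · have hm1 : m = 1 := Nat.dvd_one.1 (by simpa using hm)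
    subst hm1
    have hj : j ≠ 0 := by rintro rfl; omega
    obtain ⟨i, rfl⟩ := Nat.exists_eq_succ_of_ne_zero hj
    have h4 : Odd a := by
      rw [Nat.odd_iff]
      have := (dvd_pow_sub_one (k := 1) (r := 2) ha).2 (by rw [pow_one]; simpa using hp.pow_eq_one)
      rw [pow_one] at this
      omega
    rw [Finset.sum_range_succ, Finset.sum_range_one, pow_zero, pow_one] at h2
    have h5 : ((a : ℤ) ^ (2 ^ (i + 1) * 1)) % 4 = 1 := by
      have h6 : Odd ((a : ℤ) ^ 2 ^ i) := by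
        apply Odd.pow
        exact_mod_cast h4
      have h7 := Int.sq_mod_four_eq_one_of_odd h6
      rw [mul_one, pow_succ, pow_mul]
      exact h7
    have h8 : ((2 : ℕ) : ℤ) ^ 2 = 4 := by norm_num
    rw [h8, Nat.succ_eq_add_one] at h2
    omega
  · have h4 : (r : ℤ) ∣ (a : ℤ) ^ (r ^ j * m) - 1 := by
      rw [← ZMod.intCast_zmod_eq_zero_iff_dvd]
      push_cast
      rw [h3, sub_self]
    have h5 : ¬ (r : ℤ) ∣ (a : ℤ) ^ (r ^ j * m) := by
      intro h
      have : (r : ℤ) ∣ 1 := by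
        have := dvd_sub h h4
        simpa using this
      have h6 : r ∣ 1 := by exact_mod_cast this
      exact hr.one_lt.ne' (Nat.dvd_one.1 h6)
    have h6 := emultiplicity_geom_sum₂_eq_one (Nat.prime_iff_prime_int.1 hr) hodd (x := (a : ℤ) ^ (r ^ j * m)) (y := 1) h4 h5
    simp only [one_pow, mul_one] at h6
    rw [← Nat.cast_one] at h6
    exact (emultiplicity_eq_coe.1 h6).2 h2

theorem lower {n a : ℕ} (ha : 1 < a) (hn : 1 < n) : (a - 1) ^ Nat.totient n < C n a :=
  sub_one_pow_totient_lt_natAbs_cyclotomic_eval hn (by omega)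

theorem lower' {n a : ℕ} (ha : 1 < a) : (a - 1) ^ Nat.totient n ≤ C n a := by
  rcases Nat.lt_or_ge 1 n with h | h
  · exact (lower ha h).le
  · interval_cases n
    · simp [C]
    · have h1 : C 1 a = a - 1 := by
        have := C_cast (n := 1) ha
        rw [cyclotomic_one] at this
        simp at this
        omega
      rw [h1]; simp

theorem upper {n a : ℕ} (ha : 1 < a) : C n a ≤ (a + 1) ^ Nat.totient n := by
  have h1 := cyclotomic_eval_le_add_one_pow_totient (q := (a : ℝ)) (by exact_mod_cast ha) n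
  have h2 : ((C n a : ℤ) : ℝ) = (cyclotomic n ℝ).eval (a : ℝ) := by
    rw [C_cast ha, ← map_cyclotomic_int n ℝ]
    have h3 := eval_intCast_map (Int.castRingHom ℝ) (cyclotomic n ℤ) (a : ℤ)
    rw [Int.cast_natCast] at h3
    rw [h3]
    simp
  rw [← h2] at h1
  have h3 : ((C n a : ℕ) : ℝ) ≤ (((a + 1) ^ Nat.totient n : ℕ) : ℝ) := by
    push_cast
    simpa using h1
  exact_mod_cast h3

theorem C_mul_dvd {n a r : ℕ} (ha : 1 < a) (hr : r.Prime) (hd : r ∣ n) : C (n * r) a = C n (a ^ r) := by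
  have h1 := cyclotomic_expand_eq_cyclotomic hr hd ℤ
  have h2 : (cyclotomic (n * r) ℤ).eval (a : ℤ) = (cyclotomic n ℤ).eval ((a : ℤ) ^ r) := by
    rw [← h1, expand_eval]
  unfold C
  rw [h2]; push_cast; rfl

theorem C_mul_not_dvd {n a r : ℕ} (ha : 1 < a) (hr : r.Prime) (hd : ¬ r ∣ n) : C (n * r) a * C n a = C n (a ^ r) := by
  have h1 := cyclotomic_expand_eq_cyclotomic_mul hr hd ℤ
  have h2 : (cyclotomic (n * r) ℤ).eval (a : ℤ) * (cyclotomic n ℤ).eval (a : ℤ) = (cyclotomic n ℤ).eval ((a : ℤ) ^ r) := by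
    rw [← eval_mul, ← h1, expand_eval]
  unfold C
  rw [← Int.natAbs_mul, h2]; push_cast; rfl

/-- if there is no primitive prime divisor then the cyclotomic value is a prime divisor of `n` -/
theorem C_eq {n a : ℕ} (ha : 1 < a) (hn2 : 2 < n)
    (h : ∀ r : ℕ, r.Prime → r ∣ a ^ n - 1 → ∃ k, 0 < k ∧ k < n ∧ r ∣ a ^ k - 1) :
    ∃ r : ℕ, r.Prime ∧ C n a = r ∧ ∃ j m, n = r ^ (j+1) * m ∧ ¬ r ∣ m ∧ m ∣ r - 1 ∧ IsPrimitiveRoot (a : ZMod r) m := by
  have h0 : ∀ r : ℕ, r.Prime → r ∣ C n a →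
      ∃ j m, n = r ^ (j+1) * m ∧ ¬ r ∣ m ∧ m ∣ r - 1 ∧ IsPrimitiveRoot (a : ZMod r) m := by
    intro r hr hrC
    rcases prime_dvd ha (by omega) hr hrC with h1 | h1
    · obtain ⟨k, hk, hkn, hd⟩ := h r hr (hrC.trans (C_dvd ha))
      exact absurd hd (h1 k hk hkn)
    · exact h1
  have hle : ∀ r s : ℕ, r.Prime → s.Prime → r ∣ C n a → s ∣ C n a → r ≤ s := by
    intro r s hr hs hrC hsC
    obtain ⟨j, m, hn, hm, hm1, -⟩ := h0 s hs hsC
    obtain ⟨j', m', hn', -⟩ := h0 r hr hrC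
    have hrn : r ∣ n := by rw [hn']; exact dvd_mul_of_dvd_left (dvd_pow_self r (by omega)) _
    rw [hn] at hrn
    rcases (Nat.Prime.dvd_mul hr).1 hrn with h1 | h1
    · exact ((Nat.prime_dvd_prime_iff_eq hr hs).1 (hr.dvd_of_dvd_pow h1)).le
    · have := Nat.le_of_dvd (by have := hs.two_le; omega) (h1.trans hm1)
      omega
  have hlow := lower ha (n := n) (by omega)
  have hC1 : C n a ≠ 1 := by
    have : 1 ≤ (a - 1) ^ Nat.totient n := Nat.one_le_pow _ _ (by omega)
    omega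
  set r := (C n a).minFac with hr
  have hrp : r.Prime := Nat.minFac_prime hC1
  have hrC : r ∣ C n a := Nat.minFac_dvd _
  clear_value r
  obtain ⟨j, m, hn, hm, hm1, hp⟩ := h0 r hrp hrC
  refine ⟨r, hrp, ?_, j, m, hn, hm, hm1, hp⟩
  obtain ⟨c, hc⟩ := hrC
  have hc1 : c = 1 := by
    by_contra hc1
    obtain ⟨s, hs, hsc⟩ := Nat.exists_prime_and_dvd hc1
    have hsC : s ∣ C n a := by rw [hc]; exact dvd_mul_of_dvd_right hsc _
    have hrC : r ∣ C n a := ⟨c, hc⟩
    have hsr := le_antisymm (hle s r hs hrp hsC hrC) (hle r s hrp hs hrC hsC)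
    subst hsr
    apply not_sq ha hn2 hs hn hm1 hp
    rw [hc, pow_two]
    exact mul_dvd_mul_left _ hsc
  rw [hc, hc1, mul_one]

theorem zsigmondy (a n : ℕ) (ha : 1 < a) (hn : 1 < n) (h6 : ¬ (a = 2 ∧ n = 6)) (h2 : ¬ (n = 2 ∧ ∃ m : ℕ, a + 1 = 2 ^ m)) :
    ∃ r : ℕ, r.Prime ∧ r ∣ a ^ n - 1 ∧ ∀ k : ℕ, 0 < k → k < n → ¬ r ∣ a ^ k - 1 := by
  by_contra hcon
  push Not at hcon
  rcases Nat.lt_or_ge 2 n with hn2 | hn2
  · obtain ⟨r, hr, hC, j, m, hnr, hm, hm1, hp⟩ := C_eq ha hn2 hcon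
    have hrn : r ∣ n := by rw [hnr]; exact dvd_mul_of_dvd_left (dvd_pow_self r (by omega)) _
    have htot : r - 1 ≤ Nat.totient n := by
      rw [← Nat.totient_prime hr]
      exact Nat.le_of_dvd (Nat.totient_pos.2 (by omega)) (Nat.totient_dvd_of_dvd hrn)
    rcases Nat.lt_or_ge 2 a with ha3 | ha3
    · have h1 := lower ha (n := n) hn
      rw [hC] at h1
      have h3 : 2 ^ (r - 1) ≤ (a - 1) ^ Nat.totient n :=
        (Nat.pow_le_pow_right (by norm_num) htot).trans (Nat.pow_le_pow_left (by omega) _)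
      have h4 : r - 1 < 2 ^ (r - 1) := Nat.lt_two_pow_self
      omega
    · have ha2 : a = 2 := by omega
      subst ha2
      have hr2 : r ≠ 2 := by
        rintro rfl
        have := hp.pow_eq_one
        have h0 : ((2 : ℕ) : ZMod 2) = 0 := by decide
        have hm0 : m ≠ 0 := by rintro rfl; simp at hnr; omega
        rw [h0, zero_pow hm0] at this
        exact absurd this (by decide)
      have hr3 : 3 ≤ r := by have := hr.two_le; omega
      have hpow : ∀ k : ℕ, 5 ≤ k → 3 * k < 2 ^ k - 1 := by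
        intro k hk
        induction k, hk using Nat.le_induction with
        | base => norm_num
        | succ k hk ih => rw [pow_succ]; omega
      rcases Nat.eq_zero_or_pos j with rfl | hj
      · have h1 := C_mul_not_dvd (a := 2) (by norm_num) hr hm
        have h3 : m * r = n := by rw [hnr]; ring
        rw [h3, hC] at h1
        have h4 := lower' (n := m) (a := 2 ^ r) (one_lt_pow₀ (by norm_num) hr.ne_zero)
        have h5 := upper (n := m) (a := 2) (by norm_num)
        have hm0 : 0 < m := by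
          rcases Nat.eq_zero_or_pos m with rfl | h
          · simp at hnr; omega
          · exact h
        have ht := Nat.totient_pos.2 hm0
        rcases Nat.lt_or_ge r 5 with hr5 | hr5
        · have hr3' : r = 3 := by
            interval_cases r
            · rfl
            · exact absurd hr (by norm_num)
          subst hr3'
          have hm2 : m ≤ 2 := Nat.le_of_dvd (by norm_num) hm1
          have h7 : m ≠ 1 := by
            rintro rfl
            have := hp.pow_eq_one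
            exact absurd this (by decide)
          exact h6 ⟨rfl, by rw [hnr]; have : m = 2 := by omega
                            rw [this]; norm_num⟩
        · have h7 := hpow r hr5
          have h8 : (3 * r) ^ Nat.totient m < (2 ^ r - 1) ^ Nat.totient m := Nat.pow_lt_pow_left h7 ht.ne'
          have h9 : r * 3 ^ Nat.totient m ≤ (3 * r) ^ Nat.totient m := by
            rw [mul_pow, mul_comm]
            exact Nat.mul_le_mul_left _ (Nat.le_self_pow ht.ne' _)
          have h10 : r * C m 2 ≤ r * 3 ^ Nat.totient m := Nat.mul_le_mul_left _ h5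
          omega
      · obtain ⟨i, rfl⟩ := Nat.exists_eq_succ_of_ne_zero hj.ne'
        rw [Nat.succ_eq_add_one] at hnr
        have h1 := C_mul_dvd (n := r ^ (i + 1) * m) (a := 2) (by norm_num) hr
          (dvd_mul_of_dvd_left (dvd_pow_self r (by omega)) _)
        have h3 : r ^ (i + 1) * m * r = n := by rw [hnr]; ring
        rw [h3, hC] at h1
        have h4 := lower' (n := r ^ (i + 1) * m) (a := 2 ^ r) (one_lt_pow₀ (by norm_num) hr.ne_zero)
        rw [← h1] at h4
        have hm0 : 0 < m := by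
          rcases Nat.eq_zero_or_pos m with rfl | h
          · simp at hnr; omega
          · exact h
        have ht := Nat.totient_pos.2 (Nat.mul_pos (pow_pos hr.pos (i + 1)) hm0)
        have h5 : 2 ^ r - 1 ≤ (2 ^ r - 1) ^ Nat.totient (r ^ (i + 1) * m) := Nat.le_self_pow ht.ne' _
        rcases Nat.lt_or_ge r 5 with hr5 | hr5
        · interval_cases r <;> omega
        · have := hpow r hr5
          omega
  · have hn' : n = 2 := by omega
    subst hn'
    apply h2
    refine ⟨rfl, ?_⟩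
    refine ⟨_, Nat.eq_prime_pow_of_unique_prime_dvd (by omega) fun {d} hd hdvd => ?_⟩
    have h3 : a ^ 2 - 1 = (a + 1) * (a - 1) := by
      have := Nat.sq_sub_sq a 1
      rwa [one_pow] at this
    obtain ⟨k, hk, hk2, hdk⟩ := hcon d hd (by rw [h3]; exact dvd_mul_of_dvd_left hdvd _)
    have hk1 : k = 1 := by omega
    rw [hk1, pow_one] at hdk
    have h4 : d ∣ 2 := by
      have := Nat.dvd_sub hdvd hdk
      have e : a + 1 - (a - 1) = 2 := by omega
      rwa [e] at this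
    exact (Nat.prime_dvd_prime_iff_eq hd Nat.prime_two).1 h4

end CfsgLib.H9Zs
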