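import Cfsg.Agent.Lib.Coprime
import Cfsg.Agent.Lib.H8ZApp

/-!
# Coprime automorphisms centralizing the centralizer of an involution (Goldschmidt)
-/

set_option autoImplicit false

namespace CfsgLib.InvCent
open CfsgLib.Coprime

section amb
variable {X : Type*} [Group X] [Finite X] {A N : Subgroup X}

/-- if `a x a⁻¹ x⁻¹` is fixed by `A` for all `a ∈ A` then `x` is -/
theorem fix_of_mul (h : CopAct A N) {x : X} (hx : x ∈ N)
    (hc : ∀ a ∈ A, a * x * a⁻¹ * x⁻¹ ∈ Subgroup.centralizer (A : Set X)) :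
    x ∈ Subgroup.centralizer (A : Set X) := by
  rw [Subgroup.mem_centralizer_iff]
  intro a ha
  obtain ⟨c, hcdef⟩ : ∃ c, c = a * x * a⁻¹ * x⁻¹ := ⟨_, rfl⟩
  have hcC := hc a ha
  rw [← hcdef] at hcC
  have hcN : c ∈ N := by
    rw [hcdef]
    exact N.mul_mem (conj_mem_of_le_normalizer h.le_normalizer ha hx) (N.inv_mem hx)
  have hca : a * c = c * a := Subgroup.mem_centralizer_iff.1 hcC a ha
  have hax : a * x * a⁻¹ = c * x := by rw [hcdef]; group
  have key : ∀ n : ℕ, a ^ n * x * (a ^ n)⁻¹ = c ^ n * x := by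
    intro n
    induction n with
    | zero => simp
    | succ n ih =>
      have hcom : a * c ^ n = c ^ n * a := (Commute.pow_right hca n)
      calc a ^ (n + 1) * x * (a ^ (n + 1))⁻¹ = a * (a ^ n * x * (a ^ n)⁻¹) * a⁻¹ := by
            rw [pow_succ']; group
        _ = (a * c ^ n) * x * a⁻¹ := by rw [ih]; group
        _ = c ^ n * (a * x * a⁻¹) := by rw [hcom]; group
        _ = c ^ (n + 1) * x := by rw [hax, pow_succ]; group
  have h1 := key (orderOf a)
  rw [pow_orderOf_eq_one] at h1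
  have h1' : c ^ orderOf a = 1 := by
    have : x = c ^ orderOf a * x := by simpa using h1
    exact (mul_eq_right.1 this.symm)
  have h2 : orderOf c ∣ orderOf a := orderOf_dvd_of_pow_eq_one h1'
  have h3 : orderOf c ∣ Nat.card N := Subgroup.orderOf_dvd_natCard N hcN
  have h4 : orderOf a ∣ Nat.card A := Subgroup.orderOf_dvd_natCard A ha
  have h5 : orderOf c ∣ 1 := by
    have h6 : (Nat.card A).gcd (Nat.card N) = 1 := h.coprime
    rw [← h6]; exact Nat.dvd_gcd (h2.trans h4) h3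
  have h6 : c = 1 := by rwa [Nat.dvd_one, orderOf_eq_one_iff] at h5
  rw [h6, one_mul] at hax
  calc a * x = (a * x * a⁻¹) * a := by group
    _ = x * a := by rw [hax]

omit [Finite X] in
theorem isPGroup_zpowers {t : X} (ht : t * t = 1) : IsPGroup 2 (Subgroup.zpowers t) := by
  rintro ⟨x, n, rfl⟩
  refine ⟨1, Subtype.ext ?_⟩
  show (t ^ n) ^ 2 ^ 1 = 1
  rw [pow_one, sq, ← zpow_add, ← two_mul, zpow_mul]
  have : t ^ (2 : ℤ) = 1 := by
    rw [show (2 : ℤ) = ((2 : ℕ) : ℤ) from rfl, zpow_natCast, sq, ht]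
  rw [this, one_zpow]

variable {τ : X}

/-- the fusion lemma -/
theorem conj_fix (h : CopAct A N) (hτ : ∀ x ∈ N, x * τ = τ * x → x ∈ Subgroup.centralizer (A : Set X))
    (hτN : τ ∈ N) {x : X} (hx : x ∈ N) (hxc : x * τ * x⁻¹ ∈ Subgroup.centralizer (A : Set X)) :
    x ∈ Subgroup.centralizer (A : Set X) := by
  rw [← inv_mem_iff]
  refine fix_of_mul h (N.inv_mem hx) ?_
  intro a ha
  have h1 : τ ∈ Subgroup.centralizer (A : Set X) := hτ τ hτN rfl
  have h2 : a * τ * a⁻¹ = τ := by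
    rw [Subgroup.mem_centralizer_iff.1 h1 a ha]; group
  have h3 : a * (x * τ * x⁻¹) * a⁻¹ = x * τ * x⁻¹ := by
    rw [Subgroup.mem_centralizer_iff.1 hxc a ha]; group
  have h4 : (a * x * a⁻¹) * τ * (a * x * a⁻¹)⁻¹ = x * τ * x⁻¹ := by
    rw [← h3]
    conv_lhs => rw [← h2]
    group
  have h5 : x⁻¹ * (a * x * a⁻¹) ∈ Subgroup.centralizer (A : Set X) := by
    apply hτ
    · exact N.mul_mem (N.inv_mem hx) (conj_mem_of_le_normalizer h.le_normalizer ha hx)
    · have h6 : (a * x * a⁻¹) * τ = x * τ * x⁻¹ * (a * x * a⁻¹) := by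
        rw [← h4]; group
      calc x⁻¹ * (a * x * a⁻¹) * τ = x⁻¹ * ((a * x * a⁻¹) * τ) := by group
        _ = τ * (x⁻¹ * (a * x * a⁻¹)) := by rw [h6]; group
  have h6 : a * x⁻¹ * a⁻¹ * x⁻¹⁻¹ = (x⁻¹ * (a * x * a⁻¹))⁻¹ := by group
  rw [h6]
  exact inv_mem h5

/-- every `A`-invariant 2-subgroup is centralized by `A` -/
theorem two_cent (h : CopAct A N) (hτ : ∀ x ∈ N, x * τ = τ * x → x ∈ Subgroup.centralizer (A : Set X))
    (hτN : τ ∈ N) (hτ2 : τ * τ = 1) {U : Subgroup X} (hUN : U ≤ N) (hU : IsPGroup 2 U)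
    (hUA : A ≤ Subgroup.normalizer (U : Set X)) : U ≤ Subgroup.centralizer (A : Set X) := by
  have hτC : τ ∈ Subgroup.centralizer (A : Set X) := hτ τ hτN rfl
  -- a Sylow subgroup containing τ
  obtain ⟨P, hP, hτP, hPA⟩ := h.exists_isSyl_ge (p := 2) (U := Subgroup.zpowers τ)
    ((Subgroup.zpowers_le).2 hτN) (isPGroup_zpowers hτ2) (by
      intro a ha
      have h2 : a * τ = τ * a := Subgroup.mem_centralizer_iff.1 hτC a ha
      rw [Subgroup.mem_normalizer_iff]
      intro x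
      constructor
      · rintro ⟨n, rfl⟩
        refine ⟨n, ?_⟩
        show τ ^ n = a * τ ^ n * a⁻¹
        have := Commute.zpow_right h2 n
        rw [this.eq]; group
      · rintro ⟨n, hn⟩
        refine ⟨n, ?_⟩
        show τ ^ n = x
        have hn' : τ ^ n = a * x * a⁻¹ := hn
        have h3 := (Commute.zpow_right h2 n).eq
        rw [hn'] at h3
        have h4 : x = a⁻¹ * (a * x * a⁻¹) * a := by group
        rw [h4, ← hn', mul_assoc, ← (Commute.zpow_right h2 n).eq]; group)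
  have hPC : P ≤ Subgroup.centralizer (A : Set X) := by
    by_contra hcon
    have hlt : P ⊓ Subgroup.centralizer (A : Set X) < P :=
      lt_of_le_of_ne inf_le_left (fun he => hcon (inf_eq_left.1 he))
    have h1 := exists_normalizer_gt hP.isPGroup hlt
    obtain ⟨x, hx1, hx2⟩ := SetLike.exists_of_lt h1
    apply hx2
    refine ⟨hx1.1, ?_⟩
    apply conj_fix h hτ hτN (hP.1 hx1.1)
    have h3 : τ ∈ P ⊓ Subgroup.centralizer (A : Set X) := ⟨hτP (Subgroup.mem_zpowers τ), hτC⟩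
    exact ((Subgroup.mem_normalizer_iff.1 hx1.2 τ).1 h3).2
  obtain ⟨Q, hQ, hUQ, hQA⟩ := h.exists_isSyl_ge (p := 2) hUN hU hUA
  obtain ⟨k, hk, hkQ⟩ := h.conj_isSyl hP hQ hPA hQA
  intro u hu
  have hu' := hUQ hu
  rw [← hkQ] at hu'
  obtain ⟨p, hp, rfl⟩ := hu'
  show (MulAut.conj k) p ∈ _
  rw [MulAut.conj_apply]
  exact mul_mem (mul_mem hk.2 (hPC hp)) (inv_mem hk.2)

/-- the subgroup generated by the `A`-conjugates of an involution `t`: some conjugate of `t` under the
even part is fixed by `A` -/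
theorem exists_w (h : CopAct A N) (hτ : ∀ x ∈ N, x * τ = τ * x → x ∈ Subgroup.centralizer (A : Set X))
    (hτN : τ ∈ N) (hτ2 : τ * τ = 1) {t : X} (htN : t ∈ N) (ht2 : t * t = 1) :
    ∃ w ∈ Subgroup.closure {x : X | ∃ a ∈ A, x = a * t * a⁻¹ * t}, w ∈ N ∧
      w * t * w⁻¹ ∈ Subgroup.centralizer (A : Set X) := by
  obtain ⟨H, hH⟩ : ∃ H : Subgroup X, H = Subgroup.closure {x : X | ∃ a ∈ A, x = a * t * a⁻¹} := ⟨_, rfl⟩
  obtain ⟨W, hW⟩ : ∃ W : Subgroup X, W = Subgroup.closure {x : X | ∃ a ∈ A, x = a * t * a⁻¹ * t} := ⟨_, rfl⟩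
  rw [← hW]
  have hHN : H ≤ N := by
    rw [hH, Subgroup.closure_le]
    rintro x ⟨a, ha, rfl⟩
    exact conj_mem_of_le_normalizer h.le_normalizer ha htN
  have hconj : ∀ a ∈ A, ∀ x ∈ H, a * x * a⁻¹ ∈ H := by
    intro a ha x hx
    rw [hH] at hx
    induction hx using Subgroup.closure_induction with
    | mem x hx =>
      obtain ⟨b, hb, rfl⟩ := hx
      rw [hH]
      apply Subgroup.subset_closure
      exact ⟨a * b, A.mul_mem ha hb, by group⟩
    | one => simpa using H.one_mem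
    | mul x y _ _ h1 h2 =>
      have := H.mul_mem h1 h2
      have h3 : a * (x * y) * a⁻¹ = a * x * a⁻¹ * (a * y * a⁻¹) := by group
      rw [h3]; exact this
    | inv x _ h1 =>
      have h3 : a * x⁻¹ * a⁻¹ = (a * x * a⁻¹)⁻¹ := by group
      rw [h3]; exact H.inv_mem h1
  have hAH : A ≤ Subgroup.normalizer (H : Set X) := by
    intro a ha
    rw [Subgroup.mem_normalizer_iff]
    intro x
    refine ⟨hconj a ha x, fun hx => ?_⟩
    have := hconj a⁻¹ (A.inv_mem ha) _ hx
    have h3 : a⁻¹ * (a * x * a⁻¹) * a⁻¹⁻¹ = x := by group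
    rwa [h3] at this
  have hcH : CopAct A H := h.mono_right hHN hAH
  obtain ⟨P, hP, hPA⟩ := hcH.exists_isSyl 2
  have hPC : P ≤ Subgroup.centralizer (A : Set X) := two_cent h hτ hτN hτ2 (hP.1.trans hHN) hP.isPGroup hPA
  have htH : t ∈ H := by
    rw [hH]
    apply Subgroup.subset_closure
    exact ⟨1, A.one_mem, by simp⟩
  obtain ⟨Q, hQ, htQ⟩ := exists_isSyl_ge (p := 2) (U := Subgroup.zpowers t) (K := H)
    ((Subgroup.zpowers_le).2 htH) (isPGroup_zpowers ht2)
  obtain ⟨k, hk, hkP⟩ := hQ.exists_conj hP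
  have hkt : k * t * k⁻¹ ∈ Subgroup.centralizer (A : Set X) := by
    apply hPC
    rw [← hkP]
    exact ⟨t, htQ (Subgroup.mem_zpowers t), rfl⟩
  have htinv : t⁻¹ = t := inv_eq_of_mul_eq_one_left ht2
  have hgen : ∀ a ∈ A, a * t * a⁻¹ * t ∈ W := by
    intro a ha
    rw [hW]
    exact Subgroup.subset_closure ⟨a, ha, rfl⟩
  have key : ∀ k ∈ H, (k ∈ W ∧ t * k * t ∈ W) ∨ (k * t ∈ W ∧ t * k ∈ W) := by
    intro k hk
    rw [hH] at hk
    induction hk using Subgroup.closure_induction with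
    | mem x hx =>
      obtain ⟨a, ha, rfl⟩ := hx
      right
      refine ⟨hgen a ha, ?_⟩
      have h1 := W.inv_mem (hgen a ha)
      have h2 : (a * t * a⁻¹ * t)⁻¹ = t * (a * t * a⁻¹) := by
        rw [mul_inv_rev, htinv]
        congr 1
        rw [mul_inv_rev, mul_inv_rev, htinv]; group
      rwa [h2] at h1
    | one => left; refine ⟨W.one_mem, ?_⟩; rw [mul_one, ht2]; exact W.one_mem
    | mul x y _ _ h1 h2 =>
      rcases h1 with ⟨h1, h1'⟩ | ⟨h1, h1'⟩ <;> rcases h2 with ⟨h2, h2'⟩ | ⟨h2, h2'⟩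
      · left
        refine ⟨W.mul_mem h1 h2, ?_⟩
        have := W.mul_mem h1' h2'
        have h3 : t * x * t * (t * y * t) = t * (x * y) * t := by
          calc t * x * t * (t * y * t) = t * x * (t * t) * y * t := by group
            _ = _ := by rw [ht2]; group
        rwa [h3] at this
      · right
        refine ⟨?_, ?_⟩
        · have := W.mul_mem h1 h2
          rwa [← mul_assoc] at this
        · have := W.mul_mem h1' h2'
          have h3 : t * x * t * (t * y) = t * (x * y) := by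
            calc t * x * t * (t * y) = t * x * (t * t) * y := by group
              _ = _ := by rw [ht2]; group
          rwa [h3] at this
      · right
        refine ⟨?_, ?_⟩
        · have := W.mul_mem h1 h2'
          have h3 : x * t * (t * y * t) = x * y * t := by
            calc x * t * (t * y * t) = x * (t * t) * y * t := by group
              _ = _ := by rw [ht2]; group
          rwa [h3] at this
        · have := W.mul_mem h1' h2
          rwa [mul_assoc] at this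
      · left
        refine ⟨?_, ?_⟩
        · have := W.mul_mem h1 h2'
          have h3 : x * t * (t * y) = x * y := by
            calc x * t * (t * y) = x * (t * t) * y := by group
              _ = _ := by rw [ht2]; group
          rwa [h3] at this
        · have := W.mul_mem h1' h2
          have h3 : t * x * (y * t) = t * (x * y) * t := by group
          rwa [h3] at this
    | inv x _ h1 =>
      rcases h1 with ⟨h1, h1'⟩ | ⟨h1, h1'⟩
      · left
        refine ⟨W.inv_mem h1, ?_⟩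
        have := W.inv_mem h1'
        have h3 : (t * x * t)⁻¹ = t * x⁻¹ * t := by
          rw [mul_inv_rev, mul_inv_rev, htinv]; group
        rwa [h3] at this
      · right
        refine ⟨?_, ?_⟩
        · have := W.inv_mem h1'
          rwa [mul_inv_rev, htinv] at this
        · have := W.inv_mem h1
          rwa [mul_inv_rev, htinv] at this
  have hWN : W ≤ N := by
    rw [hW, Subgroup.closure_le]
    rintro x ⟨a, ha, rfl⟩
    exact N.mul_mem (conj_mem_of_le_normalizer h.le_normalizer ha htN) htN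
  rcases key k hk with ⟨h1, -⟩ | ⟨h1, -⟩
  · exact ⟨k, h1, hWN h1, hkt⟩
  · refine ⟨k * t, h1, hWN h1, ?_⟩
    have h3 : k * t * t * (k * t)⁻¹ = k * t * k⁻¹ := by
      rw [mul_inv_rev, htinv]
      calc k * t * t * (t * k⁻¹) = k * (t * t) * t * k⁻¹ := by group
        _ = _ := by rw [ht2]; group
    rw [h3]; exact hkt

/-- elements of `C ∩ C^t` commute with the `w` of `exists_w` -/
theorem w_comm {t w δ : X} (ht2 : t * t = 1)
    (hw : w ∈ Subgroup.closure {x : X | ∃ a ∈ A, x = a * t * a⁻¹ * t})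
    (hδ : δ ∈ Subgroup.centralizer (A : Set X)) (hδt : t * δ * t ∈ Subgroup.centralizer (A : Set X)) :
    w * δ = δ * w := by
  have htinv : t⁻¹ = t := inv_eq_of_mul_eq_one_left ht2
  have hle : Subgroup.closure {x : X | ∃ a ∈ A, x = a * t * a⁻¹ * t} ≤ Subgroup.centralizer ({δ} : Set X) := by
    rw [Subgroup.closure_le]
    rintro x ⟨a, ha, rfl⟩
    rw [SetLike.mem_coe, Subgroup.mem_centralizer_singleton_iff]
    have h1 : a * δ = δ * a := Subgroup.mem_centralizer_iff.1 hδ a ha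
    have h2 : a * (t * δ * t) = (t * δ * t) * a := Subgroup.mem_centralizer_iff.1 hδt a ha
    have h1' : δ * a⁻¹ = a⁻¹ * δ := by
      calc δ * a⁻¹ = a⁻¹ * (a * δ) * a⁻¹ := by group
        _ = a⁻¹ * δ := by rw [h1]; group
    -- a t δ t = t δ t a
    calc a * t * a⁻¹ * t * δ = a * t * a⁻¹ * (t * δ * t) * t⁻¹ := by group
      _ = a * t * a⁻¹ * ((t * δ * t) * a) * a⁻¹ * t⁻¹ := by group
      _ = a * t * (t * δ * t) * a⁻¹ * t⁻¹ := by rw [← h2]; group
      _ = a * (t * t) * δ * t * a⁻¹ * t := by rw [htinv]; group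
      _ = a * δ * t * a⁻¹ * t := by rw [ht2, mul_one]
      _ = δ * (a * t * a⁻¹ * t) := by rw [h1]; group
  have := hle hw
  rw [Subgroup.mem_centralizer_singleton_iff] at this
  exact this

end amb

/-- the counting lemma -/
theorem count {G : Type*} [Group G] [Finite G] (C : Subgroup G) (τ : G)
    (hfix : ∀ g : G, g * τ * g⁻¹ ∈ C ↔ g ∈ C)
    (hinj : ∀ t : G, (∃ g, t = g * τ * g⁻¹) → ∃ w : G, ∀ g : G, t⁻¹ * (g * τ * g⁻¹) ∈ C → w * g ∈ C) (x : G) :
    ∃ t : G, (∃ g, t = g * τ * g⁻¹) ∧ x⁻¹ * t ∈ C ∧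
      ∀ w : G, (∀ g : G, t⁻¹ * (g * τ * g⁻¹) ∈ C → w * g ∈ C) → ∀ g, w * g ∈ C → t⁻¹ * (g * τ * g⁻¹) ∈ C := by
  classical
  haveI := Fintype.ofFinite G
  haveI : Fintype (G ⧸ C) := Fintype.ofFinite _
  let f : G → G ⧸ C := fun g => ((g * τ * g⁻¹ : G) : G ⧸ C)
  have h1 : (Finset.univ : Finset G).card = ∑ y : G ⧸ C, (Finset.univ.filter (fun g => f g = y)).card :=
    Finset.card_eq_sum_card_fiberwise (fun g _ => Finset.mem_univ _)
  have h2 : (Finset.univ : Finset G).card = ∑ _y : G ⧸ C, Nat.card C := by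
    rw [Finset.sum_const, Finset.card_univ, Finset.card_univ, smul_eq_mul, ← Nat.card_eq_fintype_card,
      ← Nat.card_eq_fintype_card, mul_comm, mul_comm, ← Subgroup.card_eq_card_quotient_mul_card_subgroup]
  have hle : ∀ y : G ⧸ C, (Finset.univ.filter (fun g => f g = y)).card ≤ Nat.card C := by
    intro y
    by_cases hy : (Finset.univ.filter (fun g => f g = y)) = ∅
    · rw [hy]; simp
    · obtain ⟨g0, hg0⟩ := Finset.nonempty_iff_ne_empty.2 hy
      have hg0' : f g0 = y := (Finset.mem_filter.1 hg0).2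
      obtain ⟨w, hw⟩ := hinj (g0 * τ * g0⁻¹) ⟨g0, rfl⟩
      have h3 : ∀ g ∈ Finset.univ.filter (fun g => f g = y), w * g ∈ (Finset.univ.filter (fun g : G => g ∈ C)) := by
        intro g hg
        rw [Finset.mem_filter]
        refine ⟨Finset.mem_univ _, hw g ?_⟩
        rw [← QuotientGroup.eq]
        exact hg0'.trans (Finset.mem_filter.1 hg).2.symm
      have h4 := Finset.card_le_card_of_injOn (fun g => w * g) h3 (fun a _ b _ h => mul_left_cancel h)
      have h5 : (Finset.univ.filter (fun g : G => g ∈ C)).card = Nat.card C := by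
        rw [Nat.card_eq_fintype_card, Fintype.card_subtype]
      rwa [h5] at h4
  have heq : ∀ y : G ⧸ C, (Finset.univ.filter (fun g => f g = y)).card = Nat.card C := by
    have := (Finset.sum_eq_sum_iff_of_le (s := Finset.univ) (fun y _ => hle y)).1 (h1.symm.trans h2)
    exact fun y => this y (Finset.mem_univ y)
  have hne : (Finset.univ.filter (fun g => f g = (x : G ⧸ C))).Nonempty := by
    rw [← Finset.card_pos, heq]
    exact Nat.card_pos
  obtain ⟨g0, hg0⟩ := hne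
  have hg0' : f g0 = (x : G ⧸ C) := (Finset.mem_filter.1 hg0).2
  refine ⟨g0 * τ * g0⁻¹, ⟨g0, rfl⟩, ?_, ?_⟩
  · rw [← QuotientGroup.eq]; exact hg0'.symm
  · intro w hw g hg
    have h3 : ∀ g ∈ Finset.univ.filter (fun g => f g = (x : G ⧸ C)), w * g ∈ (Finset.univ.filter (fun g : G => g ∈ C)) := by
      intro g hg
      rw [Finset.mem_filter]
      refine ⟨Finset.mem_univ _, hw g ?_⟩
      rw [← QuotientGroup.eq]
      exact hg0'.trans (Finset.mem_filter.1 hg).2.symm
    have h5 : (Finset.univ.filter (fun g : G => g ∈ C)).card = Nat.card C := by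
      rw [Nat.card_eq_fintype_card, Fintype.card_subtype]
    have h6 : (Finset.univ.filter (fun g => f g = (x : G ⧸ C))).image (fun g => w * g) =
        Finset.univ.filter (fun g : G => g ∈ C) := by
      apply Finset.eq_of_subset_of_card_le
      · intro z hz
        obtain ⟨g, hg, rfl⟩ := Finset.mem_image.1 hz
        exact h3 g hg
      · rw [Finset.card_image_of_injective _ (mul_right_injective w), heq, h5]
    have h7 : w * g ∈ (Finset.univ.filter (fun g => f g = (x : G ⧸ C))).image (fun g => w * g) := by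
      rw [h6]; exact Finset.mem_filter.2 ⟨Finset.mem_univ _, hg⟩
    obtain ⟨g', hg', he⟩ := Finset.mem_image.1 h7
    have : g' = g := mul_left_cancel he
    subst this
    rw [← QuotientGroup.eq]
    exact hg0'.trans (Finset.mem_filter.1 hg').2.symm

section main
variable {X : Type*} [Group X] [Finite X] {A N : Subgroup X} {τ : X}

/-- **main lemma**: products of two `C`-conjugates of `τ` lie in the core of `C = C_N(A)` -/
theorem main (h : CopAct A N) (hτ : ∀ x ∈ N, x * τ = τ * x → x ∈ Subgroup.centralizer (A : Set X))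
    (hτN : τ ∈ N) (hτ2 : τ * τ = 1) {c c' x : X} (hc : c ∈ N) (hcA : c ∈ Subgroup.centralizer (A : Set X))
    (hc' : c' ∈ N) (hc'A : c' ∈ Subgroup.centralizer (A : Set X)) (hx : x ∈ N) :
    x⁻¹ * ((c * τ * c⁻¹) * (c' * τ * c'⁻¹)) * x ∈ Subgroup.centralizer (A : Set X) := by
  have hτC : τ ∈ Subgroup.centralizer (A : Set X) := hτ τ hτN rfl
  let C : Subgroup N := (Subgroup.centralizer (A : Set X)).subgroupOf N
  have hmem : ∀ n : N, n ∈ C ↔ (n : X) ∈ Subgroup.centralizer (A : Set X) := fun n => Subgroup.mem_subgroupOf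
  have hconj : ∀ g : N, ((g * ⟨τ, hτN⟩ * g⁻¹ : N) : X) = (g : X) * τ * (g : X)⁻¹ := fun g => rfl
  have inv2 : ∀ g : X, (g * τ * g⁻¹) * (g * τ * g⁻¹) = 1 := by
    intro g
    calc (g * τ * g⁻¹) * (g * τ * g⁻¹) = g * (τ * τ) * g⁻¹ := by group
      _ = 1 := by rw [hτ2]; group
  -- given `t` in the class, `w`
  have hw : ∀ t : X, t ∈ N → (∃ g ∈ N, t = g * τ * g⁻¹) → ∃ w ∈ N,
      (∀ δ : X, δ ∈ Subgroup.centralizer (A : Set X) → t * δ * t ∈ Subgroup.centralizer (A : Set X) → w * δ = δ * w) ∧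
      w * t * w⁻¹ ∈ Subgroup.centralizer (A : Set X) := by
    rintro t htN ⟨g, hg, rfl⟩
    obtain ⟨w, hw1, hw2, hw3⟩ := exists_w h hτ hτN hτ2 htN (inv2 g)
    exact ⟨w, hw2, fun δ hδ hδt => w_comm (inv2 g) hw1 hδ hδt, hw3⟩
  -- `t t' ∈ C` : data
  have hδ : ∀ t t' : X, t * t = 1 → t' * t' = 1 → t⁻¹ * t' ∈ Subgroup.centralizer (A : Set X) →
      t * (t⁻¹ * t') * t ∈ Subgroup.centralizer (A : Set X) ∧ t * (t⁻¹ * t') * t = (t⁻¹ * t')⁻¹ := by
    intro t t' h1 h2 h3
    have e1 : t⁻¹ = t := inv_eq_of_mul_eq_one_left h1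
    have e2 : t'⁻¹ = t' := inv_eq_of_mul_eq_one_left h2
    have e3 : t * (t⁻¹ * t') * t = (t⁻¹ * t')⁻¹ := by
      rw [mul_inv_rev, inv_inv, e2]; group
    refine ⟨?_, e3⟩
    rw [e3]; exact inv_mem h3
  have hinj : ∀ t : N, (∃ g, t = g * ⟨τ, hτN⟩ * g⁻¹) → ∀ w : X, ∀ hwN : w ∈ N,
      (∀ δ : X, δ ∈ Subgroup.centralizer (A : Set X) → (t : X) * δ * t ∈ Subgroup.centralizer (A : Set X) → w * δ = δ * w) →
      w * t * w⁻¹ ∈ Subgroup.centralizer (A : Set X) →
      ∀ g : N, t⁻¹ * (g * ⟨τ, hτN⟩ * g⁻¹) ∈ C → (⟨w, hwN⟩ : N) * g ∈ C := by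
    rintro t ⟨g0, rfl⟩ w hwN hwδ hwt g hg
    rw [hmem] at hg ⊢
    have hg' : ((g0 : X) * τ * (g0 : X)⁻¹)⁻¹ * ((g : X) * τ * (g : X)⁻¹) ∈ Subgroup.centralizer (A : Set X) := hg
    obtain ⟨h1, h2⟩ := hδ _ _ (inv2 g0) (inv2 g) hg'
    have h3 := hwδ _ hg' h1
    show w * (g : X) ∈ _
    apply conj_fix h hτ hτN (N.mul_mem hwN g.2)
    have h4 : w * (g : X) * τ * (w * (g : X))⁻¹ =
        (w * ((g0 : X) * τ * (g0 : X)⁻¹) * w⁻¹) * (((g0 : X) * τ * (g0 : X)⁻¹)⁻¹ * ((g : X) * τ * (g : X)⁻¹)) := by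
      calc w * (g : X) * τ * (w * (g : X))⁻¹ = w * ((g0 : X) * τ * (g0 : X)⁻¹) *
            (((g0 : X) * τ * (g0 : X)⁻¹)⁻¹ * ((g : X) * τ * (g : X)⁻¹)) * w⁻¹ := by group
        _ = w * ((g0 : X) * τ * (g0 : X)⁻¹) * (w⁻¹ * (w *
            (((g0 : X) * τ * (g0 : X)⁻¹)⁻¹ * ((g : X) * τ * (g : X)⁻¹)))) * w⁻¹ := by group
        _ = _ := by rw [h3]; group
    rw [h4]
    exact mul_mem hwt hg'
  obtain ⟨t, ⟨g0, ht0⟩, htx, htw⟩ := count C ⟨τ, hτN⟩ (by
      intro g
      rw [hmem, hmem, hconj]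
      refine ⟨fun hg => conj_fix h hτ hτN g.2 hg, fun hg => mul_mem (mul_mem hg hτC) (inv_mem hg)⟩) (by
      intro t ht
      obtain ⟨w, hwN, hwδ, hwt⟩ := hw t t.2 (by
        obtain ⟨g, rfl⟩ := ht
        exact ⟨g, g.2, rfl⟩)
      exact ⟨⟨w, hwN⟩, hinj t ht w hwN hwδ hwt⟩) ⟨x, hx⟩
  obtain ⟨w, hwN, hwδ, hwt⟩ := hw t t.2 ⟨g0, g0.2, by rw [ht0]; rfl⟩
  have hfin := htw ⟨w, hwN⟩ (hinj t ⟨g0, ht0⟩ w hwN hwδ hwt)
  have htt : (t : X) * t = 1 := by rw [ht0]; exact inv2 g0
  -- the two elements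
  have two : ∀ d : X, d ∈ N → d ∈ Subgroup.centralizer (A : Set X) →
      ∃ δ : X, δ ∈ Subgroup.centralizer (A : Set X) ∧ (t : X) * δ * t = δ⁻¹ ∧ w * δ = δ * w ∧
        w⁻¹ * (d * τ * d⁻¹) * w = t * δ := by
    intro d hd hdA
    have h1 := hfin (⟨w, hwN⟩⁻¹ * ⟨d, hd⟩) (by
      rw [mul_inv_cancel_left, hmem]; exact hdA)
    rw [hmem] at h1
    have h2 : (t : X)⁻¹ * ((w⁻¹ * d) * τ * (w⁻¹ * d)⁻¹) ∈ Subgroup.centralizer (A : Set X) := h1
    obtain ⟨h3, h4⟩ := hδ _ _ htt (inv2 (w⁻¹ * d)) h2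
    refine ⟨_, h2, h4, hwδ _ h2 h3, ?_⟩
    group
  obtain ⟨δ₂, hδ₂, hδ₂t, hδ₂w, e₂⟩ := two c hc hcA
  obtain ⟨δ₃, hδ₃, hδ₃t, hδ₃w, e₃⟩ := two c' hc' hc'A
  have e4 : (c * τ * c⁻¹) * (c' * τ * c'⁻¹) = δ₂⁻¹ * δ₃ := by
    have h1 : (c * τ * c⁻¹) * (c' * τ * c'⁻¹) = w * ((w⁻¹ * (c * τ * c⁻¹) * w) * (w⁻¹ * (c' * τ * c'⁻¹) * w)) * w⁻¹ := by
      group
    rw [h1, e₂, e₃]
    have h2 : (t : X) * δ₂ * (t * δ₃) = δ₂⁻¹ * δ₃ := by rw [← hδ₂t]; group
    rw [h2]
    have h3 : w * (δ₂⁻¹ * δ₃) = δ₂⁻¹ * δ₃ * w := by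
      have h5 : w * δ₂⁻¹ = δ₂⁻¹ * w := by
        calc w * δ₂⁻¹ = δ₂⁻¹ * (δ₂ * w) * δ₂⁻¹ := by group
          _ = δ₂⁻¹ * w := by rw [← hδ₂w]; group
      rw [← mul_assoc, h5, mul_assoc, hδ₃w, mul_assoc]
    rw [h3]; group
  rw [e4]
  have htinv : (t : X)⁻¹ = t := inv_eq_of_mul_eq_one_left htt
  have e5 : (t : X) * (δ₂⁻¹ * δ₃) * t = δ₂ * δ₃⁻¹ := by
    have h5 : (t : X) * δ₂⁻¹ * t = δ₂ := by
      rw [← hδ₂t]
      calc (t : X) * (t * δ₂ * t) * t = (t * t) * δ₂ * (t * t) := by group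
        _ = δ₂ := by rw [htt]; group
    calc (t : X) * (δ₂⁻¹ * δ₃) * t = (t * δ₂⁻¹ * t) * ((t : X)⁻¹ * (δ₃ * t)) := by group
      _ = δ₂ * (t * δ₃ * t) := by rw [h5, htinv]; group
      _ = _ := by rw [hδ₃t]
  have htx' : x⁻¹ * (t : X) ∈ Subgroup.centralizer (A : Set X) := htx
  have e6 : x⁻¹ * (δ₂⁻¹ * δ₃) * x = (x⁻¹ * t) * (t * (δ₂⁻¹ * δ₃) * t) * (x⁻¹ * t)⁻¹ := by
    calc x⁻¹ * (δ₂⁻¹ * δ₃) * x = x⁻¹ * (t * t) * (δ₂⁻¹ * δ₃) * x := by rw [htt, mul_one]
      _ = _ := by group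
  rw [e6, e5]
  exact mul_mem (mul_mem htx' (mul_mem hδ₂ (inv_mem hδ₃))) (inv_mem htx')

end main


open CfsgLib.Zstar in
/-- **Goldschmidt**: in a non-abelian simple group, a non-trivial automorphism of coprime order does not
centralize the centralizer of an involution -/
theorem moves {G : Type*} [Group G] [Finite G] [IsSimpleGroup G]
    (hG : ¬ IsMulCommutative G) (τ : G) (hτ : orderOf τ = 2) (α : MulAut G) (hα : α ≠ 1)
    (hcop : (orderOf α).Coprime (Nat.card G)) :
    ∃ c ∈ Subgroup.centralizer ({τ} : Set G), α c ≠ c := by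
  by_contra hcon
  push Not at hcon
  have hτ2 : τ * τ = 1 := by rw [← sq, ← hτ, pow_orderOf_eq_one]
  let φ : Subgroup.zpowers α →* MulAut G := (Subgroup.zpowers α).subtype
  let X := G ⋊[φ] (Subgroup.zpowers α)
  haveI : Finite X := Finite.of_injective (fun x : X => (x.left, x.right)) (by
    rintro ⟨a, b⟩ ⟨c, d⟩ h
    simp only [Prod.mk.injEq] at h
    obtain ⟨rfl, rfl⟩ := h
    rfl)
  let N : Subgroup X := (SemidirectProduct.inl : G →* X).range
  let A : Subgroup X := (SemidirectProduct.inr : Subgroup.zpowers α →* X).range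
  have hinl : Function.Injective (SemidirectProduct.inl : G →* X) := SemidirectProduct.inl_injective
  have hinr : Function.Injective (SemidirectProduct.inr : Subgroup.zpowers α →* X) := SemidirectProduct.inr_injective
  haveI hNn : N.Normal := by
    show ((SemidirectProduct.inl : G →* X).range).Normal
    rw [SemidirectProduct.range_inl_eq_ker_rightHom]; infer_instance
  have hcN : Nat.card N = Nat.card G := (Nat.card_congr (MonoidHom.ofInjective hinl).toEquiv).symm
  have hcA : Nat.card A = orderOf α := by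
    rw [(Nat.card_congr (MonoidHom.ofInjective hinr).toEquiv).symm, Nat.card_zpowers]
  have h : CopAct A N := by
    refine ⟨?_, ?_, Or.inl ?_⟩
    · rw [Subgroup.normalizer_eq_top_iff.2 hNn]; exact le_top
    · rw [hcN, hcA]; exact hcop
    · exact Group.isSolvable_of_surjective (f := (MonoidHom.ofInjective hinr).toMonoidHom) (MonoidHom.ofInjective hinr).surjective
  -- membership in the centralizer of A
  have hcent : ∀ g : G, (SemidirectProduct.inl g : X) ∈ Subgroup.centralizer (A : Set X) ↔ α g = g := by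
    intro g
    rw [Subgroup.mem_centralizer_iff]
    constructor
    · intro h1
      have h2 := h1 (SemidirectProduct.inr ⟨α, Subgroup.mem_zpowers α⟩) ⟨_, rfl⟩
      have h3 : (SemidirectProduct.inl (φ ⟨α, Subgroup.mem_zpowers α⟩ g) : X) = SemidirectProduct.inl g := by
        rw [SemidirectProduct.inl_aut, h2, mul_assoc, ← map_mul, mul_inv_cancel, map_one, mul_one]
      exact hinl h3
    · rintro h1 _ ⟨⟨b, n, rfl⟩, rfl⟩
      have h2 : (α ^ n) g = g := by
        have h3 : α ∈ MulAction.stabilizer (MulAut G) g := h1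
        exact (MulAction.stabilizer (MulAut G) g).zpow_mem h3 n
      have h3 : (SemidirectProduct.inl (φ ⟨α ^ n, ⟨n, rfl⟩⟩ g) : X) = SemidirectProduct.inl g := congrArg _ h2
      rw [SemidirectProduct.inl_aut] at h3
      calc (SemidirectProduct.inr ⟨α ^ n, ⟨n, rfl⟩⟩ : X) * SemidirectProduct.inl g
          = (SemidirectProduct.inr ⟨α ^ n, ⟨n, rfl⟩⟩ : X) * SemidirectProduct.inl g *
              SemidirectProduct.inr (⟨α ^ n, ⟨n, rfl⟩⟩)⁻¹ * SemidirectProduct.inr ⟨α ^ n, ⟨n, rfl⟩⟩ := by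
            rw [mul_assoc _ _ (SemidirectProduct.inr ⟨α ^ n, ⟨n, rfl⟩⟩ : X), ← map_mul, inv_mul_cancel, map_one, mul_one]
        _ = _ := by rw [h3]
  have hτN : (SemidirectProduct.inl τ : X) ∈ N := ⟨τ, rfl⟩
  have hτ' : ∀ x ∈ N, x * (SemidirectProduct.inl τ : X) = SemidirectProduct.inl τ * x →
      x ∈ Subgroup.centralizer (A : Set X) := by
    rintro _ ⟨g, rfl⟩ hx
    rw [hcent]
    rw [← map_mul, ← map_mul] at hx
    exact hcon g (Subgroup.mem_centralizer_singleton_iff.2 (hinl hx))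
  have hτ2' : (SemidirectProduct.inl τ : X) * SemidirectProduct.inl τ = 1 := by rw [← map_mul, hτ2, map_one]
  have hmain : ∀ c c' g : G, α c = c → α c' = c' →
      α (g⁻¹ * ((c * τ * c⁻¹) * (c' * τ * c'⁻¹)) * g) = g⁻¹ * ((c * τ * c⁻¹) * (c' * τ * c'⁻¹)) * g := by
    intro c c' g hc hc'
    have := main h hτ' hτN hτ2' (c := SemidirectProduct.inl c) (c' := SemidirectProduct.inl c')
      (x := SemidirectProduct.inl g) ⟨c, rfl⟩ ((hcent c).2 hc) ⟨c', rfl⟩ ((hcent c').2 hc') ⟨g, rfl⟩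
    simp only [← map_mul, ← map_inv] at this
    exact (hcent _).1 this
  have hτα : α τ = τ := hcon τ (Subgroup.mem_centralizer_singleton_iff.2 rfl)
  -- the fixed points commute with τ
  have hCτ : ∀ c : G, α c = c → c * τ = τ * c := by
    intro c hc
    let F : Subgroup G :=
      { carrier := {g | α g = g}
        mul_mem' := fun {a b} ha hb => by
          show α (a * b) = a * b
          rw [map_mul, show α a = a from ha, show α b = b from hb]
        one_mem' := map_one α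
        inv_mem' := fun {a} ha => by
          show α a⁻¹ = a⁻¹
          rw [map_inv, show α a = a from ha] }
    have hle : Subgroup.normalClosure {c * τ * c⁻¹ * τ} ≤ F := by
      rw [Subgroup.normalClosure, Subgroup.closure_le]
      intro y hy
      obtain ⟨z, hz, hzy⟩ := Group.mem_conjugatesOfSet_iff.1 hy
      rw [Set.mem_singleton_iff] at hz
      subst hz
      obtain ⟨g, rfl⟩ := isConj_iff.1 hzy
      have := hmain c 1 g⁻¹ hc (map_one α)
      have h1 : (g⁻¹)⁻¹ * ((c * τ * c⁻¹) * (1 * τ * 1⁻¹)) * g⁻¹ = g * (c * τ * c⁻¹ * τ) * g⁻¹ := by group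
      rw [h1] at this
      exact this
    rcases (Subgroup.normalClosure_normal (s := {c * τ * c⁻¹ * τ})).eq_bot_or_eq_top with h1 | h1
    · have h2 : c * τ * c⁻¹ * τ = 1 := by
        have : c * τ * c⁻¹ * τ ∈ Subgroup.normalClosure {c * τ * c⁻¹ * τ} :=
          Subgroup.subset_normalClosure (Set.mem_singleton _)
        rw [h1] at this
        exact Subgroup.mem_bot.1 this
      have h3 : c * τ * c⁻¹ = τ := by
        rw [eq_inv_of_mul_eq_one_left h2]
        exact inv_eq_of_mul_eq_one_left hτ2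
      calc c * τ = c * τ * c⁻¹ * c := by group
        _ = τ * c := by rw [h3]
    · exfalso
      apply hα
      ext g
      have : g ∈ F := hle (h1 ▸ Subgroup.mem_top g)
      exact this
  have hiso : Iso τ := by
    apply iso_of_commute hτ
    intro g hg
    have h1 : α (g * τ * g⁻¹) = g * τ * g⁻¹ := hcon _ (Subgroup.mem_centralizer_singleton_iff.2 hg.symm.eq)
    have h2 : (SemidirectProduct.inl g : X) ∈ Subgroup.centralizer (A : Set X) := by
      apply conj_fix h hτ' hτN ⟨g, rfl⟩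
      have := (hcent _).2 h1
      simpa only [map_mul, map_inv] using this
    have h3 := hCτ g ((hcent g).1 h2)
    rw [h3]; group
  obtain ⟨N', hN', hodd, hcomm⟩ := zstar (Nat.card G) G le_rfl τ hiso
  rcases hN'.eq_bot_or_eq_top with h1 | h1
  · have h2 : τ ∈ Subgroup.center G := by
      rw [Subgroup.mem_center_iff]
      intro g
      have := hcomm g
      rw [h1, Subgroup.mem_bot] at this
      have h3 : τ * g = g * τ := by
        calc τ * g = (τ * g * τ⁻¹ * g⁻¹) * (g * τ) := by group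
          _ = g * τ := by rw [this, one_mul]
      exact h3.symm
    rcases (inferInstance : (Subgroup.center G).Normal).eq_bot_or_eq_top with h3 | h3
    · rw [h3, Subgroup.mem_bot] at h2
      rw [h2, orderOf_one] at hτ
      exact absurd hτ (by norm_num)
    · apply hG
      constructor
      constructor
      intro a b
      exact (Subgroup.mem_center_iff.1 (h3 ▸ Subgroup.mem_top b : b ∈ Subgroup.center G) a)
  · rw [h1, Subgroup.card_top] at hodd
    have h2 : 2 ∣ Nat.card G := hτ ▸ orderOf_dvd_natCard τ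
    exact (Nat.not_even_iff_odd.2 hodd) (even_iff_two_dvd.2 h2)

end CfsgLib.InvCent
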