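import Cfsg.Agent.Lib.Core
import Cfsg.Prelude.Def_MonsterType
import Cfsg.Prelude.Def_SporadicB
import Cfsg.Prelude.Def_Transfer

/-!
# Miscellaneous facts about involutions
-/

set_option autoImplicit false

open Subgroup

namespace CfsgLib.InvMisc

universe u
variable {G : Type u} [Group G]

theorem inv_self {a : G} (h : a * a = 1) : a⁻¹ = a := inv_eq_of_mul_eq_one_left h

/-- square roots in odd cyclic groups -/
theorem eq_of_sq {a b : G} (ha : Odd (orderOf a)) (hb : Odd (orderOf b)) (h : a * a = b * b) : a = b := by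
  have key : ∀ x : G, Odd (orderOf x) → (x * x) ^ ((orderOf (x * x) + 1) / 2) = x ∧ orderOf (x * x) = orderOf x := by
    intro x hx
    have h1 : orderOf (x * x) = orderOf x := by
      rw [← pow_two]
      exact (Nat.Coprime.orderOf_pow (Nat.coprime_two_right.2 hx))
    refine ⟨?_, h1⟩
    rw [h1]
    obtain ⟨k, hk⟩ := hx
    have h2 : (orderOf x + 1) / 2 = k + 1 := by omega
    rw [h2, ← pow_two, ← pow_mul]
    have h3 : 2 * (k + 1) = orderOf x + 1 := by omega
    rw [h3, pow_succ, pow_orderOf_eq_one, one_mul]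
  have h1 := (key a ha).1
  have h2 := (key b hb).1
  rw [← h1, ← h2, h]

theorem s5562 [Finite G] (d : G) (hd : orderOf d = 2)
    (hodd : ∀ a ∈ conjugatesOf d, ∀ b ∈ conjugatesOf d, Odd (orderOf (a * b)))
    (x : G) (hx : orderOf x = 2) :
    ∀ e ∈ conjugatesOf d,
      ∃! a : G, a ∈ conjugatesOf d ∧ Commute a x ∧ Commute e (a * x) := by
  intro e he
  have hdd : d * d = 1 := by rw [← pow_two, ← hd]; exact pow_orderOf_eq_one d
  have hxx : x * x = 1 := by rw [← pow_two, ← hx]; exact pow_orderOf_eq_one x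
  have hsq : ∀ a ∈ conjugatesOf d, a * a = 1 := by
    intro a ha
    obtain ⟨g, rfl⟩ := isConj_iff.1 (show IsConj d a from ha)
    calc g * d * g⁻¹ * (g * d * g⁻¹) = g * (d * d) * g⁻¹ := by group
      _ = 1 := by rw [hdd]; group
  have hcj : ∀ a ∈ conjugatesOf d, ∀ g : G, g * a * g⁻¹ ∈ conjugatesOf d := by
    intro a ha g
    exact (show IsConj d a from ha).trans (isConj_iff.2 ⟨g, rfl⟩)
  have hee := hsq e he
  have hxi := inv_self hxx
  have hei := inv_self hee
  -- e' = x e x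
  have he' : x * e * x ∈ conjugatesOf d := by
    have := hcj e he x
    rwa [hxi] at this
  set w := e * (x * e * x) with hw
  have hwodd : Odd (orderOf w) := hodd e he _ he'
  obtain ⟨m, hm⟩ := hwodd
  -- a = e * w^(m+1)
  have hwe : e * w * e = w⁻¹ := by
    rw [hw, mul_inv_rev, mul_inv_rev, mul_inv_rev, hxi, hei]
    calc e * (e * (x * e * x)) * e = (e * e) * (x * e * x) * e := by group
      _ = _ := by rw [hee]; group
  have hwx : x * w * x = w⁻¹ := by
    rw [hw, mul_inv_rev, mul_inv_rev, mul_inv_rev, hxi, hei]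
    calc x * (e * (x * e * x)) * x = x * e * x * e * (x * x) := by group
      _ = _ := by rw [hxx]; group
  have hwek : ∀ k : ℕ, e * w ^ k * e = (w ^ k)⁻¹ := by
    intro k
    have h1 : (e * w * e⁻¹) ^ k = e * w ^ k * e⁻¹ := conj_pow
    rw [hei, hwe] at h1
    rw [← h1, inv_pow]
  have hwxk : ∀ k : ℕ, x * w ^ k * x = (w ^ k)⁻¹ := by
    intro k
    have h1 : (x * w * x⁻¹) ^ k = x * w ^ k * x⁻¹ := conj_pow
    rw [hxi, hwx] at h1
    rw [← h1, inv_pow]
  have hw1 : w ^ (2 * m + 1) = 1 := by rw [← hm]; exact pow_orderOf_eq_one w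
  have ha : e * w ^ (m + 1) ∈ conjugatesOf d := by
    -- conj of e by w^{-j}, with 2j = m+1 mod 2m+1: j = (m+1)^2
    have h1 := hcj e he (w ^ ((m + 1) * (m + 1)))⁻¹
    have h2 : (w ^ ((m + 1) * (m + 1)))⁻¹ * e * (w ^ ((m + 1) * (m + 1)))⁻¹⁻¹ = e * w ^ (m + 1) := by
      rw [inv_inv, ← hwek]
      calc e * w ^ ((m + 1) * (m + 1)) * e * e * w ^ ((m + 1) * (m + 1)) = e * w ^ ((m + 1) * (m + 1)) * (e * e) * w ^ ((m + 1) * (m + 1)) := by group
        _ = e * (w ^ ((m + 1) * (m + 1)) * w ^ ((m + 1) * (m + 1))) := by rw [hee]; group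
        _ = e * w ^ (m + 1) := by
          rw [← pow_add]
          have : (m + 1) * (m + 1) + (m + 1) * (m + 1) = (2 * m + 1) * (m + 1) + (m + 1) := by ring
          rw [this, pow_add, pow_mul, hw1, one_pow, one_mul]
    rwa [h2] at h1
  have haa := hsq _ ha
  -- a e a = x e x
  have hae : (e * w ^ (m + 1)) * e * (e * w ^ (m + 1)) = x * e * x := by
    calc (e * w ^ (m + 1)) * e * (e * w ^ (m + 1)) = e * w ^ (m + 1) * (e * e) * w ^ (m + 1) := by group
      _ = e * (w ^ (m + 1) * w ^ (m + 1)) := by rw [hee]; group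
      _ = e * w := by
        rw [← pow_add]
        have : (m + 1) + (m + 1) = (2 * m + 1) + 1 := by ring
        rw [this, pow_add, hw1, one_mul, pow_one]
      _ = (e * e) * (x * e * x) := by rw [hw]; group
      _ = _ := by rw [hee, one_mul]
  have hxa : x * (e * w ^ (m + 1)) * x = e * w ^ (m + 1) := by
    calc x * (e * w ^ (m + 1)) * x = (x * e * x) * (x⁻¹ * w ^ (m + 1) * x) := by
          have : x * (e * w ^ (m + 1)) * x = (x * e * x) * (x⁻¹ * w ^ (m + 1) * x) := by group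
          exact this
      _ = (x * e * x) * (w ^ (m + 1))⁻¹ := by rw [hxi, hwxk]
      _ = ((e * w ^ (m + 1)) * e * (e * w ^ (m + 1))) * (w ^ (m + 1))⁻¹ := by rw [hae]
      _ = e * w ^ (m + 1) * (e * e) := by group
      _ = _ := by rw [hee, mul_one]
  refine ⟨e * w ^ (m + 1), ⟨ha, ?_, ?_⟩, ?_⟩
  · show e * w ^ (m + 1) * x = x * (e * w ^ (m + 1))
    nth_rewrite 1 [← hxa]
    calc x * (e * w ^ (m + 1)) * x * x = x * (e * w ^ (m + 1)) * (x * x) := by group
      _ = _ := by rw [hxx, mul_one]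
  · -- (a x) e = e (a x)
    have hai := inv_self haa
    show e * (e * w ^ (m + 1) * x) = (e * w ^ (m + 1) * x) * e
    set a := e * w ^ (m + 1) with hadef
    have h1 : x * e = a * e * a * x := by
      rw [hae]
      calc x * e = x * e * (x * x) := by rw [hxx, mul_one]
        _ = _ := by group
    calc e * (a * x) = (a * a) * e * a * x := by rw [haa]; group
      _ = a * (a * e * a * x) := by group
      _ = a * (x * e) := by rw [h1]
      _ = _ := by group
  · rintro b ⟨hb, hbx, hbe⟩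
    have hbb := hsq b hb
    -- b e b = x e x
    have h1 : b * e * b = x * e * x := by
      have h2 : e * (b * x) = (b * x) * e := hbe
      have h3 : b * x = x * b := hbx
      calc b * e * b = b * (e * (b * x)) * x := by
            have : b * (e * (b * x)) * x = b * e * b * (x * x) := by group
            rw [this, hxx, mul_one]
        _ = b * ((b * x) * e) * x := by rw [h2]
        _ = (b * b) * x * e * x := by group
        _ = _ := by rw [hbb, one_mul]
    have h2 : e * b = e * (e * w ^ (m + 1)) := by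
      apply eq_of_sq (hodd e he b hb) (hodd e he _ ha)
      calc e * b * (e * b) = e * (b * e * b) := by group
        _ = e * ((e * w ^ (m + 1)) * e * (e * w ^ (m + 1))) := by rw [h1, hae]
        _ = _ := by group
    exact mul_left_cancel h2

/-! ### fixed cosets -/

theorem s5437 [Finite G] (I : Set G) (hIc : ∀ g : G, ∀ x ∈ I, g * x * g⁻¹ ∈ I) (H : Subgroup G) : ((∀ x ∈ I, x ∈ H → (∀ g : G, g * x * g⁻¹ ∈ H → ∃ h ∈ H, h * x * h⁻¹ = g * x * g⁻¹) ∧ Subgroup.centralizer ({x} : Set G) ≤ H) ↔ (∀ g : G, g ∉ H → ∀ x ∈ I, ¬ (x ∈ H ∧ x ∈ (H : Subgroup G).map (MulAut.conj g).toMonoidHom))) ∧ ((∀ g : G, g ∉ H → ∀ x ∈ I, ¬ (x ∈ H ∧ x ∈ (H : Subgroup G).map (MulAut.conj g).toMonoidHom)) ↔ ∀ x ∈ I, x ∈ H → ∃! c : G ⧸ H, x • c = c) := by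
  have hmem : ∀ g x : G, x ∈ (H : Subgroup G).map (MulAut.conj g).toMonoidHom ↔ g⁻¹ * x * g ∈ H := by
    intro g x
    constructor
    · rintro ⟨y, hy, rfl⟩
      show g⁻¹ * (g * y * g⁻¹) * g ∈ H
      have : g⁻¹ * (g * y * g⁻¹) * g = y := by group
      rw [this]; exact hy
    · intro h
      refine ⟨g⁻¹ * x * g, h, ?_⟩
      show g * (g⁻¹ * x * g) * g⁻¹ = x
      group
  have hfix : ∀ g x : G, x • (QuotientGroup.mk g : G ⧸ H) = QuotientGroup.mk g ↔ g⁻¹ * x * g ∈ H := by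
    intro g x
    show (QuotientGroup.mk (x * g) : G ⧸ H) = QuotientGroup.mk g ↔ _
    rw [eq_comm, QuotientGroup.eq, mul_assoc]
  constructor
  · constructor
    · intro h1 g hg x hx hxH
      obtain ⟨hx1, hx2⟩ := hxH
      rw [hmem] at hx2
      apply hg
      have h2 := (h1 x hx hx1).1 g⁻¹ (by rw [inv_inv]; exact hx2)
      obtain ⟨h, hh, he⟩ := h2
      have h3 : g * h ∈ Subgroup.centralizer ({x} : Set G) := by
        rw [mem_centralizer_singleton_iff]
        rw [inv_inv] at he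
        calc g * h * x = g * (h * x * h⁻¹) * h := by group
          _ = x * (g * h) := by rw [he]; group
      have h4 := (h1 x hx hx1).2 h3
      have h5 := mul_mem h4 (inv_mem hh)
      rwa [mul_inv_cancel_right] at h5
    · intro h1 x hx hxH
      have key : ∀ g : G, g * x * g⁻¹ ∈ H → g ∈ H := by
        intro g hg
        by_contra hn
        exact h1 g⁻¹ (fun h => hn (by rw [← inv_inv g]; exact inv_mem h)) x hx ⟨hxH, (hmem _ _).2 (by rw [inv_inv]; exact hg)⟩
      refine ⟨fun g hg => ⟨g, key g hg, rfl⟩, ?_⟩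
      intro g hg
      apply key
      rw [mem_centralizer_singleton_iff] at hg
      rw [hg, mul_inv_cancel_right]; exact hxH
  · constructor
    · intro h1 x hx hxH
      refine ⟨QuotientGroup.mk 1, ?_, ?_⟩
      · show x • (QuotientGroup.mk 1 : G ⧸ H) = QuotientGroup.mk 1
        rw [hfix]; simpa using hxH
      · intro c hc
        induction c using QuotientGroup.induction_on with
        | H g =>
          have hc' := (hfix g x).1 hc
          have hgH : g ∈ H := by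
            by_contra hn
            exact h1 g hn x hx ⟨hxH, (hmem g x).2 hc'⟩
          rw [QuotientGroup.eq]
          simpa using hgH
    · intro h1 g hg x hx hxH
      obtain ⟨hx1, hx2⟩ := hxH
      rw [hmem] at hx2
      obtain ⟨c, _, hc⟩ := h1 x hx hx1
      have e1 := hc (QuotientGroup.mk g) ((hfix g x).2 hx2)
      have e2 := hc (QuotientGroup.mk 1) ((hfix 1 x).2 (by simpa using hx1))
      apply hg
      have e3 : (QuotientGroup.mk 1 : G ⧸ H) = QuotientGroup.mk g := e2.trans e1.symm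
      rw [QuotientGroup.eq] at e3
      simpa using e3

/-- unique fixed cosets control fusion of 2-elements -/
theorem s5438 [Finite G] (z : G) (hz : Cfsg.IsTwoCentralInvolution z) (H : Subgroup G) (hzH : z ∈ H) (hfix : ∀ g : G, g⁻¹ * z * g ∈ H → g ∈ H) : Odd H.index ∧ ∀ x ∈ H, (∃ k : ℕ, orderOf x = 2 ^ k) → ∀ g : G, g * x * g⁻¹ ∈ H → ∃ h ∈ H, h * x * h⁻¹ = g * x * g⁻¹ := by
  haveI : Fact (Nat.Prime 2) := ⟨Nat.prime_two⟩
  obtain ⟨hz2, S, hzS, hSz⟩ := hz
  have hCz : ∀ g : G, g * z = z * g → g ∈ H := by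
    intro g hg
    apply hfix
    have : g⁻¹ * z * g = z := by rw [mul_assoc, ← hg, inv_mul_cancel_left]
    rw [this]; exact hzH
  have hSH : (S : Subgroup G) ≤ H := fun s hs => hCz s (hSz s hs)
  have hodd : Odd H.index := by
    rw [← Nat.not_even_iff_odd, even_iff_two_dvd]
    intro h2
    exact S.not_dvd_index (h2.trans (index_dvd_of_le hSH))
  refine ⟨hodd, ?_⟩
  -- local involutions: for a 2-element x in cHc⁻¹ there is a conjugate of z commuting with x, fixing only cH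
  have hloc : ∀ (c x : G), (∃ k : ℕ, orderOf x = 2 ^ k) → c⁻¹ * x * c ∈ H → ∃ y : G, y * x = x * y ∧ (∃ k : ℕ, orderOf y = 2 ^ k) ∧ ∀ g : G, g⁻¹ * y * g ∈ H → c⁻¹ * g ∈ H := by
    intro c x ⟨k, hk⟩ hcx
    -- x' = c⁻¹ x c is in a Sylow of H, conjugate to S inside H
    have hx'2 : IsPGroup 2 (zpowers (⟨c⁻¹ * x * c, hcx⟩ : H)) := by
      apply IsPGroup.of_card (n := k)
      rw [Nat.card_zpowers, ← orderOf_injective H.subtype H.subtype_injective]
      show orderOf (c⁻¹ * x * c) = 2 ^ k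
      have : c⁻¹ * x * c = c⁻¹ * x * c⁻¹⁻¹ := by rw [inv_inv]
      rw [this, ← MulAut.conj_apply, MulEquiv.orderOf_eq, hk]
    obtain ⟨T, hT⟩ := hx'2.exists_le_sylow
    obtain ⟨h, hh⟩ := MulAction.exists_smul_eq H (S.subtype hSH) T
    have hmem : (⟨c⁻¹ * x * c, hcx⟩ : H) ∈ (h • S.subtype hSH : Sylow 2 H) := by
      rw [hh]; exact hT (mem_zpowers _)
    rw [← SetLike.mem_coe, Sylow.coe_smul, Set.mem_smul_set_iff_inv_smul_mem, ← map_inv] at hmem
    have hmem2 : (h : G)⁻¹ * (c⁻¹ * x * c) * (h : G)⁻¹⁻¹ ∈ S := hmem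
    have hcomm := hSz _ hmem2
    refine ⟨c * h * z * (c * h)⁻¹, ?_, ?_, ?_⟩
    · -- commute
      have h1 : (h : G)⁻¹ * (c⁻¹ * x * c) * (h : G)⁻¹⁻¹ = (c * h)⁻¹ * x * (c * h) := by group
      rw [h1] at hcomm
      calc c * h * z * (c * h)⁻¹ * x = (c * h) * (z * ((c * h)⁻¹ * x * (c * h))) * (c * h)⁻¹ := by group
        _ = (c * h) * (((c * h)⁻¹ * x * (c * h)) * z) * (c * h)⁻¹ := by rw [hcomm]
        _ = _ := by group
    · refine ⟨1, ?_⟩
      rw [← MulAut.conj_apply, MulEquiv.orderOf_eq, hz2, pow_one]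
    · intro g hg
      have h1 : g⁻¹ * (c * h * z * (c * h)⁻¹) * g = ((c * h)⁻¹ * g)⁻¹ * z * ((c * h)⁻¹ * g) := by group
      rw [h1] at hg
      have h2 := hfix _ hg
      have h3 := mul_mem h.2 h2
      have h4 : (h : G) * ((c * h)⁻¹ * g) = c⁻¹ * g := by group
      rwa [h4] at h3
  intro x hxH hx2 g hg
  obtain ⟨y1, hy1, hy1o, hy1f⟩ := hloc 1 x hx2 (by simpa using hxH)
  obtain ⟨y2, hy2, hy2o, hy2f⟩ := hloc g⁻¹ x hx2 (by rw [inv_inv]; exact hg)
  -- Sylow subgroups of C(x)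
  set C := Subgroup.centralizer ({x} : Set G) with hC
  have m1 : y1 ∈ C := mem_centralizer_singleton_iff.2 hy1
  have m2 : y2 ∈ C := mem_centralizer_singleton_iff.2 hy2
  have hP : ∀ (y : G) (hy : y ∈ C), (∃ k : ℕ, orderOf y = 2 ^ k) → ∃ T : Sylow 2 C, (⟨y, hy⟩ : C) ∈ T := by
    intro y hy ⟨k, hk⟩
    have : IsPGroup 2 (zpowers (⟨y, hy⟩ : C)) := by
      apply IsPGroup.of_card (n := k)
      rw [Nat.card_zpowers, ← orderOf_injective C.subtype C.subtype_injective]
      exact hk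
    obtain ⟨T, hT⟩ := this.exists_le_sylow
    exact ⟨T, hT (mem_zpowers _)⟩
  obtain ⟨T1, hT1⟩ := hP y1 m1 hy1o
  obtain ⟨T2, hT2⟩ := hP y2 m2 hy2o
  obtain ⟨k, hk⟩ := MulAction.exists_smul_eq C T2 T1
  -- a fixed coset of T1
  have hT1p : IsPGroup 2 ((T1 : Subgroup C).map C.subtype) := T1.2.map _
  obtain ⟨c, hc⟩ : ∃ c : G ⧸ H, ∀ t ∈ (T1 : Subgroup C).map C.subtype, t • c = c := by
    have h1 : (MulAction.fixedPoints ((T1 : Subgroup C).map C.subtype) (G ⧸ H)).Nonempty := by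
      apply hT1p.nonempty_fixed_point_of_prime_not_dvd_card (G ⧸ H)
      rw [← Subgroup.index_eq_card, ← even_iff_two_dvd, Nat.not_even_iff_odd]
      exact hodd
    obtain ⟨c, hc⟩ := h1
    exact ⟨c, fun t ht => hc ⟨t, ht⟩⟩
  induction c using QuotientGroup.induction_on with
  | H c =>
    have hfx : ∀ (a b : G), a • (QuotientGroup.mk b : G ⧸ H) = QuotientGroup.mk b ↔ b⁻¹ * a * b ∈ H := by
      intro a b
      show (QuotientGroup.mk (a * b) : G ⧸ H) = QuotientGroup.mk b ↔ _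
      rw [eq_comm, QuotientGroup.eq, mul_assoc]
    have c1 : c ∈ H := by
      have := hy1f c ((hfx _ _).1 (hc y1 ⟨⟨y1, m1⟩, hT1, rfl⟩))
      simpa using this
    have hk2 : k * (⟨y2, m2⟩ : C) * k⁻¹ ∈ T1 := by
      rw [← hk, ← SetLike.mem_coe, Sylow.coe_smul, Set.mem_smul_set_iff_inv_smul_mem, ← map_inv]
      show k⁻¹ * (k * (⟨y2, m2⟩ : C) * k⁻¹) * k⁻¹⁻¹ ∈ T2
      have : k⁻¹ * (k * (⟨y2, m2⟩ : C) * k⁻¹) * k⁻¹⁻¹ = ⟨y2, m2⟩ := by group
      rw [this]; exact hT2
    have c2 := (hfx _ _).1 (hc ((k : G) * y2 * (k : G)⁻¹) ⟨_, hk2, rfl⟩)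
    have c3 : g * ((k : G)⁻¹ * c) ∈ H := by
      have := hy2f ((k : G)⁻¹ * c) (by
        have e : ((k : G)⁻¹ * c)⁻¹ * y2 * ((k : G)⁻¹ * c) = c⁻¹ * ((k : G) * y2 * (k : G)⁻¹) * c := by group
        rw [e]; exact c2)
      rwa [inv_inv] at this
    have hkx : (k : G) * x = x * k := mem_centralizer_singleton_iff.1 k.2
    refine ⟨g * (k : G)⁻¹, ?_, ?_⟩
    · have := mul_mem c3 (inv_mem c1)
      have e : g * ((k : G)⁻¹ * c) * c⁻¹ = g * (k : G)⁻¹ := by group
      rwa [e] at this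
    · have hkx' : (k : G)⁻¹ * x * k = x := by rw [mul_assoc, ← hkx, inv_mul_cancel_left]
      calc g * (k : G)⁻¹ * x * (g * (k : G)⁻¹)⁻¹ = g * ((k : G)⁻¹ * x * k) * g⁻¹ := by group
        _ = _ := by rw [hkx']

theorem s5420 [Finite G] (Q : Subgroup G) (hL1 : Cfsg.IsExtraspecial 2 ↥Q) (hL2 : Subgroup.centralizer (Q : Set G) = ((Subgroup.center ↥Q).map Q.subtype)) (hL3 : Subgroup.centralizer (((Subgroup.center ↥Q).map Q.subtype) : Set G) ≤ Subgroup.normalizer (Q : Set G)) (hZ : ((Subgroup.center ↥Q).map Q.subtype) ≤ Cfsg.pCore 2 G) : Cfsg.IsLargeExtraspecial Q := by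
  haveI : Fact (Nat.Prime 2) := ⟨Nat.prime_two⟩
  refine ⟨hL1, hL2, hL3, ?_⟩
  intro K hK hQK
  have hcop : ∀ x ∈ K, IsPGroup 2 (zpowers x) → x = 1 := by
    intro x hx h2
    obtain ⟨n, hn⟩ := IsPGroup.iff_card.1 h2
    rw [Nat.card_zpowers] at hn
    have h3 : orderOf x ∣ Nat.card K := by
      have := orderOf_dvd_natCard (⟨x, hx⟩ : K)
      rwa [← orderOf_injective K.subtype K.subtype_injective] at this
    have h4 : Odd (orderOf x) := Odd.of_dvd_nat hK h3
    rw [hn] at h4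
    have h5 : n = 0 := by
      by_contra h0
      rw [← Nat.not_even_iff_odd] at h4
      exact h4 (by rw [Nat.even_pow]; exact ⟨even_two, h0⟩)
    rw [h5, pow_zero] at hn
    exact orderOf_eq_one_iff.1 hn
  have hn2 := CfsgLib.Core.pCore_normal 2 G
  have hcore : ∀ x ∈ Cfsg.pCore 2 G, IsPGroup 2 (zpowers x) := by
    intro x hx
    exact (CfsgLib.Core.pCore_isPGroup 2 G).to_le ((zpowers_le).2 hx)
  have hKZ : K ≤ Subgroup.centralizer (((Subgroup.center ↥Q).map Q.subtype) : Set G) := by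
    intro a ha
    rw [mem_centralizer_iff]
    intro z hz
    -- z a z⁻¹ a⁻¹ in K and in the core
    have hzQ : z ∈ Q := by obtain ⟨y, _, rfl⟩ := hz; exact y.2
    have h1 : z * a * z⁻¹ ∈ K := (mem_set_normalizer_iff.1 (hQK hzQ) a).1 ha
    have h2 : z * a * z⁻¹ * a⁻¹ ∈ K := mul_mem h1 (inv_mem ha)
    have h3 : z * a * z⁻¹ * a⁻¹ ∈ Cfsg.pCore 2 G := by
      have e : z * a * z⁻¹ * a⁻¹ = z * (a * z⁻¹ * a⁻¹) := by group
      rw [e]
      exact mul_mem (hZ hz) (hn2.conj_mem _ (inv_mem (hZ hz)) a)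
    have h4 := hcop _ h2 (hcore _ h3)
    calc z * a = (z * a * z⁻¹ * a⁻¹) * (a * z) := by group
      _ = a * z := by rw [h4, one_mul]
  have hKQ : K ≤ Subgroup.centralizer (Q : Set G) := by
    intro a ha
    rw [mem_centralizer_iff]
    intro q hq
    have h1 : q * a * q⁻¹ ∈ K := (mem_set_normalizer_iff.1 (hQK hq) a).1 ha
    have h2 : q * a * q⁻¹ * a⁻¹ ∈ K := mul_mem h1 (inv_mem ha)
    have h3 : q * a * q⁻¹ * a⁻¹ ∈ Q := by
      have e : q * a * q⁻¹ * a⁻¹ = q * (a * q⁻¹ * a⁻¹) := by group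
      rw [e]
      exact mul_mem hq ((mem_set_normalizer_iff.1 (hL3 (hKZ ha)) _).1 (inv_mem hq))
    have h4 := hcop _ h2 (IsPGroup.to_le hL1.1.1 (zpowers_le.2 h3))
    calc q * a = (q * a * q⁻¹ * a⁻¹) * (a * q) := by group
      _ = a * q := by rw [h4, one_mul]
  rw [hL2] at hKQ
  rw [eq_bot_iff]
  intro a ha
  have haQ : a ∈ Q := by obtain ⟨y, _, rfl⟩ := hKQ ha; exact y.2
  exact hcop a ha (IsPGroup.to_le hL1.1.1 (zpowers_le.2 haQ))

end CfsgLib.InvMisc
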