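import Mathlib

/-!
# Laws in `SL_2(F)`: a nontrivial word is not central-valued over large finite fields.
-/

set_option autoImplicit false

namespace CfsgLib.Laws

open Matrix Polynomial

section
variable {F : Type*} [Field F]

def yM (b : F) : Matrix (Fin 2) (Fin 2) F := !![1, 0; b, 1]

def jM (s : F) : Matrix (Fin 2) (Fin 2) F := !![0, s; -s, 0]

def yS (b : F) : Matrix.SpecialLinearGroup (Fin 2) F := ⟨yM b, by simp [yM]⟩

/-- sign of a letter -/
def sg (F : Type*) [Field F] (l : ℕ × Bool) : F := if l.2 then 1 else -1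

theorem sg_mul (l : ℕ × Bool) : sg F l * sg F l = 1 := by
  unfold sg; split_ifs <;> ring

theorem sg_ne (l : ℕ × Bool) : sg F l ≠ 0 := by
  intro h
  have := sg_mul (F := F) l
  rw [h, zero_mul] at this
  exact zero_ne_one this

def jS (l : ℕ × Bool) : Matrix.SpecialLinearGroup (Fin 2) F := ⟨jM (sg F l), by simp [jM, sg_mul]⟩

/-- flip a letter -/
def fl (l : ℕ × Bool) : ℕ × Bool := (l.1, !l.2)

/-- the image of a letter -/
def img (y : ℕ × Bool → F) (t : F) (l : ℕ × Bool) : Matrix.SpecialLinearGroup (Fin 2) F :=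
  yS (t * y l) * jS l * yS (-(t * y (fl l)))

theorem img_inv (y : ℕ × Bool → F) (t : F) (i : ℕ) : (img y t (i, true))⁻¹ = img y t (i, false) := by
  have h1 : ∀ b : F, (yS b)⁻¹ = yS (-b) := by
    intro b
    rw [inv_eq_iff_mul_eq_one]
    apply Subtype.ext
    show yM b * yM (-b) = 1
    ext a c
    fin_cases a <;> fin_cases c <;> simp [yM, Matrix.mul_apply, Fin.sum_univ_two]
  have h2 : (jS (i, true) : Matrix.SpecialLinearGroup (Fin 2) F)⁻¹ = jS (i, false) := by
    rw [inv_eq_iff_mul_eq_one]
    apply Subtype.ext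
    show jM (sg F (i, true)) * jM (sg F (i, false)) = 1
    ext a c
    fin_cases a <;> fin_cases c <;> simp [jM, sg, Matrix.mul_apply, Fin.sum_univ_two]
  unfold img
  rw [_root_.mul_inv_rev, _root_.mul_inv_rev, h1, h1, h2, neg_neg, mul_assoc]
  rfl

theorem key (y : ℕ × Bool → F) : ∀ (L : List (ℕ × Bool)) (l : ℕ × Bool),
    FreeGroup.IsReduced (l :: L) → (∀ a ∈ l :: L, ∀ b ∈ l :: L, y (fl a) = y b → fl a = b) → ∀ (σ : Fin 2 → F[X]) (d : ℕ),
    (σ 1).degree = d → (σ 0).degree < d →
    ∃ P : F[X], P.degree = ((d + L.length : ℕ) : WithBot ℕ) ∧ ∀ t : F,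
      ((fun i => (σ i).eval t) ᵥ* (yM (-(t * y (fl l))) * (L.map (fun x => (img y t x).1)).prod)) 1 = P.eval t := by
  intro L
  induction L with
  | nil =>
    intro l _ _ σ d hd _
    refine ⟨σ 1, by simpa using hd, ?_⟩
    intro t
    simp [yM, vecMul, dotProduct, Fin.sum_univ_two]
  | cons x L ih =>
    intro l hred hy σ d hd hlt
    rw [FreeGroup.isReduced_cons_cons] at hred
    set c : F := y x - y (fl l) with hc
    have hc0 : c ≠ 0 := by
      intro h0
      have h1 : y (fl l) = y x := (sub_eq_zero.1 h0).symm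
      have h2 := hy l (by simp) x (by simp) h1
      have h3' : (fl l).1 = x.1 := congrArg Prod.fst h2
      have h3 := hred.1 h3'
      have h4 : (!l.2) = x.2 := congrArg Prod.snd h2
      rw [← h4] at h3
      cases h5 : l.2 <;> rw [h5] at h3 <;> simp at h3
    set s := sg F x with hs
    have hs0 : s ≠ 0 := sg_ne x
    let σ' : Fin 2 → F[X] := ![C (-s) * σ 1, C s * (σ 0 + C c * X * σ 1)]
    have hcX : (C c * X : F[X]).degree = 1 := degree_C_mul_X hc0
    have hd3 : ((C c * X) * σ 1).degree = ((d + 1 : ℕ) : WithBot ℕ) := by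
      rw [degree_mul, hcX, hd]
      push_cast
      exact add_comm _ _
    have hdd : ((d : ℕ) : WithBot ℕ) < ((d + 1 : ℕ) : WithBot ℕ) := by exact_mod_cast (by omega : d < d + 1)
    obtain ⟨P, hP, hPt⟩ := ih x hred.2 (fun a ha b hb => hy a (List.mem_cons_of_mem _ ha) b (List.mem_cons_of_mem _ hb)) σ' (d + 1) (by
      show (C s * (σ 0 + C c * X * σ 1)).degree = _
      rw [degree_C_mul hs0, degree_add_eq_right_of_degree_lt (by rw [hd3]; exact hlt.trans hdd), hd3]) (by
      show (C (-s) * σ 1).degree < _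
      rw [degree_C_mul (neg_ne_zero.2 hs0), hd]; exact hdd)
    refine ⟨P, ?_, ?_⟩
    · rw [hP]
      congr 1
      rw [List.length_cons]; ring
    · intro t
      rw [← hPt t, List.map_cons, List.prod_cons]
      have h1 : (img y t x).1 = yM (t * y x) * jM s * yM (-(t * y (fl x))) := rfl
      have h2 : yM (-(t * y (fl l))) * (yM (t * y x) * jM s * yM (-(t * y (fl x))) * (L.map (fun x => (img y t x).1)).prod) =
          (yM (-(t * y (fl l))) * (yM (t * y x) * jM s)) * (yM (-(t * y (fl x))) * (L.map (fun x => (img y t x).1)).prod) := by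
        simp only [mul_assoc]
      rw [h1, h2, ← vecMul_vecMul]
      congr 2
      ext i
      fin_cases i <;> simp [yM, jM, σ', vecMul, dotProduct, Fin.sum_univ_two, Matrix.mul_apply] <;> (try rw [hc]) <;> ring

end

/-- a nontrivial word takes noncentral values in `SL_2` over large finite fields -/
theorem exists_sl2 (w : FreeGroup ℕ) (hw : w ≠ 1) (F : Type*) [Field F] [Fintype F] (hF : 2 * w.toWord.length ≤ Fintype.card F) :
    ∃ f : ℕ → Matrix.SpecialLinearGroup (Fin 2) F, FreeGroup.lift f w ∉ Subgroup.center (Matrix.SpecialLinearGroup (Fin 2) F) := by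
  classical
  have hwn : w.toWord ≠ [] := fun h => hw (FreeGroup.toWord_eq_nil_iff.1 h)
  obtain ⟨l, L, hL⟩ := List.exists_cons_of_ne_nil hwn
  have hF' : 2 * (l :: L).length ≤ Fintype.card F := hL ▸ hF
  let S : Finset (ℕ × Bool) := (l :: L).toFinset ∪ (l :: L).toFinset.image fl
  have hS : S.card ≤ Fintype.card F := by
    have h1 : S.card ≤ (l :: L).length + (l :: L).length := by
      refine (Finset.card_union_le _ _).trans (add_le_add (List.toFinset_card_le _) (Finset.card_image_le.trans (List.toFinset_card_le _)))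
    omega
  obtain ⟨ι⟩ : Nonempty (S ↪ F) := Function.Embedding.nonempty_of_card_le (by rw [Fintype.card_coe]; exact hS)
  let y : ℕ × Bool → F := fun a => if h : a ∈ S then ι ⟨a, h⟩ else 0
  have hy : ∀ a ∈ l :: L, ∀ b ∈ l :: L, y (fl a) = y b → fl a = b := by
    intro a ha b hb hab
    have h1 : fl a ∈ S := Finset.mem_union_right _ (Finset.mem_image_of_mem _ (List.mem_toFinset.2 ha))
    have h2 : b ∈ S := Finset.mem_union_left _ (List.mem_toFinset.2 hb)
    simp only [y, dif_pos h1, dif_pos h2] at hab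
    exact congrArg Subtype.val (ι.injective hab)
  obtain ⟨P, hP, hPt⟩ := key y L l (hL ▸ FreeGroup.isReduced_toWord) hy ![0, C (sg F l)] 0 (by
      show (C (sg F l) : Polynomial F).degree = _
      rw [Polynomial.degree_C (sg_ne l)]; rfl) (by
      show (0 : Polynomial F).degree < _
      rw [Polynomial.degree_zero]; exact WithBot.bot_lt_coe _)
  obtain ⟨t, ht⟩ : ∃ t : F, P.eval t ≠ 0 := by
    by_contra hcon
    push Not at hcon
    have hP0 : P ≠ 0 := by
      rintro rfl
      rw [Polynomial.degree_zero] at hP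
      exact WithBot.bot_ne_coe hP
    have h1 : P.natDegree = 0 + L.length := Polynomial.natDegree_eq_of_degree_eq_some hP
    have h2 := Polynomial.card_le_degree_of_subset_roots (p := P) (Z := Finset.univ) (by
      intro x _
      exact (Polynomial.mem_roots hP0).2 (hcon x))
    rw [h1, zero_add, Finset.card_univ] at h2
    rw [List.length_cons] at hF'
    omega
  refine ⟨fun i => img y t (i, true), ?_⟩
  intro hcen
  have h2 : FreeGroup.lift (fun i => img y t (i, true)) w = (w.toWord.map (img y t)).prod := by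
    conv_lhs => rw [← FreeGroup.mk_toWord (x := w), FreeGroup.lift_mk]
    congr 1
    apply List.map_congr_left
    rintro ⟨i, b⟩ _
    cases b
    · exact img_inv y t i
    · rfl
  obtain ⟨c, _, hc⟩ := Matrix.SpecialLinearGroup.mem_center_iff.1 hcen
  rw [h2, hL, List.map_cons, List.prod_cons] at hc
  have h4 : ((L.map (img y t)).prod).1 = (L.map (fun x => (img y t x).1)).prod := by
    show ((Matrix.SpecialLinearGroup.toGL (R := F) (n := Fin 2) (L.map (img y t)).prod).1 : Matrix _ _ F) = _
    have : ∀ M : List (ℕ × Bool), ((M.map (img y t)).prod : Matrix.SpecialLinearGroup (Fin 2) F).1 = (M.map (fun x => (img y t x).1)).prod := by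
      intro M
      induction M with
      | nil => rfl
      | cons a M ih =>
        rw [List.map_cons, List.prod_cons, List.map_cons, List.prod_cons, ← ih]
        rfl
    exact this L
  have h5 : (img y t l).1 = yM (t * y l) * jM (sg F l) * yM (-(t * y (fl l))) := rfl
  have hc' : (img y t l).1 * ((L.map (img y t)).prod).1 = scalar (Fin 2) c := by
    rw [hc]; rfl
  rw [h4, h5, mul_assoc] at hc'
  have h6 := congrFun (congrArg (fun A => (Pi.single 0 1 : Fin 2 → F) ᵥ* A) hc') 1
  rw [← Matrix.vecMul_vecMul] at h6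
  have h7 : (Pi.single 0 1 : Fin 2 → F) ᵥ* (yM (t * y l) * jM (sg F l)) = fun i => (![0, C (sg F l)] : Fin 2 → Polynomial F) i |>.eval t := by
    ext i
    fin_cases i <;> simp [yM, jM, Matrix.vecMul, dotProduct, Fin.sum_univ_two, Matrix.mul_apply]
  rw [h7, hPt] at h6
  apply ht
  rw [h6]
  simp [vecMul, dotProduct, Fin.sum_univ_two]

end CfsgLib.Laws
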