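import Cfsg.Agent.Lib.Laws
import Cfsg.Agent.Lib.GLOrd

/-!
# Laws: transfer through embeddings of `SL_2`.
-/

set_option autoImplicit false

namespace CfsgLib.Laws

open Matrix

/-- a perfect group in which `w` takes a noncentral value -/
def Good (w : FreeGroup ℕ) (S : Type*) [Group S] : Prop :=
  commutator S = ⊤ ∧ ∃ f : ℕ → S, FreeGroup.lift f w ∉ Subgroup.center S

theorem good_SL2 (w : FreeGroup ℕ) (hw : w ≠ 1) (F : Type*) [Field F] [Fintype F] (hF : 2 * w.toWord.length + 4 ≤ Fintype.card F) :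
    Good w (Matrix.SpecialLinearGroup (Fin 2) F) := by
  classical
  refine ⟨?_, exists_sl2 w hw F (by omega)⟩
  obtain ⟨a, ha⟩ : ∃ a : F, a ∉ ({0, 1, -1} : Finset F) := by
    by_contra hcon
    push Not at hcon
    have h1 : (Finset.univ : Finset F) ⊆ {0, 1, -1} := fun a _ => hcon a
    have h2 := Finset.card_le_card h1
    have h3 : ({0, 1, -1} : Finset F).card ≤ 3 := Finset.card_le_three
    rw [Finset.card_univ] at h2
    omega
  simp only [Finset.mem_insert, Finset.mem_singleton, not_or] at ha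
  refine Matrix.SL2.commutator_eq_top ha.1 ?_
  intro h
  have h1 : (a - 1) * (a + 1) = 0 := by linear_combination h
  rcases mul_eq_zero.1 h1 with h | h
  · exact ha.2.1 (sub_eq_zero.1 h)
  · exact ha.2.2 (eq_neg_of_add_eq_zero_left h)

theorem lift_map {S H : Type*} [Group S] [Group H] (ρ : S →* H) (f : ℕ → S) (w : FreeGroup ℕ) :
    FreeGroup.lift (fun i => ρ (f i)) w = ρ (FreeGroup.lift f w) := by
  have : (FreeGroup.lift (fun i => ρ (f i))) = ρ.comp (FreeGroup.lift f) := by
    ext i; simp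
  rw [this]; rfl

theorem not_law {w : FreeGroup ℕ} {S H : Type*} [Group S] [Group H] (hS : Good w S) (ρ : S →* H) (hρ : Function.Injective ρ) :
    ∃ f : ℕ → H, FreeGroup.lift f w ≠ 1 := by
  obtain ⟨_, f, hf⟩ := hS
  refine ⟨fun i => ρ (f i), ?_⟩
  rw [lift_map]
  intro h
  rw [map_eq_one_iff ρ hρ] at h
  exact hf (by rw [h]; exact one_mem _)

theorem not_law_quot {w : FreeGroup ℕ} {S H : Type*} [Group S] [Group H] (hS : Good w S) (ρ : S →* H) (hρ : Function.Injective ρ) :
    ∃ f : ℕ → H ⧸ Subgroup.center H, FreeGroup.lift f w ≠ 1 := by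
  obtain ⟨_, f, hf⟩ := hS
  refine ⟨fun i => QuotientGroup.mk' (Subgroup.center H) (ρ (f i)), ?_⟩
  rw [lift_map (QuotientGroup.mk' (Subgroup.center H)) (fun i => ρ (f i)), lift_map]
  intro h
  have h1 : ρ (FreeGroup.lift f w) ∈ Subgroup.center H := (QuotientGroup.eq_one_iff _).1 h
  apply hf
  rw [Subgroup.mem_center_iff]
  intro s
  apply hρ
  rw [map_mul, map_mul]
  exact Subgroup.mem_center_iff.1 h1 _

theorem not_law_equiv {w : FreeGroup ℕ} {G H : Type*} [Group G] [Group H] (e : G ≃* H) (h : ∃ f : ℕ → H, FreeGroup.lift f w ≠ 1) :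
    ∃ f : ℕ → G, FreeGroup.lift f w ≠ 1 := by
  obtain ⟨f, hf⟩ := h
  refine ⟨fun i => e.symm.toMonoidHom (f i), ?_⟩
  rw [lift_map]
  intro h
  apply hf
  exact (map_eq_one_iff e.symm.toMonoidHom e.symm.injective).1 h

/-- homomorphisms of perfect groups land in the commutator subgroup -/
theorem mem_commutator {w : FreeGroup ℕ} {S H : Type*} [Group S] [Group H] (hS : Good w S) (ρ : S →* H) (s : S) : ρ s ∈ commutator H := by
  have h1 : (⊤ : Subgroup S).map ρ ≤ commutator H := by
    rw [← hS.1, commutator_def, Subgroup.map_commutator]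
    exact Subgroup.commutator_mono le_top le_top
  exact h1 ⟨s, Subgroup.mem_top s, rfl⟩

theorem eq_one_of_comm {w : FreeGroup ℕ} {S A : Type*} [Group S] [CommGroup A] (hS : Good w S) (ρ : S →* A) (s : S) : ρ s = 1 := by
  have h1 := mem_commutator hS ρ s
  rw [commutator_def, Subgroup.commutator_eq_bot_iff_le_centralizer.2] at h1
  · exact Subgroup.mem_bot.1 h1
  · intro x _
    rw [Subgroup.mem_centralizer_iff]
    intro y _
    exact mul_comm _ _

/-- a finite base group -/
theorem exists_base (w : FreeGroup ℕ) (hw : w ≠ 1) : ∃ (r : ℕ), Good w (Matrix.SpecialLinearGroup (Fin 2) (GaloisField 2 (r + 1))) := by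
  refine ⟨2 * w.toWord.length + 4, ?_⟩
  have : Fintype (GaloisField 2 (2 * w.toWord.length + 4 + 1)) := Fintype.ofFinite _
  apply good_SL2 w hw
  rw [← Nat.card_eq_fintype_card, GaloisField.card 2 _ (by omega)]
  have : 2 * w.toWord.length + 4 + 1 < 2 ^ (2 * w.toWord.length + 4 + 1) := Nat.lt_two_pow_self
  omega

theorem exists_perm (S : Type*) [Group S] [Finite S] (n : ℕ) (hn : Nat.card S ≤ n) :
    ∃ ρ : S →* Equiv.Perm (Fin n), Function.Injective ρ := by
  have : Fintype S := Fintype.ofFinite S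
  obtain ⟨ι⟩ : Nonempty (S ↪ Fin n) := Function.Embedding.nonempty_of_card_le (by
    rw [Fintype.card_fin, ← Nat.card_eq_fintype_card]; exact hn)
  refine ⟨(Equiv.Perm.viaEmbeddingHom ι).comp (MulAction.toPermHom S S), ?_⟩
  exact (Equiv.Perm.viaEmbeddingHom_injective ι).comp MulAction.toPerm_injective

/-- permutation matrices -/
def pm (F : Type*) [Field F] (n : ℕ) : Equiv.Perm (Fin n) →* Matrix (Fin n) (Fin n) F where
  toFun σ := Matrix.of fun i j => if i = σ j then 1 else 0
  map_one' := by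
    ext i j
    rw [Matrix.of_apply, Matrix.one_apply]
    rfl
  map_mul' σ τ := by
    ext i j
    rw [Matrix.mul_apply]
    simp only [Matrix.of_apply]
    rw [Finset.sum_eq_single (τ j)]
    · rw [if_pos rfl, mul_one]; rfl
    · intro b _ hb
      rw [if_neg hb, mul_zero]
    · intro h
      exact absurd (Finset.mem_univ _) h

def pG (F : Type*) [Field F] (n : ℕ) : Equiv.Perm (Fin n) →* GL (Fin n) F := (pm F n).toHomUnits

theorem pG_injective (F : Type*) [Field F] (n : ℕ) : Function.Injective (pG F n) := by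
  intro σ τ h
  have h1 : (pm F n) σ = (pm F n) τ := congrArg Units.val h
  ext j
  have h2 := congrFun (congrFun h1 (σ j)) j
  simp only [pm, MonoidHom.coe_mk, OneHom.coe_mk, of_apply, if_true] at h2
  by_cases h3 : σ j = τ j
  · rw [h3]
  · rw [if_neg h3] at h2
    exact absurd h2 one_ne_zero

/-- embeddings of good groups in `GL_n(F)` -/
theorem exists_GL (w : FreeGroup ℕ) (hw : w ≠ 1) : ∃ C : ℕ, ∀ (F : Type) [Field F] [Fintype F] (n : ℕ), 2 ≤ n →
    (C ≤ Fintype.card F ∨ C ≤ n) → ∃ (S : Type) (_ : Group S) (_ : Finite S), Good w S ∧ ∃ ρ : S →* GL (Fin n) F, Function.Injective ρ := by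
  obtain ⟨r, hr⟩ := exists_base w hw
  refine ⟨max (2 * w.toWord.length + 4) (Nat.card (Matrix.SpecialLinearGroup (Fin 2) (GaloisField 2 (r + 1)))), ?_⟩
  intro F _ _ n hn h
  rcases h with h | h
  · refine ⟨Matrix.SpecialLinearGroup (Fin 2) F, inferInstance, inferInstance, good_SL2 w hw F ((le_max_left _ _).trans h), ?_⟩
    refine ⟨(CfsgLib.GLOrd.emb hn).comp Matrix.SpecialLinearGroup.toGL, (CfsgLib.GLOrd.emb_injective hn).comp ?_⟩
    intro s t hst
    apply Subtype.ext
    exact congrArg Units.val hst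
  · refine ⟨_, inferInstance, inferInstance, hr, ?_⟩
    obtain ⟨ρ, hρ⟩ := exists_perm (Matrix.SpecialLinearGroup (Fin 2) (GaloisField 2 (r + 1))) n ((le_max_right _ _).trans h)
    exact ⟨(pG F n).comp ρ, (pG_injective F n).comp hρ⟩

end CfsgLib.Laws
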