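import Cfsg.Agent.Lib.Laws2
import Cfsg.Agent.Lib.AutPSL13

/-!
# Laws: embeddings in the classical groups.
-/

set_option autoImplicit false

namespace CfsgLib.Laws

open Matrix CfsgLib.AutPSL

section blocks
variable {F : Type*} [Field F] {m : ℕ}

/-- `g ↦ diag(g, g^{-T})` -/
def dd : GL (Fin m) F →* GL (Fin m ⊕ Fin m) F where
  toFun g := ⟨fromBlocks g.1 0 0 (g⁻¹).1.transpose, fromBlocks (g⁻¹).1 0 0 g.1.transpose,
    by rw [fromBlocks_multiply]; simp [← transpose_mul],
    by rw [fromBlocks_multiply]; simp [← transpose_mul]⟩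
  map_one' := by
    apply Units.ext
    show fromBlocks (1 : GL (Fin m) F).1 0 0 ((1 : GL (Fin m) F)⁻¹).1.transpose = 1
    rw [inv_one, Units.val_one, transpose_one, fromBlocks_one]
  map_mul' g h := by
    apply Units.ext
    show fromBlocks (g * h).1 0 0 ((g * h)⁻¹).1.transpose = fromBlocks g.1 0 0 (g⁻¹).1.transpose * fromBlocks h.1 0 0 (h⁻¹).1.transpose
    rw [fromBlocks_multiply, _root_.mul_inv_rev, Units.val_mul, Units.val_mul, transpose_mul]
    simp

theorem dd_coe (g : GL (Fin m) F) : (dd g).1 = fromBlocks g.1 0 0 (g⁻¹).1.transpose := rfl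

theorem dd_injective : Function.Injective (dd (F := F) (m := m)) := by
  intro g h hgh
  apply Units.ext
  exact (fromBlocks_inj.1 (congrArg Units.val hgh)).1

theorem dd_mem (g : GL (Fin m) F) : (dd g).1 ∈ Matrix.symplecticGroup (Fin m) F := by
  rw [SymplecticGroup.mem_iff, dd_coe, J, fromBlocks_multiply, fromBlocks_transpose, fromBlocks_multiply]
  have h1 : g.1 * (g⁻¹).1 = 1 := g.mul_inv
  have h2 : (g⁻¹).1.transpose * g.1.transpose = 1 := by rw [← transpose_mul, h1, transpose_one]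
  simp only [Matrix.mul_zero, Matrix.zero_mul, add_zero, zero_add, transpose_zero, Matrix.mul_one, Matrix.mul_neg, Matrix.neg_mul, transpose_transpose,
    neg_zero, h1, h2]

/-- hom into the symplectic group -/
def toSp : GL (Fin m) F →* Matrix.symplecticGroup (Fin m) F where
  toFun g := ⟨(dd g).1, dd_mem g⟩
  map_one' := by apply Subtype.ext; show (dd 1).1 = 1; rw [map_one]; rfl
  map_mul' g h := by apply Subtype.ext; show (dd (g * h)).1 = (dd g).1 * (dd h).1; rw [map_mul]; rfl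

theorem toSp_injective : Function.Injective (toSp (F := F) (m := m)) := by
  intro g h hgh
  apply dd_injective
  apply Units.ext
  exact congrArg Subtype.val hgh

theorem dd_form (g : GL (Fin m) F) (v : Fin m ⊕ Fin m → F) :
    ∑ i, ((dd g).1 *ᵥ v) (Sum.inl i) * ((dd g).1 *ᵥ v) (Sum.inr i) = ∑ i, v (Sum.inl i) * v (Sum.inr i) := by
  have h1 : ∀ i, ((dd g).1 *ᵥ v) (Sum.inl i) = (g.1 *ᵥ (v ∘ Sum.inl)) i := by
    intro i
    rw [dd_coe, fromBlocks_mulVec]
    simp
  have h2 : ∀ i, ((dd g).1 *ᵥ v) (Sum.inr i) = ((g⁻¹).1.transpose *ᵥ (v ∘ Sum.inr)) i := by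
    intro i
    rw [dd_coe, fromBlocks_mulVec]
    simp
  simp only [h1, h2]
  show (g.1 *ᵥ (v ∘ Sum.inl)) ⬝ᵥ ((g⁻¹).1.transpose *ᵥ (v ∘ Sum.inr)) = (v ∘ Sum.inl) ⬝ᵥ (v ∘ Sum.inr)
  rw [dotProduct_mulVec, vecMul_transpose, mulVec_mulVec]
  have h3 : (g⁻¹).1 * g.1 = 1 := g.inv_mul
  rw [h3, one_mulVec]

theorem plus_mem (g : GL (Fin m) F) : dd g ∈ Cfsg.isometryGroup F (Cfsg.quadFormPlus m F) := by
  intro u v
  exact dd_form g u

def toPlus : GL (Fin m) F →* Cfsg.isometryGroup F (Cfsg.quadFormPlus m F) := dd.codRestrict _ plus_mem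

theorem toPlus_injective : Function.Injective (toPlus (F := F) (m := m)) := by
  intro g h hgh
  exact dd_injective (congrArg Subtype.val hgh)

/-- block embeddings -/
def inrG (κ : Type) [Fintype κ] [DecidableEq κ] {ι : Type} [Fintype ι] [DecidableEq ι] : GL ι F →* GL (κ ⊕ ι) F :=
  Units.map ({ toFun := fun A => fromBlocks 1 0 0 A
               map_one' := fromBlocks_one
               map_mul' := fun A B => by rw [fromBlocks_multiply]; simp } : Matrix ι ι F →* Matrix (κ ⊕ ι) (κ ⊕ ι) F)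

def inlG (κ : Type) [Fintype κ] [DecidableEq κ] {ι : Type} [Fintype ι] [DecidableEq ι] : GL ι F →* GL (ι ⊕ κ) F :=
  Units.map ({ toFun := fun A => fromBlocks A 0 0 1
               map_one' := fromBlocks_one
               map_mul' := fun A B => by rw [fromBlocks_multiply]; simp } : Matrix ι ι F →* Matrix (ι ⊕ κ) (ι ⊕ κ) F)

theorem odd_mem (g : GL (Fin m) F) : inrG Unit (dd g) ∈ Cfsg.isometryGroup F (Cfsg.quadFormOdd m F) := by
  intro u v
  show Cfsg.quadFormOdd m F ((fromBlocks 1 0 0 (dd g).1) *ᵥ u) = Cfsg.quadFormOdd m F u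
  unfold Cfsg.quadFormOdd
  rw [fromBlocks_mulVec]
  simp only [Sum.elim_inl, Sum.elim_inr, zero_mulVec, add_zero, zero_add, one_mulVec, Function.comp_apply]
  rw [dd_form g (u ∘ Sum.inr)]
  rfl

def toOdd : GL (Fin m) F →* Cfsg.isometryGroup F (Cfsg.quadFormOdd m F) := ((inrG Unit).comp dd).codRestrict _ odd_mem

theorem toOdd_injective : Function.Injective (toOdd (F := F) (m := m)) := by
  intro g h hgh
  apply dd_injective
  apply Units.ext
  have h1 : fromBlocks (1 : Matrix Unit Unit F) 0 0 (dd g).1 = fromBlocks 1 0 0 (dd h).1 := congrArg Units.val (congrArg Subtype.val hgh)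
  exact (fromBlocks_inj.1 h1).2.2.2

theorem minus_mem (a b : F) (g : GL (Fin m) F) : inlG (Fin 2) (dd g) ∈ Cfsg.isometryGroup F (Cfsg.quadFormMinus m F a b) := by
  intro u v
  show Cfsg.quadFormMinus m F a b ((fromBlocks (dd g).1 0 0 1) *ᵥ u) = Cfsg.quadFormMinus m F a b u
  unfold Cfsg.quadFormMinus
  rw [fromBlocks_mulVec]
  simp only [Sum.elim_inl, Sum.elim_inr, zero_mulVec, add_zero, zero_add, one_mulVec, Function.comp_apply]
  rw [dd_form g (u ∘ Sum.inl)]
  rfl

def toMinus (a b : F) : GL (Fin m) F →* Cfsg.isometryGroup F (Cfsg.quadFormMinus m F a b) := ((inlG (Fin 2)).comp dd).codRestrict _ (minus_mem a b)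

theorem toMinus_injective (a b : F) : Function.Injective (toMinus (F := F) (m := m) a b) := by
  intro g h hgh
  apply dd_injective
  apply Units.ext
  have h1 : fromBlocks (dd g).1 0 0 (1 : Matrix (Fin 2) (Fin 2) F) = fromBlocks (dd h).1 0 0 1 := congrArg Units.val (congrArg Subtype.val hgh)
  exact (fromBlocks_inj.1 h1).1

theorem to_Omega {w : FreeGroup ℕ} {S : Type*} [Group S] (hS : Good w S) {H : Type*} [Group H] (ρ : S →* H) (hρ : Function.Injective ρ) :
    ∃ ρ' : S →* commutator H, Function.Injective ρ' :=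
  ⟨ρ.codRestrict _ (mem_commutator hS ρ), fun a b h => hρ (congrArg Subtype.val h)⟩

/-- hom into `SL` -/
theorem to_SL {w : FreeGroup ℕ} {S : Type*} [Group S] (hS : Good w S) (ρ : S →* GL (Fin m) F) (hρ : Function.Injective ρ) :
    ∃ ρ' : S →* Matrix.SpecialLinearGroup (Fin m) F, Function.Injective ρ' := by
  have hdet : ∀ s, (ρ s).1.det = 1 := fun s => congrArg Units.val (eq_one_of_comm hS (Matrix.GeneralLinearGroup.det.comp ρ) s)
  refine ⟨{ toFun := fun s => ⟨(ρ s).1, hdet s⟩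
            map_one' := by apply Subtype.ext; show (ρ 1).1 = 1; rw [map_one]; rfl
            map_mul' := fun s t => by apply Subtype.ext; show (ρ (s * t)).1 = (ρ s).1 * (ρ t).1; rw [map_mul]; rfl }, ?_⟩
  intro s t h
  apply hρ
  apply Units.ext
  exact congrArg Subtype.val h

theorem to_SU {w : FreeGroup ℕ} {S : Type*} [Group S] {q : ℕ} (hS : Good w S) (ρ : S →* GL (Fin m) F) (hρ : Function.Injective ρ)
    (h : ∀ s, ρ s ∈ Cfsg.GU m F q) :
    ∃ ρ' : S →* Cfsg.SU m F q, Function.Injective ρ' := by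
  have hdet : ∀ s, (ρ s).1.det = 1 := fun s => congrArg Units.val (eq_one_of_comm hS (Matrix.GeneralLinearGroup.det.comp ρ) s)
  refine ⟨{ toFun := fun s => ⟨⟨(ρ s).1, hdet s⟩, fun u v => h s u v⟩
            map_one' := by apply Subtype.ext; apply Subtype.ext; show (ρ 1).1 = 1; rw [map_one]; rfl
            map_mul' := fun s t => by apply Subtype.ext; apply Subtype.ext; show (ρ (s * t)).1 = (ρ s).1 * (ρ t).1; rw [map_mul]; rfl }, ?_⟩
  intro s t h
  apply hρ
  apply Units.ext
  exact congrArg Subtype.val (congrArg Subtype.val h)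

theorem pG_mem_GU (q : ℕ) (τ : Equiv.Perm (Fin m)) : pG F m τ ∈ Cfsg.GU m F q := by
  intro u v
  show Cfsg.hermForm m F q ((pm F m τ) *ᵥ u) ((pm F m τ) *ᵥ v) = _
  have h1 : ∀ (v : Fin m → F) (i : Fin m), ((pm F m τ) *ᵥ v) (τ i) = v i := by
    intro v i
    simp only [mulVec, dotProduct, pm, MonoidHom.coe_mk, OneHom.coe_mk, of_apply]
    rw [Finset.sum_eq_single i]
    · rw [if_pos rfl, one_mul]
    · intro j _ hj
      rw [if_neg (fun h => hj (τ.injective h).symm), zero_mul]
    · intro h; exact absurd (Finset.mem_univ _) h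
  unfold Cfsg.hermForm
  rw [← Equiv.sum_comp τ]
  simp only [h1]

theorem emb_unitary {i : ℕ} (hi : i ≤ m) (σ : RingAut F) (g : GL (Fin i) F) (hg : g.1 * (g.1.map σ).transpose = 1) :
    (CfsgLib.GLOrd.emb hi g).1 * ((CfsgLib.GLOrd.emb hi g).1.map σ).transpose = 1 := by
  let E := Matrix.reindexAlgEquiv F F (finSumFinEquiv.trans (finCongr (Nat.add_sub_cancel' hi)))
  have h1 : (CfsgLib.GLOrd.emb hi g).1 = E (fromBlocks g.1 0 0 (1 : Matrix (Fin (m - i)) (Fin (m - i)) F)) := rfl
  have h2 : ((E (fromBlocks g.1 0 0 (1 : Matrix (Fin (m - i)) (Fin (m - i)) F))).map σ).transpose =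
      E (fromBlocks (g.1.map σ).transpose 0 0 (1 : Matrix (Fin (m - i)) (Fin (m - i)) F)) := by
    have h3 : fromBlocks (g.1.map σ).transpose 0 0 (1 : Matrix (Fin (m - i)) (Fin (m - i)) F) =
        ((fromBlocks g.1 0 0 (1 : Matrix (Fin (m - i)) (Fin (m - i)) F)).map σ).transpose := by
      rw [fromBlocks_map, fromBlocks_transpose, Matrix.map_one _ (map_zero σ) (map_one σ), transpose_one,
        Matrix.map_zero _ (map_zero σ), Matrix.map_zero _ (map_zero σ), transpose_zero, transpose_zero]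
    rw [h3]
    rfl
  rw [h1, h2, ← map_mul, fromBlocks_multiply, hg]
  simp only [Matrix.mul_zero, Matrix.zero_mul, add_zero, zero_add, Matrix.mul_one]
  rw [fromBlocks_one, map_one]

end blocks

section unitary
variable {F : Type} [Field F] [Fintype F]

theorem exists_involution {p m : ℕ} [Fact p.Prime] [CharP F p] (hF : Fintype.card F = p ^ (2 * m)) (hm : 0 < m) :
    ∃ τ : RingAut F, (∀ x, τ x = x ^ (p ^ m)) ∧ orderOf τ = 2 := by
  let τ : RingAut F := RingEquiv.ofBijective (iterateFrobenius F p m) (bijective_iterateFrobenius F p m)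
  have hτ : ∀ x, τ x = x ^ (p ^ m) := fun x => iterateFrobenius_def p m x
  refine ⟨τ, hτ, ?_⟩
  apply orderOf_eq_prime
  · apply RingEquiv.ext
    intro x
    show τ (τ x) = x
    rw [hτ, hτ, ← pow_mul, ← pow_add, ← two_mul, ← hF, FiniteField.pow_card]
  · intro h
    have h1 : ∀ x : F, x ^ (p ^ m) = x := by
      intro x
      rw [← hτ, h]; rfl
    have hcyc : IsCyclic Fˣ := inferInstance
    obtain ⟨g, hg⟩ := IsCyclic.exists_generator (α := Fˣ)
    have h2 : orderOf g = p ^ (2 * m) - 1 := by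
      rw [orderOf_eq_card_of_forall_mem_zpowers hg, Nat.card_units, Nat.card_eq_fintype_card, hF]
    have h3 : g ^ (p ^ m) = g := Units.ext (by rw [Units.val_pow_eq_pow_val]; exact h1 g)
    have hpm : 1 < p ^ m := Nat.one_lt_pow hm.ne' (Fact.out : p.Prime).one_lt
    have h4 : g ^ (p ^ m - 1) = 1 := by
      have : g ^ (p ^ m - 1) * g = g := by
        rw [← pow_succ, Nat.sub_add_cancel hpm.le, h3]
      exact mul_eq_right.1 this
    have h5 : p ^ (2 * m) - 1 ≤ p ^ m - 1 := by
      rw [← h2]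
      exact orderOf_le_of_pow_eq_one (by omega) h4
    have h6 : p ^ m < p ^ (2 * m) := Nat.pow_lt_pow_right (Fact.out : p.Prime).one_lt (by omega)
    omega

theorem card_sq {q : ℕ} (hF : Fintype.card F = q ^ 2) : ∃ (p m : ℕ) (_ : Fact p.Prime) (_ : CharP F p), 0 < m ∧ q = p ^ m ∧ Fintype.card F = p ^ (2 * m) := by
  obtain ⟨p, hp⟩ := CharP.exists F
  have : Fact p.Prime := ⟨CharP.char_is_prime F p⟩
  obtain ⟨k, _, hk⟩ := FiniteField.card F p
  have h1 : q ∣ p ^ (k : ℕ) := by rw [← hk, hF]; exact dvd_pow_self _ (by norm_num)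
  obtain ⟨m, _, hm⟩ := (Nat.dvd_prime_pow Fact.out).1 h1
  refine ⟨p, m, inferInstance, inferInstance, ?_, hm, ?_⟩
  · rcases Nat.eq_zero_or_pos m with rfl | h
    · rw [pow_zero] at hm
      rw [hm, one_pow] at hF
      have : 1 < Fintype.card F := Fintype.one_lt_card
      omega
    · exact h
  · rw [hF, hm, ← pow_mul, mul_comm]

/-- `SL_2(q)` inside `GU_n(q)` -/
theorem exists_SL2_GU {q n : ℕ} (hn : 2 ≤ n) (hF : Fintype.card F = q ^ 2) :
    ∃ (K : Type) (_ : Field K) (_ : Fintype K) (ρ : Matrix.SpecialLinearGroup (Fin 2) K →* GL (Fin n) F), Fintype.card K = q ∧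
      Function.Injective ρ ∧ ∀ s, ρ s ∈ Cfsg.GU n F q := by
  obtain ⟨p, m, _, _, hm, hq, hF'⟩ := card_sq hF
  obtain ⟨σ, hσ, hσ2⟩ := exists_involution hF' hm
  have : Fintype (GaloisField p m) := Fintype.ofFinite _
  have hcard : Fintype.card (GaloisField p m) = p ^ m := by
    rw [← Nat.card_eq_fintype_card, GaloisField.card p m hm.ne']
  obtain ⟨_, j, hj⟩ := exists_emb σ hF' hσ2 (GaloisField p m) (by rw [hcard]; congr 1; omega)
  obtain ⟨δ, hδ0, hδ⟩ := hilbert90 σ (l := (-1 : F)) (by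
    rw [hσ2, Finset.prod_range_succ, Finset.prod_range_one, pow_zero, pow_one]
    show (-1 : F) * σ (-1) = 1
    rw [map_neg, map_one]; ring)
  have hδ' : σ δ = -δ := by linear_combination (-1 : F) * hδ
  let A : Matrix (Fin 2) (Fin 2) F := !![0, δ; -δ, 0]
  obtain ⟨h, hh⟩ := CfsgLib.HermEq.exists_eq hσ2 A (by
    rw [Matrix.isUnit_iff_isUnit_det]
    have : A.det = δ * δ := by simp [A, det_fin_two]
    rw [this]
    exact (IsUnit.mk0 _ hδ0).mul (IsUnit.mk0 _ hδ0)) (by
    ext a b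
    fin_cases a <;> fin_cases b <;> simp [A, hδ'])
  refine ⟨GaloisField p m, inferInstance, inferInstance,
    (CfsgLib.GLOrd.emb hn).comp ((MulAut.conj h⁻¹).toMonoidHom.comp ((Matrix.GeneralLinearGroup.map j).comp Matrix.SpecialLinearGroup.toGL)), ?_, ?_, ?_⟩
  · rw [hcard, hq]
  · refine (CfsgLib.GLOrd.emb_injective hn).comp ((MulAut.conj h⁻¹).injective.comp ?_)
    intro s t hst
    apply Subtype.ext
    have h1 : s.1.map j = t.1.map j := congrArg Units.val hst
    ext a b
    exact j.injective (congrFun (congrFun h1 a) b)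
  · intro s
    rw [mem_GU_iff σ (by rw [hq]; exact hσ)]
    apply emb_unitary hn
    show ((h⁻¹ * Matrix.GeneralLinearGroup.map j (Matrix.SpecialLinearGroup.toGL s) * h⁻¹⁻¹ : GL (Fin 2) F)).1 *
      (((h⁻¹ * Matrix.GeneralLinearGroup.map j (Matrix.SpecialLinearGroup.toGL s) * h⁻¹⁻¹ : GL (Fin 2) F)).1.map σ).transpose = 1
    set t := Matrix.GeneralLinearGroup.map j (Matrix.SpecialLinearGroup.toGL s) with ht
    have ht1 : t.1.map σ = t.1 := by
      ext a b
      exact (hj _).2 ⟨_, rfl⟩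
    have ht2 : t.1 * A * t.1.transpose = A := by
      have hdet : t.1.det = 1 := by
        have : t.1 = s.1.map j := rfl
        rw [this]
        show (j.mapMatrix s.1).det = 1
        rw [← RingHom.map_det, s.2, map_one]
      rw [det_fin_two] at hdet
      ext a b
      fin_cases a <;> fin_cases b <;> simp [A, Matrix.mul_apply, Fin.sum_univ_two] <;>
        first | linear_combination δ * hdet | linear_combination (-δ) * hdet | ring
    have hmul : ∀ X Y : Matrix (Fin 2) (Fin 2) F, (X * Y).map σ = X.map σ * Y.map σ := fun X Y => Matrix.map_mul (f := (σ : F →+* F))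
    have hi1 : (h⁻¹).1 * h.1 = 1 := h.inv_mul
    rw [inv_inv, Units.val_mul, Units.val_mul, hmul, hmul, transpose_mul, transpose_mul, ht1]
    calc (h⁻¹).1 * t.1 * h.1 * ((h.1.map σ).transpose * (t.1.transpose * ((h⁻¹).1.map σ).transpose))
        = (h⁻¹).1 * (t.1 * (h.1 * (h.1.map σ).transpose) * t.1.transpose) * ((h⁻¹).1.map σ).transpose := by simp only [mul_assoc]
      _ = (h⁻¹).1 * (h.1 * (h.1.map σ).transpose) * ((h⁻¹).1.map σ).transpose := by rw [← hh, ht2]
      _ = ((h⁻¹).1 * h.1) * ((h.1.map σ).transpose * ((h⁻¹).1.map σ).transpose) := by simp only [mul_assoc]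
      _ = 1 := by
        rw [hi1, one_mul, ← transpose_mul, ← hmul, hi1, Matrix.map_one _ (map_zero σ) (map_one σ), transpose_one]

/-- embeddings of good groups in `SU_n(q)` -/
theorem exists_SU (w : FreeGroup ℕ) (hw : w ≠ 1) : ∃ C : ℕ, ∀ (F : Type) [Field F] [Fintype F] (n q : ℕ), Fintype.card F = q ^ 2 → 2 ≤ n →
    (C ≤ q ∨ C ≤ n) → ∃ (S : Type) (_ : Group S) (_ : Finite S), Good w S ∧ ∃ ρ : S →* Cfsg.SU n F q, Function.Injective ρ := by
  obtain ⟨r, hr⟩ := exists_base w hw
  refine ⟨max (2 * w.toWord.length + 4) (Nat.card (Matrix.SpecialLinearGroup (Fin 2) (GaloisField 2 (r + 1)))), ?_⟩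
  intro F _ _ n q hF hn h
  rcases h with h | h
  · obtain ⟨K, _, _, ρ, hK, hρ, hρ'⟩ := exists_SL2_GU hn hF
    have hS : Good w (Matrix.SpecialLinearGroup (Fin 2) K) := good_SL2 w hw K (by rw [hK]; exact (le_max_left _ _).trans h)
    exact ⟨Matrix.SpecialLinearGroup (Fin 2) K, inferInstance, inferInstance, hS, to_SU hS ρ hρ hρ'⟩
  · obtain ⟨ρ, hρ⟩ := exists_perm (Matrix.SpecialLinearGroup (Fin 2) (GaloisField 2 (r + 1))) n ((le_max_right _ _).trans h)
    exact ⟨_, inferInstance, inferInstance, hr, to_SU hr ((pG F n).comp ρ) ((pG_injective F n).comp hρ) (fun s => pG_mem_GU q _)⟩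
end unitary

end CfsgLib.Laws
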