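import Mathlib
import Cfsg.Prelude.Def_SporadicCombinatorics
import Cfsg.Agent.Lib.GolayM
import Cfsg.Agent.Lib.GolayDod

/-!
The Leech lattice: basic properties.
-/

set_option autoImplicit false

namespace CfsgLib.Leech

open CfsgLib.Golay Finset Cfsg
open scoped Pointwise

/-- the code as a family of sets -/
abbrev GC : Set (Finset GolayPt) := supports (golayCode : Set (GolayPt → ZMod 2))

theorem empty_mem : (∅ : Finset GolayPt) ∈ GC := by
  rw [mem_supports_iff, mask_empty]; exact isCode_zero

theorem univ_mem : (univ : Finset GolayPt) ∈ GC := by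
  have : (univ : Finset GolayPt) = toFS 0xffffff := by decide +kernel
  rw [this, mem_supports_iff, mask_toFS (by norm_num)]; decide +kernel

theorem compl_mem {c : Finset GolayPt} (h : c ∈ GC) : cᶜ ∈ GC := by
  have := symmDiff_mem univ_mem h
  rwa [show symmDiff univ c = cᶜ from top_symmDiff' c] at this

/-- normal form -/
def NF (x : GolayPt → ℤ) (m : ℤ) (C : Finset GolayPt) : Prop :=
  C ∈ GC ∧ (∀ i, x i % 4 = (m + 2 * (if i ∈ C then 1 else 0)) % 4) ∧ (∑ i, x i) % 8 = (4 * m) % 8

theorem leechSet_iff {x : GolayPt → ℤ} : x ∈ leechSet ↔ ∃ C, NF x 0 C ∨ NF x 1 C := by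
  constructor
  · rintro ⟨m, h1, h2, h3⟩
    rcases Int.emod_two_eq_zero_or_one m with hm | hm
    · refine ⟨_, Or.inl ⟨h3 2, ?_, ?_⟩⟩
      · intro i
        have h4 := h1 i
        have h6 := Finset.mem_filter (s := univ) (p := fun i => x i ≡ 2 [ZMOD 4]) (a := i)
        simp only [Finset.mem_univ, true_and] at h6
        unfold Int.ModEq at h4 h6
        split_ifs with h5
        · have := h6.mp h5; omega
        · have h7 : ¬ (x i % 4 = 2 % 4) := fun h => h5 (h6.mpr h)
          omega
      · simp only [Int.ModEq] at h2; omega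
    · refine ⟨_, Or.inr ⟨h3 3, ?_, ?_⟩⟩
      · intro i
        have h4 := h1 i
        have h6 := Finset.mem_filter (s := univ) (p := fun i => x i ≡ 3 [ZMOD 4]) (a := i)
        simp only [Finset.mem_univ, true_and] at h6
        unfold Int.ModEq at h4 h6
        split_ifs with h5
        · have := h6.mp h5; omega
        · have h7 : ¬ (x i % 4 = 3 % 4) := fun h => h5 (h6.mpr h)
          omega
      · simp only [Int.ModEq] at h2; omega
  · rintro ⟨C, ⟨hC, h1, h2⟩ | ⟨hC, h1, h2⟩⟩
    · refine ⟨0, ?_, ?_, ?_⟩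
      · intro i
        have h3 := h1 i
        simp only [Int.ModEq]
        split_ifs at h3 <;> omega
      · simp only [Int.ModEq]; omega
      · intro k
        have h4 : k % 4 = 0 ∨ k % 4 = 1 ∨ k % 4 = 2 ∨ k % 4 = 3 := by omega
        rcases h4 with h4 | h4 | h4 | h4
        · have e : (univ.filter fun i => x i ≡ k [ZMOD 4]) = Cᶜ := by
            ext i
            have h3 := h1 i
            rw [Finset.mem_filter, Finset.mem_compl]
            simp only [Finset.mem_univ, true_and]
            unfold Int.ModEq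
            split_ifs at h3 with h5 <;> simp only [h5, not_true_eq_false, not_false_eq_true, iff_false, iff_true] <;> omega
          rw [e]; exact compl_mem hC
        · have e : (univ.filter fun i => x i ≡ k [ZMOD 4]) = ∅ := by
            ext i
            have h3 := h1 i
            rw [Finset.mem_filter]
            simp only [Finset.mem_univ, true_and, Finset.notMem_empty, iff_false]
            unfold Int.ModEq
            split_ifs at h3 with h5 <;> omega
          rw [e]; exact empty_mem
        · have e : (univ.filter fun i => x i ≡ k [ZMOD 4]) = C := by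
            ext i
            have h3 := h1 i
            rw [Finset.mem_filter]
            simp only [Finset.mem_univ, true_and]
            unfold Int.ModEq
            split_ifs at h3 with h5 <;> simp only [h5, iff_false, iff_true] <;> omega
          rw [e]; exact hC
        · have e : (univ.filter fun i => x i ≡ k [ZMOD 4]) = ∅ := by
            ext i
            have h3 := h1 i
            rw [Finset.mem_filter]
            simp only [Finset.mem_univ, true_and, Finset.notMem_empty, iff_false]
            unfold Int.ModEq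
            split_ifs at h3 with h5 <;> omega
          rw [e]; exact empty_mem
    · refine ⟨1, ?_, ?_, ?_⟩
      · intro i
        have h3 := h1 i
        simp only [Int.ModEq]
        split_ifs at h3 <;> omega
      · simp only [Int.ModEq]; omega
      · intro k
        have h4 : k % 4 = 0 ∨ k % 4 = 1 ∨ k % 4 = 2 ∨ k % 4 = 3 := by omega
        rcases h4 with h4 | h4 | h4 | h4
        · have e : (univ.filter fun i => x i ≡ k [ZMOD 4]) = ∅ := by
            ext i
            have h3 := h1 i
            rw [Finset.mem_filter]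
            simp only [Finset.mem_univ, true_and, Finset.notMem_empty, iff_false]
            unfold Int.ModEq
            split_ifs at h3 with h5 <;> omega
          rw [e]; exact empty_mem
        · have e : (univ.filter fun i => x i ≡ k [ZMOD 4]) = Cᶜ := by
            ext i
            have h3 := h1 i
            rw [Finset.mem_filter, Finset.mem_compl]
            simp only [Finset.mem_univ, true_and]
            unfold Int.ModEq
            split_ifs at h3 with h5 <;> simp only [h5, not_true_eq_false, not_false_eq_true, iff_false, iff_true] <;> omega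
          rw [e]; exact compl_mem hC
        · have e : (univ.filter fun i => x i ≡ k [ZMOD 4]) = ∅ := by
            ext i
            have h3 := h1 i
            rw [Finset.mem_filter]
            simp only [Finset.mem_univ, true_and, Finset.notMem_empty, iff_false]
            unfold Int.ModEq
            split_ifs at h3 with h5 <;> omega
          rw [e]; exact empty_mem
        · have e : (univ.filter fun i => x i ≡ k [ZMOD 4]) = C := by
            ext i
            have h3 := h1 i
            rw [Finset.mem_filter]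
            simp only [Finset.mem_univ, true_and]
            unfold Int.ModEq
            split_ifs at h3 with h5 <;> simp only [h5, iff_false, iff_true] <;> omega
          rw [e]; exact hC

theorem NF_add00 {x y : GolayPt → ℤ} {C D : Finset GolayPt} (hx : NF x 0 C) (hy : NF y 0 D) : NF (x + y) 0 (symmDiff C D) := by
  refine ⟨symmDiff_mem hx.1 hy.1, ?_, ?_⟩
  · intro i
    have h1 := hx.2.1 i
    have h2 := hy.2.1 i
    by_cases h3 : i ∈ C <;> by_cases h4 : i ∈ D <;>
      simp only [h3, h4, if_true, if_false, Finset.mem_symmDiff, Pi.add_apply, not_true_eq_false, not_false_eq_true, and_self, and_false, or_self, or_false, or_true, true_or, false_and] at h1 h2 ⊢ <;> omega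
  · have h1 := hx.2.2
    have h2 := hy.2.2
    simp only [Pi.add_apply, Finset.sum_add_distrib]; omega

theorem NF_add01 {x y : GolayPt → ℤ} {C D : Finset GolayPt} (hx : NF x 0 C) (hy : NF y 1 D) : NF (x + y) 1 (symmDiff C D) := by
  refine ⟨symmDiff_mem hx.1 hy.1, ?_, ?_⟩
  · intro i
    have h1 := hx.2.1 i
    have h2 := hy.2.1 i
    by_cases h3 : i ∈ C <;> by_cases h4 : i ∈ D <;>
      simp only [h3, h4, if_true, if_false, Finset.mem_symmDiff, Pi.add_apply, not_true_eq_false, not_false_eq_true, and_self, and_false, or_self, or_false, or_true, true_or, false_and] at h1 h2 ⊢ <;> omega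
  · have h1 := hx.2.2
    have h2 := hy.2.2
    simp only [Pi.add_apply, Finset.sum_add_distrib]; omega

theorem NF_add11 {x y : GolayPt → ℤ} {C D : Finset GolayPt} (hx : NF x 1 C) (hy : NF y 1 D) : NF (x + y) 0 (symmDiff C D)ᶜ := by
  refine ⟨compl_mem (symmDiff_mem hx.1 hy.1), ?_, ?_⟩
  · intro i
    have h1 := hx.2.1 i
    have h2 := hy.2.1 i
    by_cases h3 : i ∈ C <;> by_cases h4 : i ∈ D <;>
      simp only [h3, h4, if_true, if_false, Finset.mem_symmDiff, Finset.mem_compl, Pi.add_apply, not_true_eq_false, not_false_eq_true, and_self, and_false, or_self, or_false, or_true, true_or, false_and] at h1 h2 ⊢ <;> omega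
  · have h1 := hx.2.2
    have h2 := hy.2.2
    simp only [Pi.add_apply, Finset.sum_add_distrib]; omega

theorem NF_neg0 {x : GolayPt → ℤ} {C : Finset GolayPt} (hx : NF x 0 C) : NF (-x) 0 C := by
  refine ⟨hx.1, ?_, ?_⟩
  · intro i
    have h1 := hx.2.1 i
    rw [Pi.neg_apply]
    split_ifs at h1 ⊢ <;> omega
  · have h1 := hx.2.2
    simp only [Pi.neg_apply, Finset.sum_neg_distrib]; omega

theorem NF_neg1 {x : GolayPt → ℤ} {C : Finset GolayPt} (hx : NF x 1 C) : NF (-x) 1 Cᶜ := by
  refine ⟨compl_mem hx.1, ?_, ?_⟩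
  · intro i
    have h1 := hx.2.1 i
    rw [Pi.neg_apply]
    by_cases h : i ∈ C <;> simp only [h, if_true, if_false, Finset.mem_compl, not_true_eq_false, not_false_eq_true] at h1 ⊢ <;> omega
  · have h1 := hx.2.2
    simp only [Pi.neg_apply, Finset.sum_neg_distrib]; omega

/-- the lattice -/
def LL : AddSubgroup (GolayPt → ℤ) where
  carrier := leechSet
  zero_mem' := leechSet_iff.mpr ⟨∅, Or.inl ⟨empty_mem, by simp, by simp⟩⟩
  add_mem' := by
    intro x y hx hy
    obtain ⟨C, hx | hx⟩ := leechSet_iff.mp hx <;> obtain ⟨D, hy | hy⟩ := leechSet_iff.mp hy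
    · exact leechSet_iff.mpr ⟨_, Or.inl (NF_add00 hx hy)⟩
    · exact leechSet_iff.mpr ⟨_, Or.inr (NF_add01 hx hy)⟩
    · rw [add_comm]; exact leechSet_iff.mpr ⟨_, Or.inr (NF_add01 hy hx)⟩
    · exact leechSet_iff.mpr ⟨_, Or.inl (NF_add11 hx hy)⟩
  neg_mem' := by
    intro x hx
    obtain ⟨C, hx | hx⟩ := leechSet_iff.mp hx
    · exact leechSet_iff.mpr ⟨_, Or.inl (NF_neg0 hx)⟩
    · exact leechSet_iff.mpr ⟨_, Or.inr (NF_neg1 hx)⟩

theorem coe_LL : (LL : Set (GolayPt → ℤ)) = leechSet := rfl

theorem leech_eq : leechLattice = LL := by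
  rw [leechLattice, ← coe_LL, AddSubgroup.closure_eq]

theorem mem_leech {x : GolayPt → ℤ} : x ∈ leechLattice ↔ ∃ C, NF x 0 C ∨ NF x 1 C := by
  rw [leech_eq]; exact leechSet_iff

theorem mem_leech0 {x : GolayPt → ℤ} {C : Finset GolayPt} (h : NF x 0 C) : x ∈ leechLattice := mem_leech.mpr ⟨C, Or.inl h⟩
theorem mem_leech1 {x : GolayPt → ℤ} {C : Finset GolayPt} (h : NF x 1 C) : x ∈ leechLattice := mem_leech.mpr ⟨C, Or.inr h⟩

theorem card_GC {C : Finset GolayPt} (h : C ∈ GC) : C.card % 4 = 0 := by
  rcases supports_card h with h | h | h | h | h <;> omega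

/-! ### evenness -/

theorem sum_split {C : Finset GolayPt} (f : GolayPt → ℤ) : ∑ i, f i = ∑ i ∈ C, f i + ∑ i ∈ Cᶜ, f i := (Finset.sum_add_sum_compl C f).symm

theorem card_compl_int (C : Finset GolayPt) : ((Cᶜ.card : ℕ) : ℤ) = 24 - C.card := by
  have h1 := Finset.card_compl_add_card C
  have h2 : Fintype.card GolayPt = 24 := by decide
  omega

theorem even_norm {x : GolayPt → ℤ} (hx : x ∈ leechLattice) : (16 : ℤ) ∣ sqNorm x := by
  obtain ⟨C, hx | hx⟩ := mem_leech.mp hx
  · -- x = 2 y
    have hev : ∀ i, ∃ y, x i = 2 * y := by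
      intro i
      have := hx.2.1 i
      exact ⟨x i / 2, by split_ifs at this <;> omega⟩
    choose y hy using hev
    have h1 : ∀ i, ∃ t : ℤ, y i * y i = (if i ∈ C then 1 else 0) + 4 * t := by
      intro i
      have h2 := hx.2.1 i
      rw [hy] at h2
      split_ifs at h2 ⊢ with h
      · obtain ⟨k, hk⟩ : ∃ k, y i = 2 * k + 1 := ⟨y i / 2, by omega⟩
        exact ⟨k * k + k, by rw [hk]; ring⟩
      · obtain ⟨k, hk⟩ : ∃ k, y i = 2 * k := ⟨y i / 2, by omega⟩
        exact ⟨k * k, by rw [hk]; ring⟩
    choose t ht using h1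
    have h3 : sqNorm x = 4 * ∑ i, y i * y i := by
      rw [sqNorm, Finset.mul_sum]; apply Finset.sum_congr rfl; intro i _; rw [hy]; ring
    have h4 : ∑ i, y i * y i = C.card + 4 * ∑ i, t i := by
      rw [Finset.sum_congr rfl (fun i _ => ht i), Finset.sum_add_distrib, Finset.sum_boole, Finset.mul_sum]
      congr 2
      simp
    have h5 := card_GC hx.1
    rw [h3, h4]
    obtain ⟨c, hc⟩ : ∃ c, C.card = 4 * c := ⟨C.card / 4, by omega⟩
    rw [hc]
    exact ⟨c + ∑ i, t i, by push_cast; ring⟩
  · -- odd
    have h1 : ∀ i, ∃ k : ℤ, x i = (if i ∈ C then -1 else 1) + 4 * k := by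
      intro i
      have h2 := hx.2.1 i
      split_ifs at h2 ⊢ with h
      · exact ⟨(x i + 1) / 4, by omega⟩
      · exact ⟨(x i - 1) / 4, by omega⟩
    choose k hk using h1
    have hcc := card_compl_int C
    have h2 : ∑ i, x i = 24 - 2 * C.card + 4 * ∑ i, k i := by
      rw [Finset.sum_congr rfl (fun i _ => hk i), Finset.sum_add_distrib, ← Finset.mul_sum, sum_split (C := C)]
      have e1 : ∑ i ∈ C, (if i ∈ C then (-1 : ℤ) else 1) = - C.card := by
        rw [Finset.sum_congr rfl (g := fun _ => (-1 : ℤ)) (fun i hi => if_pos hi)]; simp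
      have e2 : ∑ i ∈ Cᶜ, (if i ∈ C then (-1 : ℤ) else 1) = Cᶜ.card := by
        rw [Finset.sum_congr rfl (g := fun _ => (1 : ℤ)) (fun i hi => if_neg (Finset.mem_compl.mp hi))]; simp
      rw [e1, e2, hcc]; ring
    have h3 : ∀ i, ∃ u : ℤ, x i ^ 2 = 1 + 8 * k i + 16 * u := by
      intro i
      rw [hk i]
      split_ifs
      · refine ⟨k i ^ 2 - k i, by ring⟩
      · exact ⟨k i ^ 2, by ring⟩
    choose u hu using h3
    have h4 : sqNorm x = 24 + 8 * ∑ i, k i + 16 * ∑ i, u i := by
      rw [sqNorm, Finset.sum_congr rfl (fun i _ => hu i), Finset.sum_add_distrib, Finset.sum_add_distrib, ← Finset.mul_sum, ← Finset.mul_sum]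
      have : Fintype.card GolayPt = 24 := by decide
      simp [this]
    have h5 := hx.2.2
    have h6 := card_GC hx.1
    rw [h2] at h5
    rw [h4]
    have h7 : (∑ i, k i) % 2 = 1 := by omega
    exact ⟨(24 + 8 * ∑ i, k i + 16 * ∑ i, u i) / 16, by omega⟩

/-! ### minimum -/

theorem sq_ge_one {a : ℤ} (h : a ≠ 0) : 1 ≤ a ^ 2 := by
  have := Int.one_le_abs h
  nlinarith [abs_nonneg a, sq_abs a]

theorem min_norm {x : GolayPt → ℤ} (hx : x ∈ leechLattice) (h0 : x ≠ 0) : 32 ≤ sqNorm x := by
  have h16 := even_norm hx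
  obtain ⟨q, hq⟩ := h16
  have hnn : 0 ≤ sqNorm x := Finset.sum_nonneg (fun i _ => sq_nonneg _)
  obtain ⟨C, hx | hx⟩ := mem_leech.mp hx
  · by_cases hC : C = ∅
    · -- multiples of 4
      have h4 : ∀ i, ∃ z, x i = 4 * z := by
        intro i
        have := hx.2.1 i
        rw [hC] at this
        simp at this
        exact ⟨x i / 4, by omega⟩
      choose z hz using h4
      have hs : (∑ i, z i) % 2 = 0 := by
        have := hx.2.2
        rw [Finset.sum_congr rfl (fun i _ => hz i), ← Finset.mul_sum] at this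
        omega
      have hn : sqNorm x = 16 * ∑ i, z i ^ 2 := by
        rw [sqNorm, Finset.mul_sum]; apply Finset.sum_congr rfl; intro i _; rw [hz]; ring
      have hpar : ∀ i, ∃ t : ℤ, z i ^ 2 = z i + 2 * t := by
        intro i
        rcases Int.even_or_odd (z i) with ⟨k, hk⟩ | ⟨k, hk⟩
        · exact ⟨2 * k ^ 2 - k, by rw [hk]; ring⟩
        · exact ⟨2 * k ^ 2 + k, by rw [hk]; ring⟩
      choose t ht using hpar
      have hz2 : ∑ i, z i ^ 2 = ∑ i, z i + 2 * ∑ i, t i := by
        rw [Finset.sum_congr rfl (fun i _ => ht i), Finset.sum_add_distrib, ← Finset.mul_sum]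
      have hpos : 0 < ∑ i, z i ^ 2 := by
        obtain ⟨i, hi⟩ : ∃ i, x i ≠ 0 := by
          by_contra h; push Not at h; exact h0 (funext h)
        have hzi : z i ≠ 0 := by
          intro h; rw [hz, h] at hi; exact hi rfl
        apply Finset.sum_pos' (fun j _ => sq_nonneg _)
        exact ⟨i, Finset.mem_univ _, by have := sq_ge_one hzi; omega⟩
      omega
    · have hc8 : 8 ≤ C.card := by
        rcases supports_card hx.1 with h | h | h | h | h
        · exact absurd (Finset.card_eq_zero.mp h) hC
        all_goals omega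
      have h1 : ∀ i ∈ C, 4 ≤ x i ^ 2 := by
        intro i hi
        have := hx.2.1 i
        rw [if_pos hi] at this
        obtain ⟨k, hk⟩ : ∃ k, x i = 2 * k := ⟨x i / 2, by omega⟩
        have hk0 : k ≠ 0 := by rintro rfl; omega
        have := sq_ge_one hk0
        rw [hk]; nlinarith
      have h2 : ∑ i ∈ C, (4 : ℤ) ≤ ∑ i ∈ C, x i ^ 2 := Finset.sum_le_sum h1
      have h3 : ∑ i ∈ C, x i ^ 2 ≤ sqNorm x := Finset.sum_le_univ_sum_of_nonneg (fun i => sq_nonneg _)
      rw [Finset.sum_const] at h2
      simp only [nsmul_eq_mul] at h2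
      have : (8 : ℤ) ≤ C.card := by exact_mod_cast hc8
      linarith
  · have h1 : ∀ i, 1 ≤ x i ^ 2 := by
      intro i
      apply sq_ge_one
      have := hx.2.1 i
      intro h
      rw [h] at this
      split_ifs at this <;> omega
    have h2 : ∑ i : GolayPt, (1 : ℤ) ≤ sqNorm x := Finset.sum_le_sum (fun i _ => h1 i)
    have h3 : Fintype.card GolayPt = 24 := by decide
    simp only [Finset.sum_const, Finset.card_univ, h3] at h2
    norm_num at h2
    omega

/-! ### symmetries -/

theorem perm_mem {σ : Equiv.Perm GolayPt} (hσ : σ ∈ M24) {x : GolayPt → ℤ} (hx : x ∈ leechLattice) : (fun i => x (σ i)) ∈ leechLattice := by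
  obtain ⟨C, hx⟩ := mem_leech.mp hx
  have hC' : ∀ C ∈ GC, σ⁻¹ • C ∈ GC := fun C hC => (M24_smul_supports (M24.inv_mem hσ)).mpr hC
  have key : ∀ m, NF x m C → NF (fun i => x (σ i)) m (σ⁻¹ • C) := by
    intro m h
    refine ⟨hC' C h.1, ?_, ?_⟩
    · intro i
      rw [h.2.1 (σ i)]
      have : i ∈ σ⁻¹ • C ↔ σ i ∈ C := by rw [Finset.mem_inv_smul_finset_iff]; rfl
      simp only [this]
    · rw [← h.2.2, Equiv.sum_comp σ x]
  rcases hx with hx | hx
  · exact mem_leech0 (key 0 hx)
  · exact mem_leech1 (key 1 hx)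

theorem even_inter_GC {s t : Finset GolayPt} (hs : s ∈ GC) (ht : t ∈ GC) : (s ∩ t).card % 2 = 0 := by
  have h1 := supports_card hs
  have h2 := supports_card ht
  have h3 := supports_card (symmDiff_mem hs ht)
  have h4 := card_symmDiff' s t
  omega

theorem sign_mem {c : Finset GolayPt} (hc : c ∈ GC) {x : GolayPt → ℤ} (hx : x ∈ leechLattice) :
    (fun i => if i ∈ c then -x i else x i) ∈ leechLattice := by
  have hsum : ∑ i, (if i ∈ c then -x i else x i) = ∑ i, x i - 2 * ∑ i ∈ c, x i := by
    rw [sum_split (C := c), sum_split (C := c) (f := x)]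
    have e1 : ∑ i ∈ c, (if i ∈ c then -x i else x i) = - ∑ i ∈ c, x i := by
      rw [← Finset.sum_neg_distrib]; apply Finset.sum_congr rfl; intro i hi; rw [if_pos hi]
    have e2 : ∑ i ∈ cᶜ, (if i ∈ c then -x i else x i) = ∑ i ∈ cᶜ, x i := by
      apply Finset.sum_congr rfl; intro i hi; rw [if_neg (Finset.mem_compl.mp hi)]
    rw [e1, e2]; ring
  obtain ⟨C, hx | hx⟩ := mem_leech.mp hx
  · apply mem_leech0 (C := C)
    refine ⟨hx.1, ?_, ?_⟩
    · intro i
      have h1 := hx.2.1 i
      change (if i ∈ c then -x i else x i) % 4 = _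
      split_ifs at h1 ⊢ <;> omega
    · rw [hsum]
      have h1 : ∃ t : ℤ, ∑ i ∈ c, x i = 2 * (c ∩ C).card + 4 * t := by
        have h2 : ∀ i, ∃ t : ℤ, x i = 2 * (if i ∈ C then 1 else 0) + 4 * t := by
          intro i
          have h1 := hx.2.1 i
          split_ifs at h1 ⊢
          · exact ⟨(x i - 2) / 4, by omega⟩
          · exact ⟨x i / 4, by omega⟩
        choose t ht using h2
        refine ⟨∑ i ∈ c, t i, ?_⟩
        rw [Finset.sum_congr rfl (fun i _ => ht i), Finset.sum_add_distrib, ← Finset.mul_sum, ← Finset.mul_sum, Finset.sum_boole,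
          Finset.filter_mem_eq_inter]
        try simp
      obtain ⟨t, ht⟩ := h1
      have h2 := even_inter_GC hc hx.1
      have h3 := hx.2.2
      rw [ht]; omega
  · apply mem_leech1 (C := symmDiff C c)
    refine ⟨symmDiff_mem hx.1 hc, ?_, ?_⟩
    · intro i
      have h1 := hx.2.1 i
      by_cases h3 : i ∈ C <;> by_cases h4 : i ∈ c <;>
      simp only [h3, h4, if_true, if_false, Finset.mem_symmDiff, not_true_eq_false, not_false_eq_true, and_self, and_false, or_self, or_false, or_true, true_or, false_and] at h1 ⊢ <;> omega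
    · rw [hsum]
      have h1 : ∃ t : ℤ, ∑ i ∈ c, x i = c.card + 2 * (c ∩ C).card + 4 * t := by
        have h2 : ∀ i, ∃ t : ℤ, x i = 1 + 2 * (if i ∈ C then 1 else 0) + 4 * t := by
          intro i
          have h1 := hx.2.1 i
          split_ifs at h1 ⊢
          · exact ⟨(x i - 3) / 4, by omega⟩
          · exact ⟨(x i - 1) / 4, by omega⟩
        choose t ht using h2
        refine ⟨∑ i ∈ c, t i, ?_⟩
        rw [Finset.sum_congr rfl (fun i _ => ht i), Finset.sum_add_distrib, Finset.sum_add_distrib, ← Finset.mul_sum, ← Finset.mul_sum, Finset.sum_boole,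
          Finset.filter_mem_eq_inter]
        try simp
      obtain ⟨t, ht⟩ := h1
      have h2 := even_inter_GC hc hx.1
      have h4 := card_GC hc
      have h3 := hx.2.2
      rw [ht]; omega

end CfsgLib.Leech
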