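import Mathlib
import Cfsg.Agent.Lib.Leech1
import Cfsg.Agent.S0358

/-!
The Leech lattice: index.
-/

set_option autoImplicit false

namespace CfsgLib.Leech

open CfsgLib.Golay Finset Cfsg
open scoped Pointwise

theorem relIndex_of_hom {G : Type*} [AddCommGroup G] {A B : AddSubgroup G} {M : Type*} [AddGroup M] (f : A →+ M)
    (hf : Function.Surjective f) (hk : ∀ x : A, f x = 0 ↔ (x : G) ∈ B) : B.relIndex A = Nat.card M := by
  have h1 : B.addSubgroupOf A = f.ker := by
    ext x
    rw [AddSubgroup.mem_addSubgroupOf, AddMonoidHom.mem_ker, hk]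
  rw [AddSubgroup.relIndex, h1, AddSubgroup.index_ker, AddMonoidHom.range_eq_top.mpr hf]
  exact Nat.card_congr AddSubgroup.topEquiv.toEquiv

def A1 : AddSubgroup (GolayPt → ℤ) where
  carrier := {x | ∀ i, x i % 2 = 0}
  zero_mem' := by intro i; rfl
  add_mem' := by intro x y hx hy i; have := hx i; have := hy i; simp only [Pi.add_apply]; omega
  neg_mem' := by intro x hx i; have := hx i; simp only [Pi.neg_apply]; omega

theorem mem_A1 {x : GolayPt → ℤ} : x ∈ A1 ↔ ∀ i, x i % 2 = 0 := Iff.rfl

/-- halves modulo 2 -/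
def half (x : GolayPt → ℤ) : GolayPt → ZMod 2 := fun i => ((x i / 2 : ℤ) : ZMod 2)

theorem half_add {x y : GolayPt → ℤ} (hx : x ∈ A1) : half (x + y) = half x + half y := by
  funext i
  simp only [half, Pi.add_apply]
  rw [Int.add_ediv_of_dvd_left (Int.dvd_of_emod_eq_zero (hx i))]
  push_cast; rfl

theorem support_half {x : GolayPt → ℤ} (hx : x ∈ A1) : support₂ (half x) = univ.filter (fun i => x i % 4 = 2) := by
  ext i
  rw [mem_support₂, Finset.mem_filter]
  simp only [Finset.mem_univ, true_and, half]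
  have h1 := hx i
  rw [ne_eq, ZMod.intCast_zmod_eq_zero_iff_dvd]
  push_cast
  omega

def A2 : AddSubgroup (GolayPt → ℤ) where
  carrier := {x | x ∈ A1 ∧ half x ∈ golayCode}
  zero_mem' := by
    have h : half 0 = 0 := by funext i; simp [half]
    exact ⟨A1.zero_mem, by rw [h]; exact golayCode.zero_mem⟩
  add_mem' := by
    intro x y hx hy
    exact ⟨A1.add_mem hx.1 hy.1, by rw [half_add hx.1]; exact golayCode.add_mem hx.2 hy.2⟩
  neg_mem' := by
    intro x hx
    refine ⟨A1.neg_mem hx.1, ?_⟩
    have h1 : half (-x) + half x = 0 := by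
      rw [← half_add (A1.neg_mem hx.1), neg_add_cancel]; funext i; simp [half]
    rw [eq_neg_of_add_eq_zero_left h1]; exact golayCode.neg_mem hx.2

theorem mem_A2 {x : GolayPt → ℤ} : x ∈ A2 ↔ x ∈ A1 ∧ half x ∈ golayCode := Iff.rfl

theorem sum_A2 {x : GolayPt → ℤ} (hx : x ∈ A2) : (∑ i, x i) % 4 = 0 := by
  have h1 : ∀ i, ∃ t : ℤ, x i = 2 * (if i ∈ support₂ (half x) then 1 else 0) + 4 * t := by
    intro i
    have h2 := hx.1 i
    rw [support_half hx.1]
    by_cases h : x i % 4 = 2
    · rw [if_pos (by simp [h])]; exact ⟨(x i - 2) / 4, by omega⟩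
    · rw [if_neg (by simp [h])]; exact ⟨x i / 4, by omega⟩
  choose t ht using h1
  rw [Finset.sum_congr rfl (fun i _ => ht i), Finset.sum_add_distrib, ← Finset.mul_sum, ← Finset.mul_sum, Finset.sum_boole,
    Finset.filter_mem_eq_inter, Finset.univ_inter]
  have h3 := card_GC (C := support₂ (half x)) (mem_iff_supports.mp hx.2)
  omega

def A3 : AddSubgroup (GolayPt → ℤ) where
  carrier := {x | x ∈ A2 ∧ (∑ i, x i) % 8 = 0}
  zero_mem' := ⟨A2.zero_mem, by simp⟩
  add_mem' := by
    intro x y hx hy
    refine ⟨A2.add_mem hx.1 hy.1, ?_⟩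
    have h1 := hx.2
    have h2 := hy.2
    simp only [Pi.add_apply, Finset.sum_add_distrib]; omega
  neg_mem' := by
    intro x hx
    refine ⟨A2.neg_mem hx.1, ?_⟩
    have h1 := hx.2
    simp only [Pi.neg_apply, Finset.sum_neg_distrib]; omega

theorem mem_A3 {x : GolayPt → ℤ} : x ∈ A3 ↔ x ∈ A2 ∧ (∑ i, x i) % 8 = 0 := Iff.rfl

theorem mem_A3_iff {x : GolayPt → ℤ} : x ∈ A3 ↔ ∃ C, NF x 0 C := by
  constructor
  · rintro ⟨h1, h2⟩
    refine ⟨support₂ (half x), mem_iff_supports.mp h1.2, ?_, by omega⟩
    intro i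
    have h3 := h1.1 i
    rw [support_half h1.1]
    by_cases h : x i % 4 = 2
    · rw [if_pos (by simp [h])]; omega
    · rw [if_neg (by simp [h])]; omega
  · rintro ⟨C, hC, h1, h2⟩
    have hA1 : x ∈ A1 := by
      intro i
      have := h1 i
      split_ifs at this <;> omega
    refine ⟨⟨hA1, ?_⟩, by omega⟩
    rw [mem_iff_supports, support_half hA1]
    have : (univ.filter fun i => x i % 4 = 2) = C := by
      ext i
      rw [Finset.mem_filter]
      simp only [Finset.mem_univ, true_and]
      have := h1 i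
      by_cases h : i ∈ C
      · rw [if_pos h] at this; simp only [h, iff_true]; omega
      · rw [if_neg h] at this; simp only [h, iff_false]; omega
    rw [this]; exact hC

theorem index_A1 : A1.index = 2 ^ 24 := by
  let f : (GolayPt → ℤ) →+ (GolayPt → ZMod 2) :=
    { toFun := fun x i => (x i : ZMod 2)
      map_zero' := by funext i; simp
      map_add' := by intro x y; funext i; simp }
  have h1 : A1 = f.ker := by
    ext x
    rw [mem_A1, AddMonoidHom.mem_ker]
    constructor
    · intro h; funext i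
      change (x i : ZMod 2) = 0
      rw [ZMod.intCast_zmod_eq_zero_iff_dvd]; exact Int.dvd_of_emod_eq_zero (h i)
    · intro h i
      have := congrFun h i
      change (x i : ZMod 2) = 0 at this
      rw [ZMod.intCast_zmod_eq_zero_iff_dvd] at this
      push_cast at this; omega
  have hs : Function.Surjective f := by
    intro w
    refine ⟨fun i => ((w i).val : ℤ), ?_⟩
    funext i
    change (((w i).val : ℤ) : ZMod 2) = w i
    push_cast
    exact ZMod.natCast_zmod_val _
  rw [h1, AddSubgroup.index_ker, AddMonoidHom.range_eq_top.mpr hs, Nat.card_congr AddSubgroup.topEquiv.toEquiv, Nat.card_fun]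
  rw [Nat.card_zmod, Nat.card_eq_fintype_card]
  decide

theorem card_quot : Nat.card ((GolayPt → ZMod 2) ⧸ golayCode) = 2 ^ 12 := by
  have hdim : Module.finrank (ZMod 2) golayCode = 12 := Cfsg.Agent.S0358.result
  have h1 := Module.natCard_eq_pow_finrank (K := ZMod 2) (V := (GolayPt → ZMod 2) ⧸ golayCode)
  have h2 := Submodule.finrank_quotient_add_finrank golayCode
  rw [hdim, Module.finrank_pi] at h2
  have h4 : Fintype.card GolayPt = 24 := by decide
  have h3 : Module.finrank (ZMod 2) ((GolayPt → ZMod 2) ⧸ golayCode) = 12 := by omega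
  rw [h3, Nat.card_zmod] at h1
  exact h1

theorem relIndex_A2 : A2.relIndex A1 = 2 ^ 12 := by
  rw [← card_quot]
  let f : A1 →+ ((GolayPt → ZMod 2) ⧸ golayCode) :=
    { toFun := fun x => Submodule.Quotient.mk (half x)
      map_zero' := by
        have : half ((0 : A1) : GolayPt → ℤ) = 0 := by funext i; simp [half]
        rw [this]; rfl
      map_add' := by intro x y; rw [AddSubgroup.coe_add, half_add x.2]; rfl }
  apply relIndex_of_hom f
  · intro w
    obtain ⟨w, rfl⟩ := Submodule.Quotient.mk_surjective _ w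
    refine ⟨⟨fun i => 2 * ((w i).val : ℤ), fun i => by simp⟩, ?_⟩
    change Submodule.Quotient.mk (half fun i => 2 * ((w i).val : ℤ)) = _
    congr 1
    funext i
    simp only [half]
    rw [Int.mul_ediv_cancel_left _ (by norm_num)]
    push_cast
    exact ZMod.natCast_zmod_val _
  · intro x
    rw [mem_A2]
    change Submodule.Quotient.mk (half x) = 0 ↔ _
    rw [Submodule.Quotient.mk_eq_zero]
    exact ⟨fun h => ⟨x.2, h⟩, fun h => h.2⟩

theorem relIndex_A3 : A3.relIndex A2 = 2 := by
  have h2 : Nat.card (ZMod 2) = 2 := Nat.card_zmod 2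
  rw [← h2]
  let f : A2 →+ ZMod 2 :=
    { toFun := fun x => (((∑ i, (x : GolayPt → ℤ) i) / 4 : ℤ) : ZMod 2)
      map_zero' := by simp
      map_add' := by
        intro x y
        rw [AddSubgroup.coe_add]
        simp only [Pi.add_apply, Finset.sum_add_distrib]
        rw [Int.add_ediv_of_dvd_left (Int.dvd_of_emod_eq_zero (sum_A2 x.2))]
        push_cast; rfl }
  apply relIndex_of_hom f
  · intro w
    refine ⟨⟨Pi.single (pt 0) (4 * (w.val : ℤ)), ?_⟩, ?_⟩
    · refine ⟨?_, ?_⟩
      · intro i
        by_cases h : i = pt 0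
        · subst h; rw [Pi.single_eq_same]; omega
        · rw [Pi.single_eq_of_ne h]; rfl
      · have : half (Pi.single (pt 0) (4 * (w.val : ℤ))) = 0 := by
          funext i
          simp only [half]
          by_cases h : i = pt 0
          · subst h; rw [Pi.single_eq_same, Pi.zero_apply, ZMod.intCast_zmod_eq_zero_iff_dvd]; push_cast; omega
          · rw [Pi.single_eq_of_ne h]; simp
        rw [this]; exact golayCode.zero_mem
    · change (((∑ i, (Pi.single (pt 0) (4 * (w.val : ℤ)) : GolayPt → ℤ) i) / 4 : ℤ) : ZMod 2) = w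
      rw [Finset.sum_pi_single' , if_pos (Finset.mem_univ _), Int.mul_ediv_cancel_left _ (by norm_num)]
      push_cast
      exact ZMod.natCast_zmod_val _
  · intro x
    rw [mem_A3]
    change (((∑ i, (x : GolayPt → ℤ) i) / 4 : ℤ) : ZMod 2) = 0 ↔ _
    rw [ZMod.intCast_zmod_eq_zero_iff_dvd]
    have := sum_A2 x.2
    push_cast
    constructor
    · intro h; exact ⟨x.2, by omega⟩
    · intro h; have := h.2; omega

/-- the vector (−3, 1^23) -/
def vo : GolayPt → ℤ := fun i => if i = pt 0 then -3 else 1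

theorem vo_mem : vo ∈ leechLattice := by
  apply mem_leech1 (C := ∅)
  refine ⟨empty_mem, ?_, ?_⟩
  · intro i
    simp only [vo, Finset.notMem_empty, if_false]
    split_ifs <;> rfl
  · have : ∑ i, vo i = 20 := by decide +kernel
    rw [this]; rfl

theorem relIndex_A3L : A3.relIndex leechLattice = 2 := by
  have h2 : Nat.card (ZMod 2) = 2 := Nat.card_zmod 2
  rw [← h2]
  let f : leechLattice →+ ZMod 2 :=
    { toFun := fun x => ((x : GolayPt → ℤ) (pt 0) : ZMod 2)
      map_zero' := by simp
      map_add' := by intro x y; rw [AddSubgroup.coe_add, Pi.add_apply]; push_cast; rfl }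
  apply relIndex_of_hom f
  · intro w
    rcases (by decide : ∀ w : ZMod 2, w = 0 ∨ w = 1) w with rfl | rfl
    · exact ⟨0, map_zero f⟩
    · refine ⟨⟨vo, vo_mem⟩, ?_⟩
      change ((vo (pt 0) : ℤ) : ZMod 2) = 1
      have : vo (pt 0) = -3 := by simp [vo]
      rw [this]; decide
  · intro x
    rw [mem_A3_iff]
    change ((x : GolayPt → ℤ) (pt 0) : ZMod 2) = 0 ↔ _
    rw [ZMod.intCast_zmod_eq_zero_iff_dvd]
    push_cast
    obtain ⟨C, h | h⟩ := mem_leech.mp x.2
    · refine ⟨fun _ => ⟨C, h⟩, fun _ => ?_⟩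
      have := h.2.1 (pt 0)
      split_ifs at this <;> omega
    · have h3 := h.2.1 (pt 0)
      refine ⟨fun h4 => ?_, ?_⟩
      · exfalso; split_ifs at h3 <;> omega
      · rintro ⟨D, hD⟩
        exfalso
        have h5 := hD.2.1 (pt 0)
        split_ifs at h3 h5 <;> omega

theorem A2_le : A2 ≤ A1 := fun _ h => h.1
theorem A3_le : A3 ≤ A2 := fun _ h => h.1
theorem A3_le_L : A3 ≤ leechLattice := by
  intro x hx
  obtain ⟨C, h⟩ := mem_A3_iff.mp hx
  exact mem_leech0 h

theorem index_leech : leechLattice.index = 2 ^ 36 := by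
  have h1 := AddSubgroup.relIndex_mul_index A3_le_L
  have h2 := AddSubgroup.relIndex_mul_index A3_le
  have h3 := AddSubgroup.relIndex_mul_index A2_le
  rw [relIndex_A3L] at h1
  rw [relIndex_A3] at h2
  rw [relIndex_A2, index_A1] at h3
  omega

theorem dot_dvd {x y : GolayPt → ℤ} (hx : x ∈ leechLattice) (hy : y ∈ leechLattice) : (8 : ℤ) ∣ dotInt x y := by
  have h1 := even_norm (add_mem hx hy)
  have h2 := even_norm hx
  have h3 := even_norm hy
  have h4 : sqNorm (x + y) = sqNorm x + sqNorm y + 2 * dotInt x y := by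
    simp only [sqNorm, dotInt, Pi.add_apply]
    rw [Finset.mul_sum, ← Finset.sum_add_distrib, ← Finset.sum_add_distrib]
    apply Finset.sum_congr rfl; intro i _; ring
  omega

end CfsgLib.Leech
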