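import Mathlib
import Cfsg.Agent.Lib.Leech2

/-!
The Leech lattice: counting vectors.
-/

set_option autoImplicit false

namespace CfsgLib.Leech

open CfsgLib.Golay Finset Cfsg
open scoped Pointwise

/-! ### counting by digits -/

theorem digit_count {S : Type*} (T : Finset S) (f : S → ℕ) (X N : ℕ) (hX : T.card < X) :
    (T.filter (fun x => f x = N)).card = ((∑ x ∈ T, X ^ (f x)) / X ^ N) % X := by
  classical
  have hX0 : 0 < X := by omega
  have hA : ∀ N, ∑ x ∈ T.filter (fun x => f x < N), X ^ (f x) < X ^ N := by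
    intro N
    induction N with
    | zero => simp
    | succ n ih =>
      have e : T.filter (fun x => f x < n + 1) = T.filter (fun x => f x < n) ∪ T.filter (fun x => f x = n) := by
        ext x; simp only [Finset.mem_filter, Finset.mem_union, Nat.lt_succ_iff_lt_or_eq]; tauto
      have hd : Disjoint (T.filter (fun x => f x < n)) (T.filter (fun x => f x = n)) := by
        rw [Finset.disjoint_left]; intro x h1 h2
        rw [Finset.mem_filter] at h1 h2; omega
      rw [e, Finset.sum_union hd]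
      have h1 : ∑ x ∈ T.filter (fun x => f x = n), X ^ (f x) = (T.filter (fun x => f x = n)).card * X ^ n := by
        rw [Finset.sum_congr rfl (g := fun _ => X ^ n), Finset.sum_const, smul_eq_mul]
        intro x hx; rw [Finset.mem_filter] at hx; rw [hx.2]
      have h2 : (T.filter (fun x => f x = n)).card ≤ X - 1 := by
        have := Finset.card_filter_le T (fun x => f x = n); omega
      have h3 := Nat.mul_le_mul_right (X ^ n) h2
      have h4 : (X - 1) * X ^ n + X ^ n = X ^ (n + 1) := by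
        obtain ⟨k, rfl⟩ : ∃ k, X = k + 1 := ⟨X - 1, by omega⟩
        rw [pow_succ]
        simp only [Nat.add_sub_cancel]; ring
      rw [h1]; omega
  have e : T = (T.filter (fun x => f x < N) ∪ T.filter (fun x => f x = N)) ∪ T.filter (fun x => N < f x) := by
    ext x; simp only [Finset.mem_filter, Finset.mem_union]
    have := lt_trichotomy (f x) N
    tauto
  have hd1 : Disjoint (T.filter (fun x => f x < N)) (T.filter (fun x => f x = N)) := by
    rw [Finset.disjoint_left]; intro x h1 h2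
    rw [Finset.mem_filter] at h1 h2; omega
  have hd2 : Disjoint (T.filter (fun x => f x < N) ∪ T.filter (fun x => f x = N)) (T.filter (fun x => N < f x)) := by
    rw [Finset.disjoint_left]; intro x h1 h2
    rw [Finset.mem_union, Finset.mem_filter, Finset.mem_filter] at h1
    rw [Finset.mem_filter] at h2
    rcases h1 with h1 | h1 <;> omega
  have h1 : ∑ x ∈ T.filter (fun x => f x = N), X ^ (f x) = (T.filter (fun x => f x = N)).card * X ^ N := by
    rw [Finset.sum_congr rfl (g := fun _ => X ^ N), Finset.sum_const, smul_eq_mul]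
    intro x hx; rw [Finset.mem_filter] at hx; rw [hx.2]
  have h2 : ∃ B, ∑ x ∈ T.filter (fun x => N < f x), X ^ (f x) = X ^ (N + 1) * B := by
    refine ⟨∑ x ∈ T.filter (fun x => N < f x), X ^ (f x - (N + 1)), ?_⟩
    rw [Finset.mul_sum]
    apply Finset.sum_congr rfl
    intro x hx
    rw [Finset.mem_filter] at hx
    rw [← pow_add]; congr 1; omega
  obtain ⟨B, hB⟩ := h2
  have h3 : ∑ x ∈ T, X ^ (f x) = ∑ x ∈ T.filter (fun x => f x < N), X ^ (f x) + X ^ N * ((T.filter (fun x => f x = N)).card + X * B) := by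
    conv_lhs => rw [e]
    rw [Finset.sum_union hd2, Finset.sum_union hd1, h1, hB, pow_succ]; ring
  rw [h3, Nat.add_mul_div_left _ _ (pow_pos hX0 N), Nat.div_eq_of_lt (hA N), zero_add, Nat.add_mul_mod_self_left, Nat.mod_eq_of_lt]
  have := Finset.card_filter_le T (fun x => f x = N); omega

/-- norm as a natural number -/
def nn (x : GolayPt → ℤ) : ℕ := ∑ i, (x i).natAbs ^ 2

theorem sqNorm_eq (x : GolayPt → ℤ) : sqNorm x = (nn x : ℤ) := by
  simp only [sqNorm, nn]
  push_cast
  apply Finset.sum_congr rfl; intro i _; rw [sq_abs]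

/-- vectors with prescribed entry sets and norm -/
def pat (V : GolayPt → Finset ℤ) (N : ℕ) : Finset (GolayPt → ℤ) := (Fintype.piFinset V).filter (fun x => nn x = N)

theorem card_pat (V : GolayPt → Finset ℤ) (N X : ℕ) (hX : (Fintype.piFinset V).card < X) :
    (pat V N).card = ((∏ i, ∑ v ∈ V i, X ^ (v.natAbs ^ 2)) / X ^ N) % X := by
  have key : ∑ x ∈ Fintype.piFinset V, X ^ nn x = ∏ i, ∑ v ∈ V i, X ^ (v.natAbs ^ 2) := by
    rw [Finset.prod_univ_sum]
    apply Finset.sum_congr rfl
    intro x _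
    rw [nn, Finset.prod_pow_eq_pow_sum]
  rw [pat, digit_count _ nn X N hX, key]

/-- two-set patterns -/
def two (C : Finset GolayPt) (U W : Finset ℤ) : GolayPt → Finset ℤ := fun i => if i ∈ C then U else W

theorem card_univ_G : (univ : Finset GolayPt).card = 24 := by decide

theorem card_two (C : Finset GolayPt) (U W : Finset ℤ) (N X a b : ℕ) (hX : U.card ^ C.card * W.card ^ (24 - C.card) < X)
    (ha : ∑ v ∈ U, X ^ (v.natAbs ^ 2) = a) (hb : ∑ v ∈ W, X ^ (v.natAbs ^ 2) = b) :
    (pat (two C U W) N).card = ((a ^ C.card * b ^ (24 - C.card)) / X ^ N) % X := by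
  have hc : Cᶜ.card = 24 - C.card := by rw [Finset.card_compl]; congr 1
  have key : ∀ (f : Finset ℤ → ℕ), ∏ i, f (two C U W i) = f U ^ C.card * f W ^ (24 - C.card) := by
    intro f
    rw [← Finset.prod_mul_prod_compl C, ← hc, ← Finset.prod_const, ← Finset.prod_const]
    congr 1
    · apply Finset.prod_congr rfl; intro i hi; rw [two, if_pos hi]
    · apply Finset.prod_congr rfl; intro i hi; rw [two, if_neg (Finset.mem_compl.mp hi)]
  rw [card_pat _ N X, key (fun V => ∑ v ∈ V, X ^ (v.natAbs ^ 2)), ha, hb]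
  rw [Fintype.card_piFinset, key (fun V => V.card)]; exact hX

theorem mem_pat_two {C : Finset GolayPt} {U W : Finset ℤ} {N : ℕ} {x : GolayPt → ℤ} :
    x ∈ pat (two C U W) N ↔ (∀ i ∈ C, x i ∈ U) ∧ (∀ i, i ∉ C → x i ∈ W) ∧ sqNorm x = N := by
  rw [pat, Finset.mem_filter, Fintype.mem_piFinset, sqNorm_eq]
  constructor
  · rintro ⟨h1, h2⟩
    refine ⟨fun i hi => ?_, fun i hi => ?_, by rw [h2]⟩
    · have := h1 i; rwa [two, if_pos hi] at this
    · have := h1 i; rwa [two, if_neg hi] at this
  · rintro ⟨h1, h2, h3⟩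
    refine ⟨fun i => ?_, by exact_mod_cast h3⟩
    rw [two]; split_ifs with hi
    · exact h1 i hi
    · exact h2 i hi

/-- entries of vectors of small norm -/
theorem entry_le {x : GolayPt → ℤ} (h : sqNorm x ≤ 64) (i : GolayPt) : -8 ≤ x i ∧ x i ≤ 8 := by
  have h1 : x i ^ 2 ≤ sqNorm x := Finset.single_le_sum (f := fun i => x i ^ 2) (fun i _ => sq_nonneg _) (Finset.mem_univ i)
  constructor <;> nlinarith

/-! ### odd vectors -/

def O1 : Finset ℤ := {1, -3, 5, -7}
def O3 : Finset ℤ := {-1, 3, -5, 7}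

theorem mem_O1 {a : ℤ} (h1 : -8 ≤ a) (h2 : a ≤ 8) : a ∈ O1 ↔ a % 4 = 1 := by
  simp only [O1, Finset.mem_insert, Finset.mem_singleton]; omega
theorem mem_O3 {a : ℤ} (h1 : -8 ≤ a) (h2 : a ≤ 8) : a ∈ O3 ↔ a % 4 = 3 := by
  simp only [O3, Finset.mem_insert, Finset.mem_singleton]; omega
theorem O1_mod {a : ℤ} (h : a ∈ O1) : a % 4 = 1 := by
  simp only [O1, Finset.mem_insert, Finset.mem_singleton] at h; omega
theorem O3_mod {a : ℤ} (h : a ∈ O3) : a % 4 = 3 := by
  simp only [O3, Finset.mem_insert, Finset.mem_singleton] at h; omega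

/-- odd vectors of norm divisible by 16 satisfy the sum condition -/
theorem NF1_of {x : GolayPt → ℤ} {C : Finset GolayPt} (hC : C ∈ GC) (h1 : ∀ i ∈ C, x i % 4 = 3) (h2 : ∀ i, i ∉ C → x i % 4 = 1)
    (h16 : sqNorm x % 16 = 0) : NF x 1 C := by
  have h0 : ∀ i, x i % 4 = (1 + 2 * (if i ∈ C then 1 else 0)) % 4 := by
    intro i
    split_ifs with hi
    · rw [h1 i hi]; rfl
    · rw [h2 i hi]; rfl
  refine ⟨hC, h0, ?_⟩
  have h1 : ∀ i, ∃ k : ℤ, x i = (if i ∈ C then -1 else 1) + 4 * k := by
    intro i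
    have h2 := h0 i
    split_ifs at h2 ⊢ with h
    · exact ⟨(x i + 1) / 4, by omega⟩
    · exact ⟨(x i - 1) / 4, by omega⟩
  choose k hk using h1
  have hcc := card_compl_int C
  have h2 : ∑ i, x i = 24 - 2 * C.card + 4 * ∑ i, k i := by
    rw [Finset.sum_congr rfl (fun i _ => hk i), Finset.sum_add_distrib, ← Finset.mul_sum, sum_split (C := C)]
    have e1 : ∑ i ∈ C, (if i ∈ C then (-1 : ℤ) else 1) = - C.card := by
      rw [Finset.sum_congr rfl (g := fun _ => (-1 : ℤ)) (fun i hi => if_pos hi)]; simp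
    have e2 : ∑ i ∈ Cᶜ, (if i ∈ C then (-1 : ℤ) else 1) = Cᶜ.card := by
      rw [Finset.sum_congr rfl (g := fun _ => (1 : ℤ)) (fun i hi => if_neg (Finset.mem_compl.mp hi))]; simp
    rw [e1, e2, hcc]; ring
  have h3 : ∀ i, ∃ u : ℤ, x i ^ 2 = 1 + 8 * k i + 16 * u := by
    intro i
    rw [hk i]
    split_ifs
    · refine ⟨k i ^ 2 - k i, by ring⟩
    · exact ⟨k i ^ 2, by ring⟩
  choose u hu using h3
  have h4 : sqNorm x = 24 + 8 * ∑ i, k i + 16 * ∑ i, u i := by
    rw [sqNorm, Finset.sum_congr rfl (fun i _ => hu i), Finset.sum_add_distrib, Finset.sum_add_distrib, ← Finset.mul_sum, ← Finset.mul_sum]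
    have : Fintype.card GolayPt = 24 := by decide
    simp [this]
  have h6 := card_GC hC
  rw [h4] at h16
  rw [h2]
  omega

theorem mem_odd {C : Finset GolayPt} (hC : C ∈ GC) {N : ℕ} (hN : N % 16 = 0) (hN' : N ≤ 64) {x : GolayPt → ℤ} :
    x ∈ pat (two C O3 O1) N ↔ NF x 1 C ∧ sqNorm x = N := by
  rw [mem_pat_two]
  constructor
  · rintro ⟨h1, h2, h3⟩
    refine ⟨NF1_of hC (fun i hi => O3_mod (h1 i hi)) (fun i hi => O1_mod (h2 i hi)) (by rw [h3]; omega), h3⟩
  · rintro ⟨h1, h3⟩
    have hle : sqNorm x ≤ 64 := by rw [h3]; exact_mod_cast hN'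
    refine ⟨fun i hi => ?_, fun i hi => ?_, h3⟩
    · have := h1.2.1 i
      rw [if_pos hi] at this
      exact (mem_O3 (entry_le hle i).1 (entry_le hle i).2).mpr (by omega)
    · have := h1.2.1 i
      rw [if_neg hi] at this
      exact (mem_O1 (entry_le hle i).1 (entry_le hle i).2).mpr (by omega)

/-! ### even vectors -/

def E0 : Finset ℤ := {0, 4, -4, 8, -8}
def E2 : Finset ℤ := {2, -2, 6, -6}

theorem mem_E0 {a : ℤ} (h1 : -8 ≤ a) (h2 : a ≤ 8) : a ∈ E0 ↔ a % 4 = 0 := by
  simp only [E0, Finset.mem_insert, Finset.mem_singleton]; omega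
theorem mem_E2 {a : ℤ} (h1 : -8 ≤ a) (h2 : a ≤ 8) : a ∈ E2 ↔ a % 4 = 2 := by
  simp only [E2, Finset.mem_insert, Finset.mem_singleton]; omega
theorem E0_mod {a : ℤ} (h : a ∈ E0) : a % 4 = 0 := by
  simp only [E0, Finset.mem_insert, Finset.mem_singleton] at h; omega
theorem E2_mod {a : ℤ} (h : a ∈ E2) : a % 4 = 2 := by
  simp only [E2, Finset.mem_insert, Finset.mem_singleton] at h; omega

theorem mem_even {C : Finset GolayPt} (hC : C ∈ GC) {N : ℕ} (hN' : N ≤ 64) {x : GolayPt → ℤ} :
    x ∈ (pat (two C E2 E0) N).filter (fun x => (∑ i, x i) % 8 = 0) ↔ NF x 0 C ∧ sqNorm x = N := by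
  rw [Finset.mem_filter, mem_pat_two]
  constructor
  · rintro ⟨⟨h1, h2, h3⟩, h4⟩
    refine ⟨⟨hC, ?_, by rw [h4]; rfl⟩, h3⟩
    intro i
    split_ifs with hi
    · rw [E2_mod (h1 i hi)]; rfl
    · rw [E0_mod (h2 i hi)]; rfl
  · rintro ⟨h1, h3⟩
    have hle : sqNorm x ≤ 64 := by rw [h3]; exact_mod_cast hN'
    refine ⟨⟨fun i hi => ?_, fun i hi => ?_, h3⟩, by rw [h1.2.2]; rfl⟩
    · have := h1.2.1 i
      rw [if_pos hi] at this
      exact (mem_E2 (entry_le hle i).1 (entry_le hle i).2).mpr (by omega)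
    · have := h1.2.1 i
      rw [if_neg hi] at this
      exact (mem_E0 (entry_le hle i).1 (entry_le hle i).2).mpr (by omega)

/-- half of the vectors satisfy the sum condition -/
theorem card_even {C : Finset GolayPt} (hC : C ∈ GC) (hne : C.Nonempty) (N : ℕ) :
    2 * ((pat (two C E2 E0) N).filter (fun x => (∑ i, x i) % 8 = 0)).card = (pat (two C E2 E0) N).card := by
  classical
  obtain ⟨j, hj⟩ := hne
  have hmod : ∀ x ∈ pat (two C E2 E0) N, (∑ i, x i) % 4 = 0 := by
    intro x hx
    rw [mem_pat_two] at hx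
    have h2 : ∀ i, ∃ t : ℤ, x i = 2 * (if i ∈ C then 1 else 0) + 4 * t := by
      intro i
      split_ifs with hi
      · have := E2_mod (hx.1 i hi); exact ⟨(x i - 2) / 4, by omega⟩
      · have := E0_mod (hx.2.1 i hi); exact ⟨x i / 4, by omega⟩
    choose t ht using h2
    rw [Finset.sum_congr rfl (fun i _ => ht i), Finset.sum_add_distrib, ← Finset.mul_sum, ← Finset.mul_sum, Finset.sum_boole,
      Finset.filter_mem_eq_inter, Finset.univ_inter]
    have h3 := card_GC hC
    omega
  let φ : (GolayPt → ℤ) → (GolayPt → ℤ) := fun x => Function.update x j (-x j)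
  have hφφ : ∀ x, φ (φ x) = x := by
    intro x; simp only [φ]; rw [Function.update_idem, Function.update_self, neg_neg, Function.update_eq_self]
  have hsum : ∀ x : GolayPt → ℤ, ∑ i, φ x i = ∑ i, x i - 2 * x j := by
    intro x
    simp only [φ]
    rw [← Finset.add_sum_erase _ _ (Finset.mem_univ j), ← Finset.add_sum_erase _ x (Finset.mem_univ j), Function.update_self]
    rw [Finset.sum_congr rfl (fun i hi => Function.update_of_ne (Finset.ne_of_mem_erase hi) _ _)]; ring
  have hmem : ∀ x ∈ pat (two C E2 E0) N, φ x ∈ pat (two C E2 E0) N := by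
    intro x hx
    rw [mem_pat_two] at hx ⊢
    refine ⟨?_, ?_, ?_⟩
    · intro i hi
      by_cases hij : i = j
      · subst hij
        simp only [φ, Function.update_self]
        have := hx.1 i hi
        simp only [E2, Finset.mem_insert, Finset.mem_singleton] at this ⊢; omega
      · simp only [φ]; rw [Function.update_of_ne hij]; exact hx.1 i hi
    · intro i hi
      have hij : i ≠ j := fun h => hi (h ▸ hj)
      simp only [φ]; rw [Function.update_of_ne hij]; exact hx.2.1 i hi
    · rw [← hx.2.2]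
      simp only [sqNorm, φ]
      apply Finset.sum_congr rfl
      intro i _
      by_cases hij : i = j
      · subst hij; rw [Function.update_self]; ring
      · rw [Function.update_of_ne hij]
  have h1 : ((pat (two C E2 E0) N).filter (fun x => (∑ i, x i) % 8 = 0)).card = ((pat (two C E2 E0) N).filter (fun x => ¬ (∑ i, x i) % 8 = 0)).card := by
    apply Finset.card_bij' (fun x _ => φ x) (fun x _ => φ x)
    · intro x hx
      rw [Finset.mem_filter] at hx ⊢
      refine ⟨hmem x hx.1, ?_⟩
      rw [hsum]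
      have := E2_mod ((mem_pat_two.mp hx.1).1 j hj)
      omega
    · intro x hx
      rw [Finset.mem_filter] at hx ⊢
      refine ⟨hmem x hx.1, ?_⟩
      rw [hsum]
      have := E2_mod ((mem_pat_two.mp hx.1).1 j hj)
      have := hmod x hx.1
      omega
    · intro x _; exact hφφ x
    · intro x _; exact hφφ x
  have h2 := Finset.card_filter_add_card_filter_not (s := pat (two C E2 E0) N) (fun x => (∑ i, x i) % 8 = 0)
  omega

end CfsgLib.Leech
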