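import Mathlib
import Cfsg.Agent.Lib.Leech3

/-!
The Leech lattice: numbers of vectors of norms 32, 48, 64.
-/

set_option autoImplicit false

namespace CfsgLib.Leech

open CfsgLib.Golay Finset Cfsg
open scoped Pointwise

theorem exists_GCF : ∃ F : Finset (Finset GolayPt), ∀ C, C ∈ F ↔ C ∈ GC :=
  ⟨univ.filter (fun C => isCode (mask C) = true), fun C => by rw [Finset.mem_filter, mem_supports_iff]; simp⟩

/-- the codewords as a finset -/
noncomputable def GCF : Finset (Finset GolayPt) := exists_GCF.choose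

theorem mem_GCF {C : Finset GolayPt} : C ∈ GCF ↔ C ∈ GC := exists_GCF.choose_spec C

theorem card_wt (w k : ℕ) (h : cntC (fun m => Nat.beq (pop m) w) rows 0 = k) : (GCF.filter fun C => C.card = w).card = k := by
  rw [← h, ← ncard_code (fun m => Nat.beq (pop m) w), ← Set.ncard_coe_finset]
  congr 1
  ext C
  rw [Finset.mem_coe, Finset.mem_filter, mem_GCF, Set.mem_setOf_eq, Nat.beq_eq, card_eq_pop]

theorem sum_GCF (g : ℕ → ℕ) : ∑ C ∈ GCF, g C.card = g 0 + 759 * g 8 + 2576 * g 12 + 759 * g 16 + g 24 := by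
  have hmap : ∀ C ∈ GCF, C.card ∈ ({0, 8, 12, 16, 24} : Finset ℕ) := by
    intro C hC
    have := supports_card (mem_GCF.mp hC)
    simp only [Finset.mem_insert, Finset.mem_singleton]; exact this
  rw [← Finset.sum_fiberwise_of_maps_to hmap]
  have h1 : ∀ w, ∑ C ∈ GCF.filter (fun C => C.card = w), g C.card = (GCF.filter fun C => C.card = w).card * g w := by
    intro w
    rw [Finset.sum_congr rfl (g := fun _ => g w), Finset.sum_const, smul_eq_mul]
    intro C hC; rw [Finset.mem_filter] at hC; rw [hC.2]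
  simp only [h1]
  rw [Finset.sum_insert (by decide), Finset.sum_insert (by decide), Finset.sum_insert (by decide), Finset.sum_insert (by decide), Finset.sum_singleton]
  rw [card_wt 0 1 (by decide +kernel), card_wt 8 759 (by decide +kernel), card_wt 12 2576 (by decide +kernel), card_wt 16 759 (by decide +kernel),
    card_wt 24 1 (by decide +kernel)]
  ring

theorem card_GCF : GCF.card = 4096 := by
  have := sum_GCF (fun _ => 1)
  rw [Finset.card_eq_sum_ones, this]

/-- the vectors of norm `N` -/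
noncomputable def normF (N : ℕ) : Finset (GolayPt → ℤ) :=
  GCF.biUnion (fun C => pat (two C O3 O1) N) ∪ GCF.biUnion (fun C => (pat (two C E2 E0) N).filter (fun x => (∑ i, x i) % 8 = 0))

theorem NF_unique {x : GolayPt → ℤ} {m n : ℤ} (hm : m = 0 ∨ m = 1) (hn : n = 0 ∨ n = 1) {C D : Finset GolayPt} (h : NF x m C) (h' : NF x n D) : m = n ∧ C = D := by
  have h1 : m = n := by
    have a := h.2.1 (pt 0)
    have b := h'.2.1 (pt 0)
    rcases hm with rfl | rfl <;> rcases hn with rfl | rfl <;> split_ifs at a b <;> omega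
  subst h1
  refine ⟨rfl, ?_⟩
  ext i
  have a := h.2.1 i
  have b := h'.2.1 i
  by_cases h3 : i ∈ C <;> by_cases h4 : i ∈ D <;> simp only [h3, h4, if_true, if_false] at a b ⊢ <;> omega

theorem mem_normF {N : ℕ} (hN : N % 16 = 0) (hN' : N ≤ 64) {x : GolayPt → ℤ} : x ∈ normF N ↔ x ∈ leechLattice ∧ sqNorm x = N := by
  rw [normF, Finset.mem_union, Finset.mem_biUnion, Finset.mem_biUnion]
  constructor
  · rintro (⟨C, hC, hx⟩ | ⟨C, hC, hx⟩)
    · have := (mem_odd (mem_GCF.mp hC) hN hN').mp hx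
      exact ⟨mem_leech1 this.1, this.2⟩
    · have := (mem_even (mem_GCF.mp hC) hN').mp hx
      exact ⟨mem_leech0 this.1, this.2⟩
  · rintro ⟨hx, hn⟩
    obtain ⟨C, h | h⟩ := mem_leech.mp hx
    · right; exact ⟨C, mem_GCF.mpr h.1, (mem_even h.1 hN').mpr ⟨h, hn⟩⟩
    · left; exact ⟨C, mem_GCF.mpr h.1, (mem_odd h.1 hN hN').mpr ⟨h, hn⟩⟩

theorem card_normF {N : ℕ} (hN : N % 16 = 0) (hN' : N ≤ 64) (ko : ℕ) (g : ℕ → ℕ) (ho : ∀ C ∈ GC, (pat (two C O3 O1) N).card = ko)
    (he : ∀ C ∈ GC, ((pat (two C E2 E0) N).filter (fun x => (∑ i, x i) % 8 = 0)).card = g C.card) :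
    (normF N).card = 4096 * ko + (g 0 + 759 * g 8 + 2576 * g 12 + 759 * g 16 + g 24) := by
  rw [normF, Finset.card_union_of_disjoint, Finset.card_biUnion, Finset.card_biUnion]
  · rw [Finset.sum_congr rfl (fun C hC => ho C (mem_GCF.mp hC)), Finset.sum_congr rfl (fun C hC => he C (mem_GCF.mp hC)), sum_GCF,
      Finset.sum_const, card_GCF, smul_eq_mul]
  · intro C hC D hD hne
    rw [Function.onFun, Finset.disjoint_left]
    intro x hx hx'
    exact hne (NF_unique (Or.inl rfl) (Or.inl rfl) ((mem_even (mem_GCF.mp hC) hN').mp hx).1 ((mem_even (mem_GCF.mp hD) hN').mp hx').1).2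
  · intro C hC D hD hne
    rw [Function.onFun, Finset.disjoint_left]
    intro x hx hx'
    exact hne (NF_unique (Or.inr rfl) (Or.inr rfl) ((mem_odd (mem_GCF.mp hC) hN hN').mp hx).1 ((mem_odd (mem_GCF.mp hD) hN hN').mp hx').1).2
  · rw [Finset.disjoint_left]
    intro x hx hx'
    rw [Finset.mem_biUnion] at hx hx'
    obtain ⟨C, hC, hx⟩ := hx
    obtain ⟨D, hD, hx'⟩ := hx'
    have := (NF_unique (Or.inr rfl) (Or.inl rfl) ((mem_odd (mem_GCF.mp hC) hN hN').mp hx).1 ((mem_even (mem_GCF.mp hD) hN').mp hx').1).1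
    omega

/-- base of the digits -/
@[irreducible] def XX : ℕ := 2 ^ 64

theorem sum_O3 : ∑ v ∈ O3, XX ^ (v.natAbs ^ 2) = XX + XX ^ 9 + XX ^ 25 + XX ^ 49 := by decide +kernel
theorem sum_O1 : ∑ v ∈ O1, XX ^ (v.natAbs ^ 2) = XX + XX ^ 9 + XX ^ 25 + XX ^ 49 := by decide +kernel
theorem sum_E2 : ∑ v ∈ E2, XX ^ (v.natAbs ^ 2) = 2 * XX ^ 4 + 2 * XX ^ 36 := by decide +kernel
theorem sum_E0 : ∑ v ∈ E0, XX ^ (v.natAbs ^ 2) = 1 + 2 * XX ^ 16 + 2 * XX ^ 64 := by decide +kernel

theorem card_le_24 (C : Finset GolayPt) : C.card ≤ 24 := by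
  have := Finset.card_le_univ C
  rwa [show Fintype.card GolayPt = 24 by decide] at this

/-- the odd count -/
@[irreducible] def oc (N : ℕ) : ℕ := ((XX + XX ^ 9 + XX ^ 25 + XX ^ 49) ^ 24 / XX ^ N) % XX

theorem bd_odd : 4 ^ 24 < XX := by decide +kernel
theorem bd_even : ∀ w ∈ ({0, 8, 12, 16, 24} : Finset ℕ), 4 ^ w * 5 ^ (24 - w) < XX := by decide +kernel

theorem odd_card (C : Finset GolayPt) (N : ℕ) : (pat (two C O3 O1) N).card = oc N := by
  have hle := card_le_24 C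
  have hs : C.card + (24 - C.card) = 24 := by omega
  rw [card_two C O3 O1 N XX _ _ _ sum_O3 sum_O1, ← pow_add, hs, oc]
  have h3 : O3.card = 4 := by decide
  have h1 : O1.card = 4 := by decide
  rw [h3, h1, ← pow_add, hs]; exact bd_odd

/-- the even count as a function of the weight -/
@[irreducible] def ec (N w : ℕ) : ℕ := ((2 * XX ^ 4 + 2 * XX ^ 36) ^ w * (1 + 2 * XX ^ 16 + 2 * XX ^ 64) ^ (24 - w) / XX ^ N) % XX

theorem even_card (C : Finset GolayPt) (hC : C ∈ GC) (N : ℕ) : (pat (two C E2 E0) N).card = ec N C.card := by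
  rw [card_two C E2 E0 N XX _ _ _ sum_E2 sum_E0, ec]
  have h3 : E2.card = 4 := by decide
  have h1 : E0.card = 5 := by decide
  rw [h3, h1]
  apply bd_even
  have h := supports_card hC
  rw [Finset.mem_insert, Finset.mem_insert, Finset.mem_insert, Finset.mem_insert, Finset.mem_singleton]
  exact h

theorem zero_card {N : ℕ} (h : N % 32 = 0) : ((pat (two ∅ E2 E0) N).filter (fun x => (∑ i, x i) % 8 = 0)).card = (pat (two ∅ E2 E0) N).card := by
  refine congrArg Finset.card ?_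
  rw [Finset.filter_eq_self]
  intro x hx
  rw [mem_pat_two] at hx
  have h4 : ∀ i, ∃ z, x i = 4 * z := by
    intro i
    have := E0_mod (hx.2.1 i (Finset.notMem_empty i))
    exact ⟨x i / 4, by omega⟩
  choose z hz using h4
  have hn : sqNorm x = 16 * ∑ i, z i ^ 2 := by
    rw [sqNorm, Finset.mul_sum]; apply Finset.sum_congr rfl; intro i _; rw [hz]; ring
  have hpar : ∀ i, ∃ t : ℤ, z i ^ 2 = z i + 2 * t := by
    intro i
    rcases Int.even_or_odd (z i) with ⟨k, hk⟩ | ⟨k, hk⟩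
    · exact ⟨2 * k ^ 2 - k, by rw [hk]; ring⟩
    · exact ⟨2 * k ^ 2 + k, by rw [hk]; ring⟩
  choose t ht using hpar
  have hz2 : ∑ i, z i ^ 2 = ∑ i, z i + 2 * ∑ i, t i := by
    rw [Finset.sum_congr rfl (fun i _ => ht i), Finset.sum_add_distrib, ← Finset.mul_sum]
  rw [Finset.sum_congr rfl (fun i _ => hz i), ← Finset.mul_sum]
  have h5 := hx.2.2
  omega

theorem zero_card48 : ((pat (two ∅ E2 E0) 48).filter (fun x => (∑ i, x i) % 8 = 0)).card = 0 := by
  rw [Finset.card_eq_zero, Finset.filter_eq_empty_iff]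
  intro x hx
  rw [mem_pat_two] at hx
  have h4 : ∀ i, ∃ z, x i = 4 * z := by
    intro i
    have := E0_mod (hx.2.1 i (Finset.notMem_empty i))
    exact ⟨x i / 4, by omega⟩
  choose z hz using h4
  have hn : sqNorm x = 16 * ∑ i, z i ^ 2 := by
    rw [sqNorm, Finset.mul_sum]; apply Finset.sum_congr rfl; intro i _; rw [hz]; ring
  have hpar : ∀ i, ∃ t : ℤ, z i ^ 2 = z i + 2 * t := by
    intro i
    rcases Int.even_or_odd (z i) with ⟨k, hk⟩ | ⟨k, hk⟩
    · exact ⟨2 * k ^ 2 - k, by rw [hk]; ring⟩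
    · exact ⟨2 * k ^ 2 + k, by rw [hk]; ring⟩
  choose t ht using hpar
  have hz2 : ∑ i, z i ^ 2 = ∑ i, z i + 2 * ∑ i, t i := by
    rw [Finset.sum_congr rfl (fun i _ => ht i), Finset.sum_add_distrib, ← Finset.mul_sum]
  rw [Finset.sum_congr rfl (fun i _ => hz i), ← Finset.mul_sum]
  have h5 := hx.2.2
  push_cast at h5
  omega

theorem ec_vals : ec 32 0 = 1104 ∧ ec 32 8 = 256 ∧ ec 32 12 = 0 ∧ ec 32 16 = 0 ∧ ec 32 24 = 0 ∧
    ec 48 8 = 8192 ∧ ec 48 12 = 4096 ∧ ec 48 16 = 0 ∧ ec 48 24 = 0 ∧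
    ec 64 0 = 170064 ∧ ec 64 8 = 124928 ∧ ec 64 12 = 98304 ∧ ec 64 16 = 65536 ∧ ec 64 24 = 0 := by
  decide +kernel

theorem oc_vals : oc 32 = 24 ∧ oc 48 = 2048 ∧ oc 64 = 48576 := by decide +kernel

theorem card_even' {C : Finset GolayPt} (hC : C ∈ GC) (hne : C.Nonempty) (N : ℕ) :
    ((pat (two C E2 E0) N).filter (fun x => (∑ i, x i) % 8 = 0)).card = ec N C.card / 2 := by
  have h1 := card_even hC hne N
  rw [even_card C hC N] at h1
  omega

theorem count_gen {N : ℕ} (hN : N % 16 = 0) (hN' : N ≤ 64) (e0 : ℕ)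
    (he : ((pat (two ∅ E2 E0) N).filter (fun x => (∑ i, x i) % 8 = 0)).card = e0) :
    (normF N).card = 4096 * oc N + (e0 + 759 * (ec N 8 / 2) + 2576 * (ec N 12 / 2) + 759 * (ec N 16 / 2) + ec N 24 / 2) := by
  obtain ⟨g, hg0, hg⟩ : ∃ g : ℕ → ℕ, g 0 = e0 ∧ ∀ w, w ≠ 0 → g w = ec N w / 2 :=
    ⟨fun w => if w = 0 then e0 else ec N w / 2, if_pos rfl, fun w hw => if_neg hw⟩
  rw [card_normF hN hN' (oc N) g (fun C _ => odd_card C N), hg0, hg 8 (by norm_num), hg 12 (by norm_num), hg 16 (by norm_num), hg 24 (by norm_num)]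
  intro C hC
  rcases C.eq_empty_or_nonempty with h0 | h0
  · rw [h0, he, Finset.card_empty, hg0]
  · rw [hg _ (Finset.card_ne_zero.mpr h0)]
    exact card_even' hC h0 N

theorem card32 : (normF 32).card = 196560 := by
  obtain ⟨a1, a2, a3, a4, a5, -⟩ := ec_vals
  rw [count_gen (by norm_num) (by norm_num) 1104 ?_, a2, a3, a4, a5, oc_vals.1]
  rw [zero_card (by norm_num), even_card ∅ empty_mem, Finset.card_empty, a1]

theorem card48 : (normF 48).card = 16773120 := by
  obtain ⟨-, -, -, -, -, a2, a3, a4, a5, -⟩ := ec_vals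
  rw [count_gen (by norm_num) (by norm_num) 0 zero_card48, a2, a3, a4, a5, oc_vals.2.1]

theorem card64 : (normF 64).card = 398034000 := by
  obtain ⟨-, -, -, -, -, -, -, -, -, a1, a2, a3, a4, a5⟩ := ec_vals
  rw [count_gen (by norm_num) (by norm_num) 170064 ?_, a2, a3, a4, a5, oc_vals.2.2]
  rw [zero_card (by norm_num), even_card ∅ empty_mem, Finset.card_empty, a1]

theorem ncard_norm {N : ℕ} (hN : N % 16 = 0) (hN' : N ≤ 64) : {x : GolayPt → ℤ | x ∈ leechLattice ∧ sqNorm x = N}.ncard = (normF N).card := by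
  rw [← Set.ncard_coe_finset]
  congr 1
  ext x
  exact (mem_normF hN hN').symm

end CfsgLib.Leech
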