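import Mathlib
import Cfsg.Agent.Lib.Leech4

/-!
Even lattices without roots: congruence classes modulo two, counting, frames.
-/

set_option autoImplicit false

namespace CfsgLib.Leech

open Finset Cfsg

/-- an even positive definite form without vectors of norm two -/
structure ELat {L : Type*} [AddCommGroup L] (b : L → L → ℤ) : Prop where
  add_left : ∀ x y z, b (x + y) z = b x z + b y z
  symm : ∀ x y, b x y = b y x
  pos : ∀ x, x ≠ 0 → 0 < b x x
  even : ∀ x, (2 : ℤ) ∣ b x x
  no2 : ∀ x, b x x ≠ 2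

namespace ELat

variable {L : Type*} [AddCommGroup L] {b : L → L → ℤ} (hL : ELat b)
include hL

theorem add_right (x y z : L) : b x (y + z) = b x y + b x z := by
  rw [hL.symm, hL.add_left, hL.symm y, hL.symm z]

theorem zero_left (z : L) : b 0 z = 0 := by
  have := hL.add_left 0 0 z
  rw [add_zero] at this; omega

theorem zero_right (z : L) : b z 0 = 0 := by rw [hL.symm, hL.zero_left]

theorem neg_left (x z : L) : b (-x) z = -b x z := by
  have := hL.add_left x (-x) z
  rw [add_neg_cancel, hL.zero_left] at this; omega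

theorem neg_right (x z : L) : b x (-z) = -b x z := by rw [hL.symm, hL.neg_left, hL.symm]

theorem sub_left (x y z : L) : b (x - y) z = b x z - b y z := by
  rw [sub_eq_add_neg, hL.add_left, hL.neg_left]; ring

theorem sub_right (x y z : L) : b x (y - z) = b x y - b x z := by
  rw [sub_eq_add_neg, hL.add_right, hL.neg_right]; ring

/-- the form as a homomorphism in the first variable -/
def homL (z : L) : L →+ ℤ := AddMonoidHom.mk' (fun x => b x z) (fun x y => hL.add_left x y z)

theorem smul_left (n : ℤ) (x z : L) : b (n • x) z = n * b x z := by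
  have := map_zsmul (hL.homL z) n x
  simpa [homL] using this

theorem sum_left {ι : Type*} (s : Finset ι) (f : ι → L) (z : L) : b (∑ i ∈ s, f i) z = ∑ i ∈ s, b (f i) z :=
  map_sum (hL.homL z) f s

theorem nonneg (x : L) : 0 ≤ b x x := by
  by_cases h : x = 0
  · rw [h, hL.zero_left]
  · exact (hL.pos x h).le

theorem four_le {x : L} (h : x ≠ 0) : 4 ≤ b x x := by
  have h1 := hL.pos x h
  have h2 := hL.no2 x
  obtain ⟨k, hk⟩ := hL.even x
  omega

/-- short congruent vectors -/
theorem cong {x y : L} (hx : b x x ≤ 8) (hy : b y y ≤ 8) (hc : ∃ z, x - y = z + z) : x = y ∨ x = -y ∨ (b x x = 8 ∧ b y y = 8 ∧ b x y = 0) := by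
  obtain ⟨z, hz⟩ := hc
  by_cases h0 : z = 0
  · left; rw [h0, add_zero] at hz; exact sub_eq_zero.mp hz
  have hz' : x + y = (z + y) + (z + y) := by
    have : x = z + z + y := by rw [← hz]; abel
    rw [this]; abel
  by_cases h1 : z + y = 0
  · right; left; rw [h1, add_zero] at hz'; exact eq_neg_of_add_eq_zero_left hz'
  right; right
  have a1 : b (x - y) (x - y) = b x x + b y y - 2 * b x y := by
    rw [hL.sub_left, hL.sub_right, hL.sub_right, hL.symm y x]; ring
  have a2 : b (x + y) (x + y) = b x x + b y y + 2 * b x y := by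
    rw [hL.add_left, hL.add_right, hL.add_right, hL.symm y x]; ring
  have a3 : ∀ w : L, b (w + w) (w + w) = 4 * b w w := by
    intro w; rw [hL.add_left, hL.add_right]; ring
  rw [hz, a3] at a1
  rw [hz', a3] at a2
  have a4 := hL.four_le h0
  have a5 := hL.four_le h1
  omega

theorem ne_zero_of_norm {x : L} {n : ℤ} (hn : 0 < n) (h : b x x = n) : x ≠ 0 := by
  rintro rfl; rw [hL.zero_left] at h; omega

end ELat

/-- at most 24 pairwise orthogonal vectors -/
def OB {L : Type*} [AddCommGroup L] (b : L → L → ℤ) : Prop :=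
  ∀ s : Finset L, (∀ x ∈ s, x ≠ 0) → (∀ x ∈ s, ∀ y ∈ s, x ≠ y → b x y = 0) → s.card ≤ 24

section frames

variable {L : Type*} [AddCommGroup L] {b : L → L → ℤ} (hL : ELat b) (ob : OB b)
include hL ob

theorem frame_bound [DecidableEq L] (T : Finset L) (h8 : ∀ y ∈ T, b y y = 8) (hTT : ∀ y ∈ T, ∀ y' ∈ T, y = y' ∨ y = -y' ∨ b y y' = 0) :
    ∃ O ⊆ T, (∀ x ∈ O, ∀ y ∈ O, x ≠ y → b x y = 0) ∧ T ⊆ O ∪ O.image (fun x => -x) ∧ O.card ≤ 24 := by
  have hfin : {O : Finset L | O ⊆ T ∧ ∀ x ∈ O, ∀ y ∈ O, x ≠ y → b x y = 0}.Finite :=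
    (Finset.finite_toSet T.powerset).subset (fun O hO => Finset.mem_coe.mpr (Finset.mem_powerset.mpr hO.1))
  obtain ⟨O, hO, hmax⟩ := Set.exists_max_image _ Finset.card hfin ⟨∅, Finset.empty_subset T, fun x hx => absurd hx (Finset.notMem_empty x)⟩
  have h0 : ∀ x ∈ O, x ≠ 0 := fun x hx => hL.ne_zero_of_norm (by norm_num) (h8 x (hO.1 hx))
  refine ⟨O, hO.1, hO.2, ?_, ob O h0 hO.2⟩
  intro y hy
  by_contra hcon
  rw [Finset.mem_union, Finset.mem_image, not_or] at hcon
  have horth : ∀ x ∈ O, b y x = 0 := by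
    intro x hx
    rcases hTT y hy x (hO.1 hx) with h | h | h
    · exact absurd (h ▸ hx) hcon.1
    · exact absurd ⟨x, hx, h.symm⟩ hcon.2
    · exact h
  have hins : insert y O ∈ {O : Finset L | O ⊆ T ∧ ∀ x ∈ O, ∀ y ∈ O, x ≠ y → b x y = 0} := by
    refine ⟨Finset.insert_subset hy hO.1, ?_⟩
    intro x hx z hz hxz
    rw [Finset.mem_insert] at hx hz
    rcases hx with rfl | hx <;> rcases hz with rfl | hz
    · exact absurd rfl hxz
    · exact horth z hz
    · rw [hL.symm]; exact horth x hx
    · exact hO.2 x hx z hz hxz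
  have := hmax _ hins
  rw [Finset.card_insert_of_notMem hcon.1] at this
  omega

variable {Q : Type*} (π : L → Q) (hπ : ∀ x y, π x = π y ↔ ∃ z, x - y = z + z)
include hπ

theorem fiber_small [DecidableEq Q] [DecidableEq L] {n : ℤ} (hn : n < 8) (F : Finset L) (hF : ∀ x ∈ F, b x x = n) (q : Q) : (F.filter (fun x => π x = q)).card ≤ 2 := by
  rcases (F.filter (fun x => π x = q)).eq_empty_or_nonempty with h | ⟨y, hy⟩
  · rw [h]; simp
  rw [Finset.mem_filter] at hy
  have hsub : F.filter (fun x => π x = q) ⊆ {y, -y} := by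
    intro x hx
    rw [Finset.mem_filter] at hx
    rw [Finset.mem_insert, Finset.mem_singleton]
    have h1 := hF x hx.1
    have h2 := hF y hy.1
    rcases hL.cong (x := x) (y := y) (by omega) (by omega) ((hπ x y).mp (hx.2.trans hy.2.symm)) with h | h | h
    · left; exact h
    · right; exact h
    · omega
  exact (Finset.card_le_card hsub).trans Finset.card_le_two

theorem fiber_eight [DecidableEq Q] [DecidableEq L] (F : Finset L) (hF : ∀ x ∈ F, b x x = 8) (q : Q) :
    ∃ O ⊆ F.filter (fun x => π x = q), (∀ x ∈ O, ∀ y ∈ O, x ≠ y → b x y = 0) ∧ F.filter (fun x => π x = q) ⊆ O ∪ O.image (fun x => -x) ∧ O.card ≤ 24 := by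
  apply frame_bound hL ob
  · intro y hy; exact hF y (Finset.mem_filter.mp hy).1
  · intro y hy y' hy'
    rw [Finset.mem_filter] at hy hy'
    have h1 := hF y hy.1
    have h2 := hF y' hy'.1
    rcases hL.cong (x := y) (y := y') (by omega) (by omega) ((hπ y y').mp (hy.2.trans hy'.2.symm)) with h | h | h
    · left; exact h
    · right; left; exact h
    · right; right; exact h.2.2

theorem count_classes [Finite Q] (hQ : Nat.card Q = 2 ^ 24) (c4 : {x | b x x = 4}.ncard = 196560) (c6 : {x | b x x = 6}.ncard = 16773120)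
    (c8 : {x | b x x = 8}.ncard = 398034000) :
    (∀ q : Q, ∃ y, b y y ≤ 8 ∧ π y = q) ∧
    ∀ x, b x x = 8 → {y | b y y = 8 ∧ π y = π x}.ncard = 48 ∧
      ∃ f : GolayPt → L, (∀ i j, b (f i) (f j) = if i = j then 8 else 0) ∧ (∀ i, π (f i) = π x) ∧ ∀ y, b y y = 8 → π y = π x → ∃ i, y = f i ∨ y = -f i := by
  classical
  have := Fintype.ofFinite Q
  rw [Nat.card_eq_fintype_card] at hQ
  obtain ⟨F4, hF4⟩ : ∃ F : Finset L, ∀ x, x ∈ F ↔ b x x = 4 := by
    have hf : {x | b x x = 4}.Finite := Set.finite_of_ncard_ne_zero (by rw [c4]; norm_num)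
    exact ⟨hf.toFinset, fun x => by rw [Set.Finite.mem_toFinset]; rfl⟩
  obtain ⟨F6, hF6⟩ : ∃ F : Finset L, ∀ x, x ∈ F ↔ b x x = 6 := by
    have hf : {x | b x x = 6}.Finite := Set.finite_of_ncard_ne_zero (by rw [c6]; norm_num)
    exact ⟨hf.toFinset, fun x => by rw [Set.Finite.mem_toFinset]; rfl⟩
  obtain ⟨F8, hF8⟩ : ∃ F : Finset L, ∀ x, x ∈ F ↔ b x x = 8 := by
    have hf : {x | b x x = 8}.Finite := Set.finite_of_ncard_ne_zero (by rw [c8]; norm_num)
    exact ⟨hf.toFinset, fun x => by rw [Set.Finite.mem_toFinset]; rfl⟩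
  have card_of : ∀ (n : ℤ) (F : Finset L), (∀ x, x ∈ F ↔ b x x = n) → F.card = {x | b x x = n}.ncard := by
    intro n F h
    rw [← Set.ncard_coe_finset]; congr 1; ext x; exact h x
  have k4 : F4.card = 196560 := (card_of 4 F4 hF4).trans c4
  have k6 : F6.card = 16773120 := (card_of 6 F6 hF6).trans c6
  have k8 : F8.card = 398034000 := (card_of 8 F8 hF8).trans c8
  have b4 : F4.card ≤ 2 * (F4.image π).card := by
    rw [Finset.card_eq_sum_card_image π F4, mul_comm, ← smul_eq_mul]
    exact Finset.sum_le_card_nsmul _ _ _ (fun q _ => fiber_small hL ob π hπ (by norm_num) F4 (fun x hx => (hF4 x).mp hx) q)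
  have b6 : F6.card ≤ 2 * (F6.image π).card := by
    rw [Finset.card_eq_sum_card_image π F6, mul_comm, ← smul_eq_mul]
    exact Finset.sum_le_card_nsmul _ _ _ (fun q _ => fiber_small hL ob π hπ (by norm_num) F6 (fun x hx => (hF6 x).mp hx) q)
  have fib8 : ∀ q : Q, (F8.filter (fun x => π x = q)).card ≤ 48 := by
    intro q
    obtain ⟨O, -, -, h2, h3⟩ := fiber_eight hL ob π hπ F8 (fun x hx => (hF8 x).mp hx) q
    have h4 := Finset.card_le_card h2
    have h5 := Finset.card_union_le O (O.image (fun x => -x))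
    have h6 : (O.image (fun x => -x)).card ≤ O.card := Finset.card_image_le
    omega
  have b8 : F8.card ≤ 48 * (F8.image π).card := by
    rw [Finset.card_eq_sum_card_image π F8, mul_comm, ← smul_eq_mul]
    exact Finset.sum_le_card_nsmul _ _ _ (fun q _ => fib8 q)
  have disj : ∀ (F F' : Finset L) (n n' : ℤ), (∀ x ∈ F, b x x = n) → (∀ x ∈ F', b x x = n') → n ≤ 8 → n' ≤ 8 → n ≠ n' → Disjoint (F.image π) (F'.image π) := by
    intro F F' n n' h h' hn hn' hne
    rw [Finset.disjoint_left]
    intro q hq hq'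
    rw [Finset.mem_image] at hq hq'
    obtain ⟨x, hx, rfl⟩ := hq
    obtain ⟨y, hy, hxy⟩ := hq'
    have h1 := h x hx
    have h2 := h' y hy
    rcases hL.cong (x := x) (y := y) (by omega) (by omega) ((hπ x y).mp hxy.symm) with h3 | h3 | h3
    · rw [h3] at h1; omega
    · rw [h3, hL.neg_left, hL.neg_right] at h1; omega
    · omega
  have i0 : ({0} : Finset L).image π = {π 0} := Finset.image_singleton _ _
  have n0 : ∀ x ∈ ({0} : Finset L), b x x = 0 := by
    intro x hx; rw [Finset.mem_singleton] at hx; rw [hx, hL.zero_left]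
  have m4 : ∀ x ∈ F4, b x x = 4 := fun x hx => (hF4 x).mp hx
  have m6 : ∀ x ∈ F6, b x x = 6 := fun x hx => (hF6 x).mp hx
  have m8 : ∀ x ∈ F8, b x x = 8 := fun x hx => (hF8 x).mp hx
  have d1 : Disjoint (({0} : Finset L).image π) (F4.image π) := disj _ _ 0 4 n0 m4 (by norm_num) (by norm_num) (by norm_num)
  have d2 : Disjoint (({0} : Finset L).image π ∪ F4.image π) (F6.image π) :=
    Finset.disjoint_union_left.mpr ⟨disj _ _ 0 6 n0 m6 (by norm_num) (by norm_num) (by norm_num), disj _ _ 4 6 m4 m6 (by norm_num) (by norm_num) (by norm_num)⟩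
  have d3 : Disjoint (({0} : Finset L).image π ∪ F4.image π ∪ F6.image π) (F8.image π) :=
    Finset.disjoint_union_left.mpr ⟨Finset.disjoint_union_left.mpr ⟨disj _ _ 0 8 n0 m8 (by norm_num) (by norm_num) (by norm_num),
      disj _ _ 4 8 m4 m8 (by norm_num) (by norm_num) (by norm_num)⟩, disj _ _ 6 8 m6 m8 (by norm_num) (by norm_num) (by norm_num)⟩
  have ctot : (({0} : Finset L).image π ∪ F4.image π ∪ F6.image π ∪ F8.image π).card = 1 + (F4.image π).card + (F6.image π).card + (F8.image π).card := by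
    rw [Finset.card_union_of_disjoint d3, Finset.card_union_of_disjoint d2, Finset.card_union_of_disjoint d1, i0, Finset.card_singleton]
  have cle := Finset.card_le_univ (({0} : Finset L).image π ∪ F4.image π ∪ F6.image π ∪ F8.image π)
  rw [ctot, hQ] at cle
  have e8 : (F8.image π).card = 8292375 := by omega
  have huniv : ({0} : Finset L).image π ∪ F4.image π ∪ F6.image π ∪ F8.image π = Finset.univ := by
    rw [← Finset.card_eq_iff_eq_univ, ctot, hQ]; omega
  have fib8' : ∀ q ∈ F8.image π, (F8.filter (fun x => π x = q)).card = 48 := by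
    have hsum : ∑ q ∈ F8.image π, (F8.filter (fun x => π x = q)).card = ∑ q ∈ F8.image π, 48 := by
      rw [← Finset.card_eq_sum_card_image π F8, Finset.sum_const, smul_eq_mul, e8, k8]
    exact (Finset.sum_eq_sum_iff_of_le (fun q _ => fib8 q)).mp hsum
  constructor
  · intro q
    have hq : q ∈ ({0} : Finset L).image π ∪ F4.image π ∪ F6.image π ∪ F8.image π := by rw [huniv]; exact Finset.mem_univ q
    rw [Finset.mem_union, Finset.mem_union, Finset.mem_union, Finset.mem_image, Finset.mem_image, Finset.mem_image, Finset.mem_image] at hq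
    rcases hq with ((⟨y, hy, h⟩ | ⟨y, hy, h⟩) | ⟨y, hy, h⟩) | ⟨y, hy, h⟩
    · exact ⟨y, by rw [n0 y hy]; norm_num, h⟩
    · exact ⟨y, by rw [m4 y hy]; norm_num, h⟩
    · exact ⟨y, by rw [m6 y hy]; norm_num, h⟩
    · exact ⟨y, by rw [m8 y hy], h⟩
  · intro x hx
    have hxF : π x ∈ F8.image π := Finset.mem_image_of_mem π ((hF8 x).mpr hx)
    have h48 := fib8' _ hxF
    constructor
    · rw [← h48, ← Set.ncard_coe_finset]
      congr 1
      ext y
      rw [Finset.mem_coe, Finset.mem_filter, hF8]; rfl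
    · obtain ⟨O, h1, h2, h3, h4⟩ := fiber_eight hL ob π hπ F8 m8 (π x)
      have h5 := Finset.card_le_card h3
      rw [h48] at h5
      have h6 := Finset.card_union_le O (O.image (fun x => -x))
      have h7 : (O.image (fun x => -x)).card ≤ O.card := Finset.card_image_le
      have h8 : O.card = 24 := by omega
      have e : GolayPt ≃ ↥O := Fintype.equivOfCardEq (by rw [Fintype.card_coe, h8]; decide)
      refine ⟨fun i => (e i : L), ?_, ?_, ?_⟩
      · intro i j
        split_ifs with h
        · rw [h]; exact m8 _ (Finset.mem_filter.mp (h1 (e j).2)).1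
        · exact h2 _ (e i).2 _ (e j).2 (fun h' => h (e.injective (Subtype.ext h')))
      · intro i; exact (Finset.mem_filter.mp (h1 (e i).2)).2
      · intro y hy hyx
        have : y ∈ O ∪ O.image (fun x => -x) := h3 (Finset.mem_filter.mpr ⟨(hF8 y).mpr hy, hyx⟩)
        rw [Finset.mem_union, Finset.mem_image] at this
        rcases this with h | ⟨z, hz, h⟩
        · exact ⟨e.symm ⟨y, h⟩, Or.inl (by show y = ((e (e.symm ⟨y, h⟩) : ↥O) : L); rw [Equiv.apply_symm_apply])⟩
        · exact ⟨e.symm ⟨z, hz⟩, Or.inr (by show y = -((e (e.symm ⟨z, hz⟩) : ↥O) : L); rw [Equiv.apply_symm_apply, h])⟩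

end frames

section parseval

variable {L : Type*} [AddCommGroup L] {b : L → L → ℤ} (hL : ELat b) (ob : OB b) (f : GolayPt → L) (hf : ∀ i j, b (f i) (f j) = if i = j then 8 else 0)
include hL ob hf

theorem frame_expand (x : L) : (8 : ℤ) • x = ∑ i, b x (f i) • f i := by
  classical
  by_contra hne
  set y := (8 : ℤ) • x - ∑ i, b x (f i) • f i with hy
  have hy0 : y ≠ 0 := fun h => hne (sub_eq_zero.mp h)
  have horth : ∀ j, b y (f j) = 0 := by
    intro j
    rw [hy, hL.sub_left, hL.smul_left, hL.sum_left]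
    rw [Finset.sum_congr rfl (fun i _ => by rw [hL.smul_left, hf])]
    simp [mul_comm]
  have hinj : Function.Injective f := by
    intro i j h
    by_contra hij
    have h1 := hf i j
    have h2 := hf j j
    rw [if_neg hij, h] at h1
    rw [if_pos rfl] at h2
    omega
  have hyf : y ∉ Finset.univ.image f := by
    intro h
    obtain ⟨i, -, hi⟩ := Finset.mem_image.mp h
    have h1 := horth i
    rw [hi] at h1
    have := hL.pos y hy0
    omega
  have hcard := ob (insert y (Finset.univ.image f)) ?_ ?_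
  · rw [Finset.card_insert_of_notMem hyf, Finset.card_image_of_injective _ hinj, Finset.card_univ, show Fintype.card GolayPt = 24 by decide] at hcard
    omega
  · intro z hz
    rw [Finset.mem_insert, Finset.mem_image] at hz
    rcases hz with rfl | ⟨i, -, rfl⟩
    · exact hy0
    · exact hL.ne_zero_of_norm (n := 8) (by norm_num) (by rw [hf, if_pos rfl])
  · intro z hz w hw hzw
    rw [Finset.mem_insert, Finset.mem_image] at hz hw
    rcases hz with rfl | ⟨i, -, rfl⟩ <;> rcases hw with rfl | ⟨j, -, rfl⟩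
    · exact absurd rfl hzw
    · exact horth j
    · rw [hL.symm]; exact horth i
    · rw [hf, if_neg]; rintro rfl; exact hzw rfl

theorem parseval (x y : L) : 8 * b x y = ∑ i, b x (f i) * b y (f i) := by
  rw [← hL.smul_left, frame_expand hL ob f hf x, hL.sum_left]
  apply Finset.sum_congr rfl
  intro i _
  rw [hL.smul_left, hL.symm (f i) y]

end parseval

/-- orthogonal vectors in a group mapping injectively to `ℤ^24` -/
theorem ob_of_injective {L : Type*} [AddCommGroup L] {b : L → L → ℤ} (hL : ELat b) {ι : Type*} [Fintype ι] (hι : Fintype.card ι = 24) (φ : L →+ (ι → ℤ))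
    (hφ : Function.Injective φ) : OB b := by
  intro s h0 horth
  have hli : LinearIndependent ℤ (fun o : s => φ (o : L)) := by
    rw [Fintype.linearIndependent_iff]
    intro g hg i
    have h1 : φ (∑ o : s, g o • (o : L)) = 0 := by
      rw [map_sum, ← hg]
      apply Finset.sum_congr rfl
      intro o _
      rw [map_zsmul]
    have h2 : ∑ o : s, g o • (o : L) = 0 := hφ (by rw [h1, map_zero])
    have h3 : b (∑ o : s, g o • (o : L)) (i : L) = 0 := by rw [h2, hL.zero_left]
    rw [hL.sum_left, Finset.sum_eq_single i] at h3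
    · rw [hL.smul_left] at h3
      have := hL.pos i (h0 i i.2)
      rcases mul_eq_zero.mp h3 with h | h
      · exact h
      · omega
    · intro j _ hj
      rw [hL.smul_left, horth j j.2 i i.2 (fun h => hj (Subtype.ext h)), mul_zero]
    · intro h; exact absurd (Finset.mem_univ i) h
  have := hli.fintype_card_le_finrank
  rwa [Module.finrank_fintype_fun_eq_card, hι, Fintype.card_coe] at this

end CfsgLib.Leech
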