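import Mathlib
import Cfsg.Agent.Lib.Leech5

/-!
The Leech lattice as an abstract lattice; classes modulo two.
-/

set_option autoImplicit false

namespace CfsgLib.Leech

open Finset Cfsg

theorem sqNorm_eq_dot (x : GolayPt → ℤ) : sqNorm x = dotInt x x := by
  unfold sqNorm dotInt
  apply Finset.sum_congr rfl; intro i _; ring

theorem dot_add_left (x y z : GolayPt → ℤ) : dotInt (x + y) z = dotInt x z + dotInt y z := by
  unfold dotInt
  rw [← Finset.sum_add_distrib]
  apply Finset.sum_congr rfl; intro i _; rw [Pi.add_apply]; ring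

theorem dot_symm (x y : GolayPt → ℤ) : dotInt x y = dotInt y x := by
  unfold dotInt
  apply Finset.sum_congr rfl; intro i _; ring

/-- the inner product of the lattice -/
def bl (x y : leechLattice) : ℤ := dotInt (x : GolayPt → ℤ) y / 8

theorem bl_mul (x y : leechLattice) : 8 * bl x y = dotInt (x : GolayPt → ℤ) y :=
  Int.mul_ediv_cancel' (dot_dvd x.2 y.2)

theorem bl_self (x : leechLattice) : 8 * bl x x = sqNorm (x : GolayPt → ℤ) := by
  rw [bl_mul, sqNorm_eq_dot]

theorem sqNorm_pos_of_ne {x : GolayPt → ℤ} (hx : x ∈ leechLattice) (h : x ≠ 0) : 0 < sqNorm x := by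
  have := min_norm hx h; omega

theorem elat : ELat bl where
  add_left x y z := by
    have h1 := bl_mul (x + y) z
    have h2 := bl_mul x z
    have h3 := bl_mul y z
    have h4 : dotInt ((x + y : leechLattice) : GolayPt → ℤ) z = dotInt (x : GolayPt → ℤ) z + dotInt (y : GolayPt → ℤ) z := by
      rw [← dot_add_left]; rfl
    omega
  symm x y := by
    have h1 := bl_mul x y
    have h2 := bl_mul y x
    rw [dot_symm] at h1
    omega
  pos x hx := by
    have h1 := bl_self x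
    have h2 : (x : GolayPt → ℤ) ≠ 0 := fun h => hx (Subtype.ext h)
    have h3 := min_norm x.2 h2
    omega
  even x := by
    have h1 := bl_self x
    have h2 := even_norm x.2
    omega
  no2 x := by
    intro h
    have h1 := bl_self x
    by_cases hx : (x : GolayPt → ℤ) = 0
    · rw [hx, h] at h1
      have : sqNorm (0 : GolayPt → ℤ) = 0 := by
        unfold sqNorm
        simp
      omega
    · have h3 := min_norm x.2 hx
      omega

theorem obl : OB bl := ob_of_injective elat (ι := GolayPt) (by decide) leechLattice.subtype Subtype.coe_injective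

/-- doubling -/
def dbl : (GolayPt → ℤ) →+ (GolayPt → ℤ) := AddMonoidHom.mk' (fun x => x + x) (fun x y => by abel)

theorem dbl_inj : Function.Injective dbl := by
  intro x y h
  funext i
  have := congrFun h i
  simp only [dbl, AddMonoidHom.mk'_apply, Pi.add_apply] at this
  omega

theorem dbl_range : dbl.range = A1 := by
  ext x
  rw [AddMonoidHom.mem_range, mem_A1]
  constructor
  · rintro ⟨y, rfl⟩ i
    simp only [dbl, AddMonoidHom.mk'_apply, Pi.add_apply]; omega
  · intro h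
    refine ⟨fun i => x i / 2, ?_⟩
    funext i
    have := h i
    simp only [dbl, AddMonoidHom.mk'_apply, Pi.add_apply]; omega

/-- twice the lattice -/
def D2 : AddSubgroup (GolayPt → ℤ) := leechLattice.map dbl

theorem mem_D2 {x : GolayPt → ℤ} : x ∈ D2 ↔ ∃ z ∈ leechLattice, x = z + z := by
  rw [D2, AddSubgroup.mem_map]
  constructor
  · rintro ⟨z, hz, h⟩; exact ⟨z, hz, h.symm⟩
  · rintro ⟨z, hz, h⟩; exact ⟨z, hz, h.symm⟩

theorem D2_le : D2 ≤ leechLattice := by
  intro x hx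
  obtain ⟨z, hz, rfl⟩ := mem_D2.mp hx
  exact add_mem hz hz

theorem relIndex_D2 : D2.relIndex leechLattice = 2 ^ 24 := by
  have h1 := AddSubgroup.relIndex_mul_index D2_le
  have h2 : D2.index = leechLattice.index * dbl.range.index := AddSubgroup.index_map_of_injective (H := leechLattice) dbl_inj
  rw [h2, dbl_range, index_A1, index_leech] at h1
  have : (0 : ℕ) < 2 ^ 36 := by positivity
  exact Nat.eq_of_mul_eq_mul_right this (by rw [h1, mul_comm])

/-- the lattice modulo two -/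
abbrev Q2 : Type := ↥leechLattice ⧸ (D2.addSubgroupOf leechLattice)

theorem card_Q2 : Nat.card Q2 = 2 ^ 24 := relIndex_D2

instance : Finite Q2 := Nat.finite_of_card_ne_zero (by rw [card_Q2]; norm_num)

/-- reduction modulo two -/
def pi2 (x : leechLattice) : Q2 := QuotientAddGroup.mk x

theorem pi2_eq (x y : leechLattice) : pi2 x = pi2 y ↔ ∃ z, x - y = z + z := by
  unfold pi2
  rw [eq_comm, QuotientAddGroup.eq, AddSubgroup.mem_addSubgroupOf, mem_D2]
  constructor
  · rintro ⟨z, hz, h⟩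
    refine ⟨⟨z, hz⟩, ?_⟩
    apply Subtype.ext
    rw [sub_eq_neg_add]; exact h
  · rintro ⟨z, h⟩
    refine ⟨z, z.2, ?_⟩
    rw [sub_eq_neg_add] at h
    rw [h]; rfl

theorem ncard_bl {n : ℤ} {N : ℕ} (hn : 8 * n = N) : {x : leechLattice | bl x x = n}.ncard = {x : GolayPt → ℤ | x ∈ leechLattice ∧ sqNorm x = N}.ncard := by
  rw [← Set.ncard_image_of_injective {x : leechLattice | bl x x = n} Subtype.coe_injective]
  congr 1
  ext x
  constructor
  · rintro ⟨y, hy, rfl⟩
    refine ⟨y.2, ?_⟩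
    rw [← bl_self, Set.mem_setOf_eq.mp hy, hn]
  · rintro ⟨h1, h2⟩
    refine ⟨⟨x, h1⟩, ?_, rfl⟩
    rw [Set.mem_setOf_eq]
    have := bl_self ⟨x, h1⟩
    rw [h2] at this; omega

theorem leech_classes : (∀ q : Q2, ∃ y, bl y y ≤ 8 ∧ pi2 y = q) ∧
    ∀ x, bl x x = 8 → {y | bl y y = 8 ∧ pi2 y = pi2 x}.ncard = 48 ∧
      ∃ f : GolayPt → leechLattice, (∀ i j, bl (f i) (f j) = if i = j then 8 else 0) ∧ (∀ i, pi2 (f i) = pi2 x) ∧ ∀ y, bl y y = 8 → pi2 y = pi2 x → ∃ i, y = f i ∨ y = -f i := by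
  apply count_classes elat obl pi2 pi2_eq card_Q2
  · rw [ncard_bl (N := 32) (by norm_num), ncard_norm (by norm_num) (by norm_num), card32]
  · rw [ncard_bl (N := 48) (by norm_num), ncard_norm (by norm_num) (by norm_num), card48]
  · rw [ncard_bl (N := 64) (by norm_num), ncard_norm (by norm_num) (by norm_num), card64]

theorem leech_cong {x y : GolayPt → ℤ} (hx : x ∈ leechLattice) (hy : y ∈ leechLattice) (hxn : sqNorm x ≤ 64) (hyn : sqNorm y ≤ 64)
    (hc : ∃ z ∈ leechLattice, x - y = 2 • z) : x = y ∨ x = -y ∨ (sqNorm x = 64 ∧ sqNorm y = 64 ∧ dotInt x y = 0) := by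
  obtain ⟨z, hz, h⟩ := hc
  have h1 := bl_self ⟨x, hx⟩
  have h2 := bl_self ⟨y, hy⟩
  have h3 := bl_mul ⟨x, hx⟩ ⟨y, hy⟩
  simp only at h1 h2 h3
  rcases elat.cong (x := ⟨x, hx⟩) (y := ⟨y, hy⟩) (by omega) (by omega) ⟨⟨z, hz⟩, Subtype.ext (by rw [two_smul] at h; exact h)⟩ with h | h | ⟨h4, h5, h6⟩
  · left; exact congrArg Subtype.val h
  · right; left; exact congrArg Subtype.val h
  · right; right
    rw [h4] at h1; rw [h5] at h2; rw [h6] at h3
    exact ⟨by omega, by omega, by omega⟩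

theorem cross_card {x : GolayPt → ℤ} (hx : x ∈ leechLattice) (hxn : sqNorm x = 64) : (cross x).ncard = 48 := by
  have hb := bl_self ⟨x, hx⟩
  simp only at hb
  rw [← (leech_classes.2 ⟨x, hx⟩ (by omega)).1, ← Set.ncard_image_of_injective _ Subtype.coe_injective]
  congr 1
  ext y
  constructor
  · rintro ⟨h1, h2, z, hz, h3⟩
    have hb' := bl_self ⟨y, h1⟩
    simp only at hb'
    refine ⟨⟨y, h1⟩, ⟨by omega, ?_⟩, rfl⟩
    rw [eq_comm, pi2_eq]
    exact ⟨⟨z, hz⟩, Subtype.ext (by rw [two_smul] at h3; exact h3)⟩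
  · rintro ⟨w, ⟨h1, h2⟩, rfl⟩
    rw [eq_comm, pi2_eq] at h2
    obtain ⟨z, hz⟩ := h2
    have hb' := bl_self w
    refine ⟨w.2, ?_, z, z.2, ?_⟩
    · show sqNorm (w : GolayPt → ℤ) = sqNorm x
      omega
    have := congrArg Subtype.val hz
    rw [two_smul]; exact this

theorem mod_two_rep {x : GolayPt → ℤ} (hx : x ∈ leechLattice) : ∃ y ∈ leechLattice, sqNorm y ≤ 64 ∧ ∃ z ∈ leechLattice, x - y = 2 • z := by
  obtain ⟨y, h1, h2⟩ := leech_classes.1 (pi2 ⟨x, hx⟩)
  rw [eq_comm, pi2_eq] at h2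
  obtain ⟨z, hz⟩ := h2
  have hb := bl_self y
  refine ⟨y, y.2, by omega, z, z.2, ?_⟩
  have := congrArg Subtype.val hz
  rw [two_smul]; exact this

section matrix

open Matrix

variable (B : Matrix (Fin 24) (Fin 24) ℤ) (hsymm : B.IsSymm) (hpos : ∀ x : Fin 24 → ℤ, x ≠ 0 → 0 < x ⬝ᵥ (B *ᵥ x)) (heven : ∀ x : Fin 24 → ℤ, (2 : ℤ) ∣ x ⬝ᵥ (B *ᵥ x))
  (h2 : ∀ x : Fin 24 → ℤ, x ⬝ᵥ (B *ᵥ x) ≠ 2)
include hsymm hpos heven h2

theorem elat_matrix : ELat (fun x y : Fin 24 → ℤ => x ⬝ᵥ (B *ᵥ y)) where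
  add_left x y z := by simp only [add_dotProduct]
  symm x y := by
    show x ⬝ᵥ (B *ᵥ y) = y ⬝ᵥ (B *ᵥ x)
    rw [dotProduct_comm, ← Matrix.vecMul_transpose, hsymm.eq, Matrix.dotProduct_mulVec]
  pos := hpos
  even := heven
  no2 := h2

theorem ob_matrix : OB (fun x y : Fin 24 → ℤ => x ⬝ᵥ (B *ᵥ y)) :=
  ob_of_injective (elat_matrix B hsymm hpos heven h2) (ι := Fin 24) (by simp) (AddMonoidHom.id _) Function.injective_id

end matrix

/-- reduction of coordinates modulo two -/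
def piM (x : Fin 24 → ℤ) : Fin 24 → ZMod 2 := fun i => (x i : ZMod 2)

theorem piM_eq' (x y : Fin 24 → ℤ) : piM x = piM y ↔ ∀ i, (2 : ℤ) ∣ (x - y) i := by
  rw [funext_iff]
  apply forall_congr'
  intro i
  unfold piM
  have := ZMod.intCast_zmod_eq_zero_iff_dvd (x i - y i) 2
  rw [Pi.sub_apply, ← sub_eq_zero, ← Int.cast_sub]
  exact this

theorem piM_eq (x y : Fin 24 → ℤ) : piM x = piM y ↔ ∃ z, x - y = z + z := by
  rw [piM_eq']
  constructor
  · intro h
    choose z hz using h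
    exact ⟨z, funext fun i => by rw [hz i, Pi.add_apply]; ring⟩
  · rintro ⟨z, hz⟩ i
    rw [hz, Pi.add_apply]; exact ⟨z i, by ring⟩

theorem card_QM : Nat.card (Fin 24 → ZMod 2) = 2 ^ 24 := by
  rw [Nat.card_eq_fintype_card]; simp

end CfsgLib.Leech
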