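import Mathlib
import Cfsg.Agent.Lib.GolayPerm

/-!
Masks of finite sets relative to a labeling `e : α ≃ Fin n`.
-/

set_option autoImplicit false

namespace CfsgLib.Mask

open CfsgLib.Golay

variable {α : Type*} [Fintype α] [DecidableEq α] {n : ℕ}

/-- mask -/
def msk (e : α ≃ Fin n) (s : Finset α) : ℕ := Nat.ofBits (n := n) fun i => decide (e.symm i ∈ s)

/-- set of a mask -/
def fs (e : α ≃ Fin n) (m : ℕ) : Finset α := Finset.univ.filter fun a => m.testBit (e a) = true

theorem mem_fs {e : α ≃ Fin n} {m : ℕ} {a : α} : a ∈ fs e m ↔ m.testBit (e a) = true := by simp [fs]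

theorem msk_lt (e : α ≃ Fin n) (s : Finset α) : msk e s < 2 ^ n := Nat.ofBits_lt_two_pow _

theorem testBit_msk (e : α ≃ Fin n) (s : Finset α) (a : α) : (msk e s).testBit (e a) = decide (a ∈ s) := by
  rw [msk, Nat.testBit_ofBits_lt _ _ (e a).2]
  simp

theorem testBit_msk' (e : α ≃ Fin n) (s : Finset α) (i : Fin n) : (msk e s).testBit i = decide (e.symm i ∈ s) := by
  rw [msk, Nat.testBit_ofBits_lt _ _ i.2]

theorem fs_msk (e : α ≃ Fin n) (s : Finset α) : fs e (msk e s) = s := by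
  ext p; rw [mem_fs, testBit_msk]; simp

theorem ext_msk (e : α ≃ Fin n) {m k : ℕ} (hm : m < 2 ^ n) (hk : k < 2 ^ n) (h : ∀ a : α, m.testBit (e a) = k.testBit (e a)) : m = k := by
  apply Nat.eq_of_testBit_eq
  intro i
  by_cases hi : i < n
  · have := h (e.symm ⟨i, hi⟩)
    rwa [Equiv.apply_symm_apply] at this
  · push Not at hi
    rw [Nat.testBit_lt_two_pow (lt_of_lt_of_le hm (Nat.pow_le_pow_right (by norm_num) hi)),
      Nat.testBit_lt_two_pow (lt_of_lt_of_le hk (Nat.pow_le_pow_right (by norm_num) hi))]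

theorem msk_fs (e : α ≃ Fin n) {m : ℕ} (h : m < 2 ^ n) : msk e (fs e m) = m := by
  apply ext_msk e (msk_lt _ _) h
  intro p
  rw [testBit_msk]
  by_cases hp : m.testBit (e p) = true
  · rw [hp]; exact decide_eq_true (mem_fs.mpr hp)
  · rw [Bool.not_eq_true] at hp
    rw [hp]; apply decide_eq_false; rw [mem_fs, hp]; simp

theorem fs_inj (e : α ≃ Fin n) {m k : ℕ} (hm : m < 2 ^ n) (hk : k < 2 ^ n) (h : fs e m = fs e k) : m = k := by
  rw [← msk_fs e hm, h, msk_fs e hk]

theorem msk_inj (e : α ≃ Fin n) {s t : Finset α} (h : msk e s = msk e t) : s = t := by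
  rw [← fs_msk e s, h, fs_msk]

theorem fs_lor (e : α ≃ Fin n) (m k : ℕ) : fs e (m ||| k) = fs e m ∪ fs e k := by
  ext p; simp [mem_fs, Nat.testBit_or]

theorem fs_land (e : α ≃ Fin n) (m k : ℕ) : fs e (m &&& k) = fs e m ∩ fs e k := by
  ext p; simp [mem_fs, Nat.testBit_and]

theorem fs_xor (e : α ≃ Fin n) (m k : ℕ) : fs e (m ^^^ k) = symmDiff (fs e m) (fs e k) := by
  ext p
  rw [mem_fs, Nat.testBit_xor, Finset.mem_symmDiff, mem_fs, mem_fs]
  cases m.testBit (e p) <;> cases k.testBit (e p) <;> simp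

theorem msk_inter (e : α ≃ Fin n) (s t : Finset α) : msk e (s ∩ t) = msk e s &&& msk e t := by
  apply fs_inj e (msk_lt _ _) (lt_of_le_of_lt Nat.and_le_left (msk_lt e s))
  rw [fs_land, fs_msk, fs_msk, fs_msk]

theorem msk_union (e : α ≃ Fin n) (s t : Finset α) : msk e (s ∪ t) = msk e s ||| msk e t := by
  apply fs_inj e (msk_lt _ _) (Nat.or_lt_two_pow (msk_lt _ _) (msk_lt _ _))
  rw [fs_lor, fs_msk, fs_msk, fs_msk]

theorem msk_xor (e : α ≃ Fin n) (s t : Finset α) : msk e (symmDiff s t) = msk e s ^^^ msk e t := by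
  apply fs_inj e (msk_lt _ _) (Nat.xor_lt_two_pow (msk_lt _ _) (msk_lt _ _))
  rw [fs_xor, fs_msk, fs_msk, fs_msk]

theorem fs_zero (e : α ≃ Fin n) : fs e 0 = ∅ := by ext p; simp [mem_fs]

theorem msk_empty (e : α ≃ Fin n) : msk e ∅ = 0 := by
  apply fs_inj e (msk_lt _ _) (Nat.two_pow_pos n)
  rw [fs_msk, fs_zero]

theorem card_fs (e : α ≃ Fin n) (hn : n ≤ 24) {m : ℕ} (hm : m < 2 ^ n) : (fs e m).card = pop m := by
  have hm24 : m < 2 ^ 24 := lt_of_lt_of_le hm (Nat.pow_le_pow_right (by norm_num) hn)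
  rw [pop_eq_sum hm24, fs, Finset.card_filter, ← Equiv.sum_comp e.symm]
  have h1 : ∑ i ∈ Finset.range 24, (m.testBit i).toNat = ∑ i ∈ Finset.range n, (m.testBit i).toNat := by
    symm
    apply Finset.sum_subset (Finset.range_subset_range.mpr hn)
    intro i _ hi
    rw [Finset.mem_range, not_lt] at hi
    rw [Nat.testBit_lt_two_pow (lt_of_lt_of_le hm (Nat.pow_le_pow_right (by norm_num) hi))]; rfl
  rw [h1, ← Fin.sum_univ_eq_sum_range (fun i => (m.testBit i).toNat)]
  apply Finset.sum_congr rfl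
  intro i _
  rw [Equiv.apply_symm_apply]
  cases m.testBit i <;> rfl

theorem card_eq (e : α ≃ Fin n) (hn : n ≤ 24) (s : Finset α) : s.card = pop (msk e s) := by
  rw [← card_fs e hn (msk_lt e s), fs_msk]

theorem msk_singleton (e : α ≃ Fin n) (a : α) : msk e {a} = 2 ^ (e a : ℕ) := by
  apply ext_msk e (msk_lt _ _) (Nat.pow_lt_pow_right (by norm_num) (e a).2)
  intro b
  rw [testBit_msk, Nat.testBit_two_pow]
  by_cases h : b = a
  · subst h; simp
  · have : ¬ ((e a : ℕ) = (e b : ℕ)) := fun h' => h (e.injective (Fin.ext h'.symm))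
    simp [h, this]

theorem mem_iff (e : α ≃ Fin n) {s : Finset α} {a : α} : a ∈ s ↔ (msk e s).testBit (e a) = true := by
  rw [testBit_msk, decide_eq_true_iff]

theorem subset_iff (e : α ≃ Fin n) {s t : Finset α} : s ⊆ t ↔ msk e s &&& msk e t = msk e s := by
  rw [← msk_inter, ← Finset.inter_eq_left]
  exact ⟨fun h => by rw [h], fun h => msk_inj e h⟩

/-- a labeling with a prescribed list of points -/
theorem exists_label (l : List α) (hl : l.Nodup) (hn : l.length = n) (hc : Fintype.card α = n) :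
    ∃ e : α ≃ Fin n, ∀ (i : ℕ) (hi : i < l.length), (e l[i] : ℕ) = i := by
  subst hn
  have hb : Function.Bijective (fun i : Fin l.length => l[(i : ℕ)]) := by
    rw [Fintype.bijective_iff_injective_and_card]
    refine ⟨?_, by simp [hc]⟩
    intro i j hij
    exact Fin.ext ((List.Nodup.getElem_inj_iff hl).mp hij)
  refine ⟨(Equiv.ofBijective _ hb).symm, ?_⟩
  intro i hi
  have : l[i] = Equiv.ofBijective _ hb ⟨i, hi⟩ := rfl
  rw [this, Equiv.symm_apply_apply]

/-- relabeling by a packed permutation -/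
theorem msk_trans (e : α ≃ Fin n) (hn : n ≤ 24) (σ : Fin n ≃ Fin n) (P : ℕ) (h : ∀ i : Fin n, (σ i : ℕ) = img P i) (s : Finset α) :
    msk (e.trans σ) s = act P (msk e s) := by
  have hact : ∀ j, (act P (msk e s)).testBit j = true ↔ ∃ i : Fin n, (msk e s).testBit i = true ∧ (σ i : ℕ) = j := by
    intro j
    rw [testBit_act]
    constructor
    · rintro ⟨i, hi, h1, h2⟩
      have hin : i < n := by
        by_contra hc
        push Not at hc
        rw [Nat.testBit_lt_two_pow (lt_of_lt_of_le (msk_lt e s) (Nat.pow_le_pow_right (by norm_num) hc))] at h1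
        exact Bool.noConfusion h1
      exact ⟨⟨i, hin⟩, h1, by rw [h]; exact h2⟩
    · rintro ⟨i, h1, h2⟩
      exact ⟨i, lt_of_lt_of_le i.2 hn, h1, by rw [← h]; exact h2⟩
  apply Nat.eq_of_testBit_eq
  intro j
  rw [Bool.eq_iff_iff, hact]
  by_cases hj : j < n
  · have h1 := testBit_msk' (e.trans σ) s ⟨j, hj⟩
    simp only at h1
    rw [h1, decide_eq_true_iff]
    constructor
    · intro h2
      refine ⟨σ.symm ⟨j, hj⟩, ?_, by simp⟩
      rw [testBit_msk', decide_eq_true_iff]; exact h2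
    · rintro ⟨i, h2, h3⟩
      rw [testBit_msk', decide_eq_true_iff] at h2
      have : σ i = ⟨j, hj⟩ := Fin.ext h3
      rw [← this]
      simpa using h2
  · push Not at hj
    rw [Nat.testBit_lt_two_pow (lt_of_lt_of_le (msk_lt _ s) (Nat.pow_le_pow_right (by norm_num) hj))]
    constructor
    · intro h; exact Bool.noConfusion h
    · rintro ⟨i, -, h3⟩
      have := (σ i).2
      omega

end CfsgLib.Mask
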