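import Mathlib
import Cfsg.Agent.Lib.Steiner
import Cfsg.Agent.Lib.Mask
import Cfsg.Agent.Lib.GolayDod

/-!
Uniqueness of the Steiner systems S(3,6,22), S(4,7,23) and S(5,8,24).
-/

set_option autoImplicit false

namespace CfsgLib.SteinerV

open CfsgLib.Golay CfsgLib.Mask CfsgLib.Steiner Finset Cfsg
open scoped Pointwise

/-! ### sets with even intersections with enough octads -/

def gensS : List ℕ := [0xe0900b, 0xc84303, 0xc12017, 0xc20c83, 0xd40063, 0xc05446, 0xd11a02, 0xc23122, 0xcc1092, 0xe140a2, 0xd2c012, 0xc4680a, 0xcb004a, 0xc58502, 0xe60206, 0xc75001]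
def gensT : List ℕ := 0x49f002 :: gensS

theorem gensT_code : gensT.all (fun o => and (and (isCode o) (Nat.blt o 16777216)) (Nat.beq (pop o) 8)) = true := by decide +kernel
theorem gensS_inf : gensS.all (fun o => Nat.beq (Nat.land o 0xc00000) 0xc00000) = true := by decide +kernel
theorem low_enc : allTree (fun j => Nat.beq (Nat.land (enc j) 4095) j) (pows 12) 0 = true := by decide +kernel
theorem dual_chk : allTree (fun t => or (Nat.beq t 0) (gensT.any fun o => Nat.beq (Nat.land (pop (Nat.land (Nat.shiftLeft t 12) o)) 1) 1)) (pows 12) 0 = true := by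
  decide +kernel

theorem even_inter_code {s t : Finset GolayPt} (hs : s ∈ supports (golayCode : Set (GolayPt → ZMod 2)))
    (ht : t ∈ supports (golayCode : Set (GolayPt → ZMod 2))) : Even (s ∩ t).card := by
  have h1 := supports_card hs
  have h2 := supports_card ht
  have h3 := supports_card (symmDiff_mem hs ht)
  have h4 := card_symmDiff' s t
  rw [Nat.even_iff]; omega

theorem mem_of_even {s : Finset GolayPt} (h : ∀ o ∈ gensT, Even (s ∩ toFS o).card) : s ∈ supports (golayCode : Set (GolayPt → ZMod 2)) := by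
  set j := mask s &&& 4095 with hj
  have hj4 : j < 4096 := lt_of_le_of_lt Nat.and_le_right (by norm_num)
  have hc := InC_enc hj4
  have hcl : enc j < 2 ^ 24 := hc.1
  have hlow : enc j &&& 4095 = j := Nat.eq_of_beq_eq_true (forall_lt_pow _ 12 low_enc j hj4)
  have hum : mask (symmDiff s (toFS (enc j))) = mask s ^^^ enc j := by rw [mask_xor, mask_toFS hcl]
  have hu0 : mask (symmDiff s (toFS (enc j))) &&& 4095 = 0 := by
    rw [hum, Nat.and_xor_distrib_right, hlow, ← hj, Nat.xor_self]
  set t := mask (symmDiff s (toFS (enc j))) >>> 12 with ht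
  have htl : t < 4096 := by
    rw [ht, Nat.shiftRight_eq_div_pow]
    have := mask_lt (symmDiff s (toFS (enc j)))
    omega
  have hut : mask (symmDiff s (toFS (enc j))) = t <<< 12 := by
    rw [ht, Nat.shiftRight_eq_div_pow, Nat.shiftLeft_eq]
    have h1 : mask (symmDiff s (toFS (enc j))) % 2 ^ 12 = 0 := by
      rw [← Nat.and_two_pow_sub_one_eq_mod]; exact hu0
    omega
  have h1 := forall_lt_pow _ 12 dual_chk t htl
  have h2 : Nat.beq t 0 = true := by
    simp only [Bool.or_eq_true] at h1
    rcases h1 with h1 | h1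
    · exact h1
    · exfalso
      rw [List.any_eq_true] at h1
      obtain ⟨o, ho, h3⟩ := h1
      have h4 := List.all_eq_true.mp gensT_code o ho
      simp only [Bool.and_eq_true] at h4
      have holt : o < 2 ^ 24 := Nat.le_of_ble_eq_true h4.1.2
      have hos : toFS o ∈ supports (golayCode : Set (GolayPt → ZMod 2)) := (InC_of_isCode h4.1.1).2
      have h5 : Even (symmDiff s (toFS (enc j)) ∩ toFS o).card := by
        have e : symmDiff s (toFS (enc j)) ∩ toFS o = symmDiff (s ∩ toFS o) (toFS (enc j) ∩ toFS o) := by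
          ext x; simp only [Finset.mem_inter, Finset.mem_symmDiff]; tauto
        have h6 := card_symmDiff' (s ∩ toFS o) (toFS (enc j) ∩ toFS o)
        have h7 := h o ho
        have h8 := even_inter_code hc.2 hos
        rw [e]
        rw [Nat.even_iff] at h7 h8 ⊢
        omega
      rw [card_eq_pop, mask_inter, mask_toFS holt, hut] at h5
      have h6 : pop (Nat.land (Nat.shiftLeft t 12) o) &&& 1 = 1 := Nat.eq_of_beq_eq_true h3
      rw [Nat.and_one_is_mod] at h6
      rw [Nat.even_iff] at h5
      have h7 : pop (Nat.land (Nat.shiftLeft t 12) o) = pop (t <<< 12 &&& o) := rfl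
      omega
  have h3 : t = 0 := Nat.eq_of_beq_eq_true h2
  have h4 : symmDiff s (toFS (enc j)) = ∅ := by
    rw [← toFS_mask (symmDiff s (toFS (enc j))), hut, h3]
    exact toFS_zero
  have h5 : s = toFS (enc j) := symmDiff_eq_bot.mp h4
  rw [h5]; exact hc.2

/-- the two extra points -/
def inf2 : Finset GolayPt := toFS 0xc00000

theorem card_inf2 : inf2.card = 2 := by rw [inf2, card_toFS (by norm_num)]; decide +kernel

theorem mem_of_even₂ {s : Finset GolayPt} (h : ∀ o ∈ gensS, Even (s ∩ toFS o).card) :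
    s ∈ supports (golayCode : Set (GolayPt → ZMod 2)) ∨ symmDiff s inf2 ∈ supports (golayCode : Set (GolayPt → ZMod 2)) := by
  by_cases h0 : Even (s ∩ toFS 0x49f002).card
  · left
    apply mem_of_even
    intro o ho
    rcases List.mem_cons.mp ho with rfl | ho
    · exact h0
    · exact h o ho
  · right
    apply mem_of_even
    intro o ho
    have e : symmDiff s inf2 ∩ toFS o = symmDiff (s ∩ toFS o) (inf2 ∩ toFS o) := by
      ext x; simp only [Finset.mem_inter, Finset.mem_symmDiff]; tauto
    have h6 := card_symmDiff' (s ∩ toFS o) (inf2 ∩ toFS o)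
    rw [e]
    rcases List.mem_cons.mp ho with rfl | ho
    · have h7 : (inf2 ∩ toFS 0x49f002).card = 1 := by
        rw [inf2, ← toFS_land, card_toFS (by decide)]; decide +kernel
      rw [Nat.not_even_iff] at h0
      rw [Nat.even_iff]; omega
    · have h7 : (inf2 ∩ toFS o).card = 2 := by
        have h8 : Nat.land o 0xc00000 = 0xc00000 := Nat.eq_of_beq_eq_true (List.all_eq_true.mp gensS_inf o ho)
        have h9 : inf2 ∩ toFS o = inf2 := by
          rw [inf2, ← toFS_land, Nat.land_comm]
          congr 1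
        rw [h9, card_inf2]
      have h8 := h o ho
      rw [Nat.even_iff] at h8 ⊢
      omega

/-! ### the base case S(3,6,22) -/

section s22
variable {α : Type*} [Fintype α] [DecidableEq α] (hα : Fintype.card α = 22) {B : Set (Finset α)} (hB : IsSteinerSystem 3 6 B)

def flat : Fin 15 → Fin 6 → Fin 6 := ![![0, 3, 1, 2, 4, 5], ![0, 1, 2, 5, 3, 4], ![0, 3, 1, 5, 2, 4], ![0, 5, 1, 4, 2, 3], ![0, 5, 1, 2, 3, 4], ![0, 4, 1, 5, 2, 3], ![0, 2, 1, 4, 3, 5], ![0, 2, 1, 3, 4, 5], ![0, 4, 1, 2, 3, 5], ![0, 4, 1, 3, 2, 5], ![0, 3, 1, 4, 2, 5], ![0, 1, 2, 4, 3, 5], ![0, 2, 1, 5, 3, 4], ![0, 5, 1, 3, 2, 4], ![0, 1, 2, 3, 4, 5]]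
def part : Fin 15 → Fin 6 → Fin 6 := ![![3, 2, 1, 0, 5, 4], ![1, 0, 5, 4, 3, 2], ![3, 5, 4, 0, 2, 1], ![5, 4, 3, 2, 1, 0], ![5, 2, 1, 4, 3, 0], ![4, 5, 3, 2, 0, 1], ![2, 4, 0, 5, 1, 3], ![2, 3, 0, 1, 5, 4], ![4, 2, 1, 5, 0, 3], ![4, 3, 5, 1, 0, 2], ![3, 4, 5, 0, 1, 2], ![1, 0, 4, 5, 2, 3], ![2, 5, 0, 4, 3, 1], ![5, 3, 4, 1, 2, 0], ![1, 0, 3, 2, 5, 4]]
def MM : Fin 6 → Fin 6 → ℕ := ![![0x0, 0x20900b, 0x84303, 0x12017, 0x20c83, 0x140063], ![0x20900b, 0x0, 0x5446, 0x111a02, 0x23122, 0xc1092], ![0x84303, 0x5446, 0x0, 0x2140a2, 0x12c012, 0x4680a], ![0x12017, 0x111a02, 0x2140a2, 0x0, 0xb004a, 0x58502], ![0x20c83, 0x23122, 0x12c012, 0xb004a, 0x0, 0x260206], ![0x140063, 0xc1092, 0x4680a, 0x58502, 0x260206, 0x0]]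

abbrev T22 : Type := Unit ⊕ Fin 6 ⊕ Fin 15

def code22 : T22 → Fin 22
  | Sum.inl _ => 1
  | Sum.inr (Sum.inl i) => (![0, 12, 14, 16, 17, 18] : Fin 6 → Fin 22) i
  | Sum.inr (Sum.inr k) => (![2, 3, 4, 5, 6, 7, 8, 9, 10, 11, 13, 15, 19, 20, 21] : Fin 15 → Fin 22) k

theorem code22_inj : Function.Injective code22 := by decide +kernel

theorem flat_spec : ∀ k, (∀ i j, i ≠ j → flat k i ≠ flat k j) ∧ (∀ i, ∃ m : Fin 6, flat k m = i ∧ part k i = flat k (![1, 0, 3, 2, 5, 4] m)) := by decide +kernel
theorem part_ne : ∀ k k', k ≠ k' → ∃ i, part k i ≠ part k' i := by decide +kernel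
theorem part_avoid : ∀ k m, ∃ i, m ≠ i ∧ m ≠ part k i := by decide +kernel
theorem part_self : ∀ k i, part k i ≠ i := by decide +kernel

theorem chkMM : ∀ i j : Fin 6, i ≠ j → (MM i j) < 2 ^ 22 ∧ pop (MM i j) = 6 ∧ ((MM i j).testBit (code22 (Sum.inl ())) = true) ∧
    (∀ m : Fin 6, (MM i j).testBit (code22 (Sum.inr (Sum.inl m))) = true → m = i ∨ m = j) ∧
    (∀ k : Fin 15, (MM i j).testBit (code22 (Sum.inr (Sum.inr k))) = true → part k i = j) := by decide +kernel
theorem chkO : pop 0x75001 = 6 ∧ ((0x75001 : ℕ).testBit (code22 (Sum.inl ())) = false) ∧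
    (∀ k : Fin 15, (0x75001 : ℕ).testBit (code22 (Sum.inr (Sum.inr k))) = false) := by decide +kernel
theorem chkAll : gensS = (((List.finRange 6).flatMap fun i => (List.finRange 6).flatMap fun j => if i < j then [MM i j ||| 0xc00000] else [])) ++ [0x75001 ||| 0xc00000] := by
  decide +kernel

include hα hB

theorem base22 : ∃ e : α ≃ Fin 22, fs e 0x75001 ∈ B ∧ ∀ i j : Fin 6, i ≠ j → fs e (MM i j) ∈ B := by
  classical
  -- a block
  obtain ⟨T0, -, hT0⟩ := Finset.exists_subset_card_eq (s := (univ : Finset α)) (n := 3) (by rw [card_univ, hα]; norm_num)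
  obtain ⟨O, ⟨hO, -⟩, -⟩ := hB.2 T0 hT0
  have hOc := hB.1 O hO
  obtain ⟨p, hp⟩ : ∃ p, p ∉ O := by
    by_contra hcon
    push Not at hcon
    have : O = univ := Finset.eq_univ_of_forall hcon
    rw [this, Finset.card_univ, hα] at hOc
    omega
  let oe : Fin 6 ≃ O := (Finset.equivFinOfCardEq hOc).symm
  let o : Fin 6 → α := fun i => (oe i : α)
  have ho : ∀ i, o i ∈ O := fun i => (oe i).2
  have hoi : Function.Injective o := fun i j hij => oe.injective (Subtype.ext hij)
  have hos : ∀ x ∈ O, ∃ i, o i = x := fun x hx => ⟨oe.symm ⟨x, hx⟩, by simp [o]⟩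
  have hpo : ∀ i, p ≠ o i := fun i h => hp (h ▸ ho i)
  have huniq : ∀ x y z : α, x ≠ y → x ≠ z → y ≠ z → ∀ b c, b ∈ B → c ∈ B → x ∈ b → y ∈ b → z ∈ b → x ∈ c → y ∈ c → z ∈ c → b = c := by
    intro x y z hxy hxz hyz b c hb hc h1 h2 h3 h4 h5 h6
    apply (hB.2 {x, y, z} (Finset.card_eq_three.mpr ⟨x, y, z, hxy, hxz, hyz, rfl⟩)).unique ⟨hb, _⟩ ⟨hc, _⟩
    · intro w hw
      simp only [Finset.mem_insert, Finset.mem_singleton] at hw
      rcases hw with rfl | rfl | rfl <;> assumption
    · intro w hw
      simp only [Finset.mem_insert, Finset.mem_singleton] at hw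
      rcases hw with rfl | rfl | rfl <;> assumption
  have hex : ∀ x y z : α, x ≠ y → x ≠ z → y ≠ z → ∃ b ∈ B, x ∈ b ∧ y ∈ b ∧ z ∈ b := by
    intro x y z hxy hxz hyz
    obtain ⟨b, ⟨hb, hsub⟩, -⟩ := hB.2 {x, y, z} (Finset.card_eq_three.mpr ⟨x, y, z, hxy, hxz, hyz, rfl⟩)
    exact ⟨b, hb, hsub (by simp), hsub (by simp), hsub (by simp)⟩
  have hb' : ∀ i j : Fin 6, ∃ b, i ≠ j → b ∈ B ∧ p ∈ b ∧ o i ∈ b ∧ o j ∈ b := by
    intro i j
    by_cases h : i = j
    · exact ⟨∅, fun h' => absurd h h'⟩
    · obtain ⟨b, hb, h1, h2, h3⟩ := hex p (o i) (o j) (hpo i) (hpo j) (fun h' => h (hoi h'))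
      exact ⟨b, fun _ => ⟨hb, h1, h2, h3⟩⟩
  choose b hbp using hb'
  -- blocks through p meet O in 0 or 2
  have hmeet : ∀ c ∈ B, p ∈ c → ∀ i, o i ∈ c → ∃ j, j ≠ i ∧ ∀ m, o m ∈ c ↔ m = i ∨ m = j := by
    intro c hc hpc i hi
    have hne : c ≠ O := fun h => hp (h ▸ hpc)
    have h2 : (c ∩ O).card = 2 := by
      rcases inter_3_6_22 hα hB hc hO hne with h | h
      · rw [Finset.card_eq_zero] at h
        have : o i ∈ c ∩ O := Finset.mem_inter.mpr ⟨hi, ho i⟩
        rw [h] at this; exact absurd this (Finset.notMem_empty _)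
      · exact h
    rw [Finset.card_eq_two] at h2
    obtain ⟨x, y, hxy, hxy'⟩ := h2
    have hmem : ∀ m, o m ∈ c ↔ o m = x ∨ o m = y := by
      intro m
      have : o m ∈ c ↔ o m ∈ c ∩ O := by rw [Finset.mem_inter]; exact ⟨fun h => ⟨h, ho m⟩, fun h => h.1⟩
      rw [this, hxy']; simp
    have hx : x ∈ O := (Finset.mem_inter.mp (hxy' ▸ (by simp : x ∈ ({x, y} : Finset α)))).2
    have hy : y ∈ O := (Finset.mem_inter.mp (hxy' ▸ (by simp : y ∈ ({x, y} : Finset α)))).2
    obtain ⟨m, hm⟩ := hos x hx
    obtain ⟨n, hn⟩ := hos y hy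
    have hmn : m ≠ n := fun h => hxy (by rw [← hm, ← hn, h])
    have hmem' : ∀ k, o k ∈ c ↔ k = m ∨ k = n := by
      intro k
      rw [hmem, ← hm, ← hn]
      constructor
      · rintro (h | h)
        · exact Or.inl (hoi h)
        · exact Or.inr (hoi h)
      · rintro (h | h)
        · exact Or.inl (by rw [h])
        · exact Or.inr (by rw [h])
    rcases (hmem' i).mp hi with h | h
    · subst h; exact ⟨n, fun h => hmn h.symm, hmem'⟩
    · subst h; exact ⟨m, fun h => hmn h, fun k => by rw [hmem' k]; tauto⟩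
  have hbO : ∀ i j, i ≠ j → ∀ m, o m ∈ b i j ↔ m = i ∨ m = j := by
    intro i j hij m
    obtain ⟨hb1, hb2, hb3, hb4⟩ := hbp i j hij
    obtain ⟨k, hk, hk'⟩ := hmeet _ hb1 hb2 i hb3
    have : j = k := by
      rcases (hk' j).mp hb4 with h | h
      · exact absurd h.symm hij
      · exact h
    rw [hk' m, this]
  have hbuniq : ∀ i j, i ≠ j → ∀ c ∈ B, p ∈ c → o i ∈ c → o j ∈ c → c = b i j := by
    intro i j hij c hc h1 h2 h3
    obtain ⟨hb1, hb2, hb3, hb4⟩ := hbp i j hij
    exact huniq p (o i) (o j) (hpo i) (hpo j) (fun h => hij (hoi h)) c (b i j) hc hb1 h1 h2 h3 hb2 hb3 hb4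
  have hbsymm : ∀ i j, i ≠ j → b i j = b j i := by
    intro i j hij
    obtain ⟨hb1, hb2, hb3, hb4⟩ := hbp i j hij
    exact hbuniq j i hij.symm _ hb1 hb2 hb4 hb3
  -- the syntheme points
  have htri : ∀ f : Fin 6 → Fin 6, (∀ i j, i ≠ j → f i ≠ f j) → ∃ x, x ≠ p ∧ x ∉ O ∧ x ∈ b (f 0) (f 1) ∧ x ∈ b (f 2) (f 3) ∧ x ∈ b (f 4) (f 5) := by
    intro f hf
    obtain ⟨u1, u2, u3, u4⟩ := hbp (f 0) (f 1) (hf 0 1 (by decide))
    obtain ⟨v1, v2, v3, v4⟩ := hbp (f 2) (f 3) (hf 2 3 (by decide))
    have hne : b (f 0) (f 1) ≠ b (f 2) (f 3) := by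
      intro h
      have : o (f 2) ∈ b (f 0) (f 1) := h ▸ v3
      rcases (hbO _ _ (hf 0 1 (by decide)) _).mp this with h | h
      · exact hf 2 0 (by decide) h
      · exact hf 2 1 (by decide) h
    have h2 : (b (f 0) (f 1) ∩ b (f 2) (f 3)).card = 2 := by
      rcases inter_3_6_22 hα hB u1 v1 hne with h | h
      · rw [Finset.card_eq_zero] at h
        have : p ∈ b (f 0) (f 1) ∩ b (f 2) (f 3) := Finset.mem_inter.mpr ⟨u2, v2⟩
        rw [h] at this; exact absurd this (Finset.notMem_empty _)
      · exact h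
    obtain ⟨x, hx, hxp⟩ := Finset.exists_mem_ne (by rw [h2]; norm_num) p (s := b (f 0) (f 1) ∩ b (f 2) (f 3))
    rw [Finset.mem_inter] at hx
    have hxO : x ∉ O := by
      intro h
      obtain ⟨m, rfl⟩ := hos x h
      have h3 := (hbO _ _ (hf 0 1 (by decide)) _).mp hx.1
      have h4 := (hbO _ _ (hf 2 3 (by decide)) _).mp hx.2
      rcases h3 with h3 | h3 <;> rcases h4 with h4 | h4
      · exact hf 0 2 (by decide) (h3.symm.trans h4)
      · exact hf 0 3 (by decide) (h3.symm.trans h4)
      · exact hf 1 2 (by decide) (h3.symm.trans h4)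
      · exact hf 1 3 (by decide) (h3.symm.trans h4)
    refine ⟨x, hxp, hxO, hx.1, hx.2, ?_⟩
    have hxo : ∀ i, x ≠ o i := fun i h => hxO (h ▸ ho i)
    obtain ⟨c, hc, c1, c2, c3⟩ := hex p x (o (f 4)) hxp.symm (hpo _) (hxo _)
    obtain ⟨m, hm, hm'⟩ := hmeet c hc c1 _ c3
    have key : ∀ i j k, f i ≠ f j → i ≠ k → j ≠ k → x ∈ b (f i) (f j) → m = f i → c = b (f i) (f j) → o (f k) ∈ c → False := by
      intro i j k hij hik hjk _ _ hc' hk
      rw [hc'] at hk
      rcases (hbO _ _ hij _).mp hk with h | h
      · exact hf k i (Ne.symm hik) h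
      · exact hf k j (Ne.symm hjk) h
    have hm4 : o m ∈ c := (hm' m).mpr (Or.inr rfl)
    -- m is one of f 0 .. f 5
    have hsurj : Function.Surjective f := Finite.injective_iff_surjective.mp (fun i j hij => by by_contra h; exact hf i j h hij)
    obtain ⟨n, hn⟩ := hsurj m
    have hcase : ∀ i j, i ≠ j → f i = m → i ≠ 4 → j ≠ 4 → x ∈ b (f i) (f j) → False := by
      intro i j hij him hi4 hj4 hxb
      obtain ⟨w1, w2, w3, w4⟩ := hbp (f i) (f j) (hf i j hij)
      have hcb : c = b (f i) (f j) := by
        apply huniq p x (o (f i)) hxp.symm (hpo _) (hxo _) c _ hc w1 c1 c2 _ w2 hxb w3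
        rw [him]; exact hm4
      exact key i j 4 (hf i j hij) hi4 hj4 hxb him.symm hcb c3
    fin_cases n
    · exact (hcase 0 1 (by decide) hn (by decide) (by decide) hx.1).elim
    · exact (hcase 1 0 (by decide) hn (by decide) (by decide) (by rw [hbsymm _ _ (hf 1 0 (by decide))]; exact hx.1)).elim
    · exact (hcase 2 3 (by decide) hn (by decide) (by decide) hx.2).elim
    · exact (hcase 3 2 (by decide) hn (by decide) (by decide) (by rw [hbsymm _ _ (hf 3 2 (by decide))]; exact hx.2)).elim
    · exact absurd hn.symm hm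
    · have hn' : f 5 = m := hn
      have : c = b (f 4) (f 5) := hbuniq _ _ (hf 4 5 (by decide)) c hc c1 c3 (by rw [hn']; exact hm4)
      rw [← this]; exact c2
  have hX' : ∀ k : Fin 15, ∃ x, x ≠ p ∧ x ∉ O ∧ ∀ i, x ∈ b i (part k i) := by
    intro k
    obtain ⟨h1, h2⟩ := flat_spec k
    obtain ⟨x, hx1, hx2, hx3, hx4, hx5⟩ := htri (flat k) h1
    refine ⟨x, hx1, hx2, ?_⟩
    intro i
    obtain ⟨m, hm, hm'⟩ := h2 i
    rw [hm', ← hm]
    fin_cases m
    · exact hx3
    · change x ∈ b (flat k 1) (flat k 0)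
      rw [hbsymm _ _ (h1 1 0 (by decide))]; exact hx3
    · exact hx4
    · change x ∈ b (flat k 3) (flat k 2)
      rw [hbsymm _ _ (h1 3 2 (by decide))]; exact hx4
    · exact hx5
    · change x ∈ b (flat k 5) (flat k 4)
      rw [hbsymm _ _ (h1 5 4 (by decide))]; exact hx5
  choose X hXp hXO hXb using hX'
  have hXinj : Function.Injective X := by
    intro k k' hkk
    by_contra hne
    obtain ⟨i, hi⟩ := part_ne k k' hne
    have h1 := hXb k i
    have h2 := hXb k' i
    rw [← hkk] at h2
    have hxo : X k ≠ o i := fun h => hXO k (h ▸ ho i)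
    obtain ⟨w1, w2, w3, w4⟩ := hbp i (part k i) (part_self k i).symm
    obtain ⟨z1, z2, z3, z4⟩ := hbp i (part k' i) (part_self k' i).symm
    have h3 : b i (part k i) = b i (part k' i) :=
      huniq p (X k) (o i) (hXp k).symm (hpo _) hxo _ _ w1 z1 w2 h1 w3 z2 h2 z3
    rw [← h3] at z4
    rcases (hbO _ _ (part_self k i).symm _).mp z4 with h | h
    · exact part_self k' i h
    · exact hi h.symm
  let L : T22 → α := Sum.elim (fun _ => p) (Sum.elim o X)
  have hLinj : Function.Injective L := by
    rintro (u | i | k) (v | j | l) h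
    · rfl
    · exact absurd h (hpo j)
    · exact absurd h.symm (hXp l)
    · exact absurd h.symm (hpo i)
    · exact congrArg _ (congrArg _ (hoi h))
    · have h' : o i = X l := h
      exact absurd (h' ▸ ho i : X l ∈ O) (hXO l)
    · exact absurd h (hXp k)
    · have h' : X k = o j := h
      exact absurd (h'.symm ▸ ho j : X k ∈ O) (hXO k)
    · exact congrArg _ (congrArg _ (hXinj h))
  have hLbij : Function.Bijective L := by
    rw [Fintype.bijective_iff_injective_and_card]
    exact ⟨hLinj, by rw [hα]; rfl⟩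
  have hcbij : Function.Bijective code22 := by
    rw [Fintype.bijective_iff_injective_and_card]
    exact ⟨code22_inj, rfl⟩
  let e : α ≃ Fin 22 := (Equiv.ofBijective L hLbij).symm.trans (Equiv.ofBijective code22 hcbij)
  have heL : ∀ t, e (L t) = code22 t := by
    intro t
    have : (Equiv.ofBijective L hLbij).symm (L t) = t := (Equiv.ofBijective L hLbij).symm_apply_apply t
    change code22 ((Equiv.ofBijective L hLbij).symm (L t)) = code22 t
    rw [this]
  have hLs : ∀ a, ∃ t, L t = a := hLbij.2
  refine ⟨e, ?_, ?_⟩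
  · have hsub : fs e 0x75001 ⊆ O := by
      intro a ha
      obtain ⟨t, rfl⟩ := hLs a
      rw [mem_fs, heL] at ha
      obtain ⟨-, h1, h2⟩ := chkO
      rcases t with u | i | k
      · rw [h1] at ha; exact Bool.noConfusion ha
      · exact ho i
      · rw [h2] at ha; exact Bool.noConfusion ha
    have hc : (fs e 0x75001).card = 6 := by rw [card_fs e (by norm_num) (by norm_num)]; exact chkO.1
    rw [Finset.eq_of_subset_of_card_le hsub (by rw [hc, hOc])]
    exact hO
  · intro i j hij
    obtain ⟨h0, h1, h2, h3, h4⟩ := chkMM i j hij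
    obtain ⟨w1, w2, w3, w4⟩ := hbp i j hij
    have hsub : fs e (MM i j) ⊆ b i j := by
      intro a ha
      obtain ⟨t, rfl⟩ := hLs a
      rw [mem_fs, heL] at ha
      rcases t with u | m | k
      · exact w2
      · exact (hbO i j hij m).mpr (h3 m ha)
      · have := hXb k i
        rw [h4 k ha] at this
        exact this
    have hc : (fs e (MM i j)).card = 6 := by rw [card_fs e (by norm_num) h0]; exact h1
    rw [Finset.eq_of_subset_of_card_le hsub (by rw [hc, hB.1 _ w1])]
    exact w1

end s22


/-! ### duality -/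

theorem dual_pair {a b : GolayPt} (hab : a ≠ b) {z : Finset GolayPt} (h : ∀ o ∈ octads, a ∈ o → b ∈ o → Even (z ∩ o).card) :
    z ∈ supports (golayCode : Set (GolayPt → ZMod 2)) ∨ symmDiff z {a, b} ∈ supports (golayCode : Set (GolayPt → ZMod 2)) := by
  obtain ⟨g, hg, hmap⟩ := trans_list (l := [a, b]) (l' := [pt 22, pt 23]) (by simp [hab]) (by decide) rfl (by norm_num)
  simp only [List.map_cons, List.map_nil, List.cons.injEq, and_true] at hmap
  obtain ⟨ha, hb⟩ := hmap
  have hinf : inf2 = g • ({a, b} : Finset GolayPt) := by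
    have e1 : inf2 = {pt 22, pt 23} := by decide +kernel
    rw [e1, ← ha, ← hb]
    ext x
    rw [Finset.mem_smul_finset]
    simp [eq_comm]
  have h1 : ∀ o ∈ gensS, Even (g • z ∩ toFS o).card := by
    intro o ho
    have h2 := List.all_eq_true.mp gensT_code o (List.mem_cons_of_mem _ ho)
    simp only [Bool.and_eq_true] at h2
    have hlt : o < 2 ^ 24 := Nat.le_of_ble_eq_true h2.1.2
    have hoct : toFS o ∈ octads := by
      rw [mem_octads_iff, mask_toFS hlt]
      exact ⟨h2.1.1, Nat.eq_of_beq_eq_true h2.2⟩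
    have hland : Nat.land o 0xc00000 = 0xc00000 := Nat.eq_of_beq_eq_true (List.all_eq_true.mp gensS_inf o ho)
    have h22 : ∀ x ∈ inf2, x ∈ toFS o := by
      intro x hx
      have : inf2 = toFS o ∩ inf2 := by
        rw [inf2, ← toFS_land]
        congr 1
        exact hland.symm
      rw [this] at hx
      exact (Finset.mem_inter.mp hx).1
    have hia : a ∈ g⁻¹ • toFS o := by
      rw [Finset.mem_inv_smul_finset_iff]
      apply h22
      rw [hinf, Finset.smul_mem_smul_finset_iff]
      simp
    have hib : b ∈ g⁻¹ • toFS o := by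
      rw [Finset.mem_inv_smul_finset_iff]
      apply h22
      rw [hinf, Finset.smul_mem_smul_finset_iff]
      simp
    have h3 := h (g⁻¹ • toFS o) ((smul_mem_octads (M24.inv_mem hg)).mpr hoct) hia hib
    have h4 : g • z ∩ toFS o = g • (z ∩ g⁻¹ • toFS o) := by
      rw [smul_inter', smul_inv_smul]
    rw [h4, card_smul']
    exact h3
  rcases mem_of_even₂ h1 with h2 | h2
  · left; exact (M24_smul_supports hg).mp h2
  · right
    rw [hinf] at h2
    have h3 : symmDiff (g • z) (g • ({a, b} : Finset GolayPt)) = g • symmDiff z {a, b} := by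
      rw [symmDiff_def, symmDiff_def, Finset.sup_eq_union, Finset.sup_eq_union, Finset.smul_finset_union,
        Finset.smul_finset_sdiff, Finset.smul_finset_sdiff]
    rw [h3] at h2
    exact (M24_smul_supports hg).mp h2

theorem card_pair_not_mem {a b : GolayPt} (hab : a ≠ b) : ({a, b} : Finset GolayPt) ∉ supports (golayCode : Set (GolayPt → ZMod 2)) := by
  intro h
  have h1 := supports_card h
  rw [Finset.card_pair hab] at h1
  omega

theorem dual_pt {a : GolayPt} {z : Finset GolayPt} (h : ∀ o ∈ octads, a ∈ o → Even (z ∩ o).card) :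
    z ∈ supports (golayCode : Set (GolayPt → ZMod 2)) := by
  by_contra hz
  obtain ⟨b, hb⟩ := exists_not_mem [a] (by norm_num)
  obtain ⟨c, hc⟩ := exists_not_mem [a, b] (by norm_num)
  simp only [List.mem_cons, List.not_mem_nil, or_false, not_or] at hb hc
  have h1 := dual_pair (Ne.symm hb) (z := z) (fun o ho h1 _ => h o ho h1)
  have h2 := dual_pair (Ne.symm hc.1) (z := z) (fun o ho h1 _ => h o ho h1)
  have h3 := symmDiff_mem (h1.resolve_left hz) (h2.resolve_left hz)
  have e : symmDiff (symmDiff z {a, b}) (symmDiff z {a, c}) = {b, c} := by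
    rw [symmDiff_symmDiff_symmDiff_comm, symmDiff_self, bot_symmDiff]
    ext x
    simp only [Finset.mem_symmDiff, Finset.mem_insert, Finset.mem_singleton]
    constructor
    · rintro (⟨h1 | h1, h2⟩ | ⟨h1 | h1, h2⟩)
      · exact absurd (Or.inl h1) h2
      · exact Or.inl h1
      · exact absurd (Or.inl h1) h2
      · exact Or.inr h1
    · rintro (h1 | h1)
      · left; refine ⟨Or.inr h1, ?_⟩
        rintro (h2 | h2)
        · exact hb (h1.symm.trans h2)
        · exact hc.2 (h2.symm.trans h1)
      · right; refine ⟨Or.inr h1, ?_⟩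
        rintro (h2 | h2)
        · exact hc.1 (h1.symm.trans h2)
        · exact hc.2 (h1.symm.trans h2)
  rw [e] at h3
  exact card_pair_not_mem (Ne.symm hc.2) h3

/-! ### labelings -/

section lab
variable {α : Type*} [Fintype α] [DecidableEq α]

/-- points outside the image -/
def out (f : α → GolayPt) : Finset GolayPt := (univ.image f)ᶜ

theorem mem_out {f : α → GolayPt} {x : GolayPt} : x ∈ out f ↔ ∀ a, f a ≠ x := by
  simp [out]

/-- a labeling of a system by Golay points -/
def Lab (f : α → GolayPt) (B : Set (Finset α)) : Prop :=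
  Function.Injective f ∧ ∀ s : Finset α, s ∈ B ↔ s.image f ∪ out f ∈ octads

theorem card_out {f : α → GolayPt} (hf : Function.Injective f) : (out f).card + Fintype.card α = 24 := by
  have h1 : (univ.image f).card = Fintype.card α := by rw [Finset.card_image_of_injective _ hf, Finset.card_univ]
  have h2 := Finset.card_compl_add_card (univ.image f)
  have h3 : Fintype.card GolayPt = 24 := by decide
  rw [h3, h1] at h2
  exact h2

theorem disj_out (f : α → GolayPt) (s : Finset α) : Disjoint (s.image f) (out f) := by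
  rw [Finset.disjoint_left]
  intro x hx hx'
  obtain ⟨a, -, rfl⟩ := Finset.mem_image.mp hx
  exact mem_out.mp hx' a rfl

theorem card_image_union {f : α → GolayPt} (hf : Function.Injective f) (s : Finset α) : (s.image f ∪ out f).card = s.card + (out f).card := by
  rw [Finset.card_union_of_disjoint (disj_out f s), Finset.card_image_of_injective _ hf]

theorem lab_of_mem {B : Set (Finset α)} {t k : ℕ} (hB : IsSteinerSystem t k B) {f : α → GolayPt} (hf : Function.Injective f)
    (ht : t + (out f).card = 5) (hk : k + (out f).card = 8) (h : ∀ s ∈ B, s.image f ∪ out f ∈ octads) : Lab f B := by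
  refine ⟨hf, fun s => ⟨h s, fun hs => ?_⟩⟩
  have hc : s.card + (out f).card = 8 := by
    rw [← card_image_union hf]
    exact (mem_octads_iff.mp hs).2 ▸ card_eq_pop _
  obtain ⟨T, hTs, hT⟩ := Finset.exists_subset_card_eq (s := s) (n := t) (by omega)
  obtain ⟨c, ⟨hc1, hc2⟩, -⟩ := hB.2 T hT
  have h1 := h c hc1
  have h2 : s.image f ∪ out f = c.image f ∪ out f := by
    apply eq_of_five hs h1
    have h3 : T.image f ∪ out f ⊆ (s.image f ∪ out f) ∩ (c.image f ∪ out f) := by
      apply Finset.union_subset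
      · exact Finset.subset_inter ((Finset.image_subset_image hTs).trans Finset.subset_union_left) ((Finset.image_subset_image hc2).trans Finset.subset_union_left)
      · exact Finset.subset_inter Finset.subset_union_right Finset.subset_union_right
    have h4 := Finset.card_le_card h3
    rw [card_image_union hf, hT, ht] at h4
    exact h4
  have h3 : s.image f = c.image f := by
    have e1 := Finset.union_sdiff_cancel_right (disj_out f s)
    have e2 := Finset.union_sdiff_cancel_right (disj_out f c)
    rw [← e1, h2, e2]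
  have h4 : s = c := Finset.image_injective hf h3
  rw [h4]; exact hc1

theorem lab22 (hα : Fintype.card α = 22) {B : Set (Finset α)} (hB : IsSteinerSystem 3 6 B) : ∃ f, Lab f B := by
  obtain ⟨e, h0, h1⟩ := base22 hα hB
  let f : α → GolayPt := fun a => pt (e a)
  have hidx : ∀ a, idx (f a) = e a := fun a => idx_pt (lt_trans (e a).2 (by norm_num))
  have hf : Function.Injective f := by
    intro a b hab
    apply e.injective
    apply Fin.ext
    rw [← hidx, ← hidx, hab]
  have hout : out f = inf2 := by
    ext x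
    rw [mem_out, inf2, mem_toFS]
    have hx := idx_lt x
    constructor
    · intro h
      by_contra hcon
      have hlt : idx x < 22 := by
        by_contra hge
        push Not at hge
        have : idx x = 22 ∨ idx x = 23 := by omega
        rcases this with h2 | h2 <;> rw [h2] at hcon <;> exact hcon (by decide)
      apply h (e.symm ⟨idx x, hlt⟩)
      apply idx_injective
      rw [hidx]; simp
    · intro h a ha
      rw [← ha, hidx] at h
      have : ∀ i : Fin 22, (0xc00000 : ℕ).testBit i = false := by decide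
      rw [this] at h
      exact Bool.noConfusion h
  have hfs : ∀ k, (fs e k).image f = toFS k ∩ (univ.image f) := by
    intro k
    ext x
    simp only [Finset.mem_image, mem_fs, Finset.mem_inter, mem_toFS, Finset.mem_univ, true_and]
    constructor
    · rintro ⟨a, h1, rfl⟩
      exact ⟨by rw [hidx]; exact h1, a, rfl⟩
    · rintro ⟨h1, a, rfl⟩
      exact ⟨a, by rw [hidx] at h1; exact h1, rfl⟩
  have hlow : ∀ k, k < 2 ^ 22 → toFS (k ||| 0xc00000) = (fs e k).image f ∪ out f := by
    intro k hk
    rw [toFS_lor, hout]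
    have e1 : (fs e k).image f = toFS k := by
      rw [hfs, Finset.inter_eq_left]
      intro x hx
      by_contra hcon
      have : x ∈ out f := by rw [out, Finset.mem_compl]; exact hcon
      rw [hout, inf2] at this
      have h2 : x ∈ toFS (k &&& 0xc00000) := by rw [toFS_land]; exact Finset.mem_inter.mpr ⟨hx, this⟩
      have h3 : k &&& 0xc00000 = 0 := by
        apply Nat.eq_of_testBit_eq
        intro i
        rw [Nat.testBit_and, Nat.zero_testBit]
        by_cases hi : i < 22
        · have : ∀ i : Fin 22, (0xc00000 : ℕ).testBit i = false := by decide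
          rw [this ⟨i, hi⟩, Bool.and_false]
        · push Not at hi
          rw [Nat.testBit_lt_two_pow (lt_of_lt_of_le hk (Nat.pow_le_pow_right (by norm_num) hi)), Bool.false_and]
      rw [h3, toFS_zero] at h2
      exact absurd h2 (Finset.notMem_empty _)
    rw [e1]
    rfl
  refine ⟨f, lab_of_mem hB hf ?_ ?_ ?_⟩
  · rw [hout, card_inf2]
  · rw [hout, card_inf2]
  · intro s hs
    have hsc := hB.1 s hs
    have key : ∀ o ∈ gensS, Even ((s.image f ∪ out f) ∩ toFS o).card := by
      intro o ho
      have hB' : ∃ k, k < 2 ^ 22 ∧ o = k ||| 0xc00000 ∧ fs e k ∈ B := by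
        rw [chkAll, List.mem_append, List.mem_flatMap] at ho
        rcases ho with ⟨i, -, ho⟩ | ho
        · rw [List.mem_flatMap] at ho
          obtain ⟨j, -, ho⟩ := ho
          by_cases hij : i < j
          · rw [if_pos hij, List.mem_singleton] at ho
            exact ⟨MM i j, (chkMM i j (ne_of_lt hij)).1, ho, h1 i j (ne_of_lt hij)⟩
          · rw [if_neg hij] at ho; exact absurd ho List.not_mem_nil
        · rw [List.mem_singleton] at ho
          exact ⟨0x75001, by norm_num, ho, h0⟩
      obtain ⟨k, hk, rfl, hkB⟩ := hB'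
      rw [hlow k hk, ← Finset.inter_union_distrib_right, ← Finset.image_inter _ _ hf, card_image_union hf, hout, card_inf2]
      by_cases hsk : s = fs e k
      · rw [← hsk, Finset.inter_self, hsc]; decide
      · rcases inter_3_6_22 hα hB hs hkB hsk with h | h <;> rw [h] <;> decide
    rcases mem_of_even₂ key with h2 | h2
    · rw [mem_octads_iff]
      refine ⟨mem_supports_iff.mp h2, ?_⟩
      rw [← card_eq_pop, card_image_union hf, hout, card_inf2, hsc]
    · exfalso
      have e2 : symmDiff (s.image f ∪ out f) inf2 = s.image f := by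
        rw [← hout]
        ext x
        have hd : x ∈ s.image f → x ∉ out f := fun h => Finset.disjoint_left.mp (disj_out f s) h
        simp only [Finset.mem_symmDiff, Finset.mem_union]
        tauto
      rw [e2] at h2
      have h3 := supports_card h2
      rw [Finset.card_image_of_injective _ hf, hsc] at h3
      omega


theorem derived {t k : ℕ} {B : Set (Finset α)} (hB : IsSteinerSystem (t + 1) (k + 1) B) (p : α) :
    IsSteinerSystem t k {b' : Finset {a : α // a ≠ p} | ∃ b ∈ B, p ∈ b ∧ b' = Finset.subtype (fun a => a ≠ p) b} := by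
  refine ⟨?_, ?_⟩
  · rintro _ ⟨b, hb, hp, rfl⟩
    rw [Finset.card_subtype]
    have h1 : b.filter (fun a => a ≠ p) = b.erase p := by
      ext a; simp only [Finset.mem_filter, Finset.mem_erase]; tauto
    rw [h1, Finset.card_erase_of_mem hp, hB.1 b hb]; rfl
  · intro s hs
    have hps : p ∉ s.map (Function.Embedding.subtype _) := by
      intro h
      rw [Finset.mem_map] at h
      obtain ⟨a, -, ha⟩ := h
      exact a.2 ha
    have hc : (insert p (s.map (Function.Embedding.subtype _))).card = t + 1 := by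
      rw [Finset.card_insert_of_notMem hps, Finset.card_map, hs]
    obtain ⟨b, ⟨hb, hsub⟩, huniq⟩ := hB.2 _ hc
    refine ⟨Finset.subtype (fun a => a ≠ p) b, ⟨⟨b, hb, hsub (Finset.mem_insert_self _ _), rfl⟩, ?_⟩, ?_⟩
    · intro x hx
      rw [Finset.mem_subtype]
      exact hsub (Finset.mem_insert_of_mem (Finset.mem_map_of_mem _ hx))
    · rintro _ ⟨⟨c, hc, hpc, rfl⟩, hsc⟩
      have : c = b := by
        apply huniq
        refine ⟨hc, ?_⟩
        apply Finset.insert_subset hpc
        intro y hy
        rw [Finset.mem_map] at hy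
        obtain ⟨x, hx, rfl⟩ := hy
        exact Finset.mem_subtype.mp (hsc hx)
      rw [this]

theorem card_ne (q : α) {n : ℕ} (h : Fintype.card α = n + 1) : Fintype.card {a : α // a ≠ q} = n := by
  rw [Fintype.card_subtype_compl, Fintype.card_subtype_eq, h]; rfl

/-- extend a labeling of the derived points -/
def ext (q : α) (b : GolayPt) (f' : {a : α // a ≠ q} → GolayPt) : α → GolayPt :=
  fun x => if h : x = q then b else f' ⟨x, h⟩

theorem ext_q (q : α) (b : GolayPt) (f' : {a : α // a ≠ q} → GolayPt) : ext q b f' q = b := by simp [ext]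

theorem ext_ne (q : α) (b : GolayPt) (f' : {a : α // a ≠ q} → GolayPt) {x : α} (h : x ≠ q) : ext q b f' x = f' ⟨x, h⟩ := by simp [ext, h]

theorem ext_inj {q : α} {b : GolayPt} {f' : {a : α // a ≠ q} → GolayPt} (hf : Function.Injective f') (hb : b ∈ out f') :
    Function.Injective (ext q b f') := by
  intro x y hxy
  by_cases hx : x = q <;> by_cases hy : y = q
  · rw [hx, hy]
  · rw [hx, ext_q, ext_ne _ _ _ hy] at hxy
    exact absurd hxy.symm (mem_out.mp hb _)
  · rw [hy, ext_q, ext_ne _ _ _ hx] at hxy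
    exact absurd hxy (mem_out.mp hb _)
  · rw [ext_ne _ _ _ hx, ext_ne _ _ _ hy] at hxy
    exact congrArg Subtype.val (hf hxy)

theorem out_ext {q : α} {b : GolayPt} {f' : {a : α // a ≠ q} → GolayPt} : out (ext q b f') = (out f').erase b := by
  ext x
  rw [mem_out, Finset.mem_erase, mem_out]
  constructor
  · intro h
    refine ⟨fun hx => h q (by rw [ext_q, hx]), fun a ha => h a.1 (by rw [ext_ne _ _ _ a.2, ← ha])⟩
  · rintro ⟨h1, h2⟩ a ha
    by_cases hq : a = q
    · rw [hq, ext_q] at ha; exact h1 ha.symm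
    · rw [ext_ne _ _ _ hq] at ha; exact h2 _ ha

theorem image_sub {q : α} {b : GolayPt} {f' : {a : α // a ≠ q} → GolayPt} (s : Finset α) :
    (Finset.subtype (fun a => a ≠ q) s).image f' = (s.erase q).image (ext q b f') := by
  ext x
  simp only [Finset.mem_image, Finset.mem_subtype, Finset.mem_erase]
  constructor
  · rintro ⟨a, ha, rfl⟩
    exact ⟨a.1, ⟨a.2, ha⟩, ext_ne _ _ _ a.2⟩
  · rintro ⟨a, ⟨h1, h2⟩, rfl⟩
    exact ⟨⟨a, h1⟩, h2, (ext_ne _ _ _ h1).symm⟩

/-- the blocks through `q` from the derived labeling -/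
theorem derived_blocks {B : Set (Finset α)} {q : α} {b : GolayPt}
    {f' : {a : α // a ≠ q} → GolayPt} (hf : Lab f' {b' : Finset {a : α // a ≠ q} | ∃ b ∈ B, q ∈ b ∧ b' = Finset.subtype (fun a => a ≠ q) b})
    (hb : b ∈ out f') :
    (∀ c ∈ B, q ∈ c → c.image (ext q b f') ∪ out (ext q b f') ∈ octads) ∧
    (∀ o ∈ octads, out f' ⊆ o → ∃ c ∈ B, q ∈ c ∧ c.image (ext q b f') ∪ out (ext q b f') = o) := by
  have key : ∀ c : Finset α, q ∈ c → (Finset.subtype (fun a => a ≠ q) c).image f' ∪ out f' = c.image (ext q b f') ∪ out (ext q b f') := by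
    intro c hc
    rw [image_sub (b := b), out_ext]
    have e1 : c.image (ext q b f') = insert b ((c.erase q).image (ext q b f')) := by
      conv_lhs => rw [← Finset.insert_erase hc]
      rw [Finset.image_insert, ext_q]
    rw [e1, Finset.insert_union, ← Finset.union_insert, Finset.insert_erase hb]
  constructor
  · intro c hc hq
    rw [← key c hq]
    exact (hf.2 _).mp ⟨c, hc, hq, rfl⟩
  · intro o ho hsub
    have h1 : (univ.filter fun a => f' a ∈ o).image f' ∪ out f' = o := by
      ext x
      simp only [Finset.mem_union, Finset.mem_image, Finset.mem_filter, Finset.mem_univ, true_and]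
      constructor
      · rintro (⟨a, h1, rfl⟩ | h1)
        · exact h1
        · exact hsub h1
      · intro hx
        by_cases hxo : x ∈ out f'
        · exact Or.inr hxo
        · left
          rw [mem_out] at hxo
          push Not at hxo
          obtain ⟨a, rfl⟩ := hxo
          exact ⟨a, hx, rfl⟩
    obtain ⟨c, hc, hqc, hcs⟩ := (hf.2 (univ.filter fun a => f' a ∈ o)).mpr (by rw [h1]; exact ho)
    refine ⟨c, hc, hqc, ?_⟩
    rw [← key c hqc, ← hcs, h1]

theorem lab23 (hα : Fintype.card α = 23) {B : Set (Finset α)} (hB : IsSteinerSystem 4 7 B) : ∃ f, Lab f B := by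
  have hne : Nonempty α := by rw [← Fintype.card_pos_iff, hα]; norm_num
  obtain ⟨q⟩ := hne
  obtain ⟨f', hf'⟩ := lab22 (card_ne q hα) (derived hB q)
  have hout' : (out f').card = 2 := by have := card_out hf'.1; rw [card_ne q hα] at this; omega
  rw [Finset.card_eq_two] at hout'
  obtain ⟨a, b, hab, hout'⟩ := hout'
  have hb : b ∈ out f' := by rw [hout']; simp
  obtain ⟨h1, h2⟩ := derived_blocks (b := b) hf' hb
  set f := ext q b f' with hfdef
  have hf : Function.Injective f := ext_inj hf'.1 hb
  have hfq : f q = b := ext_q _ _ _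
  have hout : out f = {a} := by
    rw [hfdef, out_ext, hout']
    ext x; simp only [Finset.mem_erase, Finset.mem_insert, Finset.mem_singleton]
    constructor
    · rintro ⟨h, h' | h'⟩
      · exact h'
      · exact absurd h' h
    · rintro rfl; exact ⟨hab, Or.inl rfl⟩
  have hfa : ∀ x, f x ≠ a := fun x => mem_out.mp (by rw [hout]; simp) x
  have hodd : ∀ s ∈ B, ∀ c ∈ B, (s ∩ c).card % 2 = 1 := by
    intro s hs c hc
    by_cases h : s = c
    · subst h; rw [Finset.inter_self, hB.1 s hs]
    · rcases inter_4_7_23 hα hB hs hc h with h | h <;> omega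
  have hcls : ∀ s ∈ B, q ∉ s → s.image f ∪ {a} ∈ supports (golayCode : Set (GolayPt → ZMod 2)) ∨ s.image f ∪ {b} ∈ supports (golayCode : Set (GolayPt → ZMod 2)) := by
    intro s hs hq
    have hbs : b ∉ s.image f := by
      intro h
      obtain ⟨x, hx, hxb⟩ := Finset.mem_image.mp h
      have : x = q := hf (hxb.trans hfq.symm)
      exact hq (this ▸ hx)
    have has : a ∉ s.image f := by
      intro h
      obtain ⟨x, -, hx⟩ := Finset.mem_image.mp h
      exact hfa x hx
    have h3 := dual_pair hab (z := s.image f ∪ {a}) (by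
      intro o ho hao hbo
      obtain ⟨c, hc, hqc, hco⟩ := h2 o ho (by rw [hout']; intro x hx; simp at hx; rcases hx with rfl | rfl <;> assumption)
      rw [← hco, hout, ← Finset.inter_union_distrib_right, ← Finset.image_inter _ _ hf, ← hout, card_image_union hf, hout,
        Finset.card_singleton, Nat.even_iff]
      have := hodd s hs c hc
      omega)
    rcases h3 with h3 | h3
    · exact Or.inl h3
    · right
      have e : symmDiff (s.image f ∪ {a}) {a, b} = s.image f ∪ {b} := by
        ext x
        simp only [Finset.mem_symmDiff, Finset.mem_union, Finset.mem_insert, Finset.mem_singleton]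
        by_cases hxa : x = a
        · subst hxa; simp [has, hab]
        · by_cases hxb : x = b
          · subst hxb; simp [hbs, hxa]
          · simp [hxa, hxb]
      rwa [e] at h3
  by_cases hall : ∀ s ∈ B, q ∉ s → s.image f ∪ {a} ∈ supports (golayCode : Set (GolayPt → ZMod 2))
  · refine ⟨f, lab_of_mem hB hf ?_ ?_ ?_⟩
    · rw [hout, Finset.card_singleton]
    · rw [hout, Finset.card_singleton]
    · intro s hs
      by_cases hq : q ∈ s
      · exact h1 s hs hq
      · rw [mem_octads_iff]
        rw [hout]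
        refine ⟨mem_supports_iff.mp (hall s hs hq), ?_⟩
        rw [← card_eq_pop, ← hout, card_image_union hf, hout, Finset.card_singleton, hB.1 s hs]
  · push Not at hall
    obtain ⟨s0, hs0, hq0, hs0'⟩ := hall
    have hs0b := (hcls s0 hs0 hq0).resolve_left hs0'
    have hfs : ∀ s : Finset α, q ∉ s → b ∉ s.image f := by
      intro s hq h
      obtain ⟨x, hx, hxb⟩ := Finset.mem_image.mp h
      have : x = q := hf (hxb.trans hfq.symm)
      exact hq (this ▸ hx)
    have hfas : ∀ s : Finset α, a ∉ s.image f := by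
      intro s h
      obtain ⟨x, -, hx⟩ := Finset.mem_image.mp h
      exact hfa x hx
    have hall : ∀ s ∈ B, q ∉ s → s.image f ∪ {b} ∈ supports (golayCode : Set (GolayPt → ZMod 2)) := by
      intro s hs hq
      by_contra hcon
      have hsa := (hcls s hs hq).resolve_right hcon
      have h3 := even_inter_code hs0b hsa
      have e : (s0.image f ∪ {b}) ∩ (s.image f ∪ {a}) = (s0 ∩ s).image f := by
        rw [Finset.image_inter _ _ hf]
        ext x
        simp only [Finset.mem_inter, Finset.mem_union, Finset.mem_singleton]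
        constructor
        · rintro ⟨h4 | h4, h5 | h5⟩
          · exact ⟨h4, h5⟩
          · exact absurd (h5 ▸ h4) (hfas s0)
          · exact absurd (h4 ▸ h5) (hfs s hq)
          · exact absurd (h5.symm.trans h4) hab
        · rintro ⟨h4, h5⟩; exact ⟨Or.inl h4, Or.inl h5⟩
      rw [e, Finset.card_image_of_injective _ hf, Nat.even_iff] at h3
      have := hodd s0 hs0 s hs
      omega
    let f2 : α → GolayPt := fun x => Equiv.swap a b (f x)
    have hf2 : Function.Injective f2 := (Equiv.injective _).comp hf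
    have hf2q : f2 q = a := by simp only [f2, hfq, Equiv.swap_apply_right]
    have hf2x : ∀ x, x ≠ q → f2 x = f x := by
      intro x hx
      simp only [f2]
      exact Equiv.swap_apply_of_ne_of_ne (hfa x) (fun h => hx (hf (h.trans hfq.symm)))
    have hout2 : out f2 = {b} := by
      have hc : (out f2).card = 1 := by have := card_out hf2; rw [hα] at this; omega
      rw [Finset.card_eq_one] at hc
      obtain ⟨y, hy⟩ := hc
      have : b ∈ out f2 := by
        rw [mem_out]
        intro x hx
        by_cases hxq : x = q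
        · rw [hxq, hf2q] at hx; exact hab hx
        · rw [hf2x x hxq, ← hfq] at hx
          exact hxq (hf hx)
      rw [hy] at this ⊢
      rw [Finset.mem_singleton] at this
      rw [this]
    have him : ∀ s : Finset α, (s.erase q).image f2 = (s.erase q).image f := by
      intro s
      apply Finset.image_congr
      intro x hx
      exact hf2x x (Finset.ne_of_mem_erase hx)
    refine ⟨f2, lab_of_mem hB hf2 ?_ ?_ ?_⟩
    · rw [hout2, Finset.card_singleton]
    · rw [hout2, Finset.card_singleton]
    · intro s hs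
      rw [hout2]
      by_cases hq : q ∈ s
      · have h3 := h1 s hs hq
        rw [hout] at h3
        have e1 : s.image f2 ∪ {b} = s.image f ∪ {a} := by
          have e2 := him s
          conv_lhs => rw [← Finset.insert_erase hq]
          conv_rhs => rw [← Finset.insert_erase hq]
          rw [Finset.image_insert, Finset.image_insert, hf2q, hfq, e2]
          ext x
          simp only [Finset.mem_union, Finset.mem_insert, Finset.mem_singleton]
          tauto
        rw [e1]; exact h3
      · have e2 := him s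
        rw [Finset.erase_eq_of_notMem hq] at e2
        rw [e2, mem_octads_iff]
        refine ⟨mem_supports_iff.mp (hall s hs hq), ?_⟩
        rw [← card_eq_pop, Finset.card_union_of_disjoint (Finset.disjoint_singleton_right.mpr (hfs s hq)),
          Finset.card_image_of_injective _ hf, Finset.card_singleton, hB.1 s hs]

theorem lab24 (hα : Fintype.card α = 24) {B : Set (Finset α)} (hB : IsSteinerSystem 5 8 B) : ∃ f, Lab f B := by
  have hne : Nonempty α := by rw [← Fintype.card_pos_iff, hα]; norm_num
  obtain ⟨q⟩ := hne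
  obtain ⟨f', hf'⟩ := lab23 (card_ne q hα) (derived hB q)
  have hout' : (out f').card = 1 := by have := card_out hf'.1; rw [card_ne q hα] at this; omega
  rw [Finset.card_eq_one] at hout'
  obtain ⟨b, hout'⟩ := hout'
  have hb : b ∈ out f' := by rw [hout']; simp
  obtain ⟨h1, h2⟩ := derived_blocks (b := b) hf' hb
  set f := ext q b f' with hfdef
  have hf : Function.Injective f := ext_inj hf'.1 hb
  have hout : out f = ∅ := by
    rw [hfdef, out_ext, hout']; simp
  refine ⟨f, lab_of_mem hB hf ?_ ?_ ?_⟩
  · rw [hout]; rfl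
  · rw [hout]; rfl
  · intro s hs
    by_cases hq : q ∈ s
    · exact h1 s hs hq
    · rw [mem_octads_iff, hout, Finset.union_empty]
      constructor
      · rw [← mem_supports_iff]
        apply dual_pt (a := b)
        intro o ho hbo
        obtain ⟨c, hc, hqc, hco⟩ := h2 o ho (by rw [hout']; simpa using hbo)
        rw [← hco, hout, Finset.union_empty, ← Finset.image_inter _ _ hf, Finset.card_image_of_injective _ hf]
        exact even_inter_5_8_24 hα hB hs hc
      · rw [← card_eq_pop, Finset.card_image_of_injective _ hf, hB.1 s hs]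

end lab

/-! ### isomorphisms -/

section iso
variable {α β : Type*} [Fintype α] [DecidableEq α] [Fintype β] [DecidableEq β]

theorem smul_out {f : α → GolayPt} {f' : β → GolayPt} {g : Equiv.Perm GolayPt} (h : g • out f = out f') (x : α) : ∃ y, f' y = g (f x) := by
  by_contra hcon
  push Not at hcon
  have h1 : g (f x) ∈ out f' := mem_out.mpr hcon
  rw [← h] at h1
  have h2 : f x ∈ out f := mem_smul_iff.mp h1
  exact mem_out.mp h2 x rfl

theorem lab_iso {f : α → GolayPt} {f' : β → GolayPt} {B : Set (Finset α)} {B' : Set (Finset β)} (hf : Lab f B) (hf' : Lab f' B')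
    {g : Equiv.Perm GolayPt} (hg : g ∈ M24) (h : g • out f = out f') :
    ∃ e : α ≃ β, (∀ x, f' (e x) = g (f x)) ∧ ∀ s, s.image e ∈ B' ↔ s ∈ B := by
  have hcard : Fintype.card α = Fintype.card β := by
    have h1 := card_out hf.1
    have h2 := card_out hf'.1
    have h3 : (out f').card = (out f).card := by rw [← h]; exact card_smul' g _
    omega
  choose e he using smul_out h
  have hinj : Function.Injective e := by
    intro x y hxy
    have h1 := he x
    rw [hxy, he y] at h1
    exact (hf.1 (g.injective h1)).symm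
  have hbij : Function.Bijective e := (Fintype.bijective_iff_injective_and_card _).mpr ⟨hinj, hcard⟩
  refine ⟨Equiv.ofBijective e hbij, he, ?_⟩
  intro s
  rw [hf'.2, hf.2]
  have e1 : (s.image (Equiv.ofBijective e hbij)).image f' ∪ out f' = g • (s.image f ∪ out f) := by
    rw [Finset.smul_finset_union, h]
    congr 1
    ext x
    simp only [Finset.mem_image, Finset.mem_smul_finset, Equiv.ofBijective_apply, exists_exists_and_eq_and, he]
    rfl
  rw [e1]
  exact smul_mem_octads hg

theorem setSystemIso_of_image {B : Set (Finset α)} {B' : Set (Finset β)} (e : α ≃ β) (h : ∀ s, s.image e ∈ B' ↔ s ∈ B) :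
    SetSystemIso B B' := by
  refine ⟨e, ?_⟩
  ext t
  constructor
  · rintro ⟨s, hs, rfl⟩
    exact (h s).mpr hs
  · intro ht
    refine ⟨t.image e.symm, ?_, ?_⟩
    · rw [← h]
      have : (t.image e.symm).image e = t := by
        rw [Finset.image_image]; simp
      rwa [this]
    · change (t.image e.symm).image e = t
      rw [Finset.image_image]; simp

theorem exists_smul_out {f : α → GolayPt} {f' : β → GolayPt} (h : (out f).card = (out f').card) (h5 : (out f).card ≤ 5) :
    ∃ g ∈ M24, g • out f = out f' := by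
  obtain ⟨g, hg, hgl⟩ := trans_list (l := (out f).toList) (l' := (out f').toList) (Finset.nodup_toList _) (Finset.nodup_toList _)
    (by rw [Finset.length_toList, Finset.length_toList, h]) (by rw [Finset.length_toList]; exact h5)
  refine ⟨g, hg, ?_⟩
  ext x
  rw [← Finset.mem_toList (s := out f'), ← hgl, List.mem_map, Finset.mem_smul_finset]
  simp only [Finset.mem_toList]
  rfl

theorem unique_of_lab {f : α → GolayPt} {f' : β → GolayPt} {B : Set (Finset α)} {B' : Set (Finset β)} (hf : Lab f B) (hf' : Lab f' B')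
    (hc : Fintype.card α = Fintype.card β) (h5 : 19 ≤ Fintype.card α) : SetSystemIso B B' := by
  have h1 := card_out hf.1
  have h2 := card_out hf'.1
  obtain ⟨g, hg, hgo⟩ := exists_smul_out (f := f) (f' := f') (by omega) (by omega)
  obtain ⟨e, -, he⟩ := lab_iso hf hf' hg hgo
  exact setSystemIso_of_image e he

end iso

end CfsgLib.SteinerV
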