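import Mathlib
import Cfsg.Agent.Lib.Leech6
import Cfsg.Agent.Lib.SteinerV

/-!
Sublattices of `ℤ^24` with a coordinate frame: the code, counting.
-/

set_option autoImplicit false

namespace CfsgLib.Leech

open CfsgLib.Golay Finset Cfsg
open scoped Pointwise

/-- a lattice of Leech type containing the coordinate frame -/
structure FL (M : AddSubgroup (GolayPt → ℤ)) : Prop where
  n16 : ∀ x ∈ M, (16 : ℤ) ∣ sqNorm x
  ne16 : ∀ x ∈ M, sqNorm x ≠ 16
  d4 : ∀ i j, i ≠ j → (Pi.single i 4 - Pi.single j 4 : GolayPt → ℤ) ∈ M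
  s8 : ∀ i, (Pi.single i 8 : GolayPt → ℤ) ∈ M
  dot : ∀ x ∈ M, ∀ y ∈ M, (8 : ℤ) ∣ dotInt x y
  c32 : {x | x ∈ M ∧ sqNorm x = 32}.ncard = 196560

/-- classes of even vectors -/
def SE (M : AddSubgroup (GolayPt → ℤ)) (S : Finset GolayPt) : Prop := ∃ x ∈ M, ∀ i, x i % 4 = if i ∈ S then 2 else 0

/-- classes of odd vectors -/
def SO (M : AddSubgroup (GolayPt → ℤ)) (S : Finset GolayPt) : Prop := ∃ x ∈ M, ∀ i, x i % 4 = if i ∈ S then 3 else 1

theorem card_symmDiff' (s t : Finset GolayPt) : (symmDiff s t).card + 2 * (s ∩ t).card = s.card + t.card := by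
  have h1 := Finset.card_sdiff_add_card_inter s t
  have h2 := Finset.card_sdiff_add_card_inter t s
  rw [Finset.inter_comm] at h2
  have h3 : (symmDiff s t).card = (s \ t).card + (t \ s).card := by
    rw [symmDiff_def, Finset.sup_eq_union, Finset.card_union_of_disjoint disjoint_sdiff_sdiff]
  omega

theorem dot_single (x : GolayPt → ℤ) (i : GolayPt) (a : ℤ) : dotInt x (Pi.single i a) = x i * a := by
  unfold dotInt
  rw [Finset.sum_eq_single i]
  · rw [Pi.single_eq_same]
  · intro j _ hj; rw [Pi.single_eq_of_ne hj, mul_zero]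
  · intro h; exact absurd (Finset.mem_univ i) h

theorem dot_sub_right (x y z : GolayPt → ℤ) : dotInt x (y - z) = dotInt x y - dotInt x z := by
  unfold dotInt
  rw [← Finset.sum_sub_distrib]
  apply Finset.sum_congr rfl; intro i _; rw [Pi.sub_apply]; ring

theorem sq_single (i : GolayPt) (a : ℤ) : sqNorm (Pi.single i a : GolayPt → ℤ) = a ^ 2 := by
  rw [sqNorm_eq_dot, dot_single, Pi.single_eq_same]; ring

theorem cls_unique {x : GolayPt → ℤ} {S T : Finset GolayPt} (h : ∀ i, x i % 4 = if i ∈ S then 2 else 0) (h' : ∀ i, x i % 4 = if i ∈ T then 2 else 0) : S = T := by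
  ext i
  have a := h i
  have b := h' i
  by_cases h1 : i ∈ S
  · by_cases h2 : i ∈ T
    · exact iff_of_true h1 h2
    · rw [if_pos h1] at a; rw [if_neg h2] at b; omega
  · by_cases h2 : i ∈ T
    · rw [if_neg h1] at a; rw [if_pos h2] at b; omega
    · exact iff_of_false h1 h2

theorem clo_unique {x : GolayPt → ℤ} {S T : Finset GolayPt} (h : ∀ i, x i % 4 = if i ∈ S then 3 else 1) (h' : ∀ i, x i % 4 = if i ∈ T then 3 else 1) : S = T := by
  ext i
  have a := h i
  have b := h' i
  by_cases h1 : i ∈ S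
  · by_cases h2 : i ∈ T
    · exact iff_of_true h1 h2
    · rw [if_pos h1] at a; rw [if_neg h2] at b; omega
  · by_cases h2 : i ∈ T
    · rw [if_neg h1] at a; rw [if_pos h2] at b; omega
    · exact iff_of_false h1 h2

theorem cls_cases (x : GolayPt → ℤ) (h : ∀ i j, x i % 2 = x j % 2) : (∃ S : Finset GolayPt, ∀ i, x i % 4 = if i ∈ S then 2 else 0) ∨ (∃ S : Finset GolayPt, ∀ i, x i % 4 = if i ∈ S then 3 else 1) := by
  rcases Int.emod_two_eq_zero_or_one (x (pt 0)) with h0 | h0
  · left
    refine ⟨univ.filter (fun i => x i % 4 = 2), fun i => ?_⟩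
    have h1 := h i (pt 0)
    simp only [Finset.mem_filter, Finset.mem_univ, true_and]
    split_ifs <;> omega
  · right
    refine ⟨univ.filter (fun i => x i % 4 = 3), fun i => ?_⟩
    have h1 := h i (pt 0)
    simp only [Finset.mem_filter, Finset.mem_univ, true_and]
    split_ifs <;> omega

theorem sum_mod4 {x y : GolayPt → ℤ} (h : ∀ i, (x i - y i) % 4 = 0) : ∃ z : GolayPt → ℤ, (∀ i, x i - y i = 4 * z i) ∧ ∑ i, x i - ∑ i, y i = 4 * ∑ i, z i := by
  choose z hz using fun i => (show ∃ z, x i - y i = 4 * z from ⟨(x i - y i) / 4, by have := h i; omega⟩)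
  refine ⟨z, hz, ?_⟩
  rw [← Finset.sum_sub_distrib, Finset.sum_congr rfl (fun i _ => hz i), Finset.mul_sum]

/-- twice the indicator -/
def ww (S : Finset GolayPt) : GolayPt → ℤ := fun i => if i ∈ S then 2 else 0

theorem sum_ww (S : Finset GolayPt) : ∑ i, ww S i = 2 * S.card := by
  unfold ww
  rw [Finset.sum_ite_mem, Finset.univ_inter, Finset.sum_const, nsmul_eq_mul, mul_comm]

theorem norm_ww (S : Finset GolayPt) : sqNorm (ww S) = 4 * S.card := by
  unfold sqNorm ww
  rw [Finset.sum_congr rfl (g := fun i => if i ∈ S then (4 : ℤ) else 0) (fun i _ => by split_ifs <;> norm_num)]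
  rw [Finset.sum_ite_mem, Finset.univ_inter, Finset.sum_const, nsmul_eq_mul, mul_comm]

theorem ww_mod (S : Finset GolayPt) (i : GolayPt) : ww S i % 4 = if i ∈ S then 2 else 0 := by
  unfold ww; split_ifs <;> rfl

namespace FL

variable {M : AddSubgroup (GolayPt → ℤ)} (h : FL M)
include h

theorem mv {x y : GolayPt → ℤ} (hx : x ∈ M) (h4 : ∀ i, (y i - x i) % 4 = 0) (h8 : (∑ i, y i - ∑ i, x i) % 8 = 0) : y ∈ M := by
  obtain ⟨z, hz, hs⟩ := sum_mod4 h4
  obtain ⟨k, hk⟩ : ∃ k, ∑ i, z i = 2 * k := ⟨(∑ i, z i) / 2, by omega⟩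
  have e : y = x + (∑ i, z i • (Pi.single i 4 - Pi.single (pt 0) 4) + k • Pi.single (pt 0) 8) := by
    funext j
    have h1 : (∑ i, z i • (Pi.single i 4 - Pi.single (pt 0) 4 : GolayPt → ℤ)) j = 4 * z j - (∑ i, z i) * (Pi.single (pt 0) 4 : GolayPt → ℤ) j := by
      rw [Finset.sum_apply, Finset.sum_mul]
      have : ∀ i ∈ univ, (z i • (Pi.single i 4 - Pi.single (pt 0) 4 : GolayPt → ℤ)) j = (if j = i then 4 * z i else 0) - z i * (Pi.single (pt 0) 4 : GolayPt → ℤ) j := by
        intro i _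
        rw [Pi.smul_apply, Pi.sub_apply, smul_eq_mul, mul_sub, Pi.single_apply]
        split_ifs <;> ring
      rw [Finset.sum_congr rfl this, Finset.sum_sub_distrib, Finset.sum_ite_eq, if_pos (Finset.mem_univ j)]
    rw [Pi.add_apply, Pi.add_apply, h1, hk, Pi.smul_apply, smul_eq_mul]
    have h2 := hz j
    have h3 : (Pi.single (pt 0) 8 : GolayPt → ℤ) j = 2 * (Pi.single (pt 0) 4 : GolayPt → ℤ) j := by
      rw [Pi.single_apply, Pi.single_apply]; split_ifs <;> norm_num
    rw [h3]; linarith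
  rw [e]
  refine add_mem hx (add_mem (sum_mem fun i _ => zsmul_mem ?_ _) (zsmul_mem (h.s8 _) _))
  by_cases hi : i = pt 0
  · rw [hi, sub_self]; exact zero_mem M
  · exact h.d4 i _ hi

theorem par {x : GolayPt → ℤ} (hx : x ∈ M) : (∃ S : Finset GolayPt, ∀ i, x i % 4 = if i ∈ S then 2 else 0) ∨ (∃ S : Finset GolayPt, ∀ i, x i % 4 = if i ∈ S then 3 else 1) := by
  apply cls_cases
  intro i j
  by_cases hij : i = j
  · rw [hij]
  have h1 := h.dot x hx _ (h.d4 i j hij)
  rw [dot_sub_right, dot_single, dot_single] at h1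
  omega

theorem zero_class {x : GolayPt → ℤ} (hx : x ∈ M) (h4 : ∀ i, x i % 4 = 0) : (∑ i, x i) % 8 = 0 := by
  by_contra hne
  obtain ⟨z, hz, hs⟩ := sum_mod4 (x := x) (y := 0) (fun i => by rw [Pi.zero_apply, sub_zero]; exact h4 i)
  rw [Finset.sum_congr rfl (fun i _ => Pi.zero_apply (M := fun _ => ℤ) i), Finset.sum_const_zero, sub_zero] at hs
  have hm : (Pi.single (pt 0) 4 : GolayPt → ℤ) ∈ M := by
    apply h.mv hx
    · intro i
      have := h4 i
      rw [Pi.single_apply]; split_ifs <;> omega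
    · rw [Finset.sum_pi_single', if_pos (Finset.mem_univ _)]; omega
  exact h.ne16 _ hm (by rw [sq_single]; norm_num)

theorem sumc {x y : GolayPt → ℤ} (hx : x ∈ M) (hy : y ∈ M) (h4 : ∀ i, (x i - y i) % 4 = 0) : (∑ i, x i - ∑ i, y i) % 8 = 0 := by
  have := h.zero_class (sub_mem hx hy) (fun i => h4 i)
  rwa [Finset.sum_congr rfl (fun i _ => Pi.sub_apply x y i), Finset.sum_sub_distrib] at this

theorem SE_card {S : Finset GolayPt} (hS : SE M S) : S.card % 4 = 0 ∧ S.card ≠ 4 := by
  obtain ⟨x, hx, hxS⟩ := hS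
  rcases S.eq_empty_or_nonempty with rfl | ⟨i0, hi0⟩
  · exact ⟨rfl, by decide⟩
  have hw : ∀ i, (ww S i - x i) % 4 = 0 := by
    intro i
    have h1 := hxS i
    have h2 := ww_mod S i
    split_ifs at h1 h2 <;> omega
  obtain ⟨z, hz, hs⟩ := sum_mod4 hw
  suffices hsuf : ∃ y ∈ M, sqNorm y = 4 * S.card by
    obtain ⟨y, hy, hn⟩ := hsuf
    have h1 := h.n16 y hy
    have h2 := h.ne16 y hy
    constructor
    · omega
    · omega
  rcases Int.emod_two_eq_zero_or_one (∑ i, z i) with h0 | h0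
  · refine ⟨ww S, h.mv hx hw (by omega), norm_ww S⟩
  · refine ⟨Function.update (ww S) i0 (-2), h.mv hx ?_ ?_, ?_⟩
    · intro i
      by_cases hi : i = i0
      · subst hi
        have h1 := hxS i
        rw [if_pos hi0] at h1
        rw [Function.update_self]; omega
      · rw [Function.update_of_ne hi]; exact hw i
    · rw [Finset.sum_update_of_mem (Finset.mem_univ i0), Finset.sdiff_singleton_eq_erase]
      have := Finset.add_sum_erase univ (ww S) (Finset.mem_univ i0)
      have h2 : ww S i0 = 2 := by unfold ww; rw [if_pos hi0]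
      omega
    · rw [← norm_ww S]
      unfold sqNorm
      apply Finset.sum_congr rfl
      intro i _
      by_cases hi : i = i0
      · subst hi
        rw [Function.update_self]
        have h2 : ww S i = 2 := by unfold ww; rw [if_pos hi0]
        rw [h2]; norm_num
      · rw [Function.update_of_ne hi]

omit h in
theorem SE_empty : SE M ∅ := ⟨0, zero_mem M, fun i => by simp⟩

omit h in
theorem SE_symm {S T : Finset GolayPt} (hS : SE M S) (hT : SE M T) : SE M (symmDiff S T) := by
  obtain ⟨x, hx, hxS⟩ := hS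
  obtain ⟨y, hy, hyT⟩ := hT
  refine ⟨x + y, add_mem hx hy, fun i => ?_⟩
  have h1 := hxS i
  have h2 := hyT i
  rw [Pi.add_apply]
  simp only [Finset.mem_symmDiff]
  by_cases a : i ∈ S <;> by_cases b : i ∈ T <;> simp only [a, b, if_true, if_false, not_true, not_false_iff, and_true, and_false, or_false, false_or, or_true] at h1 h2 ⊢ <;> omega

omit h in
theorem SO_symm {S T : Finset GolayPt} (hS : SE M S) (hT : SO M T) : SO M (symmDiff S T) := by
  obtain ⟨x, hx, hxS⟩ := hS
  obtain ⟨y, hy, hyT⟩ := hT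
  refine ⟨x + y, add_mem hx hy, fun i => ?_⟩
  have h1 := hxS i
  have h2 := hyT i
  rw [Pi.add_apply]
  simp only [Finset.mem_symmDiff]
  by_cases a : i ∈ S <;> by_cases b : i ∈ T <;> simp only [a, b, if_true, if_false, not_true, not_false_iff, and_true, and_false, or_false, false_or, or_true] at h1 h2 ⊢ <;> omega

omit h in
theorem SOO_symm {S T : Finset GolayPt} (hS : SO M S) (hT : SO M T) : SE M (symmDiff S T) := by
  obtain ⟨x, hx, hxS⟩ := hS
  obtain ⟨y, hy, hyT⟩ := hT
  refine ⟨x - y, sub_mem hx hy, fun i => ?_⟩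
  have h1 := hxS i
  have h2 := hyT i
  rw [Pi.sub_apply]
  simp only [Finset.mem_symmDiff]
  by_cases a : i ∈ S <;> by_cases b : i ∈ T <;> simp only [a, b, if_true, if_false, not_true, not_false_iff, and_true, and_false, or_false, false_or, or_true] at h1 h2 ⊢ <;> omega

theorem even_inter {S T : Finset GolayPt} (hS : SE M S) (hT : SE M T) : (S ∩ T).card % 2 = 0 := by
  have h1 := h.SE_card hS
  have h2 := h.SE_card hT
  have h3 := h.SE_card (SE_symm hS hT)
  have h4 := card_symmDiff' S T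
  omega

theorem inter_le {S T : Finset GolayPt} (hS : SE M S) (hT : SE M T) (hS8 : S.card = 8) (hT8 : T.card = 8) (hne : S ≠ T) : (S ∩ T).card ≤ 4 := by
  have h3 := h.SE_card (SE_symm hS hT)
  have h4 := card_symmDiff' S T
  have h5 : (symmDiff S T).card ≠ 0 := by
    rw [Ne, Finset.card_eq_zero]
    intro h0
    exact hne (symmDiff_eq_bot.mp h0)
  omega

end FL

end CfsgLib.Leech
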