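import Mathlib
import Cfsg.Agent.Lib.Leech7

/-!
Sublattices of `ℤ^24` with a coordinate frame: the number of minimal vectors.
-/

set_option autoImplicit false

namespace CfsgLib.Leech

open CfsgLib.Golay Finset Cfsg
open scoped Pointwise

theorem mod_pat {C : Finset GolayPt} {N : ℕ} {x : GolayPt → ℤ} (hx : x ∈ pat (two C E2 E0) N) (i : GolayPt) : x i % 4 = if i ∈ C then 2 else 0 := by
  rw [mem_pat_two] at hx
  split_ifs with hi
  · exact E2_mod (hx.1 i hi)
  · exact E0_mod (hx.2.1 i hi)

theorem mod_pat' {C : Finset GolayPt} {N : ℕ} {x : GolayPt → ℤ} (hx : x ∈ pat (two C O3 O1) N) (i : GolayPt) : x i % 4 = if i ∈ C then 3 else 1 := by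
  rw [mem_pat_two] at hx
  split_ifs with hi
  · exact O3_mod (hx.1 i hi)
  · exact O1_mod (hx.2.1 i hi)

theorem pat_of_mod {C : Finset GolayPt} {N : ℕ} (hN : N ≤ 64) {x : GolayPt → ℤ} (h : ∀ i, x i % 4 = if i ∈ C then 2 else 0) (hn : sqNorm x = N) : x ∈ pat (two C E2 E0) N := by
  rw [mem_pat_two]
  have he := fun i => entry_le (x := x) (by rw [hn]; exact_mod_cast hN) i
  refine ⟨fun i hi => ?_, fun i hi => ?_, hn⟩
  · have := h i
    rw [if_pos hi] at this
    exact (mem_E2 (he i).1 (he i).2).mpr this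
  · have := h i
    rw [if_neg hi] at this
    exact (mem_E0 (he i).1 (he i).2).mpr this

theorem pat_of_mod' {C : Finset GolayPt} {N : ℕ} (hN : N ≤ 64) {x : GolayPt → ℤ} (h : ∀ i, x i % 4 = if i ∈ C then 3 else 1) (hn : sqNorm x = N) : x ∈ pat (two C O3 O1) N := by
  rw [mem_pat_two]
  have he := fun i => entry_le (x := x) (by rw [hn]; exact_mod_cast hN) i
  refine ⟨fun i hi => ?_, fun i hi => ?_, hn⟩
  · have := h i
    rw [if_pos hi] at this
    exact (mem_O3 (he i).1 (he i).2).mpr this
  · have := h i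
    rw [if_neg hi] at this
    exact (mem_O1 (he i).1 (he i).2).mpr this

theorem sum_mod_of {C : Finset GolayPt} (h4 : C.card % 4 = 0) {x : GolayPt → ℤ} (h : ∀ i, x i % 4 = if i ∈ C then 2 else 0) : (∑ i, x i) % 4 = 0 := by
  have h1 : ∀ i, (x i - ww C i) % 4 = 0 := by
    intro i
    have h1 := h i
    have h2 := ww_mod C i
    split_ifs at h1 h2 <;> omega
  obtain ⟨z, -, hz⟩ := sum_mod4 h1
  rw [sum_ww] at hz
  omega

/-- half of the vectors with given even class have coordinate sum divisible by eight -/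
theorem card_even_gen {C : Finset GolayPt} (h4 : C.card % 4 = 0) (hne : C.Nonempty) (N : ℕ) :
    2 * ((pat (two C E2 E0) N).filter (fun x => (∑ i, x i) % 8 = 0)).card = (pat (two C E2 E0) N).card := by
  classical
  obtain ⟨j, hj⟩ := hne
  have hmod : ∀ x ∈ pat (two C E2 E0) N, (∑ i, x i) % 4 = 0 := fun x hx => sum_mod_of h4 (mod_pat hx)
  let φ : (GolayPt → ℤ) → (GolayPt → ℤ) := fun x => Function.update x j (-x j)
  have hφφ : ∀ x, φ (φ x) = x := by
    intro x; simp only [φ]; rw [Function.update_idem, Function.update_self, neg_neg, Function.update_eq_self]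
  have hsum : ∀ x : GolayPt → ℤ, ∑ i, φ x i = ∑ i, x i - 2 * x j := by
    intro x
    simp only [φ]
    rw [← Finset.add_sum_erase _ _ (Finset.mem_univ j), ← Finset.add_sum_erase _ x (Finset.mem_univ j), Function.update_self]
    rw [Finset.sum_congr rfl (fun i hi => Function.update_of_ne (Finset.ne_of_mem_erase hi) _ _)]; ring
  have hmem : ∀ x ∈ pat (two C E2 E0) N, φ x ∈ pat (two C E2 E0) N := by
    intro x hx
    rw [mem_pat_two] at hx ⊢
    refine ⟨?_, ?_, ?_⟩
    · intro i hi
      by_cases hij : i = j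
      · subst hij
        simp only [φ, Function.update_self]
        have := hx.1 i hi
        simp only [E2, Finset.mem_insert, Finset.mem_singleton] at this ⊢; omega
      · simp only [φ]; rw [Function.update_of_ne hij]; exact hx.1 i hi
    · intro i hi
      have hij : i ≠ j := fun h => hi (h ▸ hj)
      simp only [φ]; rw [Function.update_of_ne hij]; exact hx.2.1 i hi
    · rw [← hx.2.2]
      simp only [sqNorm, φ]
      apply Finset.sum_congr rfl
      intro i _
      by_cases hij : i = j
      · subst hij; rw [Function.update_self]; ring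
      · rw [Function.update_of_ne hij]
  have hxj : ∀ x ∈ pat (two C E2 E0) N, x j % 4 = 2 := by
    intro x hx
    have := mod_pat hx j
    rwa [if_pos hj] at this
  have hbij : ((pat (two C E2 E0) N).filter (fun x => (∑ i, x i) % 8 = 0)).card = ((pat (two C E2 E0) N).filter (fun x => ¬ (∑ i, x i) % 8 = 0)).card := by
    apply Finset.card_bij (fun x _ => φ x)
    · intro x hx
      rw [Finset.mem_filter] at hx ⊢
      refine ⟨hmem x hx.1, ?_⟩
      rw [hsum]
      have := hxj x hx.1
      omega
    · intro x _ y _ hxy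
      rw [← hφφ x, hxy, hφφ]
    · intro y hy
      rw [Finset.mem_filter] at hy
      refine ⟨φ y, ?_, hφφ y⟩
      rw [Finset.mem_filter]
      refine ⟨hmem y hy.1, ?_⟩
      rw [hsum]
      have := hxj y hy.1
      have := hmod y hy.1
      omega
  have := Finset.card_filter_add_card_filter_not (s := pat (two C E2 E0) N) (fun x => (∑ i, x i) % 8 = 0)
  omega

theorem even_card_gen (C : Finset GolayPt) (hC : C.card ∈ ({0, 8, 12, 16, 24} : Finset ℕ)) (N : ℕ) : (pat (two C E2 E0) N).card = ec N C.card := by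
  rw [card_two C E2 E0 N XX _ _ _ sum_E2 sum_E0, ec]
  have h3 : E2.card = 4 := by decide
  have h1 : E0.card = 5 := by decide
  rw [h3, h1]
  exact bd_even _ hC

theorem card_cls8 {C : Finset GolayPt} (h8 : C.card = 8) {s : ℤ} (hs : s = 0 ∨ s = 4) : ((pat (two C E2 E0) 32).filter (fun x => (∑ i, x i) % 8 = s)).card = 128 := by
  have h1 := card_even_gen (C := C) (by omega) (Finset.card_pos.mp (by omega)) 32
  have h2 := even_card_gen C (by rw [h8]; decide) 32
  rw [h8, ec_vals.2.1] at h2
  rw [h2] at h1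
  rcases hs with rfl | rfl
  · omega
  · have h3 := Finset.card_filter_add_card_filter_not (s := pat (two C E2 E0) 32) (fun x => (∑ i, x i) % 8 = 0)
    rw [Finset.filter_congr (q := fun x => ¬ (∑ i, x i) % 8 = 0)]
    · omega
    · intro x hx
      have := sum_mod_of (C := C) (by omega) (mod_pat hx)
      omega

/-- coordinate sums of odd vectors -/
theorem odd_sum {C : Finset GolayPt} {x : GolayPt → ℤ} (h : ∀ i, x i % 4 = if i ∈ C then 3 else 1) (h16 : sqNorm x % 16 = 0) : (∑ i, x i) % 8 = (4 - 2 * (C.card : ℤ)) % 8 := by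
  obtain ⟨z, hz⟩ : ∃ z : GolayPt → ℤ, ∀ i, x i = (1 - ww C i) + 4 * z i := by
    have h2 : ∀ i, ∃ t, x i = (1 - ww C i) + 4 * t := by
      intro i
      have h1 := h i
      unfold ww
      split_ifs at h1 ⊢
      · exact ⟨(x i + 1) / 4, by omega⟩
      · exact ⟨(x i - 1) / 4, by omega⟩
    choose z hz using h2
    exact ⟨z, hz⟩
  have h1 : ∀ i, ∃ t : ℤ, x i ^ 2 = 1 + 8 * z i + 16 * t := by
    intro i
    rw [hz i]
    unfold ww
    split_ifs
    · exact ⟨z i ^ 2 - z i, by ring⟩
    · exact ⟨z i ^ 2, by ring⟩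
  choose t ht using h1
  have h2 : sqNorm x = 24 + 8 * ∑ i, z i + 16 * ∑ i, t i := by
    unfold sqNorm
    rw [Finset.sum_congr rfl (fun i _ => ht i), Finset.sum_add_distrib, Finset.sum_add_distrib, ← Finset.mul_sum, ← Finset.mul_sum, Finset.sum_const, card_univ_G]
    norm_num
  have h3 : ∑ i, x i = 24 - 2 * C.card + 4 * ∑ i, z i := by
    rw [Finset.sum_congr rfl (fun i _ => hz i), Finset.sum_add_distrib, Finset.sum_sub_distrib, sum_ww, ← Finset.mul_sum, Finset.sum_const, card_univ_G]
    norm_num
  omega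

namespace FL

variable {M : AddSubgroup (GolayPt → ℤ)} (h : FL M)
include h

open Classical in
theorem NE_empty : (pat (two ∅ E2 E0) 32).filter (fun x => x ∈ M) = pat (two ∅ E2 E0) 32 := by
  rw [Finset.filter_eq_self]
  intro x hx
  have hm := mod_pat hx
  have h8 : (∑ i, x i) % 8 = 0 := by
    have hz : ((pat (two ∅ E2 E0) 32).filter (fun x => (∑ i, x i) % 8 = 0)) = pat (two ∅ E2 E0) 32 :=
      Finset.eq_of_subset_of_card_le (Finset.filter_subset _ _) (by rw [zero_card (by norm_num)])
    rw [← hz, Finset.mem_filter] at hx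
    exact hx.2
  apply h.mv (zero_mem M)
  · intro i
    have := hm i
    rw [if_neg (Finset.notMem_empty i)] at this
    rw [Pi.zero_apply]; omega
  · simp only [Pi.zero_apply, Finset.sum_const_zero, sub_zero]; exact h8

theorem mem_iff_sum {x y : GolayPt → ℤ} (hx : x ∈ M) (h4 : ∀ i, (y i - x i) % 4 = 0) : y ∈ M ↔ (∑ i, y i) % 8 = (∑ i, x i) % 8 := by
  constructor
  · intro hy
    have := h.sumc hy hx h4
    omega
  · intro h8
    exact h.mv hx h4 (by omega)

open Classical in
theorem NE_eight {S : Finset GolayPt} (hS : SE M S) (h8 : S.card = 8) : ((pat (two S E2 E0) 32).filter (fun x => x ∈ M)).card = 128 := by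
  obtain ⟨x0, hx0, hx0S⟩ := hS
  rw [← card_cls8 h8 (s := (∑ i, x0 i) % 8)]
  · congr 1
    apply Finset.filter_congr
    intro x hx
    apply h.mem_iff_sum hx0
    intro i
    have h1 := hx0S i
    have h2 := mod_pat hx i
    split_ifs at h1 h2 <;> omega
  · have := sum_mod_of (C := S) (by omega) hx0S
    omega

omit h in
theorem pat_big {S : Finset GolayPt} (h12 : 12 ≤ S.card) : pat (two S E2 E0) 32 = ∅ := by
  rw [Finset.eq_empty_iff_forall_notMem]
  intro x hx
  have hm := mod_pat hx
  rw [mem_pat_two] at hx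
  have h1 : sqNorm (ww S) ≤ sqNorm x := by
    unfold sqNorm
    apply Finset.sum_le_sum
    intro i _
    have h2 := hm i
    unfold ww
    split_ifs at h2 ⊢
    · have : 2 ≤ |x i| := by
        rcases abs_cases (x i) with h | h <;> omega
      calc (2 : ℤ) ^ 2 ≤ |x i| ^ 2 := by gcongr
        _ = x i ^ 2 := sq_abs _
    · positivity
  rw [norm_ww, hx.2.2] at h1
  push_cast at h1
  omega

theorem NO_mem {S : Finset GolayPt} (hS : SO M S) {x : GolayPt → ℤ} (hx : x ∈ pat (two S O3 O1) 32) : x ∈ M := by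
  obtain ⟨y, hy, hyS⟩ := hS
  have hm := mod_pat' hx
  have h1 := odd_sum hm (by rw [(mem_pat_two.mp hx).2.2]; rfl)
  have h2 := odd_sum hyS (by have := h.n16 y hy; omega)
  apply h.mv hy
  · intro i
    have h1 := hyS i
    have h2 := hm i
    split_ifs at h1 h2 <;> omega
  · omega

open Classical in
/-- the minimal vectors -/
theorem count : 1104 + 128 * (univ.filter (fun S => SE M S ∧ S.card = 8)).card + 24 * (univ.filter (fun S => SO M S)).card = 196560 := by
  have key : {x | x ∈ M ∧ sqNorm x = 32} = (((univ.filter (fun S => SE M S)).biUnion (fun S => (pat (two S E2 E0) 32).filter (fun x => x ∈ M)) ∪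
      (univ.filter (fun S => SO M S)).biUnion (fun S => pat (two S O3 O1) 32) : Finset (GolayPt → ℤ)) : Set (GolayPt → ℤ)) := by
    ext x
    rw [Finset.mem_coe, Finset.mem_union, Finset.mem_biUnion, Finset.mem_biUnion]
    constructor
    · rintro ⟨hx, hn⟩
      rcases h.par hx with ⟨S, hS⟩ | ⟨S, hS⟩
      · left
        refine ⟨S, Finset.mem_filter.mpr ⟨Finset.mem_univ _, x, hx, hS⟩, Finset.mem_filter.mpr ⟨pat_of_mod (by norm_num) hS hn, hx⟩⟩
      · right
        exact ⟨S, Finset.mem_filter.mpr ⟨Finset.mem_univ _, x, hx, hS⟩, pat_of_mod' (by norm_num) hS hn⟩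
    · rintro (⟨S, -, hx⟩ | ⟨S, hS, hx⟩)
      · rw [Finset.mem_filter] at hx
        exact ⟨hx.2, (mem_pat_two.mp hx.1).2.2⟩
      · exact ⟨h.NO_mem (Finset.mem_filter.mp hS).2 hx, (mem_pat_two.mp hx).2.2⟩
  have hc := h.c32
  rw [key, Set.ncard_coe_finset, Finset.card_union_of_disjoint, Finset.card_biUnion, Finset.card_biUnion] at hc
  · have e2 : ∑ S ∈ univ.filter (fun S => SO M S), (pat (two S O3 O1) 32).card = 24 * (univ.filter (fun S => SO M S)).card := by
      rw [Finset.sum_congr rfl (g := fun _ => 24) (fun S _ => by rw [odd_card, oc_vals.1]), Finset.sum_const, smul_eq_mul, mul_comm]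
    have e1 : ∑ S ∈ univ.filter (fun S => SE M S), ((pat (two S E2 E0) 32).filter (fun x => x ∈ M)).card = 1104 + 128 * (univ.filter (fun S => SE M S ∧ S.card = 8)).card := by
      rw [Finset.sum_congr rfl (g := fun S => (if S = ∅ then 1104 else 0) + (if S.card = 8 then 128 else 0))]
      · rw [Finset.sum_add_distrib, Finset.sum_ite_eq', if_pos, ← Finset.sum_filter, Finset.filter_filter, Finset.sum_const, smul_eq_mul, mul_comm 128]
        exact Finset.mem_filter.mpr ⟨Finset.mem_univ _, SE_empty⟩
      · intro S hS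
        rw [Finset.mem_filter] at hS
        by_cases h0 : S = ∅
        · subst h0
          rw [h.NE_empty, if_pos rfl, if_neg (by decide), even_card ∅ empty_mem, Finset.card_empty, ec_vals.1]
        · by_cases h8 : S.card = 8
          · rw [h.NE_eight hS.2 h8, if_neg h0, if_pos h8]
          · rw [if_neg h0, if_neg h8, pat_big, Finset.filter_empty, Finset.card_empty]
            have h1 := h.SE_card hS.2
            have h2 : S.card ≠ 0 := by rw [Ne, Finset.card_eq_zero]; exact h0
            omega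
    rw [e1, e2] at hc
    exact hc
  · intro S _ T _ hST
    rw [Function.onFun, Finset.disjoint_left]
    intro x hx hx'
    exact hST (clo_unique (mod_pat' hx) (mod_pat' hx'))
  · intro S _ T _ hST
    rw [Function.onFun, Finset.disjoint_left]
    intro x hx hx'
    exact hST (cls_unique (mod_pat (Finset.mem_filter.mp hx).1) (mod_pat (Finset.mem_filter.mp hx').1))
  · rw [Finset.disjoint_left]
    intro x hx hx'
    rw [Finset.mem_biUnion] at hx hx'
    obtain ⟨S, -, hx⟩ := hx
    obtain ⟨T, -, hx'⟩ := hx'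
    have h1 := mod_pat (Finset.mem_filter.mp hx).1 (pt 0)
    have h2 := mod_pat' hx' (pt 0)
    split_ifs at h1 h2 <;> omega

end FL

end CfsgLib.Leech
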