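import Mathlib
import Cfsg.Agent.Lib.Leech8

/-!
Sublattices of `ℤ^24` with a coordinate frame: the code is the Golay code.
-/

set_option autoImplicit false

namespace CfsgLib.Leech

open CfsgLib.Golay Finset Cfsg
open scoped Pointwise

/-- the code of a lattice as a group of words -/
def CG (M : AddSubgroup (GolayPt → ℤ)) : AddSubgroup (GolayPt → ZMod 2) where
  carrier := {w | SE M (support₂ w)}
  zero_mem' := by rw [Set.mem_setOf_eq, support₂_zero]; exact FL.SE_empty
  add_mem' := by
    intro v w hv hw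
    rw [Set.mem_setOf_eq] at hv hw ⊢
    rw [support₂_add]; exact FL.SE_symm hv hw
  neg_mem' := by
    intro w hw
    have : -w = w := by funext i; exact ZMod.neg_eq_self_mod_two (w i)
    rw [this]; exact hw

theorem mem_CG {M : AddSubgroup (GolayPt → ℤ)} {w : GolayPt → ZMod 2} : w ∈ CG M ↔ SE M (support₂ w) := Iff.rfl

open Classical in
theorem card_CG (M : AddSubgroup (GolayPt → ℤ)) : Nat.card (CG M) = (univ.filter (fun S => SE M S)).card := by
  have h1 : Nat.card (CG M) = ((CG M : Set (GolayPt → ZMod 2))).ncard := (Nat.card_coe_set_eq _)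
  rw [h1, ← Set.ncard_image_of_injective _ support₂_injective, ← Set.ncard_coe_finset]
  congr 1
  ext S
  rw [Finset.mem_coe, Finset.mem_filter]
  constructor
  · rintro ⟨w, hw, rfl⟩; exact ⟨Finset.mem_univ _, hw⟩
  · rintro ⟨-, hS⟩
    refine ⟨word S, ?_, support₂_word S⟩
    show SE M (support₂ (word S))
    rw [support₂_word]; exact hS

open Classical in
theorem card_SE_dvd (M : AddSubgroup (GolayPt → ℤ)) : (univ.filter (fun S => SE M S)).card ∣ 2 ^ 24 := by
  rw [← card_CG]
  have h1 := AddSubgroup.card_addSubgroup_dvd_card (CG M)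
  have h2 : Nat.card (GolayPt → ZMod 2) = 2 ^ 24 := by
    rw [Nat.card_eq_fintype_card, Fintype.card_fun, ZMod.card, show Fintype.card GolayPt = 24 by decide]
  rwa [h2] at h1

namespace FL

variable {M : AddSubgroup (GolayPt → ℤ)} (h : FL M)

open Classical in
theorem card_SO : (univ.filter (fun S => SO M S)).card = 0 ∨ (univ.filter (fun S => SO M S)).card = (univ.filter (fun S => SE M S)).card := by
  rcases (univ.filter (fun S => SO M S)).eq_empty_or_nonempty with h0 | ⟨T, hT⟩
  · left; rw [h0]; rfl
  right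
  rw [Finset.mem_filter] at hT
  apply Finset.card_bij (fun S _ => symmDiff S T)
  · intro S hS
    rw [Finset.mem_filter] at hS ⊢
    exact ⟨Finset.mem_univ _, SOO_symm hS.2 hT.2⟩
  · intro S _ S' _ hSS
    exact symmDiff_left_injective T hSS
  · intro S hS
    rw [Finset.mem_filter] at hS
    refine ⟨symmDiff S T, Finset.mem_filter.mpr ⟨Finset.mem_univ _, SO_symm hS.2 hT.2⟩, symmDiff_symmDiff_cancel_right T S⟩

include h

open Classical in
theorem five_disj : ∀ S ∈ (univ.filter (fun S => SE M S ∧ S.card = 8)), ∀ T ∈ (univ.filter (fun S => SE M S ∧ S.card = 8)), S ≠ T →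
    Disjoint (S.powersetCard 5) (T.powersetCard 5) := by
  intro S hS T hT hne
  rw [Finset.mem_filter] at hS hT
  rw [Finset.disjoint_left]
  intro U hU hU'
  rw [Finset.mem_powersetCard] at hU hU'
  have h1 := h.inter_le hS.2.1 hT.2.1 hS.2.2 hT.2.2 hne
  have h2 := Finset.card_le_card (Finset.subset_inter hU.1 hU'.1)
  omega

open Classical in
theorem card_five : ((univ.filter (fun S => SE M S ∧ S.card = 8)).biUnion (fun S => S.powersetCard 5)).card = 56 * (univ.filter (fun S => SE M S ∧ S.card = 8)).card := by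
  rw [Finset.card_biUnion h.five_disj, Finset.sum_congr rfl (g := fun _ => 56), Finset.sum_const, smul_eq_mul, mul_comm]
  intro S hS
  rw [Finset.card_powersetCard, (Finset.mem_filter.mp hS).2.2]; rfl

open Classical in
theorem card_all : (univ.filter (fun S => SE M S)).card = 4096 ∧ (univ.filter (fun S => SO M S)).card = 4096 ∧ (univ.filter (fun S => SE M S ∧ S.card = 8)).card = 759 := by
  have h1 := h.count
  have h2 := card_SO (M := M)
  have h3 : (univ.filter (fun S => SE M S ∧ S.card = 8)).card ≤ 759 := by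
    have h4 := h.card_five
    have h5 : ((univ.filter (fun S => SE M S ∧ S.card = 8)).biUnion (fun S => S.powersetCard 5)).card ≤ ((univ : Finset GolayPt).powersetCard 5).card := by
      apply Finset.card_le_card
      intro U hU
      rw [Finset.mem_biUnion] at hU
      obtain ⟨S, -, hU⟩ := hU
      rw [Finset.mem_powersetCard] at hU ⊢
      exact ⟨Finset.subset_univ _, hU.2⟩
    rw [Finset.card_powersetCard, card_univ_G] at h5
    have h6 : Nat.choose 24 5 = 42504 := by decide
    omega
  obtain ⟨k, hk, hk'⟩ := (Nat.dvd_prime_pow Nat.prime_two).mp (card_SE_dvd M)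
  rcases h2 with h2 | h2
  · omega
  · rw [h2] at h1 ⊢
    rw [hk'] at h1 ⊢
    have : k = 12 := by interval_cases k <;> omega
    subst this
    refine ⟨rfl, rfl, by omega⟩

theorem steiner : IsSteinerSystem 5 8 {S | SE M S ∧ S.card = 8} := by
  classical
  refine ⟨fun S hS => hS.2, ?_⟩
  intro s hs
  have h4 := h.card_five
  rw [h.card_all.2.2] at h4
  have heq : ((univ.filter (fun S => SE M S ∧ S.card = 8)).biUnion (fun S => S.powersetCard 5)) = ((univ : Finset GolayPt).powersetCard 5) := by
    apply Finset.eq_of_subset_of_card_le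
    · intro U hU
      rw [Finset.mem_biUnion] at hU
      obtain ⟨S, -, hU⟩ := hU
      rw [Finset.mem_powersetCard] at hU ⊢
      exact ⟨Finset.subset_univ _, hU.2⟩
    · rw [Finset.card_powersetCard, card_univ_G, h4]; decide
  have hs' : s ∈ ((univ : Finset GolayPt).powersetCard 5) := Finset.mem_powersetCard.mpr ⟨Finset.subset_univ _, hs⟩
  rw [← heq, Finset.mem_biUnion] at hs'
  obtain ⟨S, hS, hsS⟩ := hs'
  refine ⟨S, ⟨(Finset.mem_filter.mp hS).2, (Finset.mem_powersetCard.mp hsS).1⟩, ?_⟩
  rintro T ⟨hT, hsT⟩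
  by_contra hne
  have h1 := h.inter_le (Finset.mem_filter.mp hS).2.1 hT.1 (Finset.mem_filter.mp hS).2.2 hT.2 (fun hh => hne hh.symm)
  have h2 := Finset.card_le_card (Finset.subset_inter (Finset.mem_powersetCard.mp hsS).1 hsT)
  omega

/-- the labelling by the points of the Golay code -/
theorem exists_label : ∃ σ : Equiv.Perm GolayPt, ∀ S, SE M S ↔ S.image σ ∈ GC := by
  classical
  obtain ⟨f, hf, hB⟩ := CfsgLib.SteinerV.lab24 (α := GolayPt) (by decide) h.steiner
  have hout : CfsgLib.SteinerV.out f = ∅ := by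
    have := CfsgLib.SteinerV.card_out hf
    rw [show Fintype.card GolayPt = 24 by decide] at this
    exact Finset.card_eq_zero.mp (by omega)
  rw [hout] at hB
  simp only [Finset.union_empty] at hB
  let σ : Equiv.Perm GolayPt := Equiv.ofBijective f (Finite.injective_iff_bijective.mp hf)
  have hσ : ∀ S : Finset GolayPt, S.image f = S.image σ := fun S => rfl
  have hle : ∀ S, SE M S → S.image σ ∈ GC := by
    intro S hS
    apply CfsgLib.SteinerV.mem_of_even
    intro o ho
    have hoct : toFS o ∈ octads := by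
      have := List.all_eq_true.mp CfsgLib.SteinerV.gensT_code o ho
      simp only [Bool.and_eq_true] at this
      have hlt : o < 2 ^ 24 := by
        have h2 := this.1.2
        rw [Nat.blt_eq] at h2; omega
      rw [mem_octads_iff, mask_toFS hlt]
      exact ⟨this.1.1, Nat.eq_of_beq_eq_true this.2⟩
    obtain ⟨T, hT⟩ : ∃ T : Finset GolayPt, T.image σ = toFS o := ⟨(toFS o).image σ.symm, by rw [Finset.image_image]; ext x; simp⟩
    rw [← hT]
    have hTB : SE M T ∧ T.card = 8 := (hB T).mpr (by rw [hσ, hT]; exact hoct)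
    rw [← Finset.image_inter _ _ σ.injective, Finset.card_image_of_injective _ σ.injective]
    exact Nat.even_iff.mpr (h.even_inter hS hTB.1)
  refine ⟨σ, fun S => ⟨hle S, fun hS => ?_⟩⟩
  have himg : (univ.filter (fun S => SE M S)).image (fun S => S.image σ) = GCF := by
    apply Finset.eq_of_subset_of_card_le
    · intro T hT
      rw [Finset.mem_image] at hT
      obtain ⟨S, hS, rfl⟩ := hT
      exact mem_GCF.mpr (hle S (Finset.mem_filter.mp hS).2)
    · rw [Finset.card_image_of_injective _ (Finset.image_injective σ.injective), h.card_all.1, card_GCF]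
  have hS' := mem_GCF.mpr hS
  rw [← himg, Finset.mem_image] at hS'
  obtain ⟨T, hT, hTS⟩ := hS'
  rw [← Finset.image_injective σ.injective hTS]
  exact (Finset.mem_filter.mp hT).2

end FL

/-- signed permutations as additive equivalences -/
def spE (σ : Equiv.Perm GolayPt) (c : Finset GolayPt) : (GolayPt → ℤ) ≃+ (GolayPt → ℤ) where
  toFun := signedPerm σ c
  invFun := fun y i => if σ i ∈ c then -y (σ i) else y (σ i)
  left_inv x := by
    funext i
    simp only [signedPerm, Equiv.symm_apply_apply]
    split_ifs <;> simp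
  right_inv y := by
    funext i
    simp only [signedPerm, Equiv.apply_symm_apply]
    split_ifs <;> simp
  map_add' x y := by
    funext i
    simp only [signedPerm, Pi.add_apply]
    split_ifs <;> ring

theorem spE_apply (σ : Equiv.Perm GolayPt) (c : Finset GolayPt) (x : GolayPt → ℤ) : spE σ c x = signedPerm σ c x := rfl

theorem spE_symm_apply (σ : Equiv.Perm GolayPt) (c : Finset GolayPt) (y : GolayPt → ℤ) (i : GolayPt) : (spE σ c).symm y i = if σ i ∈ c then -y (σ i) else y (σ i) := rfl

theorem spE_dot (σ : Equiv.Perm GolayPt) (c : Finset GolayPt) (x y : GolayPt → ℤ) : dotInt (spE σ c x) (spE σ c y) = dotInt x y := by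
  unfold dotInt
  rw [← Equiv.sum_comp σ.symm (fun i => x i * y i)]
  apply Finset.sum_congr rfl
  intro i _
  rw [spE_apply, spE_apply]
  unfold signedPerm
  split_ifs <;> ring

theorem spE_norm (σ : Equiv.Perm GolayPt) (c : Finset GolayPt) (x : GolayPt → ℤ) : sqNorm (spE σ c x) = sqNorm x := by
  rw [sqNorm_eq_dot, spE_dot, sqNorm_eq_dot]

theorem spE_symm_single (σ : Equiv.Perm GolayPt) (c : Finset GolayPt) (i : GolayPt) (a : ℤ) : (spE σ c).symm (Pi.single i a) = Pi.single (σ.symm i) (if i ∈ c then -a else a) := by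
  funext j
  rw [spE_symm_apply, Pi.single_apply, Pi.single_apply]
  by_cases hj : j = σ.symm i
  · subst hj
    rw [Equiv.apply_symm_apply, if_pos rfl, if_pos rfl]
  · have : σ j ≠ i := fun h => hj (by rw [← h, Equiv.symm_apply_apply])
    rw [if_neg this, if_neg hj]; split_ifs <;> simp

namespace FL

variable {M : AddSubgroup (GolayPt → ℤ)} (h : FL M)
include h

theorem pm4 {i j : GolayPt} (hij : i ≠ j) {s t : ℤ} (hs : s = 4 ∨ s = -4) (ht : t = 4 ∨ t = -4) : (Pi.single i s + Pi.single j t : GolayPt → ℤ) ∈ M := by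
  have hd := h.d4 i j hij
  apply h.mv hd
  · intro k
    rw [Pi.add_apply, Pi.sub_apply, Pi.single_apply, Pi.single_apply, Pi.single_apply, Pi.single_apply]
    split_ifs <;> omega
  · simp only [Pi.add_apply, Pi.sub_apply, Finset.sum_add_distrib, Finset.sum_sub_distrib, Finset.sum_pi_single', Finset.mem_univ, if_true]
    omega

theorem map (σ : Equiv.Perm GolayPt) (c : Finset GolayPt) : FL (M.map (spE σ c : (GolayPt → ℤ) →+ (GolayPt → ℤ))) where
  n16 := by
    rintro _ ⟨x, hx, rfl⟩
    show (16 : ℤ) ∣ sqNorm (spE σ c x)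
    rw [spE_norm]; exact h.n16 x hx
  ne16 := by
    rintro _ ⟨x, hx, rfl⟩
    show sqNorm (spE σ c x) ≠ 16
    rw [spE_norm]; exact h.ne16 x hx
  d4 := by
    intro i j hij
    refine ⟨(spE σ c).symm (Pi.single i 4 - Pi.single j 4), ?_, AddEquiv.apply_symm_apply _ _⟩
    rw [map_sub, spE_symm_single, spE_symm_single, sub_eq_add_neg, ← Pi.single_neg]
    apply h.pm4 (fun hh => hij (σ.symm.injective hh))
    · split_ifs <;> simp
    · split_ifs <;> simp
  s8 := by
    intro i
    refine ⟨(spE σ c).symm (Pi.single i 8), ?_, AddEquiv.apply_symm_apply _ _⟩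
    rw [spE_symm_single]
    split_ifs
    · rw [Pi.single_neg]; exact neg_mem (h.s8 _)
    · exact h.s8 _
  dot := by
    rintro _ ⟨x, hx, rfl⟩ _ ⟨y, hy, rfl⟩
    show (8 : ℤ) ∣ dotInt (spE σ c x) (spE σ c y)
    rw [spE_dot]; exact h.dot x hx y hy
  c32 := by
    rw [← h.c32, ← Set.ncard_image_of_injective {x | x ∈ M ∧ sqNorm x = 32} (spE σ c).injective]
    congr 1
    ext y
    constructor
    · rintro ⟨⟨x, hx, rfl⟩, hn⟩
      refine ⟨x, ⟨hx, ?_⟩, rfl⟩
      rw [← spE_norm σ c]; exact hn
    · rintro ⟨x, ⟨hx, hn⟩, rfl⟩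
      exact ⟨⟨x, hx, rfl⟩, by rw [spE_norm]; exact hn⟩

end FL

end CfsgLib.Leech
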