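import Mathlib
import Cfsg.Agent.Lib.Leech9

/-!
Sublattices of `ℤ^24` with a coordinate frame: recognition of the Leech lattice.
-/

set_option autoImplicit false

namespace CfsgLib.Leech

open CfsgLib.Golay Finset Cfsg
open scoped Pointwise

namespace FL

variable {M : AddSubgroup (GolayPt → ℤ)} (h : FL M)
include h

/-- sign changes making all coordinate sums of even vectors divisible by eight -/
theorem exists_sign (hG : ∀ S, SE M S ↔ S ∈ GC) : ∃ T : Finset GolayPt, ∀ S ∈ GC, ∀ x ∈ M, (∀ i, x i % 4 = if i ∈ S then 2 else 0) →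
    (∑ i, x i) % 8 = (4 * ((S ∩ T).card : ℤ)) % 8 := by
  classical
  -- representatives
  have hrep : ∀ w : golayCode, ∃ x ∈ M, ∀ i, x i % 4 = if i ∈ support₂ (w : GolayPt → ZMod 2) then 2 else 0 := by
    intro w
    exact (hG _).mpr (mem_iff_supports.mp w.2)
  choose r hrM hr using hrep
  have hr4 : ∀ w, ∃ k, ∑ i, r w i = 4 * k := by
    intro w
    have h1 := sum_mod_of (card_GC (mem_iff_supports.mp w.2)) (hr w)
    exact ⟨(∑ i, r w i) / 4, by omega⟩
  choose k hk using hr4
  -- additivity
  have hadd : ∀ v w : golayCode, ((k (v + w) : ℤ) : ZMod 2) = (k v : ZMod 2) + (k w : ZMod 2) := by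
    intro v w
    have h1 := h.sumc (hrM (v + w)) (add_mem (hrM v) (hrM w)) (fun i => by
      have a := hr v i
      have b := hr w i
      have c := hr (v + w) i
      have d : ((v + w : golayCode) : GolayPt → ZMod 2) = (v : GolayPt → ZMod 2) + w := rfl
      rw [d, support₂_add] at c
      rw [Pi.add_apply]
      simp only [Finset.mem_symmDiff] at c
      by_cases a' : i ∈ support₂ (v : GolayPt → ZMod 2) <;> by_cases b' : i ∈ support₂ (w : GolayPt → ZMod 2) <;>
        simp only [a', b', if_true, if_false, not_true, not_false_iff, and_true, and_false, or_false, false_or, or_true] at a b c <;> omega)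
    simp only [Pi.add_apply, Finset.sum_add_distrib] at h1
    rw [hk, hk, hk] at h1
    rw [← Int.cast_add, ZMod.intCast_eq_intCast_iff]
    show k (v + w) % (2 : ℕ) = (k v + k w) % (2 : ℕ)
    push_cast
    omega
  let φ : golayCode →+ ZMod 2 := AddMonoidHom.mk' (fun w => ((k w : ℤ) : ZMod 2)) hadd
  obtain ⟨g, hg⟩ := LinearMap.exists_extend (φ.toZModLinearMap 2)
  refine ⟨univ.filter (fun i => g (Pi.single i 1) ≠ 0), ?_⟩
  intro S hS x hx hxS
  have hw : word S ∈ golayCode := mem_supports.mp hS
  have h1 : g (word S) = ((k ⟨word S, hw⟩ : ℤ) : ZMod 2) := by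
    have := LinearMap.congr_fun hg ⟨word S, hw⟩
    exact this
  have h2 : g (word S) = (((S ∩ univ.filter (fun i => g (Pi.single i 1) ≠ 0)).card : ℕ) : ZMod 2) := by
    rw [LinearMap.pi_apply_eq_sum_univ g (word S), Finset.card_eq_sum_ones, Nat.cast_sum, ← Finset.univ_inter (S ∩ _), ← Finset.sum_ite_mem]
    apply Finset.sum_congr rfl
    intro i _
    have hgi : (fun j => if i = j then (1 : ZMod 2) else 0) = Pi.single i 1 := by
      funext j; rw [Pi.single_apply]; by_cases hij : i = j
      · rw [if_pos hij, if_pos hij.symm]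
      · rw [if_neg hij, if_neg (fun hh => hij hh.symm)]
    rw [hgi, smul_eq_mul]
    by_cases hi : i ∈ S
    · have hwi : word S i = 1 := by
        have : i ∈ support₂ (word S) := by rw [support₂_word]; exact hi
        exact zmod2_ne _ (mem_support₂.mp this)
      rw [hwi, one_mul]
      by_cases hgi' : g (Pi.single i 1) = 0
      · rw [hgi', if_neg]
        intro hh
        exact (Finset.mem_filter.mp (Finset.mem_inter.mp hh).2).2 hgi'
      · rw [if_pos (Finset.mem_inter.mpr ⟨hi, Finset.mem_filter.mpr ⟨Finset.mem_univ _, hgi'⟩⟩), zmod2_ne _ hgi', Nat.cast_one]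
    · have hwi : word S i = 0 := by
        by_contra hne
        have : i ∈ support₂ (word S) := mem_support₂.mpr hne
        rw [support₂_word] at this; exact hi this
      rw [hwi, zero_mul, if_neg (fun hh => hi (Finset.mem_inter.mp hh).1)]
  have h3 : (∑ i, x i - ∑ i, r ⟨word S, hw⟩ i) % 8 = 0 := by
    apply h.sumc hx (hrM _)
    intro i
    have a := hxS i
    have b := hr ⟨word S, hw⟩ i
    simp only [support₂_word] at b
    split_ifs at a b <;> omega
  rw [h2, ← Int.cast_natCast, ZMod.intCast_eq_intCast_iff] at h1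
  have h4 : ((S ∩ univ.filter (fun i => g (Pi.single i 1) ≠ 0)).card : ℤ) % 2 = k ⟨word S, hw⟩ % 2 := h1
  have h5 := hk ⟨word S, hw⟩
  omega

/-- final step -/
theorem eq_leech (hG : ∀ S, SE M S ↔ S ∈ GC) (h0 : ∀ S ∈ GC, ∀ x ∈ M, (∀ i, x i % 4 = if i ∈ S then 2 else 0) → (∑ i, x i) % 8 = 0) : M = leechLattice := by
  classical
  have hww : ∀ S ∈ GC, ww S ∈ M := by
    intro S hS
    obtain ⟨x, hx, hxS⟩ := (hG S).mpr hS
    apply h.mv hx
    · intro i
      have a := ww_mod S i
      have b := hxS i
      split_ifs at a b <;> omega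
    · rw [sum_ww]
      have a := h0 S hS x hx hxS
      have b := card_GC hS
      omega
  have hle : ∀ x ∈ M, x ∈ leechLattice := by
    intro x hx
    rcases h.par hx with ⟨S, hS⟩ | ⟨S, hS⟩
    · have hSG : S ∈ GC := (hG S).mp ⟨x, hx, hS⟩
      refine mem_leech0 (C := S) ⟨hSG, fun i => ?_, ?_⟩
      · rw [hS i]; split_ifs <;> rfl
      · rw [h0 S hSG x hx hS]; rfl
    · have hSG : S ∈ GC := by
        apply CfsgLib.SteinerV.mem_of_even
        intro o ho
        have hoG : toFS o ∈ GC := by
          have := List.all_eq_true.mp CfsgLib.SteinerV.gensT_code o ho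
          simp only [Bool.and_eq_true] at this
          have hlt : o < 2 ^ 24 := by
            have h2 := this.1.2
            rw [Nat.blt_eq] at h2; omega
          show toFS o ∈ supports (golayCode : Set (GolayPt → ZMod 2))
          rw [mem_supports_iff, mask_toFS hlt]
          exact this.1.1
        have h1 := h.dot x hx _ (hww _ hoG)
        have h2 : dotInt x (ww (toFS o)) = 2 * ∑ i ∈ toFS o, x i := by
          unfold dotInt ww
          rw [Finset.mul_sum]
          rw [Finset.sum_congr rfl (g := fun i => if i ∈ toFS o then 2 * x i else 0) (fun i _ => by split_ifs <;> ring)]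
          rw [Finset.sum_ite_mem, Finset.univ_inter]
        have h3 : ∃ t : ℤ, ∑ i ∈ toFS o, x i = (toFS o).card - 2 * (S ∩ toFS o).card + 4 * t := by
          have h4 : ∀ i, ∃ t, x i = (1 - ww S i) + 4 * t := by
            intro i
            have h1 := hS i
            unfold ww
            split_ifs at h1 ⊢
            · exact ⟨(x i + 1) / 4, by omega⟩
            · exact ⟨(x i - 1) / 4, by omega⟩
          choose t ht using h4
          refine ⟨∑ i ∈ toFS o, t i, ?_⟩
          rw [Finset.sum_congr rfl (fun i _ => ht i), Finset.sum_add_distrib, Finset.sum_sub_distrib, ← Finset.mul_sum]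
          unfold ww
          rw [Finset.sum_ite_mem, Finset.sum_const, Finset.sum_const, Finset.inter_comm (toFS o) S]
          simp only [nsmul_eq_mul]
          ring
        obtain ⟨t, ht⟩ := h3
        have h5 := card_GC hoG
        rw [Nat.even_iff]
        omega
      refine mem_leech1 (C := S) (NF1_of hSG (fun i hi => by rw [hS i, if_pos hi]) (fun i hi => by rw [hS i, if_neg hi]) ?_)
      have := h.n16 x hx; omega
  have heven : ∀ (x : GolayPt → ℤ) (C : Finset GolayPt), NF x 0 C → x ∈ M := by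
    intro x C hC
    obtain ⟨y, hy, hyC⟩ := (hG C).mpr hC.1
    apply h.mv hy
    · intro i
      have a := hC.2.1 i
      have b := hyC i
      split_ifs at a b <;> omega
    · have a := h0 C hC.1 y hy hyC
      have b := hC.2.2
      omega
  apply le_antisymm hle
  intro x hx
  obtain ⟨C, hC | hC⟩ := mem_leech.mp hx
  · exact heven x C hC
  · -- odd vectors
    have hne : (univ.filter (fun S => SO M S)).Nonempty := Finset.card_pos.mp (by rw [h.card_all.2.1]; norm_num)
    obtain ⟨T, hT⟩ := hne
    obtain ⟨y, hy, hyT⟩ := (Finset.mem_filter.mp hT).2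
    obtain ⟨D, hD | hD⟩ := mem_leech.mp (hle y hy)
    · have a := hyT (pt 0)
      have b := hD.2.1 (pt 0)
      split_ifs at a b <;> omega
    · have h1 := heven _ _ (NF_add11 hC (NF_neg1 hD))
      have : x = (x + -y) + y := by abel
      rw [this]; exact add_mem h1 hy

/-- recognition of the Leech lattice up to signed permutations -/
theorem recognize : ∃ (σ : Equiv.Perm GolayPt) (c : Finset GolayPt), ∀ x, x ∈ M ↔ spE σ c x ∈ leechLattice := by
  classical
  obtain ⟨σ, hσ⟩ := h.exists_label
  have h1 := h.map σ ∅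
  set M1 := M.map (spE σ ∅ : (GolayPt → ℤ) →+ (GolayPt → ℤ)) with hM1
  have hG1 : ∀ S, SE M1 S ↔ S ∈ GC := by
    intro S
    have hSS : (S.image σ.symm).image σ = S := by rw [Finset.image_image]; ext x; simp
    rw [← hSS, ← hσ, hSS]
    constructor
    · rintro ⟨_, ⟨x, hx, rfl⟩, hxS⟩
      refine ⟨x, hx, fun i => ?_⟩
      have := hxS (σ i)
      have e : (spE σ ∅ : (GolayPt → ℤ) →+ (GolayPt → ℤ)) x (σ i) = x i := by
        show signedPerm σ ∅ x (σ i) = x i
        unfold signedPerm
        rw [if_neg (Finset.notMem_empty _), Equiv.symm_apply_apply]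
      rw [e] at this
      rw [this]
      have e2 : i ∈ S.image σ.symm ↔ σ i ∈ S := by
        rw [Finset.mem_image]
        constructor
        · rintro ⟨a, ha, rfl⟩; rwa [Equiv.apply_symm_apply]
        · intro hi; exact ⟨σ i, hi, Equiv.symm_apply_apply _ _⟩
      simp only [e2]
    · rintro ⟨x, hx, hxS⟩
      refine ⟨_, ⟨x, hx, rfl⟩, fun i => ?_⟩
      have := hxS (σ.symm i)
      have e : (spE σ ∅ : (GolayPt → ℤ) →+ (GolayPt → ℤ)) x i = x (σ.symm i) := by
        show signedPerm σ ∅ x i = x (σ.symm i)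
        unfold signedPerm
        rw [if_neg (Finset.notMem_empty _)]
      rw [e, this]
      have e2 : σ.symm i ∈ S.image σ.symm ↔ i ∈ S := by
        rw [Finset.mem_image]
        constructor
        · rintro ⟨a, ha, h⟩; rwa [← σ.symm.injective h]
        · intro hi; exact ⟨i, hi, rfl⟩
      simp only [e2]
  obtain ⟨T, hT⟩ := h1.exists_sign hG1
  have h2 := h1.map 1 T
  set M2 := M1.map (spE 1 T : (GolayPt → ℤ) →+ (GolayPt → ℤ)) with hM2
  have hval : ∀ (x : GolayPt → ℤ) i, (spE 1 T : (GolayPt → ℤ) →+ (GolayPt → ℤ)) x i = if i ∈ T then - x i else x i := fun x i => rfl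
  have hcls : ∀ (x : GolayPt → ℤ) (S : Finset GolayPt), (∀ i, (spE 1 T : (GolayPt → ℤ) →+ (GolayPt → ℤ)) x i % 4 = if i ∈ S then 2 else 0) ↔ (∀ i, x i % 4 = if i ∈ S then 2 else 0) := by
    intro x S
    apply forall_congr'
    intro i
    rw [hval]
    split_ifs <;> omega
  have hG2 : ∀ S, SE M2 S ↔ S ∈ GC := by
    intro S
    rw [← hG1]
    constructor
    · rintro ⟨_, ⟨x, hx, rfl⟩, hxS⟩
      exact ⟨x, hx, (hcls x S).mp hxS⟩
    · rintro ⟨x, hx, hxS⟩
      exact ⟨_, ⟨x, hx, rfl⟩, (hcls x S).mpr hxS⟩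
  have h02 : ∀ S ∈ GC, ∀ x ∈ M2, (∀ i, x i % 4 = if i ∈ S then 2 else 0) → (∑ i, x i) % 8 = 0 := by
    rintro S hS _ ⟨x, hx, rfl⟩ hxS
    have hxS' := (hcls x S).mp hxS
    have h3 := hT S hS x hx hxS'
    have h4 : ∑ i, (spE 1 T : (GolayPt → ℤ) →+ (GolayPt → ℤ)) x i = ∑ i, x i - 2 * ∑ i ∈ T, x i := by
      have e : ∑ i ∈ T, x i = ∑ i, if i ∈ T then x i else 0 := by rw [Finset.sum_ite_mem, Finset.univ_inter]
      rw [e, Finset.mul_sum, ← Finset.sum_sub_distrib]
      apply Finset.sum_congr rfl
      intro i _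
      rw [hval]; split_ifs <;> ring
    have h5 : ∃ t : ℤ, ∑ i ∈ T, x i = 2 * (S ∩ T).card + 4 * t := by
      have h6 : ∀ i, ∃ t, x i = ww S i + 4 * t := by
        intro i
        have h1 := hxS' i
        unfold ww
        split_ifs at h1 ⊢
        · exact ⟨(x i - 2) / 4, by omega⟩
        · exact ⟨x i / 4, by omega⟩
      choose t ht using h6
      refine ⟨∑ i ∈ T, t i, ?_⟩
      rw [Finset.sum_congr rfl (fun i _ => ht i), Finset.sum_add_distrib, ← Finset.mul_sum]
      unfold ww
      rw [Finset.sum_ite_mem, Finset.sum_const, Finset.inter_comm T S, nsmul_eq_mul]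
      ring
    obtain ⟨t, ht⟩ := h5
    show (∑ i, (spE 1 T : (GolayPt → ℤ) →+ (GolayPt → ℤ)) x i) % 8 = 0
    omega
  have hfin := h2.eq_leech hG2 h02
  refine ⟨σ, T, fun x => ?_⟩
  rw [← hfin]
  have hcomp : ∀ x, spE σ T x = spE 1 T (spE σ ∅ x) := by
    intro x
    funext i
    show signedPerm σ T x i = signedPerm 1 T (signedPerm σ ∅ x) i
    unfold signedPerm
    rw [if_neg (Finset.notMem_empty _)]
    rfl
  constructor
  · intro hx
    rw [hcomp]
    exact ⟨_, ⟨x, hx, rfl⟩, rfl⟩
  · rintro ⟨_, ⟨y, hy, rfl⟩, he⟩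
    have h3 : spE σ T y = spE σ T x := (hcomp y).trans he
    rw [← (spE σ T).injective h3]; exact hy

end FL

end CfsgLib.Leech
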