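import Mathlib
import Cfsg.Agent.Lib.Leech10
import Cfsg.Agent.Lib.GolayM

/-!
Frames of abstract lattices, the group of automorphisms of the Leech lattice.
-/

set_option autoImplicit false

namespace CfsgLib.Leech

open CfsgLib.Golay Finset Cfsg
open scoped Pointwise

section frame

variable {L : Type*} [AddCommGroup L] {b : L → L → ℤ} (hL : ELat b) (ob : OB b) (f : GolayPt → L) (hf : ∀ i j, b (f i) (f j) = if i = j then 8 else 0)
include hL

/-- frame coordinates -/
def cf : L →+ (GolayPt → ℤ) := AddMonoidHom.mk' (fun x i => b x (f i)) (fun x y => by funext i; exact hL.add_left x y (f i))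

theorem cf_apply (x : L) (i : GolayPt) : cf hL f x i = b x (f i) := rfl

include ob hf

theorem cf_dot (x y : L) : dotInt (cf hL f x) (cf hL f y) = 8 * b x y := (parseval hL ob f hf x y).symm

theorem cf_norm (x : L) : sqNorm (cf hL f x) = 8 * b x x := by rw [sqNorm_eq_dot, cf_dot hL ob f hf]

theorem cf_inj : Function.Injective (cf hL f) := by
  intro x y hxy
  by_contra hne
  have h1 := cf_norm hL ob f hf (x - y)
  rw [map_sub, hxy, sub_self] at h1
  have h2 := hL.pos (x - y) (sub_ne_zero.mpr hne)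
  have h3 : sqNorm (0 : GolayPt → ℤ) = 0 := by unfold sqNorm; simp
  omega

omit ob in
theorem cf_frame (i : GolayPt) : cf hL f (f i) = Pi.single i 8 := by
  funext j
  rw [cf_apply, hf, Pi.single_apply]
  by_cases h : i = j
  · rw [if_pos h, if_pos h.symm]
  · rw [if_neg h, if_neg (fun hh => h hh.symm)]

theorem cf_FL (hc : ∀ i j, ∃ z, f i - f j = z + z) (c4 : {x | b x x = 4}.ncard = 196560) : FL (cf hL f).range where
  n16 := by
    rintro _ ⟨x, rfl⟩
    rw [cf_norm hL ob f hf]
    obtain ⟨k, hk⟩ := hL.even x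
    exact ⟨k, by rw [hk]; ring⟩
  ne16 := by
    rintro _ ⟨x, rfl⟩
    rw [cf_norm hL ob f hf]
    have := hL.no2 x
    omega
  d4 := by
    intro i j _
    obtain ⟨z, hz⟩ := hc i j
    refine ⟨z, ?_⟩
    have h1 := congrArg (cf hL f) hz
    rw [map_sub, map_add, cf_frame hL f hf, cf_frame hL f hf] at h1
    funext k
    have h2 := congrFun h1 k
    rw [Pi.sub_apply, Pi.add_apply] at h2
    rw [Pi.sub_apply]
    rw [Pi.single_apply, Pi.single_apply] at h2 ⊢
    split_ifs at h2 ⊢ <;> omega
  s8 := by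
    intro i
    exact ⟨f i, cf_frame hL f hf i⟩
  dot := by
    rintro _ ⟨x, rfl⟩ _ ⟨y, rfl⟩
    rw [cf_dot hL ob f hf]; exact ⟨_, rfl⟩
  c32 := by
    rw [← c4, ← Set.ncard_image_of_injective {x | b x x = 4} (cf_inj hL ob f hf)]
    congr 1
    ext y
    constructor
    · rintro ⟨⟨x, rfl⟩, hn⟩
      rw [cf_norm hL ob f hf] at hn
      exact ⟨x, by rw [Set.mem_setOf_eq]; omega, rfl⟩
    · rintro ⟨x, hx, rfl⟩
      refine ⟨⟨x, rfl⟩, ?_⟩
      rw [cf_norm hL ob f hf, Set.mem_setOf_eq.mp hx]; norm_num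

/-- the isometry to the Leech lattice given by a frame -/
theorem frame_iso (hc : ∀ i j, ∃ z, f i - f j = z + z) (c4 : {x | b x x = 4}.ncard = 196560) :
    ∃ (φ : L ≃+ leechLattice) (σ : Equiv.Perm GolayPt) (c : Finset GolayPt), ∀ x, ((φ x : leechLattice) : GolayPt → ℤ) = spE σ c (fun i => b x (f i)) := by
  obtain ⟨σ, c, h⟩ := (cf_FL hL ob f hf hc c4).recognize
  let ψ : L →+ leechLattice := AddMonoidHom.mk' (fun x => ⟨spE σ c (cf hL f x), (h _).mp ⟨x, rfl⟩⟩)
    (fun x y => Subtype.ext (by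
      show spE σ c (cf hL f (x + y)) = spE σ c (cf hL f x) + spE σ c (cf hL f y)
      rw [map_add, map_add]))
  have hψ : Function.Bijective ψ := by
    constructor
    · intro x y hxy
      have := congrArg Subtype.val hxy
      exact cf_inj hL ob f hf ((spE σ c).injective this)
    · intro y
      have h1 : (spE σ c).symm (y : GolayPt → ℤ) ∈ (cf hL f).range := (h _).mpr (by rw [AddEquiv.apply_symm_apply]; exact y.2)
      obtain ⟨x, hx⟩ := h1
      refine ⟨x, Subtype.ext ?_⟩
      show spE σ c (cf hL f x) = y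
      rw [hx, AddEquiv.apply_symm_apply]
  exact ⟨AddEquiv.ofBijective ψ hψ, σ, c, fun x => rfl⟩

end frame

/-! ### the group of automorphisms -/

theorem co_add (g : Co0) (v w : leechLattice) : g • (v + w) = g • v + g • w := g.2.1 v w

theorem co_norm (g : Co0) (v : leechLattice) : sqNorm ((g • v : leechLattice) : GolayPt → ℤ) = sqNorm (v : GolayPt → ℤ) := g.2.2 v

theorem co_zero (g : Co0) : g • (0 : leechLattice) = 0 := by
  have := co_add g 0 0
  rw [add_zero] at this
  exact left_eq_add.mp this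

theorem co_neg (g : Co0) (v : leechLattice) : g • (-v) = -(g • v) := by
  have := co_add g v (-v)
  rw [add_neg_cancel, co_zero] at this
  exact (neg_eq_of_add_eq_zero_right this.symm).symm

theorem co_sub (g : Co0) (v w : leechLattice) : g • (v - w) = g • v - g • w := by
  rw [sub_eq_add_neg, co_add, co_neg, sub_eq_add_neg]

theorem norm_add (x y : GolayPt → ℤ) : sqNorm (x + y) = sqNorm x + sqNorm y + 2 * dotInt x y := by
  rw [sqNorm_eq_dot, sqNorm_eq_dot, sqNorm_eq_dot, dot_add_left, dot_symm x (x + y), dot_symm y (x + y), dot_add_left, dot_add_left, dot_symm y x]; ring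

theorem dot_neg_right (x y : GolayPt → ℤ) : dotInt x (-y) = - dotInt x y := by
  unfold dotInt
  rw [← Finset.sum_neg_distrib]
  apply Finset.sum_congr rfl; intro i _; rw [Pi.neg_apply]; ring

theorem dot_neg_left (x y : GolayPt → ℤ) : dotInt (-x) y = - dotInt x y := by
  rw [dot_symm, dot_neg_right, dot_symm]

theorem dot_add_right (x y z : GolayPt → ℤ) : dotInt x (y + z) = dotInt x y + dotInt x z := by
  rw [dot_symm, dot_add_left, dot_symm y, dot_symm z]

theorem dot_sub_left (x y z : GolayPt → ℤ) : dotInt (x - y) z = dotInt x z - dotInt y z := by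
  rw [dot_symm, dot_sub_right, dot_symm z, dot_symm z]

theorem norm_neg (x : GolayPt → ℤ) : sqNorm (-x) = sqNorm x := by
  rw [sqNorm_eq_dot, dot_neg_right, dot_neg_left, neg_neg, sqNorm_eq_dot]

theorem norm_sub (x y : GolayPt → ℤ) : sqNorm (x - y) = sqNorm x + sqNorm y - 2 * dotInt x y := by
  rw [sub_eq_add_neg, norm_add, norm_neg, dot_neg_right]; ring

theorem co_dot (g : Co0) (v w : leechLattice) : dotInt ((g • v : leechLattice) : GolayPt → ℤ) ((g • w : leechLattice) : GolayPt → ℤ) = dotInt (v : GolayPt → ℤ) w := by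
  have h1 := co_norm g (v + w)
  have h2 := co_norm g v
  have h3 := co_norm g w
  rw [co_add] at h1
  have h4 := norm_add ((g • v : leechLattice) : GolayPt → ℤ) ((g • w : leechLattice) : GolayPt → ℤ)
  have h5 := norm_add (v : GolayPt → ℤ) (w : GolayPt → ℤ)
  have h6 : sqNorm ((g • v + g • w : leechLattice) : GolayPt → ℤ) = sqNorm (((g • v : leechLattice) : GolayPt → ℤ) + ((g • w : leechLattice) : GolayPt → ℤ)) := rfl
  have h7 : sqNorm ((v + w : leechLattice) : GolayPt → ℤ) = sqNorm ((v : GolayPt → ℤ) + (w : GolayPt → ℤ)) := rfl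
  omega

/-- automorphisms from isometries -/
def mkCo (φ : leechLattice ≃+ leechLattice) (hφ : ∀ x, sqNorm ((φ x : leechLattice) : GolayPt → ℤ) = sqNorm (x : GolayPt → ℤ)) : Co0 :=
  ⟨φ.toEquiv, fun v w => map_add φ v w, hφ⟩

theorem mkCo_smul (φ : leechLattice ≃+ leechLattice) (hφ : ∀ x, sqNorm ((φ x : leechLattice) : GolayPt → ℤ) = sqNorm (x : GolayPt → ℤ)) (v : leechLattice) : mkCo φ hφ • v = φ v := rfl

theorem co_ext {g k : Co0} (h : ∀ v : leechLattice, g • v = k • v) : g = k := Subtype.ext (Equiv.ext h)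

/-- the vectors `8e_i` -/
def e8 (i : GolayPt) : leechLattice := ⟨Pi.single i 8, mem_leech0 (C := ∅) ⟨empty_mem, fun j => by
  rw [if_neg (Finset.notMem_empty j), Pi.single_apply]; split_ifs <;> rfl, by rw [Finset.sum_pi_single', if_pos (Finset.mem_univ i)]; rfl⟩⟩

theorem coe_e8 (i : GolayPt) : ((e8 i : leechLattice) : GolayPt → ℤ) = Pi.single i 8 := rfl

theorem dot_e8 (x : GolayPt → ℤ) (i : GolayPt) : dotInt x (e8 i : GolayPt → ℤ) = x i * 8 := dot_single x i 8

/-- monomial maps preserve the lattice -/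
theorem mono_mem {σ : Equiv.Perm GolayPt} (hσ : σ ∈ M24) {c : Finset GolayPt} (hc : c ∈ GC) {x : GolayPt → ℤ} (hx : x ∈ leechLattice) : spE σ c x ∈ leechLattice := by
  have h1 := perm_mem (inv_mem hσ) hx
  exact sign_mem hc h1

theorem mono_mem_iff {σ : Equiv.Perm GolayPt} (hσ : σ ∈ M24) {c : Finset GolayPt} (hc : c ∈ GC) {x : GolayPt → ℤ} : spE σ c x ∈ leechLattice ↔ x ∈ leechLattice := by
  refine ⟨fun h => ?_, mono_mem hσ hc⟩
  have h1 := sign_mem hc h
  have h2 := perm_mem hσ h1
  convert h2 using 1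
  funext i
  show x i = if σ i ∈ c then -(signedPerm σ c x (σ i)) else signedPerm σ c x (σ i)
  unfold signedPerm
  rw [Equiv.symm_apply_apply]
  split_ifs <;> ring

/-- the monomial automorphism -/
def mono {σ : Equiv.Perm GolayPt} (hσ : σ ∈ M24) {c : Finset GolayPt} (hc : c ∈ GC) : Co0 :=
  ⟨{ toFun := fun x => ⟨spE σ c x, mono_mem hσ hc x.2⟩
     invFun := fun x => ⟨(spE σ c).symm x, (mono_mem_iff hσ hc).mp (by rw [AddEquiv.apply_symm_apply]; exact x.2)⟩
     left_inv := fun x => Subtype.ext (AddEquiv.symm_apply_apply _ _)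
     right_inv := fun x => Subtype.ext (AddEquiv.apply_symm_apply _ _) },
   fun v w => Subtype.ext (map_add (spE σ c) (v : GolayPt → ℤ) w), fun v => spE_norm σ c v⟩

theorem mono_smul {σ : Equiv.Perm GolayPt} (hσ : σ ∈ M24) {c : Finset GolayPt} (hc : c ∈ GC) (v : leechLattice) : ((mono hσ hc • v : leechLattice) : GolayPt → ℤ) = spE σ c v := rfl

theorem norm_bl {n : ℤ} {x : leechLattice} : bl x x = n ↔ sqNorm (x : GolayPt → ℤ) = 8 * n := by
  have := bl_self x
  constructor
  · intro h; rw [← h, this]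
  · intro h; omega

/-- a frame vector goes to a standard frame vector, together with its frame -/
theorem frame_std (x : leechLattice) (hx : sqNorm (x : GolayPt → ℤ) = 64) : ∃ g : Co0, (∀ y : leechLattice, sqNorm (y : GolayPt → ℤ) = 64 → pi2 y = pi2 x → ∃ i, g • y = e8 i ∨ g • y = - e8 i) := by
  have hx8 : bl x x = 8 := norm_bl.mpr (by rw [hx]; norm_num)
  obtain ⟨-, f, hf, hpi, hall⟩ := leech_classes.2 x hx8
  have hc : ∀ i j, ∃ z, f i - f j = z + z := fun i j => (pi2_eq _ _).mp ((hpi i).trans (hpi j).symm)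
  have c4 : {x | bl x x = 4}.ncard = 196560 := by
    rw [ncard_bl (N := 32) (by norm_num), ncard_norm (by norm_num) (by norm_num), card32]
  obtain ⟨φ, σ, c, hφ⟩ := frame_iso elat obl f hf hc c4
  have hnorm : ∀ y, sqNorm ((φ y : leechLattice) : GolayPt → ℤ) = sqNorm (y : GolayPt → ℤ) := by
    intro y
    rw [hφ, spE_norm]
    have := cf_norm elat obl f hf y
    rw [bl_self] at this
    exact this
  refine ⟨mkCo φ hnorm, ?_⟩
  have key : ∀ i, ∃ j, mkCo φ hnorm • f i = e8 j ∨ mkCo φ hnorm • f i = - e8 j := by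
    intro i
    refine ⟨σ i, ?_⟩
    have h1 : ((φ (f i) : leechLattice) : GolayPt → ℤ) = Pi.single (σ i) (if σ i ∈ c then -8 else 8) := by
      rw [hφ]
      funext j
      show (if j ∈ c then -(bl (f i) (f (σ.symm j))) else bl (f i) (f (σ.symm j))) = _
      rw [hf, Pi.single_apply]
      by_cases hj : j = σ i
      · subst hj
        rw [Equiv.symm_apply_apply, if_pos rfl, if_pos rfl]
      · have : i ≠ σ.symm j := fun h => hj (by rw [h, Equiv.apply_symm_apply])
        rw [if_neg this, if_neg hj]; split_ifs <;> rfl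
    by_cases hic : σ i ∈ c
    · right
      rw [if_pos hic] at h1
      apply Subtype.ext
      show ((φ (f i) : leechLattice) : GolayPt → ℤ) = -(Pi.single (σ i) 8)
      rw [h1, Pi.single_neg]
    · left
      rw [if_neg hic] at h1
      exact Subtype.ext h1
  intro y hy hyx
  obtain ⟨i, hi | hi⟩ := hall y (norm_bl.mpr (by rw [hy]; norm_num)) hyx
  · rw [hi]; exact key i
  · obtain ⟨j, hj | hj⟩ := key i
    · refine ⟨j, Or.inr ?_⟩
      rw [hi, co_neg, hj]
    · refine ⟨j, Or.inl ?_⟩
      rw [hi, co_neg, hj, neg_neg]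

end CfsgLib.Leech
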