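import Mathlib
import Cfsg.Agent.Lib.Leech11
import Cfsg.Agent.Lib.GolayPairs

/-!
The monomial subgroup and the order of the automorphism group of the Leech lattice.
-/

set_option autoImplicit false

namespace CfsgLib.Leech

open CfsgLib.Golay Finset Cfsg
open scoped Pointwise

theorem cls_even_mem {x : GolayPt → ℤ} (hx : x ∈ leechLattice) {S : Finset GolayPt} (h : ∀ i, x i % 4 = if i ∈ S then 2 else 0) : NF x 0 S := by
  obtain ⟨C, hC | hC⟩ := mem_leech.mp hx
  · have : C = S := by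
      apply cls_unique (x := x) _ h
      intro i
      rw [hC.2.1 i]; split_ifs <;> rfl
    rw [← this]; exact hC
  · have a := h (pt 0)
    have b := hC.2.1 (pt 0)
    split_ifs at a b <;> omega

theorem cls_odd_mem {x : GolayPt → ℤ} (hx : x ∈ leechLattice) {S : Finset GolayPt} (h : ∀ i, x i % 4 = if i ∈ S then 3 else 1) : NF x 1 S := by
  obtain ⟨C, hC | hC⟩ := mem_leech.mp hx
  · have a := h (pt 0)
    have b := hC.2.1 (pt 0)
    split_ifs at a b <;> omega
  · have : C = S := by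
      apply clo_unique (x := x) _ h
      intro i
      rw [hC.2.1 i]; split_ifs <;> rfl
    rw [← this]; exact hC

theorem ww_mem {S : Finset GolayPt} (hS : S ∈ GC) : ww S ∈ leechLattice := by
  refine mem_leech0 (C := S) ⟨hS, fun i => ?_, ?_⟩
  · rw [ww_mod]; split_ifs <;> rfl
  · rw [sum_ww]
    have := card_GC hS
    omega

theorem smul_eq_image (σ : Equiv.Perm GolayPt) (S : Finset GolayPt) (i : GolayPt) : i ∈ σ • S ↔ σ.symm i ∈ S := by
  constructor
  · intro h
    have := (mem_smul_iff (g := σ) (s := S) (p := σ.symm i)).mp (by rw [Equiv.apply_symm_apply]; exact h)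
    exact this
  · intro h
    have := (mem_smul_iff (g := σ) (s := S) (p := σ.symm i)).mpr h
    rwa [Equiv.apply_symm_apply] at this

/-- automorphisms preserving the standard cross are monomial -/
theorem mono_of_std (g : Co0) (hg : ∀ i, ∃ j, g • e8 i = e8 j ∨ g • e8 i = - e8 j) : ∃ (σ : Equiv.Perm GolayPt) (hσ : σ ∈ M24) (c : Finset GolayPt) (hc : c ∈ GC), g = mono hσ hc := by
  classical
  choose τ hτ using hg
  have hd : ∀ i, ∃ s : ℤ, (s = 8 ∨ s = -8) ∧ ((g • e8 i : leechLattice) : GolayPt → ℤ) = Pi.single (τ i) s := by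
    intro i
    rcases hτ i with h | h
    · exact ⟨8, Or.inl rfl, by rw [h]; rfl⟩
    · refine ⟨-8, Or.inr rfl, ?_⟩
      rw [h, Pi.single_neg]; rfl
  choose s hs8 hs using hd
  have hinj : Function.Injective τ := by
    intro i j hij
    by_contra hne
    have h1 := co_dot g (e8 i) (e8 j)
    rw [hs, hs, dot_single, hij, Pi.single_eq_same, dot_e8, coe_e8, Pi.single_eq_of_ne (fun h => hne h.symm)] at h1
    rcases hs8 i with h | h <;> rcases hs8 j with h' | h' <;> rw [h, h'] at h1 <;> norm_num at h1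
  let σ : Equiv.Perm GolayPt := Equiv.ofBijective τ (Finite.injective_iff_bijective.mp hinj)
  have hστ : ∀ i, σ i = τ i := fun i => rfl
  let c : Finset GolayPt := univ.filter (fun j => s (σ.symm j) = -8)
  have hv : ∀ v : leechLattice, ((g • v : leechLattice) : GolayPt → ℤ) = spE σ c v := by
    intro v
    funext j
    have h1 := co_dot g v (e8 (σ.symm j))
    rw [hs, dot_single, dot_e8, ← hστ, Equiv.apply_symm_apply] at h1
    show _ = if j ∈ c then -((v : GolayPt → ℤ) (σ.symm j)) else (v : GolayPt → ℤ) (σ.symm j)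
    by_cases hj : j ∈ c
    · rw [if_pos hj]
      have := (Finset.mem_filter.mp hj).2
      rw [this] at h1; omega
    · rw [if_neg hj]
      have : s (σ.symm j) = 8 := by
        rcases hs8 (σ.symm j) with h | h
        · exact h
        · exact absurd (Finset.mem_filter.mpr ⟨Finset.mem_univ j, h⟩ : j ∈ c) hj
      rw [this] at h1; omega
  have hσ : σ ∈ M24 := by
    apply mem_M24_of_octads
    intro o ho
    have hoG : o ∈ GC := (octads_iff'.mp ho).1
    have h1 : spE σ c (ww o) ∈ leechLattice := by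
      rw [← hv ⟨ww o, ww_mem hoG⟩]; exact (g • (⟨ww o, ww_mem hoG⟩ : leechLattice)).2
    have h2 : NF (spE σ c (ww o)) 0 (σ • o) := by
      apply cls_even_mem h1
      intro i
      show (if i ∈ c then -(ww o (σ.symm i)) else ww o (σ.symm i)) % 4 = _
      unfold ww
      simp only [smul_eq_image]
      split_ifs <;> rfl
    rw [octads_iff', Nat.beq_eq, ← card_eq_pop]
    refine ⟨h2.1, ?_⟩
    rw [card_smul']
    rw [octads_iff', Nat.beq_eq, ← card_eq_pop] at ho
    exact ho.2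
  have hc : c ∈ GC := by
    have h1 : spE σ c vo ∈ leechLattice := by
      rw [← hv ⟨vo, vo_mem⟩]; exact (g • (⟨vo, vo_mem⟩ : leechLattice)).2
    have h2 : NF (spE σ c vo) 1 c := by
      apply cls_odd_mem h1
      intro i
      show (if i ∈ c then -(vo (σ.symm i)) else vo (σ.symm i)) % 4 = _
      unfold vo
      split_ifs <;> rfl
    exact h2.1
  exact ⟨σ, hσ, c, hc, co_ext fun v => Subtype.ext (hv v)⟩

theorem co_pi2 (g : Co0) {x y : leechLattice} (h : pi2 x = pi2 y) : pi2 (g • x) = pi2 (g • y) := by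
  rw [pi2_eq] at h ⊢
  obtain ⟨z, hz⟩ := h
  exact ⟨g • z, by rw [← co_sub, hz, co_add]⟩

theorem norm_e8 (i : GolayPt) : sqNorm ((e8 i : leechLattice) : GolayPt → ℤ) = 64 := by
  rw [coe_e8, sq_single]; norm_num

theorem pi2_e8 (i j : GolayPt) : pi2 (e8 i) = pi2 (e8 j) := by
  rw [pi2_eq]
  by_cases hij : i = j
  · exact ⟨0, by rw [hij]; simp⟩
  refine ⟨⟨Pi.single i 4 - Pi.single j 4, mem_leech0 (C := ∅) ⟨empty_mem, fun k => ?_, ?_⟩⟩, ?_⟩
  · rw [if_neg (Finset.notMem_empty k), Pi.sub_apply, Pi.single_apply, Pi.single_apply]; split_ifs <;> rfl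
  · simp only [Pi.sub_apply, Finset.sum_sub_distrib, Finset.sum_pi_single', Finset.mem_univ, if_true]; rfl
  · apply Subtype.ext
    funext k
    show (Pi.single i 8 : GolayPt → ℤ) k - (Pi.single j 8 : GolayPt → ℤ) k = ((Pi.single i 4 : GolayPt → ℤ) k - (Pi.single j 4 : GolayPt → ℤ) k) + ((Pi.single i 4 : GolayPt → ℤ) k - (Pi.single j 4 : GolayPt → ℤ) k)
    simp only [Pi.single_apply]
    split_ifs <;> norm_num

/-- the standard cross -/
theorem std_cross {y : leechLattice} (hy : sqNorm (y : GolayPt → ℤ) = 64) {i : GolayPt} (h : pi2 y = pi2 (e8 i)) : ∃ j, y = e8 j ∨ y = - e8 j := by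
  by_contra hcon
  push Not at hcon
  have h1 : ∀ j, (y : GolayPt → ℤ) j = 0 := by
    intro j
    have h2 : bl y y ≤ 8 := le_of_eq (norm_bl.mpr (by rw [hy]; norm_num))
    have h3 : bl (e8 j) (e8 j) ≤ 8 := le_of_eq (norm_bl.mpr (by rw [norm_e8]; norm_num))
    rcases elat.cong h2 h3 ((pi2_eq _ _).mp (h.trans (pi2_e8 i j))) with h4 | h4 | h4
    · exact absurd h4 (hcon j).1
    · exact absurd h4 (hcon j).2
    · have := bl_mul y (e8 j)
      rw [h4.2.2, dot_e8] at this; omega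
  have h2 : sqNorm (y : GolayPt → ℤ) = 0 := by
    unfold sqNorm
    exact Finset.sum_eq_zero (fun i _ => by rw [h1 i]; rfl)
  omega

/-- preserving one frame vector is enough -/
theorem std_of_one {g : Co0} {i j : GolayPt} (h : g • e8 i = e8 j ∨ g • e8 i = - e8 j) : ∀ k, ∃ l, g • e8 k = e8 l ∨ g • e8 k = - e8 l := by
  intro k
  have h1 : pi2 (g • e8 i) = pi2 (e8 j) := by
    rcases h with h | h
    · rw [h]
    · rw [h, pi2_eq]; exact ⟨-e8 j, by abel⟩
  exact std_cross (by rw [co_norm, norm_e8]) ((co_pi2 g (pi2_e8 k i)).trans h1)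

/-! ### sign patterns -/

theorem testBit_enc_low {j i : ℕ} (hj : j < 4096) (hi : i < 12) : (enc j).testBit i = j.testBit i := by
  have h := Nat.eq_of_beq_eq_true (forall_lt_pow _ 12 CfsgLib.SteinerV.low_enc j hj)
  have h2 : (Nat.land (enc j) 4095).testBit i = j.testBit i := by rw [h]
  have h3 : (4095 : ℕ).testBit i = true := by
    rw [show (4095 : ℕ) = 2 ^ 12 - 1 from rfl, Nat.testBit_two_pow_sub_one]; simp [hi]
  have h4 : (enc j &&& 4095).testBit i = j.testBit i := h2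
  rw [Nat.testBit_and, h3, Bool.and_true] at h4
  exact h4

/-- arbitrary sign patterns on at most five points -/
theorem sign_five {l : List GolayPt} (hl : l.Nodup) (h5 : l.length ≤ 5) (P : GolayPt → Prop) : ∃ c ∈ GC, ∀ p ∈ l, p ∈ c ↔ P p := by
  classical
  obtain ⟨l', hl', hlen, -⟩ := exists_app (univ \ l.toFinset) l hl (5 - l.length) (by
    rw [Finset.card_sdiff_of_subset (Finset.subset_univ _), List.toFinset_card_of_nodup hl, card_univ_G]; omega) (fun p hp => by simp [hp])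
  have hlen5 : (l ++ l').length = 5 := by rw [List.length_append]; omega
  obtain ⟨x0, x1, x2, x3, x4, hx⟩ : ∃ x0 x1 x2 x3 x4, l ++ l' = [x0, x1, x2, x3, x4] := by
    match h : l ++ l', hlen5 with
    | [x0, x1, x2, x3, x4], _ => exact ⟨x0, x1, x2, x3, x4, rfl⟩
  rw [hx] at hl'
  obtain ⟨g, hg, g0, g1, g2, g3, g4⟩ := frame5 hl'
  have hidx : ∀ p ∈ l, idx (g p) < 12 := by
    intro p hp
    have : p ∈ l ++ l' := List.mem_append_left _ hp
    rw [hx] at this
    simp only [List.mem_cons, List.not_mem_nil, or_false] at this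
    rcases this with rfl | rfl | rfl | rfl | rfl
    · rw [g0, idx_pt] <;> norm_num
    · rw [g1, idx_pt] <;> norm_num
    · rw [g2, idx_pt] <;> norm_num
    · rw [g3, idx_pt] <;> norm_num
    · rw [g4, idx_pt] <;> norm_num
  let s : Finset GolayPt := univ.filter (fun q => P (g⁻¹ q))
  have hj : mask s &&& 4095 < 4096 := lt_of_le_of_lt Nat.and_le_right (by norm_num)
  have hc := InC_enc hj
  refine ⟨g⁻¹ • toFS (enc (mask s &&& 4095)), ?_, ?_⟩
  · exact (M24_smul_supports (inv_mem hg)).mpr hc.2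
  · intro p hp
    rw [← mem_smul_iff (g := g), smul_inv_smul, mem_toFS, testBit_enc_low hj (hidx p hp)]
    have h3 : (4095 : ℕ).testBit (idx (g p)) = true := by
      rw [show (4095 : ℕ) = 2 ^ 12 - 1 from rfl, Nat.testBit_two_pow_sub_one]; simp [hidx p hp]
    rw [Nat.testBit_and, h3, Bool.and_true, testBit_mask, decide_eq_true_eq, Finset.mem_filter]
    simp

theorem univ_mem' : (univ : Finset GolayPt) ∈ GC := univ_mem

theorem mono_e8 {σ : Equiv.Perm GolayPt} (hσ : σ ∈ M24) {c : Finset GolayPt} (hc : c ∈ GC) (i : GolayPt) :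
    mono hσ hc • e8 i = if σ i ∈ c then - e8 (σ i) else e8 (σ i) := by
  have h : ((mono hσ hc • e8 i : leechLattice) : GolayPt → ℤ) = Pi.single (σ i) (if σ i ∈ c then -8 else 8) := by
    rw [mono_smul]
    funext j
    show (if j ∈ c then -((Pi.single i 8 : GolayPt → ℤ) (σ.symm j)) else (Pi.single i 8 : GolayPt → ℤ) (σ.symm j)) = _
    rw [Pi.single_apply, Pi.single_apply]
    by_cases hj : j = σ i
    · subst hj
      rw [Equiv.symm_apply_apply, if_pos rfl, if_pos rfl]
    · have : σ.symm j ≠ i := fun h => hj (by rw [← h, Equiv.apply_symm_apply])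
      rw [if_neg this, if_neg hj]; split_ifs <;> rfl
  apply Subtype.ext
  rw [h]
  by_cases hj : σ i ∈ c
  · rw [if_pos hj, if_pos hj, Pi.single_neg]; rfl
  · rw [if_neg hj, if_neg hj]; rfl

theorem exists_M24_map (p q : GolayPt) : ∃ σ ∈ M24, σ p = q := by
  obtain ⟨g, hg, h⟩ := PS_trans (l := []) (by simp) (m := [p]) (m' := [q]) (by simp) (by simp) (by simp) (by simp) rfl (by simp)
  refine ⟨g, hg.1, ?_⟩
  simpa using h

theorem e8_trans (i j : GolayPt) : ∃ g : Co0, g • e8 i = e8 j := by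
  obtain ⟨σ, hσ, h⟩ := exists_M24_map i j
  refine ⟨mono hσ empty_mem, ?_⟩
  rw [mono_e8, if_neg (Finset.notMem_empty _), h]

theorem e8_trans' (i j : GolayPt) : ∃ g : Co0, g • (- e8 i) = e8 j := by
  obtain ⟨σ, hσ, h⟩ := exists_M24_map i j
  refine ⟨mono hσ univ_mem, ?_⟩
  rw [co_neg, mono_e8, if_pos (Finset.mem_univ _), h, neg_neg]

/-- transitivity on vectors of norm 64 -/
theorem trans64 (x : leechLattice) (hx : sqNorm (x : GolayPt → ℤ) = 64) (j : GolayPt) : ∃ g : Co0, g • x = e8 j := by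
  obtain ⟨g, hg⟩ := frame_std x hx
  obtain ⟨i, hi | hi⟩ := hg x hx rfl
  · obtain ⟨k, hk⟩ := e8_trans i j
    exact ⟨k * g, by rw [mul_smul, hi, hk]⟩
  · obtain ⟨k, hk⟩ := e8_trans' i j
    exact ⟨k * g, by rw [mul_smul, hi, hk]⟩

theorem mono_inj {σ τ : Equiv.Perm GolayPt} {hσ : σ ∈ M24} {hτ : τ ∈ M24} {c d : Finset GolayPt} {hc : c ∈ GC} {hd : d ∈ GC} (h : mono hσ hc = mono hτ hd) : σ = τ ∧ c = d := by
  have h1 : ∀ i, Pi.single (σ i) (if σ i ∈ c then -8 else 8) = (Pi.single (τ i) (if τ i ∈ d then -8 else 8) : GolayPt → ℤ) := by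
    intro i
    have h2 : mono hσ hc • e8 i = mono hτ hd • e8 i := by rw [h]
    rw [mono_e8, mono_e8] at h2
    have h3 := congrArg Subtype.val h2
    by_cases a : σ i ∈ c <;> by_cases b : τ i ∈ d
    · rw [if_pos a, if_pos b] at h3 ⊢
      rw [Pi.single_neg, Pi.single_neg]; exact h3
    · rw [if_pos a, if_neg b] at h3 ⊢
      rw [Pi.single_neg]; exact h3
    · rw [if_neg a, if_pos b] at h3 ⊢
      rw [Pi.single_neg]; exact h3
    · rw [if_neg a, if_neg b] at h3 ⊢
      exact h3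
  have h2 : σ = τ := by
    apply Equiv.ext
    intro i
    have h3 := congrFun (h1 i) (σ i)
    rw [Pi.single_eq_same] at h3
    by_contra hne
    rw [Pi.single_eq_of_ne hne] at h3
    split_ifs at h3 <;> omega
  subst h2
  refine ⟨rfl, ?_⟩
  ext j
  have h3 := congrFun (h1 (σ.symm j)) j
  rw [Equiv.apply_symm_apply, Pi.single_eq_same, Pi.single_eq_same] at h3
  by_cases a : j ∈ c <;> by_cases b : j ∈ d <;> simp only [a, b, if_true, if_false] at h3 ⊢ <;> omega

theorem card_stab_e8 (p : GolayPt) : Nat.card (MulAction.stabilizer Co0 (e8 p)) = 10200960 * 2048 := by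
  have h1 : Nat.card {c : Finset GolayPt // c ∈ GC ∧ p ∉ c} = 2048 := by
    obtain ⟨g, hg, h⟩ := exists_M24_map p (pt 0)
    have h0 : Nat.card {c : Finset GolayPt // c ∈ GC ∧ p ∉ c} = {c : Finset GolayPt | c ∈ GC ∧ p ∉ c}.ncard := Nat.card_coe_set_eq _
    rw [h0, CfsgLib.Golay.ncard_transfer g (fun c => c ∈ GC ∧ p ∉ c) (fun c => c ∈ GC ∧ pt 0 ∉ c)]
    · apply count_code (fun m => !(m.testBit 0))
      · intro s
        rw [mem_pt_iff (by norm_num)]
        simp [GC]
      · decide +kernel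
    · intro s
      rw [← h, mem_smul_iff]
      exact and_congr_left fun _ => (M24_smul_supports hg).symm
  rw [← card_PS_one p, ← h1, ← Nat.card_prod]
  symm
  apply Nat.card_congr
  apply Equiv.ofBijective (fun a : PS [p] × {c : Finset GolayPt // c ∈ GC ∧ p ∉ c} => (⟨mono a.1.2.1 a.2.2.1, by
    have hp : (a.1 : Equiv.Perm GolayPt) p = p := a.1.2.2 p (by simp)
    rw [MulAction.mem_stabilizer_iff, mono_e8, hp, if_neg a.2.2.2]⟩ : MulAction.stabilizer Co0 (e8 p)))
  constructor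
  · rintro ⟨⟨σ, hσ⟩, ⟨c, hc⟩⟩ ⟨⟨τ, hτ⟩, ⟨d, hd⟩⟩ h
    have h2 := congrArg Subtype.val h
    obtain ⟨h3, h4⟩ := mono_inj (hσ := hσ.1) (hτ := hτ.1) (hc := hc.1) (hd := hd.1) h2
    subst h3; subst h4; rfl
  · rintro ⟨g, hg⟩
    rw [MulAction.mem_stabilizer_iff] at hg
    obtain ⟨σ, hσ, c, hc, rfl⟩ := mono_of_std g (std_of_one (Or.inl hg))
    rw [mono_e8] at hg
    have h2 := congrArg Subtype.val hg
    have h3 : σ p = p ∧ σ p ∉ c := by
      by_cases a : σ p ∈ c
      · rw [if_pos a] at h2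
        have h3 : -(Pi.single (σ p) 8 : GolayPt → ℤ) p = (Pi.single p 8 : GolayPt → ℤ) p := congrFun h2 p
        rw [Pi.single_eq_same, Pi.single_apply] at h3
        split_ifs at h3 <;> omega
      · rw [if_neg a] at h2
        have h3 : (Pi.single (σ p) 8 : GolayPt → ℤ) p = (Pi.single p 8 : GolayPt → ℤ) p := congrFun h2 p
        rw [Pi.single_eq_same, Pi.single_apply] at h3
        by_cases h4 : p = σ p
        · exact ⟨h4.symm, a⟩
        · rw [if_neg h4] at h3; omega
    refine ⟨⟨⟨σ, hσ, fun q hq => by rw [List.mem_singleton] at hq; rw [hq]; exact h3.1⟩, ⟨c, hc, by rw [← h3.1]; exact h3.2⟩⟩, rfl⟩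

theorem card_GC' : Nat.card {c : Finset GolayPt // c ∈ GC} = 4096 := by
  rw [← card_GCF, Nat.subtype_card]
  intro c; exact mem_GCF

/-- the monomial subgroup -/
theorem card_std : Nat.card {g : Co0 // ∀ i, ∃ j, g • e8 i = e8 j ∨ g • e8 i = - e8 j} = 4096 * 244823040 := by
  have h0 : Nat.card M24 = 244823040 := by rw [← PS_nil]; exact card_PS_nil
  rw [mul_comm, ← h0, ← card_GC', ← Nat.card_prod]
  symm
  apply Nat.card_congr
  apply Equiv.ofBijective (fun a : M24 × {c : Finset GolayPt // c ∈ GC} => (⟨mono a.1.2 a.2.2, by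
    intro i
    refine ⟨a.1.1 i, ?_⟩
    rw [mono_e8]
    by_cases h : a.1.1 i ∈ a.2.1
    · rw [if_pos h]; exact Or.inr rfl
    · rw [if_neg h]; exact Or.inl rfl⟩ : {g : Co0 // ∀ i, ∃ j, g • e8 i = e8 j ∨ g • e8 i = - e8 j}))
  constructor
  · rintro ⟨⟨σ, hσ⟩, ⟨c, hc⟩⟩ ⟨⟨τ, hτ⟩, ⟨d, hd⟩⟩ h
    have h2 := congrArg Subtype.val h
    obtain ⟨h3, h4⟩ := mono_inj (hσ := hσ) (hτ := hτ) (hc := hc) (hd := hd) h2
    subst h3; subst h4; rfl
  · rintro ⟨g, hg⟩
    obtain ⟨σ, hσ, c, hc, rfl⟩ := mono_of_std g hg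
    exact ⟨⟨⟨σ, hσ⟩, ⟨c, hc⟩⟩, rfl⟩

theorem mem_stdCross {v : leechLattice} : (v : GolayPt → ℤ) ∈ stdCross ↔ ∃ j, v = e8 j ∨ v = - e8 j := by
  constructor
  · rintro ⟨i, s, hs, h⟩
    refine ⟨i, ?_⟩
    rcases hs with rfl | rfl
    · left; exact Subtype.ext h
    · right; apply Subtype.ext; rw [h, Pi.single_neg]; rfl
  · rintro ⟨j, rfl | rfl⟩
    · exact ⟨j, 8, Or.inl rfl, rfl⟩
    · refine ⟨j, -8, Or.inr rfl, ?_⟩
      rw [Pi.single_neg]; rfl

theorem std_iff {g : Co0} : (∀ v : leechLattice, (v : GolayPt → ℤ) ∈ stdCross → ((g • v : leechLattice) : GolayPt → ℤ) ∈ stdCross) ↔ ∀ i, ∃ j, g • e8 i = e8 j ∨ g • e8 i = - e8 j := by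
  constructor
  · intro h i
    exact mem_stdCross.mp (h _ (mem_stdCross.mpr ⟨i, Or.inl rfl⟩))
  · intro h v hv
    obtain ⟨j, rfl | rfl⟩ := mem_stdCross.mp hv
    · exact mem_stdCross.mpr (h j)
    · obtain ⟨k, hk | hk⟩ := h j
      · exact mem_stdCross.mpr ⟨k, Or.inr (by rw [co_neg, hk])⟩
      · exact mem_stdCross.mpr ⟨k, Or.inl (by rw [co_neg, hk, neg_neg])⟩

theorem orbit_e8 (p : GolayPt) : MulAction.orbit Co0 (e8 p) = {y : leechLattice | bl y y = 8} := by
  ext y
  constructor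
  · rintro ⟨g, rfl⟩
    show bl (g • e8 p) (g • e8 p) = 8
    rw [norm_bl, co_norm, norm_e8]; norm_num
  · intro hy
    have : sqNorm (y : GolayPt → ℤ) = 64 := by rw [norm_bl.mp hy]; norm_num
    obtain ⟨g, hg⟩ := trans64 y this p
    exact ⟨g⁻¹, by rw [← hg]; show g⁻¹ • g • y = y; rw [inv_smul_smul]⟩

theorem card_Co0 : Nat.card Co0 = 8315553613086720000 := by
  have h1 := Nat.card_congr (MulAction.orbitProdStabilizerEquivGroup Co0 (e8 (pt 0)))
  rw [Nat.card_prod, card_stab_e8, Nat.card_coe_set_eq, orbit_e8, ncard_bl (N := 64) (by norm_num), ncard_norm (by norm_num) (by norm_num), card64] at h1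
  rw [← h1]

end CfsgLib.Leech
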