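import Mathlib
import Cfsg.Agent.Lib.Leech12

/-!
The centre of the automorphism group; transitivity on short vectors.
-/

set_option autoImplicit false

namespace CfsgLib.Leech

open CfsgLib.Golay Finset Cfsg
open scoped Pointwise

/-- minus one -/
def negOne : Co0 := mono (one_mem M24) univ_mem

theorem negOne_smul (v : leechLattice) : negOne • v = -v := by
  apply Subtype.ext
  funext i
  show (if i ∈ (univ : Finset GolayPt) then -((v : GolayPt → ℤ) i) else _) = _
  rw [if_pos (Finset.mem_univ i)]; rfl

theorem negOne_ne : negOne ≠ 1 := by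
  intro h
  have h1 := negOne_smul (e8 (pt 0))
  rw [h, one_smul] at h1
  have h2 := congrFun (congrArg Subtype.val h1) (pt 0)
  have h3 : (Pi.single (pt 0) 8 : GolayPt → ℤ) (pt 0) = -(Pi.single (pt 0) 8 : GolayPt → ℤ) (pt 0) := h2
  rw [Pi.single_eq_same] at h3
  omega

theorem sign_one {p q : GolayPt} (h : p ≠ q) : ∃ c ∈ GC, p ∈ c ∧ q ∉ c := by
  obtain ⟨c, hc, h1⟩ := sign_five (l := [p, q]) (by simp [h]) (by simp) (fun x => x = p)
  refine ⟨c, hc, (h1 p (by simp)).mpr rfl, fun h2 => h.symm ((h1 q (by simp)).mp h2)⟩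

theorem mono_one_apply {c : Finset GolayPt} (hc : c ∈ GC) (v : leechLattice) (i : GolayPt) :
    ((mono (one_mem M24) hc • v : leechLattice) : GolayPt → ℤ) i = if i ∈ c then -((v : GolayPt → ℤ) i) else (v : GolayPt → ℤ) i := rfl

theorem center_mem {z : Co0} (hz : z ∈ Subgroup.center Co0) : z = 1 ∨ z = negOne := by
  rw [Subgroup.mem_center_iff] at hz
  have h1 : ∀ i j, j ≠ i → ((z • e8 i : leechLattice) : GolayPt → ℤ) j = 0 := by
    intro i j hij
    obtain ⟨c, hc, hj, hi⟩ := sign_one hij
    have h2 : mono (one_mem M24) hc • e8 i = e8 i := by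
      rw [mono_e8, Equiv.Perm.one_apply, if_neg hi]
    have h3 : mono (one_mem M24) hc • z • e8 i = z • e8 i := by
      rw [← mul_smul, hz, mul_smul, h2]
    have h4 := congrFun (congrArg Subtype.val h3) j
    rw [mono_one_apply, if_pos hj] at h4
    omega
  have h2 : ∀ i, z • e8 i = e8 i ∨ z • e8 i = - e8 i := by
    intro i
    have h3 : ((z • e8 i : leechLattice) : GolayPt → ℤ) = Pi.single i (((z • e8 i : leechLattice) : GolayPt → ℤ) i) := by
      funext j
      by_cases hj : j = i
      · subst hj; rw [Pi.single_eq_same]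
      · rw [Pi.single_eq_of_ne hj]; exact h1 i j hj
    have h4 := co_norm z (e8 i)
    rw [norm_e8, h3, sq_single] at h4
    have h5 : ((z • e8 i : leechLattice) : GolayPt → ℤ) i = 8 ∨ ((z • e8 i : leechLattice) : GolayPt → ℤ) i = -8 := by
      have : (((z • e8 i : leechLattice) : GolayPt → ℤ) i - 8) * (((z • e8 i : leechLattice) : GolayPt → ℤ) i + 8) = 0 := by linarith
      rcases mul_eq_zero.mp this with h | h
      · left; omega
      · right; omega
    rcases h5 with h5 | h5
    · left; apply Subtype.ext; rw [h3, h5]; rfl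
    · right; apply Subtype.ext; rw [h3, h5, Pi.single_neg]; rfl
  have h3 : ∀ i j, z • e8 i = e8 i → z • e8 j = e8 j := by
    intro i j hi
    obtain ⟨g, hg⟩ := e8_trans i j
    rw [← hg, ← mul_smul, ← hz, mul_smul, hi]
  have h4 : ∀ v : leechLattice, (∀ i, z • e8 i = e8 i) → z • v = v := by
    intro v h
    apply Subtype.ext
    funext i
    have h5 := co_dot z v (e8 i)
    rw [h i, dot_e8, dot_e8] at h5
    omega
  have h5 : ∀ v : leechLattice, (∀ i, z • e8 i = - e8 i) → z • v = -v := by
    intro v h
    apply Subtype.ext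
    funext i
    have h5 := co_dot z v (e8 i)
    have h6 : ((-e8 i : leechLattice) : GolayPt → ℤ) = -((e8 i : leechLattice) : GolayPt → ℤ) := rfl
    rw [h i, h6, dot_neg_right, dot_e8, dot_e8] at h5
    show _ = -((v : GolayPt → ℤ) i)
    omega
  by_cases h6 : z • e8 (pt 0) = e8 (pt 0)
  · left
    apply co_ext
    intro v
    rw [one_smul]
    exact h4 v (fun i => h3 (pt 0) i h6)
  · right
    apply co_ext
    intro v
    rw [negOne_smul]
    apply h5
    intro i
    rcases h2 i with h | h
    · exact absurd (h3 i (pt 0) h) h6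
    · exact h

theorem negOne_mem : negOne ∈ Subgroup.center Co0 := by
  rw [Subgroup.mem_center_iff]
  intro g
  apply co_ext
  intro v
  rw [mul_smul, mul_smul, negOne_smul, negOne_smul, co_neg]

theorem card_center : Nat.card (Subgroup.center Co0) = 2 := by
  have : (Subgroup.center Co0 : Set Co0) = {1, negOne} := by
    ext z
    constructor
    · intro hz; exact center_mem hz
    · rintro (rfl | rfl)
      · exact one_mem _
      · exact negOne_mem
  have h2 : Nat.card (Subgroup.center Co0) = (Subgroup.center Co0 : Set Co0).ncard := Nat.card_coe_set_eq _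
  rw [h2, this, Set.ncard_pair (Ne.symm negOne_ne)]

end CfsgLib.Leech
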