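import Mathlib
import Cfsg.Agent.Lib.Leech13

/-!
Shapes of short vectors; transitivity on vectors of norm 32, 48 and on orthogonal pairs.
-/

set_option autoImplicit false

namespace CfsgLib.Leech

open CfsgLib.Golay Finset Cfsg
open scoped Pointwise

theorem leech_FL : FL leechLattice where
  n16 := fun _ hx => even_norm hx
  ne16 := by
    intro x hx h
    have : x ≠ 0 := by
      rintro rfl
      have h3 : sqNorm (0 : GolayPt → ℤ) = 0 := by unfold sqNorm; simp
      omega
    have := min_norm hx this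
    omega
  d4 := by
    intro i j _
    refine mem_leech0 (C := ∅) ⟨empty_mem, fun k => ?_, ?_⟩
    · rw [if_neg (Finset.notMem_empty k), Pi.sub_apply, Pi.single_apply, Pi.single_apply]; split_ifs <;> rfl
    · simp only [Pi.sub_apply, Finset.sum_sub_distrib, Finset.sum_pi_single', Finset.mem_univ, if_true]; rfl
  s8 := fun i => (e8 i).2
  dot := fun _ hx _ hy => dot_dvd hx hy
  c32 := by
    have h := ncard_norm (N := 32) (by norm_num) (by norm_num)
    rw [card32] at h
    exact h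

theorem peel {ι : Type*} [DecidableEq ι] {s : Finset ι} {t : ι → ℤ} (h0 : ∀ i ∈ s, 0 ≤ t i) {n : ℤ} (hn : 0 < n) (h : ∑ i ∈ s, t i = n) :
    ∃ j ∈ s, 0 < t j ∧ ∑ i ∈ s.erase j, t i = n - t j := by
  by_contra hcon
  push Not at hcon
  have h1 : ∀ j ∈ s, t j = 0 := by
    intro j hj
    by_contra hne
    have h2 := h0 j hj
    exact hcon j hj (by omega) (by have := Finset.add_sum_erase s t hj; omega)
  rw [Finset.sum_eq_zero h1] at h
  omega

theorem all_zero {ι : Type*} {s : Finset ι} {t : ι → ℤ} (h0 : ∀ i ∈ s, 0 ≤ t i) (h : ∑ i ∈ s, t i = 0) : ∀ i ∈ s, t i = 0 :=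
  (Finset.sum_eq_zero_iff_of_nonneg h0).mp h

theorem sq_cases {a n : ℤ} (h : a ^ 2 = n ^ 2) : a = n ∨ a = -n := sq_eq_sq_iff_eq_or_eq_neg.mp h

/-- the normal form is even or odd -/
theorem nf_cases {x : GolayPt → ℤ} (hx : x ∈ leechLattice) : (∃ C ∈ GC, (∀ i, x i % 4 = if i ∈ C then 2 else 0) ∧ (∑ i, x i) % 8 = 0) ∨
    (∃ C ∈ GC, (∀ i, x i % 4 = if i ∈ C then 3 else 1) ∧ (∑ i, x i) % 8 = 4) := by
  obtain ⟨C, hC | hC⟩ := mem_leech.mp hx
  · left
    refine ⟨C, hC.1, fun i => ?_, hC.2.2⟩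
    rw [hC.2.1 i]; split_ifs <;> rfl
  · right
    refine ⟨C, hC.1, fun i => ?_, hC.2.2⟩
    rw [hC.2.1 i]; split_ifs <;> rfl

theorem norm_split (x : GolayPt → ℤ) (p : GolayPt) : sqNorm x = x p ^ 2 + ∑ i ∈ univ.erase p, x i ^ 2 := by
  unfold sqNorm
  rw [Finset.add_sum_erase univ (fun i => x i ^ 2) (Finset.mem_univ p)]

theorem four_sq {a : ℤ} (h : a % 4 = 2) : 4 ≤ a ^ 2 := by
  have : 2 ≤ |a| := by rcases abs_cases a with h | h <;> omega
  calc (4 : ℤ) = 2 ^ 2 := by norm_num
    _ ≤ |a| ^ 2 := by gcongr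
    _ = a ^ 2 := sq_abs a

theorem one_sq {a : ℤ} (h : a % 2 = 1) : 1 ≤ a ^ 2 := by
  have : 1 ≤ |a| := by rcases abs_cases a with h | h <;> omega
  calc (1 : ℤ) = 1 ^ 2 := by norm_num
    _ ≤ |a| ^ 2 := by gcongr
    _ = a ^ 2 := sq_abs a

/-- lower bound for the norm of a vector of even class -/
theorem norm_ge_class {x : GolayPt → ℤ} {C : Finset GolayPt} (h : ∀ i, x i % 4 = if i ∈ C then 2 else 0) : 4 * (C.card : ℤ) ≤ sqNorm x := by
  rw [← norm_ww]
  unfold sqNorm
  apply Finset.sum_le_sum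
  intro i _
  have h2 := h i
  unfold ww
  split_ifs at h2 ⊢
  · exact four_sq h2
  · positivity

theorem GC_card_cases {C : Finset GolayPt} (h : C ∈ GC) : C = ∅ ∨ 8 ≤ C.card := by
  rcases supports_card h with h | h | h | h | h
  · left; exact Finset.card_eq_zero.mp h
  all_goals right; omega

/-- vectors of norm 32 with a coordinate 4 -/
theorem shape4 {x : GolayPt → ℤ} (hx : x ∈ leechLattice) (hn : sqNorm x = 32) {p : GolayPt} (hp : x p = 4) :
    ∃ j, j ≠ p ∧ ∃ b : ℤ, (b = 4 ∨ b = -4) ∧ x = Pi.single p 4 + Pi.single j b := by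
  rcases nf_cases hx with ⟨C, hC, h1, h2⟩ | ⟨C, hC, h1, h2⟩
  · have hC0 : C = ∅ := by
      rcases GC_card_cases hC with h | h
      · exact h
      exfalso
      have hpC : p ∉ C := by
        intro hpC
        have := h1 p
        rw [if_pos hpC, hp] at this; omega
      have h3 : sqNorm (ww C) + 16 ≤ sqNorm x := by
        rw [norm_split x p, norm_split (ww C) p, hp]
        have h4 : ww C p = 0 := by unfold ww; rw [if_neg hpC]
        rw [h4]
        have h5 : ∑ i ∈ univ.erase p, ww C i ^ 2 ≤ ∑ i ∈ univ.erase p, x i ^ 2 := by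
          apply Finset.sum_le_sum
          intro i _
          have h2 := h1 i
          unfold ww
          split_ifs at h2 ⊢
          · exact four_sq h2
          · positivity
        linarith
      rw [norm_ww] at h3
      omega
    subst hC0
    have h4 : ∀ i, ∃ z, x i = 4 * z := fun i => ⟨x i / 4, by have := h1 i; rw [if_neg (Finset.notMem_empty i)] at this; omega⟩
    choose z hz using h4
    have h5 : ∑ i ∈ univ.erase p, z i ^ 2 = 1 := by
      rw [norm_split x p, hp, Finset.sum_congr rfl (fun i _ => by rw [hz i]), Finset.sum_congr rfl (g := fun i => 16 * z i ^ 2) (fun i _ => by ring), ← Finset.mul_sum] at hn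
      omega
    obtain ⟨j, hj, hj0, hj1⟩ := peel (fun i _ => sq_nonneg (z i)) (by norm_num) h5
    have h6 : 0 ≤ ∑ i ∈ (univ.erase p).erase j, z i ^ 2 := Finset.sum_nonneg (fun i _ => sq_nonneg (z i))
    have h7 : z j ^ 2 = 1 := by omega
    have h8 := all_zero (s := (univ.erase p).erase j) (t := fun i => z i ^ 2) (fun i _ => sq_nonneg (z i)) (by rw [hj1, h7]; norm_num)
    have hjp : j ≠ p := Finset.ne_of_mem_erase hj
    refine ⟨j, hjp, x j, ?_, ?_⟩
    · rcases sq_cases (n := 1) (a := z j) (by rw [h7]; norm_num) with h | h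
      · left; rw [hz j, h]; norm_num
      · right; rw [hz j, h]; norm_num
    · funext i
      rw [Pi.add_apply]
      by_cases hi : i = p
      · subst hi
        rw [Pi.single_eq_same, Pi.single_eq_of_ne hjp.symm, hp]; norm_num
      · by_cases hij : i = j
        · subst hij
          rw [Pi.single_eq_same, Pi.single_eq_of_ne hi]; norm_num
        · rw [Pi.single_eq_of_ne hi, Pi.single_eq_of_ne hij, hz i]
          have := h8 i (Finset.mem_erase.mpr ⟨hij, Finset.mem_erase.mpr ⟨hi, Finset.mem_univ _⟩⟩)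
          rw [pow_eq_zero_iff (by norm_num)] at this
          rw [this]; norm_num
  · have := h1 p
    rw [hp] at this
    split_ifs at this <;> omega

/-- odd vectors whose other coordinates are all `±1` -/
theorem shape_odd {x : GolayPt → ℤ} (hx : x ∈ leechLattice) {p : GolayPt} (hp : x p % 2 = 1) (hn : sqNorm x = x p ^ 2 + 23) :
    ∃ C ∈ GC, (∀ i, x i % 4 = if i ∈ C then 3 else 1) ∧ ∀ i, i ≠ p → x i = if i ∈ C then -1 else 1 := by
  rcases nf_cases hx with ⟨C, hC, h1, h2⟩ | ⟨C, hC, h1, h2⟩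
  · have := h1 p
    split_ifs at this <;> omega
  · refine ⟨C, hC, h1, ?_⟩
    have hodd : ∀ i, x i % 2 = 1 := by
      intro i
      have := h1 i
      split_ifs at this <;> omega
    rw [norm_split x p] at hn
    have h3 : ∑ i ∈ univ.erase p, (x i ^ 2 - 1) = 0 := by
      have e : ((24 - 1 : ℕ) • (1 : ℤ)) = 23 := by norm_num
      rw [Finset.sum_sub_distrib, Finset.sum_const, Finset.card_erase_of_mem (Finset.mem_univ p), card_univ_G, e]
      omega
    have h4 := all_zero (fun i _ => by have := one_sq (hodd i); omega) h3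
    intro i hi
    have h5 := h4 i (Finset.mem_erase.mpr ⟨hi, Finset.mem_univ i⟩)
    have h6 := h1 i
    rcases sq_cases (n := 1) (a := x i) (by omega) with h | h
    · rw [h] at h6 ⊢
      split_ifs at h6 ⊢ <;> omega
    · rw [h] at h6 ⊢
      split_ifs at h6 ⊢ <;> omega

theorem spE_single (σ : Equiv.Perm GolayPt) (c : Finset GolayPt) (i : GolayPt) (a : ℤ) : spE σ c (Pi.single i a) = Pi.single (σ i) (if σ i ∈ c then -a else a) := by
  rw [← (spE σ c).symm.injective.eq_iff, AddEquiv.symm_apply_apply, spE_symm_single, Equiv.symm_apply_apply]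
  split_ifs <;> simp

/-- the vector `a e_i + b e_j` -/
def u44 (i j : GolayPt) (a b : ℤ) : GolayPt → ℤ := Pi.single i a + Pi.single j b

theorem u44_mem {i j : GolayPt} (hij : i ≠ j) {a b : ℤ} (ha : a = 4 ∨ a = -4) (hb : b = 4 ∨ b = -4) : u44 i j a b ∈ leechLattice := leech_FL.pm4 hij ha hb

theorem dot_u44 (x : GolayPt → ℤ) (i j : GolayPt) (a b : ℤ) : dotInt x (u44 i j a b) = x i * a + x j * b := by
  rw [u44, dot_add_right, dot_single, dot_single]

theorem norm_u44 {i j : GolayPt} (hij : i ≠ j) {a b : ℤ} (ha : a = 4 ∨ a = -4) (hb : b = 4 ∨ b = -4) : sqNorm (u44 i j a b) = 32 := by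
  rw [sqNorm_eq_dot, dot_u44]
  unfold u44
  rw [Pi.add_apply, Pi.add_apply, Pi.single_eq_same, Pi.single_eq_same, Pi.single_eq_of_ne hij, Pi.single_eq_of_ne hij.symm]
  rcases ha with rfl | rfl <;> rcases hb with rfl | rfl <;> norm_num

theorem spE_u44 (σ : Equiv.Perm GolayPt) (c : Finset GolayPt) (i j : GolayPt) (a b : ℤ) :
    spE σ c (u44 i j a b) = u44 (σ i) (σ j) (if σ i ∈ c then -a else a) (if σ j ∈ c then -b else b) := by
  unfold u44
  rw [map_add, spE_single, spE_single]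

theorem exists_M24_two {p q p' q' : GolayPt} (h : p ≠ q) (h' : p' ≠ q') : ∃ σ ∈ M24, σ p = p' ∧ σ q = q' := by
  obtain ⟨g, hg, hgl⟩ := PS_trans (l := []) (by simp) (m := [p, q]) (m' := [p', q']) (by simp [h]) (by simp [h']) (by simp) (by simp) rfl (by simp)
  simp only [List.map_cons, List.map_nil, List.cons.injEq, and_true] at hgl
  exact ⟨g, hg.1, hgl.1, hgl.2⟩

/-- moving a vector of shape (4, 4, 0, …) -/
theorem mono_two {p q p' q' : GolayPt} (h : p ≠ q) (h' : p' ≠ q') {a b a' b' : ℤ} (ha : a' = a ∨ a' = -a) (hb : b' = b ∨ b' = -b) (ha0 : a ≠ 0) (hb0 : b ≠ 0) :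
    ∃ (σ : Equiv.Perm GolayPt) (_ : σ ∈ M24) (c : Finset GolayPt) (_ : c ∈ GC), σ p = p' ∧ σ q = q' ∧ (p' ∈ c ↔ a' = -a) ∧ (q' ∈ c ↔ b' = -b) := by
  obtain ⟨σ, hσ, h1, h2⟩ := exists_M24_two h h'
  obtain ⟨c, hc, h3⟩ := sign_five (l := [p', q']) (by simp [h']) (by simp) (fun x => (x = p' ∧ a' = -a) ∨ (x = q' ∧ b' = -b))
  refine ⟨σ, hσ, c, hc, h1, h2, ?_, ?_⟩
  · rw [h3 p' (by simp)]
    constructor
    · rintro (h | h)
      · exact h.2
      · exact absurd h.1 h'
    · intro h; exact Or.inl ⟨rfl, h⟩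
  · rw [h3 q' (by simp)]
    constructor
    · rintro (h | h)
      · exact absurd h.1.symm h'
      · exact h.2
    · intro h; exact Or.inr ⟨rfl, h⟩

/-- the first basic vector -/
def uA : leechLattice := ⟨u44 (pt 0) (pt 1) 4 4, u44_mem (by decide) (Or.inl rfl) (Or.inl rfl)⟩
/-- the second basic vector -/
def uB : leechLattice := ⟨u44 (pt 0) (pt 1) 4 (-4), u44_mem (by decide) (Or.inl rfl) (Or.inr rfl)⟩

/-- orthogonal pairs of minimal vectors -/
theorem orth_pair (v w : leechLattice) (hv : sqNorm (v : GolayPt → ℤ) = 32) (hw : sqNorm (w : GolayPt → ℤ) = 32) (hd : dotInt (v : GolayPt → ℤ) w = 0) :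
    ∃ g : Co0, g • v = uA ∧ g • w = uB := by
  have hf : sqNorm ((v + w : leechLattice) : GolayPt → ℤ) = 64 := by
    show sqNorm ((v : GolayPt → ℤ) + (w : GolayPt → ℤ)) = 64
    rw [norm_add, hv, hw, hd]; norm_num
  obtain ⟨g, hg⟩ := trans64 (v + w) hf (pt 0)
  have h1 : ((g • v : leechLattice) : GolayPt → ℤ) (pt 0) = 4 := by
    have h2 := co_dot g v (v + w)
    rw [hg, dot_e8] at h2
    have h3 : dotInt (v : GolayPt → ℤ) ((v + w : leechLattice) : GolayPt → ℤ) = 32 := by
      show dotInt (v : GolayPt → ℤ) ((v : GolayPt → ℤ) + (w : GolayPt → ℤ)) = 32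
      rw [dot_add_right, ← sqNorm_eq_dot, hv, hd]; norm_num
    omega
  obtain ⟨j, hj, b, hb, hx⟩ := shape4 (g • v).2 (by rw [co_norm, hv]) h1
  have hw' : ((g • w : leechLattice) : GolayPt → ℤ) = Pi.single (pt 0) 4 + Pi.single j (-b) := by
    rw [co_add] at hg
    have h3 : ((g • v : leechLattice) : GolayPt → ℤ) + ((g • w : leechLattice) : GolayPt → ℤ) = Pi.single (pt 0) 8 := congrArg Subtype.val hg
    rw [hx] at h3
    have h4 : ((g • w : leechLattice) : GolayPt → ℤ) = Pi.single (pt 0) 8 - (Pi.single (pt 0) 4 + Pi.single j b) := by rw [← h3]; abel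
    rw [h4, Pi.single_neg]
    funext k
    simp only [Pi.sub_apply, Pi.add_apply, Pi.neg_apply, Pi.single_apply]
    split_ifs <;> ring
  obtain ⟨σ, hσ, c, hc, s1, s2, s3, s4⟩ := mono_two (p := pt 0) (q := j) (p' := pt 0) (q' := pt 1) hj.symm (by decide) (a := 4) (a' := 4) (b := b) (b' := 4)
    (Or.inl rfl) (by omega) (by norm_num) (by omega)
  refine ⟨mono hσ hc * g, ?_, ?_⟩
  · rw [mul_smul]
    apply Subtype.ext
    rw [mono_smul, hx]
    show spE σ c (u44 (pt 0) j 4 b) = u44 (pt 0) (pt 1) 4 4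
    rw [spE_u44, s1, s2, if_neg (fun h => by have := s3.mp h; omega)]
    rcases hb with hb | hb
    · rw [if_neg (fun h => by have := s4.mp h; omega), hb]
    · rw [if_pos (s4.mpr (by omega)), hb]; norm_num
  · rw [mul_smul]
    apply Subtype.ext
    rw [mono_smul, hw']
    show spE σ c (u44 (pt 0) j 4 (-b)) = u44 (pt 0) (pt 1) 4 (-4)
    rw [spE_u44, s1, s2, if_neg (fun h => by have := s3.mp h; omega)]
    rcases hb with hb | hb
    · rw [if_neg (fun h => by have := s4.mp h; omega), hb]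
    · rw [if_pos (s4.mpr (by omega)), hb]; norm_num

theorem abs_pigeon {x : GolayPt → ℤ} (hn : sqNorm x ≤ 64) : ∃ i j, i ≠ j ∧ |x i| = |x j| := by
  have hmap : ∀ i ∈ (univ : Finset GolayPt), |x i| ∈ Finset.Icc (0 : ℤ) 8 := by
    intro i _
    have := entry_le hn i
    rw [Finset.mem_Icc]
    exact ⟨abs_nonneg _, abs_le.mpr ⟨this.1, this.2⟩⟩
  obtain ⟨i, _, j, _, hij, h⟩ := Finset.exists_ne_map_eq_of_card_lt_of_maps_to (by rw [Int.card_Icc, card_univ_G]; norm_num) hmap
  exact ⟨i, j, hij, h⟩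

/-- transitivity on the minimal vectors -/
theorem trans32 (v : leechLattice) (hv : sqNorm (v : GolayPt → ℤ) = 32) : ∃ g : Co0, g • v = uA := by
  obtain ⟨i, j, hij, h⟩ := abs_pigeon (x := v) (by omega)
  rcases abs_eq_abs.mp h with h | h
  · obtain ⟨g, hg, -⟩ := orth_pair v ⟨u44 i j 4 (-4), u44_mem hij (Or.inl rfl) (Or.inr rfl)⟩ hv (norm_u44 hij (Or.inl rfl) (Or.inr rfl)) (by rw [dot_u44, h]; ring)
    exact ⟨g, hg⟩
  · obtain ⟨g, hg, -⟩ := orth_pair v ⟨u44 i j 4 4, u44_mem hij (Or.inl rfl) (Or.inl rfl)⟩ hv (norm_u44 hij (Or.inl rfl) (Or.inl rfl)) (by rw [dot_u44, h]; ring)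
    exact ⟨g, hg⟩

/-! ### norm 48 -/

/-- `(a, 1, …, 1)` -/
def uo (p : GolayPt) (a : ℤ) : GolayPt → ℤ := Function.update (fun _ => 1) p a

theorem uo_same (p : GolayPt) (a : ℤ) : uo p a p = a := Function.update_self _ _ _
theorem uo_ne {p i : GolayPt} (a : ℤ) (h : i ≠ p) : uo p a i = 1 := Function.update_of_ne h _ _

theorem sum_uo (p : GolayPt) (a : ℤ) : ∑ i, uo p a i = a + 23 := by
  rw [← Finset.add_sum_erase univ _ (Finset.mem_univ p), uo_same, Finset.sum_congr rfl (fun i hi => uo_ne a (Finset.ne_of_mem_erase hi)), Finset.sum_const,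
    Finset.card_erase_of_mem (Finset.mem_univ p), card_univ_G]
  norm_num

theorem norm_uo (p : GolayPt) (a : ℤ) : sqNorm (uo p a) = a ^ 2 + 23 := by
  rw [norm_split _ p, uo_same, Finset.sum_congr rfl (fun i hi => by rw [uo_ne a (Finset.ne_of_mem_erase hi)]), Finset.sum_const,
    Finset.card_erase_of_mem (Finset.mem_univ p), card_univ_G]
  norm_num

theorem uo_mem {p : GolayPt} {a : ℤ} (h4 : a % 4 = 1) (h8 : (a + 23) % 8 = 4) : uo p a ∈ leechLattice := by
  refine mem_leech1 (C := ∅) ⟨empty_mem, fun i => ?_, by rw [sum_uo, h8]; rfl⟩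
  rw [if_neg (Finset.notMem_empty i)]
  by_cases hi : i = p
  · rw [hi, uo_same, h4]; rfl
  · rw [uo_ne a hi]; rfl

/-- the basic vector of norm 48 -/
def u5 : leechLattice := ⟨uo (pt 0) 5, uo_mem (by norm_num) (by norm_num)⟩
/-- the odd basic vector of norm 32 -/
def u3 : leechLattice := ⟨uo (pt 0) (-3), uo_mem (by norm_num) (by norm_num)⟩

/-- sign normalization of odd vectors -/
theorem odd_norm_form {x : leechLattice} {p : GolayPt} {a : ℤ} (ha : a % 4 = 1) (hp : (x : GolayPt → ℤ) p = a) (hn : sqNorm (x : GolayPt → ℤ) = a ^ 2 + 23) :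
    ∃ (C : Finset GolayPt) (hC : C ∈ GC), p ∉ C ∧ ((mono (one_mem M24) hC • x : leechLattice) : GolayPt → ℤ) = uo p a := by
  obtain ⟨C, hC, h1, h2⟩ := shape_odd x.2 (p := p) (by omega) (by rw [hn, hp])
  have hpC : p ∉ C := by
    intro h
    have := h1 p
    rw [if_pos h] at this; omega
  refine ⟨C, hC, hpC, ?_⟩
  funext i
  rw [mono_one_apply]
  by_cases hi : i = p
  · subst hi; rw [if_neg hpC, uo_same, hp]
  · rw [uo_ne a hi, h2 i hi]; split_ifs <;> norm_num

theorem exists_diff {u : GolayPt → ℤ} (hu : u ∈ leechLattice) (hn : sqNorm u = 48) : ∃ i j, i ≠ j ∧ ∃ a b : ℤ, (a = 4 ∨ a = -4) ∧ (b = 4 ∨ b = -4) ∧ u i * a + u j * b = -8 := by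
  rcases nf_cases hu with ⟨C, hC, h1, h2⟩ | ⟨C, hC, h1, h2⟩
  · -- even
    have hge := norm_ge_class h1
    rcases GC_card_cases hC with h | h
    · exfalso
      subst h
      have h4 : ∀ i, ∃ z, u i = 4 * z := fun i => ⟨u i / 4, by have := h1 i; rw [if_neg (Finset.notMem_empty i)] at this; omega⟩
      choose z hz using h4
      have h5 : ∑ i, z i ^ 2 = 3 := by
        unfold sqNorm at hn
        rw [Finset.sum_congr rfl (fun i _ => by rw [hz i]), Finset.sum_congr rfl (g := fun i => 16 * z i ^ 2) (fun i _ => by ring), ← Finset.mul_sum] at hn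
        omega
      have h6 : ∑ i, u i = 4 * ∑ i, z i := by rw [Finset.sum_congr rfl (fun i _ => hz i), Finset.mul_sum]
      have hpar : ∀ i, ∃ t : ℤ, z i ^ 2 = z i + 2 * t := by
        intro i
        rcases Int.even_or_odd (z i) with ⟨k, hk⟩ | ⟨k, hk⟩
        · exact ⟨2 * k ^ 2 - k, by rw [hk]; ring⟩
        · exact ⟨2 * k ^ 2 + k, by rw [hk]; ring⟩
      choose t ht using hpar
      have hz2 : ∑ i, z i ^ 2 = ∑ i, z i + 2 * ∑ i, t i := by
        rw [Finset.sum_congr rfl (fun i _ => ht i), Finset.sum_add_distrib, ← Finset.mul_sum]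
      omega
    · -- a coordinate ±2
      have h3 : ∃ i ∈ C, u i ^ 2 = 4 := by
        by_contra hcon
        push Not at hcon
        have h5 : ∀ i ∈ C, 36 ≤ u i ^ 2 := by
          intro i hi
          have h6 := h1 i
          rw [if_pos hi] at h6
          have h7 := hcon i hi
          have : 6 ≤ |u i| := by
            by_contra hlt
            rcases abs_cases (u i) with ⟨h8, h9⟩ | ⟨h8, h9⟩
            · have : u i = 2 := by omega
              rw [this] at h7; norm_num at h7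
            · have : u i = -2 := by omega
              rw [this] at h7; norm_num at h7
          calc (36 : ℤ) = 6 ^ 2 := by norm_num
            _ ≤ |u i| ^ 2 := by gcongr
            _ = u i ^ 2 := sq_abs _
        have h6 : ∑ i ∈ C, (36 : ℤ) ≤ ∑ i ∈ C, u i ^ 2 := Finset.sum_le_sum h5
        have h7 : ∑ i ∈ C, u i ^ 2 ≤ sqNorm u := Finset.sum_le_sum_of_subset_of_nonneg (Finset.subset_univ _) (fun i _ _ => sq_nonneg _)
        rw [Finset.sum_const, nsmul_eq_mul] at h6
        have : (8 : ℤ) ≤ C.card := by exact_mod_cast h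
        omega
      have h4 : ∃ j ∈ Cᶜ, u j = 0 := by
        by_contra hcon
        push Not at hcon
        have h5 : ∀ i ∈ Cᶜ, 16 ≤ u i ^ 2 := by
          intro i hi
          have h6 := h1 i
          rw [if_neg (Finset.mem_compl.mp hi)] at h6
          have h7 := hcon i hi
          have : 4 ≤ |u i| := by
            rcases abs_cases (u i) with ⟨h8, h9⟩ | ⟨h8, h9⟩ <;> omega
          calc (16 : ℤ) = 4 ^ 2 := by norm_num
            _ ≤ |u i| ^ 2 := by gcongr
            _ = u i ^ 2 := sq_abs _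
        have h6 : ∑ i ∈ Cᶜ, (16 : ℤ) ≤ ∑ i ∈ Cᶜ, u i ^ 2 := Finset.sum_le_sum h5
        have h7 : ∑ i ∈ Cᶜ, u i ^ 2 ≤ sqNorm u := Finset.sum_le_sum_of_subset_of_nonneg (Finset.subset_univ _) (fun i _ _ => sq_nonneg _)
        rw [Finset.sum_const, nsmul_eq_mul, card_compl_int] at h6
        omega
      obtain ⟨i, hi, hi'⟩ := h3
      obtain ⟨j, hj, hj'⟩ := h4
      have hij : i ≠ j := fun h => (Finset.mem_compl.mp hj) (h ▸ hi)
      rcases sq_cases (n := 2) (a := u i) (by rw [hi']; norm_num) with h8 | h8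
      · exact ⟨i, j, hij, -4, 4, Or.inr rfl, Or.inl rfl, by rw [h8, hj']; norm_num⟩
      · exact ⟨i, j, hij, 4, 4, Or.inl rfl, Or.inl rfl, by rw [h8, hj']; norm_num⟩
  · -- odd: two coordinates ±1
    have hodd : ∀ i, u i % 2 = 1 := by
      intro i
      have := h1 i
      split_ifs at this <;> omega
    have h3 : 3 < (univ.filter (fun i => u i ^ 2 = 1)).card := by
      by_contra hcon
      have h4 : ∀ i ∈ (univ.filter (fun i => u i ^ 2 = 1))ᶜ, 9 ≤ u i ^ 2 := by
        intro i hi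
        rw [Finset.mem_compl, Finset.mem_filter, not_and] at hi
        have h5 := hi (Finset.mem_univ i)
        have h6 := hodd i
        have : 3 ≤ |u i| := by
          by_contra hlt
          rcases abs_cases (u i) with ⟨h8, h9⟩ | ⟨h8, h9⟩
          · have : u i = 1 := by omega
            rw [this] at h5; norm_num at h5
          · have : u i = -1 := by omega
            rw [this] at h5; norm_num at h5
        calc (9 : ℤ) = 3 ^ 2 := by norm_num
          _ ≤ |u i| ^ 2 := by gcongr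
          _ = u i ^ 2 := sq_abs _
      have h6 := Finset.sum_le_sum h4
      have h7 : ∑ i ∈ (univ.filter (fun i => u i ^ 2 = 1))ᶜ, u i ^ 2 ≤ sqNorm u := Finset.sum_le_sum_of_subset_of_nonneg (Finset.subset_univ _) (fun i _ _ => sq_nonneg _)
      rw [Finset.sum_const, nsmul_eq_mul, card_compl_int] at h6
      push_cast at h6
      omega
    obtain ⟨i, hi, j, hj, hij⟩ := Finset.one_lt_card.mp (by omega : 1 < (univ.filter (fun i => u i ^ 2 = 1)).card)
    rw [Finset.mem_filter] at hi hj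
    rcases sq_cases (n := 1) (a := u i) (by rw [hi.2]; norm_num) with h8 | h8 <;> rcases sq_cases (n := 1) (a := u j) (by rw [hj.2]; norm_num) with h9 | h9
    · exact ⟨i, j, hij, -4, -4, Or.inr rfl, Or.inr rfl, by rw [h8, h9]; norm_num⟩
    · exact ⟨i, j, hij, -4, 4, Or.inr rfl, Or.inl rfl, by rw [h8, h9]; norm_num⟩
    · exact ⟨i, j, hij, 4, -4, Or.inl rfl, Or.inr rfl, by rw [h8, h9]; norm_num⟩
    · exact ⟨i, j, hij, 4, 4, Or.inl rfl, Or.inl rfl, by rw [h8, h9]; norm_num⟩

/-- transitivity on vectors of norm 48 -/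
theorem trans48 (u : leechLattice) (hu : sqNorm (u : GolayPt → ℤ) = 48) : ∃ g : Co0, g • u = u5 := by
  obtain ⟨i, j, hij, a, b, ha, hb, hab⟩ := exists_diff u.2 hu
  have hw : dotInt (u : GolayPt → ℤ) (u44 i j a b) = -8 := by rw [dot_u44, hab]
  let w : leechLattice := ⟨u44 i j a b, u44_mem hij ha hb⟩
  have hf : sqNorm ((u + w : leechLattice) : GolayPt → ℤ) = 64 := by
    show sqNorm ((u : GolayPt → ℤ) + u44 i j a b) = 64
    rw [norm_add, hu, norm_u44 hij ha hb, hw]; norm_num
  obtain ⟨g, hg⟩ := trans64 (u + w) hf (pt 0)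
  have h1 : ((g • u : leechLattice) : GolayPt → ℤ) (pt 0) = 5 := by
    have h2 := co_dot g u (u + w)
    rw [hg, dot_e8] at h2
    have h3 : dotInt (u : GolayPt → ℤ) ((u + w : leechLattice) : GolayPt → ℤ) = 40 := by
      show dotInt (u : GolayPt → ℤ) ((u : GolayPt → ℤ) + u44 i j a b) = 40
      rw [dot_add_right, ← sqNorm_eq_dot, hu, hw]; norm_num
    omega
  obtain ⟨C, hC, -, hx⟩ := odd_norm_form (x := g • u) (p := pt 0) (a := 5) (by norm_num) h1 (by rw [co_norm, hu]; norm_num)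
  exact ⟨mono (one_mem M24) hC * g, by rw [mul_smul]; exact Subtype.ext hx⟩

end CfsgLib.Leech
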