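import Mathlib
import Cfsg.Agent.Lib.Leech14
import Cfsg.Agent.Lib.GolayDod

/-!
Shapes of vectors of norm 32 and 48; triangles of types 222, 223 and 332.
-/

set_option autoImplicit false

namespace CfsgLib.Leech

open CfsgLib.Golay Finset Cfsg
open scoped Pointwise

/-- odd squares are 1 modulo 8 -/
theorem odd_sq_mod {a : ℤ} (h : a % 2 = 1) : ∃ k, a ^ 2 - 1 = 8 * k := by
  obtain ⟨m, rfl⟩ : ∃ m, a = 2 * m + 1 := ⟨a / 2, by omega⟩
  rcases Int.even_or_odd m with ⟨k, hk⟩ | ⟨k, hk⟩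
  · exact ⟨k * (m + 1), by rw [hk]; ring⟩
  · exact ⟨(k + 1) * m, by rw [hk]; ring⟩

theorem shape32_even {x : GolayPt → ℤ} (hx : x ∈ leechLattice) (hn : sqNorm x = 32) (he : x (pt 0) % 2 = 0) :
    (∃ p q, p ≠ q ∧ ∃ a b : ℤ, (a = 4 ∨ a = -4) ∧ (b = 4 ∨ b = -4) ∧ x = u44 p q a b) ∨
    (∃ S ∈ octads, (∀ i ∈ S, x i = 2 ∨ x i = -2) ∧ ∀ i, i ∉ S → x i = 0) := by
  rcases nf_cases hx with ⟨C, hC, h1, h2⟩ | ⟨C, hC, h1, h2⟩
  · rcases GC_card_cases hC with h | h
    · left
      subst h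
      have h4 : ∀ i, ∃ z, x i = 4 * z := fun i => ⟨x i / 4, by have := h1 i; rw [if_neg (Finset.notMem_empty i)] at this; omega⟩
      choose z hz using h4
      have h5 : ∑ i, z i ^ 2 = 2 := by
        unfold sqNorm at hn
        rw [Finset.sum_congr rfl (fun i _ => by rw [hz i]), Finset.sum_congr rfl (g := fun i => 16 * z i ^ 2) (fun i _ => by ring), ← Finset.mul_sum] at hn
        omega
      obtain ⟨p, _, hp0, hp1⟩ := peel (fun i _ => sq_nonneg (z i)) (by norm_num) h5
      have h6 : 0 ≤ ∑ i ∈ univ.erase p, z i ^ 2 := Finset.sum_nonneg (fun i _ => sq_nonneg (z i))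
      have h7 : z p = 1 ∨ z p = -1 := by
        have h8 : |z p| < 2 := by
          by_contra hcon
          have : (4 : ℤ) ≤ z p ^ 2 := by
            calc (4 : ℤ) = 2 ^ 2 := by norm_num
              _ ≤ |z p| ^ 2 := by gcongr; omega
              _ = z p ^ 2 := sq_abs _
          omega
        have h9 : z p ≠ 0 := by rintro h; rw [h] at hp0; norm_num at hp0
        rcases abs_cases (z p) with ⟨a1, a2⟩ | ⟨a1, a2⟩ <;> omega
      rcases h7 with h7 | h7
      · obtain ⟨j, hj, b, hb, hxx⟩ := shape4 hx hn (p := p) (by rw [hz, h7]; norm_num)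
        exact ⟨p, j, hj.symm, 4, b, Or.inl rfl, hb, hxx⟩
      · obtain ⟨j, hj, b, hb, hxx⟩ := shape4 (neg_mem hx) (by rw [norm_neg]; exact hn) (p := p) (by rw [Pi.neg_apply, hz, h7]; norm_num)
        refine ⟨p, j, hj.symm, -4, -b, Or.inr rfl, by omega, ?_⟩
        have : x = -(Pi.single p 4 + Pi.single j b) := by rw [← hxx, neg_neg]
        rw [this]; unfold u44; rw [Pi.single_neg, Pi.single_neg]; abel
    · right
      have hge := norm_ge_class h1
      have h8 : C.card = 8 := by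
        have : (8 : ℤ) ≤ C.card := by exact_mod_cast h
        omega
      refine ⟨C, ?_, ?_⟩
      · rw [octads_iff', Nat.beq_eq, ← card_eq_pop]; exact ⟨hC, h8⟩
      have h3 : ∑ i, (x i ^ 2 - ww C i ^ 2) = 0 := by
        rw [Finset.sum_sub_distrib]
        have a1 : ∑ i, x i ^ 2 = 32 := hn
        have a2 : ∑ i, ww C i ^ 2 = 4 * C.card := norm_ww C
        rw [a1, a2, h8]; norm_num
      have h4 := all_zero (fun i _ => by
        have h5 := h1 i
        unfold ww
        split_ifs at h5 ⊢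
        · have := four_sq h5; omega
        · have := sq_nonneg (x i); omega) h3
      constructor
      · intro i hi
        have h5 := h4 i (Finset.mem_univ i)
        have h6 : ww C i = 2 := by unfold ww; rw [if_pos hi]
        rw [h6] at h5
        exact sq_cases (n := 2) (by omega)
      · intro i hi
        have h5 := h4 i (Finset.mem_univ i)
        have h6 : ww C i = 0 := by unfold ww; rw [if_neg hi]
        rw [h6] at h5
        exact pow_eq_zero_iff (n := 2) (by norm_num) |>.mp (by omega)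
  · have := h1 (pt 0)
    split_ifs at this <;> omega

theorem shape32_odd {x : GolayPt → ℤ} (hx : x ∈ leechLattice) (hn : sqNorm x = 32) (he : x (pt 0) % 2 = 1) :
    ∃ C ∈ GC, (∀ i, x i % 4 = if i ∈ C then 3 else 1) ∧ ∃ p, (x p = 3 ∨ x p = -3) ∧ ∀ i, i ≠ p → (x i = 1 ∨ x i = -1) := by
  rcases nf_cases hx with ⟨C, hC, h1, h2⟩ | ⟨C, hC, h1, h2⟩
  · have := h1 (pt 0)
    split_ifs at this <;> omega
  · refine ⟨C, hC, h1, ?_⟩
    have hodd : ∀ i, x i % 2 = 1 := by
      intro i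
      have := h1 i
      split_ifs at this <;> omega
    have h3 : ∑ i, (x i ^ 2 - 1) = 8 := by
      rw [Finset.sum_sub_distrib, Finset.sum_const, card_univ_G]
      have a1 : ∑ i, x i ^ 2 = 32 := hn
      have e : ((24 : ℕ) • (1 : ℤ)) = 24 := by norm_num
      rw [a1, e]; norm_num
    obtain ⟨p, _, hp0, hp1⟩ := peel (fun i _ => by have := one_sq (hodd i); omega) (by norm_num) h3
    have h6 : 0 ≤ ∑ i ∈ univ.erase p, (x i ^ 2 - 1) := Finset.sum_nonneg (fun i _ => by have := one_sq (hodd i); omega)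
    obtain ⟨k, hk⟩ := odd_sq_mod (hodd p)
    have h7 : x p ^ 2 = 9 := by omega
    have h8 := all_zero (s := univ.erase p) (t := fun i => x i ^ 2 - 1) (fun i _ => by have := one_sq (hodd i); omega) (by rw [hp1]; omega)
    refine ⟨p, sq_cases (n := 3) (by rw [h7]; norm_num), ?_⟩
    intro i hi
    have h9 := h8 i (Finset.mem_erase.mpr ⟨hi, Finset.mem_univ i⟩)
    exact sq_cases (n := 1) (by omega)

/-- the vector `±2` on an octad -/
def w2 (O T : Finset GolayPt) : GolayPt → ℤ := fun i => if i ∈ O then (if i ∈ T then -2 else 2) else 0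

theorem w2_mem {O T : Finset GolayPt} (hO : O ∈ octads) (hT : T ⊆ O) (he : T.card % 2 = 0) : w2 O T ∈ leechLattice := by
  have hO' := octads_iff'.mp hO
  rw [Nat.beq_eq, ← card_eq_pop] at hO'
  refine mem_leech0 (C := O) ⟨hO'.1, fun i => ?_, ?_⟩
  · unfold w2; split_ifs <;> rfl
  · have h1 : ∀ i, w2 O T i = (if i ∈ O then 2 else 0) - (if i ∈ T then 4 else 0) := by
      intro i
      unfold w2
      by_cases a : i ∈ T
      · rw [if_pos (hT a), if_pos a, if_pos (hT a), if_pos a]; norm_num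
      · by_cases b : i ∈ O
        · rw [if_pos b, if_neg a, if_pos b, if_neg a]; norm_num
        · rw [if_neg b, if_neg b, if_neg a]; norm_num
    rw [Finset.sum_congr rfl (fun i _ => h1 i), Finset.sum_sub_distrib, Finset.sum_ite_mem, Finset.sum_ite_mem, Finset.univ_inter, Finset.univ_inter, Finset.sum_const,
      Finset.sum_const, hO'.2]
    simp only [nsmul_eq_mul]
    push_cast
    omega

theorem norm_w2 {O T : Finset GolayPt} (hO : O ∈ octads) : sqNorm (w2 O T) = 32 := by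
  have hO' := octads_iff'.mp hO
  rw [Nat.beq_eq, ← card_eq_pop] at hO'
  have h := norm_ww O
  rw [hO'.2] at h
  rw [show (32 : ℤ) = 4 * ((8 : ℕ) : ℤ) by norm_num, ← h]
  unfold sqNorm
  apply Finset.sum_congr rfl
  intro i _
  unfold w2 ww
  split_ifs <;> norm_num

theorem dot_w2 (x : GolayPt → ℤ) (O T : Finset GolayPt) : dotInt x (w2 O T) = ∑ i ∈ O, x i * (if i ∈ T then -2 else 2) := by
  unfold dotInt w2
  rw [← Finset.univ_inter O, ← Finset.sum_ite_mem, Finset.univ_inter]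
  apply Finset.sum_congr rfl
  intro i _
  split_ifs <;> simp

theorem two_of_card {s : Finset GolayPt} (h : 2 ≤ s.card) : ∃ k l, k ∈ s ∧ l ∈ s ∧ k ≠ l := by
  obtain ⟨k, hk, l, hl, h⟩ := Finset.one_lt_card.mp h
  exact ⟨k, l, hk, hl, h⟩

/-- two coordinates `±2` against `∓4` -/
theorem neg_pair {x k : ℤ} (h : x = k ∨ x = -k) : ∃ a : ℤ, (a = 4 ∨ a = -4) ∧ x * a = -(4 * k) := by
  rcases h with h | h
  · exact ⟨-4, Or.inr rfl, by rw [h]; ring⟩
  · exact ⟨4, Or.inl rfl, by rw [h]; ring⟩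

theorem u44_other {i j k : GolayPt} (h1 : k ≠ i) (h2 : k ≠ j) (a b : ℤ) : u44 i j a b k = 0 := by
  unfold u44
  rw [Pi.add_apply, Pi.single_eq_of_ne h1, Pi.single_eq_of_ne h2, add_zero]

theorem u44_left {i j : GolayPt} (h : i ≠ j) (a b : ℤ) : u44 i j a b i = a := by
  unfold u44
  rw [Pi.add_apply, Pi.single_eq_same, Pi.single_eq_of_ne h, add_zero]

theorem u44_right {i j : GolayPt} (h : i ≠ j) (a b : ℤ) : u44 i j a b j = b := by
  unfold u44
  rw [Pi.add_apply, Pi.single_eq_same, Pi.single_eq_of_ne h.symm, zero_add]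

theorem pt01 : pt 0 ≠ pt 1 := by decide

theorem octad_card {S : Finset GolayPt} (hS : S ∈ octads) : S.card = 8 := by
  rw [octads_iff', Nat.beq_eq, ← card_eq_pop] at hS
  exact hS.2

theorem card_rest {S : Finset GolayPt} (T : Finset GolayPt) (n : ℕ) (h : T.card + n ≤ S.card) : n ≤ (S \ T).card := by
  have := Finset.le_card_sdiff T S
  omega

/-- vectors orthogonal to the first basic vector, case of inner product -8 -/
theorem exists_T2 {w : GolayPt → ℤ} (hw : w ∈ leechLattice) (hn : sqNorm w = 32) (hs : w (pt 0) + w (pt 1) = -2) :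
    ∃ y ∈ leechLattice, sqNorm y = 32 ∧ y (pt 0) + y (pt 1) = 0 ∧ dotInt w y = -16 := by
  have key : ∀ k l : GolayPt, k ≠ l → ∀ (c d : ℤ), (w k = c ∨ w k = -c) → (w l = d ∨ w l = -d) → 4 * (c + d) = 16 → (k ≠ pt 0 ∧ k ≠ pt 1 ∧ l ≠ pt 0 ∧ l ≠ pt 1) →
      ∃ y ∈ leechLattice, sqNorm y = 32 ∧ y (pt 0) + y (pt 1) = 0 ∧ dotInt w y = -16 := by
    intro k l hkl c d hc hd hcd hne
    obtain ⟨a, ha, ha'⟩ := neg_pair hc
    obtain ⟨b, hb, hb'⟩ := neg_pair hd
    refine ⟨u44 k l a b, u44_mem hkl ha hb, norm_u44 hkl ha hb, ?_, ?_⟩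
    · rw [u44_other hne.1.symm hne.2.2.1.symm, u44_other hne.2.1.symm hne.2.2.2.symm]; norm_num
    · rw [dot_u44, ha', hb']; linarith
  rcases Int.emod_two_eq_zero_or_one (w (pt 0)) with h0 | h0
  · rcases shape32_even hw hn h0 with ⟨p, q, hpq, a, b, ha, hb, hx⟩ | ⟨S, hS, h2, h3⟩
    · exfalso
      have h4 : ∀ i, w i % 4 = 0 := by
        intro i
        rw [hx]
        unfold u44
        rw [Pi.add_apply, Pi.single_apply, Pi.single_apply]
        split_ifs <;> omega
      have := h4 (pt 0)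
      have := h4 (pt 1)
      omega
    · obtain ⟨k, l, hk, hl, hkl⟩ := two_of_card (card_rest (S := S) {pt 0, pt 1} 2 (by rw [octad_card hS, Finset.card_pair pt01]; norm_num))
      rw [Finset.mem_sdiff, Finset.mem_insert, Finset.mem_singleton, not_or] at hk hl
      exact key k l hkl 2 2 (h2 k hk.1) (h2 l hl.1) (by norm_num) ⟨hk.2.1, hk.2.2, hl.2.1, hl.2.2⟩
  · obtain ⟨C, hC, h1, p, hp, hi⟩ := shape32_odd hw hn h0
    by_cases hp0 : p = pt 0
    · subst hp0
      have h4 := hi (pt 1) pt01.symm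
      refine ⟨u44 (pt 0) (pt 1) 4 (-4), u44_mem pt01 (Or.inl rfl) (Or.inr rfl), norm_u44 pt01 (Or.inl rfl) (Or.inr rfl), ?_, ?_⟩
      · rw [u44_left pt01, u44_right pt01]; norm_num
      · rw [dot_u44]; omega
    · by_cases hp1 : p = pt 1
      · subst hp1
        have h4 := hi (pt 0) pt01
        refine ⟨u44 (pt 0) (pt 1) (-4) 4, u44_mem pt01 (Or.inr rfl) (Or.inl rfl), norm_u44 pt01 (Or.inr rfl) (Or.inl rfl), ?_, ?_⟩
        · rw [u44_left pt01, u44_right pt01]; norm_num
        · rw [dot_u44]; omega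
      · obtain ⟨l, hl⟩ : ((univ : Finset GolayPt) \ {pt 0, pt 1, p}).Nonempty := by
          rw [← Finset.card_pos]
          have h5 := card_rest (S := univ) {pt 0, pt 1, p} 1 (by
            have := Finset.card_le_three (a := pt 0) (b := pt 1) (c := p)
            rw [card_univ_G]; omega)
          omega
        rw [Finset.mem_sdiff, Finset.mem_insert, Finset.mem_insert, Finset.mem_singleton, not_or, not_or] at hl
        exact key p l (fun h => hl.2.2.2 h.symm) 3 1 hp (hi l hl.2.2.2) (by norm_num) ⟨hp0, hp1, hl.2.1, hl.2.2.1⟩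

theorem uA_val : ((uA : leechLattice) : GolayPt → ℤ) = u44 (pt 0) (pt 1) 4 4 := rfl

theorem exists_M24_fix {q q' : GolayPt} (h : q ≠ pt 0) (h' : q' ≠ pt 0) : ∃ σ ∈ M24, σ (pt 0) = pt 0 ∧ σ q = q' := exists_M24_two (p := pt 0) (q := q) (p' := pt 0) (q' := q') h.symm h'.symm

theorem spE_uo {σ : Equiv.Perm GolayPt} (p : GolayPt) (a : ℤ) (h : σ p = p) : spE σ ∅ (uo p a) = uo p a := by
  funext i
  show (if i ∈ (∅ : Finset GolayPt) then -(uo p a (σ.symm i)) else uo p a (σ.symm i)) = uo p a i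
  rw [if_neg (Finset.notMem_empty i)]
  by_cases hi : i = p
  · subst hi
    rw [show σ.symm i = i from by rw [Equiv.symm_apply_eq]; exact h.symm]
  · rw [uo_ne a hi, uo_ne a]
    intro h2
    rw [Equiv.symm_apply_eq] at h2
    exact hi (h2.trans h)

/-- from a frame vector with prescribed products to the normal form of a pair -/
theorem pair_form (v w f : leechLattice) (hf : sqNorm (f : GolayPt → ℤ) = 64) (hv : sqNorm (v : GolayPt → ℤ) = 32) {c a : ℤ} (hc : c = 4 ∨ c = -4) (ha : a % 4 = 1) (hw : sqNorm (w : GolayPt → ℤ) = a ^ 2 + 23)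
    (hfv : dotInt (v : GolayPt → ℤ) f = 8 * c) (hfw : dotInt (w : GolayPt → ℤ) f = 8 * a) :
    ∃ (g : Co0) (b : ℤ), (b = 4 ∨ b = -4) ∧ dotInt (v : GolayPt → ℤ) w = a * c + b ∧ ((g • v : leechLattice) : GolayPt → ℤ) = u44 (pt 0) (pt 1) c b ∧ ((g • w : leechLattice) : GolayPt → ℤ) = uo (pt 0) a := by
  obtain ⟨g, hg⟩ := trans64 f hf (pt 0)
  have h1 : ((g • v : leechLattice) : GolayPt → ℤ) (pt 0) = c := by
    have h2 := co_dot g v f
    rw [hg, dot_e8] at h2
    omega
  have h2 : ((g • w : leechLattice) : GolayPt → ℤ) (pt 0) = a := by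
    have h2 := co_dot g w f
    rw [hg, dot_e8] at h2
    omega
  obtain ⟨C, hC, h0C, hx⟩ := odd_norm_form (x := g • w) (p := pt 0) (a := a) ha h2 (by rw [co_norm, hw])
  -- the first vector
  have h3 : ∃ j, j ≠ pt 0 ∧ ∃ b : ℤ, (b = 4 ∨ b = -4) ∧ ((mono (one_mem M24) hC • g • v : leechLattice) : GolayPt → ℤ) = u44 (pt 0) j c b := by
    have h4 : ((mono (one_mem M24) hC • g • v : leechLattice) : GolayPt → ℤ) (pt 0) = c := by rw [mono_one_apply, if_neg h0C, h1]
    rcases hc with hc | hc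
    · obtain ⟨j, hj, b, hb, hxx⟩ := shape4 (mono (one_mem M24) hC • g • v).2 (by rw [co_norm, co_norm, hv]) (p := pt 0) (by rw [h4, hc])
      exact ⟨j, hj, b, hb, by rw [hxx, hc]; rfl⟩
    · obtain ⟨j, hj, b, hb, hxx⟩ := shape4 (-(mono (one_mem M24) hC • g • v)).2 (by
        show sqNorm (-((mono (one_mem M24) hC • g • v : leechLattice) : GolayPt → ℤ)) = 32
        rw [norm_neg, co_norm, co_norm, hv]) (p := pt 0) (by
        show -(((mono (one_mem M24) hC • g • v : leechLattice) : GolayPt → ℤ) (pt 0)) = 4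
        rw [h4, hc]; norm_num)
      refine ⟨j, hj, -b, by omega, ?_⟩
      have h5 : -((mono (one_mem M24) hC • g • v : leechLattice) : GolayPt → ℤ) = Pi.single (pt 0) 4 + Pi.single j b := hxx
      rw [← neg_neg ((mono (one_mem M24) hC • g • v : leechLattice) : GolayPt → ℤ), h5, hc]
      unfold u44
      rw [Pi.single_neg, Pi.single_neg]; abel
  obtain ⟨j, hj, b, hb, h5⟩ := h3
  obtain ⟨σ, hσ, s0, s1⟩ := exists_M24_fix hj pt01.symm
  refine ⟨mono hσ empty_mem * (mono (one_mem M24) hC * g), b, hb, ?_, ?_, ?_⟩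
  · have h6 := co_dot (mono (one_mem M24) hC * g) v w
    rw [mul_smul, mul_smul, h5, hx, dot_symm, dot_u44, uo_same, uo_ne a hj] at h6
    omega
  · rw [mul_smul, mul_smul, mono_smul, h5, spE_u44, if_neg (Finset.notMem_empty _), if_neg (Finset.notMem_empty _), s0, s1]
  · rw [mul_smul, mul_smul, mono_smul, hx, spE_uo _ _ s0]

/-- triangles of type 223 -/
theorem trans_T2 (v w : leechLattice) (hv : sqNorm (v : GolayPt → ℤ) = 32) (hw : sqNorm (w : GolayPt → ℤ) = 32) (hd : dotInt (v : GolayPt → ℤ) w = -8) :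
    ∃ g : Co0, g • v = uA ∧ g • w = u3 := by
  obtain ⟨k, hk⟩ := trans32 v hv
  have h1 := co_dot k v w
  rw [hk, uA_val, dot_symm, dot_u44, hd] at h1
  obtain ⟨y, hy, hyn, hy0, hyw⟩ := exists_T2 (k • w).2 (by rw [co_norm, hw]) (by omega)
  have hyA : dotInt y (u44 (pt 0) (pt 1) 4 4) = 0 := by rw [dot_u44]; omega
  obtain ⟨g, b, hb, h2, h3, h4⟩ := pair_form uA (k • w) (uA + ⟨y, hy⟩) (by
    show sqNorm (u44 (pt 0) (pt 1) 4 4 + y) = 64
    rw [norm_add, norm_u44 pt01 (Or.inl rfl) (Or.inl rfl), hyn, dot_symm, hyA]; norm_num) (norm_u44 pt01 (Or.inl rfl) (Or.inl rfl)) (c := 4) (a := -3) (Or.inl rfl) (by norm_num)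
    (by rw [co_norm, hw]; norm_num)
    (by
      show dotInt (u44 (pt 0) (pt 1) 4 4) (u44 (pt 0) (pt 1) 4 4 + y) = 8 * 4
      rw [dot_add_right, ← sqNorm_eq_dot, norm_u44 pt01 (Or.inl rfl) (Or.inl rfl), dot_symm, hyA]; norm_num)
    (by
      show dotInt ((k • w : leechLattice) : GolayPt → ℤ) (u44 (pt 0) (pt 1) 4 4 + y) = 8 * (-3)
      rw [dot_add_right, hyw, dot_u44]; omega)
  have h5 : dotInt ((uA : leechLattice) : GolayPt → ℤ) ((k • w : leechLattice) : GolayPt → ℤ) = -8 := by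
    rw [← hk, co_dot, hd]
  rw [h5] at h2
  have hb4 : b = 4 := by omega
  rw [hb4] at h3
  exact ⟨g * k, by rw [mul_smul, hk]; exact Subtype.ext h3, by rw [mul_smul]; exact Subtype.ext h4⟩

end CfsgLib.Leech
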