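import Mathlib
import Cfsg.Agent.Lib.Leech15

/-!
Triangles of types 222 and 332.
-/

set_option autoImplicit false

namespace CfsgLib.Leech

open CfsgLib.Golay Finset Cfsg
open scoped Pointwise

/-- opposite signs on part of an octad -/
theorem dot_opp {x : GolayPt → ℤ} {O T : Finset GolayPt} {U : Finset GolayPt} (hU : U ⊆ O) (h : ∀ i ∈ U, (if i ∈ T then -2 else 2) * x i = -(2 * |x i|)) :
    dotInt x (w2 O T) = -(2 * ∑ i ∈ U, |x i|) + ∑ i ∈ O \ U, x i * (if i ∈ T then -2 else 2) := by
  rw [dot_w2, ← Finset.sum_sdiff hU, add_comm, Finset.mul_sum, ← Finset.sum_neg_distrib]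
  congr 1
  apply Finset.sum_congr rfl
  intro i hi
  rw [mul_comm, h i hi]

theorem opp_sign {a : ℤ} {P : Prop} [Decidable P] (h : P ↔ 0 < a) : (if P then -2 else 2) * a = -(2 * |a|) := by
  by_cases hp : P
  · rw [if_pos hp, abs_of_pos (h.mp hp)]; ring
  · rw [if_neg hp, abs_of_nonpos (not_lt.mp (fun h' => hp (h.mpr h')))]; ring

theorem exists_octad_five {s : Finset GolayPt} (hs : s.card ≤ 5) : ∃ O ∈ octads, s ⊆ O := by
  obtain ⟨t, hst, -, ht⟩ := Finset.exists_subsuperset_card_eq (Finset.subset_univ s) hs (by rw [card_univ_G]; norm_num)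
  obtain ⟨O, ⟨hO, htO⟩, -⟩ := octads_steiner_bl.2 t ht
  exact ⟨O, hO, hst.trans htO⟩

/-- vectors orthogonal to the first basic vector, case of inner product -16 -/
theorem exists_T1 {w : GolayPt → ℤ} (hw : w ∈ leechLattice) (hn : sqNorm w = 32) (hs : w (pt 0) + w (pt 1) = -4) :
    ∃ y ∈ leechLattice, sqNorm y = 32 ∧ y (pt 0) + y (pt 1) = 0 ∧ dotInt w y = -16 := by
  rcases Int.emod_two_eq_zero_or_one (w (pt 0)) with h0 | h0
  · rcases shape32_even hw hn h0 with ⟨p, q, hpq, a, b, ha, hb, hx⟩ | ⟨S, hS, h2, h3⟩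
    · have h4 : ∀ i, w i = 0 ∨ w i = 4 ∨ w i = -4 := by
        intro i
        rw [hx]
        by_cases hi : i = p
        · rw [hi, u44_left hpq]; omega
        · by_cases hj : i = q
          · rw [hj, u44_right hpq]; omega
          · rw [u44_other hi hj]; omega
      have h5 := h4 (pt 0)
      have h6 := h4 (pt 1)
      rcases h5 with h5 | h5 | h5
      · refine ⟨u44 (pt 0) (pt 1) (-4) 4, u44_mem pt01 (Or.inr rfl) (Or.inl rfl), norm_u44 pt01 (Or.inr rfl) (Or.inl rfl), ?_, ?_⟩
        · rw [u44_left pt01, u44_right pt01]; norm_num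
        · rw [dot_u44]; omega
      · omega
      · refine ⟨u44 (pt 0) (pt 1) 4 (-4), u44_mem pt01 (Or.inl rfl) (Or.inr rfl), norm_u44 pt01 (Or.inl rfl) (Or.inr rfl), ?_, ?_⟩
        · rw [u44_left pt01, u44_right pt01]; norm_num
        · rw [dot_u44]; omega
    · obtain ⟨k, l, hk, hl, hkl⟩ := two_of_card (card_rest (S := S) {pt 0, pt 1} 2 (by rw [octad_card hS, Finset.card_pair pt01]; norm_num))
      rw [Finset.mem_sdiff, Finset.mem_insert, Finset.mem_singleton, not_or] at hk hl
      obtain ⟨a, ha, ha'⟩ := neg_pair (h2 k hk.1)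
      obtain ⟨b, hb, hb'⟩ := neg_pair (h2 l hl.1)
      refine ⟨u44 k l a b, u44_mem hkl ha hb, norm_u44 hkl ha hb, ?_, ?_⟩
      · rw [u44_other (fun h => hk.2.1 h.symm) (fun h => hl.2.1 h.symm), u44_other (fun h => hk.2.2 h.symm) (fun h => hl.2.2 h.symm)]; norm_num
      · rw [dot_u44, ha', hb']; norm_num
  · -- odd vectors
    have gen : ∀ p q : GolayPt, p ≠ q → w p = -3 → w q = -1 → ∃ y ∈ leechLattice, sqNorm y = 32 ∧ y p + y q = 0 ∧ dotInt w y = -16 := by
      intro p q hpq hwp hwq
      obtain ⟨C, hC, h1, p', hp, hi⟩ := shape32_odd hw hn h0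
      have hpp : p = p' := by
        by_contra hne
        have := hi p hne
        omega
      subst hpp
      obtain ⟨O, hO, hOs⟩ := exists_octad_five (s := {p, q}) (by rw [Finset.card_pair hpq]; norm_num)
      have hpO : p ∈ O := hOs (by simp)
      have hqO : q ∈ O := hOs (by simp)
      have hpC : p ∉ C := by
        intro h
        have := h1 p
        rw [if_pos h] at this; omega
      have hqC : q ∈ C := by
        by_contra h
        have := h1 q
        rw [if_neg h] at this; omega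
      let T : Finset GolayPt := insert q ((O \ C).erase p)
      have hTO : T ⊆ O := by
        intro i hi
        rw [Finset.mem_insert, Finset.mem_erase, Finset.mem_sdiff] at hi
        rcases hi with rfl | hi
        · exact hqO
        · exact hi.2.1
      have hTc : T.card = (O \ C).card := by
        rw [Finset.card_insert_of_notMem, Finset.card_erase_of_mem (Finset.mem_sdiff.mpr ⟨hpO, hpC⟩)]
        · have : 0 < (O \ C).card := Finset.card_pos.mpr ⟨p, Finset.mem_sdiff.mpr ⟨hpO, hpC⟩⟩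
          omega
        · intro h
          rw [Finset.mem_erase, Finset.mem_sdiff] at h
          exact h.2.2 hqC
      have hTe : T.card % 2 = 0 := by
        rw [hTc]
        have a := Finset.card_sdiff_add_card_inter O C
        have b := even_inter_GC (octads_iff'.mp hO).1 hC
        have c := octad_card hO
        omega
      have hpT : p ∉ T := by
        intro h
        rw [Finset.mem_insert, Finset.mem_erase] at h
        rcases h with h | h
        · exact hpq h
        · exact h.1 rfl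
      have hqT : q ∈ T := Finset.mem_insert_self _ _
      refine ⟨w2 O T, w2_mem hO hTO hTe, norm_w2 hO, ?_, ?_⟩
      · unfold w2
        rw [if_pos hpO, if_pos hqO, if_neg hpT, if_pos hqT]; norm_num
      · have hU : (O.erase p).erase q ⊆ O := (Finset.erase_subset _ _).trans (Finset.erase_subset _ _)
        have hval : ∀ i ∈ (O.erase p).erase q, w i * (if i ∈ T then -2 else 2) = -2 := by
          intro i hii
          rw [Finset.mem_erase, Finset.mem_erase] at hii
          have h5 := hi i hii.2.1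
          have h6 := h1 i
          by_cases hiC : i ∈ C
          · rw [if_pos hiC] at h6
            have h7 : i ∉ T := by
              intro h
              rw [Finset.mem_insert, Finset.mem_erase, Finset.mem_sdiff] at h
              rcases h with h | h
              · exact hii.1 h
              · exact h.2.2 hiC
            rw [if_neg h7]; omega
          · rw [if_neg hiC] at h6
            have h7 : i ∈ T := by
              rw [Finset.mem_insert, Finset.mem_erase, Finset.mem_sdiff]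
              exact Or.inr ⟨hii.2.1, hii.2.2, hiC⟩
            rw [if_pos h7]; omega
        have hq' : q ∈ O.erase p := Finset.mem_erase.mpr ⟨hpq.symm, hqO⟩
        rw [dot_w2, ← Finset.add_sum_erase O _ hpO, ← Finset.add_sum_erase (O.erase p) _ hq', Finset.sum_congr rfl hval, Finset.sum_const,
          Finset.card_erase_of_mem hq', Finset.card_erase_of_mem hpO, octad_card hO, if_neg hpT, if_pos hqT, hwp, hwq]
        norm_num
    obtain ⟨C, hC, h1, p, hp, hi⟩ := shape32_odd hw hn h0
    by_cases hp0 : p = pt 0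
    · subst hp0
      have h4 := hi (pt 1) pt01.symm
      exact gen (pt 0) (pt 1) pt01 (by omega) (by omega)
    · have h5 := hi (pt 0) (fun h => hp0 h.symm)
      by_cases hp1 : p = pt 1
      · subst hp1
        obtain ⟨y, hy, hyn, hy0, hyw⟩ := gen (pt 1) (pt 0) pt01.symm (by omega) (by omega)
        exact ⟨y, hy, hyn, by omega, hyw⟩
      · have h6 := hi (pt 1) (fun h => hp1 h.symm)
        omega

theorem shape4' {x : GolayPt → ℤ} (hx : x ∈ leechLattice) (hn : sqNorm x = 32) {p : GolayPt} {a : ℤ} (ha : a = 4 ∨ a = -4) (hp : x p = a) :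
    ∃ j, j ≠ p ∧ ∃ b : ℤ, (b = 4 ∨ b = -4) ∧ x = u44 p j a b := by
  rcases ha with rfl | rfl
  · exact shape4 hx hn hp
  · obtain ⟨j, hj, b, hb, h⟩ := shape4 (neg_mem hx) (by rw [norm_neg]; exact hn) (p := p) (by rw [Pi.neg_apply, hp]; norm_num)
    refine ⟨j, hj, -b, by omega, ?_⟩
    rw [← neg_neg x, h]
    unfold u44
    rw [Pi.single_neg, Pi.single_neg]; abel

theorem exists_M24_three {p q r p' q' r' : GolayPt} (h : [p, q, r].Nodup) (h' : [p', q', r'].Nodup) : ∃ σ ∈ M24, σ p = p' ∧ σ q = q' ∧ σ r = r' := by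
  obtain ⟨g, hg, hgl⟩ := PS_trans (l := []) (by simp) (m := [p, q, r]) (m' := [p', q', r']) h h' (by simp) (by simp) rfl (by simp)
  simp only [List.map_cons, List.map_nil, List.cons.injEq, and_true] at hgl
  exact ⟨g, hg.1, hgl.1, hgl.2.1, hgl.2.2⟩

/-- the third basic vector -/
def uC : leechLattice := ⟨u44 (pt 0) (pt 2) (-4) 4, u44_mem (by decide) (Or.inr rfl) (Or.inl rfl)⟩

/-- triangles of type 222 -/
theorem trans_T1 (v w : leechLattice) (hv : sqNorm (v : GolayPt → ℤ) = 32) (hw : sqNorm (w : GolayPt → ℤ) = 32) (hd : dotInt (v : GolayPt → ℤ) w = -16) :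
    ∃ g : Co0, g • v = uA ∧ g • w = uC := by
  obtain ⟨k, hk⟩ := trans32 v hv
  have h1 := co_dot k v w
  rw [hk, uA_val, dot_symm, dot_u44, hd] at h1
  obtain ⟨y, hy, hyn, hy0, hyw⟩ := exists_T1 (k • w).2 (by rw [co_norm, hw]) (by omega)
  have hyA : dotInt y (u44 (pt 0) (pt 1) 4 4) = 0 := by rw [dot_u44]; omega
  have hkw := co_norm k w
  set w' := k • w with hw'
  obtain ⟨g, hg⟩ := trans64 (uA + ⟨y, hy⟩) (by
    show sqNorm (u44 (pt 0) (pt 1) 4 4 + y) = 64
    rw [norm_add, norm_u44 pt01 (Or.inl rfl) (Or.inl rfl), hyn, dot_symm, hyA]; norm_num) (pt 0)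
  have hvf : ((g • uA : leechLattice) : GolayPt → ℤ) (pt 0) = 4 := by
    have h2 := co_dot g uA (uA + ⟨y, hy⟩)
    rw [hg, dot_e8] at h2
    have h3 : dotInt ((uA : leechLattice) : GolayPt → ℤ) ((uA + ⟨y, hy⟩ : leechLattice) : GolayPt → ℤ) = 32 := by
      show dotInt (u44 (pt 0) (pt 1) 4 4) (u44 (pt 0) (pt 1) 4 4 + y) = 32
      rw [dot_add_right, ← sqNorm_eq_dot, norm_u44 pt01 (Or.inl rfl) (Or.inl rfl), dot_symm, hyA]; norm_num
    omega
  have hwf : ((g • w' : leechLattice) : GolayPt → ℤ) (pt 0) = -4 := by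
    have h2 := co_dot g w' (uA + ⟨y, hy⟩)
    rw [hg, dot_e8] at h2
    have h3 : dotInt (w' : GolayPt → ℤ) ((uA + ⟨y, hy⟩ : leechLattice) : GolayPt → ℤ) = -32 := by
      show dotInt (w' : GolayPt → ℤ) (u44 (pt 0) (pt 1) 4 4 + y) = -32
      rw [dot_add_right, hyw, dot_u44]; omega
    omega
  obtain ⟨j, hj, b, hb, hvx⟩ := shape4' (g • uA).2 (by rw [co_norm]; exact norm_u44 pt01 (Or.inl rfl) (Or.inl rfl)) (Or.inl rfl) hvf
  obtain ⟨l, hl, c, hc, hwx⟩ := shape4' (g • w').2 (by rw [co_norm, hkw, hw]) (Or.inr rfl) hwf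
  have hjl : j ≠ l := by
    rintro rfl
    have h5 := co_dot g uA w'
    rw [hvx, hwx, dot_u44, u44_left hj.symm, u44_right hj.symm] at h5
    have h6 : dotInt ((uA : leechLattice) : GolayPt → ℤ) (w' : GolayPt → ℤ) = -16 := by rw [← hk, hw', co_dot, hd]
    rw [h6] at h5
    rcases hb with rfl | rfl <;> rcases hc with rfl | rfl <;> omega
  obtain ⟨σ, hσ, s0, s1, s2⟩ := exists_M24_three (p := pt 0) (q := j) (r := l) (p' := pt 0) (q' := pt 1) (r' := pt 2)
    (by simp [hj.symm, hl.symm, hjl]) (by decide)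
  obtain ⟨d, hd', h3⟩ := sign_five (l := [pt 0, pt 1, pt 2]) (by decide) (by simp) (fun x => (x = pt 1 ∧ b = -4) ∨ (x = pt 2 ∧ c = -4))
  have d0 : pt 0 ∉ d := by
    rw [h3 _ (by simp)]
    rintro (h | h)
    · exact pt01 h.1
    · exact absurd h.1 (by decide)
  have d1 : pt 1 ∈ d ↔ b = -4 := by
    rw [h3 _ (by simp)]
    constructor
    · rintro (h | h)
      · exact h.2
      · exact absurd h.1 (by decide)
    · intro h; exact Or.inl ⟨rfl, h⟩
  have d2 : pt 2 ∈ d ↔ c = -4 := by
    rw [h3 _ (by simp)]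
    constructor
    · rintro (h | h)
      · exact absurd h.1 (by decide)
      · exact h.2
    · intro h; exact Or.inr ⟨rfl, h⟩
  refine ⟨mono hσ hd' * g * k, ?_, ?_⟩
  · rw [mul_smul, hk, mul_smul]
    apply Subtype.ext
    rw [mono_smul, hvx, spE_u44, s0, s1, if_neg d0]
    rcases hb with hb | hb
    · rw [if_neg (fun h => by have := d1.mp h; omega), hb]; rfl
    · rw [if_pos (d1.mpr hb), hb]; rfl
  · rw [mul_smul, mul_smul]
    apply Subtype.ext
    rw [mono_smul, hwx, spE_u44, s0, s2, if_neg d0]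
    rcases hc with hc | hc
    · rw [if_neg (fun h => by have := d2.mp h; omega), hc]; rfl
    · rw [if_pos (d2.mpr hc), hc]; rfl

/-! ### type 332 -/

theorem shape48_even {x : GolayPt → ℤ} (hx : x ∈ leechLattice) (hn : sqNorm x = 48) (he : x (pt 0) % 2 = 0) :
    (∃ C ∈ dodecads, (∀ i ∈ C, x i = 2 ∨ x i = -2) ∧ ∀ i, i ∉ C → x i = 0) ∨
    (∃ S ∈ octads, ∃ k, k ∉ S ∧ (x k = 4 ∨ x k = -4) ∧ (∀ i ∈ S, x i = 2 ∨ x i = -2) ∧ ∀ i, i ∉ S → i ≠ k → x i = 0) := by
  rcases nf_cases hx with ⟨C, hC, h1, h2⟩ | ⟨C, hC, h1, h2⟩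
  · have hge := norm_ge_class h1
    have hnn : ∀ i ∈ (univ : Finset GolayPt), 0 ≤ x i ^ 2 - ww C i ^ 2 := fun i _ => by
      have h5 := h1 i
      unfold ww
      split_ifs at h5 ⊢
      · have := four_sq h5; omega
      · have := sq_nonneg (x i); omega
    have hsum : ∑ i, (x i ^ 2 - ww C i ^ 2) = 48 - 4 * C.card := by
      rw [Finset.sum_sub_distrib]
      have a1 : ∑ i, x i ^ 2 = 48 := hn
      have a2 : ∑ i, ww C i ^ 2 = 4 * C.card := norm_ww C
      rw [a1, a2]
    have hval : ∀ i, x i ^ 2 - ww C i ^ 2 = 0 → (i ∈ C → x i = 2 ∨ x i = -2) ∧ (i ∉ C → x i = 0) := by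
      intro i hi
      constructor
      · intro hiC
        have h6 : ww C i = 2 := by unfold ww; rw [if_pos hiC]
        rw [h6] at hi
        exact sq_cases (n := 2) (by omega)
      · intro hiC
        have h6 : ww C i = 0 := by unfold ww; rw [if_neg hiC]
        rw [h6] at hi
        exact pow_eq_zero_iff (n := 2) (by norm_num) |>.mp (by omega)
    have hC4 := card_GC hC
    have hc12 : C.card ≤ 12 := by omega
    rcases supports_card hC with h | h | h | h | h
    · exfalso
      rw [Finset.card_eq_zero] at h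
      subst h
      have h4 : ∀ i, ∃ z, x i = 4 * z := fun i => ⟨x i / 4, by have := h1 i; rw [if_neg (Finset.notMem_empty i)] at this; omega⟩
      choose z hz using h4
      have h5 : ∑ i, z i ^ 2 = 3 := by
        unfold sqNorm at hn
        rw [Finset.sum_congr rfl (fun i _ => by rw [hz i]), Finset.sum_congr rfl (g := fun i => 16 * z i ^ 2) (fun i _ => by ring), ← Finset.mul_sum] at hn
        omega
      have h6 : ∑ i, x i = 4 * ∑ i, z i := by rw [Finset.sum_congr rfl (fun i _ => hz i), Finset.mul_sum]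
      have hpar : ∀ i, ∃ t : ℤ, z i ^ 2 = z i + 2 * t := by
        intro i
        rcases Int.even_or_odd (z i) with ⟨k, hk⟩ | ⟨k, hk⟩
        · exact ⟨2 * k ^ 2 - k, by rw [hk]; ring⟩
        · exact ⟨2 * k ^ 2 + k, by rw [hk]; ring⟩
      choose t ht using hpar
      have hz2 : ∑ i, z i ^ 2 = ∑ i, z i + 2 * ∑ i, t i := by
        rw [Finset.sum_congr rfl (fun i _ => ht i), Finset.sum_add_distrib, ← Finset.mul_sum]
      omega
    · right
      rw [h] at hsum
      obtain ⟨k, _, hk0, hk1⟩ := peel hnn (by norm_num) hsum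
      have h6 : 0 ≤ ∑ i ∈ univ.erase k, (x i ^ 2 - ww C i ^ 2) := Finset.sum_nonneg (fun i _ => hnn i (Finset.mem_univ i))
      have hkC : k ∉ C := by
        intro hkC
        have h7 := h1 k
        rw [if_pos hkC] at h7
        have h8 : ww C k = 2 := by unfold ww; rw [if_pos hkC]
        rw [h8] at hk0 hk1
        obtain ⟨m, hm⟩ := odd_sq_mod (a := x k / 2) (by omega)
        have h9 : x k ^ 2 = 4 * (x k / 2) ^ 2 := by
          have : x k = 2 * (x k / 2) := by omega
          conv_lhs => rw [this]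
          ring
        omega
      have h8 : ww C k = 0 := by unfold ww; rw [if_neg hkC]
      rw [h8] at hk0 hk1
      have h7 := h1 k
      rw [if_neg hkC] at h7
      obtain ⟨m, hm⟩ : ∃ m, x k = 4 * m := ⟨x k / 4, by omega⟩
      have h16 : x k ^ 2 = 16 := by
        have e : x k ^ 2 = 16 * m ^ 2 := by rw [hm]; ring
        push_cast at hk1
        rw [e] at hk0 hk1 ⊢
        omega
      have h10 := all_zero (s := univ.erase k) (t := fun i => x i ^ 2 - ww C i ^ 2) (fun i _ => hnn i (Finset.mem_univ i)) (by rw [hk1]; omega)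
      refine ⟨C, ?_, k, hkC, sq_cases (n := 4) (by rw [h16]; norm_num), ?_, ?_⟩
      · rw [octads_iff', Nat.beq_eq, ← card_eq_pop]; exact ⟨hC, h⟩
      · intro i hi
        exact (hval i (h10 i (Finset.mem_erase.mpr ⟨fun hh => hkC (hh ▸ hi), Finset.mem_univ i⟩))).1 hi
      · intro i hi hik
        exact (hval i (h10 i (Finset.mem_erase.mpr ⟨hik, Finset.mem_univ i⟩))).2 hi
    · left
      rw [h] at hsum
      have h10 := all_zero hnn (by rw [hsum]; norm_num)
      refine ⟨C, ?_, fun i hi => (hval i (h10 i (Finset.mem_univ i))).1 hi, fun i hi => (hval i (h10 i (Finset.mem_univ i))).2 hi⟩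
      rw [dodecads_iff', Nat.beq_eq, ← card_eq_pop]; exact ⟨hC, h⟩
    · omega
    · omega
  · have := h1 (pt 0)
    split_ifs at this <;> omega

theorem shape48_odd {x : GolayPt → ℤ} (hx : x ∈ leechLattice) (hn : sqNorm x = 48) (he : x (pt 0) % 2 = 1) :
    ∃ C ∈ GC, (∀ i, x i % 4 = if i ∈ C then 3 else 1) ∧ ((∃ p, (x p = 5 ∨ x p = -5) ∧ ∀ i, i ≠ p → (x i = 1 ∨ x i = -1)) ∨
      ∃ T : Finset GolayPt, T.card = 3 ∧ (∀ i ∈ T, x i = 3 ∨ x i = -3) ∧ ∀ i, i ∉ T → (x i = 1 ∨ x i = -1)) := by
  rcases nf_cases hx with ⟨C, hC, h1, h2⟩ | ⟨C, hC, h1, h2⟩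
  · have := h1 (pt 0)
    split_ifs at this <;> omega
  · refine ⟨C, hC, h1, ?_⟩
    have hodd : ∀ i, x i % 2 = 1 := by
      intro i
      have := h1 i
      split_ifs at this <;> omega
    have hnn : ∀ i ∈ (univ : Finset GolayPt), 0 ≤ x i ^ 2 - 1 := fun i _ => by have := one_sq (hodd i); omega
    have h3 : ∑ i, (x i ^ 2 - 1) = 24 := by
      rw [Finset.sum_sub_distrib, Finset.sum_const, card_univ_G]
      have a1 : ∑ i, x i ^ 2 = 48 := hn
      have e : ((24 : ℕ) • (1 : ℤ)) = 24 := by norm_num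
      rw [a1, e]; norm_num
    have hsmall : ∀ i, x i ^ 2 - 1 ≤ 24 → x i ^ 2 - 1 = 0 ∨ x i ^ 2 - 1 = 8 ∨ x i ^ 2 - 1 = 24 := by
      intro i hi
      have h5 : |x i| ≤ 5 := by
        by_contra hcon
        have : (36 : ℤ) ≤ x i ^ 2 := by
          calc (36 : ℤ) = 6 ^ 2 := by norm_num
            _ ≤ |x i| ^ 2 := by gcongr; omega
            _ = x i ^ 2 := sq_abs _
        omega
      have h6 := hodd i
      have h7 : x i = 1 ∨ x i = -1 ∨ x i = 3 ∨ x i = -3 ∨ x i = 5 ∨ x i = -5 := by
        have := abs_le.mp h5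
        omega
      rcases h7 with h | h | h | h | h | h <;> rw [h] <;> norm_num
    obtain ⟨p, _, hp0, hp1⟩ := peel hnn (by norm_num) h3
    have h6 : 0 ≤ ∑ i ∈ univ.erase p, (x i ^ 2 - 1) := Finset.sum_nonneg (fun i _ => hnn i (Finset.mem_univ i))
    rcases hsmall p (by omega) with h7 | h7 | h7
    · omega
    · right
      rw [h7] at hp1
      obtain ⟨q, hq, hq0, hq1⟩ := peel (fun i _ => hnn i (Finset.mem_univ i)) (by norm_num) hp1
      have h8 : 0 ≤ ∑ i ∈ (univ.erase p).erase q, (x i ^ 2 - 1) := Finset.sum_nonneg (fun i _ => hnn i (Finset.mem_univ i))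
      have h9 : x q ^ 2 - 1 = 8 := by rcases hsmall q (by omega) with h | h | h <;> omega
      rw [h9] at hq1
      obtain ⟨r, hr, hr0, hr1⟩ := peel (fun i _ => hnn i (Finset.mem_univ i)) (by norm_num) hq1
      have h10 : 0 ≤ ∑ i ∈ ((univ.erase p).erase q).erase r, (x i ^ 2 - 1) := Finset.sum_nonneg (fun i _ => hnn i (Finset.mem_univ i))
      have h11 : x r ^ 2 - 1 = 8 := by rcases hsmall r (by omega) with h | h | h <;> omega
      have h12 := all_zero (s := ((univ.erase p).erase q).erase r) (t := fun i => x i ^ 2 - 1) (fun i _ => hnn i (Finset.mem_univ i)) (by rw [hr1]; omega)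
      have hqp : q ≠ p := Finset.ne_of_mem_erase hq
      have hrq : r ≠ q := Finset.ne_of_mem_erase hr
      have hrp : r ≠ p := Finset.ne_of_mem_erase (Finset.mem_of_mem_erase hr)
      refine ⟨{p, q, r}, ?_, ?_, ?_⟩
      · rw [Finset.card_insert_of_notMem (by simp [hqp.symm, hrp.symm]), Finset.card_pair hrq.symm]
      · intro i hi
        rw [Finset.mem_insert, Finset.mem_insert, Finset.mem_singleton] at hi
        rcases hi with rfl | rfl | rfl
        · exact sq_cases (n := 3) (by omega)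
        · exact sq_cases (n := 3) (by omega)
        · exact sq_cases (n := 3) (by omega)
      · intro i hi
        rw [Finset.mem_insert, Finset.mem_insert, Finset.mem_singleton, not_or, not_or] at hi
        have h13 := h12 i (Finset.mem_erase.mpr ⟨hi.2.2, Finset.mem_erase.mpr ⟨hi.2.1, Finset.mem_erase.mpr ⟨hi.1, Finset.mem_univ i⟩⟩⟩)
        exact sq_cases (n := 1) (by omega)
    · left
      rw [h7] at hp1
      have h12 := all_zero (s := univ.erase p) (t := fun i => x i ^ 2 - 1) (fun i _ => hnn i (Finset.mem_univ i)) (by rw [hp1]; norm_num)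
      refine ⟨p, sq_cases (n := 5) (by omega), ?_⟩
      intro i hi
      exact sq_cases (n := 1) (by have := h12 i (Finset.mem_erase.mpr ⟨hi, Finset.mem_univ i⟩); omega)

end CfsgLib.Leech
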