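import Mathlib
import Cfsg.Agent.Lib.Leech16

/-!
Triangles of type 332.
-/

set_option autoImplicit false

namespace CfsgLib.Leech

open CfsgLib.Golay Finset Cfsg
open scoped Pointwise

/-- an octad vector with signs opposite to `u` on a part of even codimension at least two -/
theorem opp_octad {u : GolayPt → ℤ} {O U : Finset GolayPt} (hO : O ∈ octads) (hU : U ⊆ O) {q : GolayPt} (hq : q ∈ O) (hqU : q ∉ U) (hne : ∀ i ∈ U, |u i| = 2 ∨ |u i| = 4) :
    ∃ T ⊆ O, T.card % 2 = 0 ∧ (∀ i ∈ U, u i * (if i ∈ T then -2 else 2) = -(2 * |u i|)) ∧ (∀ i ∈ O, i ∉ U → i ≠ q → i ∉ T) := by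
  classical
  let T0 : Finset GolayPt := U.filter (fun i => 0 < u i)
  have hT0 : T0 ⊆ U := Finset.filter_subset _ _
  have hqT0 : q ∉ T0 := fun h => hqU (hT0 h)
  have hkey : ∀ T : Finset GolayPt, (∀ i ∈ U, i ∈ T ↔ 0 < u i) → ∀ i ∈ U, u i * (if i ∈ T then -2 else 2) = -(2 * |u i|) := by
    intro T hT i hi
    rw [mul_comm]
    exact opp_sign (hT i hi)
  rcases Nat.even_or_odd T0.card with he | ho
  · refine ⟨T0, hT0.trans hU, Nat.even_iff.mp he, hkey T0 (fun i hi => by simp [T0, hi]), fun i _ hi _ h => hi (hT0 h)⟩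
  · refine ⟨insert q T0, ?_, ?_, hkey _ ?_, ?_⟩
    · intro i hi
      rw [Finset.mem_insert] at hi
      rcases hi with rfl | hi
      · exact hq
      · exact hU (hT0 hi)
    · rw [Finset.card_insert_of_notMem hqT0]
      have := Nat.odd_iff.mp ho
      omega
    · intro i hi
      rw [Finset.mem_insert]
      constructor
      · rintro (rfl | h)
        · exact absurd hi hqU
        · exact (Finset.mem_filter.mp h).2
      · intro h; exact Or.inr (Finset.mem_filter.mpr ⟨hi, h⟩)
    · intro i _ hi hiq h
      rw [Finset.mem_insert] at h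
      rcases h with h | h
      · exact hiq h
      · exact hi (hT0 h)

theorem octad_in_dodecad {C : Finset GolayPt} (hC : C ∈ dodecads) {p q : GolayPt} (hpq : p ≠ q) (hp : p ∈ C) (hq : q ∈ C) : ∃ O ∈ octads, p ∉ O ∧ q ∉ O ∧ (O ∩ C).card = 6 := by
  obtain ⟨l, hl, hlen, hmem⟩ := exists_extend_in C 5 (by rw [dodecads_iff', Nat.beq_eq, ← card_eq_pop] at hC; omega) [p, q] (by simp [hpq]) (by
    intro x hx; simp only [List.mem_cons, List.not_mem_nil, or_false] at hx; rcases hx with rfl | rfl <;> assumption) (by simp)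
  obtain ⟨a, b, c, rfl⟩ : ∃ a b c, l = [a, b, c] := by
    rw [List.length_append] at hlen
    simp only [List.length_cons, List.length_nil] at hlen
    match l, (by omega : l.length = 3) with
    | [a, b, c], _ => exact ⟨a, b, c, rfl⟩
  obtain ⟨g, hg, hgd, g0, g1, -⟩ := dod_frame hC (hmem p (by simp)) (hmem q (by simp)) (hmem a (by simp)) (hmem b (by simp)) (hmem c (by simp)) hl
  have hO' : toFS 0x4f8014 ∈ octads := by
    rw [mem_octads_iff, mask_toFS (by norm_num)]
    decide +kernel
  refine ⟨g⁻¹ • toFS 0x4f8014, (smul_mem_octads (inv_mem hg)).mpr hO', ?_, ?_, ?_⟩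
  · rw [← mem_smul_iff (g := g), smul_inv_smul, g0, mem_toFS]; decide
  · rw [← mem_smul_iff (g := g), smul_inv_smul, g1, mem_toFS]; decide
  · rw [← card_smul' g, smul_inter', smul_inv_smul, hgd, card_eq_pop, mask_inter, mask_toFS (by norm_num), mask_D0]
    decide +kernel

/-- vectors orthogonal to the first basic vector, norm 48, case of inner product -24 -/
theorem exists_T4 {u : GolayPt → ℤ} (hu : u ∈ leechLattice) (hn : sqNorm u = 48) (hs : u (pt 0) + u (pt 1) = -4) :
    ∃ y ∈ leechLattice, sqNorm y = 32 ∧ y (pt 0) + y (pt 1) = 0 ∧ dotInt u y = -24 := by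
  have key : ∀ k l : GolayPt, k ≠ l → ∀ (c d : ℤ), (u k = c ∨ u k = -c) → (u l = d ∨ u l = -d) → 4 * (c + d) = 24 → (k ≠ pt 0 ∧ k ≠ pt 1 ∧ l ≠ pt 0 ∧ l ≠ pt 1) →
      ∃ y ∈ leechLattice, sqNorm y = 32 ∧ y (pt 0) + y (pt 1) = 0 ∧ dotInt u y = -24 := by
    intro k l hkl c d hc hd hcd hne
    obtain ⟨a, ha, ha'⟩ := neg_pair hc
    obtain ⟨b, hb, hb'⟩ := neg_pair hd
    refine ⟨u44 k l a b, u44_mem hkl ha hb, norm_u44 hkl ha hb, ?_, ?_⟩
    · rw [u44_other hne.1.symm hne.2.2.1.symm, u44_other hne.2.1.symm hne.2.2.2.symm]; norm_num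
    · rw [dot_u44, ha', hb']; linarith
  rcases Int.emod_two_eq_zero_or_one (u (pt 0)) with h0 | h0
  · rcases shape48_even hu hn h0 with ⟨C, hC, h2, h3⟩ | ⟨S, hS, k, hkS, hk4, h2, h3⟩
    · -- dodecad
      have h4 : ∀ i, u i = 2 ∨ u i = -2 ∨ u i = 0 := by
        intro i
        by_cases hi : i ∈ C
        · rcases h2 i hi with h | h <;> omega
        · exact Or.inr (Or.inr (h3 i hi))
      have a0 := h4 (pt 0)
      have a1 := h4 (pt 1)
      have m0 : pt 0 ∈ C := by by_contra h; have := h3 _ h; omega
      have m1 : pt 1 ∈ C := by by_contra h; have := h3 _ h; omega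
      obtain ⟨O, hO, p0, p1, h6⟩ := octad_in_dodecad hC pt01 m0 m1
      obtain ⟨q, hq⟩ : (O \ (O ∩ C)).Nonempty := by
        rw [← Finset.card_pos]
        have := card_rest (S := O) (O ∩ C) 1 (by rw [h6, octad_card hO]; norm_num)
        omega
      rw [Finset.mem_sdiff] at hq
      obtain ⟨T, hT, hTe, hTU, hTn⟩ := opp_octad (u := u) hO Finset.inter_subset_left hq.1 hq.2 (fun i hi => by
        left
        rcases h2 i (Finset.mem_inter.mp hi).2 with h | h <;> rw [h] <;> norm_num)
      refine ⟨w2 O T, w2_mem hO hT hTe, norm_w2 hO, ?_, ?_⟩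
      · unfold w2; rw [if_neg p0, if_neg p1]; norm_num
      · rw [dot_w2, ← Finset.sum_sdiff (Finset.inter_subset_left (s₁ := O) (s₂ := C)), Finset.sum_congr rfl (s₁ := O ∩ C) (g := fun _ => -4), Finset.sum_const, h6,
          Finset.sum_eq_zero]
        · norm_num
        · intro i hi
          rw [Finset.mem_sdiff, Finset.mem_inter, not_and] at hi
          rw [h3 i (hi.2 hi.1), zero_mul]
        · intro i hi
          rw [hTU i hi]
          rcases h2 i (Finset.mem_inter.mp hi).2 with h | h <;> rw [h] <;> norm_num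
    · -- octad and a 4
      have hk0 : ∀ p q : GolayPt, p ≠ q → p = k → u p = -4 → u q = 0 → ∃ y ∈ leechLattice, sqNorm y = 32 ∧ y p + y q = 0 ∧ dotInt u y = -24 := by
        intro p q hpq hpk hup huq
        have hpS : p ∉ S := hpk ▸ hkS
        have hqS : q ∉ S := by
          intro h
          rcases h2 q h with h | h <;> omega
        obtain ⟨s, hsS, hs3⟩ := Finset.exists_subset_card_eq (s := S) (n := 3) (by rw [octad_card hS]; norm_num)
        obtain ⟨O, hO, hOs⟩ := exists_octad_five (s := insert p (insert q s)) (by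
          have a1 := Finset.card_insert_le p (insert q s)
          have a2 := Finset.card_insert_le q s
          omega)
        have hpO : p ∈ O := hOs (by simp)
        have hqO : q ∈ O := hOs (by simp)
        have hsO : s ⊆ O := fun x hx => hOs (by simp [hx])
        have hOS : O ≠ S := fun h => hpS (h ▸ hpO)
        have h4 : (O ∩ S).card = 4 := by
          have b1 := Finset.card_le_card (Finset.subset_inter hsO hsS)
          rcases octad_inter_octad hO hS hOS with h | h | h <;> omega
        -- fourth and fifth points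
        have hU : insert p (O ∩ S) ⊆ O := by
          intro x hx
          rw [Finset.mem_insert] at hx
          rcases hx with rfl | hx
          · exact hpO
          · exact (Finset.mem_inter.mp hx).1
        have hUq : insert q (insert p (O ∩ S)) ⊆ O := by
          intro x hx
          rw [Finset.mem_insert] at hx
          rcases hx with rfl | hx
          · exact hqO
          · exact hU hx
        have hpOS : p ∉ O ∩ S := fun h => hpS (Finset.mem_inter.mp h).2
        have hqU : q ∉ insert p (O ∩ S) := by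
          rw [Finset.mem_insert, not_or]
          exact ⟨hpq.symm, fun h => hqS (Finset.mem_inter.mp h).2⟩
        obtain ⟨r, hr⟩ : (O \ (insert q (insert p (O ∩ S)))).Nonempty := by
          rw [← Finset.card_pos]
          have := card_rest (S := O) (insert q (insert p (O ∩ S))) 1 (by
            rw [Finset.card_insert_of_notMem hqU, Finset.card_insert_of_notMem hpOS, h4, octad_card hO]; norm_num)
          omega
        rw [Finset.mem_sdiff, Finset.mem_insert, not_or] at hr
        -- use the sign vector which is -2 at q and opposite on the rest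
        let u' : GolayPt → ℤ := Function.update u q 2
        have hu'q : u' q = 2 := Function.update_self _ _ _
        have hu'n : ∀ i, i ≠ q → u' i = u i := fun i hi => Function.update_of_ne hi _ _
        obtain ⟨T, hT, hTe, hTU, hTn⟩ := opp_octad (u := u') (O := O) (U := insert q (insert p (O ∩ S))) hO hUq (q := r) hr.1 (by
          rw [Finset.mem_insert, not_or]; exact hr.2) (by
          intro i hi
          rw [Finset.mem_insert, Finset.mem_insert] at hi
          rcases hi with rfl | rfl | hi
          · left; rw [hu'q]; norm_num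
          · right; rw [hu'n _ hpq, hup]; norm_num
          · left
            have hiq : i ≠ q := by
              rintro rfl
              exact hqU (Finset.mem_insert_of_mem hi)
            rw [hu'n i hiq]
            rcases h2 i (Finset.mem_inter.mp hi).2 with h | h <;> rw [h] <;> norm_num)
        have hqT : q ∈ T := by
          by_contra h
          have := hTU q (by simp)
          rw [hu'q, if_neg h] at this; norm_num at this
        have hpT : p ∉ T := by
          intro h
          have := hTU p (by simp)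
          rw [hu'n p hpq, hup, if_pos h] at this; norm_num at this
        refine ⟨w2 O T, w2_mem hO hT hTe, norm_w2 hO, ?_, ?_⟩
        · unfold w2; rw [if_pos hpO, if_pos hqO, if_neg hpT, if_pos hqT]; norm_num
        · rw [dot_w2, ← Finset.sum_sdiff hU, Finset.sum_insert hpOS, hup, if_neg hpT, Finset.sum_congr rfl (s₁ := O ∩ S) (g := fun _ => -4), Finset.sum_const, h4,
            Finset.sum_eq_zero]
          · norm_num
          · intro i hi
            rw [Finset.mem_sdiff, Finset.mem_insert, not_or, Finset.mem_inter, not_and] at hi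
            rw [h3 i (hi.2.2 hi.1) (fun h => hi.2.1 (h.trans hpk.symm)), zero_mul]
          · intro i hi
            have h5 := hTU i (by simp only [Finset.mem_insert]; exact Or.inr (Or.inr hi))
            have hiq : i ≠ q := by
              rintro rfl
              exact hqU (Finset.mem_insert_of_mem hi)
            rw [hu'n i hiq] at h5
            rw [h5]
            rcases h2 i (Finset.mem_inter.mp hi).2 with h | h <;> rw [h] <;> norm_num
      have h4 : ∀ i, i ≠ k → u i = 2 ∨ u i = -2 ∨ u i = 0 := by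
        intro i hik
        by_cases hi : i ∈ S
        · rcases h2 i hi with h | h <;> omega
        · exact Or.inr (Or.inr (h3 i hi hik))
      by_cases hk0' : k = pt 0
      · have a1 := h4 (pt 1) (by rw [hk0']; exact pt01.symm)
        have a0 : u (pt 0) = 4 ∨ u (pt 0) = -4 := by rw [← hk0']; exact hk4
        exact hk0 (pt 0) (pt 1) pt01 hk0'.symm (by omega) (by omega)
      · by_cases hk1' : k = pt 1
        · have a1 := h4 (pt 0) (by rw [hk1']; exact pt01)
          have a0 : u (pt 1) = 4 ∨ u (pt 1) = -4 := by rw [← hk1']; exact hk4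
          obtain ⟨y, hy, hyn, hy0, hyu⟩ := hk0 (pt 1) (pt 0) pt01.symm hk1'.symm (by omega) (by omega)
          exact ⟨y, hy, hyn, by omega, hyu⟩
        · obtain ⟨l, hl⟩ : (S \ {pt 0, pt 1}).Nonempty := by
            rw [← Finset.card_pos]
            have := card_rest (S := S) {pt 0, pt 1} 1 (by rw [Finset.card_pair pt01, octad_card hS]; norm_num)
            omega
          rw [Finset.mem_sdiff, Finset.mem_insert, Finset.mem_singleton, not_or] at hl
          exact key k l (fun h => hkS (h ▸ hl.1)) 4 2 hk4 (h2 l hl.1) (by norm_num) ⟨hk0', hk1', hl.2.1, hl.2.2⟩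
  · obtain ⟨C, hC, h1, h2⟩ := shape48_odd hu hn h0
    rcases h2 with ⟨p, hp, hi⟩ | ⟨T, hT3, hT, hi⟩
    · by_cases hp0 : p = pt 0
      · subst hp0
        have h4 := hi (pt 1) pt01.symm
        refine ⟨u44 (pt 0) (pt 1) 4 (-4), u44_mem pt01 (Or.inl rfl) (Or.inr rfl), norm_u44 pt01 (Or.inl rfl) (Or.inr rfl), ?_, ?_⟩
        · rw [u44_left pt01, u44_right pt01]; norm_num
        · rw [dot_u44]; omega
      · by_cases hp1 : p = pt 1
        · subst hp1
          have h4 := hi (pt 0) pt01
          refine ⟨u44 (pt 0) (pt 1) (-4) 4, u44_mem pt01 (Or.inr rfl) (Or.inl rfl), norm_u44 pt01 (Or.inr rfl) (Or.inl rfl), ?_, ?_⟩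
          · rw [u44_left pt01, u44_right pt01]; norm_num
          · rw [dot_u44]; omega
        · have h4 := hi (pt 0) (fun h => hp0 h.symm)
          have h5 := hi (pt 1) (fun h => hp1 h.symm)
          omega
    · have hnot : ¬ (pt 0 ∈ T ∧ pt 1 ∈ T) := by
        rintro ⟨m0, m1⟩
        have a0 := hT _ m0
        have a1 := hT _ m1
        omega
      have h6 : (T ∩ {pt 0, pt 1}).card ≤ 1 := by
        by_contra hcon
        have h7 : T ∩ {pt 0, pt 1} = {pt 0, pt 1} := Finset.eq_of_subset_of_card_le Finset.inter_subset_right (by rw [Finset.card_pair pt01]; omega)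
        apply hnot
        constructor
        · have : pt 0 ∈ T ∩ {pt 0, pt 1} := by rw [h7]; simp
          exact (Finset.mem_inter.mp this).1
        · have : pt 1 ∈ T ∩ {pt 0, pt 1} := by rw [h7]; simp
          exact (Finset.mem_inter.mp this).1
      have h7 := Finset.card_sdiff_add_card_inter T {pt 0, pt 1}
      obtain ⟨k, l, hk, hl, hkl⟩ := two_of_card (s := T \ {pt 0, pt 1}) (by omega)
      rw [Finset.mem_sdiff, Finset.mem_insert, Finset.mem_singleton, not_or] at hk hl
      exact key k l hkl 3 3 (hT k hk.1) (hT l hl.1) (by norm_num) ⟨hk.2.1, hk.2.2, hl.2.1, hl.2.2⟩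

/-- the fourth basic vector -/
def uD : leechLattice := ⟨u44 (pt 0) (pt 1) (-4) 4, u44_mem (by decide) (Or.inr rfl) (Or.inl rfl)⟩

/-- triangles of type 332 -/
theorem trans_T4 (x u : leechLattice) (hx : sqNorm (x : GolayPt → ℤ) = 32) (hu : sqNorm (u : GolayPt → ℤ) = 48) (hd : dotInt (x : GolayPt → ℤ) u = -16) :
    ∃ g : Co0, g • x = uD ∧ g • u = u5 := by
  obtain ⟨k, hk⟩ := trans32 x hx
  have h1 := co_dot k x u
  rw [hk, uA_val, dot_symm, dot_u44, hd] at h1
  obtain ⟨y, hy, hyn, hy0, hyw⟩ := exists_T4 (k • u).2 (by rw [co_norm, hu]) (by omega)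
  have hyA : dotInt y (u44 (pt 0) (pt 1) 4 4) = 0 := by rw [dot_u44]; omega
  obtain ⟨g, b, hb, h2, h3, h4⟩ := pair_form uA (k • u) (-(uA + ⟨y, hy⟩)) (by
    show sqNorm (-(u44 (pt 0) (pt 1) 4 4 + y)) = 64
    rw [norm_neg, norm_add, norm_u44 pt01 (Or.inl rfl) (Or.inl rfl), hyn, dot_symm, hyA]; norm_num) (norm_u44 pt01 (Or.inl rfl) (Or.inl rfl)) (c := -4) (a := 5) (Or.inr rfl) (by norm_num)
    (by rw [co_norm, hu]; norm_num)
    (by
      show dotInt (u44 (pt 0) (pt 1) 4 4) (-(u44 (pt 0) (pt 1) 4 4 + y)) = 8 * (-4)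
      rw [dot_neg_right, dot_add_right, ← sqNorm_eq_dot, norm_u44 pt01 (Or.inl rfl) (Or.inl rfl), dot_symm, hyA]; norm_num)
    (by
      show dotInt ((k • u : leechLattice) : GolayPt → ℤ) (-(u44 (pt 0) (pt 1) 4 4 + y)) = 8 * 5
      rw [dot_neg_right, dot_add_right, hyw, dot_u44]; omega)
  have h5 : dotInt ((uA : leechLattice) : GolayPt → ℤ) ((k • u : leechLattice) : GolayPt → ℤ) = -16 := by
    rw [← hk, co_dot, hd]
  rw [h5] at h2
  have hb4 : b = 4 := by omega
  rw [hb4] at h3
  exact ⟨g * k, by rw [mul_smul, hk]; exact Subtype.ext h3, by rw [mul_smul]; exact Subtype.ext h4⟩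

end CfsgLib.Leech
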