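import Mathlib
import Cfsg.Agent.Lib.Leech17

/-!
Moments of the minimal vectors of the Leech lattice.
-/

set_option autoImplicit false

namespace CfsgLib.Leech

open CfsgLib.Golay Finset Cfsg
open scoped Pointwise

theorem shell_finite (n : ℕ) : {w : leechLattice | sqNorm (w : GolayPt → ℤ) = n}.Finite := by
  have h1 : {x : GolayPt → ℤ | sqNorm x = n}.Finite := by
    apply (Fintype.piFinset (fun _ : GolayPt => Finset.Icc (-(n : ℤ)) n)).finite_toSet.subset
    intro x hx
    rw [Finset.mem_coe, Fintype.mem_piFinset]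
    intro i
    have h2 : x i ^ 2 ≤ n := by
      rw [← Set.mem_setOf_eq.mp hx]
      exact Finset.single_le_sum (f := fun i => x i ^ 2) (fun i _ => sq_nonneg _) (Finset.mem_univ i)
    have h3 : |x i| ≤ x i ^ 2 := by
      rw [← sq_abs]
      have := abs_nonneg (x i)
      rcases eq_or_lt_of_le this with h | h
      · rw [← h]; norm_num
      · nlinarith
    rw [Finset.mem_Icc]
    exact abs_le.mp (h3.trans h2)
  exact (h1.preimage (Subtype.coe_injective.injOn)).subset (fun w hw => hw)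

/-- the vectors of norm `n` -/
noncomputable def Fs (n : ℕ) : Finset leechLattice := (shell_finite n).toFinset

theorem mem_Fs {n : ℕ} {w : leechLattice} : w ∈ Fs n ↔ sqNorm (w : GolayPt → ℤ) = n := by
  rw [Fs, Set.Finite.mem_toFinset]; rfl

theorem card_filter_Fs {n : ℕ} (P : (GolayPt → ℤ) → Prop) [DecidablePred P] :
    ((Fs n).filter (fun w : leechLattice => P (w : GolayPt → ℤ))).card = {x : GolayPt → ℤ | x ∈ leechLattice ∧ sqNorm x = n ∧ P x}.ncard := by
  rw [← Set.ncard_coe_finset, ← Set.ncard_image_of_injective _ Subtype.coe_injective]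
  congr 1
  ext x
  constructor
  · rintro ⟨w, hw, rfl⟩
    rw [Finset.mem_coe, Finset.mem_filter, mem_Fs] at hw
    exact ⟨w.2, hw.1, hw.2⟩
  · rintro ⟨h1, h2, h3⟩
    exact ⟨⟨x, h1⟩, by rw [Finset.mem_coe, Finset.mem_filter, mem_Fs]; exact ⟨h2, h3⟩, rfl⟩

theorem card_Fs {n N : ℕ} (hn : n % 16 = 0) (hn' : n ≤ 64) (h : (normF n).card = N) : (Fs n).card = N := by
  have h1 := card_filter_Fs (n := n) (fun _ => True)
  simp only [Finset.filter_true, and_true] at h1
  rw [h1, ncard_norm hn hn', h]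

theorem sum_inv {n : ℕ} (g : Co0) (φ : leechLattice → ℤ) : ∑ w ∈ Fs n, φ (g • w) = ∑ w ∈ Fs n, φ w := by
  apply Finset.sum_bij (fun w _ => g • w)
  · intro w hw
    rw [mem_Fs] at hw ⊢
    rw [co_norm, hw]
  · intro a _ b _ h
    exact MulAction.injective g h
  · intro w hw
    refine ⟨g⁻¹ • w, ?_, smul_inv_smul g w⟩
    rw [mem_Fs] at hw ⊢
    rw [co_norm, hw]
  · intro w _; rfl

theorem mono_apply {σ : Equiv.Perm GolayPt} (hσ : σ ∈ M24) {c : Finset GolayPt} (hc : c ∈ GC) (v : leechLattice) (i : GolayPt) :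
    ((mono hσ hc • v : leechLattice) : GolayPt → ℤ) i = if i ∈ c then -((v : GolayPt → ℤ) (σ.symm i)) else (v : GolayPt → ℤ) (σ.symm i) := rfl

/-- invariance under permutations of coordinates -/
theorem sum_perm {n : ℕ} {σ : Equiv.Perm GolayPt} (hσ : σ ∈ M24) (φ : (GolayPt → ℤ) → ℤ) :
    ∑ w ∈ Fs n, φ (fun i => (w : GolayPt → ℤ) (σ i)) = ∑ w ∈ Fs n, φ w := by
  rw [← sum_inv (mono (inv_mem hσ) empty_mem) (fun w => φ w)]
  apply Finset.sum_congr rfl
  intro w _
  apply congrArg φ
  funext i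
  rw [mono_apply, if_neg (Finset.notMem_empty i)]
  rfl

/-- invariance under sign changes -/
theorem sum_sign {n : ℕ} {c : Finset GolayPt} (hc : c ∈ GC) (φ : (GolayPt → ℤ) → ℤ) :
    ∑ w ∈ Fs n, φ (fun i => if i ∈ c then -((w : GolayPt → ℤ) i) else (w : GolayPt → ℤ) i) = ∑ w ∈ Fs n, φ w := by
  rw [← sum_inv (mono (one_mem M24) hc) (fun w => φ w)]
  rfl

theorem odd_class_iff {x : GolayPt → ℤ} (hx : x ∈ leechLattice) : x (pt 0) % 2 = 1 ↔ ∃ C ∈ GC, ∀ i, x i % 4 = if i ∈ C then 3 else 1 := by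
  constructor
  · intro h
    rcases nf_cases hx with ⟨C, hC, h1, h2⟩ | ⟨C, hC, h1, h2⟩
    · have := h1 (pt 0)
      split_ifs at this <;> omega
    · exact ⟨C, hC, h1⟩
  · rintro ⟨C, hC, h1⟩
    have := h1 (pt 0)
    split_ifs at this <;> omega

theorem card_odd32 : {x : GolayPt → ℤ | x ∈ leechLattice ∧ sqNorm x = 32 ∧ x (pt 0) % 2 = 1}.ncard = 98304 := by
  have : {x : GolayPt → ℤ | x ∈ leechLattice ∧ sqNorm x = 32 ∧ x (pt 0) % 2 = 1} = ((GCF.biUnion (fun C => pat (two C O3 O1) 32) : Finset (GolayPt → ℤ)) : Set (GolayPt → ℤ)) := by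
    ext x
    rw [Finset.mem_coe, Finset.mem_biUnion]
    constructor
    · rintro ⟨h1, h2, h3⟩
      obtain ⟨C, hC, h4⟩ := (odd_class_iff h1).mp h3
      exact ⟨C, mem_GCF.mpr hC, pat_of_mod' (by norm_num) h4 h2⟩
    · rintro ⟨C, hC, h⟩
      have h1 := (mem_odd (mem_GCF.mp hC) (by norm_num) (by norm_num)).mp h
      have h2 := mem_leech1 h1.1
      exact ⟨h2, h1.2, (odd_class_iff h2).mpr ⟨C, mem_GCF.mp hC, mod_pat' h⟩⟩
  rw [this, Set.ncard_coe_finset, Finset.card_biUnion]
  · rw [Finset.sum_congr rfl (g := fun _ => 24) (fun S _ => by rw [odd_card, oc_vals.1]), Finset.sum_const, card_GCF]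
    norm_num
  · intro S _ T _ hST
    rw [Function.onFun, Finset.disjoint_left]
    intro x hx hx'
    exact hST (clo_unique (mod_pat' hx) (mod_pat' hx'))

theorem card_44 : {x : GolayPt → ℤ | x ∈ leechLattice ∧ sqNorm x = 32 ∧ ∀ i, x i % 4 = 0}.ncard = 1104 := by
  have : {x : GolayPt → ℤ | x ∈ leechLattice ∧ sqNorm x = 32 ∧ ∀ i, x i % 4 = 0} = ((pat (two ∅ E2 E0) 32 : Finset (GolayPt → ℤ)) : Set (GolayPt → ℤ)) := by
    ext x
    rw [Finset.mem_coe]
    constructor
    · rintro ⟨h1, h2, h3⟩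
      have h4 : ∀ i, x i % 4 = if i ∈ (∅ : Finset GolayPt) then 2 else 0 := fun i => by rw [if_neg (Finset.notMem_empty i)]; exact h3 i
      have h5 : sqNorm x = ((32 : ℕ) : ℤ) := h2
      exact pat_of_mod (C := ∅) (N := 32) (by norm_num) h4 h5
    · intro h
      have h1 : x ∈ leechLattice := by
        classical
        have h' : x ∈ (pat (two ∅ E2 E0) 32).filter (fun x => x ∈ leechLattice) := by
          rw [leech_FL.NE_empty]; exact h
        exact (Finset.mem_filter.mp h').2
      exact ⟨h1, (mem_pat_two.mp h).2.2, fun i => by have := mod_pat h i; rwa [if_neg (Finset.notMem_empty i)] at this⟩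
  rw [this, Set.ncard_coe_finset, even_card ∅ empty_mem, Finset.card_empty, ec_vals.1]

/-- sum of fourth powers of the coordinates -/
def q4 (x : GolayPt → ℤ) : ℤ := ∑ i, x i ^ 4

theorem q4_vals {x : GolayPt → ℤ} (hx : x ∈ leechLattice) (hn : sqNorm x = 32) : q4 x = if x (pt 0) % 2 = 1 then 104 else if ∀ i, x i % 4 = 0 then 512 else 128 := by
  rcases Int.emod_two_eq_zero_or_one (x (pt 0)) with h0 | h0
  · rw [if_neg (by omega)]
    rcases shape32_even hx hn h0 with ⟨p, q, hpq, a, b, ha, hb, hxx⟩ | ⟨S, hS, h2, h3⟩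
    · rw [if_pos]
      · unfold q4
        rw [← Finset.add_sum_erase univ _ (Finset.mem_univ p), ← Finset.add_sum_erase _ _ (Finset.mem_erase.mpr ⟨hpq.symm, Finset.mem_univ q⟩), Finset.sum_eq_zero]
        · rw [hxx, u44_left hpq, u44_right hpq]
          rcases ha with rfl | rfl <;> rcases hb with rfl | rfl <;> norm_num
        · intro i hi
          rw [Finset.mem_erase, Finset.mem_erase] at hi
          rw [hxx, u44_other hi.2.1 hi.1]; norm_num
      · intro i
        rw [hxx]
        unfold u44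
        rw [Pi.add_apply, Pi.single_apply, Pi.single_apply]
        split_ifs <;> omega
    · rw [if_neg]
      · unfold q4
        rw [← Finset.sum_subset (Finset.subset_univ S) (fun i _ hi => by rw [h3 i hi]; norm_num), Finset.sum_congr rfl (g := fun _ => 16), Finset.sum_const, octad_card hS]
        · norm_num
        · intro i hi
          rcases h2 i hi with h | h <;> rw [h] <;> norm_num
      · intro h
        obtain ⟨i, hi⟩ := Finset.card_pos.mp (by rw [octad_card hS]; norm_num : 0 < S.card)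
        have := h i
        rcases h2 i hi with h' | h' <;> omega
  · rw [if_pos h0]
    obtain ⟨C, hC, h1, p, hp, hi⟩ := shape32_odd hx hn h0
    unfold q4
    rw [← Finset.add_sum_erase univ _ (Finset.mem_univ p), Finset.sum_congr rfl (s₁ := univ.erase p) (g := fun _ => 1), Finset.sum_const, Finset.card_erase_of_mem (Finset.mem_univ p), card_univ_G]
    · rcases hp with h | h <;> rw [h] <;> norm_num
    · intro i hi'
      rcases hi i (Finset.ne_of_mem_erase hi') with h | h <;> rw [h] <;> norm_num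

theorem sum_q4 : ∑ w ∈ Fs 32, q4 (w : GolayPt → ℤ) = 23224320 := by
  classical
  have hc := card_Fs (n := 32) (by norm_num) (by norm_num) card32
  have h1 := card_filter_Fs (n := 32) (fun x => x (pt 0) % 2 = 1)
  have h2 := card_filter_Fs (n := 32) (fun x => ∀ i, x i % 4 = 0)
  push_cast at h1 h2
  rw [card_odd32] at h1
  rw [card_44] at h2
  have h3 : ∀ w ∈ Fs 32, q4 (w : GolayPt → ℤ) = 128 + (if (w : GolayPt → ℤ) (pt 0) % 2 = 1 then -24 else 0) + (if ∀ i, (w : GolayPt → ℤ) i % 4 = 0 then 384 else 0) := by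
    intro w hw
    rw [mem_Fs] at hw
    rw [q4_vals w.2 (by exact_mod_cast hw)]
    by_cases a : (w : GolayPt → ℤ) (pt 0) % 2 = 1
    · have b : ¬ ∀ i, (w : GolayPt → ℤ) i % 4 = 0 := fun h => by have := h (pt 0); omega
      rw [if_pos a, if_pos a, if_neg b]; norm_num
    · rw [if_neg a, if_neg a]
      split_ifs <;> norm_num
  rw [Finset.sum_congr rfl h3, Finset.sum_add_distrib, Finset.sum_add_distrib, Finset.sum_const, ← Finset.sum_filter, ← Finset.sum_filter, Finset.sum_const, Finset.sum_const, hc, h1, h2]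
  norm_num

/-! ### moments -/

/-- second moments -/
theorem m2_ne {n : ℕ} {i j : GolayPt} (h : i ≠ j) : ∑ w ∈ Fs n, (w : GolayPt → ℤ) i * (w : GolayPt → ℤ) j = 0 := by
  obtain ⟨c, hc, hi, hj⟩ := sign_one h
  have h1 := sum_sign (n := n) hc (fun x => x i * x j)
  simp only [if_pos hi, if_neg hj] at h1
  rw [Finset.sum_congr rfl (g := fun w : leechLattice => -((w : GolayPt → ℤ) i * (w : GolayPt → ℤ) j)) (fun w _ => by ring), Finset.sum_neg_distrib] at h1
  omega

theorem m_perm1 {n : ℕ} (φ : ℤ → ℤ) (i j : GolayPt) : ∑ w ∈ Fs n, φ ((w : GolayPt → ℤ) i) = ∑ w ∈ Fs n, φ ((w : GolayPt → ℤ) j) := by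
  obtain ⟨σ, hσ, h⟩ := exists_M24_map j i
  have h1 := sum_perm (n := n) hσ (fun x => φ (x j))
  simp only [h] at h1
  exact h1

theorem m_perm2 {n : ℕ} (φ : ℤ → ℤ → ℤ) {i j k l : GolayPt} (hij : i ≠ j) (hkl : k ≠ l) :
    ∑ w ∈ Fs n, φ ((w : GolayPt → ℤ) i) ((w : GolayPt → ℤ) j) = ∑ w ∈ Fs n, φ ((w : GolayPt → ℤ) k) ((w : GolayPt → ℤ) l) := by
  obtain ⟨σ, hσ, h, h'⟩ := exists_M24_two hkl hij
  have h1 := sum_perm (n := n) hσ (fun x => φ (x k) (x l))
  simp only [h, h'] at h1
  exact h1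

theorem m_all {n : ℕ} (φ : ℤ → ℤ) (i : GolayPt) : 24 * ∑ w ∈ Fs n, φ ((w : GolayPt → ℤ) i) = ∑ w ∈ Fs n, ∑ j, φ ((w : GolayPt → ℤ) j) := by
  rw [Finset.sum_comm, Finset.sum_congr rfl (fun j _ => m_perm1 φ j i), Finset.sum_const, card_univ_G]
  norm_num

theorem m2_eq (i : GolayPt) : ∑ w ∈ Fs 32, (w : GolayPt → ℤ) i ^ 2 = 262080 := by
  have h1 := m_all (n := 32) (fun a => a ^ 2) i
  have h2 : ∑ w ∈ Fs 32, ∑ j, (w : GolayPt → ℤ) j ^ 2 = ∑ w ∈ Fs 32, 32 := by
    apply Finset.sum_congr rfl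
    intro w hw
    rw [mem_Fs] at hw
    exact_mod_cast hw
  rw [h2, Finset.sum_const, card_Fs (n := 32) (by norm_num) (by norm_num) card32] at h1
  norm_num at h1
  omega

theorem m4_eq (i : GolayPt) : ∑ w ∈ Fs 32, (w : GolayPt → ℤ) i ^ 4 = 967680 := by
  have h1 := m_all (n := 32) (fun a => a ^ 4) i
  have h2 := sum_q4
  unfold q4 at h2
  rw [h2] at h1
  omega

theorem m22_eq {i j : GolayPt} (hij : i ≠ j) : ∑ w ∈ Fs 32, (w : GolayPt → ℤ) i ^ 2 * (w : GolayPt → ℤ) j ^ 2 = 322560 := by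
  have h1 : ∑ w ∈ Fs 32, (w : GolayPt → ℤ) i ^ 2 * sqNorm (w : GolayPt → ℤ) = 32 * 262080 := by
    rw [← m2_eq i, Finset.mul_sum]
    apply Finset.sum_congr rfl
    intro w hw
    rw [mem_Fs] at hw
    rw [hw]; push_cast; ring
  have h2 : ∑ w ∈ Fs 32, (w : GolayPt → ℤ) i ^ 2 * sqNorm (w : GolayPt → ℤ) = ∑ j, ∑ w ∈ Fs 32, (w : GolayPt → ℤ) i ^ 2 * (w : GolayPt → ℤ) j ^ 2 := by
    rw [Finset.sum_comm]
    apply Finset.sum_congr rfl
    intro w _
    unfold sqNorm
    rw [Finset.mul_sum]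
  rw [h2, ← Finset.add_sum_erase univ _ (Finset.mem_univ i), Finset.sum_congr rfl (g := fun w : leechLattice => (w : GolayPt → ℤ) i ^ 4) (fun w _ => by ring), m4_eq] at h1
  rw [Finset.sum_congr rfl (fun k hk => m_perm2 (fun a b => a ^ 2 * b ^ 2) (Finset.ne_of_mem_erase hk).symm hij), Finset.sum_const,
    Finset.card_erase_of_mem (Finset.mem_univ i), card_univ_G] at h1
  norm_num at h1
  omega

/-- a coordinate occurring once gives zero -/
theorem m4_zero {n : ℕ} {i j k l : GolayPt} (h : i ≠ j) (h' : i ≠ k) (h'' : i ≠ l) :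
    ∑ w ∈ Fs n, (w : GolayPt → ℤ) i * (w : GolayPt → ℤ) j * ((w : GolayPt → ℤ) k * (w : GolayPt → ℤ) l) = 0 := by
  obtain ⟨c, hc, h1⟩ := sign_five (l := [i, j, k, l].dedup) (List.nodup_dedup _) ((List.dedup_sublist _).length_le.trans (by simp)) (fun x => x = i)
  have hi : i ∈ c := (h1 i (by simp)).mpr rfl
  have hj : j ∉ c := fun hh => h.symm ((h1 j (by simp)).mp hh)
  have hk : k ∉ c := fun hh => h'.symm ((h1 k (by simp)).mp hh)
  have hl : l ∉ c := fun hh => h''.symm ((h1 l (by simp)).mp hh)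
  have h2 := sum_sign (n := n) hc (fun x => x i * x j * (x k * x l))
  simp only [if_pos hi, if_neg hj, if_neg hk, if_neg hl] at h2
  rw [Finset.sum_congr rfl (g := fun w : leechLattice => -((w : GolayPt → ℤ) i * (w : GolayPt → ℤ) j * ((w : GolayPt → ℤ) k * (w : GolayPt → ℤ) l))) (fun w _ => by ring),
    Finset.sum_neg_distrib] at h2
  omega

theorem m4_gen (i j k l : GolayPt) : ∑ w ∈ Fs 32, (w : GolayPt → ℤ) i * (w : GolayPt → ℤ) j * ((w : GolayPt → ℤ) k * (w : GolayPt → ℤ) l) =
    322560 * ((if i = j then 1 else 0) * (if k = l then 1 else 0) + (if i = k then 1 else 0) * (if j = l then 1 else 0) + (if i = l then 1 else 0) * (if j = k then 1 else 0)) := by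
  have z := fun (a b c d : GolayPt) (h : a ≠ b) (h' : a ≠ c) (h'' : a ≠ d) => m4_zero (n := 32) h h' h''
  by_cases hij : i = j
  · subst hij
    by_cases hkl : k = l
    · subst hkl
      by_cases hik : i = k
      · subst hik
        rw [Finset.sum_congr rfl (g := fun w : leechLattice => (w : GolayPt → ℤ) i ^ 4) (fun w _ => by ring), m4_eq]
        simp
      · rw [Finset.sum_congr rfl (g := fun w : leechLattice => (w : GolayPt → ℤ) i ^ 2 * (w : GolayPt → ℤ) k ^ 2) (fun w _ => by ring), m22_eq hik]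
        simp [hik]
    · by_cases hik : i = k
      · subst hik
        rw [Finset.sum_congr rfl (g := fun w : leechLattice => (w : GolayPt → ℤ) l * (w : GolayPt → ℤ) i * ((w : GolayPt → ℤ) i * (w : GolayPt → ℤ) i)) (fun w _ => by ring),
          z l i i i (fun h => hkl h.symm) (fun h => hkl h.symm) (fun h => hkl h.symm)]
        simp [hkl]
      · rw [Finset.sum_congr rfl (g := fun w : leechLattice => (w : GolayPt → ℤ) k * (w : GolayPt → ℤ) i * ((w : GolayPt → ℤ) i * (w : GolayPt → ℤ) l)) (fun w _ => by ring),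
          z k i i l (fun h => hik h.symm) (fun h => hik h.symm) hkl]
        simp [hkl, hik]
  · by_cases hik : i = k
    · subst hik
      by_cases hjl : j = l
      · subst hjl
        rw [Finset.sum_congr rfl (g := fun w : leechLattice => (w : GolayPt → ℤ) i ^ 2 * (w : GolayPt → ℤ) j ^ 2) (fun w _ => by ring), m22_eq hij]
        simp [hij]
      · rw [Finset.sum_congr rfl (g := fun w : leechLattice => (w : GolayPt → ℤ) j * (w : GolayPt → ℤ) i * ((w : GolayPt → ℤ) i * (w : GolayPt → ℤ) l)) (fun w _ => by ring),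
          z j i i l (fun h => hij h.symm) (fun h => hij h.symm) hjl]
        have hji : ¬ j = i := fun h => hij h.symm
        simp [hij, hjl, hji]
    · by_cases hil : i = l
      · subst hil
        by_cases hjk : j = k
        · subst hjk
          rw [Finset.sum_congr rfl (g := fun w : leechLattice => (w : GolayPt → ℤ) i ^ 2 * (w : GolayPt → ℤ) j ^ 2) (fun w _ => by ring), m22_eq hij]
          simp [hij]
        · rw [Finset.sum_congr rfl (g := fun w : leechLattice => (w : GolayPt → ℤ) j * (w : GolayPt → ℤ) i * ((w : GolayPt → ℤ) i * (w : GolayPt → ℤ) k)) (fun w _ => by ring),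
            z j i i k (fun h => hij h.symm) (fun h => hij h.symm) hjk]
          simp [hij, hjk, hik]
      · rw [z i j k l hij hik hil]
        simp [hij, hik, hil]

/-- second moment -/
theorem moment2 (v : GolayPt → ℤ) : ∑ w ∈ Fs 32, dotInt v (w : GolayPt → ℤ) ^ 2 = 262080 * sqNorm v := by
  have h1 : ∀ w : leechLattice, dotInt v (w : GolayPt → ℤ) ^ 2 = ∑ i, ∑ j, v i * v j * ((w : GolayPt → ℤ) i * (w : GolayPt → ℤ) j) := by
    intro w
    unfold dotInt
    rw [sq, Finset.sum_mul_sum]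
    apply Finset.sum_congr rfl; intro i _
    apply Finset.sum_congr rfl; intro j _
    ring
  rw [Finset.sum_congr rfl (fun w _ => h1 w), Finset.sum_comm]
  unfold sqNorm
  rw [Finset.mul_sum]
  apply Finset.sum_congr rfl
  intro i _
  rw [Finset.sum_comm, Finset.sum_eq_single i]
  · rw [← Finset.mul_sum, Finset.sum_congr rfl (g := fun w : leechLattice => (w : GolayPt → ℤ) i ^ 2) (fun w _ => by ring), m2_eq]; ring
  · intro j _ hj
    rw [← Finset.mul_sum, m2_ne (fun h => hj h.symm), mul_zero]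
  · intro h; exact absurd (Finset.mem_univ i) h

/-- fourth moment -/
theorem moment4 (v : GolayPt → ℤ) : ∑ w ∈ Fs 32, dotInt v (w : GolayPt → ℤ) ^ 4 = 967680 * sqNorm v ^ 2 := by
  have h1 : ∀ w : leechLattice, dotInt v (w : GolayPt → ℤ) ^ 4 = ∑ i, ∑ j, ∑ k, ∑ l, (v i * v j * (v k * v l)) * ((w : GolayPt → ℤ) i * (w : GolayPt → ℤ) j * ((w : GolayPt → ℤ) k * (w : GolayPt → ℤ) l)) := by
    intro w
    have h2 : dotInt v (w : GolayPt → ℤ) ^ 2 = ∑ i, ∑ j, v i * v j * ((w : GolayPt → ℤ) i * (w : GolayPt → ℤ) j) := by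
      unfold dotInt
      rw [sq, Finset.sum_mul_sum]
      apply Finset.sum_congr rfl; intro i _
      apply Finset.sum_congr rfl; intro j _
      ring
    rw [show dotInt v (w : GolayPt → ℤ) ^ 4 = dotInt v (w : GolayPt → ℤ) ^ 2 * dotInt v (w : GolayPt → ℤ) ^ 2 by ring, h2, Finset.sum_mul]
    apply Finset.sum_congr rfl; intro i _
    rw [Finset.sum_mul]
    apply Finset.sum_congr rfl; intro j _
    rw [Finset.mul_sum]
    apply Finset.sum_congr rfl; intro k _
    rw [Finset.mul_sum]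
    apply Finset.sum_congr rfl; intro l _
    ring
  rw [Finset.sum_congr rfl (fun w _ => h1 w), Finset.sum_comm]
  have h3 : ∀ i ∈ (univ : Finset GolayPt), ∑ w ∈ Fs 32, ∑ j, ∑ k, ∑ l, (v i * v j * (v k * v l)) * ((w : GolayPt → ℤ) i * (w : GolayPt → ℤ) j * ((w : GolayPt → ℤ) k * (w : GolayPt → ℤ) l)) =
      ∑ j, ∑ k, ∑ l, (v i * v j * (v k * v l)) * (322560 * ((if i = j then 1 else 0) * (if k = l then 1 else 0) + (if i = k then 1 else 0) * (if j = l then 1 else 0) + (if i = l then 1 else 0) * (if j = k then 1 else 0))) := by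
    intro i _
    rw [Finset.sum_comm]
    apply Finset.sum_congr rfl; intro j _
    rw [Finset.sum_comm]
    apply Finset.sum_congr rfl; intro k _
    rw [Finset.sum_comm]
    apply Finset.sum_congr rfl; intro l _
    rw [← Finset.mul_sum, m4_gen]
  rw [Finset.sum_congr rfl h3]
  have h4 : ∀ i j k l : GolayPt, (v i * v j * (v k * v l)) * (322560 * ((if i = j then 1 else 0) * (if k = l then 1 else 0) + (if i = k then 1 else 0) * (if j = l then 1 else 0) + (if i = l then 1 else 0) * (if j = k then 1 else 0))) =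
      322560 * ((if i = j then v i * v j else 0) * (if k = l then v k * v l else 0)) + 322560 * ((if i = k then v i * v k else 0) * (if j = l then v j * v l else 0)) +
      322560 * ((if i = l then v i * v l else 0) * (if j = k then v j * v k else 0)) := by
    intro i j k l
    split_ifs <;> ring
  simp only [h4]
  simp only [Finset.sum_add_distrib, ← Finset.mul_sum, Finset.sum_ite_eq, Finset.mem_univ, if_true, ← Finset.sum_mul]
  have h5 : sqNorm v = ∑ i, v i * v i := by
    unfold sqNorm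
    apply Finset.sum_congr rfl; intro i _; ring
  rw [h5]
  ring

end CfsgLib.Leech
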