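import Mathlib
import Cfsg.Agent.Lib.Leech18

/-!
Inner product census for the minimal vectors.
-/

set_option autoImplicit false

namespace CfsgLib.Leech

open CfsgLib.Golay Finset Cfsg
open scoped Pointwise

/-- number of minimal vectors with given inner product with `v` -/
noncomputable def nd (v : GolayPt → ℤ) (d : ℤ) : ℕ := ((Fs 32).filter (fun w : leechLattice => dotInt v (w : GolayPt → ℤ) = d)).card

theorem nd_neg (v : GolayPt → ℤ) (d : ℤ) : nd v (-d) = nd v d := by
  unfold nd
  apply Finset.card_bij (fun w _ => -w)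
  · intro w hw
    rw [Finset.mem_filter, mem_Fs] at hw ⊢
    refine ⟨?_, ?_⟩
    · show sqNorm (-(w : GolayPt → ℤ)) = _
      rw [norm_neg]; exact hw.1
    · show dotInt v (-(w : GolayPt → ℤ)) = d
      rw [dot_neg_right, hw.2, neg_neg]
  · intro a _ b _ h; exact neg_injective h
  · intro w hw
    rw [Finset.mem_filter, mem_Fs] at hw
    refine ⟨-w, ?_, neg_neg w⟩
    rw [Finset.mem_filter, mem_Fs]
    refine ⟨?_, ?_⟩
    · show sqNorm (-(w : GolayPt → ℤ)) = _
      rw [norm_neg]; exact hw.1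
    · show dotInt v (-(w : GolayPt → ℤ)) = -d
      rw [dot_neg_right, hw.2]

theorem nd_smul (g : Co0) (v : leechLattice) (d : ℤ) : nd ((g • v : leechLattice) : GolayPt → ℤ) d = nd v d := by
  unfold nd
  symm
  apply Finset.card_bij (fun w _ => g • w)
  · intro w hw
    rw [Finset.mem_filter, mem_Fs] at hw ⊢
    rw [co_norm, co_dot]; exact hw
  · intro a _ b _ h; exact MulAction.injective g h
  · intro w hw
    rw [Finset.mem_filter, mem_Fs] at hw
    refine ⟨g⁻¹ • w, ?_, smul_inv_smul g w⟩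
    rw [Finset.mem_filter, mem_Fs, co_norm, ← co_dot g, smul_inv_smul]
    exact hw

theorem nd_cast (v : GolayPt → ℤ) (d : ℤ) : ((nd v d : ℕ) : ℤ) = ∑ w ∈ Fs 32, if dotInt v (w : GolayPt → ℤ) = d then (1 : ℤ) else 0 := by
  unfold nd
  rw [Finset.card_filter]
  push_cast
  rfl

theorem ncard_nd (v : GolayPt → ℤ) (d : ℤ) : {w : GolayPt → ℤ | w ∈ leechLattice ∧ sqNorm w = 32 ∧ dotInt v w = d}.ncard = nd v d := by
  have h := card_filter_Fs (n := 32) (fun x => dotInt v x = d)
  unfold nd
  rw [h]; rfl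

theorem ncard_nd' (v : GolayPt → ℤ) (d : ℤ) : {w : leechLattice | sqNorm (w : GolayPt → ℤ) = 32 ∧ dotInt v (w : GolayPt → ℤ) = d}.ncard = nd v d := by
  unfold nd
  rw [← Set.ncard_coe_finset]
  congr 1
  ext w
  rw [Finset.mem_coe, Finset.mem_filter, mem_Fs]
  push_cast
  rfl

theorem nd_self {v : leechLattice} (hv : sqNorm (v : GolayPt → ℤ) = 32) : nd v 32 = 1 := by
  unfold nd
  rw [Finset.card_eq_one]
  refine ⟨v, ?_⟩
  ext w
  rw [Finset.mem_filter, mem_Fs, Finset.mem_singleton]
  constructor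
  · rintro ⟨h1, h2⟩
    have h3 := norm_sub (v : GolayPt → ℤ) w
    by_contra hne
    have h4 : (v - w : leechLattice) ≠ 0 := sub_ne_zero.mpr (fun h => hne h.symm)
    have h5 := min_norm (v - w).2 (fun h => h4 (Subtype.ext h))
    have h6 : sqNorm ((v - w : leechLattice) : GolayPt → ℤ) = sqNorm ((v : GolayPt → ℤ) - (w : GolayPt → ℤ)) := rfl
    push_cast at h1
    omega
  · rintro rfl
    exact ⟨hv, by rw [← sqNorm_eq_dot, hv]⟩

theorem dot_bound {v w : leechLattice} {n : ℤ} (hv : sqNorm (v : GolayPt → ℤ) = n) (hw : sqNorm (w : GolayPt → ℤ) = 32) (hn : 32 ≤ n) :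
    (dotInt (v : GolayPt → ℤ) w = 32 ∧ v = w) ∨ (dotInt (v : GolayPt → ℤ) w = -32 ∧ v = -w) ∨ (2 * dotInt (v : GolayPt → ℤ) w ≤ n ∧ -n ≤ 2 * dotInt (v : GolayPt → ℤ) w) := by
  by_cases h1 : v = w
  · left; exact ⟨by rw [h1, ← sqNorm_eq_dot, hw], h1⟩
  by_cases h2 : v = -w
  · right; left
    refine ⟨?_, h2⟩
    rw [h2]
    show dotInt (-(w : GolayPt → ℤ)) w = -32
    rw [dot_neg_left, ← sqNorm_eq_dot, hw]
  right; right
  have h3 := norm_sub (v : GolayPt → ℤ) w
  have h4 := norm_add (v : GolayPt → ℤ) w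
  have h5 := min_norm (v - w).2 (fun h => h1 (sub_eq_zero.mp (Subtype.ext h)))
  have h6 := min_norm (v + w).2 (fun h => h2 (eq_neg_of_add_eq_zero_left (Subtype.ext h)))
  have h7 : sqNorm ((v - w : leechLattice) : GolayPt → ℤ) = sqNorm ((v : GolayPt → ℤ) - (w : GolayPt → ℤ)) := rfl
  have h8 : sqNorm ((v + w : leechLattice) : GolayPt → ℤ) = sqNorm ((v : GolayPt → ℤ) + (w : GolayPt → ℤ)) := rfl
  omega

theorem census_gen (v : GolayPt → ℤ) (D : ℤ) (hD : ∀ w ∈ Fs 32, dotInt v (w : GolayPt → ℤ) ∈ ({0, 8, -8, 16, -16, D, -D} : Finset ℤ)) (hD2 : 16 < D) (N : ℤ) (hN : sqNorm v = N) :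
    2 * ((nd v D : ℤ) + nd v 16 + nd v 8) + nd v 0 = 196560 ∧ 2 * (D ^ 2 * nd v D + 256 * nd v 16 + 64 * nd v 8) = 262080 * N ∧
      2 * (D ^ 4 * nd v D + 65536 * nd v 16 + 4096 * nd v 8) = 967680 * N ^ 2 := by
  have key : ∀ φ : ℤ → ℤ, φ 0 = 0 → (∀ a, φ (-a) = φ a) → ∑ w ∈ Fs 32, φ (dotInt v (w : GolayPt → ℤ)) = 2 * (φ D * nd v D + φ 16 * nd v 16 + φ 8 * nd v 8) := by
    intro φ h0 hs
    have h1 : ∀ w ∈ Fs 32, φ (dotInt v (w : GolayPt → ℤ)) = φ D * (if dotInt v (w : GolayPt → ℤ) = D then (1 : ℤ) else 0) + φ D * (if dotInt v (w : GolayPt → ℤ) = -D then (1 : ℤ) else 0) +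
        (φ 16 * (if dotInt v (w : GolayPt → ℤ) = 16 then (1 : ℤ) else 0) + φ 16 * (if dotInt v (w : GolayPt → ℤ) = -16 then (1 : ℤ) else 0)) +
        (φ 8 * (if dotInt v (w : GolayPt → ℤ) = 8 then (1 : ℤ) else 0) + φ 8 * (if dotInt v (w : GolayPt → ℤ) = -8 then (1 : ℤ) else 0)) := by
      intro w hw
      have h2 := hD w hw
      simp only [Finset.mem_insert, Finset.mem_singleton] at h2
      generalize dotInt v (w : GolayPt → ℤ) = a at h2
      rcases h2 with rfl | rfl | rfl | rfl | rfl | rfl | rfl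
      · rw [h0, if_neg (by omega), if_neg (by omega), if_neg (by omega), if_neg (by omega), if_neg (by omega), if_neg (by omega)]; ring
      · rw [if_neg (by omega), if_neg (by omega), if_neg (by omega), if_neg (by omega), if_pos rfl, if_neg (by omega)]; ring
      · rw [hs, if_neg (by omega), if_neg (by omega), if_neg (by omega), if_neg (by omega), if_neg (by omega), if_pos rfl]; ring
      · rw [if_neg (by omega), if_neg (by omega), if_pos rfl, if_neg (by omega), if_neg (by omega), if_neg (by omega)]; ring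
      · rw [hs, if_neg (by omega), if_neg (by omega), if_neg (by omega), if_pos rfl, if_neg (by omega), if_neg (by omega)]; ring
      · rw [if_pos rfl, if_neg (by omega), if_neg (by omega), if_neg (by omega), if_neg (by omega), if_neg (by omega)]; ring
      · rw [hs, if_neg (by omega), if_pos rfl, if_neg (by omega), if_neg (by omega), if_neg (by omega), if_neg (by omega)]; ring
    rw [Finset.sum_congr rfl h1]
    simp only [Finset.sum_add_distrib, ← Finset.mul_sum, ← nd_cast]
    rw [nd_neg, nd_neg, nd_neg]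
    ring
  have hc := card_Fs (n := 32) (by norm_num) (by norm_num) card32
  refine ⟨?_, ?_, ?_⟩
  · have h1 := key (fun a => if a = 0 then 0 else 1) (if_pos rfl) (fun a => by simp [neg_eq_zero])
    have h2 : ∑ w ∈ Fs 32, (if dotInt v (w : GolayPt → ℤ) = 0 then (0 : ℤ) else 1) = 196560 - nd v 0 := by
      rw [nd_cast, eq_sub_iff_add_eq, ← Finset.sum_add_distrib, Finset.sum_congr rfl (g := fun _ => 1), Finset.sum_const, hc]
      · norm_num
      · intro w _; split_ifs <;> norm_num
    rw [h2, if_neg (by omega), if_neg (by norm_num), if_neg (by norm_num)] at h1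
    omega
  · have h1 := key (fun a => a ^ 2) (by norm_num) (fun a => by ring)
    rw [moment2, hN] at h1
    rw [h1]; ring
  · have h1 := key (fun a => a ^ 4) (by norm_num) (fun a => by ring)
    rw [moment4, hN] at h1
    rw [h1]; ring

theorem census32 {v : leechLattice} (hv : sqNorm (v : GolayPt → ℤ) = 32) : nd v 16 = 4600 ∧ nd v 8 = 47104 ∧ nd v 0 = 93150 := by
  obtain ⟨h1, h2, h3⟩ := census_gen v 32 (fun w hw => by
    rw [mem_Fs] at hw
    have h8 := dot_dvd v.2 w.2
    simp only [Finset.mem_insert, Finset.mem_singleton]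
    rcases dot_bound hv (by exact_mod_cast hw) (le_refl _) with h | h | h <;> omega) (by norm_num) 32 hv
  rw [nd_self hv] at h1 h2 h3
  push_cast at h1 h2 h3
  omega

/-- number of minimal vectors whose difference with a vector of norm 48 is minimal -/
theorem nd48_24 {u : leechLattice} (hu : sqNorm (u : GolayPt → ℤ) = 48) : nd u 24 = 552 := by
  classical
  have hA : ∀ u' ∈ Fs 48, ((Fs 32).filter (fun v : leechLattice => dotInt (u' : GolayPt → ℤ) v = 24)).card = nd u 24 := by
    intro u' hu'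
    rw [mem_Fs] at hu'
    obtain ⟨g, hg⟩ := trans48 u hu
    obtain ⟨k, hk⟩ := trans48 u' (by exact_mod_cast hu')
    show nd u' 24 = nd u 24
    rw [← nd_smul g u, ← nd_smul k u', hg, hk]
  have hB : ∀ v ∈ Fs 32, ((Fs 48).filter (fun u : leechLattice => dotInt (u : GolayPt → ℤ) v = 24)).card = 47104 := by
    intro v hv
    rw [mem_Fs] at hv
    have hv32 : sqNorm (v : GolayPt → ℤ) = 32 := by exact_mod_cast hv
    rw [← (census32 hv32).2.1, ← nd_neg]
    apply Finset.card_bij (fun u _ => u - v)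
    · intro u hu
      rw [Finset.mem_filter, mem_Fs] at hu ⊢
      have h1 := norm_sub (u : GolayPt → ℤ) v
      have h2 : ((u - v : leechLattice) : GolayPt → ℤ) = (u : GolayPt → ℤ) - v := rfl
      have h3 := dot_sub_left (u : GolayPt → ℤ) v v
      rw [← sqNorm_eq_dot] at h3
      rw [h2, dot_symm]
      push_cast at hu ⊢
      constructor <;> omega
    · intro a _ b _ h; exact sub_left_injective h
    · intro w hw
      rw [Finset.mem_filter, mem_Fs] at hw
      refine ⟨w + v, ?_, add_sub_cancel_right w v⟩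
      rw [Finset.mem_filter, mem_Fs]
      have h1 := norm_add (w : GolayPt → ℤ) v
      have h2 : ((w + v : leechLattice) : GolayPt → ℤ) = (w : GolayPt → ℤ) + v := rfl
      have h3 := dot_add_left (w : GolayPt → ℤ) v v
      rw [← sqNorm_eq_dot] at h3
      rw [h2]
      rw [dot_symm (v : GolayPt → ℤ) (w : GolayPt → ℤ)] at hw
      push_cast at hw ⊢
      constructor <;> omega
  have hdc := Finset.sum_card_bipartiteAbove_eq_sum_card_bipartiteBelow (s := Fs 48) (t := Fs 32) (fun (u v : leechLattice) => dotInt (u : GolayPt → ℤ) v = 24)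
  unfold Finset.bipartiteAbove Finset.bipartiteBelow at hdc
  rw [Finset.sum_congr rfl hA, Finset.sum_congr rfl hB, Finset.sum_const, Finset.sum_const, card_Fs (n := 32) (by norm_num) (by norm_num) card32,
    card_Fs (n := 48) (by norm_num) (by norm_num) card48] at hdc
  simp only [smul_eq_mul] at hdc
  omega

theorem census48 {u : leechLattice} (hu : sqNorm (u : GolayPt → ℤ) = 48) : nd u 24 = 552 ∧ nd u 16 = 11178 ∧ nd u 8 = 48600 ∧ nd u 0 = 75900 := by
  obtain ⟨h1, h2, h3⟩ := census_gen u 24 (fun w hw => by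
    rw [mem_Fs] at hw
    have h8 := dot_dvd u.2 w.2
    simp only [Finset.mem_insert, Finset.mem_singleton]
    rcases dot_bound hu (by exact_mod_cast hw) (by norm_num) with h | h | h
    · exfalso
      rw [h.2] at hu
      push_cast at hw
      omega
    · exfalso
      rw [h.2] at hu
      have : sqNorm ((-w : leechLattice) : GolayPt → ℤ) = sqNorm (w : GolayPt → ℤ) := norm_neg _
      push_cast at hw
      omega
    · omega) (by norm_num) 48 hu
  rw [nd48_24 hu] at h1 h2 h3
  push_cast at h1 h2 h3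
  have := nd48_24 hu
  omega

end CfsgLib.Leech
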