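import Mathlib

/-!
Simplicity from the normalizer of a Sylow subgroup of prime order.
-/

set_option autoImplicit false

namespace CfsgLib.LocSimple

variable {G : Type*} [Group G] [Finite G] {p : ℕ} [hp : Fact p.Prime]

theorem sylow_of_card (h2 : ¬ p ^ 2 ∣ Nat.card G) (P : Subgroup G) (hP : Nat.card P = p) : ∃ S : Sylow p G, (S : Subgroup G) = P := by
  have hpd : p ∣ Nat.card G := by
    have := Subgroup.card_subgroup_dvd_card P
    rwa [hP] at this
  have hf : (Nat.card G).factorization p = 1 := by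
    have h1 : 1 ≤ (Nat.card G).factorization p := (hp.out.dvd_iff_one_le_factorization Nat.card_pos.ne').mp hpd
    have h3 : ¬ 2 ≤ (Nat.card G).factorization p := fun h => h2 ((hp.out.pow_dvd_iff_le_factorization Nat.card_pos.ne').mpr h)
    omega
  exact ⟨Sylow.ofCard P (by rw [hP, hf, pow_one]), rfl⟩

theorem conj_of_card (h2 : ¬ p ^ 2 ∣ Nat.card G) (P Q : Subgroup G) (hP : Nat.card P = p) (hQ : Nat.card Q = p) :
    ∃ g : G, ∀ x, x ∈ P ↔ g * x * g⁻¹ ∈ Q := by
  obtain ⟨S, hS⟩ := sylow_of_card h2 P hP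
  obtain ⟨T, hT⟩ := sylow_of_card h2 Q hQ
  obtain ⟨g, hg⟩ := MulAction.exists_smul_eq G S T
  refine ⟨g, fun x => ?_⟩
  rw [← hS, ← hT, ← hg, Sylow.coe_subgroup_smul, ← MulAut.conj_apply, ← MulAut.smul_def, Subgroup.smul_mem_pointwise_smul_iff]

theorem le_of_dvd (h2 : ¬ p ^ 2 ∣ Nat.card G) (P : Subgroup G) (hP : Nat.card P = p) (N : Subgroup G) (hN : N.Normal) (hd : p ∣ Nat.card N) : P ≤ N := by
  obtain ⟨x, hx⟩ := exists_prime_orderOf_dvd_card' p hd
  have hx' : orderOf (x : G) = p := by rw [Subgroup.orderOf_coe, hx]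
  obtain ⟨g, hg⟩ := conj_of_card h2 P (Subgroup.zpowers (x : G)) hP (by rw [Nat.card_zpowers, hx'])
  intro y hy
  have h1 := (hg y).mp hy
  have h3 : g * y * g⁻¹ ∈ N := (Subgroup.zpowers_le.mpr x.2) h1
  have h4 := hN.conj_mem _ h3 g⁻¹
  rwa [show g⁻¹ * (g * y * g⁻¹) * g⁻¹⁻¹ = y by group] at h4

theorem top_of_le (h2 : ¬ p ^ 2 ∣ Nat.card G) (P : Subgroup G) (hP : Nat.card P = p) (N : Subgroup G) (hN : N.Normal) (hPN : P ≤ N)
    (hnorm : ∀ g : G, (∀ x, x ∈ P ↔ g * x * g⁻¹ ∈ P) → g ∈ N) : N = ⊤ := by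
  obtain ⟨S, hS⟩ := sylow_of_card h2 P hP
  have h1 := Sylow.normalizer_sup_eq_top' S (N := N) (by rw [hS]; exact hPN)
  rw [eq_top_iff, ← h1]
  apply sup_le _ le_rfl
  intro g hg
  apply hnorm
  intro x
  rw [← hS]
  exact Subgroup.mem_normalizer_iff.mp hg x

/-- a Sylow subgroup of a normal subgroup normalized by `P` -/
theorem exists_inv_sylow (h2 : ¬ p ^ 2 ∣ Nat.card G) (P : Subgroup G) (hP : Nat.card P = p) (N : Subgroup G) (hN : N.Normal) (hd : ¬ p ∣ Nat.card N) {r : ℕ} (hr : r.Prime) :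
    ∃ R : Subgroup G, R ≤ N ∧ Nat.card R = r ^ (Nat.card N).factorization r ∧ ∀ g ∈ P, ∀ x, x ∈ R ↔ g * x * g⁻¹ ∈ R := by
  haveI := Fact.mk hr
  let R₀ : Sylow r N := default
  let R₁ : Subgroup G := (R₀ : Subgroup N).map N.subtype
  have hR₁N : R₁ ≤ N := by
    intro x hx
    obtain ⟨y, _, rfl⟩ := Subgroup.mem_map.mp hx
    exact y.2
  have hR₁c : Nat.card R₁ = r ^ (Nat.card N).factorization r := by
    rw [Nat.card_congr ((R₀ : Subgroup N).equivMapOfInjective N.subtype N.subtype_injective).symm.toEquiv]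
    exact Sylow.card_eq_multiplicity R₀
  have hF : Subgroup.normalizer (R₁ : Set G) ⊔ N = ⊤ := Sylow.normalizer_sup_eq_top R₀
  set NR := Subgroup.normalizer (R₁ : Set G) with hNR
  have hpd : p ∣ Nat.card G := by
    have := Subgroup.card_subgroup_dvd_card P
    rwa [hP] at this
  have hq : p ∣ Nat.card (G ⧸ N) := by
    have := Subgroup.card_eq_card_quotient_mul_card_subgroup N
    rw [this] at hpd
    exact (hp.out.dvd_mul.mp hpd).resolve_right hd
  have hsurj : Function.Surjective ((QuotientGroup.mk' N).comp NR.subtype) := by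
    intro q
    obtain ⟨g, rfl⟩ := QuotientGroup.mk'_surjective N q
    have hg : g ∈ NR ⊔ N := by rw [hF]; exact Subgroup.mem_top g
    obtain ⟨a, ha, b, hb, rfl⟩ := Subgroup.mem_sup_of_normal_right.mp hg
    refine ⟨⟨a, ha⟩, ?_⟩
    show QuotientGroup.mk' N a = QuotientGroup.mk' N (a * b)
    rw [map_mul, show QuotientGroup.mk' N b = 1 from (QuotientGroup.eq_one_iff b).mpr hb, mul_one]
  have hpN : p ∣ Nat.card NR := hq.trans (Subgroup.card_dvd_of_surjective _ hsurj)
  obtain ⟨y, hy⟩ := exists_prime_orderOf_dvd_card' p hpN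
  have hy' : orderOf (y : G) = p := by rw [Subgroup.orderOf_coe, hy]
  obtain ⟨g, hg⟩ := conj_of_card h2 P (Subgroup.zpowers (y : G)) hP (by rw [Nat.card_zpowers, hy'])
  refine ⟨R₁.map (MulAut.conj g⁻¹).toMonoidHom, ?_, ?_, ?_⟩
  · intro x hx
    obtain ⟨z, hz, rfl⟩ := Subgroup.mem_map.mp hx
    exact hN.conj_mem z (hR₁N hz) g⁻¹
  · rw [← hR₁c]
    exact Nat.card_congr (R₁.equivMapOfInjective _ (MulAut.conj g⁻¹).injective).symm.toEquiv
  · have hmem : ∀ x, x ∈ R₁.map (MulAut.conj g⁻¹).toMonoidHom ↔ g * x * g⁻¹ ∈ R₁ := by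
      intro x
      constructor
      · intro hx
        obtain ⟨z, hz, rfl⟩ := Subgroup.mem_map.mp hx
        show g * (g⁻¹ * z * g⁻¹⁻¹) * g⁻¹ ∈ R₁
        rwa [show g * (g⁻¹ * z * g⁻¹⁻¹) * g⁻¹ = z by group]
      · intro hx
        refine Subgroup.mem_map.mpr ⟨_, hx, ?_⟩
        show g⁻¹ * (g * x * g⁻¹) * g⁻¹⁻¹ = x
        group
    intro a ha x
    rw [hmem, hmem]
    have h1 : g * a * g⁻¹ ∈ NR := (Subgroup.zpowers_le.mpr y.2) ((hg a).mp ha)
    have h3 := Subgroup.mem_normalizer_iff.mp h1 (g * x * g⁻¹)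
    rw [show g * (a * x * a⁻¹) * g⁻¹ = g * a * g⁻¹ * (g * x * g⁻¹) * (g * a * g⁻¹)⁻¹ by group]
    exact h3

theorem card_mod_fixed (P : Subgroup G) (hP : IsPGroup p P) (R : Subgroup G) (h : ∀ g ∈ P, ∀ x, x ∈ R ↔ g * x * g⁻¹ ∈ R) :
    Nat.card R ≡ Nat.card (R ⊓ Subgroup.centralizer (P : Set G) : Subgroup G) [MOD p] := by
  letI : MulAction P R :=
    { smul := fun g x => ⟨(g : G) * x * (g : G)⁻¹, (h g g.2 x).mp x.2⟩
      one_smul := fun x => Subtype.ext (by show ((1 : P) : G) * x * ((1 : P) : G)⁻¹ = x; simp)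
      mul_smul := fun a b x => Subtype.ext (by
        show ((a * b : P) : G) * x * ((a * b : P) : G)⁻¹ = (a : G) * ((b : G) * x * (b : G)⁻¹) * (a : G)⁻¹
        rw [Subgroup.coe_mul]; group) }
  have hsm : ∀ (g : P) (x : R), ((g • x : R) : G) = (g : G) * x * (g : G)⁻¹ := fun g x => rfl
  have h1 := hP.card_modEq_card_fixedPoints R
  refine h1.trans ?_
  have : Nat.card (MulAction.fixedPoints P R) = Nat.card (R ⊓ Subgroup.centralizer (P : Set G) : Subgroup G) := by
    apply Nat.card_congr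
    exact
      { toFun := fun x => ⟨(x : R), ⟨(x : R).2, Subgroup.mem_centralizer_iff.mpr fun g hg => by
          have := congrArg Subtype.val (x.2 ⟨g, hg⟩)
          rw [hsm] at this
          have h3 : g * ((x : R) : G) * g⁻¹ = (x : R) := this
          rw [mul_inv_eq_iff_eq_mul] at h3
          exact h3⟩⟩
        invFun := fun x => ⟨⟨x, x.2.1⟩, fun g => Subtype.ext (by
          rw [hsm]
          have := Subgroup.mem_centralizer_iff.mp x.2.2 g g.2
          show (g : G) * x * (g : G)⁻¹ = x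
          rw [this, mul_inv_cancel_right])⟩
        left_inv := fun x => rfl
        right_inv := fun x => rfl }
  rw [this]

/-- orders of Sylow subgroups of a normal subgroup without `P`-centralizer -/
theorem sylow_mod (h2 : ¬ p ^ 2 ∣ Nat.card G) (P : Subgroup G) (hP : Nat.card P = p) (N : Subgroup G) (hN : N.Normal) (hd : ¬ p ∣ Nat.card N)
    (hC : N ⊓ Subgroup.centralizer (P : Set G) = ⊥) {r : ℕ} (hr : r.Prime) : r ^ (Nat.card N).factorization r % p = 1 := by
  obtain ⟨R, hRN, hRc, hR⟩ := exists_inv_sylow h2 P hP N hN hd hr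
  have h1 := card_mod_fixed (p := p) P (IsPGroup.of_card (n := 1) (by rw [hP, pow_one])) R hR
  have h3 : R ⊓ Subgroup.centralizer (P : Set G) = ⊥ := by
    rw [eq_bot_iff, ← hC]
    exact inf_le_inf_right _ hRN
  rw [h3, Subgroup.card_bot, hRc] at h1
  have h4 : 1 % p = 1 := Nat.mod_eq_of_lt hp.out.one_lt
  have h5 : r ^ (Nat.card N).factorization r % p = 1 % p := h1
  rw [h5, h4]

theorem nontrivial_of_simple_sub (M : Subgroup G) (hM : IsSimpleGroup M) : Nontrivial G := by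
  haveI := hM.toNontrivial
  obtain ⟨a, b, h⟩ := exists_pair_ne M
  exact ⟨⟨a, b, fun hab => h (Subtype.ext hab)⟩⟩

/-- simplicity criterion -/
theorem simple_of_local (h2 : ¬ p ^ 2 ∣ Nat.card G) (P M : Subgroup G) (hP : Nat.card P = p) (hPM : P ≤ M) (hM : IsSimpleGroup M)
    (hnorm : ∀ g : G, (∀ x, x ∈ P ↔ g * x * g⁻¹ ∈ P) → g ∈ M)
    (hloc : ∀ N : Subgroup G, N.Normal → N ⊓ M = ⊥ → N ⊓ Subgroup.centralizer (P : Set G) = ⊥ → (∀ r : ℕ, r.Prime → r ^ (Nat.card N).factorization r % p = 1) → N = ⊥) : IsSimpleGroup G := by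
  haveI := nontrivial_of_simple_sub M hM
  refine ⟨fun N hN => ?_⟩
  have hcases : N ⊓ M = ⊥ ∨ M ≤ N := by
    haveI : (N.subgroupOf M).Normal := hN.subgroupOf M
    rcases hM.eq_bot_or_eq_top_of_normal (N.subgroupOf M) inferInstance with h | h
    · left
      rw [eq_bot_iff]
      rintro x ⟨hx, hx'⟩
      have : (⟨x, hx'⟩ : M) ∈ N.subgroupOf M := Subgroup.mem_subgroupOf.mpr hx
      rw [h, Subgroup.mem_bot] at this
      exact Subgroup.mem_bot.mpr (congrArg Subtype.val this)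
    · right
      intro x hx
      have : (⟨x, hx⟩ : M) ∈ N.subgroupOf M := by rw [h]; exact Subgroup.mem_top _
      exact Subgroup.mem_subgroupOf.mp this
  rcases hcases with h | h
  · left
    have hd : ¬ p ∣ Nat.card N := by
      intro hd
      have h3 : P ≤ N ⊓ M := le_inf (le_of_dvd h2 P hP N hN hd) hPM
      rw [h, le_bot_iff] at h3
      rw [h3, Subgroup.card_bot] at hP
      exact hp.out.one_lt.ne hP
    have hC : N ⊓ Subgroup.centralizer (P : Set G) = ⊥ := by
      rw [eq_bot_iff, ← h]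
      refine le_inf inf_le_left ?_
      rintro g ⟨-, hg⟩
      apply hnorm
      intro x
      constructor
      · intro hx
        have := Subgroup.mem_centralizer_iff.mp hg x hx
        rwa [← this, mul_inv_cancel_right]
      · intro hx
        have h4 := Subgroup.mem_centralizer_iff.mp hg _ hx
        have h5 : g * x * g⁻¹ = x := by
          have h6 : g * x * g⁻¹ * g = g * (g * x * g⁻¹) := h4
          rw [inv_mul_cancel_right] at h6
          exact (mul_left_cancel h6).symm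
        rwa [h5] at hx
    exact hloc N hN h hC (fun r hr => sylow_mod h2 P hP N hN hd hC hr)
  · right
    exact top_of_le h2 P hP N hN (hPM.trans h) (fun g hg => h (hnorm g hg))

/-- arithmetic part: triviality from the order of the group -/
theorem eq_bot_of_arith (N : Subgroup G) {n : ℕ} (hn : Nat.card G = n) (h : ∀ r : ℕ, r.Prime → r ^ (Nat.card N).factorization r % p = 1)
    (hA : ∀ r ∈ n.primeFactors, ∀ k, 1 ≤ k → k ≤ n.factorization r → r ^ k % p ≠ 1) : N = ⊥ := by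
  rw [← Subgroup.card_eq_one]
  by_contra hne
  obtain ⟨r, hr, hrd⟩ := Nat.exists_prime_and_dvd hne
  have hdvd : Nat.card N ∣ n := hn ▸ Subgroup.card_subgroup_dvd_card N
  have hn0 : n ≠ 0 := hn ▸ Nat.card_pos.ne'
  refine hA r (Nat.mem_primeFactors.mpr ⟨hr, hrd.trans hdvd, hn0⟩) ((Nat.card N).factorization r) ?_ ?_ (h r hr)
  · exact (hr.dvd_iff_one_le_factorization Nat.card_pos.ne').mp hrd
  · exact (Nat.factorization_le_iff_dvd Nat.card_pos.ne' hn0).mpr hdvd r

end CfsgLib.LocSimple
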