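import Mathlib
import Cfsg.Agent.Lib.Leech19
import Cfsg.Agent.Lib.LocSimple

/-!
Point stabilizers: embedding of Mathieu groups, normalizers of Sylow subgroups of order 23 and 11.
-/

set_option autoImplicit false

namespace CfsgLib.Leech

open CfsgLib.Golay Finset Cfsg
open scoped Pointwise

/-- permutations as automorphisms -/
def mo : M24 →* Co0 where
  toFun σ := mono σ.2 empty_mem
  map_one' := co_ext fun v => Subtype.ext (by
    funext i
    rw [mono_apply, if_neg (Finset.notMem_empty i)]; rfl)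
  map_mul' σ τ := co_ext fun v => Subtype.ext (by
    funext i
    rw [mul_smul, mono_apply, if_neg (Finset.notMem_empty i), mono_apply, if_neg (Finset.notMem_empty i), mono_apply, if_neg (Finset.notMem_empty _)]; rfl)

theorem mo_apply (σ : M24) (v : leechLattice) (i : GolayPt) : ((mo σ • v : leechLattice) : GolayPt → ℤ) i = (v : GolayPt → ℤ) ((σ : Equiv.Perm GolayPt).symm i) := by
  show ((mono σ.2 empty_mem • v : leechLattice) : GolayPt → ℤ) i = _
  rw [mono_apply, if_neg (Finset.notMem_empty i)]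

theorem mo_inj : Function.Injective mo := by
  intro σ τ h
  exact Subtype.ext (mono_inj (hσ := σ.2) (hτ := τ.2) (hc := empty_mem) (hd := empty_mem) h).1

theorem mo_e8 (σ : M24) (i : GolayPt) : mo σ • e8 i = e8 ((σ : Equiv.Perm GolayPt) i) := by
  show mono σ.2 empty_mem • e8 i = _
  rw [mono_e8, if_neg (Finset.notMem_empty _)]

/-- the pointwise stabilizer as a subgroup of `M24` -/
def psi (l : List GolayPt) : PS l →* M24 where
  toFun σ := ⟨σ, σ.2.1⟩
  map_one' := rfl
  map_mul' _ _ := rfl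

theorem fixed_const {σ : Equiv.Perm GolayPt} {f : GolayPt → ℤ} (h : ∀ i, f (σ.symm i) = f i) {i j : GolayPt} (hij : σ.SameCycle i j) : f i = f j := by
  have h1 : ∀ i, f (σ i) = f i := fun i => by
    have := h (σ i)
    rw [Equiv.symm_apply_apply] at this
    exact this.symm
  have h2 : ∀ (n : ℕ) i, f ((σ ^ n) i) = f i := by
    intro n
    induction n with
    | zero => intro i; rfl
    | succ n ih => intro i; rw [pow_succ, Equiv.Perm.mul_apply, ih, h1]
  have h3 : ∀ (n : ℤ) i, f ((σ ^ n) i) = f i := by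
    intro n i
    rcases n with n | n
    · exact h2 n i
    · have h4 := h2 (n + 1) ((σ ^ Int.negSucc n) i)
      rw [← Equiv.Perm.mul_apply, zpow_negSucc, mul_inv_cancel, Equiv.Perm.one_apply] at h4
      rw [zpow_negSucc]; exact h4.symm
  obtain ⟨n, hn⟩ := hij
  rw [← hn, h3]

/-- vectors fixed by an element of order 23 -/
theorem fix23 {σ : Equiv.Perm GolayPt} (h0 : σ (pt 0) = pt 0) (ho : orderOf σ = 23) {f : GolayPt → ℤ} (h : ∀ i, f (σ.symm i) = f i) (hn : sqNorm f = 64) :
    ∀ i, i ≠ pt 0 → f i = 0 := by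
  have hc : σ.IsCycle := Equiv.Perm.isCycle_of_prime_order' (by rw [ho]; norm_num) (by rw [ho]; decide)
  have hs : σ.support.card = 23 := by rw [← hc.orderOf, ho]
  have hsup : σ.support = univ.erase (pt 0) := by
    apply Finset.eq_of_subset_of_card_le
    · intro i hi
      rw [Finset.mem_erase]
      refine ⟨?_, Finset.mem_univ i⟩
      rintro rfl
      exact (Equiv.Perm.mem_support.mp hi) h0
    · rw [hs, Finset.card_erase_of_mem (Finset.mem_univ _), card_univ_G]
  have hmove : ∀ i, i ≠ pt 0 → σ i ≠ i := by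
    intro i hi
    have : i ∈ σ.support := by rw [hsup]; exact Finset.mem_erase.mpr ⟨hi, Finset.mem_univ i⟩
    exact Equiv.Perm.mem_support.mp this
  have hconst : ∀ i, i ≠ pt 0 → f i = f (pt 1) := fun i hi => fixed_const h (hc.sameCycle (hmove i hi) (hmove _ pt01.symm))
  rw [norm_split f (pt 0), Finset.sum_congr rfl (fun i hi => by rw [hconst i (Finset.ne_of_mem_erase hi)]), Finset.sum_const, Finset.card_erase_of_mem (Finset.mem_univ _), card_univ_G] at hn
  intro i hi
  rw [hconst i hi]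
  generalize f (pt 1) = b at hn
  generalize f (pt 0) = a at hn
  norm_num at hn
  by_contra hb
  have h1 : b ^ 2 ≤ 2 := by nlinarith [sq_nonneg a]
  have h2 : b = 1 ∨ b = -1 := by
    have h3 : -2 < b := by nlinarith
    have h4 : b < 2 := by nlinarith
    omega
  have h3 : b ^ 2 = 1 := by rcases h2 with rfl | rfl <;> norm_num
  rw [h3] at hn
  have h4 : a ^ 2 = 41 := by linarith
  have h5 : a < 7 := by nlinarith
  have h6 : -7 < a := by nlinarith
  interval_cases a <;> omega

/-- vectors fixed by an element of order 11 -/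
theorem fix11 {σ : Equiv.Perm GolayPt} (hσ : σ ∈ PS [pt 0, pt 1]) (ho : orderOf σ = 11) {f : GolayPt → ℤ} (h : ∀ i, f (σ.symm i) = f i) (hn : sqNorm f = 64)
    (hab : f (pt 0) + f (pt 1) = 8 ∨ f (pt 0) - f (pt 1) = 8) :
    (∀ i, i ≠ pt 0 → i ≠ pt 1 → f i = 0) ∧ (f (pt 0) = 0 ∨ f (pt 1) = 0) := by
  classical
  haveI : Fact (Nat.Prime 11) := ⟨by norm_num⟩
  have h0 : σ (pt 0) = pt 0 := hσ.2 _ (by simp)
  have h1 : σ (pt 1) = pt 1 := hσ.2 _ (by simp)
  have hne : σ ≠ 1 := by rintro rfl; rw [orderOf_one] at ho; norm_num at ho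
  have hp11 : σ ^ 11 ^ 1 = 1 := by rw [pow_one, ← ho]; exact pow_orderOf_eq_one σ
  -- no further fixed points
  have hmove : ∀ i, i ≠ pt 0 → i ≠ pt 1 → σ i ≠ i := by
    intro i hi0 hi1 hfix
    have h2 := Equiv.Perm.card_compl_support_modEq hp11
    have h3 : 3 ≤ σ.supportᶜ.card := by
      have h4 : ({pt 0, pt 1, i} : Finset GolayPt) ⊆ σ.supportᶜ := by
        intro x hx
        rw [Finset.mem_compl, Equiv.Perm.notMem_support]
        simp only [Finset.mem_insert, Finset.mem_singleton] at hx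
        rcases hx with rfl | rfl | rfl <;> assumption
      have h5 := Finset.card_le_card h4
      rwa [Finset.card_insert_of_notMem (by simp [pt01, hi0.symm]), Finset.card_pair hi1.symm] at h5
    rw [show Fintype.card GolayPt = 24 by decide] at h2
    have h4 : 10 ≤ σ.supportᶜ.card := by
      have h5 : σ.supportᶜ.card % 11 = 24 % 11 := h2
      omega
    exact hne (eq_one_of_fix_ten hσ.1 σ.supportᶜ h4 (fun p hp => Equiv.Perm.notMem_support.mp (Finset.mem_compl.mp hp)))
  -- invariant sets have size divisible by 11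
  have hinv : ∀ S : Finset GolayPt, (∀ i ∈ S, i ≠ pt 0 ∧ i ≠ pt 1) → (∀ i, i ∈ S ↔ σ i ∈ S) → 11 ∣ S.card := by
    intro S hS hSσ
    let τ : Equiv.Perm {x // x ∈ S} := σ.subtypePerm (fun x => (hSσ x).symm)
    have hτ : τ ^ 11 ^ 1 = 1 := by
      rw [Equiv.Perm.subtypePerm_pow]
      apply Equiv.ext
      intro x
      apply Subtype.ext
      show (σ ^ 11 ^ 1) x = x
      rw [hp11]; rfl
    have h2 := Equiv.Perm.card_compl_support_modEq hτ
    have h3 : τ.supportᶜ = ∅ := by
      rw [Finset.eq_empty_iff_forall_notMem]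
      intro x hx
      rw [Finset.mem_compl, Equiv.Perm.notMem_support] at hx
      exact hmove x (hS x x.2).1 (hS x x.2).2 (congrArg Subtype.val hx)
    rw [h3, Finset.card_empty, Fintype.card_coe] at h2
    exact (Nat.modEq_zero_iff_dvd.mp h2.symm)
  have hfσ : ∀ i, f (σ i) = f i := fun i => by
    have := h (σ i)
    rw [Equiv.symm_apply_apply] at this
    exact this.symm
  have hmem : ∀ c : ℤ, ∀ i, i ∈ univ.filter (fun i => i ≠ pt 0 ∧ i ≠ pt 1 ∧ f i = c) ↔ σ i ∈ univ.filter (fun i => i ≠ pt 0 ∧ i ≠ pt 1 ∧ f i = c) := by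
    intro c i
    simp only [Finset.mem_filter, Finset.mem_univ, true_and, hfσ]
    have a0 : σ i ≠ pt 0 ↔ i ≠ pt 0 := by
      rw [not_iff_not]
      constructor
      · intro hh; exact σ.injective (hh.trans h0.symm)
      · rintro rfl; exact h0
    have a1 : σ i ≠ pt 1 ↔ i ≠ pt 1 := by
      rw [not_iff_not]
      constructor
      · intro hh; exact σ.injective (hh.trans h1.symm)
      · rintro rfl; exact h1
    rw [a0, a1]
  have hn2 : f (pt 0) ^ 2 + (f (pt 1) ^ 2 + ∑ i ∈ (univ.erase (pt 0)).erase (pt 1), f i ^ 2) = 64 := by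
    rw [← hn, norm_split f (pt 0), ← Finset.add_sum_erase (univ.erase (pt 0)) _ (Finset.mem_erase.mpr ⟨pt01.symm, Finset.mem_univ _⟩)]
  set K := ∑ i ∈ (univ.erase (pt 0)).erase (pt 1), f i ^ 2 with hK
  have hK32 : K ≤ 32 := by
    rcases hab with hab | hab
    · nlinarith [sq_nonneg (f (pt 0) - f (pt 1))]
    · nlinarith [sq_nonneg (f (pt 0) + f (pt 1))]
  -- values
  have hval : ∀ i, i ≠ pt 0 → i ≠ pt 1 → f i ^ 2 ≤ 2 := by
    intro i hi0 hi1
    by_cases hfi : f i = 0
    · rw [hfi]; norm_num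
    have h2 := hinv (univ.filter (fun j => j ≠ pt 0 ∧ j ≠ pt 1 ∧ f j = f i)) (fun j hj => by
      rw [Finset.mem_filter] at hj; exact ⟨hj.2.1, hj.2.2.1⟩) (hmem (f i))
    have h3 : 0 < (univ.filter (fun j => j ≠ pt 0 ∧ j ≠ pt 1 ∧ f j = f i)).card := Finset.card_pos.mpr ⟨i, by simp [hi0, hi1]⟩
    have h4 : 11 ≤ (univ.filter (fun j => j ≠ pt 0 ∧ j ≠ pt 1 ∧ f j = f i)).card := Nat.le_of_dvd h3 h2
    have h5 : ∑ j ∈ univ.filter (fun j => j ≠ pt 0 ∧ j ≠ pt 1 ∧ f j = f i), f j ^ 2 ≤ K := by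
      apply Finset.sum_le_sum_of_subset_of_nonneg
      · intro j hj
        rw [Finset.mem_filter] at hj
        exact Finset.mem_erase.mpr ⟨hj.2.2.1, Finset.mem_erase.mpr ⟨hj.2.1, Finset.mem_univ j⟩⟩
      · intro j _ _; exact sq_nonneg _
    rw [Finset.sum_congr rfl (g := fun _ => f i ^ 2) (fun j hj => by rw [(Finset.mem_filter.mp hj).2.2.2]), Finset.sum_const, nsmul_eq_mul] at h5
    have h6 : (11 : ℤ) ≤ ((univ.filter (fun j => j ≠ pt 0 ∧ j ≠ pt 1 ∧ f j = f i)).card : ℤ) := by exact_mod_cast h4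
    nlinarith [sq_nonneg (f i)]
  have hval' : ∀ i, i ≠ pt 0 → i ≠ pt 1 → f i = 0 ∨ f i = 1 ∨ f i = -1 := by
    intro i hi0 hi1
    have h2 := hval i hi0 hi1
    have h3 : -2 < f i := by nlinarith
    have h4 : f i < 2 := by nlinarith
    omega
  -- K is a multiple of eleven
  have hK11 : ∃ m : ℕ, K = 11 * m := by
    have h2 := hinv (univ.filter (fun j => j ≠ pt 0 ∧ j ≠ pt 1 ∧ f j = 1)) (fun j hj => by rw [Finset.mem_filter] at hj; exact ⟨hj.2.1, hj.2.2.1⟩) (hmem 1)
    have h3 := hinv (univ.filter (fun j => j ≠ pt 0 ∧ j ≠ pt 1 ∧ f j = -1)) (fun j hj => by rw [Finset.mem_filter] at hj; exact ⟨hj.2.1, hj.2.2.1⟩) (hmem (-1))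
    obtain ⟨m, hm⟩ := h2
    obtain ⟨m', hm'⟩ := h3
    refine ⟨m + m', ?_⟩
    have h4 : ∀ j ∈ (univ.erase (pt 0)).erase (pt 1), f j ^ 2 = (if f j = 1 then 1 else 0) + (if f j = -1 then 1 else 0) := by
      intro j hj
      rw [Finset.mem_erase, Finset.mem_erase] at hj
      rcases hval' j hj.2.1 hj.1 with h | h | h <;> rw [h] <;> norm_num
    rw [hK, Finset.sum_congr rfl h4, Finset.sum_add_distrib, Finset.sum_boole, Finset.sum_boole]
    have e : ∀ c : ℤ, ((univ.erase (pt 0)).erase (pt 1)).filter (fun j => f j = c) = univ.filter (fun j => j ≠ pt 0 ∧ j ≠ pt 1 ∧ f j = c) := by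
      intro c
      ext j
      simp only [Finset.mem_filter, Finset.mem_erase, Finset.mem_univ, and_true, true_and]
      tauto
    rw [e, e, hm, hm']
    push_cast; ring
  obtain ⟨m, hm⟩ := hK11
  have hm2 : m = 0 := by
    by_contra hm0
    have hm3 : m = 1 ∨ m = 2 := by
      have : (11 : ℤ) * m ≤ 32 := hm ▸ hK32
      omega
    generalize f (pt 0) = a at hn2 hab
    generalize f (pt 1) = b at hn2 hab
    rw [hm] at hn2
    rcases hab with hab | hab
    · have hb : b = 8 - a := by omega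
      subst hb
      rcases hm3 with rfl | rfl
      · have : (2 * a - 8) ^ 2 = 42 := by push_cast at hn2; nlinarith
        have h5 : 2 * a - 8 < 7 := by nlinarith
        have h6 : -7 < 2 * a - 8 := by nlinarith
        have h7 : a = 1 ∨ a = 2 ∨ a = 3 ∨ a = 4 ∨ a = 5 ∨ a = 6 ∨ a = 7 := by omega
        rcases h7 with rfl | rfl | rfl | rfl | rfl | rfl | rfl <;> norm_num at this
      · have : (2 * a - 8) ^ 2 = 20 := by push_cast at hn2; nlinarith
        have h5 : 2 * a - 8 < 7 := by nlinarith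
        have h6 : -7 < 2 * a - 8 := by nlinarith
        have h7 : a = 1 ∨ a = 2 ∨ a = 3 ∨ a = 4 ∨ a = 5 ∨ a = 6 ∨ a = 7 := by omega
        rcases h7 with rfl | rfl | rfl | rfl | rfl | rfl | rfl <;> norm_num at this
    · have hb : b = a - 8 := by omega
      subst hb
      rcases hm3 with rfl | rfl
      · have : (2 * a - 8) ^ 2 = 42 := by push_cast at hn2; nlinarith
        have h5 : 2 * a - 8 < 7 := by nlinarith
        have h6 : -7 < 2 * a - 8 := by nlinarith
        have h7 : a = 1 ∨ a = 2 ∨ a = 3 ∨ a = 4 ∨ a = 5 ∨ a = 6 ∨ a = 7 := by omega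
        rcases h7 with rfl | rfl | rfl | rfl | rfl | rfl | rfl <;> norm_num at this
      · have : (2 * a - 8) ^ 2 = 20 := by push_cast at hn2; nlinarith
        have h5 : 2 * a - 8 < 7 := by nlinarith
        have h6 : -7 < 2 * a - 8 := by nlinarith
        have h7 : a = 1 ∨ a = 2 ∨ a = 3 ∨ a = 4 ∨ a = 5 ∨ a = 6 ∨ a = 7 := by omega
        rcases h7 with rfl | rfl | rfl | rfl | rfl | rfl | rfl <;> norm_num at this
  rw [hm2] at hm
  constructor
  · intro i hi0 hi1
    have h2 := all_zero (s := (univ.erase (pt 0)).erase (pt 1)) (t := fun i => f i ^ 2) (fun i _ => sq_nonneg _) (by rw [← hK, hm]; norm_num) i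
      (Finset.mem_erase.mpr ⟨hi1, Finset.mem_erase.mpr ⟨hi0, Finset.mem_univ i⟩⟩)
    exact pow_eq_zero_iff (n := 2) (by norm_num) |>.mp h2
  · rw [hm] at hn2
    have h3 : f (pt 0) * f (pt 1) = 0 := by
      push_cast at hn2
      rcases hab with hab | hab
      · have hb : f (pt 1) = 8 - f (pt 0) := by omega
        rw [hb] at hn2 ⊢; nlinarith
      · have hb : f (pt 1) = f (pt 0) - 8 := by omega
        rw [hb] at hn2 ⊢; nlinarith
    exact mul_eq_zero.mp h3

end CfsgLib.Leech
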