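import Mathlib
import Cfsg.Agent.Lib.Leech20

/-!
The groups Co3 and HS: order and simplicity.
-/

set_option autoImplicit false

namespace CfsgLib.Leech

open CfsgLib.Golay Finset Cfsg CfsgLib.LocSimple
open scoped Pointwise

theorem arith_helper {n p : ℕ} (L : List (ℕ × ℕ)) (hn : n = (L.map (fun x => x.1 ^ x.2)).prod) (hL : ∀ x ∈ L, x.1.Prime)
    (hc : ∀ x ∈ L, ¬ x.1 ^ (x.2 + 1) ∣ n ∧ ∀ k < x.2, x.1 ^ (k + 1) % p ≠ 1) : ∀ r k : ℕ, r.Prime → 1 ≤ k → r ^ k ∣ n → r ^ k % p ≠ 1 := by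
  intro r k hr hk hd
  have h1 : r ∣ (L.map (fun x => x.1 ^ x.2)).prod := by rw [← hn]; exact (dvd_pow_self r (by omega)).trans hd
  obtain ⟨y, hy, hry⟩ := (Nat.Prime.prime hr).dvd_prod_iff.mp h1
  obtain ⟨x, hx, rfl⟩ := List.mem_map.mp hy
  have h2 : r = x.1 := (Nat.prime_dvd_prime_iff_eq hr (hL x hx)).mp (hr.dvd_of_dvd_pow hry)
  subst h2
  obtain ⟨h3, h4⟩ := hc x hx
  have h5 : k ≤ x.2 := by
    by_contra h
    exact h3 ((pow_dvd_pow _ (by omega)).trans hd)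
  have h6 := h4 (k - 1) (by omega)
  rwa [Nat.sub_add_cancel hk] at h6

theorem eq_bot_of_arith' {G : Type*} [Group G] [Finite G] {p : ℕ} (N : Subgroup G) {n : ℕ} (hn : Nat.card G = n) (h : ∀ r : ℕ, r.Prime → r ^ (Nat.card N).factorization r % p = 1)
    (hA : ∀ r k : ℕ, r.Prime → 1 ≤ k → r ^ k ∣ n → r ^ k % p ≠ 1) : N = ⊥ := by
  rw [← Subgroup.card_eq_one]
  by_contra hne
  obtain ⟨r, hr, hrd⟩ := Nat.exists_prime_and_dvd hne
  have hdvd : Nat.card N ∣ n := hn ▸ Subgroup.card_subgroup_dvd_card N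
  refine hA r ((Nat.card N).factorization r) hr ((hr.dvd_iff_one_le_factorization Nat.card_pos.ne').mp hrd) ((Nat.ordProj_dvd _ _).trans hdvd) (h r hr)

/-- stabilizers containing a simple Mathieu group -/
theorem simple_stab [Finite Co0] (H : Subgroup Co0) (l : List GolayPt) (hM : ∀ σ : PS l, mo (psi l σ) ∈ H) {p : ℕ} [hp : Fact p.Prime] (h2 : ¬ p ^ 2 ∣ Nat.card H)
    (σ : PS l) (hσ : orderOf σ = p) (hsimple : IsSimpleGroup (PS l))
    (hnorm : ∀ g ∈ H, (∀ v : leechLattice, mo (psi l σ) • v = v → mo (psi l σ) • (g • v) = g • v) → ∃ τ : PS l, g = mo (psi l τ))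
    (hloc : ∀ (N M P : Subgroup H), N.Normal → (∀ x : H, x ∈ M ↔ ∃ τ : PS l, (x : Co0) = mo (psi l τ)) → Nat.card P = p → P ≤ M → IsSimpleGroup M → N ⊓ M = ⊥ →
      N ⊓ Subgroup.centralizer (P : Set H) = ⊥ → (∀ r : ℕ, r.Prime → r ^ (Nat.card N).factorization r % p = 1) → N = ⊥) : IsSimpleGroup H := by
  let f : PS l →* H := (mo.comp (psi l)).codRestrict H hM
  have hf : ∀ τ, ((f τ : H) : Co0) = mo (psi l τ) := fun τ => rfl
  have hfi : Function.Injective f := by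
    intro a b hab
    have h3 : mo (psi l a) = mo (psi l b) := congrArg Subtype.val hab
    have h4 := mo_inj h3
    exact Subtype.ext (congrArg (fun x : M24 => (x : Equiv.Perm GolayPt)) h4)
  have hMs : IsSimpleGroup f.range := isSimple_of_equiv (MonoidHom.ofInjective hfi).symm hsimple
  have hmemM : ∀ x : H, x ∈ f.range ↔ ∃ τ : PS l, (x : Co0) = mo (psi l τ) := by
    intro x
    constructor
    · rintro ⟨τ, rfl⟩; exact ⟨τ, rfl⟩
    · rintro ⟨τ, h⟩; exact ⟨τ, Subtype.ext h.symm⟩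
  have hPc : Nat.card (Subgroup.zpowers (f σ)) = p := by
    rw [Nat.card_zpowers, orderOf_injective f hfi, hσ]
  have hPM : Subgroup.zpowers (f σ) ≤ f.range := Subgroup.zpowers_le.mpr ⟨σ, rfl⟩
  apply simple_of_local h2 (Subgroup.zpowers (f σ)) f.range hPc hPM hMs
  · intro g hg
    rw [hmemM]
    apply hnorm g g.2
    intro v hv
    have h3 : g⁻¹ * f σ * g ∈ Subgroup.zpowers (f σ) := by
      rw [hg]
      rw [show g * (g⁻¹ * f σ * g) * g⁻¹ = f σ by group]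
      exact Subgroup.mem_zpowers _
    obtain ⟨n, hn⟩ := Subgroup.mem_zpowers_iff.mp h3
    have h4 : ∀ n : ℤ, (mo (psi l σ)) ^ n • v = v := by
      intro n
      exact MulAction.mem_stabilizer_iff.mp (Subgroup.zpow_mem (MulAction.stabilizer Co0 v) (MulAction.mem_stabilizer_iff.mpr hv) n)
    have h5 : (g : Co0)⁻¹ * mo (psi l σ) * g = (mo (psi l σ)) ^ n := by
      have := congrArg Subtype.val hn
      rw [← hf, ← Subgroup.coe_zpow]
      exact this.symm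
    have h6 : mo (psi l σ) * (g : Co0) = g * (mo (psi l σ)) ^ n := by rw [← h5]; group
    rw [← mul_smul, h6, mul_smul, h4]
  · intro N hN h3 h4 h5
    exact hloc N f.range (Subgroup.zpowers (f σ)) hN hmemM hPc hPM hMs h3 h4 h5

instance finite_Co0 : Finite Co0 := Nat.finite_of_card_ne_zero (by rw [card_Co0]; norm_num)

theorem fix_form {g : Co0} (h0 : g • e8 (pt 0) = e8 (pt 0)) {u : leechLattice} {a : ℤ} (hu : (u : GolayPt → ℤ) = uo (pt 0) a) (hgu : g • u = u) : ∃ σ : M24, (σ : Equiv.Perm GolayPt) (pt 0) = pt 0 ∧ g = mo σ := by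
  obtain ⟨σ, hσ, c, hc, rfl⟩ := mono_of_std g (std_of_one (Or.inl h0))
  rw [mono_e8] at h0
  have h1 := congrArg Subtype.val h0
  have h2 : σ (pt 0) = pt 0 ∧ σ (pt 0) ∉ c := by
    by_cases ha : σ (pt 0) ∈ c
    · rw [if_pos ha] at h1
      have h3 : -(Pi.single (σ (pt 0)) 8 : GolayPt → ℤ) (pt 0) = (Pi.single (pt 0) 8 : GolayPt → ℤ) (pt 0) := congrFun h1 (pt 0)
      rw [Pi.single_eq_same, Pi.single_apply] at h3
      split_ifs at h3 <;> omega
    · rw [if_neg ha] at h1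
      have h3 : (Pi.single (σ (pt 0)) 8 : GolayPt → ℤ) (pt 0) = (Pi.single (pt 0) 8 : GolayPt → ℤ) (pt 0) := congrFun h1 (pt 0)
      rw [Pi.single_eq_same, Pi.single_apply] at h3
      by_cases h4 : pt 0 = σ (pt 0)
      · exact ⟨h4.symm, ha⟩
      · rw [if_neg h4] at h3; omega
  have h3 : c = ∅ := by
    rw [Finset.eq_empty_iff_forall_notMem]
    intro i hi
    have hi0 : i ≠ pt 0 := by
      rintro rfl
      exact h2.2 (by rw [h2.1]; exact hi)
    have h4 := congrFun (congrArg Subtype.val hgu) i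
    have h5 : σ.symm i ≠ pt 0 := by
      intro h
      rw [Equiv.symm_apply_eq, h2.1] at h
      exact hi0 h
    rw [mono_apply, if_pos hi, hu, uo_ne a h5, uo_ne a hi0] at h4
    norm_num at h4
  subst h3
  exact ⟨⟨σ, hσ⟩, h2.1, rfl⟩

theorem mo_uo {σ : M24} (h : (σ : Equiv.Perm GolayPt) (pt 0) = pt 0) {u : leechLattice} {a : ℤ} (hu : (u : GolayPt → ℤ) = uo (pt 0) a) : mo σ • u = u := by
  apply Subtype.ext
  show spE σ ∅ (u : GolayPt → ℤ) = u
  rw [hu, spE_uo _ _ h]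

theorem mo_u44 {σ : M24} (h : (σ : Equiv.Perm GolayPt) (pt 0) = pt 0) (h' : (σ : Equiv.Perm GolayPt) (pt 1) = pt 1) {u : leechLattice} {a b : ℤ} (hu : (u : GolayPt → ℤ) = u44 (pt 0) (pt 1) a b) : mo σ • u = u := by
  apply Subtype.ext
  show spE σ ∅ (u : GolayPt → ℤ) = u
  rw [hu, spE_u44, h, h', if_neg (Finset.notMem_empty _), if_neg (Finset.notMem_empty _)]

theorem fix_one {σ : M24} (h : (σ : Equiv.Perm GolayPt) (pt 0) = pt 0) {u : leechLattice} {a b : ℤ} (hb : b ≠ 0) (hu : (u : GolayPt → ℤ) = u44 (pt 0) (pt 1) a b) (hm : mo σ • u = u) : (σ : Equiv.Perm GolayPt) (pt 1) = pt 1 := by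
  have h1 : spE σ ∅ (u : GolayPt → ℤ) = u := congrArg Subtype.val hm
  rw [hu, spE_u44, h, if_neg (Finset.notMem_empty _), if_neg (Finset.notMem_empty _)] at h1
  have h2 := congrFun h1 ((σ : Equiv.Perm GolayPt) (pt 1))
  have h3 : (σ : Equiv.Perm GolayPt) (pt 1) ≠ pt 0 := by
    intro h3
    exact pt01 ((σ : Equiv.Perm GolayPt).injective (h.trans h3.symm))
  rw [u44_right h3.symm] at h2
  by_contra hne
  rw [u44_other h3 hne] at h2
  exact hb h2

theorem mem_PS_one {σ : M24} (h : (σ : Equiv.Perm GolayPt) (pt 0) = pt 0) : (σ : Equiv.Perm GolayPt) ∈ PS [pt 0] := ⟨σ.2, fun p hp => by rw [List.mem_singleton] at hp; rw [hp]; exact h⟩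

theorem mem_PS_two {σ : M24} (h : (σ : Equiv.Perm GolayPt) (pt 0) = pt 0) (h' : (σ : Equiv.Perm GolayPt) (pt 1) = pt 1) : (σ : Equiv.Perm GolayPt) ∈ PS [pt 0, pt 1] := ⟨σ.2, fun p hp => by
  simp only [List.mem_cons, List.not_mem_nil, or_false] at hp
  rcases hp with rfl | rfl <;> assumption⟩

theorem e8_of_supp {f : leechLattice} (h1 : ∀ i, i ≠ pt 0 → (f : GolayPt → ℤ) i = 0) (h2 : (f : GolayPt → ℤ) (pt 0) = 8) : f = e8 (pt 0) := by
  apply Subtype.ext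
  funext i
  rw [coe_e8]
  by_cases hi : i = pt 0
  · subst hi; rw [Pi.single_eq_same, h2]
  · rw [Pi.single_eq_of_ne hi, h1 i hi]

theorem dot_supp {f x : GolayPt → ℤ} (h1 : ∀ i, i ≠ pt 0 → f i = 0) : dotInt f x = f (pt 0) * x (pt 0) := by
  unfold dotInt
  rw [Finset.sum_eq_single (pt 0)]
  · intro i _ hi; rw [h1 i hi, zero_mul]
  · intro h; exact absurd (Finset.mem_univ _) h

theorem exists_order (l : List GolayPt) {p : ℕ} [Fact p.Prime] (h : p ∣ Nat.card (PS l)) : ∃ σ : PS l, orderOf σ = p := exists_prime_orderOf_dvd_card' p h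

/-- the normalizer of a Sylow 23-subgroup in the stabilizer of `(a, 1, …, 1)` -/
theorem norm23 {u : leechLattice} {a : ℤ} (ha : a ≠ 0) (hu : (u : GolayPt → ℤ) = uo (pt 0) a) {σ : PS [pt 0]} (hσ : orderOf σ = 23) {g : Co0} (hgu : g • u = u)
    (hg : ∀ v : leechLattice, mo (psi _ σ) • v = v → mo (psi _ σ) • (g • v) = g • v) : ∃ τ : PS [pt 0], g = mo (psi _ τ) := by
  have h0 : (σ : Equiv.Perm GolayPt) (pt 0) = pt 0 := σ.2.2 _ (by simp)
  have h1 := hg (e8 (pt 0)) (by rw [mo_e8]; exact congrArg e8 h0)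
  have h2 := fix23 (σ := (σ : Equiv.Perm GolayPt)) h0 (by rw [← hσ]; exact Subgroup.orderOf_coe σ) (f := ((g • e8 (pt 0) : leechLattice) : GolayPt → ℤ)) (fun i => by
    have := congrFun (congrArg Subtype.val h1) i
    rw [mo_apply] at this
    exact this) (by rw [co_norm, norm_e8])
  have h3 := co_dot g (e8 (pt 0)) u
  rw [hgu, dot_supp h2, dot_symm, dot_e8, hu, uo_same] at h3
  have h4 : ((g • e8 (pt 0) : leechLattice) : GolayPt → ℤ) (pt 0) = 8 := mul_right_cancel₀ ha (by rw [h3]; ring)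
  obtain ⟨τ, hτ, rfl⟩ := fix_form (e8_of_supp h2 h4) hu hgu
  exact ⟨⟨τ, mem_PS_one hτ⟩, rfl⟩

/-- the normalizer of a Sylow 11-subgroup in the stabilizer of a triangle -/
theorem norm11 {u w : leechLattice} {a b c : ℤ} (hc : (c = 4 ∧ b = 4 ∧ a = -3) ∨ (c = -4 ∧ b = 4 ∧ a = 5)) (hu : (u : GolayPt → ℤ) = uo (pt 0) a) (hw : (w : GolayPt → ℤ) = u44 (pt 0) (pt 1) c b)
    {σ : PS [pt 0, pt 1]} (hσ : orderOf σ = 11) {g : Co0} (hgu : g • u = u) (hgw : g • w = w)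
    (hg : ∀ v : leechLattice, mo (psi _ σ) • v = v → mo (psi _ σ) • (g • v) = g • v) : ∃ τ : PS [pt 0, pt 1], g = mo (psi _ τ) := by
  have h0 : (σ : Equiv.Perm GolayPt) (pt 0) = pt 0 := σ.2.2 _ (by simp)
  have h1 := hg (e8 (pt 0)) (by rw [mo_e8]; exact congrArg e8 h0)
  have d1 := co_dot g (e8 (pt 0)) u
  have d2 := co_dot g (e8 (pt 0)) w
  rw [hgu, dot_symm _ (u : GolayPt → ℤ), dot_symm _ (u : GolayPt → ℤ), dot_e8, hu, uo_same] at d1
  rw [hgw, dot_symm ((e8 (pt 0) : leechLattice) : GolayPt → ℤ), dot_e8, hw, dot_u44, u44_left pt01] at d2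
  have h2 := fix11 (σ := (σ : Equiv.Perm GolayPt)) σ.2 (by rw [← hσ]; exact Subgroup.orderOf_coe σ) (f := ((g • e8 (pt 0) : leechLattice) : GolayPt → ℤ)) (fun i => by
    have := congrFun (congrArg Subtype.val h1) i
    rw [mo_apply] at this
    exact this) (by rw [co_norm, norm_e8]) (by
    rcases hc with ⟨rfl, rfl, rfl⟩ | ⟨rfl, rfl, rfl⟩ <;> omega)
  have h3 : dotInt (uo (pt 0) a) ((g • e8 (pt 0) : leechLattice) : GolayPt → ℤ) = a * ((g • e8 (pt 0) : leechLattice) : GolayPt → ℤ) (pt 0) + ((g • e8 (pt 0) : leechLattice) : GolayPt → ℤ) (pt 1) := by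
    unfold dotInt
    rw [← Finset.add_sum_erase univ _ (Finset.mem_univ (pt 0)), ← Finset.add_sum_erase (univ.erase (pt 0)) _ (Finset.mem_erase.mpr ⟨pt01.symm, Finset.mem_univ (pt 1)⟩), Finset.sum_eq_zero]
    · rw [uo_same, uo_ne a pt01.symm]; ring
    · intro i hi
      rw [Finset.mem_erase, Finset.mem_erase] at hi
      rw [h2.1 i hi.2.1 hi.1, mul_zero]
  rw [h3] at d1
  have h4 : ((g • e8 (pt 0) : leechLattice) : GolayPt → ℤ) (pt 1) = 0 ∧ ((g • e8 (pt 0) : leechLattice) : GolayPt → ℤ) (pt 0) = 8 := by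
    rcases h2.2 with h5 | h5
    · rw [h5] at d1 d2
      rcases hc with ⟨rfl, rfl, rfl⟩ | ⟨rfl, rfl, rfl⟩ <;> omega
    · rw [h5] at d1 d2
      rcases hc with ⟨rfl, rfl, rfl⟩ | ⟨rfl, rfl, rfl⟩ <;> omega
  obtain ⟨τ, hτ, rfl⟩ := fix_form (e8_of_supp (fun i hi => by
    by_cases hi1 : i = pt 1
    · rw [hi1]; exact h4.1
    · exact h2.1 i hi hi1) h4.2) hu hgu
  exact ⟨⟨τ, mem_PS_two hτ (fix_one hτ (by rcases hc with ⟨rfl, rfl, rfl⟩ | ⟨rfl, rfl, rfl⟩ <;> norm_num) hw hgw)⟩, rfl⟩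

end CfsgLib.Leech
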