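import Mathlib
import Cfsg.Agent.Lib.Leech21
import Cfsg.Agent.Lib.Leech19

/-!
Orders of stabilizers in Co0; the groups Co3 and HS.
-/

set_option autoImplicit false

namespace CfsgLib.Leech

open CfsgLib.Golay Finset Cfsg CfsgLib.LocSimple
open scoped Pointwise

theorem card_stab_mul {G X : Type*} [Group G] [MulAction G X] (H K : Subgroup G) (w : X) (S : Set X) (hK : ∀ g, g ∈ K ↔ g ∈ H ∧ g • w = w)
    (hS : ∀ x, x ∈ S ↔ ∃ g ∈ H, g • w = x) : Nat.card K * S.ncard = Nat.card H := by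
  have h1 := Nat.card_congr (MulAction.orbitProdStabilizerEquivGroup H w)
  rw [Nat.card_prod] at h1
  have h2 : MulAction.orbit H w = S := by
    ext x
    rw [hS]
    constructor
    · rintro ⟨g, rfl⟩; exact ⟨g, g.2, rfl⟩
    · rintro ⟨g, hg, rfl⟩; exact ⟨⟨g, hg⟩, rfl⟩
  have h3 : Nat.card (MulAction.stabilizer H w) = Nat.card K := by
    apply Nat.card_congr
    exact
      { toFun := fun g => ⟨(g : H), (hK _).mpr ⟨(g : H).2, g.2⟩⟩
        invFun := fun g => ⟨⟨g, ((hK _).mp g.2).1⟩, ((hK _).mp g.2).2⟩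
        left_inv := fun g => rfl
        right_inv := fun g => rfl }
  rw [h2, h3, Nat.card_coe_set_eq] at h1
  rw [mul_comm, h1]

theorem ncard_sq (N : ℤ) : {x : leechLattice | sqNorm (x : GolayPt → ℤ) = N}.ncard = {x : GolayPt → ℤ | x ∈ leechLattice ∧ sqNorm x = N}.ncard := by
  have h : {x : GolayPt → ℤ | x ∈ leechLattice ∧ sqNorm x = N} = Subtype.val '' {x : leechLattice | sqNorm (x : GolayPt → ℤ) = N} := by
    ext x
    constructor
    · rintro ⟨h1, h2⟩; exact ⟨⟨x, h1⟩, h2, rfl⟩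
    · rintro ⟨y, hy, rfl⟩; exact ⟨y.2, hy⟩
  rw [h, Set.ncard_image_of_injective _ Subtype.val_injective]

theorem ncard_sq32 : {x : leechLattice | sqNorm (x : GolayPt → ℤ) = 32}.ncard = 196560 := by
  rw [ncard_sq]
  have := ncard_norm (N := 32) (by norm_num) (by norm_num)
  rw [card32] at this
  exact this

theorem ncard_sq48 : {x : leechLattice | sqNorm (x : GolayPt → ℤ) = 48}.ncard = 16773120 := by
  rw [ncard_sq]
  have := ncard_norm (N := 48) (by norm_num) (by norm_num)
  rw [card48] at this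
  exact this

theorem u5_val : ((u5 : leechLattice) : GolayPt → ℤ) = uo (pt 0) 5 := rfl
theorem u3_val : ((u3 : leechLattice) : GolayPt → ℤ) = uo (pt 0) (-3) := rfl
theorem uD_val : ((uD : leechLattice) : GolayPt → ℤ) = u44 (pt 0) (pt 1) (-4) 4 := rfl

theorem card_stab32 {v : leechLattice} (hv : sqNorm (v : GolayPt → ℤ) = 32) : Nat.card (MulAction.stabilizer Co0 v) = 42305421312000 := by
  have h := card_stab_mul (⊤ : Subgroup Co0) (MulAction.stabilizer Co0 v) v {x : leechLattice | sqNorm (x : GolayPt → ℤ) = 32} (fun g => by simp) (fun x => by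
    constructor
    · intro hx
      obtain ⟨g, hg⟩ := trans32 v hv
      obtain ⟨k, hk⟩ := trans32 x hx
      exact ⟨k⁻¹ * g, Subgroup.mem_top _, by rw [mul_smul, hg, ← hk, inv_smul_smul]⟩
    · rintro ⟨g, -, rfl⟩
      show sqNorm _ = 32
      rw [co_norm, hv])
  rw [Subgroup.card_top, card_Co0, ncard_sq32] at h
  omega

theorem card_stab48 {v : leechLattice} (hv : sqNorm (v : GolayPt → ℤ) = 48) : Nat.card (MulAction.stabilizer Co0 v) = 495766656000 := by
  have h := card_stab_mul (⊤ : Subgroup Co0) (MulAction.stabilizer Co0 v) v {x : leechLattice | sqNorm (x : GolayPt → ℤ) = 48} (fun g => by simp) (fun x => by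
    constructor
    · intro hx
      obtain ⟨g, hg⟩ := trans48 v hv
      obtain ⟨k, hk⟩ := trans48 x hx
      exact ⟨k⁻¹ * g, Subgroup.mem_top _, by rw [mul_smul, hg, ← hk, inv_smul_smul]⟩
    · rintro ⟨g, -, rfl⟩
      show sqNorm _ = 48
      rw [co_norm, hv])
  rw [Subgroup.card_top, card_Co0, ncard_sq48] at h
  omega

/-- McL -/
theorem card_mcl {v w : leechLattice} (hv : sqNorm (v : GolayPt → ℤ) = 32) (hw : sqNorm (w : GolayPt → ℤ) = 32) (hd : dotInt (v : GolayPt → ℤ) w = -8) :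
    Nat.card ↥(MulAction.stabilizer Co0 v ⊓ MulAction.stabilizer Co0 w) = 898128000 := by
  have h := card_stab_mul (MulAction.stabilizer Co0 v) (MulAction.stabilizer Co0 v ⊓ MulAction.stabilizer Co0 w) w {x : leechLattice | sqNorm (x : GolayPt → ℤ) = 32 ∧ dotInt (v : GolayPt → ℤ) (x : GolayPt → ℤ) = -8} (fun g => Iff.rfl) (fun x => by
    constructor
    · rintro ⟨hx, hx'⟩
      obtain ⟨g, hg, hg'⟩ := trans_T2 v w hv hw hd
      obtain ⟨k, hk, hk'⟩ := trans_T2 v x hv hx hx'
      exact ⟨k⁻¹ * g, by rw [MulAction.mem_stabilizer_iff, mul_smul, hg, ← hk, inv_smul_smul], by rw [mul_smul, hg', ← hk', inv_smul_smul]⟩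
    · rintro ⟨g, hg, rfl⟩
      rw [MulAction.mem_stabilizer_iff] at hg
      refine ⟨by rw [co_norm, hw], ?_⟩
      have := co_dot g v w
      rw [hg, hd] at this
      exact this)
  rw [card_stab32 hv, ncard_nd', nd_neg, (census32 hv).2.1] at h
  omega

/-- HS -/
theorem card_hs {x u : leechLattice} (hx : sqNorm (x : GolayPt → ℤ) = 32) (hu : sqNorm (u : GolayPt → ℤ) = 48) (hd : dotInt (x : GolayPt → ℤ) u = -16) :
    Nat.card ↥(MulAction.stabilizer Co0 u ⊓ MulAction.stabilizer Co0 x) = 44352000 := by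
  have h := card_stab_mul (MulAction.stabilizer Co0 u) (MulAction.stabilizer Co0 u ⊓ MulAction.stabilizer Co0 x) x {y : leechLattice | sqNorm (y : GolayPt → ℤ) = 32 ∧ dotInt (u : GolayPt → ℤ) (y : GolayPt → ℤ) = -16} (fun g => Iff.rfl) (fun y => by
    constructor
    · rintro ⟨hy, hy'⟩
      obtain ⟨g, hg, hg'⟩ := trans_T4 x u hx hu hd
      obtain ⟨k, hk, hk'⟩ := trans_T4 y u hy hu (by rw [dot_symm]; exact hy')
      exact ⟨k⁻¹ * g, by rw [MulAction.mem_stabilizer_iff, mul_smul, hg', ← hk', inv_smul_smul], by rw [mul_smul, hg, ← hk, inv_smul_smul]⟩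
    · rintro ⟨g, hg, rfl⟩
      rw [MulAction.mem_stabilizer_iff] at hg
      refine ⟨by rw [co_norm, hx], ?_⟩
      have := co_dot g u x
      rw [hg, dot_symm (u : GolayPt → ℤ) x, hd] at this
      exact this)
  rw [card_stab48 hu, ncard_nd', nd_neg, (census48 hu).2.1] at h
  omega

theorem p23 : Fact (Nat.Prime 23) := ⟨by norm_num⟩
theorem p11 : Fact (Nat.Prime 11) := ⟨by norm_num⟩

theorem simple_co3_std : IsSimpleGroup (MulAction.stabilizer Co0 u5) := by
  haveI := p23
  have hc : Nat.card (MulAction.stabilizer Co0 u5) = 495766656000 := card_stab48 (by rw [u5_val, norm_uo (pt 0)]; norm_num)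
  obtain ⟨σ, hσ⟩ := exists_order [pt 0] (p := 23) (by rw [card_PS_one]; norm_num)
  refine simple_stab (MulAction.stabilizer Co0 u5) [pt 0] (fun τ => MulAction.mem_stabilizer_iff.mpr (mo_uo (τ.2.2 _ (by simp)) u5_val)) (p := 23) (by rw [hc]; norm_num) σ hσ (simple_PS_one _)
    (fun g hg h => norm23 (by norm_num) u5_val hσ (MulAction.mem_stabilizer_iff.mp hg) h) ?_
  intro N M P hN hM hP hPM hMs h1 h2 h3
  refine eq_bot_of_arith' N hc h3 (arith_helper [(2,10),(3,7),(5,3),(7,1),(11,1),(23,1)] (by norm_num) ?_ ?_)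
  · simp only [List.mem_cons, List.not_mem_nil, or_false]
    rintro x (rfl | rfl | rfl | rfl | rfl | rfl) <;> norm_num
  · decide +kernel

theorem simple_hs_std : IsSimpleGroup ↥(MulAction.stabilizer Co0 u5 ⊓ MulAction.stabilizer Co0 uD) := by
  haveI := p11
  have hc : Nat.card ↥(MulAction.stabilizer Co0 u5 ⊓ MulAction.stabilizer Co0 uD) = 44352000 := card_hs (by rw [uD_val, norm_u44 pt01 (Or.inr rfl) (Or.inl rfl)]) (by rw [u5_val, norm_uo (pt 0)]; norm_num) (by
    rw [uD_val, u5_val, dot_symm, dot_u44, uo_same, uo_ne 5 pt01.symm]; norm_num)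
  obtain ⟨σ, hσ⟩ := exists_order [pt 0, pt 1] (p := 11) (by rw [card_PS_two pt01]; norm_num)
  refine simple_stab (MulAction.stabilizer Co0 u5 ⊓ MulAction.stabilizer Co0 uD) [pt 0, pt 1] (fun τ => ⟨MulAction.mem_stabilizer_iff.mpr (mo_uo (τ.2.2 _ (by simp)) u5_val), MulAction.mem_stabilizer_iff.mpr (mo_u44 (τ.2.2 _ (by simp)) (τ.2.2 _ (by simp)) uD_val)⟩) (p := 11) (by rw [hc]; norm_num) σ hσ (simple_PS_two pt01)
    (fun g hg h => norm11 (Or.inr ⟨rfl, rfl, rfl⟩) u5_val uD_val hσ (MulAction.mem_stabilizer_iff.mp hg.1) (MulAction.mem_stabilizer_iff.mp hg.2) h) ?_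
  intro N M P hN hM hP hPM hMs h1 h2 h3
  refine eq_bot_of_arith' N hc h3 (arith_helper [(2,9),(3,2),(5,3),(7,1),(11,1)] (by norm_num) ?_ ?_)
  · simp only [List.mem_cons, List.not_mem_nil, or_false]
    rintro x (rfl | rfl | rfl | rfl | rfl) <;> norm_num
  · decide +kernel

theorem stab_conj {v v' : leechLattice} (g : Co0) (h : g • v = v') : Nonempty (MulAction.stabilizer Co0 v ≃* MulAction.stabilizer Co0 v') := ⟨MulAction.stabilizerEquivStabilizer (g := g) h.symm⟩

theorem stab_conj_pair {v w v' w' : leechLattice} (g : Co0) (h : g • v = v') (h' : g • w = w') :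
    Nonempty (↥(MulAction.stabilizer Co0 v ⊓ MulAction.stabilizer Co0 w) ≃* ↥(MulAction.stabilizer Co0 v' ⊓ MulAction.stabilizer Co0 w')) := by
  have key : ∀ a b : leechLattice, MulAction.stabilizer Co0 a ⊓ MulAction.stabilizer Co0 b = MulAction.stabilizer Co0 ((a, b) : leechLattice × leechLattice) := by
    intro a b
    ext g
    rw [Subgroup.mem_inf, MulAction.mem_stabilizer_iff, MulAction.mem_stabilizer_iff, MulAction.mem_stabilizer_iff, Prod.smul_mk, Prod.mk.injEq]
  rw [key, key]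
  exact ⟨MulAction.stabilizerEquivStabilizer (g := g) (by rw [Prod.smul_mk, h, h'])⟩

end CfsgLib.Leech
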