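import Mathlib
import Cfsg.Agent.Lib.LocSimple

/-!
Further tools to exclude normal subgroups.
-/

set_option autoImplicit false

namespace CfsgLib.LocSimple

variable {G : Type*} [Group G] [Finite G]

/-- a normal `q`-subgroup lies in every subgroup of index prime to `q` -/
theorem normal_le_of_index {q : ℕ} [hq : Fact q.Prime] (N D : Subgroup G) (hN : N.Normal) (hNq : IsPGroup q N) (hD : ¬ q ∣ D.index) : N ≤ D := by
  obtain ⟨x, hx⟩ := hNq.nonempty_fixed_point_of_prime_not_dvd_card (G ⧸ D) hD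
  obtain ⟨g, rfl⟩ := QuotientGroup.mk_surjective x
  intro n hn
  have h1 := hx ⟨g * n * g⁻¹, hN.conj_mem n hn g⟩
  have h2 : ((g * n * g⁻¹ * g : G) : G ⧸ D) = (g : G ⧸ D) := h1
  rw [eq_comm, QuotientGroup.eq] at h2
  rwa [show g⁻¹ * (g * n * g⁻¹ * g) = n by group] at h2

/-- a normal subgroup centralized by an element of a simple subgroup `M` is centralized by `M` -/
theorem eq_bot_of_cent {q : ℕ} [hq : Fact q.Prime] (N M P : Subgroup G) (hN : N.Normal) (hM : IsSimpleGroup M) (hPM : P ≤ M) (h : N ⊓ Subgroup.centralizer (P : Set G) = ⊥)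
    (τ : G) (hτ : τ ∈ M) (hτq : orderOf τ = q) (hd : ∀ d, d ∣ Nat.card N → Nat.card N ≡ d [MOD q] → d = Nat.card N) : N = ⊥ := by
  have h1 := card_mod_fixed (p := q) (Subgroup.zpowers τ) (IsPGroup.of_card (n := 1) (by rw [Nat.card_zpowers, hτq, pow_one])) N (fun g _ x => by
    constructor
    · intro hx; exact hN.conj_mem x hx g
    · intro hx
      have := hN.conj_mem _ hx g⁻¹
      rwa [show g⁻¹ * (g * x * g⁻¹) * g⁻¹⁻¹ = x by group] at this)
  have h2 := hd _ (Subgroup.card_dvd_of_le inf_le_left) h1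
  have h3 : N ⊓ Subgroup.centralizer (Subgroup.zpowers τ : Set G) = N := Subgroup.eq_of_le_of_card_ge inf_le_left h2.ge
  have h4 : N ≤ Subgroup.centralizer (Subgroup.zpowers τ : Set G) := inf_eq_left.mp h3
  have h5 : τ ∈ Subgroup.centralizer (N : Set G) := by
    rw [Subgroup.mem_centralizer_iff]
    intro n hn
    exact (Subgroup.mem_centralizer_iff.mp (h4 hn) τ (Subgroup.mem_zpowers τ)).symm
  haveI hcN : (Subgroup.centralizer (N : Set G)).Normal := by
    refine ⟨fun x hx g => ?_⟩
    rw [Subgroup.mem_centralizer_iff] at hx ⊢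
    intro n hn
    have h6 := hx (g⁻¹ * n * g) (by have := hN.conj_mem n hn g⁻¹; rwa [inv_inv] at this)
    calc n * (g * x * g⁻¹) = g * (g⁻¹ * n * g * x) * g⁻¹ := by group
      _ = g * (x * (g⁻¹ * n * g)) * g⁻¹ := by rw [h6]
      _ = g * x * g⁻¹ * n := by group
  have h6 : M ≤ Subgroup.centralizer (N : Set G) := by
    haveI : ((Subgroup.centralizer (N : Set G)).subgroupOf M).Normal := hcN.subgroupOf M
    rcases hM.eq_bot_or_eq_top_of_normal ((Subgroup.centralizer (N : Set G)).subgroupOf M) inferInstance with h | h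
    · exfalso
      have : (⟨τ, hτ⟩ : M) ∈ (Subgroup.centralizer (N : Set G)).subgroupOf M := Subgroup.mem_subgroupOf.mpr h5
      rw [h, Subgroup.mem_bot] at this
      have h7 : τ = 1 := congrArg Subtype.val this
      rw [h7, orderOf_one] at hτq
      exact hq.out.one_lt.ne hτq
    · intro x hx
      have : (⟨x, hx⟩ : M) ∈ (Subgroup.centralizer (N : Set G)).subgroupOf M := by rw [h]; exact Subgroup.mem_top _
      exact Subgroup.mem_subgroupOf.mp this
  rw [eq_bot_iff, ← h]
  refine le_inf le_rfl ?_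
  intro n hn
  rw [Subgroup.mem_centralizer_iff]
  intro x hx
  exact (Subgroup.mem_centralizer_iff.mp (h6 (hPM hx)) n hn).symm

/-- the order of a normal subgroup is a power of `q` -/
theorem card_prime_pow {m n p q : ℕ} (hm : m ≠ 0) (h : m ∣ n) (hr : ∀ r : ℕ, r.Prime → r ^ m.factorization r % p = 1)
    (hA : ∀ r k : ℕ, r.Prime → r ≠ q → 1 ≤ k → r ^ k ∣ n → r ^ k % p ≠ 1) : m = q ^ m.factorization q ∧ q ^ m.factorization q ∣ n := by
  refine ⟨?_, (Nat.ordProj_dvd _ _).trans h⟩
  have h1 : ∀ r : ℕ, r.Prime → r ∣ m → r = q := by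
    intro r hrp hrm
    by_contra hne
    exact hA r (m.factorization r) hrp hne ((hrp.dvd_iff_one_le_factorization hm).mp hrm) ((Nat.ordProj_dvd _ _).trans h) (hr r hrp)
  have h2 := Nat.eq_prime_pow_of_unique_prime_dvd hm (p := q) (fun {d} hd hdm => h1 d hd hdm)
  by_cases h3 : m = 1
  · subst h3; simp
  · obtain ⟨r, hr1, hr2⟩ := Nat.exists_prime_and_dvd h3
    have hqp : q.Prime := h1 r hr1 hr2 ▸ hr1
    have h4 : m.factorization q = m.primeFactorsList.length := by
      conv_lhs => rw [h2]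
      rw [hqp.factorization_pow, Finsupp.single_eq_same]
    rw [h4]; exact h2

end CfsgLib.LocSimple
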