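import Mathlib
import Cfsg.Agent.Lib.Leech22
import Cfsg.Agent.Lib.LocSimple2

/-!
The groups McL and Co2: simplicity.
-/

set_option autoImplicit false

namespace CfsgLib.Leech

open CfsgLib.Golay Finset Cfsg CfsgLib.LocSimple
open scoped Pointwise

theorem arith_helper' {n p q : ℕ} (L : List (ℕ × ℕ)) (hn : n = (L.map (fun x => x.1 ^ x.2)).prod) (hL : ∀ x ∈ L, x.1.Prime)
    (hc : ∀ x ∈ L, x.1 ≠ q → ¬ x.1 ^ (x.2 + 1) ∣ n ∧ ∀ k < x.2, x.1 ^ (k + 1) % p ≠ 1) : ∀ r k : ℕ, r.Prime → r ≠ q → 1 ≤ k → r ^ k ∣ n → r ^ k % p ≠ 1 := by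
  intro r k hr hrq hk hd
  have h1 : r ∣ (L.map (fun x => x.1 ^ x.2)).prod := by rw [← hn]; exact (dvd_pow_self r (by omega)).trans hd
  obtain ⟨y, hy, hry⟩ := (Nat.Prime.prime hr).dvd_prod_iff.mp h1
  obtain ⟨x, hx, rfl⟩ := List.mem_map.mp hy
  have h2 : r = x.1 := (Nat.prime_dvd_prime_iff_eq hr (hL x hx)).mp (hr.dvd_of_dvd_pow hry)
  subst h2
  obtain ⟨h3, h4⟩ := hc x hx hrq
  have h5 : k ≤ x.2 := by
    by_contra h
    exact h3 ((pow_dvd_pow _ (by omega)).trans hd)
  have h6 := h4 (k - 1) (by omega)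
  rwa [Nat.sub_add_cancel hk] at h6

theorem simple_mcl_std : IsSimpleGroup ↥(MulAction.stabilizer Co0 u3 ⊓ MulAction.stabilizer Co0 uA) := by
  haveI := p11
  have hc : Nat.card ↥(MulAction.stabilizer Co0 u3 ⊓ MulAction.stabilizer Co0 uA) = 898128000 := card_mcl (by rw [u3_val, norm_uo (pt 0)]; norm_num) (by rw [uA_val, norm_u44 pt01 (Or.inl rfl) (Or.inl rfl)]) (by
    rw [uA_val, u3_val, dot_u44, uo_same, uo_ne (-3) pt01.symm]; norm_num)
  obtain ⟨σ, hσ⟩ := exists_order [pt 0, pt 1] (p := 11) (by rw [card_PS_two pt01]; norm_num)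
  have hM : ∀ τ : PS [pt 0, pt 1], mo (psi _ τ) ∈ MulAction.stabilizer Co0 u3 ⊓ MulAction.stabilizer Co0 uA := fun τ => ⟨MulAction.mem_stabilizer_iff.mpr (mo_uo (τ.2.2 _ (by simp)) u3_val), MulAction.mem_stabilizer_iff.mpr (mo_u44 (τ.2.2 _ (by simp)) (τ.2.2 _ (by simp)) uA_val)⟩
  refine simple_stab (MulAction.stabilizer Co0 u3 ⊓ MulAction.stabilizer Co0 uA) [pt 0, pt 1] hM (p := 11) (by rw [hc]; norm_num) σ hσ (simple_PS_two pt01)
    (fun g hg h => norm11 (Or.inl ⟨rfl, rfl, rfl⟩) u3_val uA_val hσ (MulAction.mem_stabilizer_iff.mp hg.1) (MulAction.mem_stabilizer_iff.mp hg.2) h) ?_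
  intro N M P hN hMm hP hPM hMs h1 h2 h3
  obtain ⟨h4, h5⟩ := card_prime_pow (q := 3) Nat.card_pos.ne' (hc ▸ Subgroup.card_subgroup_dvd_card N) h3 (arith_helper' [(2,7),(3,6),(5,3),(7,1),(11,1)] (by norm_num) (by
    simp only [List.mem_cons, List.not_mem_nil, or_false]
    rintro x (rfl | rfl | rfl | rfl | rfl) <;> norm_num) (by decide +kernel))
  have h6 := h3 3 (by norm_num)
  set k := (Nat.card N).factorization 3 with hk
  have h7 : k ≤ 6 := by
    by_contra h
    have : 3 ^ 7 ∣ 898128000 := (pow_dvd_pow 3 (by omega)).trans h5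
    norm_num at this
  have key : ∀ k ≤ 6, 3 ^ k % 11 = 1 → k = 0 ∨ k = 5 := by decide
  have key2 : ∀ j ≤ 5, 3 ^ 5 % 7 = 3 ^ j % 7 → j = 5 := by decide
  have h8 : k = 0 ∨ k = 5 := key k h7 h6
  rcases h8 with h8 | h8
  · rw [h8, pow_zero] at h4
    exact Subgroup.card_eq_one.mp h4
  · rw [h8] at h4
    haveI : Fact (Nat.Prime 7) := ⟨by norm_num⟩
    obtain ⟨τ, hτ⟩ := exists_order [pt 0, pt 1] (p := 7) (by rw [card_PS_two pt01]; norm_num)
    refine eq_bot_of_cent (q := 7) N M P hN hMs hPM h2 ⟨mo (psi _ τ), hM τ⟩ ((hMm _).mpr ⟨τ, rfl⟩) ?_ ?_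
    · rw [← hτ, ← Subgroup.orderOf_coe]
      show orderOf (mo (psi _ τ)) = _
      rw [orderOf_injective mo mo_inj]
      exact orderOf_injective (psi [pt 0, pt 1]) (fun a b h => Subtype.ext (congrArg (fun x : M24 => (x : Equiv.Perm GolayPt)) h)) τ
    · intro d hd hm
      rw [h4] at hd hm ⊢
      obtain ⟨j, hj, rfl⟩ := (Nat.dvd_prime_pow (by norm_num)).mp hd
      rw [key2 j hj hm]

theorem pm_of_pairs {x : Co0} {i : GolayPt} (hi : i ≠ pt 0) (hi' : i ≠ pt 1)
    (h : ∀ w : leechLattice, sqNorm (w : GolayPt → ℤ) = 32 → dotInt (uA : GolayPt → ℤ) (w : GolayPt → ℤ) = 0 → x • w = w ∨ x • w = -w) : x • e8 i = e8 i ∨ x • e8 i = - e8 i := by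
  have key : ∀ j, j ≠ i → j ≠ pt 0 → j ≠ pt 1 → x • e8 i = e8 i ∨ x • e8 i = - e8 i ∨ ∀ l, l ≠ j → ((x • e8 i : leechLattice) : GolayPt → ℤ) l = 0 := by
    intro j hji hj0 hj1
    let w1 : leechLattice := ⟨u44 i j 4 4, u44_mem hji.symm (Or.inl rfl) (Or.inl rfl)⟩
    let w2' : leechLattice := ⟨u44 i j 4 (-4), u44_mem hji.symm (Or.inl rfl) (Or.inr rfl)⟩
    have hs : e8 i = w1 + w2' := by
      apply Subtype.ext
      funext l
      show (Pi.single i 8 : GolayPt → ℤ) l = u44 i j 4 4 l + u44 i j 4 (-4) l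
      by_cases hl : l = i
      · subst hl; rw [Pi.single_eq_same, u44_left hji.symm, u44_left hji.symm]; norm_num
      · rw [Pi.single_eq_of_ne hl]
        by_cases hl' : l = j
        · subst hl'; rw [u44_right hji.symm, u44_right hji.symm]; norm_num
        · rw [u44_other hl hl', u44_other hl hl']; norm_num
    have o1 : dotInt (uA : GolayPt → ℤ) (w1 : GolayPt → ℤ) = 0 := by
      show dotInt _ (u44 i j 4 4) = 0
      rw [dot_u44, uA_val, u44_other hi hi', u44_other hj0 hj1]; norm_num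
    have o2 : dotInt (uA : GolayPt → ℤ) (w2' : GolayPt → ℤ) = 0 := by
      show dotInt _ (u44 i j 4 (-4)) = 0
      rw [dot_u44, uA_val, u44_other hi hi', u44_other hj0 hj1]; norm_num
    have a1 := h w1 (norm_u44 hji.symm (Or.inl rfl) (Or.inl rfl)) o1
    have a2 := h w2' (norm_u44 hji.symm (Or.inl rfl) (Or.inr rfl)) o2
    have hx : x • e8 i = x • w1 + x • w2' := by rw [hs, co_add]
    have hv : ∀ l, l ≠ j → ((w1 - w2' : leechLattice) : GolayPt → ℤ) l = 0 := by
      intro l hl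
      show u44 i j 4 4 l - u44 i j 4 (-4) l = 0
      by_cases hl' : l = i
      · subst hl'; rw [u44_left hji.symm, u44_left hji.symm]; norm_num
      · rw [u44_other hl' hl, u44_other hl' hl]; norm_num
    rcases a1 with a1 | a1 <;> rcases a2 with a2 | a2
    · left; rw [hx, a1, a2, ← hs]
    · right; right
      intro l hl
      rw [hx, a1, a2, ← sub_eq_add_neg]; exact hv l hl
    · right; right
      intro l hl
      rw [hx, a1, a2, show -w1 + w2' = -(w1 - w2') by abel]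
      show -(((w1 - w2' : leechLattice) : GolayPt → ℤ) l) = 0
      rw [hv l hl, neg_zero]
    · right; left; rw [hx, a1, a2, ← neg_add, ← hs]
  obtain ⟨l', hl', hlen, hmem⟩ := exists_app (univ \ {pt 0, pt 1, i}) [pt 0, pt 1, i] (by simp [pt01, hi.symm, hi'.symm]) 2 (by
    rw [Finset.card_sdiff_of_subset (Finset.subset_univ _), card_univ_G, Finset.card_insert_of_notMem (by simp [pt01, hi.symm]), Finset.card_pair hi'.symm]; norm_num) (fun p hp => by
    rw [Finset.mem_sdiff]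
    simp only [List.mem_cons, List.not_mem_nil, or_false] at hp
    simp only [Finset.mem_insert, Finset.mem_singleton, not_and, not_not]
    exact fun _ => hp)
  match l', hlen with
  | [j, k], _ =>
    have hj := hmem j (by simp)
    have hk := hmem k (by simp)
    simp only [Finset.mem_sdiff, Finset.mem_univ, true_and, Finset.mem_insert, Finset.mem_singleton, not_or] at hj hk
    have hjk : j ≠ k := by
      rintro rfl
      simp [List.nodup_append] at hl'
    rcases key j hj.2.2 hj.1 hj.2.1 with h1 | h1 | h1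
    · exact Or.inl h1
    · exact Or.inr h1
    rcases key k hk.2.2 hk.1 hk.2.1 with h2 | h2 | h2
    · exact Or.inl h2
    · exact Or.inr h2
    exfalso
    have h3 : ∀ l, ((x • e8 i : leechLattice) : GolayPt → ℤ) l = 0 := by
      intro l
      by_cases hl : l = j
      · exact h2 l (by rw [hl]; exact hjk)
      · exact h1 l hl
    have h4 := co_norm x (e8 i)
    rw [norm_e8] at h4
    unfold sqNorm at h4
    rw [Finset.sum_eq_zero (fun l _ => by rw [h3 l]; norm_num)] at h4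
    norm_num at h4

end CfsgLib.Leech
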