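import Mathlib
import Cfsg.Agent.Lib.Leech23

/-!
The groups Co2 and Co1: simplicity.
-/

set_option autoImplicit false

namespace CfsgLib.Leech

open CfsgLib.Golay Finset Cfsg CfsgLib.LocSimple
open scoped Pointwise

theorem uB_val : ((uB : leechLattice) : GolayPt → ℤ) = u44 (pt 0) (pt 1) 4 (-4) := rfl
theorem norm_uA : sqNorm ((uA : leechLattice) : GolayPt → ℤ) = 32 := by rw [uA_val, norm_u44 pt01 (Or.inl rfl) (Or.inl rfl)]
theorem norm_uB : sqNorm ((uB : leechLattice) : GolayPt → ℤ) = 32 := by rw [uB_val, norm_u44 pt01 (Or.inl rfl) (Or.inr rfl)]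
theorem dot_uAB : dotInt ((uA : leechLattice) : GolayPt → ℤ) (uB : leechLattice) = 0 := by
  rw [uB_val, dot_u44, uA_val, u44_left pt01, u44_right pt01]; norm_num

theorem uAB_add : uA + uB = e8 (pt 0) := by
  apply Subtype.ext
  funext l
  show u44 (pt 0) (pt 1) 4 4 l + u44 (pt 0) (pt 1) 4 (-4) l = (Pi.single (pt 0) 8 : GolayPt → ℤ) l
  by_cases hl : l = pt 0
  · subst hl; rw [Pi.single_eq_same, u44_left pt01, u44_left pt01]; norm_num
  · rw [Pi.single_eq_of_ne hl]
    by_cases hl' : l = pt 1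
    · subst hl'; rw [u44_right pt01, u44_right pt01]; norm_num
    · rw [u44_other hl hl', u44_other hl hl']; norm_num

theorem uAB_sub : uA - uB = e8 (pt 1) := by
  apply Subtype.ext
  funext l
  show u44 (pt 0) (pt 1) 4 4 l - u44 (pt 0) (pt 1) 4 (-4) l = (Pi.single (pt 1) 8 : GolayPt → ℤ) l
  by_cases hl : l = pt 1
  · subst hl; rw [Pi.single_eq_same, u44_right pt01, u44_right pt01]; norm_num
  · rw [Pi.single_eq_of_ne hl]
    by_cases hl' : l = pt 0
    · subst hl'; rw [u44_left pt01, u44_left pt01]; norm_num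
    · rw [u44_other hl' hl, u44_other hl' hl]; norm_num

theorem all_pm {x : Co0} (hA : x • uA = uA)
    (h : ∀ w : leechLattice, sqNorm (w : GolayPt → ℤ) = 32 → dotInt (uA : GolayPt → ℤ) (w : GolayPt → ℤ) = 0 → x • w = w ∨ x • w = -w) : x = 1 := by
  classical
  have h01 : (x • e8 (pt 0) = e8 (pt 0) ∧ x • e8 (pt 1) = e8 (pt 1)) ∨ (x • e8 (pt 0) = e8 (pt 1) ∧ x • e8 (pt 1) = e8 (pt 0)) := by
    rcases h uB norm_uB dot_uAB with hB | hB
    · left
      rw [← uAB_add, ← uAB_sub, co_add, co_sub, hA, hB]; exact ⟨rfl, rfl⟩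
    · right
      rw [← uAB_add, ← uAB_sub, co_add, co_sub, hA, hB]
      exact ⟨(sub_eq_add_neg _ _).symm, sub_neg_eq_add _ _⟩
  have hstd : ∀ i, ∃ j, x • e8 i = e8 j ∨ x • e8 i = - e8 j := by
    intro i
    by_cases h0 : i = pt 0
    · subst h0
      rcases h01 with h1 | h1
      · exact ⟨_, Or.inl h1.1⟩
      · exact ⟨_, Or.inl h1.1⟩
    by_cases h1' : i = pt 1
    · subst h1'
      rcases h01 with h1 | h1
      · exact ⟨_, Or.inl h1.2⟩
      · exact ⟨_, Or.inl h1.2⟩
    exact ⟨i, pm_of_pairs h0 h1' h⟩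
  obtain ⟨σ, hσ, c, hc, rfl⟩ := mono_of_std x hstd
  have e8_inj : ∀ {i j : GolayPt}, (e8 i = e8 j ∨ e8 i = - e8 j ∨ -e8 i = e8 j ∨ - e8 i = - e8 j) → i = j := by
    intro i j hh
    by_contra hij
    have h1 : ((e8 i : leechLattice) : GolayPt → ℤ) i = 8 := by rw [coe_e8, Pi.single_eq_same]
    have h2 : ((e8 j : leechLattice) : GolayPt → ℤ) i = 0 := by rw [coe_e8, Pi.single_eq_of_ne hij]
    have h3 : ((-e8 i : leechLattice) : GolayPt → ℤ) i = -8 := by show -(((e8 i : leechLattice) : GolayPt → ℤ) i) = -8; rw [h1]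
    have h4 : ((-e8 j : leechLattice) : GolayPt → ℤ) i = 0 := by show -(((e8 j : leechLattice) : GolayPt → ℤ) i) = 0; rw [h2]; rfl
    rcases hh with hh | hh | hh | hh
    · rw [hh, h2] at h1; omega
    · rw [hh, h4] at h1; omega
    · rw [hh, h2] at h3; omega
    · rw [hh, h4] at h3; omega
  have hfix : ∀ i, i ≠ pt 0 → i ≠ pt 1 → σ i = i := by
    intro i h0 h1
    have h2 := pm_of_pairs h0 h1 h
    rw [mono_e8] at h2
    split_ifs at h2
    · exact e8_inj (by tauto)
    · exact e8_inj (by tauto)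
  have hσ1 : σ = 1 := by
    apply eq_one_of_fix_ten hσ (univ \ {pt 0, pt 1})
    · rw [Finset.card_sdiff_of_subset (Finset.subset_univ _), card_univ_G, Finset.card_pair pt01]; norm_num
    · intro p hp
      simp only [Finset.mem_sdiff, Finset.mem_univ, true_and, Finset.mem_insert, Finset.mem_singleton, not_or] at hp
      exact hfix p hp.1 hp.2
  subst hσ1
  have hval : ∀ i, (uA : GolayPt → ℤ) i ≠ 0 → i ∉ c := by
    intro i hi hic
    have h1 := congrFun (congrArg Subtype.val hA) i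
    rw [mono_one_apply, if_pos hic] at h1
    apply hi; omega
  have h0c : pt 0 ∉ c := hval _ (by rw [uA_val, u44_left pt01]; norm_num)
  have h1c : pt 1 ∉ c := hval _ (by rw [uA_val, u44_right pt01]; norm_num)
  have hsame : ∀ i j, i ≠ pt 0 → i ≠ pt 1 → j ≠ pt 0 → j ≠ pt 1 → i ∈ c → j ∈ c := by
    intro i j hi0 hi1 hj0 hj1 hic
    by_contra hjc
    have hij : i ≠ j := by rintro rfl; exact hjc hic
    have h1 := h ⟨u44 i j 4 4, u44_mem hij (Or.inl rfl) (Or.inl rfl)⟩ (norm_u44 hij (Or.inl rfl) (Or.inl rfl)) (by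
      show dotInt _ (u44 i j 4 4) = 0
      rw [dot_u44, uA_val, u44_other hi0 hi1, u44_other hj0 hj1]; norm_num)
    rcases h1 with h1 | h1
    · have h2 := congrFun (congrArg Subtype.val h1) i
      rw [mono_one_apply, if_pos hic] at h2
      have h3 : -(u44 i j 4 4 i) = u44 i j 4 4 i := h2
      rw [u44_left hij] at h3; omega
    · have h2 := congrFun (congrArg Subtype.val h1) j
      rw [mono_one_apply, if_neg hjc] at h2
      have h3 : (u44 i j 4 4 j) = -(u44 i j 4 4 j) := h2
      rw [u44_right hij] at h3; omega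
  have hce : c = ∅ := by
    rcases GC_card_cases hc with hc0 | hc0
    · exact hc0
    exfalso
    obtain ⟨i, hi⟩ : c.Nonempty := Finset.card_pos.mp (by omega)
    have hi0 : i ≠ pt 0 := by rintro rfl; exact h0c hi
    have hi1 : i ≠ pt 1 := by rintro rfl; exact h1c hi
    have h2 : c = univ \ {pt 0, pt 1} := by
      ext j
      simp only [Finset.mem_sdiff, Finset.mem_univ, true_and, Finset.mem_insert, Finset.mem_singleton, not_or]
      constructor
      · intro hj
        exact ⟨by rintro rfl; exact h0c hj, by rintro rfl; exact h1c hj⟩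
      · intro hj
        exact hsame i j hi0 hi1 hj.1 hj.2 hi
    have h3 : c.card = 22 := by rw [h2, Finset.card_sdiff_of_subset (Finset.subset_univ _), card_univ_G, Finset.card_pair pt01]
    rcases supports_card hc with h4 | h4 | h4 | h4 | h4 <;> omega
  subst hce
  exact mo.map_one

theorem trans_perp (w w' : leechLattice) (hw : sqNorm (w : GolayPt → ℤ) = 32) (hw' : sqNorm (w' : GolayPt → ℤ) = 32) {v : leechLattice} (hv : sqNorm (v : GolayPt → ℤ) = 32)
    (hd : dotInt (v : GolayPt → ℤ) w = 0) (hd' : dotInt (v : GolayPt → ℤ) w' = 0) : ∃ g ∈ MulAction.stabilizer Co0 v, g • w = w' := by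
  obtain ⟨g, hg, hg'⟩ := orth_pair v w hv hw hd
  obtain ⟨k, hk, hk'⟩ := orth_pair v w' hv hw' hd'
  exact ⟨k⁻¹ * g, by rw [MulAction.mem_stabilizer_iff, mul_smul, hg, ← hk, inv_smul_smul], by rw [mul_smul, hg', ← hk', inv_smul_smul]⟩

theorem stabA_two (N : Subgroup (MulAction.stabilizer Co0 uA)) (hN : N.Normal) (h2 : IsPGroup 2 N) : N = ⊥ := by
  haveI : Fact (Nat.Prime 2) := ⟨Nat.prime_two⟩
  -- the stabilizer of the pair
  let D : Subgroup (MulAction.stabilizer Co0 uA) :=
    { carrier := {g | g • uB = uB ∨ g • uB = -uB}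
      one_mem' := Or.inl (one_smul _ _)
      mul_mem' := by
        rintro a b (ha | ha) (hb | hb)
        · left; rw [mul_smul, hb, ha]
        · right; rw [mul_smul, hb]; show (a : Co0) • (-uB) = -uB; rw [co_neg]; exact congrArg Neg.neg ha
        · right; rw [mul_smul, hb, ha]
        · left; rw [mul_smul, hb]; show (a : Co0) • (-uB) = uB; rw [co_neg]; exact (congrArg Neg.neg ha).trans (neg_neg _)
      inv_mem' := by
        rintro a (ha | ha)
        · left; rw [inv_smul_eq_iff, ha]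
        · right
          rw [inv_smul_eq_iff]
          show uB = (a : Co0) • (-uB)
          rw [co_neg, eq_comm]; exact (congrArg Neg.neg ha).trans (neg_neg _) }
  have hK1 := card_stab_mul (⊤ : Subgroup (MulAction.stabilizer Co0 uA)) (MulAction.stabilizer (MulAction.stabilizer Co0 uA) uB) uB {w : leechLattice | sqNorm (w : GolayPt → ℤ) = 32 ∧ dotInt (uA : GolayPt → ℤ) (w : GolayPt → ℤ) = 0} (fun g => by simp) (fun w => by
    constructor
    · rintro ⟨h1, h3⟩
      obtain ⟨g, hg, hg'⟩ := trans_perp uB w norm_uB h1 norm_uA dot_uAB h3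
      exact ⟨⟨g, hg⟩, Subgroup.mem_top _, hg'⟩
    · rintro ⟨g, -, rfl⟩
      refine ⟨(co_norm (g : Co0) uB).trans norm_uB, ?_⟩
      have := co_dot (g : Co0) uA uB
      rw [MulAction.mem_stabilizer_iff.mp g.2, dot_uAB] at this
      exact this)
  have hK2 := card_stab_mul D (MulAction.stabilizer (MulAction.stabilizer Co0 uA) uB) uB {uB, -uB} (fun g => by
    rw [MulAction.mem_stabilizer_iff]
    exact ⟨fun h => ⟨Or.inl h, h⟩, fun h => h.2⟩) (fun w => by
    constructor
    · rintro (rfl | rfl)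
      · exact ⟨1, D.one_mem, one_smul _ _⟩
      · obtain ⟨g, hg, hg'⟩ := trans_perp uB (-uB) norm_uB (by
          show sqNorm (-(uB : GolayPt → ℤ)) = 32
          rw [norm_neg, norm_uB]) norm_uA dot_uAB (by
          show dotInt (uA : GolayPt → ℤ) (-(uB : GolayPt → ℤ)) = 0
          rw [dot_neg_right, dot_uAB, neg_zero])
        exact ⟨⟨g, hg⟩, Or.inr hg', hg'⟩
    · rintro ⟨g, hg, rfl⟩
      exact hg)
  have hne : uB ≠ -uB := by
    intro h
    have := congrFun (congrArg Subtype.val h) (pt 0)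
    have h3 : u44 (pt 0) (pt 1) 4 (-4) (pt 0) = -(u44 (pt 0) (pt 1) 4 (-4) (pt 0)) := this
    rw [u44_left pt01] at h3; omega
  rw [ncard_nd', (census32 norm_uA).2.2, Subgroup.card_top, card_stab32 norm_uA] at hK1
  rw [Set.ncard_pair hne] at hK2
  have hD : ¬ 2 ∣ D.index := by
    have h3 := D.card_mul_index
    rw [card_stab32 norm_uA] at h3
    intro h4
    obtain ⟨m, hm⟩ := h4
    rw [hm] at h3
    generalize Nat.card (MulAction.stabilizer (MulAction.stabilizer Co0 uA) uB) = a at hK1 hK2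
    generalize Nat.card D = b at hK2 h3
    have h5 : a = 454164480 := Nat.eq_of_mul_eq_mul_right (by norm_num : 0 < 93150) (hK1.trans (by norm_num))
    rw [h5] at hK2
    rw [← hK2] at h3
    omega
  have hND := normal_le_of_index N D hN h2 hD
  rw [Subgroup.eq_bot_iff_forall]
  intro x hx
  have h3 : (x : Co0) = 1 := by
    apply all_pm (MulAction.mem_stabilizer_iff.mp x.2)
    intro w hw hw'
    obtain ⟨g, hg, hg'⟩ := trans_perp uB w norm_uB hw norm_uA dot_uAB hw'
    have h4 := hND (hN.conj_mem x hx ⟨g, hg⟩⁻¹)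
    have h5 : (g⁻¹ * (x : Co0) * g) • uB = uB ∨ (g⁻¹ * (x : Co0) * g) • uB = -uB := by
      rw [inv_inv] at h4
      exact h4
    rw [mul_smul, hg', mul_smul] at h5
    rcases h5 with h5 | h5
    · left; rw [inv_smul_eq_iff, hg'] at h5; exact h5
    · right; rw [inv_smul_eq_iff, co_neg, hg'] at h5; exact h5
  exact Subtype.ext h3

theorem isPGroup_two_normal {v : leechLattice} (hv : sqNorm (v : GolayPt → ℤ) = 32) (N : Subgroup (MulAction.stabilizer Co0 v)) (hN : N.Normal) (h2 : IsPGroup 2 N) : N = ⊥ := by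
  obtain ⟨g, hg⟩ := trans32 v hv
  obtain ⟨e⟩ := stab_conj g hg
  have h3 := stabA_two (N.map e.toMonoidHom) (hN.map _ e.surjective) (h2.map _)
  exact (Subgroup.map_eq_bot_iff_of_injective N e.injective).mp h3

theorem simple_co2_std : IsSimpleGroup (MulAction.stabilizer Co0 u3) := by
  haveI := p23
  have hn : sqNorm ((u3 : leechLattice) : GolayPt → ℤ) = 32 := by rw [u3_val, norm_uo (pt 0)]; norm_num
  have hc : Nat.card (MulAction.stabilizer Co0 u3) = 42305421312000 := card_stab32 hn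
  obtain ⟨σ, hσ⟩ := exists_order [pt 0] (p := 23) (by rw [card_PS_one]; norm_num)
  refine simple_stab (MulAction.stabilizer Co0 u3) [pt 0] (fun τ => MulAction.mem_stabilizer_iff.mpr (mo_uo (τ.2.2 _ (by simp)) u3_val)) (p := 23) (by rw [hc]; norm_num) σ hσ (simple_PS_one _)
    (fun g hg h => norm23 (by norm_num) u3_val hσ (MulAction.mem_stabilizer_iff.mp hg) h) ?_
  intro N M P hN hM hP hPM hMs h1 h2 h3
  obtain ⟨h4, h5⟩ := card_prime_pow (q := 2) Nat.card_pos.ne' (hc ▸ Subgroup.card_subgroup_dvd_card N) h3 (arith_helper' [(2,18),(3,6),(5,3),(7,1),(11,1),(23,1)] (by norm_num) (by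
    simp only [List.mem_cons, List.not_mem_nil, or_false]
    rintro x (rfl | rfl | rfl | rfl | rfl | rfl) <;> norm_num) (by decide +kernel))
  exact isPGroup_two_normal hn N hN (IsPGroup.of_card h4)

end CfsgLib.Leech
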