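import Mathlib
import Cfsg.Agent.Lib.Leech24

/-!
The group Co1: simplicity.
-/

set_option autoImplicit false

namespace CfsgLib.Leech

open CfsgLib.Golay Finset Cfsg CfsgLib.LocSimple
open scoped Pointwise

theorem cong_small {x y : leechLattice} (hx : sqNorm (x : GolayPt → ℤ) = 32) (hy : sqNorm (y : GolayPt → ℤ) = 32) (h : ∃ z, x - y = z + z) : x = y ∨ x = -y := by
  have h1 := bl_self x
  have h2 := bl_self y
  rcases elat.cong (x := x) (y := y) (by omega) (by omega) h with h3 | h3 | h3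
  · exact Or.inl h3
  · exact Or.inr h3
  · exfalso; have := h3.1; omega

theorem pm_eq_one {x : Co0} (h : ∀ w : leechLattice, sqNorm (w : GolayPt → ℤ) = 32 → x • w = w ∨ x • w = -w) : x = 1 ∨ x = negOne := by
  rcases h uA norm_uA with h1 | h1
  · left; exact all_pm h1 (fun w hw _ => h w hw)
  · right
    have h2 : negOne * x = 1 := by
      apply all_pm
      · rw [mul_smul, h1, co_neg, negOne_smul, neg_neg]
      · intro w hw _
        rw [mul_smul]
        rcases h w hw with h3 | h3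
        · right; rw [h3, negOne_smul]
        · left; rw [h3, co_neg, negOne_smul, neg_neg]
    have h3 : negOne * negOne = (1 : Co0) := by
      apply co_ext
      intro v
      rw [mul_smul, negOne_smul, negOne_smul, neg_neg, one_smul]
    calc x = (negOne * negOne) * x := by rw [h3, one_mul]
      _ = negOne := by rw [mul_assoc, h2, mul_one]

theorem pm_of_cong64 {x : Co0} (h : ∀ y : leechLattice, sqNorm (y : GolayPt → ℤ) = 64 → ∃ z, x • y - y = z + z) : x = 1 ∨ x = negOne := by
  apply pm_eq_one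
  intro v hv
  obtain ⟨O, hO, i, hi⟩ : ∃ O ∈ octads, ∃ i, i ∈ O := by
    obtain ⟨O, hO, h5⟩ := exists_octad_five (s := {pt 0}) (by simp)
    exact ⟨O, hO, pt 0, h5 (by simp)⟩
  let w : leechLattice := ⟨w2 O ∅, w2_mem hO (Finset.empty_subset _) rfl⟩
  have hwn : sqNorm (w : GolayPt → ℤ) = 32 := norm_w2 hO
  have hwi : (w : GolayPt → ℤ) i = 2 := by
    show w2 O ∅ i = 2
    unfold w2; rw [if_pos hi, if_neg (Finset.notMem_empty _)]
  obtain ⟨g, hg⟩ := trans32 v hv
  obtain ⟨k, hk⟩ := trans32 w hwn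
  have hgv : (k⁻¹ * g) • v = w := by rw [mul_smul, hg, ← hk, inv_smul_smul]
  have hvw : v = (k⁻¹ * g)⁻¹ • w := by rw [← hgv, inv_smul_smul]
  obtain ⟨z1, hz1⟩ := h ((k⁻¹ * g)⁻¹ • e8 i) (by rw [co_norm, norm_e8])
  obtain ⟨z2, hz2⟩ := h ((k⁻¹ * g)⁻¹ • (w - e8 i)) (by
    rw [co_norm]
    show sqNorm ((w : GolayPt → ℤ) - ((e8 i : leechLattice) : GolayPt → ℤ)) = 64
    rw [norm_sub, hwn, norm_e8, dot_e8, hwi]; norm_num)
  apply cong_small (by rw [co_norm, hv]) hv
  refine ⟨z1 + z2, ?_⟩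
  have h3 : v = (k⁻¹ * g)⁻¹ • e8 i + (k⁻¹ * g)⁻¹ • (w - e8 i) := by
    rw [← co_add, add_sub_cancel, hvw]
  rw [h3, co_add]
  calc x • (k⁻¹ * g)⁻¹ • e8 i + x • (k⁻¹ * g)⁻¹ • (w - e8 i) - ((k⁻¹ * g)⁻¹ • e8 i + (k⁻¹ * g)⁻¹ • (w - e8 i))
      = (x • (k⁻¹ * g)⁻¹ • e8 i - (k⁻¹ * g)⁻¹ • e8 i) + (x • (k⁻¹ * g)⁻¹ • (w - e8 i) - (k⁻¹ * g)⁻¹ • (w - e8 i)) := by abel
    _ = z1 + z2 + (z1 + z2) := by rw [hz1, hz2]; abel

/-- the monomial subgroup -/
def stdG : Subgroup Co0 where
  carrier := {g | ∀ i, ∃ j, g • e8 i = e8 j ∨ g • e8 i = - e8 j}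
  one_mem' := fun i => ⟨i, Or.inl (one_smul _ _)⟩
  mul_mem' := by
    intro a b ha hb i
    obtain ⟨j, hj⟩ := hb i
    obtain ⟨k, hk⟩ := ha j
    refine ⟨k, ?_⟩
    rw [mul_smul]
    rcases hj with hj | hj
    · rw [hj]; exact hk
    · rw [hj, co_neg]
      rcases hk with hk | hk
      · right; rw [hk]
      · left; rw [hk, neg_neg]
  inv_mem' := by
    intro a ha i
    obtain ⟨σ, hσ, c, hc, rfl⟩ := mono_of_std a ha
    refine ⟨σ.symm i, ?_⟩
    have h := mono_e8 hσ hc (σ.symm i)
    rw [Equiv.apply_symm_apply] at h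
    split_ifs at h
    · right; rw [inv_smul_eq_iff, co_neg, h, neg_neg]
    · left; rw [inv_smul_eq_iff, h]

theorem mem_stdG {g : Co0} : g ∈ stdG ↔ ∀ i, ∃ j, g • e8 i = e8 j ∨ g • e8 i = - e8 j := Iff.rfl

theorem card_stdG : Nat.card stdG = 4096 * 244823040 := card_std

theorem index_stdG : stdG.index = 8292375 := by
  have h := stdG.card_mul_index
  rw [card_stdG, card_Co0] at h
  exact Nat.eq_of_mul_eq_mul_left (by norm_num : 0 < 4096 * 244823040) (h.trans (by norm_num))

theorem stdG_cong {g : Co0} (hg : g ∈ stdG) (i : GolayPt) : ∃ z, g • e8 i - e8 i = z + z := by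
  obtain ⟨j, hj⟩ := hg i
  have key : ∀ a : ℤ, (a = 4 ∨ a = -4) → ∃ z : leechLattice, ∀ l, (z + z : leechLattice).1 l = (Pi.single j (2 * a) : GolayPt → ℤ) l - (Pi.single i 8 : GolayPt → ℤ) l := by
    intro a ha
    by_cases hij : i = j
    · subst hij
      rcases ha with rfl | rfl
      · refine ⟨0, fun l => ?_⟩
        rw [add_zero]
        show (0 : ℤ) = _
        norm_num
      · refine ⟨- e8 i, fun l => ?_⟩
        show -((Pi.single i 8 : GolayPt → ℤ) l) + -((Pi.single i 8 : GolayPt → ℤ) l) = _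
        by_cases hl : l = i
        · subst hl; rw [Pi.single_eq_same, Pi.single_eq_same]; norm_num
        · rw [Pi.single_eq_of_ne hl, Pi.single_eq_of_ne hl]; norm_num
    · refine ⟨⟨u44 i j (-4) a, u44_mem hij (Or.inr rfl) ha⟩, fun l => ?_⟩
      show u44 i j (-4) a l + u44 i j (-4) a l = _
      by_cases hl : l = i
      · subst hl; rw [u44_left hij, Pi.single_eq_same, Pi.single_eq_of_ne hij]; norm_num
      · by_cases hl' : l = j
        · subst hl'; rw [u44_right hij, Pi.single_eq_same, Pi.single_eq_of_ne hl]; ring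
        · rw [u44_other hl hl', Pi.single_eq_of_ne hl, Pi.single_eq_of_ne hl']; norm_num
  rcases hj with hj | hj
  · obtain ⟨z, hz⟩ := key 4 (Or.inl rfl)
    refine ⟨z, Subtype.ext (funext fun l => ?_)⟩
    rw [hj]
    exact (hz l).symm
  · obtain ⟨z, hz⟩ := key (-4) (Or.inr rfl)
    refine ⟨z, Subtype.ext (funext fun l => ?_)⟩
    rw [hj]
    refine Eq.trans ?_ (hz l).symm
    show -((Pi.single j 8 : GolayPt → ℤ) l) - _ = _
    rw [show (2 * -4 : ℤ) = -8 by norm_num, Pi.single_neg]; rfl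

/-- normal 2-subgroups of Co0 are central -/
theorem normal_two_central (N : Subgroup Co0) (hN : N.Normal) (h2 : IsPGroup 2 N) : N ≤ Subgroup.center Co0 := by
  haveI : Fact (Nat.Prime 2) := ⟨Nat.prime_two⟩
  have hS := normal_le_of_index N stdG hN h2 (by rw [index_stdG]; norm_num)
  intro x hx
  have h : x = 1 ∨ x = negOne := by
    apply pm_of_cong64
    intro y hy
    obtain ⟨g, hg⟩ := trans64 y hy (pt 0)
    obtain ⟨z, hz⟩ := stdG_cong (hS (hN.conj_mem x hx g)) (pt 0)
    refine ⟨g⁻¹ • z, ?_⟩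
    rw [← co_add, ← hz, co_sub, ← hg, mul_smul, mul_smul, inv_smul_smul, inv_smul_smul]
  rcases h with rfl | rfl
  · exact one_mem _
  · exact negOne_mem

theorem const23 {σ : Equiv.Perm GolayPt} (h0 : σ (pt 0) = pt 0) (ho : orderOf σ = 23) {f : GolayPt → ℤ} (h : ∀ i, f (σ.symm i) = f i) :
    ∀ i, i ≠ pt 0 → f i = f (pt 1) := by
  have hc : σ.IsCycle := Equiv.Perm.isCycle_of_prime_order' (by rw [ho]; norm_num) (by rw [ho]; decide)
  have hs : σ.support.card = 23 := by rw [← hc.orderOf, ho]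
  have hsup : σ.support = univ.erase (pt 0) := by
    apply Finset.eq_of_subset_of_card_le
    · intro i hi
      rw [Finset.mem_erase]
      refine ⟨?_, Finset.mem_univ i⟩
      rintro rfl
      exact (Equiv.Perm.mem_support.mp hi) h0
    · rw [hs, Finset.card_erase_of_mem (Finset.mem_univ _), card_univ_G]
  have hmove : ∀ i, i ≠ pt 0 → σ i ≠ i := by
    intro i hi
    have : i ∈ σ.support := by rw [hsup]; exact Finset.mem_erase.mpr ⟨hi, Finset.mem_univ i⟩
    exact Equiv.Perm.mem_support.mp this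
  exact fun i hi => fixed_const h (hc.sameCycle (hmove i hi) (hmove _ pt01.symm))

theorem mo_ne_negOne (τ : M24) : mo τ ≠ negOne := by
  intro h
  have h1 := mo_e8 τ (pt 0)
  rw [h, negOne_smul] at h1
  have h2 := congrFun (congrArg Subtype.val h1) (pt 0)
  have h3 : -((Pi.single (pt 0) 8 : GolayPt → ℤ) (pt 0)) = (Pi.single ((τ : Equiv.Perm GolayPt) (pt 0)) 8 : GolayPt → ℤ) (pt 0) := h2
  rw [Pi.single_eq_same, Pi.single_apply] at h3
  split_ifs at h3 <;> omega

theorem negOne_sq : negOne * negOne = (1 : Co0) := by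
  apply co_ext
  intro v
  rw [mul_smul, negOne_smul, negOne_smul, neg_neg, one_smul]

/-- normalizer of the Sylow 23-subgroup modulo the centre -/
theorem norm23_center {σ : PS [pt 0]} (hσ : orderOf σ = 23) {h : Co0} (h0 : h • e8 (pt 0) = e8 (pt 0))
    (hh : ∀ v : leechLattice, mo (psi _ σ) • v = v → mo (psi _ σ) • (h • v) = h • v) : ∃ τ : M24, h = mo τ := by
  have hs0 : (σ : Equiv.Perm GolayPt) (pt 0) = pt 0 := σ.2.2 _ (by simp)
  have hso : orderOf (σ : Equiv.Perm GolayPt) = 23 := by rw [← hσ]; exact Subgroup.orderOf_coe σ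
  have h1 := hh u5 (mo_uo hs0 u5_val)
  have h2 : ∀ i, ((h • u5 : leechLattice) : GolayPt → ℤ) ((σ : Equiv.Perm GolayPt).symm i) = ((h • u5 : leechLattice) : GolayPt → ℤ) i := fun i => by
    have := congrFun (congrArg Subtype.val h1) i
    rw [mo_apply] at this
    exact this
  have h3 := const23 hs0 hso h2
  have h4 := co_dot h (e8 (pt 0)) u5
  rw [h0, dot_symm, dot_e8, dot_symm, dot_e8, u5_val, uo_same] at h4
  have h5 := co_norm h u5
  rw [u5_val, norm_uo, norm_split _ (pt 0), Finset.sum_congr rfl (fun i hi => by rw [h3 i (Finset.ne_of_mem_erase hi)]), Finset.sum_const, Finset.card_erase_of_mem (Finset.mem_univ _), card_univ_G] at h5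
  have h6 : ((h • u5 : leechLattice) : GolayPt → ℤ) (pt 0) = 5 := by omega
  rw [h6] at h5
  have h7 : ((h • u5 : leechLattice) : GolayPt → ℤ) (pt 1) = 1 ∨ ((h • u5 : leechLattice) : GolayPt → ℤ) (pt 1) = -1 := by
    generalize ((h • u5 : leechLattice) : GolayPt → ℤ) (pt 1) = b at h5
    norm_num at h5
    have : (b - 1) * (b + 1) = 0 := by nlinarith
    rcases mul_eq_zero.mp this with h | h
    · left; omega
    · right; omega
  rcases h7 with h7 | h7
  · have h8 : h • u5 = u5 := by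
      apply Subtype.ext
      funext i
      by_cases hi : i = pt 0
      · rw [hi, h6]
        show (5 : ℤ) = uo (pt 0) 5 (pt 0)
        rw [uo_same]
      · rw [h3 i hi, h7]; exact (uo_ne 5 hi).symm
    obtain ⟨τ, -, hτ⟩ := fix_form h0 u5_val h8
    exact ⟨τ, hτ⟩
  · exfalso
    have h8 := dot_dvd (h • u5 + u5 : leechLattice).2 u5.2
    have h9 : dotInt ((h • u5 + u5 : leechLattice) : GolayPt → ℤ) ((u5 : leechLattice) : GolayPt → ℤ) = 50 := by
      have e : ∀ i, i ≠ pt 0 → ((h • u5 + u5 : leechLattice) : GolayPt → ℤ) i = 0 := by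
        intro i hi
        show ((h • u5 : leechLattice) : GolayPt → ℤ) i + uo (pt 0) 5 i = 0
        rw [h3 i hi, h7, uo_ne 5 hi]; norm_num
      rw [dot_supp e]
      show (((h • u5 : leechLattice) : GolayPt → ℤ) (pt 0) + uo (pt 0) 5 (pt 0)) * uo (pt 0) 5 (pt 0) = 50
      rw [h6, uo_same]; norm_num
    rw [h9] at h8
    norm_num at h8

theorem card_co1 : Nat.card (Co0 ⧸ Subgroup.center Co0) = 4157776806543360000 := by
  have h := Subgroup.card_eq_card_quotient_mul_card_subgroup (Subgroup.center Co0)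
  rw [card_Co0, card_center] at h
  omega

theorem simple_co1 : IsSimpleGroup (Co0 ⧸ Subgroup.center Co0) := by
  haveI := p23
  have hc := card_co1
  have hinj : Function.Injective ((QuotientGroup.mk' (Subgroup.center Co0)).comp mo) := by
    intro a b hab
    have h1 : ((mo a : Co0) : Co0 ⧸ Subgroup.center Co0) = (mo b : Co0) := hab
    rw [QuotientGroup.eq, ← map_inv, ← map_mul] at h1
    rcases center_mem h1 with h2 | h2
    · have h3 := mo_inj (h2.trans (map_one mo).symm)
      exact inv_mul_eq_one.mp h3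
    · exact absurd h2 (mo_ne_negOne _)
  obtain ⟨σ, hσ⟩ := exists_order [pt 0] (p := 23) (by rw [card_PS_one]; norm_num)
  have hpsi : Function.Injective (psi [pt 0]) := fun a b h => Subtype.ext (congrArg (fun x : M24 => (x : Equiv.Perm GolayPt)) h)
  have hso : orderOf (mo (psi _ σ)) = 23 := by rw [orderOf_injective mo mo_inj, orderOf_injective _ hpsi, hσ]
  have hMs : IsSimpleGroup ((QuotientGroup.mk' (Subgroup.center Co0)).comp mo).range := isSimple_of_equiv (MonoidHom.ofInjective hinj).symm simple_M24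
  have hPc : Nat.card (Subgroup.zpowers (((QuotientGroup.mk' (Subgroup.center Co0)).comp mo) (psi _ σ))) = 23 := by
    rw [Nat.card_zpowers, orderOf_injective _ hinj, orderOf_injective _ hpsi, hσ]
  refine simple_of_local (p := 23) (by rw [hc]; norm_num) _ ((QuotientGroup.mk' (Subgroup.center Co0)).comp mo).range hPc (Subgroup.zpowers_le.mpr ⟨_, rfl⟩) hMs ?_ ?_
  · intro g hg
    obtain ⟨h, rfl⟩ := QuotientGroup.mk_surjective g
    have h1 : (h : Co0 ⧸ Subgroup.center Co0)⁻¹ * (((QuotientGroup.mk' (Subgroup.center Co0)).comp mo) (psi _ σ)) * h ∈ Subgroup.zpowers (((QuotientGroup.mk' (Subgroup.center Co0)).comp mo) (psi _ σ)) := by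
      rw [hg]
      rw [show ∀ a b : Co0 ⧸ Subgroup.center Co0, a * (a⁻¹ * b * a) * a⁻¹ = b by intro a b; group]
      exact Subgroup.mem_zpowers _
    obtain ⟨n, hn⟩ := Subgroup.mem_zpowers_iff.mp h1
    have h2 : (((mo (psi _ σ)) ^ n : Co0) : Co0 ⧸ Subgroup.center Co0) = ((h⁻¹ * mo (psi _ σ) * h : Co0) : Co0 ⧸ Subgroup.center Co0) := hn
    rw [QuotientGroup.eq] at h2
    have h3 : h⁻¹ * mo (psi _ σ) * h = (mo (psi _ σ)) ^ n := by
      rcases center_mem h2 with h3 | h3
      · exact (inv_mul_eq_one.mp h3).symm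
      · exfalso
        have h4 : h⁻¹ * mo (psi _ σ) * h = (mo (psi _ σ)) ^ n * negOne := by rw [← h3]; group
        have h5 : (h⁻¹ * mo (psi _ σ) * h) ^ 23 = 1 := by
          have := conj_pow (a := h⁻¹) (b := mo (psi _ σ)) (i := 23)
          rw [inv_inv] at this
          rw [this, ← hso, pow_orderOf_eq_one]; group
        have hcomm : Commute ((mo (psi _ σ)) ^ n) negOne := (Subgroup.mem_center_iff.mp negOne_mem _)
        rw [h4, hcomm.mul_pow, ← zpow_natCast, ← zpow_mul, mul_comm n, zpow_mul, zpow_natCast, ← hso, pow_orderOf_eq_one, one_zpow, one_mul, hso] at h5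
        apply negOne_ne
        calc negOne = negOne ^ 23 := by
              rw [show (23 : ℕ) = 2 * 11 + 1 by norm_num, pow_succ, pow_mul, pow_two, negOne_sq, one_pow, one_mul]
          _ = 1 := h5
    have h4 : ∀ v : leechLattice, mo (psi _ σ) • v = v → mo (psi _ σ) • (h • v) = h • v := by
      intro v hv
      have h5 : ∀ n : ℤ, (mo (psi _ σ)) ^ n • v = v := fun n => MulAction.mem_stabilizer_iff.mp (Subgroup.zpow_mem (MulAction.stabilizer Co0 v) (MulAction.mem_stabilizer_iff.mpr hv) n)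
      have h6 : mo (psi _ σ) * h = h * (mo (psi _ σ)) ^ n := by rw [← h3]; group
      rw [← mul_smul, h6, mul_smul, h5]
    have hs0 : (σ : Equiv.Perm GolayPt) (pt 0) = pt 0 := σ.2.2 _ (by simp)
    have h5 := h4 (e8 (pt 0)) (by rw [mo_e8]; exact congrArg e8 hs0)
    have h6 := fix23 (σ := (σ : Equiv.Perm GolayPt)) hs0 (by rw [← hσ]; exact Subgroup.orderOf_coe σ) (f := ((h • e8 (pt 0) : leechLattice) : GolayPt → ℤ)) (fun i => by
      have := congrFun (congrArg Subtype.val h5) i
      rw [mo_apply] at this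
      exact this) (by rw [co_norm, norm_e8])
    have h7 : ((h • e8 (pt 0) : leechLattice) : GolayPt → ℤ) (pt 0) = 8 ∨ ((h • e8 (pt 0) : leechLattice) : GolayPt → ℤ) (pt 0) = -8 := by
      have h8 := co_norm h (e8 (pt 0))
      rw [norm_e8, sqNorm_eq_dot, dot_supp h6] at h8
      generalize ((h • e8 (pt 0) : leechLattice) : GolayPt → ℤ) (pt 0) = b at h8
      have : (b - 8) * (b + 8) = 0 := by linarith
      rcases mul_eq_zero.mp this with h | h
      · left; omega
      · right; omega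
    rcases h7 with h7 | h7
    · obtain ⟨τ, rfl⟩ := norm23_center hσ (e8_of_supp h6 h7) h4
      exact ⟨τ, rfl⟩
    · obtain ⟨τ, hτ⟩ := norm23_center (h := negOne * h) hσ (by
        rw [mul_smul, negOne_smul]
        apply e8_of_supp
        · intro i hi
          show -(((h • e8 (pt 0) : leechLattice) : GolayPt → ℤ) i) = 0
          rw [h6 i hi, neg_zero]
        · show -(((h • e8 (pt 0) : leechLattice) : GolayPt → ℤ) (pt 0)) = 8
          rw [h7]; norm_num) (fun v hv => by
        rw [mul_smul, negOne_smul, co_neg, h4 v hv])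
      refine ⟨τ, ?_⟩
      show ((mo τ : Co0) : Co0 ⧸ Subgroup.center Co0) = h
      rw [← hτ, QuotientGroup.eq]
      rw [show (negOne * h)⁻¹ * h = h⁻¹ * negOne⁻¹ * h by group]
      have h8 : (negOne : Co0)⁻¹ ∈ Subgroup.center Co0 := inv_mem negOne_mem
      rw [Subgroup.mem_center_iff.mp h8 h⁻¹]
      rw [inv_mul_cancel_right]
      exact h8
  · intro N hN h1 h2 h3
    obtain ⟨h4, h5⟩ := card_prime_pow (q := 2) Nat.card_pos.ne' (hc ▸ Subgroup.card_subgroup_dvd_card N) h3 (arith_helper' [(2,21),(3,9),(5,4),(7,2),(11,1),(13,1),(23,1)] (by norm_num) (by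
      simp only [List.mem_cons, List.not_mem_nil, or_false]
      rintro x (rfl | rfl | rfl | rfl | rfl | rfl | rfl) <;> norm_num) (by decide +kernel))
    have h6 : IsPGroup 2 N := IsPGroup.of_card h4
    have h7 : IsPGroup 2 (N.comap (QuotientGroup.mk' (Subgroup.center Co0))) := IsPGroup.comap_of_ker_isPGroup h6 _ (by
      rw [QuotientGroup.ker_mk']
      exact IsPGroup.of_card (n := 1) (by rw [card_center]; norm_num))
    have h8 := normal_two_central _ (hN.comap _) h7
    rw [Subgroup.eq_bot_iff_forall]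
    intro x hx
    obtain ⟨h, rfl⟩ := QuotientGroup.mk_surjective x
    exact (QuotientGroup.eq_one_iff h).mpr (h8 hx)

end CfsgLib.Leech
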