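import Mathlib
import Cfsg.Agent.Lib.Leech25

/-!
An element of Co0 squaring to minus one; generation of the lattice by short vectors.
-/

set_option autoImplicit false

namespace CfsgLib.Leech

open CfsgLib.Golay Finset Cfsg
open scoped Pointwise

theorem projInv_mem : projInv ∈ M24 :=
  mem_M24_of_packs (P := 0x5883388a1c8f5140b46cd317aed7) (packs_of_check (by decide +kernel)) (by decide +kernel)

theorem c0_mem : toFS 0x5335f ∈ GC := by
  show toFS 0x5335f ∈ supports (golayCode : Set (GolayPt → ZMod 2))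
  rw [mem_supports_iff, mask_toFS (by norm_num)]
  decide +kernel

/-- an element of order four squaring to minus one -/
def iOne : Co0 := mono projInv_mem c0_mem

theorem iOne_sq : iOne * iOne = negOne := by
  apply co_ext
  intro v
  rw [mul_smul, negOne_smul]
  apply Subtype.ext
  funext i
  have h1 : ∀ i : GolayPt, projInv.symm (projInv.symm i) = i := by decide +kernel
  have h2 : ∀ i : GolayPt, i ∈ toFS 0x5335f ↔ projInv.symm i ∉ toFS 0x5335f := by
    simp only [mem_toFS]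
    decide +kernel
  show ((mono projInv_mem c0_mem • mono projInv_mem c0_mem • v : leechLattice) : GolayPt → ℤ) i = -((v : GolayPt → ℤ) i)
  rw [mono_apply, mono_apply, h1]
  by_cases hi : i ∈ toFS 0x5335f
  · rw [if_pos hi, if_neg ((h2 i).mp hi)]
  · have h3 : projInv.symm i ∈ toFS 0x5335f := by
      by_contra h; exact hi ((h2 i).mpr h)
    rw [if_neg hi, if_pos h3]

theorem norm_cases (y : leechLattice) (h : sqNorm (y : GolayPt → ℤ) ≤ 64) :
    y = 0 ∨ sqNorm (y : GolayPt → ℤ) = 32 ∨ sqNorm (y : GolayPt → ℤ) = 48 ∨ sqNorm (y : GolayPt → ℤ) = 64 := by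
  by_cases h0 : y = 0
  · exact Or.inl h0
  right
  have h1 := min_norm y.2 (fun h => h0 (Subtype.ext h))
  obtain ⟨q, hq⟩ := even_norm y.2
  omega

theorem exists_short (x : leechLattice) : ∃ y z : leechLattice, x = y + (z + z) ∧ (y = 0 ∨ sqNorm (y : GolayPt → ℤ) = 32 ∨ sqNorm (y : GolayPt → ℤ) = 48 ∨ sqNorm (y : GolayPt → ℤ) = 64) := by
  obtain ⟨y, hy, hyn, z, hz, h⟩ := mod_two_rep x.2
  refine ⟨⟨y, hy⟩, ⟨z, hz⟩, ?_, norm_cases ⟨y, hy⟩ hyn⟩
  apply Subtype.ext
  show (x : GolayPt → ℤ) = y + (z + z)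
  rw [← two_nsmul, ← h, add_sub_cancel]

theorem norm_u5 : sqNorm ((u5 : leechLattice) : GolayPt → ℤ) = 48 := by rw [u5_val, norm_uo]; norm_num
theorem norm_u3 : sqNorm ((u3 : leechLattice) : GolayPt → ℤ) = 32 := by rw [u3_val, norm_uo]; norm_num

theorem u5_eq : u5 = u3 + (uA + uB) := by
  rw [uAB_add]
  apply Subtype.ext
  funext i
  show uo (pt 0) 5 i = uo (pt 0) (-3) i + (Pi.single (pt 0) 8 : GolayPt → ℤ) i
  by_cases hi : i = pt 0
  · subst hi; rw [uo_same, uo_same, Pi.single_eq_same]; norm_num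
  · rw [uo_ne _ hi, uo_ne _ hi, Pi.single_eq_of_ne hi]; norm_num

theorem sum_e8 (x : leechLattice) : ∑ i, (x : GolayPt → ℤ) i • e8 i = (8 : ℤ) • x := by
  apply Subtype.ext
  funext j
  rw [AddSubgroup.val_finset_sum, Finset.sum_apply, Finset.sum_eq_single j]
  · show (x : GolayPt → ℤ) j * (Pi.single j 8 : GolayPt → ℤ) j = 8 * (x : GolayPt → ℤ) j
    rw [Pi.single_eq_same, mul_comm]
  · intro i _ hij
    show (x : GolayPt → ℤ) i * (Pi.single i 8 : GolayPt → ℤ) j = 0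
    rw [Pi.single_eq_of_ne hij.symm, mul_zero]
  · intro h; exact absurd (Finset.mem_univ _) h

/-- the lattice is generated by the vectors of norm 32 -/
theorem gen32 (L : AddSubgroup leechLattice) (h : ∀ v : leechLattice, sqNorm (v : GolayPt → ℤ) = 32 → v ∈ L) : L = ⊤ := by
  have h48 : ∀ v : leechLattice, sqNorm (v : GolayPt → ℤ) = 48 → v ∈ L := by
    intro v hv
    obtain ⟨g, hg⟩ := trans48 v hv
    have h1 : v = g⁻¹ • u3 + (g⁻¹ • uA + g⁻¹ • uB) := by
      rw [← co_add, ← co_add, ← u5_eq, ← hg, inv_smul_smul]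
    rw [h1]
    exact L.add_mem (h _ (by rw [co_norm, norm_u3])) (L.add_mem (h _ (by rw [co_norm, norm_uA])) (h _ (by rw [co_norm, norm_uB])))
  have h64 : ∀ v : leechLattice, sqNorm (v : GolayPt → ℤ) = 64 → v ∈ L := by
    intro v hv
    obtain ⟨g, hg⟩ := trans64 v hv (pt 0)
    have h1 : v = g⁻¹ • uA + g⁻¹ • uB := by
      rw [← co_add, uAB_add, ← hg, inv_smul_smul]
    rw [h1]
    exact L.add_mem (h _ (by rw [co_norm, norm_uA])) (h _ (by rw [co_norm, norm_uB]))
  have hB : ∀ x : leechLattice, ∃ y ∈ L, ∃ z, x = y + (z + z) := by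
    intro x
    obtain ⟨y, z, hx, hy⟩ := exists_short x
    refine ⟨y, ?_, z, hx⟩
    rcases hy with rfl | hy | hy | hy
    · exact L.zero_mem
    · exact h y hy
    · exact h48 y hy
    · exact h64 y hy
  have h8 : ∀ x : leechLattice, (8 : ℤ) • x ∈ L := by
    intro x
    rw [← sum_e8]
    exact L.sum_mem (fun i _ => L.zsmul_mem (h64 _ (norm_e8 i)) _)
  rw [eq_top_iff]
  intro x _
  obtain ⟨y1, hy1, z1, rfl⟩ := hB x
  obtain ⟨y2, hy2, z2, rfl⟩ := hB z1
  obtain ⟨y3, hy3, z3, rfl⟩ := hB z2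
  have h9 := h8 z3
  have : y1 + (y2 + (y3 + (z3 + z3) + (y3 + (z3 + z3))) + (y2 + (y3 + (z3 + z3) + (y3 + (z3 + z3))))) = y1 + (y2 + y2) + (y3 + y3 + (y3 + y3)) + (8 : ℤ) • z3 := by
    abel
  rw [this]
  exact L.add_mem (L.add_mem (L.add_mem hy1 (L.add_mem hy2 hy2)) (L.add_mem (L.add_mem hy3 hy3) (L.add_mem hy3 hy3))) h9

theorem exists_w8 : ∃ w : leechLattice, sqNorm (w : GolayPt → ℤ) = 32 ∧ sqNorm ((e8 (pt 0) - w : leechLattice) : GolayPt → ℤ) = 64 := by
  obtain ⟨O, hO, h5⟩ := exists_octad_five (s := {pt 0}) (by simp)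
  have hi : pt 0 ∈ O := h5 (by simp)
  refine ⟨⟨w2 O ∅, w2_mem hO (Finset.empty_subset _) rfl⟩, norm_w2 hO, ?_⟩
  show sqNorm (((e8 (pt 0) : leechLattice) : GolayPt → ℤ) - w2 O ∅) = 64
  rw [norm_sub, norm_w2 hO, norm_e8, dot_symm, dot_e8]
  have : w2 O ∅ (pt 0) = 2 := by unfold w2; rw [if_pos hi, if_neg (Finset.notMem_empty _)]
  rw [this]; norm_num

/-- invariant subgroups of the lattice containing twice the lattice -/
theorem inv_sub (L : AddSubgroup leechLattice) (h2 : ∀ v : leechLattice, v + v ∈ L) (hg : ∀ (g : Co0), ∀ v ∈ L, g • v ∈ L) {x : leechLattice} (hx : x ∈ L) (hx2 : ¬ ∃ w, x = w + w) : L = ⊤ := by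
  have key : (∃ v ∈ L, sqNorm (v : GolayPt → ℤ) = 32) → L = ⊤ := by
    rintro ⟨v, hv, hvn⟩
    apply gen32
    intro w hw
    obtain ⟨g, hg'⟩ := trans32 v hvn
    obtain ⟨k, hk⟩ := trans32 w hw
    have := hg (k⁻¹ * g) v hv
    rwa [mul_smul, hg', ← hk, inv_smul_smul] at this
  obtain ⟨y, z, hxy, hy⟩ := exists_short x
  have hyL : y ∈ L := by
    have : y = x - (z + z) := by rw [hxy, add_sub_cancel_right]
    rw [this]; exact L.sub_mem hx (h2 z)
  rcases hy with rfl | hy | hy | hy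
  · exact absurd ⟨z, by rw [hxy, zero_add]⟩ hx2
  · exact key ⟨y, hyL, hy⟩
  · apply key
    have ht : ∀ w : leechLattice, sqNorm (w : GolayPt → ℤ) = 48 → w ∈ L := by
      intro w hw
      obtain ⟨g, hg'⟩ := trans48 y hy
      obtain ⟨k, hk⟩ := trans48 w hw
      have := hg (k⁻¹ * g) y hyL
      rwa [mul_smul, hg', ← hk, inv_smul_smul] at this
    refine ⟨u5 - (u5 - uB), L.sub_mem (ht _ norm_u5) (ht _ ?_), ?_⟩
    · show sqNorm (((u5 : leechLattice) : GolayPt → ℤ) - ((uB : leechLattice) : GolayPt → ℤ)) = 48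
      rw [norm_sub, norm_u5, norm_uB, uB_val, dot_u44, u5_val, uo_same, uo_ne 5 pt01.symm]; norm_num
    · rw [sub_sub_cancel]; exact norm_uB
  · apply key
    have ht : ∀ w : leechLattice, sqNorm (w : GolayPt → ℤ) = 64 → w ∈ L := by
      intro w hw
      obtain ⟨g, hg'⟩ := trans64 y hy (pt 0)
      obtain ⟨k, hk⟩ := trans64 w hw (pt 0)
      have := hg (k⁻¹ * g) y hyL
      rwa [mul_smul, hg', ← hk, inv_smul_smul] at this
    obtain ⟨w, hw, hw'⟩ := exists_w8
    refine ⟨e8 (pt 0) - (e8 (pt 0) - w), L.sub_mem (ht _ (norm_e8 _)) (ht _ hw'), ?_⟩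
    rw [sub_sub_cancel]; exact hw

end CfsgLib.Leech
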