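import Mathlib
import Cfsg.Agent.Lib.Leech26

/-!
Quadratic forms on the lattice modulo two.
-/

set_option autoImplicit false

namespace CfsgLib.Leech

open CfsgLib.Golay Finset Cfsg
open scoped Pointwise

theorem z2_two (a : ZMod 2) : a + a = 0 := by
  revert a; decide

section
variable (Q : leechLattice → ZMod 2) (hcoset : ∀ v w : leechLattice, Q (v + (w + w)) = Q v)
  (hquad : ∀ u v w : leechLattice, Q (u + v + w) + Q u + Q v + Q w = Q (u + v) + Q (u + w) + Q (v + w))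
  (hinv : ∀ (g : Co0) (v : leechLattice), Q (g • v) = Q v)
include hinv

theorem Q32 {v : leechLattice} (hv : sqNorm (v : GolayPt → ℤ) = 32) : Q v = Q uA := by
  obtain ⟨g, hg⟩ := trans32 v hv
  rw [← hinv g v, hg]

theorem Q48 {v : leechLattice} (hv : sqNorm (v : GolayPt → ℤ) = 48) : Q v = Q u5 := by
  obtain ⟨g, hg⟩ := trans48 v hv
  rw [← hinv g v, hg]

theorem Q64 {v : leechLattice} (hv : sqNorm (v : GolayPt → ℤ) = 64) : Q v = Q (e8 (pt 0)) := by
  obtain ⟨g, hg⟩ := trans64 v hv (pt 0)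
  rw [← hinv g v, hg]

include hcoset

theorem Q_sub (u v : leechLattice) : Q (u + v) = Q (u - v) := by
  rw [← hcoset (u - v) v]
  congr 1
  abel

include hquad

theorem Q_zero : Q 0 = 0 := by
  have h := hquad 0 0 0
  simp only [add_zero] at h
  have h2 := z2_two (Q 0)
  rw [h2, zero_add, h2] at h
  rw [eq_comm] at h
  simpa using h

theorem Q64_zero : Q (e8 (pt 0)) = 0 := by
  have p23' : (pt 2 : GolayPt) ≠ pt 3 := by decide
  let w : leechLattice := ⟨u44 (pt 2) (pt 3) 4 4, u44_mem p23' (Or.inl rfl) (Or.inl rfl)⟩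
  let w' : leechLattice := ⟨u44 (pt 2) (pt 3) (-4) 4, u44_mem p23' (Or.inr rfl) (Or.inl rfl)⟩
  let y : leechLattice := ⟨u44 (pt 0) (pt 2) 4 4, u44_mem (by decide) (Or.inl rfl) (Or.inl rfl)⟩
  have hw : sqNorm (w : GolayPt → ℤ) = 32 := norm_u44 p23' (Or.inl rfl) (Or.inl rfl)
  have hw' : sqNorm (w' : GolayPt → ℤ) = 32 := norm_u44 p23' (Or.inr rfl) (Or.inl rfl)
  have h := hquad uA uB w
  have e1 : uA + uB + w = w' + (y + y) := by
    rw [uAB_add]
    apply Subtype.ext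
    funext i
    show (Pi.single (pt 0) 8 : GolayPt → ℤ) i + u44 (pt 2) (pt 3) 4 4 i = u44 (pt 2) (pt 3) (-4) 4 i + (u44 (pt 0) (pt 2) 4 4 i + u44 (pt 0) (pt 2) 4 4 i)
    revert i
    decide +kernel
  rw [e1, hcoset, uAB_add, Q32 Q hinv hw', Q32 Q hinv hw, Q32 Q hinv norm_uB, Q64 Q hinv (v := uA + w) ?_, Q64 Q hinv (v := uB + w) ?_] at h
  · have h2 := z2_two (Q uA)
    have h3 := z2_two (Q (e8 (pt 0)))
    rw [h2, zero_add, h2, h3, zero_add] at h
    exact h.symm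
  · show sqNorm (((uB : leechLattice) : GolayPt → ℤ) + u44 (pt 2) (pt 3) 4 4) = 64
    rw [norm_add, norm_uB, dot_u44, uB_val, u44_other (by decide) (by decide), u44_other (by decide) (by decide)]
    rw [show sqNorm (u44 (pt 2) (pt 3) 4 4) = 32 from hw]; norm_num
  · show sqNorm (((uA : leechLattice) : GolayPt → ℤ) + u44 (pt 2) (pt 3) 4 4) = 64
    rw [norm_add, norm_uA, dot_u44, uA_val, u44_other (by decide) (by decide), u44_other (by decide) (by decide)]
    rw [show sqNorm (u44 (pt 2) (pt 3) 4 4) = 32 from hw]; norm_num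

theorem Q32_zero : Q uA = 0 := by
  obtain ⟨C, hC, hl⟩ := sign_five (l := [pt 0, pt 1, pt 2]) (by decide) (by simp) (fun p => p = pt 2)
  have c0 : pt 0 ∉ C := fun h => by have := (hl (pt 0) (by simp)).mp h; revert this; decide
  have c1 : pt 1 ∉ C := fun h => by have := (hl (pt 1) (by simp)).mp h; revert this; decide
  have c2 : pt 2 ∈ C := (hl (pt 2) (by simp)).mpr rfl
  let v0 : leechLattice := ⟨uo (pt 2) (-3), uo_mem (by norm_num) (by norm_num)⟩
  have hv0 : sqNorm (v0 : GolayPt → ℤ) = 32 := by show sqNorm (uo (pt 2) (-3)) = 32; rw [norm_uo]; norm_num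
  let v1 : leechLattice := mono (one_mem M24) hC • v0
  have hv1 : sqNorm (v1 : GolayPt → ℤ) = 32 := by rw [co_norm, hv0]
  let z : leechLattice := ⟨u44 (pt 0) (pt 2) 4 4, u44_mem (by decide) (Or.inl rfl) (Or.inl rfl)⟩
  have hz : sqNorm (z : GolayPt → ℤ) = 32 := norm_u44 (by decide) (Or.inl rfl) (Or.inl rfl)
  have x0 : (v1 : GolayPt → ℤ) (pt 0) = 1 := by
    rw [mono_one_apply, if_neg c0]; exact uo_ne (p := pt 2) (-3) (i := pt 0) (by decide)
  have x1 : (v1 : GolayPt → ℤ) (pt 1) = 1 := by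
    rw [mono_one_apply, if_neg c1]; exact uo_ne (p := pt 2) (-3) (i := pt 1) (by decide)
  have x2 : (v1 : GolayPt → ℤ) (pt 2) = 3 := by
    rw [mono_one_apply, if_pos c2]
    show -(uo (pt 2) (-3) (pt 2)) = 3
    rw [uo_same]; norm_num
  have d1 : dotInt (uA : GolayPt → ℤ) (v1 : GolayPt → ℤ) = 8 := by rw [dot_symm, uA_val, dot_u44, x0, x1]; norm_num
  have d2 : dotInt (z : GolayPt → ℤ) (v1 : GolayPt → ℤ) = 16 := by
    rw [dot_symm]
    show dotInt _ (u44 (pt 0) (pt 2) 4 4) = 16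
    rw [dot_u44, x0, x2]; norm_num
  have d3 : dotInt (uA : GolayPt → ℤ) (z : GolayPt → ℤ) = 16 := by
    show dotInt _ (u44 (pt 0) (pt 2) 4 4) = 16
    rw [dot_u44, uA_val, u44_left pt01, u44_other (by decide) (by decide)]; norm_num
  have n1 : sqNorm ((z - v1 : leechLattice) : GolayPt → ℤ) = 32 := by
    show sqNorm ((z : GolayPt → ℤ) - (v1 : GolayPt → ℤ)) = 32
    rw [norm_sub, hz, hv1, d2]; norm_num
  have n2 : sqNorm ((uA - v1 : leechLattice) : GolayPt → ℤ) = 48 := by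
    show sqNorm ((uA : GolayPt → ℤ) - (v1 : GolayPt → ℤ)) = 48
    rw [norm_sub, norm_uA, hv1, d1]; norm_num
  have n3 : sqNorm ((uA - (z - v1) : leechLattice) : GolayPt → ℤ) = 48 := by
    show sqNorm ((uA : GolayPt → ℤ) - ((z : GolayPt → ℤ) - (v1 : GolayPt → ℤ))) = 48
    rw [norm_sub, norm_uA, show sqNorm ((z : GolayPt → ℤ) - (v1 : GolayPt → ℤ)) = 32 from n1, dot_sub_right, d3, d1]; norm_num
  have n4 : sqNorm ((uA - z : leechLattice) : GolayPt → ℤ) = 32 := by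
    show sqNorm ((uA : GolayPt → ℤ) - (z : GolayPt → ℤ)) = 32
    rw [norm_sub, norm_uA, hz, d3]; norm_num
  have h := hquad uA v1 (z - v1)
  rw [show uA + v1 + (z - v1) = uA + z by abel, Q_sub Q hcoset hinv uA z, Q32 Q hinv n4, Q32 Q hinv hv1, Q32 Q hinv n1, Q_sub Q hcoset hinv uA v1, Q48 Q hinv n2,
    Q_sub Q hcoset hinv uA (z - v1), Q48 Q hinv n3, show v1 + (z - v1) = z by abel, Q32 Q hinv hz] at h
  have h2 := z2_two (Q uA)
  have h3 := z2_two (Q u5)
  rw [h2, zero_add, h2, h3, zero_add] at h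
  exact h.symm

theorem Q_unique (hne : ∃ v : leechLattice, Q v ≠ 0) (v : leechLattice) : Q v = ((sqNorm (v : GolayPt → ℤ) / 16 : ℤ) : ZMod 2) := by
  have h0 := Q_zero Q hcoset hquad hinv
  have h32 := Q32_zero Q hcoset hquad hinv
  have h64 := Q64_zero Q hcoset hquad hinv
  have h48 : Q u5 = 1 := by
    obtain ⟨v, hv⟩ := hne
    obtain ⟨y, z, hvy, hy⟩ := exists_short v
    rw [hvy, hcoset] at hv
    rcases hy with rfl | hy | hy | hy
    · exact absurd h0 hv
    · rw [Q32 Q hinv hy] at hv; exact absurd h32 hv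
    · rw [Q48 Q hinv hy] at hv
      generalize Q u5 = a at hv
      revert a; decide
    · rw [Q64 Q hinv hy] at hv; exact absurd h64 hv
  obtain ⟨y, z, hvy, hy⟩ := exists_short v
  have hn : ∃ k : ℤ, sqNorm (v : GolayPt → ℤ) = sqNorm (y : GolayPt → ℤ) + 16 * (2 * k) := by
    obtain ⟨k, hk⟩ := dot_dvd y.2 z.2
    obtain ⟨l, hl⟩ := even_norm z.2
    refine ⟨k + 2 * l, ?_⟩
    rw [hvy]
    show sqNorm ((y : GolayPt → ℤ) + ((z : GolayPt → ℤ) + (z : GolayPt → ℤ))) = _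
    rw [norm_add, norm_add, dot_add_right, hk, hl, ← sqNorm_eq_dot, hl]; ring
  obtain ⟨k, hk⟩ := hn
  rw [hvy, hcoset, ← hvy, hk]
  have h2 : (((2 * k : ℤ)) : ZMod 2) = 0 := by push_cast; rw [show (2 : ZMod 2) = 0 from rfl, zero_mul]
  rcases hy with rfl | hy | hy | hy
  · rw [h0]
    show (0 : ZMod 2) = (((sqNorm (0 : GolayPt → ℤ) + 16 * (2 * k)) / 16 : ℤ) : ZMod 2)
    rw [show sqNorm (0 : GolayPt → ℤ) = 0 by unfold sqNorm; simp, zero_add, Int.mul_ediv_cancel_left _ (by norm_num), h2]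
  · rw [Q32 Q hinv hy, h32, hy, show ((32 + 16 * (2 * k)) / 16 : ℤ) = 2 * (k + 1) by omega]
    push_cast; rw [show (2 : ZMod 2) = 0 from rfl, zero_mul]
  · rw [Q48 Q hinv hy, h48, hy, show ((48 + 16 * (2 * k)) / 16 : ℤ) = 2 * (k + 1) + 1 by omega]
    push_cast; rw [show (2 : ZMod 2) = 0 from rfl, zero_mul, zero_add]
  · rw [Q64 Q hinv hy, h64, hy, show ((64 + 16 * (2 * k)) / 16 : ℤ) = 2 * (k + 2) by omega]
    push_cast; rw [show (2 : ZMod 2) = 0 from rfl, zero_mul]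

end

end CfsgLib.Leech
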