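import Mathlib
import Cfsg.Agent.Lib.Leech27

/-!
Reduction modulo four; a maximal totally singular subspace modulo two.
-/

set_option autoImplicit false

namespace CfsgLib.Leech

open CfsgLib.Golay Finset Cfsg
open scoped Pointwise

/-- reduction modulo four -/
def red4 : leechLattice →+ (GolayPt → ZMod 4) where
  toFun v := fun i => ((v : GolayPt → ℤ) i : ZMod 4)
  map_zero' := by funext i; show (((0 : ℤ)) : ZMod 4) = 0; norm_num
  map_add' x y := by funext i; show (((x : GolayPt → ℤ) i + (y : GolayPt → ℤ) i : ℤ) : ZMod 4) = _; push_cast; rfl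

/-- the reductions -/
def F4 (p : Bool × {c : Finset GolayPt // c ∈ GC}) : GolayPt → ZMod 4 := fun i => (if p.1 then 1 else 0) + (if i ∈ p.2.1 then 2 else 0)

theorem F4_inj : Function.Injective F4 := by
  rintro ⟨a, c, hc⟩ ⟨b, d, hd⟩ h
  have key : ∀ (a b : Bool) (s t : Prop) [Decidable s] [Decidable t], ((if a then 1 else 0 : ZMod 4) + (if s then 2 else 0) = (if b then 1 else 0) + (if t then 2 else 0)) → a = b ∧ (s ↔ t) := by
    intro a b s t _ _
    cases a <;> cases b <;> by_cases hs : s <;> by_cases ht : t <;> simp only [hs, ht] <;> decide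
  have h1 : ∀ i, a = b ∧ (i ∈ c ↔ i ∈ d) := fun i => key a b (i ∈ c) (i ∈ d) (congrFun h i)
  have h2 := (h1 (pt 0)).1
  have h3 : c = d := Finset.ext fun i => (h1 i).2
  subst h2; subst h3; rfl

theorem range_red4 : Set.range red4 = Set.range F4 := by
  classical
  ext r
  constructor
  · rintro ⟨v, rfl⟩
    have key : ∀ (x : ℤ) (a : ℤ), x % 4 = a → ((x : ℤ) : ZMod 4) = ((a : ℤ) : ZMod 4) := by
      intro x a h
      rw [ZMod.intCast_eq_intCast_iff]
      have : x ≡ a [ZMOD 4] := by
        rw [← h]; exact (Int.mod_modEq x 4).symm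
      exact this
    rcases nf_cases v.2 with ⟨C, hC, h1, -⟩ | ⟨C, hC, h1, -⟩
    · refine ⟨(false, ⟨C, hC⟩), funext fun i => ?_⟩
      show (if false then 1 else 0 : ZMod 4) + (if i ∈ C then 2 else 0) = ((v : GolayPt → ℤ) i : ZMod 4)
      rw [key _ _ (h1 i)]
      by_cases hi : i ∈ C
      · rw [if_pos hi, if_pos hi]; decide
      · rw [if_neg hi, if_neg hi]; decide
    · refine ⟨(true, ⟨C, hC⟩), funext fun i => ?_⟩
      show (if true then 1 else 0 : ZMod 4) + (if i ∈ C then 2 else 0) = ((v : GolayPt → ℤ) i : ZMod 4)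
      rw [key _ _ (h1 i)]
      by_cases hi : i ∈ C
      · rw [if_pos hi, if_pos hi, if_pos rfl]; decide
      · rw [if_neg hi, if_neg hi, if_pos rfl]; decide
  · rintro ⟨⟨b, C, hC⟩, rfl⟩
    cases b
    · refine ⟨⟨ww C, ww_mem hC⟩, funext fun i => ?_⟩
      show (((ww C i : ℤ)) : ZMod 4) = (if false then 1 else 0 : ZMod 4) + (if i ∈ C then 2 else 0)
      unfold ww
      by_cases hi : i ∈ C
      · rw [if_pos hi, if_pos hi]; decide
      · rw [if_neg hi, if_neg hi]; decide
    · refine ⟨mono (one_mem M24) hC • u3, funext fun i => ?_⟩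
      show ((((mono (one_mem M24) hC • u3 : leechLattice) : GolayPt → ℤ) i : ℤ) : ZMod 4) = (if true then 1 else 0 : ZMod 4) + (if i ∈ C then 2 else 0)
      rw [mono_one_apply]
      by_cases hi : i ∈ C
      · rw [if_pos hi, if_pos hi, if_pos rfl]
        show (((-(uo (pt 0) (-3) i) : ℤ)) : ZMod 4) = 1 + 2
        by_cases h0 : i = pt 0
        · rw [h0, uo_same]; decide
        · rw [uo_ne _ h0]; decide
      · rw [if_neg hi, if_neg hi, if_pos rfl]
        show (((uo (pt 0) (-3) i : ℤ)) : ZMod 4) = 1 + 0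
        by_cases h0 : i = pt 0
        · rw [h0, uo_same]; decide
        · rw [uo_ne _ h0]; decide

theorem card_range_red4 : Nat.card red4.range = 8192 := by
  have h1 : Nat.card red4.range = Nat.card (Set.range F4) := by
    rw [← range_red4]; rfl
  rw [h1, ← Nat.card_congr (Equiv.ofInjective F4 F4_inj), Nat.card_prod, card_GC']
  simp

/-- `{0, 2}` in every coordinate, constant -/
def tt : AddSubgroup (GolayPt → ZMod 4) := AddSubgroup.zmultiples (fun _ => 2)

theorem tt_mem {r : GolayPt → ZMod 4} : r ∈ tt ↔ r = 0 ∨ r = fun _ => 2 := by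
  rw [tt, AddSubgroup.mem_zmultiples_iff]
  have h2 : (fun _ => 2 : GolayPt → ZMod 4) + (fun _ => 2) = 0 := by
    funext i; show (2 : ZMod 4) + 2 = 0; decide
  constructor
  · rintro ⟨n, rfl⟩
    obtain ⟨k, rfl | rfl⟩ := Int.even_or_odd' n
    · left; rw [mul_comm, mul_zsmul, two_zsmul, h2, zsmul_zero]
    · right; rw [add_zsmul, mul_comm, mul_zsmul, two_zsmul, h2, zsmul_zero, zero_add, one_zsmul]
  · rintro (rfl | rfl)
    · exact ⟨0, zero_zsmul _⟩
    · exact ⟨1, one_zsmul _⟩

theorem card_tt : Nat.card (tt.addSubgroupOf red4.range) = 2 := by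
  have hmem : (fun _ => 2 : GolayPt → ZMod 4) ∈ red4.range := by
    have : (fun _ => 2 : GolayPt → ZMod 4) ∈ Set.range red4 := by
      rw [range_red4]
      refine ⟨(false, ⟨univ, univ_mem⟩), funext fun i => ?_⟩
      show (if false then 1 else 0 : ZMod 4) + (if i ∈ (univ : Finset GolayPt) then 2 else 0) = 2
      rw [if_pos (Finset.mem_univ i)]; decide
    exact this
  have hs : ((tt.addSubgroupOf red4.range : AddSubgroup red4.range) : Set red4.range) = {0, ⟨_, hmem⟩} := by
    ext x
    rw [SetLike.mem_coe, AddSubgroup.mem_addSubgroupOf, tt_mem]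
    constructor
    · rintro (h | h)
      · left; exact Subtype.ext h
      · right; exact Subtype.ext h
    · rintro (h | h)
      · left; rw [h]; rfl
      · right; rw [show x = ⟨_, hmem⟩ from h]
  have h2 : Nat.card (tt.addSubgroupOf red4.range) = ((tt.addSubgroupOf red4.range : AddSubgroup red4.range) : Set red4.range).ncard := Nat.card_coe_set_eq _
  rw [h2, hs, Set.ncard_pair]
  intro h
  have := congrFun (congrArg Subtype.val h) (pt 0)
  have h3 : (0 : ZMod 4) = 2 := this
  revert h3; decide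

theorem index_tt : (tt.comap red4).index = 4096 := by
  have h1 : tt.comap red4 = (tt.addSubgroupOf red4.range).comap red4.rangeRestrict := by
    ext x; rfl
  rw [h1, AddSubgroup.index_comap_of_surjective _ red4.rangeRestrict_surjective]
  have h2 := (tt.addSubgroupOf red4.range).card_mul_index
  rw [card_tt, card_range_red4] at h2
  omega

theorem norm_tt {v : leechLattice} (h : v ∈ tt.comap red4) : (32 : ℤ) ∣ sqNorm (v : GolayPt → ℤ) := by
  have key : ∀ w : leechLattice, (∀ i, (4 : ℤ) ∣ (w : GolayPt → ℤ) i) → (32 : ℤ) ∣ sqNorm (w : GolayPt → ℤ) := by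
    intro w hw
    have h0 : (w : GolayPt → ℤ) (pt 0) % 2 = 0 := by have := hw (pt 0); omega
    have hs : (∑ i, (w : GolayPt → ℤ) i) % 8 = 0 := by
      rcases nf_cases w.2 with ⟨C, hC, h1, h2⟩ | ⟨C, hC, h1, -⟩
      · exact h2
      · exfalso
        have h3 := h1 (pt 0)
        split_ifs at h3 <;> omega
    choose y hy using hw
    have h1 : ∑ i, (w : GolayPt → ℤ) i = 4 * ∑ i, y i := by rw [Finset.mul_sum]; exact Finset.sum_congr rfl fun i _ => hy i
    have h2 : sqNorm (w : GolayPt → ℤ) = 16 * ∑ i, (y i) ^ 2 := by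
      unfold sqNorm
      rw [Finset.mul_sum]
      exact Finset.sum_congr rfl fun i _ => by rw [hy i]; ring
    have h3 : (∑ i, (y i) ^ 2) % 2 = (∑ i, y i) % 2 := by
      have h4 : (2 : ℤ) ∣ ∑ i, (y i) ^ 2 - ∑ i, y i := by
        rw [← Finset.sum_sub_distrib]
        apply Finset.dvd_sum
        intro i _
        have : (y i) ^ 2 - y i = (y i - 1) * y i := by ring
        rw [this]
        rcases Int.even_or_odd (y i) with h | h
        · exact Dvd.dvd.mul_left h.two_dvd _
        · exact Dvd.dvd.mul_right (h.sub_odd odd_one).two_dvd _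
      omega
    omega
  have h1 : red4 v = 0 ∨ red4 v = fun _ => 2 := tt_mem.mp h
  have cast4 : ∀ x a : ℤ, ((x : ℤ) : ZMod 4) = ((a : ℤ) : ZMod 4) → (4 : ℤ) ∣ x - a := by
    intro x a h
    rw [ZMod.intCast_eq_intCast_iff] at h
    exact h.symm.dvd
  rcases h1 with h1 | h1
  · apply key
    intro i
    have h2 : (((v : GolayPt → ℤ) i : ℤ) : ZMod 4) = (((0 : ℤ)) : ZMod 4) := by
      have := congrFun h1 i
      push_cast; exact this
    have := cast4 _ _ h2
    rwa [sub_zero] at this
  · have h2 : ∀ i, (4 : ℤ) ∣ ((v - (u3 + u3) : leechLattice) : GolayPt → ℤ) i := by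
      intro i
      have h3 : (((v : GolayPt → ℤ) i : ℤ) : ZMod 4) = (((2 : ℤ)) : ZMod 4) := by
        have := congrFun h1 i
        push_cast; exact this
      have h4 := cast4 _ _ h3
      show (4 : ℤ) ∣ (v : GolayPt → ℤ) i - (uo (pt 0) (-3) i + uo (pt 0) (-3) i)
      by_cases h0 : i = pt 0
      · rw [h0] at h4 ⊢
        rw [uo_same]; omega
      · rw [uo_ne _ h0]; omega
    have h3 := key _ h2
    have h4 : v = (v - (u3 + u3)) + (u3 + u3) := by abel
    rw [h4]
    show (32 : ℤ) ∣ sqNorm (((v - (u3 + u3) : leechLattice) : GolayPt → ℤ) + (((u3 : leechLattice) : GolayPt → ℤ) + ((u3 : leechLattice) : GolayPt → ℤ)))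
    rw [norm_add, norm_add, dot_add_right, ← sqNorm_eq_dot, norm_u3]
    obtain ⟨k, hk⟩ := dot_dvd (v - (u3 + u3)).2 u3.2
    rw [hk]
    omega

end CfsgLib.Leech
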