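import Mathlib
import Cfsg.Agent.Lib.Leech28
import Cfsg.Prelude.Def_Spor_Conway

/-!
The explicit groups Co2, Co3, McL, HS; the representation of Co0 modulo 13.
-/

set_option autoImplicit false

namespace CfsgLib.Leech

open CfsgLib.Golay Finset Cfsg
open scoped Pointwise

/-- Co2 as a stabilizer in Co0 -/
def co2Equiv : Spor.Co2 ≃* MulAction.stabilizer Co0 Spor.leechU where
  toFun g := ⟨⟨g, g.2.1⟩, g.2.2⟩
  invFun g := ⟨(g : Co0), ⟨(g : Co0).2, g.2⟩⟩
  left_inv _ := rfl
  right_inv _ := rfl
  map_mul' _ _ := rfl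

/-- Co3 as a stabilizer in Co0 -/
def co3Equiv : Spor.Co3 ≃* MulAction.stabilizer Co0 Spor.leechV where
  toFun g := ⟨⟨g, g.2.1⟩, g.2.2⟩
  invFun g := ⟨(g : Co0), ⟨(g : Co0).2, g.2⟩⟩
  left_inv _ := rfl
  right_inv _ := rfl
  map_mul' _ _ := rfl

/-- McL as a stabilizer in Co0 -/
def mclEquiv : Spor.McL ≃* ↥(MulAction.stabilizer Co0 Spor.leechV ⊓ MulAction.stabilizer Co0 Spor.leechU) where
  toFun g := ⟨⟨g, g.2.1.1⟩, ⟨g.2.1.2, g.2.2⟩⟩
  invFun g := ⟨(g : Co0), ⟨⟨(g : Co0).2, g.2.1⟩, g.2.2⟩⟩
  left_inv _ := rfl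
  right_inv _ := rfl
  map_mul' _ _ := rfl

/-- HS as a stabilizer in Co0 -/
def hsEquiv : Spor.HS ≃* ↥(MulAction.stabilizer Co0 Spor.leechV ⊓ MulAction.stabilizer Co0 Spor.leechU') where
  toFun g := ⟨⟨g, g.2.1.1⟩, ⟨g.2.1.2, g.2.2⟩⟩
  invFun g := ⟨(g : Co0), ⟨⟨(g : Co0).2, g.2.1⟩, g.2.2⟩⟩
  left_inv _ := rfl
  right_inv _ := rfl
  map_mul' _ _ := rfl

theorem norm_leechU : sqNorm ((Spor.leechU : leechLattice) : GolayPt → ℤ) = 32 := by
  show ∑ i, Spor.vecU i ^ 2 = 32
  decide +kernel

theorem norm_leechU' : sqNorm ((Spor.leechU' : leechLattice) : GolayPt → ℤ) = 32 := by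
  show ∑ i, Spor.vecU' i ^ 2 = 32
  decide +kernel

theorem norm_leechV : sqNorm ((Spor.leechV : leechLattice) : GolayPt → ℤ) = 48 := by
  show ∑ i, Spor.vecV i ^ 2 = 48
  decide +kernel

theorem dot_VU : dotInt ((Spor.leechV : leechLattice) : GolayPt → ℤ) ((Spor.leechU : leechLattice) : GolayPt → ℤ) = -24 := by
  show ∑ i, Spor.vecV i * Spor.vecU i = -24
  decide +kernel

theorem dot_VU' : dotInt ((Spor.leechV : leechLattice) : GolayPt → ℤ) ((Spor.leechU' : leechLattice) : GolayPt → ℤ) = -16 := by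
  show ∑ i, Spor.vecV i * Spor.vecU' i = -16
  decide +kernel

/-- the representation modulo 13 -/
def rho13 : Co0 →* Matrix GolayPt GolayPt (ZMod 13) where
  toFun g := fun i j => (((g • e8 j : leechLattice) : GolayPt → ℤ) i : ZMod 13) * 5
  map_one' := by
    funext i j
    show (((((1 : Co0) • e8 j : leechLattice) : GolayPt → ℤ) i : ℤ) : ZMod 13) * 5 = _
    rw [one_smul, coe_e8, Matrix.one_apply, Pi.single_apply]
    split_ifs
    · decide
    · decide
  map_mul' g h := by
    funext i j
    show (((((g * h : Co0) • e8 j : leechLattice) : GolayPt → ℤ) i : ℤ) : ZMod 13) * 5 = ∑ k, ((((g • e8 k : leechLattice) : GolayPt → ℤ) i : ℤ) : ZMod 13) * 5 * (((((h • e8 j : leechLattice) : GolayPt → ℤ) k : ℤ) : ZMod 13) * 5)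
    have h1 : ∑ k, ((h • e8 j : leechLattice) : GolayPt → ℤ) k • (g • e8 k) = (8 : ℤ) • ((g * h) • e8 j) := by
      have h2 := congrArg (fun x => g • x) (sum_e8 (h • e8 j))
      have hz : ∀ (n : ℤ) (x : leechLattice), g • (n • x) = n • (g • x) := by
        intro n x
        let φ : leechLattice →+ leechLattice := { toFun := fun x => g • x, map_zero' := co_zero g, map_add' := fun a b => co_add g a b }
        exact map_zsmul φ n x
      have hs : ∀ (s : Finset GolayPt) (f : GolayPt → leechLattice), g • (∑ k ∈ s, f k) = ∑ k ∈ s, g • f k := by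
        intro s f
        let φ : leechLattice →+ leechLattice := { toFun := fun x => g • x, map_zero' := co_zero g, map_add' := fun a b => co_add g a b }
        exact map_sum φ f s
      simp only [hs, hz] at h2
      rw [h2, mul_smul]
    have h2 := congrFun (congrArg Subtype.val h1) i
    rw [AddSubgroup.val_finset_sum, Finset.sum_apply] at h2
    have h3 : ∑ k, ((h • e8 j : leechLattice) : GolayPt → ℤ) k * ((g • e8 k : leechLattice) : GolayPt → ℤ) i = 8 * (((g * h) • e8 j : leechLattice) : GolayPt → ℤ) i := h2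
    have h4 := congrArg (fun x : ℤ => (x : ZMod 13)) h3
    push_cast at h4
    have h5 : ∑ k, ((((g • e8 k : leechLattice) : GolayPt → ℤ) i : ℤ) : ZMod 13) * 5 * (((((h • e8 j : leechLattice) : GolayPt → ℤ) k : ℤ) : ZMod 13) * 5) = 25 * ∑ k, (((h • e8 j : leechLattice) : GolayPt → ℤ) k : ZMod 13) * (((g • e8 k : leechLattice) : GolayPt → ℤ) i : ZMod 13) := by
      rw [Finset.mul_sum]
      apply Finset.sum_congr rfl
      intro k _
      ring
    rw [h5, h4, ← mul_assoc, mul_comm _ (5 : ZMod 13)]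
    congr 1

/-- the functional -/
def phi13 : (GolayPt → ZMod 13) →ₗ[ZMod 13] ZMod 13 where
  toFun x := x (pt 0) + x (pt 1)
  map_add' x y := by show (x (pt 0) + y (pt 0)) + (x (pt 1) + y (pt 1)) = _; ring
  map_smul' a x := by show a * x (pt 0) + a * x (pt 1) = a * (x (pt 0) + x (pt 1)); ring

theorem phi13_apply (x : GolayPt → ZMod 13) : phi13 x = x (pt 0) + x (pt 1) := rfl

theorem phi13_rho {g : Co0} (hg : g • uA = uA) (x : GolayPt → ZMod 13) : phi13 (Matrix.toLin' (rho13 g) x) = phi13 x := by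
  have h : phi13.comp (Matrix.toLin' (rho13 g)) = phi13 := by
    apply LinearMap.pi_ext'
    intro j
    apply LinearMap.ext_ring
    rw [LinearMap.comp_apply, LinearMap.comp_apply, LinearMap.comp_apply, LinearMap.single_apply, Matrix.toLin'_apply, Matrix.mulVec_single_one, phi13_apply, phi13_apply]
    show ((((g • e8 j : leechLattice) : GolayPt → ℤ) (pt 0) : ℤ) : ZMod 13) * 5 + ((((g • e8 j : leechLattice) : GolayPt → ℤ) (pt 1) : ℤ) : ZMod 13) * 5 = (Pi.single j 1 : GolayPt → ZMod 13) (pt 0) + (Pi.single j 1 : GolayPt → ZMod 13) (pt 1)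
    have h1 := co_dot g (e8 j) uA
    rw [hg, uA_val, dot_u44, dot_u44, coe_e8] at h1
    have h2 : ((g • e8 j : leechLattice) : GolayPt → ℤ) (pt 0) + ((g • e8 j : leechLattice) : GolayPt → ℤ) (pt 1) = (Pi.single j 8 : GolayPt → ℤ) (pt 0) + (Pi.single j 8 : GolayPt → ℤ) (pt 1) := by omega
    have h3 := congrArg (fun x : ℤ => (x : ZMod 13) * 5) h2
    push_cast at h3
    rw [← add_mul, h3, add_mul]
    have key : ∀ i : GolayPt, (((Pi.single j 8 : GolayPt → ℤ) i : ℤ) : ZMod 13) * 5 = (Pi.single j 1 : GolayPt → ZMod 13) i := by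
      intro i
      rw [Pi.single_apply, Pi.single_apply]
      split_ifs <;> decide
    rw [key, key]
  exact LinearMap.congr_fun h x

/-- the hyperplane -/
def W13 : Submodule (ZMod 13) (GolayPt → ZMod 13) := LinearMap.ker phi13

theorem p13 : Fact (Nat.Prime 13) := ⟨by norm_num⟩

theorem finrank_W13 : haveI := p13; Module.finrank (ZMod 13) W13 = 23 := by
  haveI := p13
  have h := LinearMap.finrank_range_add_finrank_ker phi13
  rw [Module.finrank_fintype_fun_eq_card] at h
  have h2 : LinearMap.range phi13 = ⊤ := by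
    rw [LinearMap.range_eq_top]
    intro a
    refine ⟨Pi.single (pt 0) a, ?_⟩
    rw [phi13_apply, Pi.single_eq_same, Pi.single_eq_of_ne pt01.symm, add_zero]
  rw [h2, finrank_top, Module.finrank_self] at h
  have h3 : Fintype.card GolayPt = 24 := by decide
  rw [h3] at h
  show Module.finrank (ZMod 13) (LinearMap.ker phi13) = 23
  omega

/-- the restricted representation -/
noncomputable def rhoW : MulAction.stabilizer Co0 uA →* Module.End (ZMod 13) W13 where
  toFun g := (Matrix.toLin' (rho13 (g : Co0))).restrict (p := W13) (q := W13) (fun x hx => by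
    show phi13 (Matrix.toLin' (rho13 (g : Co0)) x) = 0
    rw [phi13_rho (MulAction.mem_stabilizer_iff.mp g.2)]; exact hx)
  map_one' := by
    apply LinearMap.ext
    intro x
    apply Subtype.ext
    show Matrix.toLin' (rho13 1) (x : GolayPt → ZMod 13) = x
    rw [map_one, Matrix.toLin'_one]; rfl
  map_mul' g h := by
    apply LinearMap.ext
    intro x
    apply Subtype.ext
    show Matrix.toLin' (rho13 ((g : Co0) * (h : Co0))) (x : GolayPt → ZMod 13) = Matrix.toLin' (rho13 (g : Co0)) (Matrix.toLin' (rho13 (h : Co0)) (x : GolayPt → ZMod 13))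
    rw [map_mul, Matrix.toLin'_mul]; rfl

theorem abs_le8 {x : GolayPt → ℤ} (h : sqNorm x = 64) (i : GolayPt) : x i ≤ 8 ∧ -8 ≤ x i := by
  have h1 : x i ^ 2 ≤ 64 := by
    rw [← h]
    unfold sqNorm
    exact Finset.single_le_sum (f := fun i => x i ^ 2) (fun i _ => sq_nonneg _) (Finset.mem_univ i)
  constructor <;> nlinarith

theorem rhoW_inj : Function.Injective rhoW := by
  rw [injective_iff_map_eq_one]
  intro g hg
  have hfix : ∀ j, j ≠ pt 0 → j ≠ pt 1 → (g : Co0) • e8 j = e8 j := by
    intro j h0 h1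
    have hW : (Pi.single j 1 : GolayPt → ZMod 13) ∈ W13 := by
      show phi13 _ = 0
      rw [phi13_apply, Pi.single_eq_of_ne h0.symm, Pi.single_eq_of_ne h1.symm, add_zero]
    have h2 := congrArg Subtype.val (LinearMap.congr_fun hg ⟨_, hW⟩)
    have h3 : Matrix.toLin' (rho13 (g : Co0)) (Pi.single j 1 : GolayPt → ZMod 13) = Pi.single j 1 := h2
    rw [Matrix.toLin'_apply, Matrix.mulVec_single_one] at h3
    have h4 : ∀ i, (((((g : Co0) • e8 j : leechLattice) : GolayPt → ℤ) i : ℤ) : ZMod 13) * 5 = (Pi.single j 1 : GolayPt → ZMod 13) i := fun i => congrFun h3 i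
    have hn : sqNorm (((g : Co0) • e8 j : leechLattice) : GolayPt → ℤ) = 64 := by rw [co_norm, norm_e8]
    have h5 : ∀ i, i ≠ j → (((g : Co0) • e8 j : leechLattice) : GolayPt → ℤ) i = 0 := by
      intro i hi
      have h6 := h4 i
      rw [Pi.single_eq_of_ne hi] at h6
      have h7 : (((((g : Co0) • e8 j : leechLattice) : GolayPt → ℤ) i : ℤ) : ZMod 13) = 0 := by
        generalize (((((g : Co0) • e8 j : leechLattice) : GolayPt → ℤ) i : ℤ) : ZMod 13) = a at h6
        revert a; decide
      rw [ZMod.intCast_zmod_eq_zero_iff_dvd] at h7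
      have h8 := abs_le8 hn i
      omega
    have h6 : (((g : Co0) • e8 j : leechLattice) : GolayPt → ℤ) j = 8 := by
      have h7 := h4 j
      rw [Pi.single_eq_same] at h7
      have h8 : (((((g : Co0) • e8 j : leechLattice) : GolayPt → ℤ) j : ℤ) : ZMod 13) = ((8 : ℤ) : ZMod 13) := by
        generalize (((((g : Co0) • e8 j : leechLattice) : GolayPt → ℤ) j : ℤ) : ZMod 13) = a at h7
        revert a; decide
      rw [ZMod.intCast_eq_intCast_iff] at h8
      have h9 := h8.symm.dvd
      have h10 := abs_le8 hn j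
      have h11 : sqNorm (((g : Co0) • e8 j : leechLattice) : GolayPt → ℤ) = (((g : Co0) • e8 j : leechLattice) : GolayPt → ℤ) j ^ 2 := by
        unfold sqNorm
        rw [Finset.sum_eq_single j]
        · intro i _ hi; rw [h5 i hi]; norm_num
        · intro h; exact absurd (Finset.mem_univ _) h
      rw [hn] at h11
      generalize (((g : Co0) • e8 j : leechLattice) : GolayPt → ℤ) j = b at h9 h10 h11
      have h12 : b = 8 ∨ b = -5 := by omega
      rcases h12 with rfl | rfl
      · rfl
      · norm_num at h11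
    apply Subtype.ext
    funext i
    by_cases hi : i = j
    · rw [hi, h6, coe_e8, Pi.single_eq_same]
    · rw [h5 i hi, coe_e8, Pi.single_eq_of_ne hi]
  -- hence trivial
  have h1 : (g : Co0) = 1 := by
    obtain ⟨σ, hσ, c, hc, hgm⟩ := mono_of_std (g : Co0) (std_of_one (Or.inl (hfix (pt 2) (by decide) (by decide))))
    have hval : ∀ j, j ≠ pt 0 → j ≠ pt 1 → σ j = j ∧ j ∉ c := by
      intro j h0 h1
      have h2 := hfix j h0 h1
      rw [hgm, mono_e8] at h2
      by_cases hc' : σ j ∈ c
      · rw [if_pos hc'] at h2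
        exfalso
        have h3 := congrFun (congrArg Subtype.val h2) j
        have h4 : -((Pi.single (σ j) 8 : GolayPt → ℤ) j) = (Pi.single j 8 : GolayPt → ℤ) j := h3
        rw [Pi.single_eq_same, Pi.single_apply] at h4
        split_ifs at h4 <;> omega
      · rw [if_neg hc'] at h2
        have h3 := congrFun (congrArg Subtype.val h2) j
        have h4 : ((Pi.single (σ j) 8 : GolayPt → ℤ) j) = (Pi.single j 8 : GolayPt → ℤ) j := h3
        rw [Pi.single_eq_same, Pi.single_apply] at h4
        split_ifs at h4 with h5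
        · rw [← h5] at hc'; exact ⟨h5.symm, hc'⟩
        · omega
    have hσ1 : σ = 1 := by
      apply eq_one_of_fix_ten hσ (univ \ {pt 0, pt 1})
      · rw [Finset.card_sdiff_of_subset (Finset.subset_univ _), card_univ_G, Finset.card_pair pt01]; norm_num
      · intro p hp
        simp only [Finset.mem_sdiff, Finset.mem_univ, true_and, Finset.mem_insert, Finset.mem_singleton, not_or] at hp
        exact (hval p hp.1 hp.2).1
    have hce : c = ∅ := by
      rcases GC_card_cases hc with hc0 | hc0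
      · exact hc0
      exfalso
      have h2 : c ⊆ {pt 0, pt 1} := by
        intro j hj
        by_contra h3
        simp only [Finset.mem_insert, Finset.mem_singleton, not_or] at h3
        exact (hval j h3.1 h3.2).2 hj
      have h3 := Finset.card_le_card h2
      rw [Finset.card_pair pt01] at h3
      omega
    subst hσ1; subst hce
    rw [hgm]; exact mo.map_one
  exact Subtype.ext h1

theorem co2_embed : ∃ f : Spor.Co2 →* GL (Fin 23) (ZMod 13), Function.Injective f := by
  haveI := p13
  obtain ⟨g, hg⟩ := trans32 Spor.leechU norm_leechU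
  obtain ⟨e⟩ := stab_conj g hg
  let b := Module.finBasisOfFinrankEq (ZMod 13) W13 finrank_W13
  let F : Spor.Co2 →* Matrix (Fin 23) (Fin 23) (ZMod 13) :=
    ((LinearMap.toMatrixAlgEquiv b).toMonoidHom).comp (rhoW.comp (co2Equiv.trans e).toMonoidHom)
  have hF : Function.Injective F := by
    intro x y hxy
    have h1 := (LinearMap.toMatrixAlgEquiv b).injective hxy
    have h2 := rhoW_inj h1
    exact (co2Equiv.trans e).injective h2
  refine ⟨F.toHomUnits, fun x y hxy => hF ?_⟩
  exact congrArg Units.val hxy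

end CfsgLib.Leech
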