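import Mathlib
set_option autoImplicit false
set_option linter.style.haveILetI false
set_option linter.unusedSectionVars false

/-! Minimal degrees: eigenspaces of abelian groups, determinants of involutions. -/

namespace CfsgLib.MD

section eig
variable {W : Type*} [AddCommGroup W] [Fintype W] {V : Type*} [AddCommGroup V] [Module ℂ V]
  (σ : W → (V →ₗ[ℂ] V)) (h0 : σ 0 = 1) (hadd : ∀ w w', σ (w + w') = σ w * σ w')

/-- eigenvectors -/
def Eig (χ : AddChar W ℂ) (x : V) : Prop := ∀ w, σ w x = χ w • x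

/-- projections -/
noncomputable def pr (χ : AddChar W ℂ) : V →ₗ[ℂ] V := (Fintype.card W : ℂ)⁻¹ • ∑ w, χ (-w) • σ w

theorem pr_apply (χ : AddChar W ℂ) (x : V) : pr σ χ x = (Fintype.card W : ℂ)⁻¹ • ∑ w, χ (-w) • σ w x := by
  simp [pr]

include hadd in
theorem pr_eig (χ : AddChar W ℂ) (x : V) : Eig σ χ (pr σ χ x) := by
  intro w
  rw [pr_apply, map_smul, map_sum, smul_comm (χ w)]
  congr 1
  rw [Finset.smul_sum]
  refine Fintype.sum_equiv (Equiv.addLeft w) _ _ (fun u => ?_)
  rw [map_smul, smul_smul, Equiv.coe_addLeft, neg_add, AddChar.map_add_eq_mul, ← mul_assoc, ← AddChar.map_add_eq_mul, add_neg_cancel,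
    AddChar.map_zero_eq_one, one_mul, hadd]
  rfl

include h0 in
theorem sum_pr (x : V) : ∑ χ : AddChar W ℂ, pr σ χ x = x := by
  classical
  simp only [pr_apply]
  rw [← Finset.smul_sum, Finset.sum_comm]
  have h1 : ∀ w : W, ∑ χ : AddChar W ℂ, χ (-w) • σ w x = (if -w = 0 then (Fintype.card W : ℂ) else 0) • σ w x := by
    intro w
    rw [← AddChar.sum_apply_eq_ite, Finset.sum_smul]
  simp only [h1, neg_eq_zero, ite_smul, zero_smul]
  rw [Finset.sum_ite_eq' Finset.univ (0 : W), if_pos (Finset.mem_univ _), h0, smul_smul,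
    inv_mul_cancel₀ (Nat.cast_ne_zero.mpr Fintype.card_ne_zero), one_smul]
  rfl

theorem pr_of_eig {χ : AddChar W ℂ} {x : V} (h : Eig σ χ x) : pr σ χ x = x := by
  rw [pr_apply]
  have h1 : ∀ w : W, χ (-w) • σ w x = x := by
    intro w
    rw [h w, smul_smul, ← AddChar.map_add_eq_mul, neg_add_cancel, AddChar.map_zero_eq_one, one_smul]
  simp only [h1, Finset.sum_const, Finset.card_univ]
  rw [← Nat.cast_smul_eq_nsmul ℂ, smul_smul, inv_mul_cancel₀ (Nat.cast_ne_zero.mpr Fintype.card_ne_zero), one_smul]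

theorem pr_of_eig_ne {χ χ' : AddChar W ℂ} (hne : χ' ≠ χ) {x : V} (h : Eig σ χ' x) : pr σ χ x = 0 := by
  rw [pr_apply]
  have h1 : ∀ w : W, χ (-w) • σ w x = (χ' - χ) w • x := by
    intro w
    rw [h w, smul_smul, AddChar.sub_apply, mul_comm]
  simp only [h1]
  rw [← Finset.sum_smul, AddChar.sum_eq_zero_iff_ne_zero.mpr (sub_ne_zero.mpr hne), zero_smul, smul_zero]

theorem card_le [FiniteDimensional ℂ V] (S : Finset (AddChar W ℂ)) (hS : ∀ χ ∈ S, ∃ x, x ≠ 0 ∧ Eig σ χ x) :
    S.card ≤ Module.finrank ℂ V := by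
  classical
  choose e he using fun χ : S => hS χ.1 χ.2
  have hli : LinearIndependent ℂ e := by
    rw [linearIndependent_iff']
    intro s g hg i hi
    have h1 := congrArg (pr σ i.1) hg
    rw [map_sum, map_zero, Finset.sum_eq_single i] at h1
    · rw [map_smul, pr_of_eig σ (he i).2] at h1
      exact (smul_eq_zero.mp h1).resolve_right (he i).1
    · intro j _ hji
      rw [map_smul, pr_of_eig_ne σ (fun h => hji (Subtype.ext h)) (he j).2, smul_zero]
    · intro h
      exact absurd hi h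
  have := hli.fintype_card_le_finrank
  rwa [Fintype.card_coe] at this

end eig

section det

theorem pm_multiset (s : Multiset ℂ) (h : ∀ x ∈ s, x * x = 1) : ∃ a b : ℕ, s.card = a + b ∧ s.sum = (a : ℂ) - b ∧ s.prod = (-1) ^ b := by
  induction s using Multiset.induction_on with
  | empty => exact ⟨0, 0, by simp, by simp, by simp⟩
  | cons x s ih =>
    obtain ⟨a, b, h1, h2, h3⟩ := ih (fun y hy => h y (Multiset.mem_cons_of_mem hy))
    have hx := h x (Multiset.mem_cons_self x s)
    rcases mul_self_eq_one_iff.mp hx with rfl | rfl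
    · refine ⟨a + 1, b, ?_, ?_, ?_⟩
      · rw [Multiset.card_cons, h1]; ring
      · rw [Multiset.sum_cons, h2]; push_cast; ring
      · rw [Multiset.prod_cons, h3, one_mul]
    · refine ⟨a, b + 1, ?_, ?_, ?_⟩
      · rw [Multiset.card_cons, h1]; ring
      · rw [Multiset.sum_cons, h2]; push_cast; ring
      · rw [Multiset.prod_cons, h3, pow_succ, mul_comm]

theorem det_mat {k : ℕ} (T : Matrix (Fin k) (Fin k) ℂ) (h : T * T = 1) (htr : T.trace = 0) : ∃ j, k = 2 * j ∧ T.det = (-1) ^ j := by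
  have h1 : ∀ μ ∈ T.charpoly.roots, μ * μ = 1 := by
    intro μ hμ
    have h2 : (Matrix.scalar (Fin k) μ - T).det = 0 := by
      rw [← Matrix.eval_charpoly]
      exact (Polynomial.mem_roots'.mp hμ).2
    have h3 : ((Matrix.scalar (Fin k) μ - T) * (Matrix.scalar (Fin k) μ + T)).det = 0 := by rw [Matrix.det_mul, h2, zero_mul]
    have h4 : (Matrix.scalar (Fin k) μ - T) * (Matrix.scalar (Fin k) μ + T) = (μ * μ - 1) • (1 : Matrix (Fin k) (Fin k) ℂ) := by
      have hc : Matrix.scalar (Fin k) μ * T = T * Matrix.scalar (Fin k) μ := (Matrix.scalar_commute μ (fun r => mul_comm _ _) T).eq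
      rw [mul_add, sub_mul, sub_mul, h, hc, ← map_mul, sub_smul, one_smul]
      have : Matrix.scalar (Fin k) (μ * μ) = (μ * μ) • (1 : Matrix (Fin k) (Fin k) ℂ) := by
        rw [Matrix.scalar_apply, Matrix.smul_one_eq_diagonal]
      rw [← this]
      abel
    rw [h4, Matrix.det_smul, Matrix.det_one, mul_one] at h3
    by_cases hk : k = 0
    · subst hk
      exfalso
      have h6 : T.charpoly = 1 := by
        rw [Matrix.charpoly, Matrix.det_isEmpty]
      rw [h6] at hμ
      simp at hμ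
    · have h6 := (pow_eq_zero_iff (by rw [Fintype.card_fin]; exact hk)).mp h3
      exact sub_eq_zero.mp h6
  obtain ⟨a, b, h2, h3, h4⟩ := pm_multiset _ h1
  have h5 : T.charpoly.roots.card = k := by
    rw [← (IsAlgClosed.splits T.charpoly).natDegree_eq_card_roots, Matrix.charpoly_natDegree_eq_dim, Fintype.card_fin]
  rw [← Matrix.trace_eq_sum_roots_charpoly, htr] at h3
  have hab : a = b := by
    have : (a : ℂ) = b := by linear_combination -h3
    exact_mod_cast this
  refine ⟨b, by omega, ?_⟩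
  rw [Matrix.det_eq_prod_roots_charpoly, h4]

theorem det_lin {k : ℕ} (f : (Fin k → ℂ) →ₗ[ℂ] (Fin k → ℂ)) (h : f * f = 1) (htr : LinearMap.trace ℂ _ f = 0) :
    ∃ j, k = 2 * j ∧ LinearMap.det f = (-1) ^ j := by
  have h1 := det_mat (LinearMap.toMatrix (Pi.basisFun ℂ (Fin k)) (Pi.basisFun ℂ (Fin k)) f) (by
    rw [← LinearMap.toMatrix_mul, h, LinearMap.toMatrix_one]) (by
    rw [← LinearMap.trace_eq_matrix_trace]; exact htr)
  obtain ⟨j, h2, h3⟩ := h1
  exact ⟨j, h2, by rw [← LinearMap.det_toMatrix (Pi.basisFun ℂ (Fin k)), h3]⟩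

theorem det_perfect {G : Type*} [Group G] (hG : commutator G = ⊤) {k : ℕ} (ρ : Representation ℂ G (Fin k → ℂ)) (g : G) :
    LinearMap.det (ρ g) = 1 := by
  let f : G →* ℂˣ := (LinearMap.det.comp ρ).toHomUnits
  have h1 : f.ker = ⊤ := by
    rw [eq_top_iff, ← hG]
    exact Abelianization.commutator_subset_ker f
  have h2 : g ∈ f.ker := by rw [h1]; trivial
  have h3 := congrArg Units.val (MonoidHom.mem_ker.mp h2)
  exact h3

end det

section irr
variable {G : Type*} [Group G] {k : ℕ} (ρ : Representation ℂ G (Fin k → ℂ))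

theorem nontriv_of_irr (hρ : ρ.IsIrreducible) (hk : 2 ≤ k) : ∃ g, ρ g ≠ 1 := by
  by_contra hc
  push Not at hc
  let e : Fin k → ℂ := Pi.single ⟨0, by omega⟩ 1
  let S : Subrepresentation ρ := ⟨Submodule.span ℂ {e}, fun g v hv => by rw [hc g]; exact hv⟩
  rcases hρ.eq_bot_or_eq_top S with h | h
  · have h1 : e ∈ (⊥ : Subrepresentation ρ) := by
      rw [← h]
      exact Submodule.mem_span_singleton_self e
    have h2 : e = 0 := h1
    have h3 := congrFun h2 ⟨0, by omega⟩
    simp [e] at h3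
  · have h1 : (Pi.single ⟨1, by omega⟩ 1 : Fin k → ℂ) ∈ S := by
      rw [h]; trivial
    obtain ⟨c, hc⟩ := Submodule.mem_span_singleton.mp h1
    have h3 := congrFun hc ⟨1, by omega⟩
    simp [e, Pi.single_apply] at h3

theorem faithful_of_irr [IsSimpleGroup G] (hρ : ρ.IsIrreducible) (hk : 2 ≤ k) {g : G} (hg : g ≠ 1) : ρ g ≠ 1 := by
  intro h
  let N : Subgroup G := MonoidHom.ker (MonoidHom.toHomUnits ρ)
  have hN : ∀ x, x ∈ N ↔ ρ x = 1 := by
    intro x
    rw [MonoidHom.mem_ker, Units.ext_iff]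
    rfl
  rcases (inferInstance : N.Normal).eq_bot_or_eq_top with h1 | h1
  · have : g ∈ N := (hN g).mpr h
    rw [h1, Subgroup.mem_bot] at this
    exact hg this
  · obtain ⟨x, hx⟩ := nontriv_of_irr ρ hρ hk
    exact hx ((hN x).mp (by rw [h1]; trivial))

end irr

end CfsgLib.MD
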