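import Cfsg.Agent.Lib.MD1
set_option autoImplicit false
set_option linter.style.haveILetI false
set_option linter.unusedSectionVars false

/-! Minimal degrees of the small Ree groups: the abstract argument. -/

namespace CfsgLib.MD

variable {K : Type*} [Field K] [Fintype K] {G : Type*} [Group G] (a : K × K → G) (hb : Kˣ → G) (cb : Kˣ → Kˣ) (r : K → G) (T : G)

/-- additive characters of a finite field -/
theorem exists_shift {β0 : AddChar K ℂ} (h0 : β0 ≠ 1) (β : AddChar K ℂ) : ∃ c, ∀ v, β v = β0 (c * v) := by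
  have h1 := AddChar.to_mulShift_inj_of_isPrimitive (AddChar.IsPrimitive.of_ne_one h0)
  have h2 : Function.Bijective (AddChar.mulShift β0) :=
    (Fintype.bijective_iff_injective_and_card _).mpr ⟨h1, AddChar.card_eq.symm⟩
  obtain ⟨c, hc⟩ := h2.2 β
  refine ⟨c, fun v => ?_⟩
  rw [← hc, AddChar.mulShift_apply]

/-- restrictions of characters -/
def rs (χ : AddChar (K × K) ℂ) : AddChar K ℂ where
  toFun v := χ (0, v)
  map_zero_eq_one' := AddChar.map_zero_eq_one χ
  map_add_eq_mul' v w := by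
    rw [← AddChar.map_add_eq_mul]
    congr 1
    rw [Prod.mk_add_mk, add_zero]

def rs1 (χ : AddChar (K × K) ℂ) : AddChar K ℂ where
  toFun v := χ (v, 0)
  map_zero_eq_one' := AddChar.map_zero_eq_one χ
  map_add_eq_mul' v w := by
    rw [← AddChar.map_add_eq_mul]
    congr 1
    rw [Prod.mk_add_mk, add_zero]

theorem χ_split (χ : AddChar (K × K) ℂ) (u v : K) : χ (u, v) = χ (u, 0) * χ (0, v) := by
  rw [← AddChar.map_add_eq_mul]
  congr 1
  rw [Prod.mk_add_mk, add_zero, zero_add]

/-- count of the characters trivial on the centre -/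
theorem card_triv [DecidableEq (AddChar K ℂ)] : (Finset.univ.filter fun χ : AddChar (K × K) ℂ => rs χ = 1).card = Fintype.card K := by
  rw [← AddChar.card_eq (α := K), ← Fintype.card_subtype]
  refine Fintype.card_congr (Equiv.ofBijective (fun χ : {χ : AddChar (K × K) ℂ // rs χ = 1} => rs1 χ.1) ⟨?_, ?_⟩)
  · rintro ⟨χ, hχ⟩ ⟨χ', hχ'⟩ h
    apply Subtype.ext
    ext ⟨u, v⟩
    change χ (u, v) = χ' (u, v)
    rw [χ_split χ, χ_split χ']
    have h1 : χ (u, 0) = χ' (u, 0) := congrArg (fun f : AddChar K ℂ => f u) h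
    have h2 : χ (0, v) = 1 := congrArg (fun f : AddChar K ℂ => f v) hχ
    have h3 : χ' (0, v) = 1 := congrArg (fun f : AddChar K ℂ => f v) hχ'
    rw [h1, h2, h3]
  · intro α
    let χ : AddChar (K × K) ℂ :=
      { toFun := fun w => α w.1
        map_zero_eq_one' := AddChar.map_zero_eq_one α
        map_add_eq_mul' := fun w w' => AddChar.map_add_eq_mul α w.1 w'.1 }
    refine ⟨⟨χ, ?_⟩, ?_⟩
    · ext v
      exact AddChar.map_zero_eq_one α
    · ext u
      rfl

theorem card_nontriv [DecidableEq (AddChar K ℂ)] : (Finset.univ.filter fun χ : AddChar (K × K) ℂ => rs χ ≠ 1).card =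
    Fintype.card K ^ 2 - Fintype.card K := by
  have h1 := Finset.card_filter_add_card_filter_not (s := (Finset.univ : Finset (AddChar (K × K) ℂ))) (fun χ => rs χ = 1)
  rw [card_triv, Finset.card_univ, AddChar.card_eq, Fintype.card_prod, ← pow_two] at h1
  have h2 : (Finset.univ.filter fun χ : AddChar (K × K) ℂ => ¬ rs χ = 1) = Finset.univ.filter fun χ : AddChar (K × K) ℂ => rs χ ≠ 1 := rfl
  rw [h2] at h1
  omega

theorem ree_degree (hadd : ∀ w w', a (w + w') = a w * a w') (hh : ∀ b u v, hb b * a (u, v) * (hb b)⁻¹ = a (cb b * u, b * v))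
    (hr : ∀ t u v, a (u, v) * r t = r t * a (u, v - t * u)) (hT : T * T = 1) (hTa : ∀ v, T * a (0, v) * T⁻¹ = a (0, -v))
    (hG : commutator G = ⊤) (h2 : (2 : K) ≠ 0) (hq : Fintype.card K % 4 = 3) {k : ℕ} (ρ : Representation ℂ G (Fin k → ℂ))
    (hne : ∃ v, ρ (a (0, v)) ≠ 1) : Fintype.card K ^ 2 - Fintype.card K + 1 ≤ k := by
  classical
  set σ : K × K → ((Fin k → ℂ) →ₗ[ℂ] (Fin k → ℂ)) := fun w => ρ (a w) with hσ
  have a0 : a 0 = 1 := by
    have := hadd 0 0
    rw [add_zero] at this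
    exact mul_eq_left.mp this.symm
  have s0 : σ 0 = 1 := by rw [hσ]; simp only; rw [a0, map_one]
  have sadd : ∀ w w', σ (w + w') = σ w * σ w' := fun w w' => by rw [hσ]; simp only; rw [hadd, map_mul]
  -- an eigenvector
  obtain ⟨χ0, hχ0, x0, hx0, he0⟩ : ∃ χ0 : AddChar (K × K) ℂ, rs χ0 ≠ 1 ∧ ∃ x, x ≠ 0 ∧ Eig σ χ0 x := by
    by_contra hc
    push Not at hc
    obtain ⟨v, hv⟩ := hne
    apply hv
    apply LinearMap.ext
    intro x
    have h1 := sum_pr σ s0 x
    have h3 : ∀ χ : AddChar (K × K) ℂ, σ (0, v) (pr σ χ x) = pr σ χ x := by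
      intro χ
      have he := pr_eig σ sadd χ x
      by_cases hχ : rs χ = 1
      · have h4 := he (0, v)
        rw [show χ (0, v) = 1 from congrArg (fun f : AddChar K ℂ => f v) hχ, one_smul] at h4
        exact h4
      · have h4 : pr σ χ x = 0 := by
          by_contra h5
          exact hc χ hχ _ h5 he
        rw [h4, map_zero]
    change σ (0, v) x = x
    calc σ (0, v) x = σ (0, v) (∑ χ : AddChar (K × K) ℂ, pr σ χ x) := by rw [h1]
      _ = ∑ χ : AddChar (K × K) ℂ, pr σ χ x := by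
        rw [map_sum]
        exact Finset.sum_congr rfl fun χ _ => h3 χ
      _ = x := h1
  -- transitivity
  have hall : ∀ χ : AddChar (K × K) ℂ, rs χ ≠ 1 → ∃ x, x ≠ 0 ∧ Eig σ χ x := by
    intro χ hχ
    obtain ⟨c, hc⟩ := exists_shift hχ0 (rs χ)
    have hc0 : c ≠ 0 := by
      rintro rfl
      apply hχ
      ext v
      rw [hc, zero_mul, AddChar.map_zero_eq_one, AddChar.one_apply]
    set b : Kˣ := (Units.mk0 c hc0)⁻¹ with hbdef
    have hinj : ∀ g : G, Function.Injective (ρ g) := by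
      intro g x y hxy
      have h1 : ρ g⁻¹ (ρ g x) = ρ g⁻¹ (ρ g y) := by rw [hxy]
      have h3 : ∀ z, ρ g⁻¹ (ρ g z) = z := by
        intro z
        change (ρ g⁻¹ * ρ g) z = z
        rw [← map_mul, inv_mul_cancel, map_one]
        rfl
      rwa [h3, h3] at h1
    -- the first step
    have h4 : ∀ u v, σ (u, v) (ρ (hb b) x0) = χ0 (((cb b)⁻¹ : Kˣ) * u, c * v) • ρ (hb b) x0 := by
      intro u v
      have h5 : a (u, v) * hb b = hb b * a (((cb b)⁻¹ : Kˣ) * u, c * v) := by
        have h6 := hh b (((cb b)⁻¹ : Kˣ) * u) (c * v)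
        have e1 : (cb b : K) * (((cb b)⁻¹ : Kˣ) * u) = u := by rw [← mul_assoc, ← Units.val_mul, mul_inv_cancel, Units.val_one, one_mul]
        have e2 : (b : K) * (c * v) = v := by
          rw [hbdef, Units.val_inv_eq_inv_val, Units.val_mk0, ← mul_assoc, inv_mul_cancel₀ hc0, one_mul]
        rw [e1, e2] at h6
        rw [← h6]; group
      change (ρ (a (u, v)) * ρ (hb b)) x0 = _
      rw [← map_mul, h5, map_mul]
      change ρ (hb b) (σ (((cb b)⁻¹ : Kˣ) * u, c * v) x0) = _
      rw [he0, map_smul]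
    -- the second
    let α : AddChar K ℂ :=
      { toFun := fun u => χ (u, 0) * (χ0 (((cb b)⁻¹ : Kˣ) * u, 0))⁻¹
        map_zero_eq_one' := by
          rw [mul_zero, show ((0 : K), (0 : K)) = 0 from rfl, AddChar.map_zero_eq_one, AddChar.map_zero_eq_one, inv_one, mul_one]
        map_add_eq_mul' := fun u u' => by
          have e1 : ((u + u', (0 : K)) : K × K) = (u, 0) + (u', 0) := by rw [Prod.mk_add_mk, add_zero]
          have e2 : ((((cb b)⁻¹ : Kˣ) * (u + u'), (0 : K)) : K × K) = (((cb b)⁻¹ : Kˣ) * u, 0) + (((cb b)⁻¹ : Kˣ) * u', 0) := by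
            rw [Prod.mk_add_mk, add_zero, mul_add]
          rw [e1, e2, AddChar.map_add_eq_mul, AddChar.map_add_eq_mul, mul_inv]
          ring }
    obtain ⟨s, hs⟩ := exists_shift hχ α
    set t := -s with ht
    refine ⟨ρ (r t) (ρ (hb b) x0), ?_, ?_⟩
    · intro h5
      apply hx0
      apply hinj (hb b)
      apply hinj (r t)
      rw [h5, map_zero, map_zero]
    · rintro ⟨u, v⟩
      change (ρ (a (u, v)) * ρ (r t)) (ρ (hb b) x0) = _
      rw [← map_mul, hr, map_mul]
      change ρ (r t) (σ (u, v - t * u) (ρ (hb b) x0)) = _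
      rw [h4, map_smul]
      congr 1
      have e1 : c * (v - t * u) = c * v + c * (s * u) := by rw [ht]; ring
      have e2 : χ0 (((cb b)⁻¹ : Kˣ) * u, c * (v - t * u)) = χ0 (((cb b)⁻¹ : Kˣ) * u, 0) * (rs χ0 (c * v) * rs χ0 (c * (s * u))) := by
        rw [χ_split, e1]
        congr 1
        rw [← AddChar.map_add_eq_mul]
        rfl
      rw [e2, ← hc, ← hc, ← hs]
      change χ0 (((cb b)⁻¹ : Kˣ) * u, 0) * (χ (0, v) * (χ (u, 0) * (χ0 (((cb b)⁻¹ : Kˣ) * u, 0))⁻¹)) = χ (u, v)
      have h7 : χ0 (((cb b)⁻¹ : Kˣ) * u, 0) ≠ 0 := by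
        have := AddChar.map_add_eq_mul χ0 (((cb b)⁻¹ : Kˣ) * u, (0 : K)) (-(((cb b)⁻¹ : Kˣ) * u, (0 : K)))
        rw [add_neg_cancel, AddChar.map_zero_eq_one] at this
        intro h8
        rw [h8, zero_mul] at this
        exact one_ne_zero this
      rw [χ_split χ u v]
      field_simp
  have hfr : Module.finrank ℂ (Fin k → ℂ) = k := by simp
  have hS := card_le σ (Finset.univ.filter fun χ : AddChar (K × K) ℂ => rs χ ≠ 1) (fun χ hχ => hall χ (Finset.mem_filter.mp hχ).2)
  rw [card_nontriv, hfr] at hS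
  by_contra hlt
  push Not at hlt
  have hk : k = Fintype.card K ^ 2 - Fintype.card K := by omega
  -- nothing else
  have hno : ∀ χ : AddChar (K × K) ℂ, rs χ = 1 → ∀ x, Eig σ χ x → x = 0 := by
    intro χ hχ x hx
    by_contra hx0
    have h3 := card_le σ (insert χ (Finset.univ.filter fun χ : AddChar (K × K) ℂ => rs χ ≠ 1)) (fun χ' hχ' => by
      rcases Finset.mem_insert.mp hχ' with rfl | h4
      · exact ⟨x, hx0, hx⟩
      · exact hall χ' (Finset.mem_filter.mp h4).2)
    rw [Finset.card_insert_of_notMem (by simp [hχ]), card_nontriv, hfr] at h3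
    omega
  -- the sum over the centre vanishes
  have hsum : ∀ x, ∑ v : K, σ (0, v) x = 0 := by
    intro x
    set y := ∑ v : K, σ (0, v) x with hy
    have hfix : ∀ w, σ (0, w) y = y := by
      intro w
      rw [hy, map_sum]
      refine Fintype.sum_equiv (Equiv.addLeft w) _ _ (fun v => ?_)
      have : ((0 : K), w + v) = (0, w) + (0, v) := by rw [Prod.mk_add_mk, add_zero]
      rw [Equiv.coe_addLeft, this, sadd]
      rfl
    rw [← sum_pr σ s0 y]
    refine Finset.sum_eq_zero fun χ _ => ?_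
    by_cases hχ : rs χ = 1
    · exact hno χ hχ _ (pr_eig σ sadd χ y)
    · have hcomm : ∀ w, σ (0, w) (pr σ χ y) = pr σ χ (σ (0, w) y) := by
        intro w
        rw [pr_apply, pr_apply, map_smul, map_sum]
        congr 1
        refine Finset.sum_congr rfl fun z _ => ?_
        rw [map_smul]
        congr 1
        change (σ (0, w) * σ z) y = (σ z * σ (0, w)) y
        rw [← sadd, ← sadd, add_comm]
      obtain ⟨w, hw⟩ : ∃ w, rs χ w ≠ 1 := by
        by_contra h5
        push Not at h5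
        exact hχ (by ext w; rw [h5 w, AddChar.one_apply])
      have h5 := hcomm w
      rw [hfix, pr_eig σ sadd χ y (0, w)] at h5
      have h6 : (χ (0, w) - 1) • pr σ χ y = 0 := by rw [sub_smul, one_smul, h5, sub_self]
      exact (smul_eq_zero.mp h6).resolve_left (sub_ne_zero.mpr hw)
  -- the trace of the involution
  have hconj : ∀ v, LinearMap.trace ℂ _ (σ (0, v) * ρ T) = LinearMap.trace ℂ _ (ρ T) := by
    intro v
    set w := (2 : K)⁻¹ * v with hw
    have e1 : w + w = v := by rw [hw, ← two_mul, ← mul_assoc, mul_inv_cancel₀ h2, one_mul]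
    have e2 : a (0, v) * T = a (0, w) * T * a (0, -w) := by
      have e3 : T * a (0, -w) = a (0, w) * T := by
        have := hTa (-w)
        rw [neg_neg] at this
        rw [← this]; group
      rw [mul_assoc, e3, ← mul_assoc, ← hadd, Prod.mk_add_mk, add_zero, e1]
    change LinearMap.trace ℂ _ (ρ (a (0, v)) * ρ T) = _
    rw [← map_mul, e2, map_mul, LinearMap.trace_mul_comm, ← map_mul, ← mul_assoc, ← hadd, Prod.mk_add_mk, add_zero, neg_add_cancel,
      show ((0 : K), (0 : K)) = 0 from rfl, a0, one_mul]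
  have htr : LinearMap.trace ℂ _ (ρ T) = 0 := by
    have h3 : (∑ v : K, σ (0, v)) * ρ T = 0 := by
      apply LinearMap.ext
      intro x
      change (∑ v : K, σ (0, v)) (ρ T x) = 0
      rw [LinearMap.sum_apply]
      exact hsum _
    have h4 := congrArg (LinearMap.trace ℂ (Fin k → ℂ)) h3
    rw [Finset.sum_mul, map_sum, map_zero] at h4
    simp only [hconj] at h4
    rw [Finset.sum_const, Finset.card_univ, nsmul_eq_mul] at h4
    exact (mul_eq_zero.mp h4).resolve_left (Nat.cast_ne_zero.mpr Fintype.card_ne_zero)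
  obtain ⟨j, hj, hdet⟩ := det_lin (ρ T) (by rw [← map_mul, hT, map_one]) htr
  rw [det_perfect hG] at hdet
  have hjo : Odd j := by
    set q := Fintype.card K with hqdef
    obtain ⟨n, hn⟩ : ∃ n, q = 4 * n + 3 := ⟨q / 4, by omega⟩
    have h3 : k = q ^ 2 - q := hk
    have h4 : q ^ 2 - q = 2 * ((4 * n + 3) * (2 * n + 1)) := by
      rw [hn]
      rw [Nat.sub_eq_iff_eq_add (by nlinarith)]
      ring
    rw [h3, h4] at hj
    have h5 : j = (4 * n + 3) * (2 * n + 1) := by omega
    rw [h5]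
    exact Odd.mul ⟨2 * n + 1, by ring⟩ ⟨n, by ring⟩
  rw [hjo.neg_one_pow] at hdet
  norm_num at hdet

end CfsgLib.MD
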