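import Cfsg.Agent.Lib.TO3
import Cfsg.Agent.Lib.AutPSL8
set_option autoImplicit false
set_option linter.style.haveILetI false
set_option linter.unusedSectionVars false
set_option maxRecDepth 1000000

/-! The automorphisms of `²G₂(q)`, II. -/

namespace CfsgLib.Chev.TwG2
open Cfsg.Lie Matrix CfsgLib.BNP CfsgLib.PWM CfsgLib.Chev.GA CfsgLib.Chev CfsgLib.Chev.EV

variable {K : Type*} [Field K] [Fintype K] [CharP K 3] (θ τ : K →+* K) (hτ : ∀ t, τ t = (θ t) ^ 3)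
  (hi : ∀ t, θ (τ t) = t) (hi' : ∀ t, τ (θ t) = t)

theorem nswap (x : GL chevG2.Idx K) :
    (x ∈ chevG2.posUnipotent K ↔ (R θ τ hτ).n (0 : Fin 1) * x * ((R θ τ hτ).n (0 : Fin 1))⁻¹ ∈ chevG2.negUnipotent K) ∧
    (x ∈ chevG2.negUnipotent K ↔ (R θ τ hτ).n (0 : Fin 1) * x * ((R θ τ hτ).n (0 : Fin 1))⁻¹ ∈ chevG2.posUnipotent K) := by
  have := (R θ τ hτ).top_iff (cgG2 K) tp x
  rw [show (R θ τ hτ).nn L0 = (R θ τ hτ).n (0 : Fin 1) from TN.nn_singleton _ _] at this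
  exact this

theorem nn_pow (L : List (Fin 1)) : (R θ τ hτ).nn L ∈ chevG2.diagonalSubgroup K ∨
    ∃ h ∈ chevG2.diagonalSubgroup K, h ∈ G1 θ τ hτ ∧ (R θ τ hτ).nn L = (R θ τ hτ).n (0 : Fin 1) * h := by
  induction L with
  | nil => left; exact one_mem _
  | cons J L ih =>
    have hJ : J = 0 := Subsingleton.elim _ _
    subst hJ
    have e : (R θ τ hτ).nn ((0 : Fin 1) :: L) = (R θ τ hτ).n (0 : Fin 1) * (R θ τ hτ).nn L := TN.nn_cons _ _ _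
    rcases ih with h | ⟨h, hh, hG, h1⟩
    · right
      exact ⟨_, h, (R θ τ hτ).nn_mem_Gs (cgG2 K) L, e⟩
    · left
      have e1 := e.trans (congrArg (fun z => (R θ τ hτ).n (0 : Fin 1) * z) h1)
      have h2 := mul_mem ((R θ τ hτ).n_sq_mem (cgG2 K) (0 : Fin 1)) hh
      rw [mul_assoc] at h2
      exact (congrArg (fun z => z ∈ chevG2.diagonalSubgroup K) e1).mpr h2

section auto
variable (φ : ↥(G1 θ τ hτ) ≃* ↥(G1 θ τ hτ)) (hU : TN.Pre1 φ (chevG2.posUnipotent K) (chevG2.posUnipotent K))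
  (hV : TN.Pre1 φ (chevG2.negUnipotent K) (chevG2.negUnipotent K))

/-- elements exchanging `U` and `V` -/
def Sw (g : ↥(G1 θ τ hτ)) : Prop := ∀ x : ↥(G1 θ τ hτ),
    ((x : GL chevG2.Idx K) ∈ chevG2.posUnipotent K ↔ ((g * x * g⁻¹ : ↥(G1 θ τ hτ)) : GL chevG2.Idx K) ∈ chevG2.negUnipotent K) ∧
    ((x : GL chevG2.Idx K) ∈ chevG2.negUnipotent K ↔ ((g * x * g⁻¹ : ↥(G1 θ τ hτ)) : GL chevG2.Idx K) ∈ chevG2.posUnipotent K)

include hU hV in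
theorem Sw_phi {g : ↥(G1 θ τ hτ)} (hg : Sw θ τ hτ g) : Sw θ τ hτ (φ g) := by
  intro x
  have e : φ g * x * (φ g)⁻¹ = φ (g * φ.symm x * g⁻¹) := by rw [map_mul, map_mul, map_inv, φ.apply_symm_apply]
  have h := hg (φ.symm x)
  have h1 := hU (φ.symm x)
  have h2 := hV (φ.symm x)
  rw [φ.apply_symm_apply] at h1 h2
  rw [e, ← hV, ← hU, ← h1, ← h2]
  exact h

theorem Sw_H {g g' : ↥(G1 θ τ hτ)} (hg : Sw θ τ hτ g) (hg' : Sw θ τ hτ g') :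
    ((g⁻¹ * g' : ↥(G1 θ τ hτ)) : GL chevG2.Idx K) ∈ chevG2.diagonalSubgroup K := by
  have key : ∀ x : ↥(G1 θ τ hτ), ((x : GL chevG2.Idx K) ∈ chevG2.posUnipotent K ↔
      (((g⁻¹ * g') * x * (g⁻¹ * g')⁻¹ : ↥(G1 θ τ hτ)) : GL chevG2.Idx K) ∈ chevG2.posUnipotent K) ∧
      ((x : GL chevG2.Idx K) ∈ chevG2.negUnipotent K ↔
      (((g⁻¹ * g') * x * (g⁻¹ * g')⁻¹ : ↥(G1 θ τ hτ)) : GL chevG2.Idx K) ∈ chevG2.negUnipotent K) := by
    intro x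
    have e : g * ((g⁻¹ * g') * x * (g⁻¹ * g')⁻¹) * g⁻¹ = g' * x * g'⁻¹ := by group
    have h1 := hg ((g⁻¹ * g') * x * (g⁻¹ * g')⁻¹)
    rw [e] at h1
    exact ⟨(hg' x).1.trans h1.1.symm, (hg' x).2.trans h1.2.symm⟩
  refine ((R θ τ hτ).mem_H_iff (cgG2 K) tp (g⁻¹ * g')).mpr ⟨?_, ?_⟩
  · exact (R θ τ hτ).norm_U1 (cgG2 K) (g⁻¹ * g').2 (fun u hu => (key ⟨u, hu⟩).1)
  · exact fun u hu => (key ⟨u, hu⟩).2

theorem Sw_n : Sw θ τ hτ ⟨(R θ τ hτ).n (0 : Fin 1), (R θ τ hτ).n_mem_Gs (cgG2 K) (0 : Fin 1)⟩ := fun x => nswap θ τ hτ x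

theorem Sw_mul {g h k : ↥(G1 θ τ hτ)} (hg : Sw θ τ hτ g) (hh : (h : GL chevG2.Idx K) ∈ chevG2.diagonalSubgroup K)
    (hk : (k : GL chevG2.Idx K) ∈ chevG2.diagonalSubgroup K) : Sw θ τ hτ (h * g * k) := by
  intro x
  have e : h * g * k * x * (h * g * k)⁻¹ = h * (g * (k * x * k⁻¹) * g⁻¹) * h⁻¹ := by group
  have hV : ∀ (t : GL chevG2.Idx K), t ∈ chevG2.diagonalSubgroup K → ∀ y, y ∈ chevG2.negUnipotent K ↔ t * y * t⁻¹ ∈ chevG2.negUnipotent K :=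
    fun t ht y => Subgroup.mem_normalizer_iff.mp ((cgG2 K).H_norm_V ht) y
  have hU : ∀ (t : GL chevG2.Idx K), t ∈ chevG2.diagonalSubgroup K → ∀ y, y ∈ chevG2.posUnipotent K ↔ t * y * t⁻¹ ∈ chevG2.posUnipotent K :=
    fun t ht y => Subgroup.mem_normalizer_iff.mp ((cgG2 K).H_norm_U ht) y
  have h1 := hg (k * x * k⁻¹)
  rw [e]
  constructor
  · refine (hU _ hk _).trans (h1.1.trans (hV _ hh _))
  · refine (hV _ hk _).trans (h1.2.trans (hU _ hh _))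

include hU hV in
/-- rigidity -/
theorem rigidV (hid : ∀ t u v, φ (rG θ τ hτ hi hi' t u v) = rG θ τ hτ hi hi' t u v) (v : ↥(G1 θ τ hτ))
    (hv : (v : GL chevG2.Idx K) ∈ chevG2.negUnipotent K) : φ v = v := by
  have hidU : ∀ x : ↥(G1 θ τ hτ), (x : GL chevG2.Idx K) ∈ chevG2.posUnipotent K → φ x = x := by
    intro x hx
    obtain ⟨t, u, w, rfl⟩ := exists_rG θ τ hτ hi hi' x hx
    exact hid t u w
  obtain ⟨b, hb, L, u', hu', hbG, huG', -, he⟩ := (R θ τ hτ).canon (cgG2 K) v.2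
  obtain ⟨u, hu, t, ht, huG, htG, rfl⟩ := TN.mem_B_of_Gs (cgG2 K) hb hbG
  rcases nn_pow θ τ hτ L with hL | ⟨h, hh, hhG, hL⟩
  · have h1 : (v : GL chevG2.Idx K) ∈ chevG2.borelSubgroup K ⊓ chevG2.negUnipotent K := by
      refine ⟨?_, hv⟩
      rw [he]
      exact mul_mem (mul_mem hb (GD.H_le_B hL)) (GD.U_le_B hu')
    rw [(cgG2 K).B_inf_V, Subgroup.mem_bot] at h1
    have : v = 1 := Subtype.ext h1
    rw [this, map_one]
  · set n : ↥(G1 θ τ hτ) := ⟨(R θ τ hτ).n (0 : Fin 1), (R θ τ hτ).n_mem_Gs (cgG2 K) (0 : Fin 1)⟩ with hn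
    set n1 : ↥(G1 θ τ hτ) := ⟨t, htG⟩ * n * ⟨h, hhG⟩ with hn1
    have hsw : Sw θ τ hτ n1 := Sw_mul θ τ hτ (Sw_n θ τ hτ) ht hh
    have he' : v = ⟨u, huG⟩ * n1 * ⟨u', huG'⟩ := by
      apply Subtype.ext
      rw [he, hL]
      change u * t * ((R θ τ hτ).n (0 : Fin 1) * h) * u' = u * (t * (R θ τ hτ).n (0 : Fin 1) * h) * u'
      group
    have h2 := Sw_H θ τ hτ hsw (Sw_phi θ τ hτ φ hU hV hsw)
    have h3 : φ v = ⟨u, huG⟩ * φ n1 * ⟨u', huG'⟩ := by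
      have := congrArg φ he'
      rw [this, map_mul, map_mul, hidU ⟨u, huG⟩ hu, hidU ⟨u', huG'⟩ hu']
    have h4 : v⁻¹ * φ v = (⟨u', huG'⟩ : ↥(G1 θ τ hτ))⁻¹ * (n1⁻¹ * φ n1) * ⟨u', huG'⟩ := by
      rw [h3, he']; group
    have h5 : ((v⁻¹ * φ v : ↥(G1 θ τ hτ)) : GL chevG2.Idx K) ∈ chevG2.borelSubgroup K ⊓ chevG2.negUnipotent K := by
      refine ⟨?_, (chevG2.negUnipotent K).mul_mem ((chevG2.negUnipotent K).inv_mem hv) ((hV v).mp hv)⟩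
      rw [h4]
      exact (chevG2.borelSubgroup K).mul_mem ((chevG2.borelSubgroup K).mul_mem ((chevG2.borelSubgroup K).inv_mem (GD.U_le_B hu')) (GD.H_le_B h2)) (GD.U_le_B hu')
    rw [(cgG2 K).B_inf_V, Subgroup.mem_bot] at h5
    have h6 : v⁻¹ * φ v = 1 := Subtype.ext h5
    exact (inv_mul_eq_one.mp h6).symm

variable {m : ℕ} (hθ : ∀ t, θ t = t ^ (3 ^ m)) (hK : Fintype.card K = 3 ^ (2 * m + 1))

include hU hV hi hi' hθ hK in
theorem rigid (hid : ∀ t u v, φ (rG θ τ hτ hi hi' t u v) = rG θ τ hτ hi hi' t u v) (g : ↥(G1 θ τ hτ)) : φ g = g := by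
  have hv := rigidV θ τ hτ hi hi' φ hU hV hid
  have h1 : G1 θ τ hτ ≤ (φ.toMonoidHom.eqLocus (MonoidHom.id _)).map (G1 θ τ hτ).subtype := by
    have h0 : G1 θ τ hτ = twistedG2 K (3 ^ m) := (eq_Gs θ τ hτ hi hi' hθ hK).symm
    refine h0.le.trans ?_
    apply (cgG2 K).genSub_le
    intro w hw
    obtain ⟨t, u, v, rfl | rfl⟩ := words.mp hw
    · rw [wg_U θ hθ]
      exact ⟨rG θ τ hτ hi hi' t u v, hid t u v, rfl⟩
    · rw [wg_V θ hθ]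
      have hx : nl chevG2 K [0, 1, 0, 1, 0, 1] * ree θ t u v * (nl chevG2 K [0, 1, 0, 1, 0, 1])⁻¹ ∈ G1 θ τ hτ := by
        rw [h0]
        exact ree'_mem θ hθ t u v
      have hx1 : nl chevG2 K [0, 1, 0, 1, 0, 1] * ree θ t u v * (nl chevG2 K [0, 1, 0, 1, 0, 1])⁻¹ ∈ chevG2.negUnipotent K :=
        (nswap θ τ hτ (ree θ t u v)).1.mp (rG_U θ τ hτ hi hi' t u v)
      exact ⟨⟨_, hx⟩, hv ⟨_, hx⟩ hx1, rfl⟩
  obtain ⟨g', hg', he⟩ := h1 g.2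
  have : g' = g := Subtype.ext he
  subst this
  exact hg'

end auto

/-! ### Field automorphisms -/

section fld
variable {m : ℕ} (hθ : ∀ t, θ t = t ^ (3 ^ m)) (hK : Fintype.card K = 3 ^ (2 * m + 1))

include hθ in
theorem mg_ree (σ : RingAut K) (t u v : K) : mapGL chevG2 σ (ree θ t u v) = ree θ (σ t) (σ u) (σ v) := by
  have hc : ∀ x, σ (θ x) = θ (σ x) := fun x => by rw [hθ, hθ, map_pow]
  unfold ree P Z
  simp only [map_mul, (cgG2 K).mg_xg, map_add, map_pow, map_neg, hc]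

include hi hi' hθ hK in
theorem mg_G1 (σ : RingAut K) (g : GL chevG2.Idx K) (hg : g ∈ G1 θ τ hτ) : mapGL chevG2 σ g ∈ G1 θ τ hτ := by
  have h1 : G1 θ τ hτ ≤ (G1 θ τ hτ).comap (mapGL chevG2 σ).toMonoidHom := by
    have h0 : G1 θ τ hτ = twistedG2 K (3 ^ m) := (eq_Gs θ τ hτ hi hi' hθ hK).symm
    refine h0.le.trans ?_
    apply (cgG2 K).genSub_le
    intro w hw
    obtain ⟨t, u, v, rfl | rfl⟩ := words.mp hw
    · rw [wg_U θ hθ]
      change mapGL chevG2 σ (ree θ t u v) ∈ G1 θ τ hτ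
      rw [mg_ree θ hθ, h0]
      exact ree_mem θ hθ _ _ _
    · rw [wg_V θ hθ]
      change mapGL chevG2 σ (nl chevG2 K [0, 1, 0, 1, 0, 1] * ree θ t u v * (nl chevG2 K [0, 1, 0, 1, 0, 1])⁻¹) ∈ G1 θ τ hτ
      rw [map_mul, map_mul, map_inv, (cgG2 K).mg_nl, mg_ree θ hθ, h0]
      exact ree'_mem θ hθ _ _ _
  exact h1 hg

/-- the field automorphisms -/
noncomputable def Fa : RingAut K →* MulAut ↥(G1 θ τ hτ) := faHom (G1 θ τ hτ) (mg_G1 θ τ hτ hi hi' hθ hK)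

theorem Fa_rG (σ : RingAut K) (t u v : K) : Fa θ τ hτ hi hi' hθ hK σ (rG θ τ hτ hi hi' t u v) = rG θ τ hτ hi hi' (σ t) (σ u) (σ v) :=
  Subtype.ext (mg_ree θ hθ σ t u v)

theorem conj_rG (c : Kˣ) (v : K) : MulAut.conj (hG θ τ hτ hi' c) (rG θ τ hτ hi hi' 0 0 v) = rG θ τ hτ hi hi' 0 0 (c * v) := by
  have := hG_rG θ τ hτ hi hi' c 0 0 v
  simp only [mul_zero] at this
  exact this

theorem H_pre (h : ↥(G1 θ τ hτ)) (hh : (h : GL chevG2.Idx K) ∈ chevG2.diagonalSubgroup K) :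
    TN.Pre1 (MulAut.conj h) (chevG2.posUnipotent K) (chevG2.posUnipotent K) ∧
    TN.Pre1 (MulAut.conj h) (chevG2.negUnipotent K) (chevG2.negUnipotent K) :=
  ⟨TN.Pre1.conj (fun u => Subgroup.mem_normalizer_iff.mp ((cgG2 K).H_norm_U hh) u),
    TN.Pre1.conj (fun u => Subgroup.mem_normalizer_iff.mp ((cgG2 K).H_norm_V hh) u)⟩

theorem aut_form (hq : ∃ x : K, x ^ 3 ≠ x) (φ : MulAut ↥(G1 θ τ hτ)) : ∃ σ g, φ = MulAut.conj g * Fa θ τ hτ hi hi' hθ hK σ := by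
  obtain ⟨x, θ', h1, h2, h3⟩ := (R θ τ hτ).frame1 (cgG2 K) tp φ
  obtain ⟨c, σ, h4⟩ := phi_center θ τ hτ hi hi' θ' h2 h3
  set F := Fa θ τ hτ hi hi' hθ hK with hF
  -- `ψ = Fa σ⁻¹ ∘ conj h⁻¹ ∘ θ'`
  let ψ : ↥(G1 θ τ hτ) ≃* ↥(G1 θ τ hτ) := (θ'.trans (MulAut.conj (hG θ τ hτ hi' c)⁻¹)).trans (F σ⁻¹)
  have hinv : ((hG θ τ hτ hi' c)⁻¹ : ↥(G1 θ τ hτ)) = hG θ τ hτ hi' c⁻¹ := by
    rw [eq_comm, eq_inv_iff_mul_eq_one, ← hG_mul, inv_mul_cancel, hG_one]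
  obtain ⟨hp1, hp2⟩ := H_pre θ τ hτ _ (hG_H θ τ hτ hi' c⁻¹)
  rw [← hinv] at hp1 hp2
  have hU : TN.Pre1 ψ (chevG2.posUnipotent K) (chevG2.posUnipotent K) :=
    (h2.trans hp1).trans (faHom_U (cgG2 K) _ _ σ⁻¹)
  have hV : TN.Pre1 ψ (chevG2.negUnipotent K) (chevG2.negUnipotent K) :=
    (h3.trans hp2).trans (faHom_V (cgG2 K) _ _ σ⁻¹)
  have hZ : ∀ v, ψ (rG θ τ hτ hi hi' 0 0 v) = rG θ τ hτ hi hi' 0 0 v := by
    intro v
    change F σ⁻¹ (MulAut.conj (hG θ τ hτ hi' c)⁻¹ (θ' (rG θ τ hτ hi hi' 0 0 v))) = _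
    rw [h4, hinv, conj_rG, hF, Fa_rG, map_zero]
    congr 1
    have : (((c⁻¹ : Kˣ)) : K) * (c * σ v) = σ v := by rw [← mul_assoc, Units.inv_mul, one_mul]
    rw [this]
    exact σ.symm_apply_apply v
  have hH : ∀ b, ψ (hG θ τ hτ hi' b) = hG θ τ hτ hi' b := by
    intro b
    obtain ⟨b', hb'⟩ := phi_H θ τ hτ hi' ψ hU hV b
    have h5 := congrArg ψ (conj_rG θ τ hτ hi hi' b 1)
    rw [MulAut.conj_apply, map_mul, map_mul, map_inv, hb', hZ, hZ, ← MulAut.conj_apply, conj_rG, mul_one, mul_one] at h5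
    have h6 : b' = b := Units.ext (rG_inj θ τ hτ hi hi' h5).2.2
    rw [hb', h6]
  have hid := rigid θ τ hτ hi hi' ψ hU hV hθ hK (fun t u v => rigidU θ τ hτ hi hi' ψ hU hq hH hZ t u v)
  refine ⟨σ, x * hG θ τ hτ hi' c, ?_⟩
  ext y : 1
  rw [MulAut.mul_apply, map_mul, MulAut.mul_apply, h1]
  have h5 : F σ⁻¹ ((hG θ τ hτ hi' c)⁻¹ * θ' y * (hG θ τ hτ hi' c)⁻¹⁻¹) = y := hid y
  have h6 : (hG θ τ hτ hi' c)⁻¹ * θ' y * (hG θ τ hτ hi' c)⁻¹⁻¹ = F σ y := by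
    have := congrArg (F σ) h5
    rw [← MulAut.mul_apply, ← map_mul, mul_inv_cancel, map_one] at this
    exact this
  rw [MulAut.conj_apply, MulAut.conj_apply, ← h6]
  group

theorem Fa_outer (σ : RingAut K) (h : Fa θ τ hτ hi hi' hθ hK σ ∈ Cfsg.Inn ↥(G1 θ τ hτ)) : σ = 1 := by
  obtain ⟨g, hg⟩ := h
  have h1 : (g : GL chevG2.Idx K) ∈ chevG2.diagonalSubgroup K := by
    apply (R θ τ hτ).conj_H (cgG2 K) tp g
    · rw [hg]; exact faHom_U (cgG2 K) _ _ σ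
    · rw [hg]; exact faHom_V (cgG2 K) _ _ σ
  obtain ⟨b, rfl⟩ := exists_hG θ τ hτ hi' g h1
  have h2 : ∀ v, (b : K) * v = σ v := by
    intro v
    have h3 : MulAut.conj (hG θ τ hτ hi' b) (rG θ τ hτ hi hi' 0 0 v) = Fa θ τ hτ hi hi' hθ hK σ (rG θ τ hτ hi hi' 0 0 v) := by rw [hg]
    rw [conj_rG, Fa_rG, map_zero] at h3
    exact (rG_inj θ τ hτ hi hi' h3).2.2
  have h3 : (b : K) = 1 := by
    have := h2 1
    rwa [mul_one, map_one] at this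
  ext v
  rw [← h2 v, h3, one_mul]
  rfl

include hi hi' hθ hτ hK in
theorem card_out (hm : 1 ≤ m) : Nat.card (Cfsg.Out ↥(twistedG2 K (3 ^ m))) = 2 * m + 1 := by
  haveI : Fact (Nat.Prime 3) := ⟨Nat.prime_three⟩
  rw [← CfsgLib.AutPSL.ringAut_card hK, eq_Gs θ τ hτ hi hi' hθ hK]
  have hq : ∃ x : K, x ^ 3 ≠ x := by
    by_contra hcon
    push Not at hcon
    have h1 : Fintype.card K ≤ 3 := by
      classical
      have h2 : (Finset.univ : Finset K) ⊆ (Polynomial.X ^ 3 - Polynomial.X : Polynomial K).roots.toFinset := by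
        intro x _
        rw [Multiset.mem_toFinset, Polynomial.mem_roots]
        · rw [Polynomial.IsRoot, Polynomial.eval_sub, Polynomial.eval_pow, Polynomial.eval_X, hcon, sub_self]
        · intro h
          have := congrArg (fun p => Polynomial.coeff p 3) h
          simp [Polynomial.coeff_X] at this
      have h3 := Finset.card_le_card h2
      have h4 := Multiset.toFinset_card_le (Polynomial.X ^ 3 - Polynomial.X : Polynomial K).roots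
      have h5 := Polynomial.card_roots' (Polynomial.X ^ 3 - Polynomial.X : Polynomial K)
      have h6 : (Polynomial.X ^ 3 - Polynomial.X : Polynomial K).natDegree ≤ 3 := by compute_degree
      rw [Finset.card_univ] at h3
      omega
    have h2 : 3 ^ 3 ≤ 3 ^ (2 * m + 1) := Nat.pow_le_pow_right (by norm_num) (by omega)
    rw [hK] at h1
    omega
  exact card_out_of (Fa θ τ hτ hi hi' hθ hK) (aut_form θ τ hτ hi hi' hθ hK hq) (Fa_outer θ τ hτ hi hi' hθ hK)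

end fld

end CfsgLib.Chev.TwG2
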