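import Cfsg.Agent.Lib.MD2
import Cfsg.Agent.Lib.TO4
set_option autoImplicit false
set_option linter.style.haveILetI false
set_option linter.unusedSectionVars false

/-! Minimal degrees of the small Ree groups. -/

namespace CfsgLib.Chev.TwG2
open Cfsg.Lie Matrix CfsgLib.BNP CfsgLib.PWM CfsgLib.Chev.GA CfsgLib.Chev

variable {K : Type*} [Field K] [Fintype K] [CharP K 3] (θ τ : K →+* K) (hτ : ∀ t, τ t = (θ t) ^ 3)
  (hi : ∀ t, θ (τ t) = t) (hi' : ∀ t, τ (θ t) = t) {m : ℕ} (hθ : ∀ t, θ t = t ^ (3 ^ m)) (hK : Fintype.card K = 3 ^ (2 * m + 1))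

include hi hi' hθ hK in
theorem min_degree (hm : 1 ≤ m) {k : ℕ} (ρ : Representation ℂ ↥(G1 θ τ hτ) (Fin k → ℂ)) (hρ : ρ.IsIrreducible) (hk : 2 ≤ k) :
    Fintype.card K ^ 2 - Fintype.card K + 1 ≤ k := by
  have h9 : 9 ≤ Fintype.card K := by
    rw [hK]
    calc 9 = 3 ^ 2 := by norm_num
      _ ≤ 3 ^ (2 * m + 1) := Nat.pow_le_pow_right (by norm_num) (by omega)
  have hp := perfect θ τ hτ hi hi' hθ hK (by omega)
  rw [eq_Gs θ τ hτ hi hi' hθ hK] at hp
  haveI hs : IsSimpleGroup ↥(G1 θ τ hτ) := simple θ τ hτ hi hi' hθ hK (by omega)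
  have h2 : (2 : K) ≠ 0 := by
    intro h
    have h3 := three0 K
    have : (1 : K) = 0 := by linear_combination h3 - h
    exact one_ne_zero this
  have hq : Fintype.card K % 4 = 3 := by
    rw [hK, pow_succ, pow_mul]
    have : (3 ^ 2) ^ m % 4 = 1 := by
      rw [Nat.pow_mod]; norm_num
    omega
  refine CfsgLib.MD.ree_degree (fun w => rG θ τ hτ hi hi' 0 w.1 w.2) (fun b => hG θ τ hτ hi' b) (fun b => Units.map (τ : K →* K) b * b⁻¹)
    (fun t => rG θ τ hτ hi hi' t 0 0) (hG θ τ hτ hi' (-1)) ?_ ?_ ?_ ?_ ?_ hp h2 hq ρ ?_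
  · rintro ⟨u, v⟩ ⟨u', v'⟩
    simp only [Prod.mk_add_mk]
    rw [rG_mul]
    congr 1
    · simp
    · simp
    · simp
  · intro b u v
    simp only
    rw [hG_rG]
    congr 1
    · simp
    · rw [Units.val_mul, Units.val_inv_eq_inv_val]; rfl
  · intro t u v
    simp only
    rw [rG_mul, rG_mul]
    congr 1
    · simp
    · simp
    · simp
  · rw [← hG_mul, neg_mul_neg, one_mul, hG_one]
  · intro v
    simp only
    rw [hG_rG]
    congr 1
    · simp
    · simp
    · simp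
  · refine ⟨1, CfsgLib.MD.faithful_of_irr ρ hρ hk ?_⟩
    intro h
    simp only at h
    rw [← rG_zero θ τ hτ hi hi'] at h
    exact one_ne_zero (rG_inj θ τ hτ hi hi' h).2.2

end CfsgLib.Chev.TwG2
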