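import Cfsg.Agent.Lib.MD1
import Cfsg.Agent.Lib.MD2
set_option autoImplicit false
set_option linter.style.haveILetI false
set_option linter.unusedSectionVars false

/-! Minimal degrees: characters of the Siegel radical of the symplectic group. -/

namespace CfsgLib.MD
open Matrix

section siegel
variable {F : Type*} [Field F] {n : ℕ}

/-- symmetric matrices -/
def SymW (F : Type*) [Field F] (n : ℕ) : AddSubgroup (Matrix (Fin n) (Fin n) F) where
  carrier := {X | Xᵀ = X}
  zero_mem' := Matrix.transpose_zero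
  add_mem' := fun {a b} ha hb => by
    change (a + b)ᵀ = a + b
    rw [Matrix.transpose_add]
    rw [show aᵀ = a from ha, show bᵀ = b from hb]
  neg_mem' := fun {a} ha => by
    change (-a)ᵀ = -a
    rw [Matrix.transpose_neg, show aᵀ = a from ha]

theorem mem_SymW (X : Matrix (Fin n) (Fin n) F) : X ∈ SymW F n ↔ Xᵀ = X := Iff.rfl

/-- the unipotent radical -/
def aE (X : SymW F n) : Matrix.symplecticGroup (Fin n) F := ⟨Matrix.fromBlocks 1 X.1 0 1, by
  rw [SymplecticGroup.mem_iff, Matrix.J, Matrix.fromBlocks_multiply, Matrix.fromBlocks_transpose, Matrix.fromBlocks_multiply,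
    (mem_SymW X.1).mp X.2]
  simp⟩

/-- the Levi subgroup -/
def gE (A : GL (Fin n) F) : Matrix.symplecticGroup (Fin n) F := ⟨Matrix.fromBlocks A.1 0 0 (A⁻¹).1ᵀ, by
  have h1 : A.1 * (A⁻¹).1 = 1 := by rw [← Units.val_mul, mul_inv_cancel, Units.val_one]
  have h2 : (A⁻¹).1ᵀ * A.1ᵀ = 1 := by rw [← Matrix.transpose_mul, h1, Matrix.transpose_one]
  rw [SymplecticGroup.mem_iff, Matrix.J, Matrix.fromBlocks_multiply, Matrix.fromBlocks_transpose, Matrix.fromBlocks_multiply]
  simp [h1, h2, -Matrix.coe_units_inv]⟩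

theorem aE_zero : aE (0 : SymW F n) = 1 := by
  apply Subtype.ext
  change Matrix.fromBlocks 1 0 0 1 = 1
  exact Matrix.fromBlocks_one

theorem aE_add (X Y : SymW F n) : aE (X + Y) = aE X * aE Y := by
  apply Subtype.ext
  change Matrix.fromBlocks 1 (X.1 + Y.1) 0 1 = Matrix.fromBlocks 1 X.1 0 1 * Matrix.fromBlocks 1 Y.1 0 1
  rw [Matrix.fromBlocks_multiply]
  simp [add_comm]

/-- the action -/
def actW (A : GL (Fin n) F) (X : SymW F n) : SymW F n := ⟨A.1 * X.1 * A.1ᵀ, by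
  rw [mem_SymW, Matrix.transpose_mul, Matrix.transpose_mul, Matrix.transpose_transpose, (mem_SymW X.1).mp X.2, mul_assoc]⟩

theorem gE_aE (A : GL (Fin n) F) (X : SymW F n) : gE A * aE X = aE (actW A X) * gE A := by
  apply Subtype.ext
  change Matrix.fromBlocks A.1 0 0 (A⁻¹).1ᵀ * Matrix.fromBlocks 1 X.1 0 1 = Matrix.fromBlocks 1 (A.1 * X.1 * A.1ᵀ) 0 1 * Matrix.fromBlocks A.1 0 0 (A⁻¹).1ᵀ
  have h1 : A.1 * (A⁻¹).1 = 1 := by rw [← Units.val_mul, mul_inv_cancel, Units.val_one]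
  have h2 : A.1ᵀ * (A⁻¹).1ᵀ = 1 := by rw [← Matrix.transpose_mul, ← Units.val_mul, inv_mul_cancel, Units.val_one, Matrix.transpose_one]
  rw [Matrix.fromBlocks_multiply, Matrix.fromBlocks_multiply]
  simp only [mul_one, mul_zero, add_zero, zero_mul, zero_add, one_mul]
  rw [mul_assoc, h2, mul_one]

theorem actW_add (A : GL (Fin n) F) (X Y : SymW F n) : actW A (X + Y) = actW A X + actW A Y := by
  apply Subtype.ext
  change A.1 * (X.1 + Y.1) * A.1ᵀ = A.1 * X.1 * A.1ᵀ + A.1 * Y.1 * A.1ᵀ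
  rw [mul_add, add_mul]

/-- rank one -/
def r1 (c : F) (v : Fin n → F) : SymW F n := ⟨c • Matrix.vecMulVec v v, by
  rw [mem_SymW, Matrix.transpose_smul, Matrix.transpose_vecMulVec]⟩

theorem r1_add (c c' : F) (v : Fin n → F) : r1 (c + c') v = r1 c v + r1 c' v := Subtype.ext (add_smul _ _ _)

/-- hyperbolic -/
def r2 (c : F) (v w : Fin n → F) : SymW F n := ⟨c • (Matrix.vecMulVec v w + Matrix.vecMulVec w v), by
  rw [mem_SymW, Matrix.transpose_smul, Matrix.transpose_add, Matrix.transpose_vecMulVec, Matrix.transpose_vecMulVec, add_comm]⟩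

theorem r2_add (c c' : F) (v w : Fin n → F) : r2 (c + c') v w = r2 c v w + r2 c' v w := Subtype.ext (add_smul _ _ _)

theorem r2_addl (c : F) (v v' w : Fin n → F) : r2 c (v + v') w = r2 c v w + r2 c v' w := by
  apply Subtype.ext
  ext i j
  simp [r2, Matrix.vecMulVec_apply]
  ring

theorem r2_smull (c a : F) (v w : Fin n → F) : r2 c (a • v) w = r2 (a * c) v w := by
  apply Subtype.ext
  ext i j
  simp [r2, Matrix.vecMulVec_apply]
  ring

theorem r1_smul (c a : F) (v : Fin n → F) : r1 c (a • v) = r1 (a * a * c) v := by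
  apply Subtype.ext
  ext i j
  simp [r1, Matrix.vecMulVec_apply]
  ring

theorem r1_addv (c : F) (v w : Fin n → F) : r1 c (v + w) = r1 c v + r1 c w + r2 c v w := by
  apply Subtype.ext
  ext i j
  simp [r1, r2, Matrix.vecMulVec_apply]
  ring

theorem actW_r1 (A : GL (Fin n) F) (c : F) (v : Fin n → F) : actW A (r1 c v) = r1 c (A.1 *ᵥ v) := by
  apply Subtype.ext
  change A.1 * (c • Matrix.vecMulVec v v) * A.1ᵀ = c • Matrix.vecMulVec (A.1 *ᵥ v) (A.1 *ᵥ v)
  rw [Matrix.mul_smul, Matrix.smul_mul, Matrix.mul_vecMulVec, Matrix.vecMulVec_mul, Matrix.vecMul_transpose]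

variable [Fintype F]

noncomputable instance : Fintype (SymW F n) := Fintype.ofFinite _

/-- a nontrivial character -/
theorem exists_psi : ∃ ψ : AddChar F ℂ, ψ ≠ 1 := by
  obtain ⟨ψ, hψ⟩ := AddChar.exists_apply_ne_zero.mpr (one_ne_zero : (1 : F) ≠ 0)
  exact ⟨ψ, fun h => hψ (by rw [h]; rfl)⟩

/-- an occurring character nontrivial at a given element -/
theorem exists_char {W : Type*} [AddCommGroup W] [Fintype W] {V : Type*} [AddCommGroup V] [Module ℂ V]
    (σ : W → (V →ₗ[ℂ] V)) (h0 : σ 0 = 1) (hadd : ∀ w w', σ (w + w') = σ w * σ w') (w0 : W) (hw0 : σ w0 ≠ 1) :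
    ∃ (χ : AddChar W ℂ) (x : V), x ≠ 0 ∧ Eig σ χ x ∧ χ w0 ≠ 1 := by
  by_contra hc
  push Not at hc
  apply hw0
  apply LinearMap.ext
  intro x
  change σ w0 x = x
  conv_rhs => rw [← sum_pr σ h0 x]
  conv_lhs => rw [← sum_pr σ h0 x]
  rw [map_sum]
  refine Finset.sum_congr rfl fun χ _ => ?_
  by_cases h : pr σ χ x = 0
  · rw [h, map_zero]
  · rw [pr_eig σ hadd χ x w0, hc χ _ h (pr_eig σ hadd χ x), one_smul]

theorem psi_inj {ψ : AddChar F ℂ} (hψ : ψ ≠ 1) {a b : F} (h : ∀ c, ψ (a * c) = ψ (b * c)) : a = b := by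
  refine AddChar.to_mulShift_inj_of_isPrimitive (AddChar.IsPrimitive.of_ne_one hψ) ?_
  ext c
  rw [AddChar.mulShift_apply, AddChar.mulShift_apply, h]

theorem symp_setup {k : ℕ} (ρ : Representation ℂ (Matrix.symplecticGroup (Fin n) F) (Fin k → ℂ)) (X0 : SymW F n)
    (hX0 : ρ (aE X0) ≠ 1) {ψ : AddChar F ℂ} (hψ : ψ ≠ 1) :
    ∃ (χ0 : AddChar (SymW F n) ℂ) (Q0 : QuadraticForm F (Fin n → F)), χ0 X0 ≠ 1 ∧ (∀ c v, χ0 (r1 c v) = ψ (Q0 v * c)) ∧
      (∀ c v w, χ0 (r2 c v w) = ψ (Q0.polarBilin v w * c)) ∧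
      Nat.card (Set.range (fun A : GL (Fin n) F => fun v => Q0 (A.1 *ᵥ v))) ≤ k := by
  classical
  obtain ⟨χ0, x0, hx0, he, hχ⟩ := exists_char (fun X : SymW F n => ρ (aE X)) (by rw [aE_zero, map_one]) (fun X Y => by rw [aE_add, map_mul]) X0 hX0
  have h1 : ∀ v : Fin n → F, ∃ a, ∀ c, χ0 (r1 c v) = ψ (a * c) := fun v =>
    exists_shift hψ { toFun := fun c => χ0 (r1 c v)
                      map_zero_eq_one' := by
                        rw [show r1 0 v = 0 from Subtype.ext (zero_smul _ _), AddChar.map_zero_eq_one]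
                      map_add_eq_mul' := fun c c' => by rw [r1_add, AddChar.map_add_eq_mul] }
  choose Q hQ using h1
  have hpol : ∀ c v w, χ0 (r2 c v w) = ψ (QuadraticMap.polar Q v w * c) := by
    intro c v w
    have h2 : χ0 (r1 c (v + w)) = χ0 (r1 c v) * χ0 (r1 c w) * χ0 (r2 c v w) := by
      rw [r1_addv, AddChar.map_add_eq_mul, AddChar.map_add_eq_mul]
    rw [hQ, hQ, hQ] at h2
    have h3 : ψ (Q (v + w) * c) = ψ (Q v * c) * ψ (Q w * c) * ψ (QuadraticMap.polar Q v w * c) := by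
      rw [← AddChar.map_add_eq_mul, ← AddChar.map_add_eq_mul, QuadraticMap.polar]
      congr 1; ring
    rw [h3] at h2
    have hne : ∀ z, ψ z ≠ 0 := fun z h => by
      have := AddChar.map_add_eq_mul ψ z (-z)
      rw [add_neg_cancel, AddChar.map_zero_eq_one, h, zero_mul] at this
      exact one_ne_zero this
    exact (mul_left_cancel₀ (mul_ne_zero (hne _) (hne _)) h2).symm
  let Q0 : QuadraticForm F (Fin n → F) := QuadraticMap.ofPolar Q
    (fun a v => psi_inj hψ (fun c => by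
      rw [← hQ, r1_smul, hQ, smul_eq_mul]
      congr 1; ring))
    (fun v v' w => psi_inj hψ (fun c => by
      rw [← hpol, r2_addl, AddChar.map_add_eq_mul, hpol, hpol, ← AddChar.map_add_eq_mul]
      congr 1; ring))
    (fun a v w => psi_inj hψ (fun c => by
      rw [← hpol, r2_smull, hpol, smul_eq_mul]
      congr 1; ring))
  refine ⟨χ0, Q0, hχ, fun c v => hQ v c, fun c v w => hpol c v w, ?_⟩
  let χA : GL (Fin n) F → AddChar (SymW F n) ℂ := fun A =>
    { toFun := fun X => χ0 (actW A X)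
      map_zero_eq_one' := by
        rw [show actW A 0 = 0 from Subtype.ext (by change A.1 * 0 * A.1ᵀ = 0; simp), AddChar.map_zero_eq_one]
      map_add_eq_mul' := fun X Y => by rw [actW_add, AddChar.map_add_eq_mul] }
  have hcard := card_le (fun X : SymW F n => ρ (aE X)) (Finset.univ.image χA) (by
    intro χ hχ
    obtain ⟨A, -, rfl⟩ := Finset.mem_image.mp hχ
    have h1 : ρ (gE A) * ρ (gE A)⁻¹ = 1 := by rw [← map_mul, mul_inv_cancel, map_one]
    refine ⟨ρ (gE A)⁻¹ x0, ?_, ?_⟩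
    · intro h
      apply hx0
      have h2 : x0 = (ρ (gE A) * ρ (gE A)⁻¹) x0 := by rw [h1]; rfl
      rw [h2, Module.End.mul_apply, h, map_zero]
    · intro X
      change ρ (aE X) (ρ (gE A)⁻¹ x0) = χ0 (actW A X) • ρ (gE A)⁻¹ x0
      have h2 : aE X * (gE A)⁻¹ = (gE A)⁻¹ * aE (actW A X) := by
        rw [eq_inv_mul_iff_mul_eq, ← mul_assoc, gE_aE, mul_assoc, mul_inv_cancel, mul_one]
      have h3 : ρ (aE X) (ρ (gE A)⁻¹ x0) = (ρ (aE X * (gE A)⁻¹)) x0 := by rw [map_mul]; rfl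
      rw [h3, h2, map_mul, Module.End.mul_apply, he (actW A X), map_smul])
  rw [Module.finrank_fin_fun] at hcard
  refine le_trans ?_ hcard
  have hfin : (Set.range (fun A : GL (Fin n) F => fun v => Q0 (A.1 *ᵥ v))) ⊆
      (((Finset.univ.image χA).image (fun χ => fun v => if h : ∃ a, ∀ c, χ (r1 c v) = ψ (a * c) then h.choose else 0) : Finset _) : Set ((Fin n → F) → F)) := by
    rintro _ ⟨A, rfl⟩
    rw [Finset.mem_coe, Finset.mem_image]
    refine ⟨χA A, Finset.mem_image_of_mem _ (Finset.mem_univ _), ?_⟩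
    funext v
    have h4 : ∀ c, χA A (r1 c v) = ψ (Q (A.1 *ᵥ v) * c) := by
      intro c
      change χ0 (actW A (r1 c v)) = _
      rw [actW_r1, hQ]
    have h5 : ∃ a, ∀ c, χA A (r1 c v) = ψ (a * c) := ⟨_, h4⟩
    change (if h : ∃ a, ∀ c, χA A (r1 c v) = ψ (a * c) then h.choose else 0) = Q (A.1 *ᵥ v)
    rw [dif_pos h5]
    exact psi_inj hψ (fun c => by rw [← h5.choose_spec c, h4])
  refine (Nat.card_mono (Finset.finite_toSet _) hfin).trans ?_
  rw [Nat.card_coe_set_eq, Set.ncard_coe_finset]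
  exact Finset.card_image_le

end siegel

end CfsgLib.MD
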