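import Mathlib
import Cfsg.Agent.Lib.H5MinNormal

set_option autoImplicit false

namespace CfsgLib.MinNormPow

open Subgroup CfsgLib.H5Sylow CfsgLib.H5MinNormal

universe u

variable {G : Type u} [Group G]

/-- a subgroup normalised by `N`, meeting the factor `T'` trivially, can be enlarged -/
theorem extend {N P T' : Subgroup G} {T : Type*} [Group T] {k : ℕ} (hP : P ≤ N) (hPn : ∀ n ∈ N, ∀ t ∈ P, n * t * n⁻¹ ∈ P)
    (hT' : T' ≤ N) (hT'n : ∀ n ∈ N, ∀ t ∈ T', n * t * n⁻¹ ∈ T') (hinf : P ⊓ T' = ⊥)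
    (e : P ≃* (Fin k → T)) (f : T' ≃* T) : ∃ Q : Subgroup G, Q ≤ N ∧ (∀ n ∈ N, ∀ t ∈ Q, n * t * n⁻¹ ∈ Q) ∧
      Nonempty (Q ≃* (Fin (k + 1) → T)) := by
  have hcomm := comm_of_inf_bot hP hT' hPn hT'n hinf
  let φ : P × T' →* G :=
    { toFun := fun x => (x.1 : G) * x.2
      map_one' := by simp
      map_mul' := by
        rintro ⟨a, b⟩ ⟨c, d⟩
        change ((a : G) * c) * ((b : G) * d) = ((a : G) * b) * ((c : G) * d)
        rw [mul_assoc, mul_assoc, ← mul_assoc (c : G) b d, hcomm c c.2 b b.2, mul_assoc] }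
  have hinj : Function.Injective φ := by
    rw [injective_iff_map_eq_one]
    rintro ⟨a, b⟩ h
    have h1 : (a : G) * b = 1 := h
    have h2 : (a : G) ∈ P ⊓ T' := by
      refine ⟨a.2, ?_⟩
      rw [mul_eq_one_iff_eq_inv] at h1
      rw [h1]
      exact T'.inv_mem b.2
    rw [hinf, Subgroup.mem_bot] at h2
    rw [h2, one_mul] at h1
    rw [Prod.mk_eq_one]
    exact ⟨Subtype.ext h2, Subtype.ext h1⟩
  let g : P × T' ≃* (Fin (k + 1) → T) :=
    { toFun := fun x => Fin.cons (f x.2) (e x.1)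
      invFun := fun x => (e.symm (Fin.tail x), f.symm (x 0))
      left_inv := by
        rintro ⟨a, b⟩
        simp
      right_inv := by
        intro x
        simp
      map_mul' := by
        rintro ⟨a, b⟩ ⟨c, d⟩
        funext i
        refine Fin.cases ?_ (fun i => ?_) i
        · simp
        · simp }
  refine ⟨φ.range, ?_, ?_, ⟨(MonoidHom.ofInjective hinj).symm.trans g⟩⟩
  · rintro _ ⟨⟨a, b⟩, rfl⟩
    exact mul_mem (hP a.2) (hT' b.2)
  · rintro n hn _ ⟨⟨a, b⟩, rfl⟩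
    refine ⟨(⟨_, hPn n hn a a.2⟩, ⟨_, hT'n n hn b b.2⟩), ?_⟩
    change (n * a * n⁻¹) * (n * b * n⁻¹) = n * (a * b) * n⁻¹
    group

/-- a minimal normal subgroup is a direct power of a simple factor -/
theorem exists_pow [Finite G] {N T : Subgroup G} (hN : IsMinNormal N) (h : Factor N T) :
    ∃ m : ℕ, 0 < m ∧ Nonempty (N ≃* (Fin m → T)) := by
  classical
  haveI : Nontrivial T := (Subgroup.nontrivial_iff_ne_bot T).2 h.ne_bot
  have hT2 : 2 ≤ Nat.card T := Finite.one_lt_card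
  let Q : ℕ → Prop := fun k => ∃ P : Subgroup G, P ≤ N ∧ (∀ n ∈ N, ∀ t ∈ P, n * t * n⁻¹ ∈ P) ∧ Nonempty (P ≃* (Fin k → T))
  have hbound : ∀ k, Q k → k ≤ Nat.card N := by
    rintro k ⟨P, hP, -, ⟨e⟩⟩
    have h1 : Nat.card P = Nat.card T ^ k := by
      rw [Nat.card_congr e.toEquiv, Nat.card_fun, Nat.card_eq_fintype_card (α := Fin k), Fintype.card_fin]
    have h2 : Nat.card P ≤ Nat.card N := Nat.le_of_dvd Nat.card_pos (Subgroup.card_dvd_of_le hP)
    have h3 : k ≤ 2 ^ k := (Nat.lt_two_pow_self).le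
    have h4 : 2 ^ k ≤ Nat.card T ^ k := Nat.pow_le_pow_left hT2 k
    omega
  have hQ0 : Q 0 := by
    refine ⟨⊥, bot_le, ?_, ?_⟩
    · intro n _ t ht
      rw [Subgroup.mem_bot] at ht ⊢
      rw [ht, mul_one, mul_inv_cancel]
    · exact ⟨{ toFun := fun _ => 1
               invFun := fun _ => 1
               left_inv := fun x => Subtype.ext (Subgroup.mem_bot.1 x.2).symm
               right_inv := fun x => funext fun i => i.elim0
               map_mul' := fun _ _ => (mul_one _).symm }⟩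
  obtain ⟨m, hm, hmax⟩ : ∃ m, Q m ∧ ∀ k, Q k → k ≤ m := by
    refine ⟨Nat.findGreatest Q (Nat.card N), Nat.findGreatest_spec (P := Q) (Nat.zero_le _) hQ0, ?_⟩
    intro k hk
    exact Nat.le_findGreatest (hbound k hk) hk
  obtain ⟨P, hPN, hPn, ⟨e⟩⟩ := hm
  have hall : ∀ g : G, H5Sylow.cj g T ≤ P := by
    intro g
    have hf := h.cj hN.1 g
    rcases hf.min (P ⊓ H5Sylow.cj g T) inf_le_right (fun n hn t ht => ⟨hPn n hn t ht.1, hf.inv n hn t ht.2⟩) with h1 | h1
    · exfalso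
      obtain ⟨Q', hQ'⟩ := extend hPN hPn hf.le hf.inv h1 e (((MulAut.conj g).subgroupMap T).symm.trans (MulEquiv.refl _))
      have := hmax (m + 1) ⟨Q', hQ'⟩
      omega
    · rw [← h1]; exact inf_le_left
  have hPN' : P = N := le_antisymm hPN (le_of_all_conj_le hN h P hall)
  subst hPN'
  refine ⟨m, ?_, ⟨e⟩⟩
  rcases Nat.eq_zero_or_pos m with rfl | h0
  · exfalso
    apply hN.2.1
    rw [Subgroup.eq_bot_iff_forall]
    intro x hx
    have : (⟨x, hx⟩ : P) = 1 := e.injective (funext fun i => i.elim0)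
    exact congrArg Subtype.val this
  · exact h0

/-- transfer of a finite group to `Type` -/
theorem exists_type0 (T : Type u) [Group T] [Finite T] : ∃ (T₀ : Type) (_ : Group T₀), Nonempty (T ≃* T₀) := by
  obtain ⟨n, ⟨e⟩⟩ := Finite.exists_equiv_fin T
  refine ⟨Fin n, e.symm.group, ⟨@MulEquiv.mk T (Fin n) _ (e.symm.group).toDivInvMonoid.toMonoid.toMulOneClass.toMul e ?_⟩⟩
  intro x y
  change e (x * y) = e (e.symm (e x) * e.symm (e y))
  rw [Equiv.symm_apply_apply, Equiv.symm_apply_apply]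

end CfsgLib.MinNormPow
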