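import Mathlib
import Cfsg.Agent.Lib.Mob25

set_option autoImplicit false
set_option maxHeartbeats 400000

/-! Maximal subgroups of `PSL(2,q)`: `S4`, `A5`, `A4`, subfield subgroups. -/
namespace CfsgLib.Mob26

open OnePoint Matrix CfsgLib.Mob3 CfsgLib.Mob4 CfsgLib.Mob5 CfsgLib.Mob10 CfsgLib.Mob12 CfsgLib.Mob13 CfsgLib.Mob14 CfsgLib.Mob15 CfsgLib.Mob16 CfsgLib.Mob17 CfsgLib.Mob18 CfsgLib.Mob19 CfsgLib.Mob20 CfsgLib.Mob21 CfsgLib.Mob22 CfsgLib.Mob23 CfsgLib.Mob24 CfsgLib.Mob25

universe u v w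

/-- overgroups of a group with noncommuting elements of order three -/
theorem overgrp {F : Type u} [Field F] [Finite F] (p : ℕ) [hp : Fact p.Prime] [CharP F p] {M H : Subgroup (ProjectiveSpecialLinearGroup (Fin 2) F)}
    (hH : H ≠ ⊤) (hMH : M ≤ H) (hM : NC3 M) (hp3 : p = 3 ∨ ¬ p ∣ Nat.card M) :
    (Nat.card H = 12 ∧ ¬ p ∣ 12 ∧ Nonempty (H ≃* alternatingGroup (Fin 4))) ∨
    (Nat.card H = 24 ∧ ¬ p ∣ 24 ∧ Nonempty (H ≃* Equiv.Perm (Fin 4))) ∨
    (Nat.card H = 60 ∧ (p = 3 ∨ ¬ p ∣ 60) ∧ Nonempty (H ≃* alternatingGroup (Fin 5))) ∨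
    (∃ (k : Subfield F) (m : ℕ), 2 ≤ m ∧ Nat.card k ^ m = Nat.card F ∧
      ((Nat.gcd 2 (Nat.card k - 1) * Nat.card H = Nat.card k * (Nat.card k - 1) * (Nat.card k + 1) ∧
        Nonempty (H ≃* ProjectiveSpecialLinearGroup (Fin 2) k)) ∨
      (Nat.card H = Nat.card k * (Nat.card k - 1) * (Nat.card k + 1) ∧ Nonempty (H ≃* ProjGenLinGroup (Fin 2) k)))) := by
  classical
  have hHn : NC3 H := hM.of_inj (Subgroup.inclusion hMH) (Subgroup.inclusion_injective hMH)
  rcases list_ord p hH with h | h | h | h | h | h | h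
  · exfalso
    obtain ⟨x, hx, -⟩ := h
    obtain ⟨a, b, ha, hb, hab⟩ := hM
    apply hab
    apply Subtype.ext
    rcases hp3 with rfl | hp3
    · refine fix_comm 3 ?_ ?_ (hx _ (hMH a.2)) (hx _ (hMH b.2))
      · have := pow_orderOf_eq_one a
        rw [ha] at this
        exact congrArg Subtype.val this
      · have := pow_orderOf_eq_one b
        rw [hb] at this
        exact congrArg Subtype.val this
    · exact comm_of_fix p (M := M) (fun g hg => hx g (hMH hg)) hp3 a.2 b.2
  · exact absurd h.1 hHn.not_cyclic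
  · obtain ⟨n, _, e, _⟩ := h
    exact absurd e hHn.not_dihedral
  · left; exact h
  · right; left; exact h
  · right; right; left; exact h
  · right; right; right; exact h

theorem no_pow_prime {F : Type u} [Field F] [Finite F] {p : ℕ} (hp : p.Prime) (hF : Nat.card F = p) {c m : ℕ} (hm : 2 ≤ m) : c ^ m ≠ Nat.card F := by
  intro h
  rw [← hF, ← h] at hp
  exact Nat.Prime.not_prime_pow hm hp

theorem s4_max {F : Type u} [Field F] [Finite F] {p : ℕ} (hp : p.Prime) (hF : Nat.card F = p) (h8 : p % 8 = 1 ∨ p % 8 = 7) :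
    ∃ H : Subgroup (ProjectiveSpecialLinearGroup (Fin 2) F), IsCoatom H ∧ Nonempty (H ≃* Equiv.Perm (Fin 4)) := by
  haveI : Fact p.Prime := ⟨hp⟩
  haveI : CharP F p := card_eq_of_pow hp (r := 1) (by rw [pow_one, hF])
  have h1 : p ≠ 1 := hp.one_lt.ne'
  have h7 : 7 ≤ p := by omega
  have hs : Nat.card F ^ 2 % 16 = 1 := by
    rw [hF]
    have : p % 16 = 1 ∨ p % 16 = 7 ∨ p % 16 = 9 ∨ p % 16 = 15 := by omega
    rcases this with h | h | h | h <;> rw [Nat.pow_mod, h]
  obtain ⟨M, ⟨e⟩⟩ := (s4_iff (F := F)).2 hs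
  have hc : Nat.card M = 24 := by rw [Nat.card_congr e.toEquiv, card_s4]
  have hnc : NC3 M := nc3_s4.of_inj e.symm.toMonoidHom e.symm.injective
  refine ⟨M, coatom_of ?_ ?_, ⟨e⟩⟩
  · have := cub_mono h7
    exact ne_top_of_card (N := 24) (by rw [hF]; omega) hc.le
  · intro H hH hMH
    have hpM : ¬ p ∣ Nat.card M := by
      rw [hc]
      intro h
      have h2 : p ∣ 2 ^ 3 * 3 := by norm_num; exact h
      rcases (Nat.Prime.dvd_mul hp).1 h2 with h3 | h3
      · have := Nat.le_of_dvd (by norm_num) (hp.dvd_of_dvd_pow h3); omega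
      · have := Nat.le_of_dvd (by norm_num) h3; omega
    have hd := Subgroup.card_dvd_of_le hMH
    rw [hc] at hd
    rcases overgrp p hH hMH hnc (Or.inr hpM) with h | h | h | h
    · rw [h.1] at hd; norm_num at hd
    · rw [h.1, hc]
    · rw [h.1] at hd; norm_num at hd
    · obtain ⟨k, m, hm, hk, _⟩ := h
      exact absurd hk (no_pow_prime hp hF hm)

theorem a4_max {F : Type u} [Field F] [Finite F] {p : ℕ} (hp : p.Prime) (hF : Nat.card F = p) (h5 : 5 ≤ p) (h8 : p % 8 = 3 ∨ p % 8 = 5)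
    (h10 : p % 10 ≠ 1 ∧ p % 10 ≠ 9) :
    ∃ H : Subgroup (ProjectiveSpecialLinearGroup (Fin 2) F), IsCoatom H ∧ Nonempty (H ≃* alternatingGroup (Fin 4)) := by
  haveI : Fact p.Prime := ⟨hp⟩
  haveI : CharP F p := card_eq_of_pow hp (r := 1) (by rw [pow_one, hF])
  obtain ⟨M, ⟨e⟩⟩ := exists_a4_odd (F := F) p (by omega)
  have hc : Nat.card M = 12 := by rw [Nat.card_congr e.toEquiv, card_a4]
  have hnc : NC3 M := nc3_a4.of_inj e.symm.toMonoidHom e.symm.injective
  refine ⟨M, coatom_of ?_ ?_, ⟨e⟩⟩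
  · have := cub_mono h5
    exact ne_top_of_card (N := 12) (by rw [hF]; omega) hc.le
  · intro H hH hMH
    have hpM : ¬ p ∣ Nat.card M := by
      rw [hc]
      intro h
      have h2 : p ∣ 2 ^ 2 * 3 := by norm_num; exact h
      rcases (Nat.Prime.dvd_mul hp).1 h2 with h3 | h3
      · have := Nat.le_of_dvd (by norm_num) (hp.dvd_of_dvd_pow h3); omega
      · have := Nat.le_of_dvd (by norm_num) h3; omega
    rcases overgrp p hH hMH hnc (Or.inr hpM) with h | h | h | h
    · rw [h.1, hc]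
    · exfalso
      have hs := (s4_iff (F := F)).1 ⟨H, h.2.2⟩
      rw [hF] at hs
      have : p % 16 = 3 ∨ p % 16 = 11 ∨ p % 16 = 5 ∨ p % 16 = 13 := by omega
      rcases this with h | h | h | h <;> rw [Nat.pow_mod, h] at hs <;> norm_num at hs
    · exfalso
      have hs := (a5_iff (F := F)).1 ⟨H, h.2.2⟩
      rw [hF] at hs
      have hp5 : p ≠ 5 := by
        rintro rfl
        rcases h.2.1 with h | h
        · norm_num at h
        · exact h (by norm_num)
      rcases (Nat.Prime.dvd_mul Nat.prime_five).1 hs with h6 | h6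
      · exact hp5 ((Nat.prime_dvd_prime_iff_eq Nat.prime_five hp).1 h6).symm
      · have h7 : p % 5 = 2 ∨ p % 5 = 3 := by
          have : p % 5 ≠ 0 := fun h => hp5 ((Nat.prime_dvd_prime_iff_eq Nat.prime_five hp).1 (Nat.dvd_of_mod_eq_zero h)).symm
          omega
        have h8 : p ^ 2 % 5 = 4 := by
          rcases h7 with hm | hm <;> rw [Nat.pow_mod, hm]
        omega
    · obtain ⟨k, m, hm, hk, _⟩ := h
      exact absurd hk (no_pow_prime hp hF hm)

theorem a5_max {F : Type u} [Field F] [Finite F] {p : ℕ} (hp : p.Prime)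
    (h : (Nat.card F = p ∧ (p % 10 = 1 ∨ p % 10 = 9)) ∨ (Nat.card F = p ^ 2 ∧ (p % 10 = 3 ∨ p % 10 = 7))) :
    ∃ H : Subgroup (ProjectiveSpecialLinearGroup (Fin 2) F), IsCoatom H ∧ Nonempty (H ≃* alternatingGroup (Fin 5)) := by
  haveI : Fact p.Prime := ⟨hp⟩
  obtain ⟨r, hr, hr0⟩ : ∃ r, Nat.card F = p ^ r ∧ r ≠ 0 := by
    rcases h with h | h
    · exact ⟨1, by rw [pow_one, h.1], by norm_num⟩
    · exact ⟨2, h.1, by norm_num⟩
  haveI : CharP F p := card_eq_of_pow hp hr
  have h1 : p ≠ 1 := hp.one_lt.ne'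
  have h7 : 9 ≤ Nat.card F := by
    rcases h with h | h
    · omega
    · rw [h.1]
      have : 3 ≤ p := by omega
      nlinarith
  have hs : 5 ∣ Nat.card F * (Nat.card F ^ 2 - 1) := by
    apply dvd_mul_of_dvd_right
    have h3 : Nat.card F ^ 2 % 5 = 1 := by
      rcases h with h | h
      · rw [h.1]
        have : p % 5 = 1 ∨ p % 5 = 4 := by omega
        rcases this with h | h <;> rw [Nat.pow_mod, h]
      · rw [h.1, ← pow_mul]
        have : p % 5 = 3 ∨ p % 5 = 2 := by omega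
        rcases this with h | h <;> rw [Nat.pow_mod, h]
    omega
  obtain ⟨M, ⟨e⟩⟩ := (a5_iff (F := F)).2 hs
  have hc : Nat.card M = 60 := by rw [Nat.card_congr e.toEquiv, card_a5]
  have hnc : NC3 M := nc3_a5.of_inj e.symm.toMonoidHom e.symm.injective
  have h25 : p ≠ 2 ∧ p ≠ 5 := by omega
  have hpM : p = 3 ∨ ¬ p ∣ Nat.card M := by
    by_cases hp3 : p = 3
    · exact Or.inl hp3
    · right
      rw [hc]
      intro h
      have h2 : p ∣ 2 ^ 2 * 3 * 5 := by norm_num; exact h
      rcases (Nat.Prime.dvd_mul hp).1 h2 with h3 | h3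
      · rcases (Nat.Prime.dvd_mul hp).1 h3 with h3 | h3
        · exact h25.1 ((Nat.prime_dvd_prime_iff_eq hp Nat.prime_two).1 (hp.dvd_of_dvd_pow h3))
        · exact hp3 ((Nat.prime_dvd_prime_iff_eq hp Nat.prime_three).1 h3)
      · exact h25.2 ((Nat.prime_dvd_prime_iff_eq hp Nat.prime_five).1 h3)
  refine ⟨M, coatom_of ?_ ?_, ⟨e⟩⟩
  · have := cub_mono h7
    exact ne_top_of_card (N := 60) (by omega) hc.le
  · intro H hH hMH
    have hd := Subgroup.card_dvd_of_le hMH
    rw [hc] at hd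
    rcases overgrp p hH hMH hnc hpM with h' | h' | h' | h'
    · rw [h'.1] at hd; norm_num at hd
    · rw [h'.1] at hd; norm_num at hd
    · rw [h'.1, hc]
    · exfalso
      obtain ⟨k, m, hm, hk, hcard⟩ := h'
      rcases h with h | h
      · exact no_pow_prime hp h.1 hm hk
      · -- the subfield is the prime field
        have hkp : Nat.card k = p := by
          rw [h.1] at hk
          have h3 : Nat.card k ∣ p ^ 2 := by rw [← hk]; exact dvd_pow_self _ (by omega)
          obtain ⟨s, hs2, hs⟩ := (Nat.dvd_prime_pow hp).1 h3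
          have hk1 : 1 < Nat.card k := Finite.one_lt_card
          have : s = 1 ∨ s = 0 ∨ s = 2 := by omega
          rcases this with h4 | h4 | h4
          · rw [hs, h4, pow_one]
          · rw [hs, h4] at hk1; norm_num at hk1
          · exfalso
            rw [hs, h4, ← pow_mul] at hk
            have := Nat.pow_right_injective hp.two_le hk
            omega
        have h60 : 60 ∣ p * (p - 1) * (p + 1) := by
          rw [hkp] at hcard
          rcases hcard with h | h
          · rw [← h.1]; exact dvd_mul_of_dvd_right hd _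
          · rw [← h.1]; exact hd
        have h5' : 5 ∣ p * (p - 1) * (p + 1) := dvd_trans (by norm_num) h60
        have hp5 : p % 5 = 3 ∨ p % 5 = 2 := by omega
        rcases (Nat.Prime.dvd_mul Nat.prime_five).1 h5' with h6 | h6
        · rcases (Nat.Prime.dvd_mul Nat.prime_five).1 h6 with h6 | h6 <;> omega
        · omega

end CfsgLib.Mob26
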