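import Mathlib
import Cfsg.Agent.Lib.Mob26

set_option autoImplicit false
set_option maxHeartbeats 400000

/-! Maximal subfield subgroups of `PSL(2,q)`. -/
namespace CfsgLib.Mob27

open OnePoint Matrix CfsgLib.Mob3 CfsgLib.Mob4 CfsgLib.Mob5 CfsgLib.Mob10 CfsgLib.Mob12 CfsgLib.Mob13 CfsgLib.Mob14 CfsgLib.Mob15 CfsgLib.Mob16 CfsgLib.Mob17 CfsgLib.Mob18 CfsgLib.Mob19 CfsgLib.Mob20 CfsgLib.Mob21 CfsgLib.Mob22 CfsgLib.Mob23 CfsgLib.Mob24 CfsgLib.Mob25 CfsgLib.Mob26

universe u v w

theorem psl_to_pgl (k : Type u) [Field k] : ∃ f : ProjectiveSpecialLinearGroup (Fin 2) k →* ProjGenLinGroup (Fin 2) k, Function.Injective f := by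
  classical
  obtain ⟨e1⟩ := sm_iso (k := k) (F := k)
  obtain ⟨e2⟩ := pm_iso (k := k) (F := k)
  exact ⟨(e2.toMonoidHom.comp (Subgroup.inclusion (sm_le_pm (k := k) (F := k)))).comp e1.symm.toMonoidHom,
    (e2.injective.comp (Subgroup.inclusion_injective _)).comp e1.symm.injective⟩

theorem dvd_of_pow_sub {x a b : ℕ} (hx : 4 ≤ x) (ha : a ≠ 0) (h : x ^ a - 1 ∣ 2 * (x ^ b - 1)) : a ∣ b := by
  have h1 : x ^ a - 1 ∣ 2 * (x ^ a.gcd b - 1) := by
    rw [← Nat.pow_sub_one_gcd_pow_sub_one, ← Nat.gcd_mul_left]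
    exact Nat.dvd_gcd (dvd_mul_left _ _) h
  have hg0 : 0 < a.gcd b := Nat.gcd_pos_of_pos_left _ (by omega)
  have hgx : 1 < x ^ a.gcd b := Nat.one_lt_pow hg0.ne' (by omega)
  have h2 := Nat.le_of_dvd (by omega) h1
  have h3 : a.gcd b ∣ a := Nat.gcd_dvd_left a b
  have h4 : a.gcd b = a := by
    by_contra hne
    have h5 : a.gcd b + 1 ≤ a := by
      have := Nat.le_of_dvd (by omega) h3
      omega
    have h6 := Nat.pow_le_pow_right (show 0 < x by omega) h5
    rw [pow_succ] at h6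
    have h7 : x ^ a.gcd b * 4 ≤ x ^ a.gcd b * x := Nat.mul_le_mul_left _ hx
    omega
  rw [← h4]
  exact Nat.gcd_dvd_right a b

theorem sq_sub_fac (c : ℕ) : (c - 1) * (c + 1) = c ^ 2 - 1 := by
  rw [mul_comm, ← Nat.sq_sub_sq]

/-- the field of definition -/
theorem sub_eq {p a b r m : ℕ} (hp : p.Prime) (ha : a ≠ 0) (hr : r.Prime) (hm : 2 ≤ m) (h : (p ^ b) ^ m = (p ^ a) ^ r)
    (hd : p ^ a * (p ^ a - 1) * (p ^ a + 1) ∣ 2 * (p ^ b * (p ^ b - 1) * (p ^ b + 1))) : m = r ∧ p ^ b = p ^ a := by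
  rw [mul_assoc, mul_assoc, sq_sub_fac, sq_sub_fac] at hd
  have h1 : (p ^ a) ^ 2 - 1 ∣ 2 * (p ^ b * ((p ^ b) ^ 2 - 1)) := (dvd_mul_left _ _).trans hd
  have h2 : 2 * (p ^ b * ((p ^ b) ^ 2 - 1)) = p ^ b * (2 * ((p ^ b) ^ 2 - 1)) := by ring
  rw [h2] at h1
  have hco : Nat.Coprime ((p ^ a) ^ 2 - 1) (p ^ b) := by
    apply Nat.Coprime.pow_right
    have h3 : Nat.Coprime ((p ^ a) ^ 2 - 1) ((p ^ a) ^ 2) := by
      have h4 : 1 ≤ (p ^ a) ^ 2 := Nat.one_le_iff_ne_zero.2 (pow_ne_zero _ (pow_ne_zero _ hp.ne_zero))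
      have h5 := Nat.coprime_self_add_right (m := (p ^ a) ^ 2 - 1) (n := 1)
      rw [Nat.sub_add_cancel h4] at h5
      exact h5.2 (Nat.coprime_one_right _)
    exact Nat.Coprime.coprime_dvd_right ((dvd_pow_self p ha).trans (dvd_pow_self _ (by norm_num))) h3
  have h3 := hco.dvd_of_dvd_mul_left h1
  rw [← pow_mul, ← pow_mul, mul_comm a, mul_comm b, pow_mul, pow_mul] at h3
  have h4 := dvd_of_pow_sub (x := p ^ 2) (by nlinarith [hp.two_le]) ha h3
  obtain ⟨s, rfl⟩ := h4
  rw [← pow_mul, ← pow_mul] at h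
  have h5 := Nat.pow_right_injective hp.two_le h
  have h5' : a * s * m = a * r := h5
  have h6 : s * m = r := by
    have : a * (s * m) = a * r := by rw [← h5']; ring
    exact Nat.eq_of_mul_eq_mul_left (by omega) this
  rw [← h6] at hr
  have h7 := Nat.Prime.eq_one_or_self_of_dvd hr m (dvd_mul_left m s)
  rcases h7 with h7 | h7
  · omega
  · have h8 : s = 1 := by
      have : 1 * m = s * m := by omega
      exact (Nat.eq_of_mul_eq_mul_right (by omega) this).symm
    exact ⟨by rw [h7, h6], by rw [h8, mul_one]⟩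

theorem five_ndvd_three {r : ℕ} (hr : Odd r) : ¬ 5 ∣ 3 ^ r * ((3 ^ r) ^ 2 - 1) := by
  intro h5
  obtain ⟨k, rfl⟩ := hr
  rcases (Nat.Prime.dvd_mul Nat.prime_five).1 h5 with h6 | h6
  · have := Nat.prime_five.dvd_of_dvd_pow h6
    norm_num at this
  · have h7 : (3 ^ (2 * k + 1)) ^ 2 % 5 = 4 := by
      have : (3 ^ (2 * k + 1)) ^ 2 = 81 ^ k * 9 := by
        rw [← pow_mul, show (2 * k + 1) * 2 = 4 * k + 2 by ring, pow_add, pow_mul]; norm_num
      rw [this, Nat.mul_mod, Nat.pow_mod]; norm_num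
    omega

/-- no overgroup of a subfield subgroup fixes a point -/
theorem no_fix {F : Type u} [Field F] [DecidableEq F] (p : ℕ) [hp : Fact p.Prime] [CharP F p] {K : Type v} [Field K] [CharP K p]
    {M : Subgroup (ProjectiveSpecialLinearGroup (Fin 2) F)} (f : ProjectiveSpecialLinearGroup (Fin 2) K →* M) (hf : Function.Injective f)
    {x : OnePoint F} (h : ∀ g ∈ M, Psi F g x = x) : False := by
  obtain ⟨a, b, ha, hb, hab⟩ := ncp K p
  apply hab
  apply hf
  apply Subtype.ext
  rw [map_mul, map_mul, Subgroup.coe_mul, Subgroup.coe_mul]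
  refine fix_comm p ?_ ?_ (h _ (f a).2) (h _ (f b).2)
  · rw [← Subgroup.coe_pow, ← map_pow, ha, map_one, Subgroup.coe_one]
  · rw [← Subgroup.coe_pow, ← map_pow, hb, map_one, Subgroup.coe_one]

theorem nc3_psl {K : Type v} [Field K] [Finite K] (p : ℕ) [hp : Fact p.Prime] [CharP K p] (hp2 : p ≠ 2) :
    NC3 (ProjectiveSpecialLinearGroup (Fin 2) K) := by
  obtain ⟨H, ⟨e⟩⟩ := exists_a4_odd (F := K) p hp2
  exact nc3_a4.of_inj (H.subtype.comp e.symm.toMonoidHom) (H.subtype_injective.comp e.symm.injective)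

/-- overgroups of subfield subgroups, odd characteristic -/
theorem over_sub {F : Type u} [Field F] [Finite F] {K : Type v} [Field K] [Finite K] (p : ℕ) [hp : Fact p.Prime] [CharP F p] [CharP K p]
    (hp2 : p ≠ 2) {M H : Subgroup (ProjectiveSpecialLinearGroup (Fin 2) F)} (hMH : M ≤ H)
    (f : ProjectiveSpecialLinearGroup (Fin 2) K →* M) (hf : Function.Injective f) (hH : H ≠ ⊤) :
    (Nat.card H = 12 ∧ ¬ p ∣ 12 ∧ Nonempty (H ≃* alternatingGroup (Fin 4))) ∨
    (Nat.card H = 24 ∧ ¬ p ∣ 24 ∧ Nonempty (H ≃* Equiv.Perm (Fin 4))) ∨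
    (Nat.card H = 60 ∧ (p = 3 ∨ ¬ p ∣ 60) ∧ Nonempty (H ≃* alternatingGroup (Fin 5))) ∨
    (∃ (k : Subfield F) (m : ℕ), 2 ≤ m ∧ Nat.card k ^ m = Nat.card F ∧
      ((Nat.gcd 2 (Nat.card k - 1) * Nat.card H = Nat.card k * (Nat.card k - 1) * (Nat.card k + 1) ∧
        Nonempty (H ≃* ProjectiveSpecialLinearGroup (Fin 2) k)) ∨
      (Nat.card H = Nat.card k * (Nat.card k - 1) * (Nat.card k + 1) ∧ Nonempty (H ≃* ProjGenLinGroup (Fin 2) k)))) := by
  classical
  have hHn : NC3 H := (nc3_psl (K := K) p hp2).of_inj ((Subgroup.inclusion hMH).comp f) ((Subgroup.inclusion_injective hMH).comp hf)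
  rcases list_ord p hH with h | h | h | h | h | h | h
  · exfalso
    obtain ⟨x, hx, -⟩ := h
    exact no_fix p f hf (fun g hg => hx g (hMH hg))
  · exact absurd h.1 hHn.not_cyclic
  · obtain ⟨n, _, e, _⟩ := h
    exact absurd e hHn.not_dihedral
  · left; exact h
  · right; left; exact h
  · right; right; left; exact h
  · right; right; right; exact h

theorem pgl_max {F : Type u} [Field F] [Finite F] {K : Type v} [Field K] [Finite K] (hF : Nat.card F = Nat.card K ^ 2) (hq : Odd (Nat.card K)) :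
    ∃ H : Subgroup (ProjectiveSpecialLinearGroup (Fin 2) F), IsCoatom H ∧ Nonempty (H ≃* ProjGenLinGroup (Fin 2) K) := by
  obtain ⟨p, n, hp, hc, hn, hpn⟩ := exists_pn K
  haveI : CharP F p := card_eq_of_pow hp.out (r := n * 2) (by rw [hF, hpn, pow_mul])
  have hp2 : p ≠ 2 := by
    rintro rfl
    rw [hpn] at hq
    exact (Nat.not_even_iff_odd.2 hq) (even_two.pow_of_ne_zero hn)
  obtain ⟨M, ⟨e⟩⟩ := pgl_embeds (k := K) (F := F) (m := 1) (by rw [hF])
  have hcM : Nat.card M = Nat.card K * (Nat.card K - 1) * (Nat.card K + 1) := by rw [Nat.card_congr e.toEquiv, card_PGL K]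
  have hq1 : 1 < Nat.card K := Finite.one_lt_card
  have hq3 : 3 ≤ Nat.card K := by obtain ⟨c, hc⟩ := hq; omega
  obtain ⟨f, hf⟩ := psl_to_pgl K
  refine ⟨M, coatom_of ?_ ?_, ⟨e⟩⟩
  · exact ne_top_of_card (cub_sq (by omega) (by rw [hF, pow_two])) hcM.le
  · intro H hH hMH
    have hd := Subgroup.card_dvd_of_le hMH
    have h24 := cub hcM.symm hq3
    rcases over_sub p hp2 hMH (e.symm.toMonoidHom.comp f) (e.symm.injective.comp hf) hH with h | h | h | h
    · rw [h.1]; omega
    · rw [h.1]; omega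
    · by_cases h3 : Nat.card K = 3
      · rw [h.1, hcM, h3] at hd
        norm_num at hd
      · have h5 : 5 ≤ Nat.card K := by obtain ⟨c, hc⟩ := hq; omega
        have := cub_mono h5
        rw [h.1, hcM]; omega
    · obtain ⟨k, m, hm, hk, h⟩ := h
      have h1 : 1 < Nat.card k := Finite.one_lt_card
      have h2 : Nat.card k ≤ Nat.card K := by
        have : Nat.card k ^ 2 ≤ Nat.card K ^ 2 := by
          rw [← hF, ← hk]
          exact Nat.pow_le_pow_right (by omega) hm
        exact (Nat.pow_le_pow_iff_left (by norm_num)).1 this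
      rw [hcM]
      refine le_trans ?_ (cub_mono h2)
      rcases h with h | h
      · rw [← h.1]
        exact Nat.le_mul_of_pos_left _ (Nat.gcd_pos_of_pos_left _ (by norm_num))
      · exact h.1.le

theorem psl_max_odd {F : Type u} [Field F] [Finite F] {K : Type v} [Field K] [Finite K] {r : ℕ} (hF : Nat.card F = Nat.card K ^ r)
    (hq : Odd (Nat.card K)) (hr : r.Prime) (hr2 : r ≠ 2) :
    ∃ H : Subgroup (ProjectiveSpecialLinearGroup (Fin 2) F), IsCoatom H ∧ Nonempty (H ≃* ProjectiveSpecialLinearGroup (Fin 2) K) := by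
  obtain ⟨p, n, hp, hc, hn, hpn⟩ := exists_pn K
  haveI : CharP F p := card_eq_of_pow hp.out (r := n * r) (by rw [hF, hpn, pow_mul])
  have hp2 : p ≠ 2 := by
    rintro rfl
    rw [hpn] at hq
    exact (Nat.not_even_iff_odd.2 hq) (even_two.pow_of_ne_zero hn)
  obtain ⟨M, ⟨e⟩⟩ := psl_embeds (k := K) (F := F) (m := r) (by rw [hF])
  have hcM : 2 * Nat.card M = Nat.card K * (Nat.card K - 1) * (Nat.card K + 1) := by
    rw [Nat.card_congr e.toEquiv, ← card_PSL K, gcd_two_odd hq]
  have hq1 : 1 < Nat.card K := Finite.one_lt_card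
  have hq3 : 3 ≤ Nat.card K := by obtain ⟨c, hc⟩ := hq; omega
  have hsq : Nat.card K * Nat.card K ≤ Nat.card F := by
    rw [hF, ← pow_two]
    exact Nat.pow_le_pow_right (by omega) hr.two_le
  have hrodd : Odd r := hr.odd_of_ne_two hr2
  refine ⟨M, coatom_of ?_ ?_, ⟨e⟩⟩
  · exact ne_top_of_card (cub_sq (by omega) hsq) (by omega)
  · intro H hH hMH
    have hd := Subgroup.card_dvd_of_le hMH
    have h24 := cub hcM.symm hq3
    have h60 : 5 ≤ Nat.card K → 60 ≤ Nat.card M := by
      intro h5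
      have := cub_mono h5
      omega
    rcases over_sub p hp2 hMH e.symm.toMonoidHom e.symm.injective hH with h | h | h | h
    · rw [h.1]; omega
    · have : Nat.card K ≠ 3 := by
        intro h3
        have hp3 : p = 3 := by
          rw [hpn] at h3
          have : p ∣ 3 := by rw [← h3]; exact dvd_pow_self _ hn
          exact (Nat.prime_dvd_prime_iff_eq hp.out Nat.prime_three).1 this
        rw [hp3] at h
        exact h.2.1 (by norm_num)
      have h5 : 5 ≤ Nat.card K := by obtain ⟨c, hc⟩ := hq; omega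
      have := h60 h5
      rw [h.1]; omega
    · by_cases h3 : Nat.card K = 3
      · exfalso
        have h5 := (a5_iff (F := F)).1 ⟨H, h.2.2⟩
        rw [hF, h3] at h5
        exact five_ndvd_three hrodd h5
      · have h5 : 5 ≤ Nat.card K := by obtain ⟨c, hc⟩ := hq; omega
        rw [h.1]; exact h60 h5
    · obtain ⟨k, m, hm, hk, h⟩ := h
      haveI := char_sub p k
      obtain ⟨b, hb, hkb⟩ := card_eq (F := k) p
      have hkodd := odd_of_ne_two (F := k) p hp2
      rw [gcd_two_odd hkodd] at h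
      have hdv : Nat.card K * (Nat.card K - 1) * (Nat.card K + 1) ∣ 2 * (Nat.card k * (Nat.card k - 1) * (Nat.card k + 1)) := by
        rw [← hcM]
        rcases h with h | h
        · rw [← h.1]
          exact dvd_mul_of_dvd_right (Nat.mul_dvd_mul_left 2 hd) 2
        · rw [← h.1]
          exact Nat.mul_dvd_mul_left 2 hd
      rw [hkb, hpn] at hdv
      obtain ⟨hmr, hbn⟩ := sub_eq hp.out hn hr hm (by rw [← hkb, hk, hF, hpn]) hdv
      have hkK : Nat.card k = Nat.card K := by rw [hkb, hbn, hpn]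
      rcases h with h | h
      · rw [hkK, ← hcM] at h
        omega
      · exfalso
        have h1 := (pgl_iff (k := k) (F := F) (m := m) hk (by rw [hF]; exact hq.pow) (by omega)).1 ⟨H, h.2⟩
        rw [hmr] at h1
        exact (Nat.not_even_iff_odd.2 hrodd) h1

theorem psl_max_even {F : Type u} [Field F] [Finite F] {K : Type v} [Field K] [Finite K] {r : ℕ} (hF : Nat.card F = Nat.card K ^ r)
    (hq : Even (Nat.card K)) (hq2 : Nat.card K ≠ 2) (hr : r.Prime) :
    ∃ H : Subgroup (ProjectiveSpecialLinearGroup (Fin 2) F), IsCoatom H ∧ Nonempty (H ≃* ProjectiveSpecialLinearGroup (Fin 2) K) := by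
  classical
  obtain ⟨p, n, hp, hc, hn, hpn⟩ := exists_pn K
  have hp2 : p = 2 := by
    by_contra hp2
    have := odd_of_ne_two (F := K) p hp2
    exact (Nat.not_even_iff_odd.2 this) hq
  subst hp2
  haveI : CharP F 2 := card_eq_of_pow hp.out (r := n * r) (by rw [hF, hpn, pow_mul])
  obtain ⟨M, ⟨e⟩⟩ := psl_embeds (k := K) (F := F) (m := r) (by rw [hF])
  have hq1 : 1 < Nat.card K := Finite.one_lt_card
  have hcM : Nat.card M = Nat.card K * (Nat.card K - 1) * (Nat.card K + 1) := by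
    rw [Nat.card_congr e.toEquiv, ← card_PSL K, gcd_two_even hq hq1, one_mul]
  have hq4 : 4 ≤ Nat.card K := by obtain ⟨c, hc⟩ := hq; omega
  have hsq : Nat.card K * Nat.card K ≤ Nat.card F := by
    rw [hF, ← pow_two]
    exact Nat.pow_le_pow_right (by omega) hr.two_le
  have hns : ¬ Group.IsSolvable M := not_solvable_of_inj (psl_not_solvable K hq4) (f := e.symm.toMonoidHom) e.symm.injective
  refine ⟨M, coatom_of ?_ ?_, ⟨e⟩⟩
  · exact ne_top_of_card (cub_sq (by omega) hsq) hcM.le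
  · intro H hH hMH
    have hd := Subgroup.card_dvd_of_le hMH
    have hnH : ¬ Group.IsSolvable H := fun h => hns (solvable_of_le h hMH)
    rcases list_ord 2 hH with h | h | h | h | h | h | h
    · obtain ⟨x, hx, _⟩ := h
      exact absurd (solvable_of_fix hx) hnH
    · exact absurd (Group.isSolvable_of_comm (fun a b => h.1.commutative.is_comm.comm a b)) hnH
    · obtain ⟨n, _, e, _⟩ := h
      exact absurd (solvable_of_iso (solvable_dihedral n) e) hnH
    · exact absurd (by norm_num) h.2.1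
    · exact absurd (by norm_num) h.2.1
    · rcases h.2.1 with h | h
      · norm_num at h
      · exact absurd (by norm_num) h
    · obtain ⟨k, m, hm, hk, h⟩ := h
      haveI := char_sub 2 k
      obtain ⟨b, hb, hkb⟩ := card_eq (F := k) 2
      have hk1 : 1 < Nat.card k := Finite.one_lt_card
      rw [gcd_two_even even_of_two hk1, one_mul] at h
      have hcH : Nat.card H = Nat.card k * (Nat.card k - 1) * (Nat.card k + 1) := by
        rcases h with h | h <;> exact h.1
      have hdv : Nat.card K * (Nat.card K - 1) * (Nat.card K + 1) ∣ 2 * (Nat.card k * (Nat.card k - 1) * (Nat.card k + 1)) := by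
        rw [← hcM, ← hcH]
        exact dvd_mul_of_dvd_right hd 2
      rw [hkb, hpn] at hdv
      obtain ⟨hmr, hbn⟩ := sub_eq hp.out hn hr hm (by rw [← hkb, hk, hF, hpn]) hdv
      have hkK : Nat.card k = Nat.card K := by rw [hkb, hbn, hpn]
      rw [hcH, hcM, hkK]

end CfsgLib.Mob27
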