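import Mathlib
import Cfsg.Agent.Lib.Mob27

set_option autoImplicit false
set_option maxHeartbeats 400000

/-! Stabilisers of pairs of points: split and nonsplit tori and their normalisers in groups between `PSL(2,q)` and `PGL(2,q)`. -/
namespace CfsgLib.Mob28

open OnePoint Matrix CfsgLib.Mob3 CfsgLib.Mob4 CfsgLib.Mob5 CfsgLib.Mob6 CfsgLib.Mob7 CfsgLib.Mob8 CfsgLib.Mob9 CfsgLib.Mob10 CfsgLib.Mob12 CfsgLib.Mob13 CfsgLib.Mob14 CfsgLib.Mob15 CfsgLib.Mob16 CfsgLib.Mob17 CfsgLib.Mob18 CfsgLib.Mob19 CfsgLib.Mob20 CfsgLib.Mob21 CfsgLib.Mob22 CfsgLib.Mob23 CfsgLib.Mob24 CfsgLib.Mob25 CfsgLib.Mob26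

universe u v w

section
variable {K : Type u} [Field K] [DecidableEq K]

/-- the setwise stabiliser of a pair -/
def PS (G : Subgroup (Equiv.Perm (OnePoint K))) (x y : OnePoint K) : Subgroup (Equiv.Perm (OnePoint K)) where
  carrier := {g | g ∈ G ∧ ((g x = x ∧ g y = y) ∨ (g x = y ∧ g y = x))}
  mul_mem' := by
    rintro a b ⟨ha, ha'⟩ ⟨hb, hb'⟩
    refine ⟨G.mul_mem ha hb, ?_⟩
    rw [Equiv.Perm.mul_apply, Equiv.Perm.mul_apply]
    rcases hb' with ⟨h1, h2⟩ | ⟨h1, h2⟩ <;> rw [h1, h2] <;> rcases ha' with ⟨h3, h4⟩ | ⟨h3, h4⟩ <;> rw [h3, h4] <;> simp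
  one_mem' := ⟨G.one_mem, Or.inl ⟨rfl, rfl⟩⟩
  inv_mem' := by
    rintro a ⟨ha, ha'⟩
    refine ⟨G.inv_mem ha, ?_⟩
    rcases ha' with ⟨h1, h2⟩ | ⟨h1, h2⟩
    · left; exact ⟨Equiv.Perm.inv_eq_iff_eq.2 h1.symm, Equiv.Perm.inv_eq_iff_eq.2 h2.symm⟩
    · right; exact ⟨Equiv.Perm.inv_eq_iff_eq.2 h2.symm, Equiv.Perm.inv_eq_iff_eq.2 h1.symm⟩

theorem mem_PS {G : Subgroup (Equiv.Perm (OnePoint K))} {x y : OnePoint K} {g : Equiv.Perm (OnePoint K)} :
    g ∈ PS G x y ↔ g ∈ G ∧ ((g x = x ∧ g y = y) ∨ (g x = y ∧ g y = x)) := Iff.rfl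

theorem PS_le (G : Subgroup (Equiv.Perm (OnePoint K))) (x y : OnePoint K) : PS G x y ≤ G := fun _ h => h.1

theorem dih_PS {G : Subgroup (Equiv.Perm (OnePoint K))} {x y : OnePoint K} (hxy : x ≠ y) (h : ∃ g ∈ G, g x = y ∧ g y = x) :
    Dih (PS G x y) x y := by
  refine ⟨hxy, fun g hg => hg.2, ?_⟩
  obtain ⟨g, hg, h1, h2⟩ := h
  exact ⟨g, ⟨hg, Or.inr ⟨h1, h2⟩⟩, h1⟩

theorem mem_St_PS {G : Subgroup (Equiv.Perm (OnePoint K))} {x y : OnePoint K} (hxy : x ≠ y) {g : Equiv.Perm (OnePoint K)} :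
    g ∈ St (PS G x y) x ↔ g ∈ G ∧ g x = x ∧ g y = y := by
  rw [mem_St, mem_PS]
  constructor
  · rintro ⟨⟨h1, h2 | h2⟩, h3⟩
    · exact ⟨h1, h2⟩
    · exact absurd (h3.symm.trans h2.1) hxy
  · rintro ⟨h1, h2, h3⟩
    exact ⟨⟨h1, Or.inl ⟨h2, h3⟩⟩, h2⟩

theorem cj_PS {G : Subgroup (Equiv.Perm (OnePoint K))} {h : Equiv.Perm (OnePoint K)} (hh : h ∈ G) (x y : OnePoint K) :
    cj h (PS G x y) = PS G (h x) (h y) := by
  ext g
  rw [mem_cj, mem_PS, mem_PS]
  have h1 : h⁻¹ * g * h ∈ G ↔ g ∈ G := by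
    rw [Subgroup.mul_mem_cancel_right _ hh, Subgroup.mul_mem_cancel_left _ (G.inv_mem hh)]
  have h2 : ∀ a b, (h⁻¹ * g * h) a = b ↔ g (h a) = h b := by
    intro a b
    rw [Equiv.Perm.mul_apply, Equiv.Perm.mul_apply, Equiv.Perm.inv_eq_iff_eq]
  rw [h1, h2, h2, h2, h2]

/-- a group of Moebius transformations with unipotent elements: the second orbit -/
theorem two_orbits [IsAlgClosed K] (p : ℕ) [hp : Fact p.Prime] [CharP K p] {G : Subgroup (Equiv.Perm (OnePoint K))} (hG : G ≤ mob K) [Finite G]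
    {x0 : OnePoint K} (hx : UU G x0 ≠ ⊥) (hnf : ¬ ∀ g ∈ G, g x0 = x0) :
    ∃ z, 2 ≤ Nat.card (St G z) ∧ Nat.card (St G z) *
      (Nat.card {y : OnePoint K | UU G y ≠ ⊥} * (Nat.card (UU G x0) - 2) + 2) = Nat.card G ∧
      ∀ y, (∃ g ∈ G, g ≠ 1 ∧ g y = y) → UU G y ≠ ⊥ ∨ ∃ g ∈ G, g z = y := by
  have hfix : ∀ g ∈ G, ∀ k : ℕ, g ^ p ^ k = 1 → ∃ x, g x = x := fun g hg k _ => exists_fix (hG hg)
  obtain ⟨r, x, h1, h2, h3, h4⟩ := orbits_data hG
  rw [card_uni p hG hfix hx] at h4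
  have hN : 1 ≤ Nat.card G := Nat.card_pos
  haveI hfU : Finite (UU G x0) := Finite.of_injective (Subgroup.inclusion (inf_le_left : UU G x0 ≤ G)) (Subgroup.inclusion_injective _)
  have hs : 2 ≤ Nat.card (UU G x0) := by
    haveI : Nontrivial (UU G x0) := (Subgroup.nontrivial_iff_ne_bot _).2 hx
    exact Finite.one_lt_card
  obtain ⟨t, ht, hst, hts, -⟩ := st_gen G hG x0
  have hOm := card_Om p hG hfix hx
  rw [hst] at hOm
  haveI := Om_finite p hG hfix hx
  haveI : Nonempty {y : OnePoint K | UU G y ≠ ⊥} := ⟨⟨x0, hx⟩⟩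
  have hn : 1 ≤ Nat.card {y : OnePoint K | UU G y ≠ ⊥} := Nat.card_pos
  obtain ⟨i0, hi0⟩ : ∃ i, ∃ g ∈ G, g (x i) = x0 := by
    obtain ⟨u, hu, hu1⟩ := exists_ne_of_UU hx
    exact h3 x0 ⟨u, hu.1, hu1, hu.2.2.1⟩
  have hxi : UU G (x i0) ≠ ⊥ := by
    obtain ⟨g, hg, hgx⟩ := hi0
    have h5 := UU_ne_bot_smul hG (G.inv_mem hg) hx
    rwa [← hgx, ← Equiv.Perm.mul_apply, inv_mul_cancel] at h5
  have ho0 : Nat.card G / Nat.card (St G (x i0)) = Nat.card {y : OnePoint K | UU G y ≠ ⊥} := by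
    rw [← card_Om p hG hfix hxi]
    exact Nat.mul_div_cancel _ (lt_of_lt_of_le (by norm_num) (h1 i0))
  have he : ∀ i, Nat.card (St G (x i)) * (Nat.card G / Nat.card (St G (x i))) = Nat.card G := by
    intro i
    exact Nat.mul_div_cancel' (Subgroup.card_dvd_of_le inf_le_left)
  have hr0 : 1 ≤ r := by
    have := i0.2
    omega
  have hr : r < 3 := by
    refine addr h4 ?_ hs hN hn
    rw [← Finset.add_sum_erase _ _ (Finset.mem_univ i0), ho0, add_mul, mul_comm _ 2, add_le_add_iff_left, Finset.sum_mul]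
    have h5 : ∑ i ∈ Finset.univ.erase i0, (Nat.card G / Nat.card (St G (x i))) * 2 ≤ ∑ i ∈ Finset.univ.erase i0, Nat.card G := by
      apply Finset.sum_le_sum
      intro i _
      have := he i
      have h6 := h1 i
      calc Nat.card G / Nat.card (St G (x i)) * 2 ≤ Nat.card G / Nat.card (St G (x i)) * Nat.card (St G (x i)) := Nat.mul_le_mul_left _ h6
        _ = Nat.card G := by rw [mul_comm]; exact this
    rwa [Finset.sum_const, Finset.card_erase_of_mem (Finset.mem_univ _), Finset.card_univ, Fintype.card_fin, smul_eq_mul] at h5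
  have hfin : Nat.card {y : OnePoint K | UU G y ≠ ⊥} = 1 → ∀ g ∈ G, g x0 = x0 := by
    intro h5
    apply fix_of_card
    rw [← card_Om p hG hfix hx, h5, one_mul]
  have hr' : r = 1 ∨ r = 2 := by omega
  rcases hr' with rfl | rfl
  · exfalso
    rw [Fin.sum_univ_one] at h4
    have hi : i0 = 0 := Subsingleton.elim _ _
    rw [hi] at ho0
    rw [ho0] at h4
    exact hnf (hfin (addw1 h4 hs hn ht hOm))
  · obtain ⟨j, hj, hsum⟩ : ∃ j : Fin 2, j ≠ i0 ∧ ∑ i, Nat.card G / Nat.card (St G (x i)) =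
        Nat.card {y : OnePoint K | UU G y ≠ ⊥} + Nat.card G / Nat.card (St G (x j)) := by
      rw [Fin.sum_univ_two]
      have : i0 = 0 ∨ i0 = 1 := by omega
      rcases this with h | h
      · refine ⟨1, by rw [h]; decide, ?_⟩
        rw [h] at ho0
        rw [ho0]
      · refine ⟨0, by rw [h]; decide, ?_⟩
        rw [h] at ho0
        rw [ho0, add_comm]
    rw [hsum] at h4
    have ho := addw2 h4 hs hN
    refine ⟨x j, h1 j, ?_, ?_⟩
    · rw [← ho]; exact he j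
    · intro y hy
      obtain ⟨i, g, hg, hgy⟩ := h3 y hy
      have : i = i0 ∨ i = j := by omega
      rcases this with rfl | rfl
      · left
        rw [← hgy]
        exact UU_ne_bot_smul hG hg hxi
      · right; exact ⟨g, hg, hgy⟩

end

section
variable {F : Type u} [Field F] [DecidableEq F]

theorem UU_G_inf {G : Subgroup (Equiv.Perm (OnePoint F))} (hsG : sm F F ≤ G) : Nat.card (UU G ∞) = Nat.card F := by
  symm
  apply Nat.card_eq_of_bijective (fun b : F => (⟨aff 1 b one_ne_zero, hsG (aff_mem_sm b), uni_inf.2 ⟨b, rfl⟩⟩ : UU G ∞))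
  constructor
  · intro a b hab
    have h1 : aff (1 : F) a one_ne_zero = aff 1 b one_ne_zero := congrArg Subtype.val hab
    exact (aff_inj h1).2
  · rintro ⟨g, hg1, hg2⟩
    obtain ⟨b, rfl⟩ := uni_inf.1 hg2
    exact ⟨b, rfl⟩

theorem UU_G_ne {G : Subgroup (Equiv.Perm (OnePoint F))} (hsG : sm F F ≤ G) (x : OnePoint F) : UU G x ≠ ⊥ := by
  intro h
  apply UU_sm_ne x
  rw [eq_bot_iff] at h ⊢
  exact fun g hg => h ⟨hsG hg.1, hg.2⟩

theorem card_Om_G [Finite F] {G : Subgroup (Equiv.Perm (OnePoint F))} (hsG : sm F F ≤ G) :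
    Nat.card {y : OnePoint F | UU G y ≠ ⊥} = Nat.card F + 1 := by
  have h2 : {y : OnePoint F | UU G y ≠ ⊥} = Set.univ := by
    ext y; exact ⟨fun _ => trivial, fun _ => UU_G_ne hsG y⟩
  rw [h2, Nat.card_coe_set_eq, Set.ncard_univ, card_onePoint]

theorem card_St_G [Finite F] (p : ℕ) [hp : Fact p.Prime] [CharP F p] {G : Subgroup (Equiv.Perm (OnePoint F))} (hsG : sm F F ≤ G)
    (hG : G ≤ mob F) (x : OnePoint F) : (Nat.card F + 1) * Nat.card (St G x) = Nat.card G := by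
  haveI : Finite (OnePoint F) := inferInstanceAs (Finite (Option F))
  haveI : Finite (Equiv.Perm (OnePoint F)) := inferInstance
  have h1 := card_Om p hG (fun g _ k hg => fix_of_ppow p g k hg) (UU_G_ne hsG x)
  rwa [card_Om_G hsG] at h1

/-- the split torus -/
theorem split_card [Finite F] {G : Subgroup (Equiv.Perm (OnePoint F))} (hsG : sm F F ≤ G) (hG : G ≤ mob F) :
    Nat.card (St G ∞) = Nat.card F * Nat.card (St (PS G ∞ ((0 : F) : OnePoint F)) ∞) := by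
  rw [← Nat.card_prod]
  symm
  have hne : (∞ : OnePoint F) ≠ ((0 : F) : OnePoint F) := (OnePoint.coe_ne_infty _).symm
  apply Nat.card_eq_of_bijective (fun bt : F × St (PS G ∞ ((0 : F) : OnePoint F)) ∞ =>
    (⟨aff 1 bt.1 one_ne_zero * bt.2.1, G.mul_mem (hsG (aff_mem_sm _)) ((mem_St_PS hne).1 bt.2.2).1, by
      change (aff 1 bt.1 one_ne_zero * bt.2.1) ∞ = ∞
      rw [Equiv.Perm.mul_apply, ((mem_St_PS hne).1 bt.2.2).2.1, aff_inf]⟩ : St G ∞))
  constructor
  · rintro ⟨a, s, hs⟩ ⟨b, t, ht⟩ hab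
    have h1 : aff 1 a one_ne_zero * s = aff 1 b one_ne_zero * t := congrArg Subtype.val hab
    have h2 := congrArg (fun g : Equiv.Perm (OnePoint F) => g ((0 : F) : OnePoint F)) h1
    simp only [Equiv.Perm.mul_apply] at h2
    rw [((mem_St_PS hne).1 hs).2.2, ((mem_St_PS hne).1 ht).2.2, aff_coe, aff_coe] at h2
    have h3 : a = b := by
      have := OnePoint.coe_injective h2
      simpa using this
    subst h3
    have h4 := mul_left_cancel h1
    subst h4
    rfl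
  · rintro ⟨g, hg, hgi⟩
    obtain ⟨a, b, ha, rfl⟩ := fix_inf (hG hg) hgi
    have h1 : aff 1 b one_ne_zero * aff a 0 ha = aff a b ha := by
      rw [aff_mul]
      exact aff_congr (one_mul _) (by ring)
    have h2 : aff a 0 ha ∈ G := by
      have : aff a 0 ha = (aff 1 b one_ne_zero)⁻¹ * aff a b ha := by rw [← h1, inv_mul_cancel_left]
      rw [this]
      exact G.mul_mem (G.inv_mem (hsG (aff_mem_sm b))) hg
    refine ⟨⟨b, aff a 0 ha, (mem_St_PS hne).2 ⟨h2, aff_inf _ _ _, ?_⟩⟩, Subtype.ext h1⟩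
    rw [aff_coe]; simp

theorem split_swap {G : Subgroup (Equiv.Perm (OnePoint F))} (hsG : sm F F ≤ G) :
    ∃ g ∈ G, g ∞ = ((0 : F) : OnePoint F) ∧ g ((0 : F) : OnePoint F) = ∞ :=
  ⟨_, hsG iv_mem_sm, iv_inf _ _, iv_zero _ _⟩

theorem split_tors [Finite F] (p : ℕ) [hp : Fact p.Prime] [CharP F p] {G : Subgroup (Equiv.Perm (OnePoint F))} (hsG : sm F F ≤ G)
    (hG : G ≤ mob F) {d : ℕ} (hd : d * Nat.card G = Nat.card F * (Nat.card F - 1) * (Nat.card F + 1)) :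
    d * Nat.card (St (PS G ∞ ((0 : F) : OnePoint F)) ∞) = Nat.card F - 1 := by
  have h1 := card_St_G p hsG hG ∞
  rw [split_card hsG hG] at h1
  rw [← h1] at hd
  have hq : 1 < Nat.card F := Finite.one_lt_card
  have h2 : ((Nat.card F + 1) * Nat.card F) * (d * Nat.card (St (PS G ∞ ((0 : F) : OnePoint F)) ∞)) = ((Nat.card F + 1) * Nat.card F) * (Nat.card F - 1) := by
    linarith [hd]
  exact Nat.eq_of_mul_eq_mul_left (by positivity) h2

theorem sm_two_trans {x y : OnePoint F} (hxy : x ≠ y) : ∃ h ∈ sm F F, h x = ∞ ∧ h y = ((0 : F) : OnePoint F) := by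
  obtain ⟨g, hg, hgx⟩ := sm_trans x
  have h1 : g⁻¹ x = ∞ := by rw [Equiv.Perm.inv_eq_iff_eq, hgx]
  have h2 : g⁻¹ y ≠ ∞ := by
    intro h; rw [← h1] at h; exact hxy (g⁻¹.injective h).symm
  induction hz : g⁻¹ y using OnePoint.rec with
  | infty => exact absurd hz h2
  | coe c =>
    refine ⟨aff 1 (-c) one_ne_zero * g⁻¹, (sm F F).mul_mem (aff_mem_sm _) ((sm F F).inv_mem hg), ?_, ?_⟩
    · rw [Equiv.Perm.mul_apply, h1, aff_inf]
    · rw [Equiv.Perm.mul_apply, hz, aff_coe]; congr 1; ring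

/-- pair stabilisers for rational points -/
theorem split_iso [Finite F] (p : ℕ) [hp : Fact p.Prime] [CharP F p] {G : Subgroup (Equiv.Perm (OnePoint F))} (hsG : sm F F ≤ G)
    (hG : G ≤ mob F) {d : ℕ} (hd0 : 0 < d) (hd : d * Nat.card G = Nat.card F * (Nat.card F - 1) * (Nat.card F + 1)) {x y : OnePoint F} (hxy : x ≠ y) :
    Nonempty (PS G x y ≃* DihedralGroup ((Nat.card F - 1) / d)) := by
  haveI : Finite (OnePoint F) := inferInstanceAs (Finite (Option F))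
  haveI : Finite (Equiv.Perm (OnePoint F)) := inferInstance
  obtain ⟨h, hh, hx, hy⟩ := sm_two_trans hxy
  have h1 := cj_PS (hsG hh) x y
  rw [hx, hy] at h1
  have h2 := dih_PS ((OnePoint.coe_ne_infty (0 : F)).symm) (split_swap hsG)
  obtain ⟨⟨e⟩, -⟩ := h2.iso ((PS_le _ _ _).trans hG)
  have h3 := split_tors p hsG hG hd
  rw [← h3, Nat.mul_div_cancel_left _ hd0]
  exact ⟨(cjEquiv h (PS G x y)).trans ((MulEquiv.subgroupCongr h1).trans e)⟩

end

section
variable {F : Type u} [Field F] [DecidableEq F] {K : Type v} [Field K] [DecidableEq K] [Algebra F K]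

theorem other_fix [IsAlgClosed K] {G : Subgroup (Equiv.Perm (OnePoint K))} (hG : G ≤ mob K) [Finite G] {y : OnePoint K} (hU : UU G y = ⊥)
    (hS : St G y ≠ ⊥) : ∃ w, w ≠ y ∧ (∀ g ∈ St G y, g w = w) ∧ ∀ g ∈ St G y, g ≠ 1 → ∀ z, g z = z → z = y ∨ z = w := by
  obtain ⟨t, -, -, -, hc⟩ := st_gen G hG y
  obtain ⟨c, hc'⟩ := (hc hU).exists_generator
  have hc1 : (c : Equiv.Perm (OnePoint K)) ≠ 1 := by
    intro h
    apply hS
    rw [eq_bot_iff]
    intro g hg
    obtain ⟨n, hn⟩ := Subgroup.mem_zpowers_iff.1 (hc' ⟨g, hg⟩)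
    have : c = 1 := Subtype.ext h
    rw [this, _root_.one_zpow] at hn
    exact (congrArg Subtype.val hn).symm
  have hnu : ∀ g ∈ St G y, g ≠ 1 → ¬ ∃ z, g ∈ U z := by
    rintro g hg hg1 ⟨z, hz⟩
    have h1 := eq_of_mem_U hz hg1 hg.2
    subst h1
    have h2 : g ∈ UU G y := ⟨hg.1, hz⟩
    rw [hU, Subgroup.mem_bot] at h2
    exact hg1 h2
  obtain ⟨a, b, hab, hfix⟩ := fix_two (hG c.2.1) hc1 (hnu _ c.2 hc1)
  have hy : y ∈ ({a, b} : Set (OnePoint K)) := by rw [← hfix]; exact c.2.2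
  obtain ⟨w, hwy, hfw⟩ : ∃ w, w ≠ y ∧ {z | (c : Equiv.Perm (OnePoint K)) z = z} = {y, w} := by
    rcases hy with rfl | hy
    · exact ⟨b, hab.symm, hfix⟩
    · rw [Set.mem_singleton_iff] at hy
      subst hy
      exact ⟨a, hab, by rw [hfix, Set.pair_comm]⟩
  have hcw : (c : Equiv.Perm (OnePoint K)) w = w := by
    have : w ∈ {z | (c : Equiv.Perm (OnePoint K)) z = z} := by rw [hfw]; simp
    exact this
  have hall : ∀ g ∈ St G y, g w = w := by
    intro g hg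
    obtain ⟨n, hn⟩ := Subgroup.mem_zpowers_iff.1 (hc' ⟨g, hg⟩)
    have h1 : g = (c : Equiv.Perm (OnePoint K)) ^ n := by
      have := congrArg Subtype.val hn
      exact this.symm
    rw [h1]
    exact Function.IsFixedPt.perm_zpow hcw n
  refine ⟨w, hwy, hall, ?_⟩
  intro g hg hg1 z hz
  by_contra hcon
  push Not at hcon
  exact hg1 (eq_one_of_fix_three (hG hg.1) hwy.symm hcon.1.symm hcon.2.symm hg.2 (hall g hg) hz)

theorem not_all_fix_bc {G : Subgroup (Equiv.Perm (OnePoint F))} (hsG : sm F F ≤ G)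
    (φ : G ≃* bc K G) (hφ : ∀ (g : G) (x : OnePoint F), (φ g : Equiv.Perm (OnePoint K)) (jj F K x) = jj F K ((g : Equiv.Perm (OnePoint F)) x)) :
    ¬ ∀ g ∈ bc K G, g (jj F K ∞) = jj F K ∞ := by
  intro h
  obtain ⟨g, hg, h1, -⟩ := split_swap hsG
  have h2 := h _ (φ ⟨g, hg⟩).2
  rw [hφ] at h2
  have h3 := jj_injective h2
  rw [h1] at h3
  exact OnePoint.coe_ne_infty _ h3

/-- the nonsplit torus -/
theorem nonsplit [Finite F] [IsAlgClosed K] (p : ℕ) [hp : Fact p.Prime] [CharP F p] [CharP K p]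
    {G : Subgroup (Equiv.Perm (OnePoint F))} (hsG : sm F F ≤ G) (hG : G ≤ mob F) {d : ℕ} (hd0 : 0 < d) (hd2 : d ≤ 2)
    (hd : d * Nat.card G = Nat.card F * (Nat.card F - 1) * (Nat.card F + 1)) :
    (∃ y, UU (bc K G) y = ⊥ ∧ St (bc K G) y ≠ ⊥) ∧
    ∀ y, UU (bc K G) y = ⊥ → St (bc K G) y ≠ ⊥ →
      d * Nat.card (St (bc K G) y) = Nat.card F + 1 ∧
      ∃ w, w ≠ y ∧ (∀ g ∈ St (bc K G) y, g w = w) ∧ (∀ g ∈ St (bc K G) y, g ≠ 1 → ∀ z, g z = z → z = y ∨ z = w) ∧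
        ∃ h ∈ bc K G, h y = w ∧ h w = y := by
  haveI : Finite (OnePoint F) := inferInstanceAs (Finite (Option F))
  haveI : Finite (Equiv.Perm (OnePoint F)) := inferInstance
  haveI := bc_finite K G hG
  obtain ⟨φ, -, hφ⟩ := bc_iso K G hG
  have hc : Nat.card (bc K G) = Nat.card G := (Nat.card_congr φ.toEquiv).symm
  have hq : 1 < Nat.card F := Finite.one_lt_card
  have hUinf : UU (bc K G) (jj F K ∞) ≠ ⊥ := (UU_ne_iff p hG φ hφ _).2 (UU_G_ne hsG ∞)
  obtain ⟨z, hz2, hzc, hz⟩ := two_orbits p (bc_le K G) hUinf (not_all_fix_bc hsG φ hφ)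
  rw [card_Om_bc p hG φ hφ, card_Om_G hsG, card_UU_bc p hG φ hφ, UU_G_inf hsG, hc] at hzc
  have hz' : d * Nat.card (St (bc K G) z) = Nat.card F + 1 := by
    rw [← hzc] at hd
    have h1 : (Nat.card F + 1) * (Nat.card F - 2) + 2 = Nat.card F * (Nat.card F - 1) := by
      obtain ⟨r, hr⟩ : ∃ r, Nat.card F = r + 2 := ⟨Nat.card F - 2, by omega⟩
      rw [hr, show r + 2 - 2 = r by omega, show r + 2 - 1 = r + 1 by omega]; ring
    rw [h1] at hd
    have h2 : (Nat.card F * (Nat.card F - 1)) * (d * Nat.card (St (bc K G) z)) = (Nat.card F * (Nat.card F - 1)) * (Nat.card F + 1) := by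
      linarith [hd]
    exact Nat.eq_of_mul_eq_mul_left (Nat.mul_pos (by omega) (by omega)) h2
  have hzU : UU (bc K G) z = ⊥ := by
    by_contra hne
    -- then the order of the stabiliser is that of a rational point
    have e1 := card_Om p (bc_le K G) (fun g hg k _ => CfsgLib.Mob3.exists_fix (bc_le K G hg)) hne
    rw [card_Om_bc p hG φ hφ, card_Om_G hsG, hc] at e1
    rw [← e1] at hd
    have h2 : d * ((Nat.card F + 1) * Nat.card (St (bc K G) z)) = (Nat.card F + 1) * (d * Nat.card (St (bc K G) z)) := by ring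
    rw [h2, hz'] at hd
    have h3 : (Nat.card F + 1) = Nat.card F * (Nat.card F - 1) := by
      have : (Nat.card F + 1) * (Nat.card F + 1) = (Nat.card F + 1) * (Nat.card F * (Nat.card F - 1)) := by linarith [hd]
      exact Nat.eq_of_mul_eq_mul_left (by omega) this
    obtain ⟨r, hr⟩ : ∃ r, Nat.card F = r + 2 := ⟨Nat.card F - 2, by omega⟩
    rw [hr, show r + 2 - 1 = r + 1 by omega] at h3
    have h4 : (r + 2) * (r + 1) = r * r + 3 * r + 2 := by ring
    rw [h4] at h3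
    have h5 : r = 0 ∨ 1 ≤ r := by omega
    rcases h5 with rfl | h5
    · omega
    · nlinarith
  have hzS : St (bc K G) z ≠ ⊥ := by
    intro h
    rw [h] at hz2
    simp at hz2
  refine ⟨⟨z, hzU, hzS⟩, ?_⟩
  intro y hyU hyS
  -- the orders of stabilisers in the second orbit agree
  have key : ∀ y, UU (bc K G) y = ⊥ → St (bc K G) y ≠ ⊥ → Nat.card (St (bc K G) y) = Nat.card (St (bc K G) z) ∧ ∃ g ∈ bc K G, g z = y := by
    intro y hyU hyS
    obtain ⟨g, hg, hg1⟩ := (Subgroup.bot_or_exists_ne_one _).resolve_left hyS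
    rcases hz y ⟨g, hg.1, hg1, hg.2⟩ with h | ⟨k, hk, hky⟩
    · exact absurd hyU h
    · refine ⟨?_, k, hk, hky⟩
      have h1 := cj_St k (bc K G) z
      have h2 : cj k (bc K G) = bc K G := by
        ext x
        rw [mem_cj, Subgroup.mul_mem_cancel_right _ hk, Subgroup.mul_mem_cancel_left _ ((bc K G).inv_mem hk)]
      rw [h2, hky] at h1
      rw [← h1, card_cj]
  obtain ⟨hyc, g1, hg1, hg1y⟩ := key y hyU hyS
  refine ⟨by rw [hyc]; exact hz', ?_⟩
  obtain ⟨w, hwy, hw1, hw2⟩ := other_fix (bc_le K G) hyU hyS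
  refine ⟨w, hwy, hw1, hw2, ?_⟩
  have hle : St (bc K G) y ≤ St (bc K G) w := fun g hg => ⟨hg.1, hw1 g hg⟩
  have hwS : St (bc K G) w ≠ ⊥ := fun h => hyS (by rw [eq_bot_iff, ← h]; exact hle)
  have hwU : UU (bc K G) w = ⊥ := by
    by_contra hne
    have e1 := card_Om p (bc_le K G) (fun g hg k _ => CfsgLib.Mob3.exists_fix (bc_le K G hg)) hne
    rw [card_Om_bc p hG φ hφ, card_Om_G hsG, hc] at e1
    rw [← e1] at hd
    haveI : Finite (St (bc K G) w) := Finite.of_injective (Subgroup.inclusion (inf_le_left : St (bc K G) w ≤ bc K G)) (Subgroup.inclusion_injective _)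
    have h2 := Subgroup.card_dvd_of_le hle
    have h3 : d * Nat.card (St (bc K G) w) = Nat.card F * (Nat.card F - 1) := by
      have : (Nat.card F + 1) * (d * Nat.card (St (bc K G) w)) = (Nat.card F + 1) * (Nat.card F * (Nat.card F - 1)) := by linarith [hd]
      exact Nat.eq_of_mul_eq_mul_left (by omega) this
    have h4 := Nat.mul_dvd_mul_left d h2
    rw [h3, hyc, hz'] at h4
    have h5 : (Nat.card F + 1) * (Nat.card F - 2) + 2 = Nat.card F * (Nat.card F - 1) := by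
      obtain ⟨r, hr⟩ : ∃ r, Nat.card F = r + 2 := ⟨Nat.card F - 2, by omega⟩
      rw [hr, show r + 2 - 2 = r by omega, show r + 2 - 1 = r + 1 by omega]; ring
    rw [← h5] at h4
    have h6 := (Nat.dvd_add_right (dvd_mul_right _ _)).1 h4
    have := Nat.le_of_dvd (by norm_num) h6
    omega
  obtain ⟨hwc, g2, hg2, hg2w⟩ := key w hwU hwS
  have hh : (g2 * g1⁻¹) y = w := by
    rw [Equiv.Perm.mul_apply, ← hg1y, ← Equiv.Perm.mul_apply g1⁻¹ g1, inv_mul_cancel, Equiv.Perm.one_apply, hg2w]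
  have hhG : g2 * g1⁻¹ ∈ bc K G := (bc K G).mul_mem hg2 ((bc K G).inv_mem hg1)
  refine ⟨g2 * g1⁻¹, hhG, hh, ?_⟩
  generalize g2 * g1⁻¹ = h at hh hhG
  -- St y = St w
  haveI : Finite (St (bc K G) w) := Finite.of_injective (Subgroup.inclusion (inf_le_left : St (bc K G) w ≤ bc K G)) (Subgroup.inclusion_injective _)
  have heq : St (bc K G) y = St (bc K G) w := Subgroup.eq_of_le_of_card_ge hle (by rw [hwc, hyc])
  obtain ⟨g, hg, hg1⟩ := (Subgroup.bot_or_exists_ne_one _).resolve_left hyS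
  have h1 : h * g * h⁻¹ ∈ St (bc K G) w := by
    refine ⟨(bc K G).mul_mem ((bc K G).mul_mem hhG hg.1) ((bc K G).inv_mem hhG), ?_⟩
    change (h * g * h⁻¹) w = w
    rw [← hh, conj_apply]
    exact congrArg h hg.2
  rw [← heq] at h1
  have h2 : g (h⁻¹ y) = h⁻¹ y := by
    have := h1.2
    change (h * g * h⁻¹) y = y at this
    rw [Equiv.Perm.mul_apply, Equiv.Perm.mul_apply] at this
    exact (Equiv.Perm.inv_eq_iff_eq.2 this.symm).symm
  rcases hw2 g hg hg1 _ h2 with h3 | h3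
  · exfalso
    rw [Equiv.Perm.inv_eq_iff_eq] at h3
    exact hwy (hh.symm.trans h3.symm)
  · rw [Equiv.Perm.inv_eq_iff_eq] at h3
    exact h3.symm

end

end CfsgLib.Mob28
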