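import Mathlib
import Cfsg.Agent.Lib.Mob28

set_option autoImplicit false
set_option maxHeartbeats 400000

/-! Tori: every tame cyclic or dihedral subgroup lies in a dihedral pair stabiliser. -/
namespace CfsgLib.Mob29

open OnePoint Matrix CfsgLib.Mob3 CfsgLib.Mob4 CfsgLib.Mob5 CfsgLib.Mob6 CfsgLib.Mob7 CfsgLib.Mob8 CfsgLib.Mob9 CfsgLib.Mob10 CfsgLib.Mob12 CfsgLib.Mob13 CfsgLib.Mob14 CfsgLib.Mob15 CfsgLib.Mob16 CfsgLib.Mob17 CfsgLib.Mob18 CfsgLib.Mob19 CfsgLib.Mob20 CfsgLib.Mob21 CfsgLib.Mob22 CfsgLib.Mob23 CfsgLib.Mob24 CfsgLib.Mob25 CfsgLib.Mob26 CfsgLib.Mob28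

universe u v w

section
variable {F : Type u} [Field F] [DecidableEq F] {K : Type v} [Field K] [DecidableEq K] [Algebra F K]

/-- the group over `F` of a group over `K` -/
noncomputable def unb (F : Type u) [Field F] [DecidableEq F] [Algebra F K] (D : Subgroup (Equiv.Perm (OnePoint K))) :
    Subgroup (Equiv.Perm (OnePoint F)) := (D.comap (gm F K)).map (gm F F)

theorem unb_le_mob (D : Subgroup (Equiv.Perm (OnePoint K))) : unb F D ≤ mob F := by
  rintro _ ⟨M, _, rfl⟩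
  exact gm_range_le ⟨M, rfl⟩

theorem gm_eq_iff (M N : GL (Fin 2) F) : gm F K M = gm F K N ↔ gm F F M = gm F F N := by
  rw [← mul_inv_eq_one, ← map_inv, ← map_mul, gm_ker, ← mul_inv_eq_one (a := gm F F M), ← map_inv (gm F F), ← map_mul (gm F F), gm_ker]

theorem gm_mem_unb {D : Subgroup (Equiv.Perm (OnePoint K))} (M : GL (Fin 2) F) : gm F F M ∈ unb F D ↔ gm F K M ∈ D := by
  constructor
  · rintro ⟨N, hN, hNM⟩
    rw [(gm_eq_iff M N).2 hNM.symm]
    exact hN
  · intro h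
    exact ⟨M, h, rfl⟩

theorem gm_mem_bc {H : Subgroup (Equiv.Perm (OnePoint F))} (M : GL (Fin 2) F) : gm F K M ∈ bc K H ↔ gm F F M ∈ H := by
  constructor
  · rintro ⟨N, hN, hNM⟩
    rw [(gm_eq_iff M N).1 hNM.symm]
    exact hN
  · intro h
    exact ⟨M, h, rfl⟩

theorem le_unb {H : Subgroup (Equiv.Perm (OnePoint F))} (hH : H ≤ mob F) {D : Subgroup (Equiv.Perm (OnePoint K))} (h : bc K H ≤ D) :
    H ≤ unb F D := by
  intro g hg
  have h1 := hH hg
  rw [← pm_self] at h1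
  obtain ⟨M, rfl⟩ := h1
  exact (gm_mem_unb M).2 (h ((gm_mem_bc M).2 hg))

theorem unb_le {G : Subgroup (Equiv.Perm (OnePoint F))} {D : Subgroup (Equiv.Perm (OnePoint K))} (h : D ≤ bc K G) :
    unb F D ≤ G := by
  rintro _ ⟨M, hM, rfl⟩
  exact (gm_mem_bc M).1 (h hM)

theorem bc_unb {G : Subgroup (Equiv.Perm (OnePoint F))} {D : Subgroup (Equiv.Perm (OnePoint K))} (h : D ≤ bc K G) :
    bc K (unb F D) = D := by
  ext g
  constructor
  · rintro ⟨M, hM, rfl⟩
    exact (gm_mem_unb M).1 hM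
  · intro hg
    obtain ⟨M, hM, rfl⟩ := h hg
    exact (gm_mem_bc M).2 ((gm_mem_unb M).2 hg)

theorem unb_iso {G : Subgroup (Equiv.Perm (OnePoint F))} {D : Subgroup (Equiv.Perm (OnePoint K))} (h : D ≤ bc K G) :
    Nonempty (unb F D ≃* D) := by
  obtain ⟨φ, -, -⟩ := bc_iso K (unb F D) (unb_le_mob D)
  exact ⟨φ.trans (MulEquiv.subgroupCongr (bc_unb h))⟩

theorem bc_mono {H G : Subgroup (Equiv.Perm (OnePoint F))} (h : H ≤ G) : bc K H ≤ bc K G := by
  rintro _ ⟨M, hM, rfl⟩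
  exact ⟨M, h hM, rfl⟩

theorem unb_PS_rat {G : Subgroup (Equiv.Perm (OnePoint F))} (x y : OnePoint F) (hG : G ≤ mob F) :
    unb F (PS (bc K G) (jj F K x) (jj F K y)) = PS G x y := by
  have key : ∀ M : GL (Fin 2) F, gm F F M ∈ unb F (PS (bc K G) (jj F K x) (jj F K y)) ↔ gm F F M ∈ PS G x y := by
    intro M
    rw [gm_mem_unb, mem_PS, mem_PS, gm_mem_bc, gm_jj, gm_jj, (jj_injective (F := F) (K := K)).eq_iff, (jj_injective (F := F) (K := K)).eq_iff,
      (jj_injective (F := F) (K := K)).eq_iff, (jj_injective (F := F) (K := K)).eq_iff]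
  ext g
  constructor
  · intro hg
    obtain ⟨M, hM, rfl⟩ := hg
    exact (key M).1 ⟨M, hM, rfl⟩
  · intro hg
    have h1 := hG hg.1
    rw [← pm_self] at h1
    obtain ⟨M, rfl⟩ := h1
    exact (key M).2 hg

/-- normalisers of tori -/
def Tor (K : Type v) [Field K] [DecidableEq K] [Algebra F K] (G D : Subgroup (Equiv.Perm (OnePoint F))) : Prop :=
  ∃ y z : OnePoint K, y ≠ z ∧ (∃ g ∈ bc K G, g ≠ 1 ∧ g y = y ∧ g z = z) ∧ D = unb F (PS (bc K G) y z)

theorem Tor.le {G D : Subgroup (Equiv.Perm (OnePoint F))} (h : Tor K G D) : D ≤ G := by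
  obtain ⟨y, z, _, _, rfl⟩ := h
  exact unb_le (PS_le _ _ _)

/-- if one fixed point is rational, so is the other -/
theorem rat_other {G : Subgroup (Equiv.Perm (OnePoint F))} (hG : G ≤ mob F) (p : ℕ) [hp : Fact p.Prime] [CharP F p] [CharP K p]
    (φ : G ≃* bc K G) (hφ : ∀ (g : G) (x : OnePoint F), (φ g : Equiv.Perm (OnePoint K)) (jj F K x) = jj F K ((g : Equiv.Perm (OnePoint F)) x))
    {y : OnePoint F} {z : OnePoint K} (hyz : jj F K y ≠ z) {g : Equiv.Perm (OnePoint K)} (hg : g ∈ bc K G) (hg1 : g ≠ 1)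
    (hy : g (jj F K y) = jj F K y) (hz : g z = z) : ∃ z', z = jj F K z' := by
  obtain ⟨g', hg'⟩ := φ.surjective ⟨g, hg⟩
  have hgg : (φ g' : Equiv.Perm (OnePoint K)) = g := by rw [hg']
  have hy' : (g' : Equiv.Perm (OnePoint F)) y = y := by
    apply jj_injective (K := K)
    rw [← hφ, hgg, hy]
  have hnU : (g' : Equiv.Perm (OnePoint F)) ∉ U y := by
    intro h
    have h1 := (U_iff p hG φ hφ g' y).2 h
    rw [hgg] at h1
    exact hyz (eq_of_mem_U h1 hg1 hz).symm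
  obtain ⟨k, hk, hky⟩ := to_inf y
  have h1 : (k * (g' : Equiv.Perm (OnePoint F)) * k⁻¹) ∞ = ∞ := by rw [← hky, conj_apply, hy']
  obtain ⟨a, b, ha, hab⟩ := fix_inf ((mob F).mul_mem ((mob F).mul_mem hk (hG g'.2)) ((mob F).inv_mem hk)) h1
  have ha1 : a ≠ 1 := by
    rintro rfl
    exact hnU (by rw [mem_U, uni_iff hk hky]; exact ⟨b, hab⟩)
  have ha1' : 1 - a ≠ 0 := sub_ne_zero.2 (Ne.symm ha1)
  have h2 : aff a b ha ((b / (1 - a) : F) : OnePoint F) = ((b / (1 - a) : F) : OnePoint F) := by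
    rw [aff_coe]; congr 1; field_simp; ring
  rw [← hab] at h2
  have h3 : (g' : Equiv.Perm (OnePoint F)) (k⁻¹ ((b / (1 - a) : F) : OnePoint F)) = k⁻¹ ((b / (1 - a) : F) : OnePoint F) := by
    rw [Equiv.Perm.mul_apply, Equiv.Perm.mul_apply] at h2
    exact (Equiv.Perm.inv_eq_iff_eq.2 h2.symm).symm
  have hne : k⁻¹ ((b / (1 - a) : F) : OnePoint F) ≠ y := by
    intro h
    rw [Equiv.Perm.inv_eq_iff_eq, hky] at h
    exact OnePoint.coe_ne_infty _ h
  have h4 : g (jj F K (k⁻¹ ((b / (1 - a) : F) : OnePoint F))) = jj F K (k⁻¹ ((b / (1 - a) : F) : OnePoint F)) := by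
    rw [← hgg, hφ, h3]
  refine ⟨k⁻¹ ((b / (1 - a) : F) : OnePoint F), ?_⟩
  by_contra hcon
  exact hg1 (eq_one_of_fix_three (bc_le K G hg) hyz (fun h => hne (jj_injective h).symm) hcon hy hz h4)

/-- the structure of normalisers of tori -/
theorem Tor.iso [Finite F] [IsAlgClosed K] (p : ℕ) [hp : Fact p.Prime] [CharP F p] [CharP K p]
    {G : Subgroup (Equiv.Perm (OnePoint F))} (hsG : sm F F ≤ G) (hG : G ≤ mob F) {d : ℕ} (hd0 : 0 < d) (hd2 : d ≤ 2)
    (hd : d * Nat.card G = Nat.card F * (Nat.card F - 1) * (Nat.card F + 1)) {D : Subgroup (Equiv.Perm (OnePoint F))} (h : Tor K G D) :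
    Nonempty (D ≃* DihedralGroup ((Nat.card F - 1) / d)) ∨ Nonempty (D ≃* DihedralGroup ((Nat.card F + 1) / d)) := by
  haveI : Finite (OnePoint F) := inferInstanceAs (Finite (Option F))
  haveI : Finite (Equiv.Perm (OnePoint F)) := inferInstance
  haveI := bc_finite K G hG
  obtain ⟨y, z, hyz, ⟨g, hg, hg1, hgy, hgz⟩, rfl⟩ := h
  obtain ⟨φ, -, hφ⟩ := bc_iso K G hG
  have hrat : ∀ y z : OnePoint K, y ≠ z → g y = y → g z = z → UU (bc K G) y ≠ ⊥ → ∃ y' z', y' ≠ z' ∧ y = jj F K y' ∧ z = jj F K z' := by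
    intro y z hyz hgy hgz hU
    obtain ⟨y', rfl, -⟩ := rational_of_UU p hG φ hφ hU
    obtain ⟨z', rfl⟩ := rat_other hG p φ hφ hyz hg hg1 hgy hgz
    exact ⟨y', z', fun h => hyz (by rw [h]), rfl, rfl⟩
  by_cases hUy : UU (bc K G) y = ⊥
  · by_cases hUz : UU (bc K G) z = ⊥
    · right
      have hS : St (bc K G) y ≠ ⊥ := by
        intro h
        have : g ∈ St (bc K G) y := ⟨hg, hgy⟩
        rw [h, Subgroup.mem_bot] at this
        exact hg1 this
      obtain ⟨hc, w, hwy, hw1, hw2, hw3⟩ := (nonsplit (K := K) p hsG hG hd0 hd2 hd).2 y hUy hS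
      have hzw : z = w := by
        rcases hw2 g ⟨hg, hgy⟩ hg1 z hgz with h | h
        · exact absurd h.symm hyz
        · exact h
      subst hzw
      obtain ⟨e⟩ := unb_iso (F := F) (PS_le (bc K G) y z)
      haveI : Finite (PS (bc K G) y z) := Finite.of_injective (Subgroup.inclusion (PS_le (bc K G) y z)) (Subgroup.inclusion_injective _)
      obtain ⟨⟨f⟩, -⟩ := (dih_PS hyz hw3).iso ((PS_le _ _ _).trans (bc_le K G))
      have h1 : St (PS (bc K G) y z) y = St (bc K G) y := by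
        ext k
        rw [mem_St_PS hyz, mem_St]
        exact ⟨fun h => ⟨h.1, h.2.1⟩, fun h => ⟨h.1, h.2, hw1 k h⟩⟩
      rw [h1] at f
      rw [← hc, Nat.mul_div_cancel_left _ hd0]
      exact ⟨e.trans f⟩
    · left
      obtain ⟨z', y', hyz', rfl, rfl⟩ := hrat z y hyz.symm hgz hgy hUz
      rw [unb_PS_rat _ _ hG]
      exact split_iso p hsG hG hd0 hd (Ne.symm hyz')
  · left
    obtain ⟨y', z', hyz', rfl, rfl⟩ := hrat y z hyz hgy hgz hUy
    rw [unb_PS_rat _ _ hG]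
    exact split_iso p hsG hG hd0 hd hyz'

/-- existence of nonsplit tori -/
theorem exists_nonsplit [Finite F] (p : ℕ) [hp : Fact p.Prime] [CharP F p]
    {G : Subgroup (Equiv.Perm (OnePoint F))} (hsG : sm F F ≤ G) (hG : G ≤ mob F) {d : ℕ} (hd0 : 0 < d) (hd2 : d ≤ 2)
    (hd : d * Nat.card G = Nat.card F * (Nat.card F - 1) * (Nat.card F + 1)) :
    ∃ D ≤ G, Nonempty (D ≃* DihedralGroup ((Nat.card F + 1) / d)) := by
  classical
  haveI : Finite (OnePoint F) := inferInstanceAs (Finite (Option F))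
  haveI : Finite (Equiv.Perm (OnePoint F)) := inferInstance
  haveI : CharP (AlgebraicClosure F) p := inferInstance
  haveI := bc_finite (AlgebraicClosure F) G hG
  obtain ⟨⟨y, hy1, hy2⟩, h⟩ := nonsplit (K := AlgebraicClosure F) p hsG hG hd0 hd2 hd
  obtain ⟨hc, w, hwy, hw1, hw2, hw3⟩ := h y hy1 hy2
  obtain ⟨e⟩ := unb_iso (F := F) (PS_le (bc (AlgebraicClosure F) G) y w)
  haveI : Finite (PS (bc (AlgebraicClosure F) G) y w) :=
    Finite.of_injective (Subgroup.inclusion (PS_le (bc (AlgebraicClosure F) G) y w)) (Subgroup.inclusion_injective _)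
  obtain ⟨⟨f⟩, -⟩ := (dih_PS hwy.symm hw3).iso ((PS_le _ _ _).trans (bc_le _ G))
  have h1 : St (PS (bc (AlgebraicClosure F) G) y w) y = St (bc (AlgebraicClosure F) G) y := by
    ext k
    rw [mem_St_PS hwy.symm, mem_St]
    exact ⟨fun h => ⟨h.1, h.2.1⟩, fun h => ⟨h.1, h.2, hw1 k h⟩⟩
  rw [h1] at f
  refine ⟨unb F (PS (bc (AlgebraicClosure F) G) y w), unb_le (PS_le _ _ _), ?_⟩
  rw [← hc, Nat.mul_div_cancel_left _ hd0]
  exact ⟨e.trans f⟩

/-- tame groups with a fixed point -/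
theorem fixed_case [Finite F] [IsAlgClosed K] (p : ℕ) [hp : Fact p.Prime] [CharP F p] [CharP K p]
    {G H : Subgroup (Equiv.Perm (OnePoint F))} (hHG : H ≤ G) (hG : G ≤ mob F) {y : OnePoint K} (hy : ∀ g ∈ bc K H, g y = y) :
    H = ⊥ ∨ (∃ x, UU H x ≠ ⊥ ∧ ∀ g ∈ H, g x = x) ∨ ∃ D, Tor K G D ∧ H ≤ D := by
  haveI : Finite (OnePoint F) := inferInstanceAs (Finite (Option F))
  haveI : Finite (Equiv.Perm (OnePoint F)) := inferInstance
  have hH := hHG.trans hG
  haveI := bc_finite K H hH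
  obtain ⟨φ, -, hφ⟩ := bc_iso K H hH
  by_cases h0 : H = ⊥
  · exact Or.inl h0
  right
  by_cases hU : UU (bc K H) y = ⊥
  · right
    have hS : St (bc K H) y = bc K H := le_antisymm inf_le_left (fun g hg => ⟨hg, hy g hg⟩)
    have hS' : St (bc K H) y ≠ ⊥ := by
      rw [hS]
      intro h
      apply h0
      rw [← Subgroup.card_eq_one, Nat.card_congr φ.toEquiv, h, Subgroup.card_eq_one]
    obtain ⟨w, hwy, hw1, -⟩ := other_fix (bc_le K H) hU hS'
    obtain ⟨g, hg, hg1⟩ := (Subgroup.bot_or_exists_ne_one _).resolve_left hS'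
    refine ⟨_, ⟨y, w, hwy.symm, ⟨g, bc_mono hHG hg.1, hg1, hg.2, hw1 g hg⟩, rfl⟩, ?_⟩
    apply le_unb hH
    intro k hk
    exact ⟨bc_mono hHG hk, Or.inl ⟨hy k hk, hw1 k (by rw [hS]; exact hk)⟩⟩
  · left
    obtain ⟨x, rfl, hx⟩ := rational_of_UU p hH φ hφ hU
    refine ⟨x, hx, fun g hg => ?_⟩
    apply jj_injective (K := K)
    rw [← hφ ⟨g, hg⟩]
    exact hy _ (φ ⟨g, hg⟩).2

/-- the list of subgroups, with maximal tori -/
theorem classify2 [Finite F] [IsAlgClosed K] (p : ℕ) [hp : Fact p.Prime] [CharP F p] [CharP K p]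
    {G H : Subgroup (Equiv.Perm (OnePoint F))} (hHG : H ≤ G) (hG : G ≤ mob F) :
    H = ⊥ ∨ (∃ x, UU H x ≠ ⊥ ∧ ∀ g ∈ H, g x = x) ∨ (∃ D, Tor K G D ∧ H ≤ D) ∨
    (Nat.card H = 12 ∧ ¬ p ∣ 12 ∧ Nonempty (H ≃* alternatingGroup (Fin 4))) ∨
    (Nat.card H = 24 ∧ ¬ p ∣ 24 ∧ Nonempty (H ≃* Equiv.Perm (Fin 4))) ∨
    (Nat.card H = 60 ∧ (p = 3 ∨ ¬ p ∣ 60) ∧ Nonempty (H ≃* alternatingGroup (Fin 5))) ∨
    (∃ h ∈ mob F, ∃ k : Subfield F, cj h H = sm k F ∨ cj h H = pm k F) := by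
  haveI : Finite (OnePoint F) := inferInstanceAs (Finite (Option F))
  haveI : Finite (Equiv.Perm (OnePoint F)) := inferInstance
  have hH := hHG.trans hG
  haveI := bc_finite K H hH
  rcases classify (K := K) p hH with h | h | h | h
  · right; left; exact h
  · obtain ⟨hU, y, hy⟩ := h
    rcases fixed_case p hHG hG hy with h | h | h
    · left; exact h
    · right; left; exact h
    · right; right; left; exact h
  · obtain ⟨y, z, hd⟩ := h
    by_cases hS : St (bc K H) y = ⊥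
    · -- a group of order two
      have hc := (hd.iso (bc_le K H)).2.1
      rw [hS, Subgroup.card_bot, mul_one] at hc
      obtain ⟨g, hg, hgy⟩ := hd.2.2
      have hg1 : g ≠ 1 := by
        rintro rfl
        exact hd.1 hgy
      obtain ⟨u, hu⟩ := exists_fix (bc_le K H hg)
      have hall : ∀ k ∈ bc K H, k u = u := by
        intro k hk
        have h1 : (⟨g, hg⟩ : bc K H) ≠ 1 := fun h => hg1 (congrArg Subtype.val h)
        haveI : Fact (Nat.Prime 2) := ⟨Nat.prime_two⟩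
        have h2 := mem_zpowers_of_prime_card (p := 2) hc h1 (g' := ⟨k, hk⟩)
        obtain ⟨n, hn⟩ := Subgroup.mem_zpowers_iff.1 h2
        have h3 : k = g ^ n := (congrArg Subtype.val hn).symm
        rw [h3]
        exact Function.IsFixedPt.perm_zpow hu n
      rcases fixed_case p hHG hG hall with h | h | h
      · left; exact h
      · right; left; exact h
      · right; right; left; exact h
    · right; right; left
      obtain ⟨g, hg, hg1⟩ := (Subgroup.bot_or_exists_ne_one _).resolve_left hS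
      have hgz : g z = z := by
        rcases hd.2.1 g hg.1 with h | h
        · exact h.2
        · exact absurd (hg.2.symm.trans h.1) hd.1
      refine ⟨_, ⟨y, z, hd.1, ⟨g, bc_mono hHG hg.1, hg1, hg.2, hgz⟩, rfl⟩, ?_⟩
      apply le_unb hH
      intro k hk
      exact ⟨bc_mono hHG hk, hd.2.1 k hk⟩
  · right; right; right; exact h

end

end CfsgLib.Mob29
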