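import Mathlib
import Cfsg.Agent.Lib.Mob29

set_option autoImplicit false
set_option maxHeartbeats 400000

/-! Maximality of dihedral subgroups of `PSL(2,q)`. -/
namespace CfsgLib.Mob30

open OnePoint Matrix CfsgLib.Mob3 CfsgLib.Mob4 CfsgLib.Mob5 CfsgLib.Mob6 CfsgLib.Mob7 CfsgLib.Mob8 CfsgLib.Mob9 CfsgLib.Mob10 CfsgLib.Mob12 CfsgLib.Mob13 CfsgLib.Mob14 CfsgLib.Mob15 CfsgLib.Mob16 CfsgLib.Mob17 CfsgLib.Mob18 CfsgLib.Mob19 CfsgLib.Mob20 CfsgLib.Mob21 CfsgLib.Mob22 CfsgLib.Mob23 CfsgLib.Mob24 CfsgLib.Mob25 CfsgLib.Mob26 CfsgLib.Mob27 CfsgLib.Mob28 CfsgLib.Mob29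

universe u v w

set_option maxRecDepth 100000 in
theorem a5_ord' : ∀ g : alternatingGroup (Fin 5), g * g = 1 ∨ g * g * g = 1 ∨ g * g * g * g * g = 1 := by decide
set_option maxRecDepth 100000 in
theorem s4_ord' : ∀ g : Equiv.Perm (Fin 4), g * g * g = 1 ∨ g * g * (g * g) = 1 := by decide
set_option maxRecDepth 100000 in
theorem a4_inv : ∀ t c : alternatingGroup (Fin 4), t * t = 1 → c * c * c = 1 → t * c * t = c⁻¹ → t = 1 ∨ c = 1 := by decide

theorem a5_ord (g : alternatingGroup (Fin 5)) : orderOf g ≤ 5 := by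
  rcases a5_ord' g with h | h | h
  · exact (Nat.le_of_dvd (by norm_num) (orderOf_dvd_of_pow_eq_one (n := 2) (by rw [pow_two, h]))).trans (by norm_num)
  · exact (Nat.le_of_dvd (by norm_num) (orderOf_dvd_of_pow_eq_one (n := 3) (by rw [pow_succ, pow_two, h]))).trans (by norm_num)
  · exact (Nat.le_of_dvd (by norm_num) (orderOf_dvd_of_pow_eq_one (n := 5) (by rw [pow_succ, pow_succ, pow_succ, pow_two, h])))

theorem s4_ord (g : Equiv.Perm (Fin 4)) : orderOf g ≤ 4 := by
  rcases s4_ord' g with h | h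
  · exact (Nat.le_of_dvd (by norm_num) (orderOf_dvd_of_pow_eq_one (n := 3) (by rw [pow_succ, pow_two, h]))).trans (by norm_num)
  · exact (Nat.le_of_dvd (by norm_num) (orderOf_dvd_of_pow_eq_one (n := 4) (by rw [← h, pow_succ, pow_succ, pow_two]; simp only [mul_assoc])))

section
variable {F : Type u} [Field F] [DecidableEq F]

theorem pm_pow_mem {k : Type v} [Field k] [Finite k] [Algebra k F] (p : ℕ) [hp : Fact p.Prime] [CharP k p] {g : Equiv.Perm (OnePoint F)} (hg : g ∈ pm k F) :
    g ^ Nat.gcd 2 (Nat.card k - 1) ∈ sm k F := by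
  obtain ⟨M, rfl⟩ := hg
  rw [← map_pow]
  apply gm_mem_sm_of_isSquare
  by_cases hp2 : p = 2
  · subst hp2
    exact FiniteField.isSquare_of_char_two (ringChar.eq k 2) _
  · rw [gcd_two_odd (odd_of_ne_two (F := k) p hp2)]
    refine ⟨Matrix.det (M : Matrix (Fin 2) (Fin 2) k), ?_⟩
    rw [Units.val_pow_eq_pow_val, Matrix.det_pow, pow_two]

end

theorem psl_ord_le (k : Type v) [Field k] [Finite k] (p : ℕ) [hp : Fact p.Prime] [CharP k p] (g : ProjectiveSpecialLinearGroup (Fin 2) k)
    (hg : ¬ p ∣ orderOf g) : Nat.gcd 2 (Nat.card k - 1) * orderOf g ≤ Nat.card k + 1 := by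
  haveI : Fintype k := Fintype.ofFinite k
  have hq : 1 < Nat.card k := Finite.one_lt_card
  have hd1 : 0 < Nat.gcd 2 (Nat.card k - 1) := Nat.gcd_pos_of_pos_left _ (by norm_num)
  have hd2 : Nat.gcd 2 (Nat.card k - 1) ≤ 2 := Nat.le_of_dvd (by norm_num) (Nat.gcd_dvd_left _ _)
  have h := psl_order p g hg
  rw [← Nat.card_eq_fintype_card] at h
  rcases h with h | h
  · have h1 := Nat.le_of_dvd (Nat.div_pos (by omega) hd1) h
    have h2 := Nat.mul_le_mul_left (Nat.gcd 2 (Nat.card k - 1)) h1
    have h3 := Nat.mul_div_le (Nat.card k + 1) (Nat.gcd 2 (Nat.card k - 1))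
    omega
  · have h1 : orderOf g ≤ (Nat.card k - 1) / Nat.gcd 2 (Nat.card k - 1) :=
      Nat.le_of_dvd (Nat.div_pos (Nat.le_of_dvd (by omega) (Nat.gcd_dvd_right _ _)) hd1) h
    have h2 := Nat.mul_le_mul_left (Nat.gcd 2 (Nat.card k - 1)) h1
    have h3 := Nat.mul_div_le (Nat.card k - 1) (Nat.gcd 2 (Nat.card k - 1))
    omega

theorem pgl_ord_le (k : Type v) [Field k] [Finite k] (p : ℕ) [hp : Fact p.Prime] [CharP k p] (g : ProjGenLinGroup (Fin 2) k)
    (hg : ¬ p ∣ orderOf g) : orderOf g ≤ Nat.card k + 1 := by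
  classical
  obtain ⟨e1⟩ := sm_iso (k := k) (F := k)
  obtain ⟨e2⟩ := pm_iso (k := k) (F := k)
  have hd1 : 0 < Nat.gcd 2 (Nat.card k - 1) := Nat.gcd_pos_of_pos_left _ (by norm_num)
  have h1 := pm_pow_mem (k := k) (F := k) p (e2.symm g).2
  have h2 : orderOf (e1 ⟨_, h1⟩) = orderOf (g ^ Nat.gcd 2 (Nat.card k - 1)) := by
    rw [MulEquiv.orderOf_eq, ← Subgroup.orderOf_coe, ← MulEquiv.orderOf_eq e2.symm (g ^ Nat.gcd 2 (Nat.card k - 1)), map_pow, ← Subgroup.orderOf_coe]
    rfl
  have h3 := psl_ord_le k p (e1 ⟨_, h1⟩) (by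
    rw [h2]
    intro h
    exact hg (h.trans (orderOf_pow_dvd _)))
  rw [h2] at h3
  have h4 : orderOf g ∣ Nat.gcd 2 (Nat.card k - 1) * orderOf (g ^ Nat.gcd 2 (Nat.card k - 1)) := by
    apply orderOf_dvd_of_pow_eq_one
    rw [pow_mul, pow_orderOf_eq_one]
  haveI : Finite (pm k k) := by
    haveI : Finite (OnePoint k) := inferInstanceAs (Finite (Option k))
    haveI : Finite (Equiv.Perm (OnePoint k)) := inferInstance
    infer_instance
  haveI : Finite (ProjGenLinGroup (Fin 2) k) := Finite.of_equiv _ e2.toEquiv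
  exact (Nat.le_of_dvd (Nat.mul_pos hd1 (orderOf_pos _)) h4).trans h3

theorem ord_of_iso {G : Type u} [Group G] {M H : Subgroup G} (hMH : M ≤ H) {n : ℕ} (e : M ≃* DihedralGroup n) {B : Type v} [Group B]
    (f : H ≃* B) : ∃ b : B, orderOf b = n := by
  refine ⟨f (Subgroup.inclusion hMH (e.symm (DihedralGroup.r 1))), ?_⟩
  rw [MulEquiv.orderOf_eq, orderOf_injective _ (Subgroup.inclusion_injective hMH), MulEquiv.orderOf_eq, DihedralGroup.orderOf_r_one]

theorem no_dih3_a4 {B : Type u} [Group B] (f : DihedralGroup 3 →* B) (hf : Function.Injective f) (e : Nonempty (B ≃* alternatingGroup (Fin 4))) : False := by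
  obtain ⟨e⟩ := e
  have hinj : Function.Injective (fun x => e (f x)) := e.injective.comp hf
  have h1 := a4_inv (e (f (DihedralGroup.sr 0))) (e (f (DihedralGroup.r 1))) (by rw [← map_mul, ← map_mul]; simp)
    (by rw [← map_mul, ← map_mul, ← map_mul, ← map_mul, show (DihedralGroup.r 1 * DihedralGroup.r 1 * DihedralGroup.r 1 : DihedralGroup 3) = 1 from rfl]; simp)
    (by rw [← map_mul, ← map_mul, ← map_mul, ← map_mul, ← map_inv, ← map_inv]; congr 1)
  rcases h1 with h | h
  · have : (fun x => e (f x)) (DihedralGroup.sr 0) = (fun x => e (f x)) 1 := by simp [h]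
    have := hinj this
    cases this
  · have : (fun x => e (f x)) (DihedralGroup.r 1) = (fun x => e (f x)) 1 := by simp [h]
    have := hinj this
    rw [DihedralGroup.one_def] at this
    injection this with h
    revert h
    decide

theorem d_dvd_add {q : ℕ} (hq : 1 < q) : Nat.gcd 2 (q - 1) ∣ q + 1 := by
  have h1 := Nat.gcd_dvd_left 2 (q - 1)
  have h2 := Nat.gcd_dvd_right 2 (q - 1)
  have : q + 1 = (q - 1) + 2 := by omega
  rw [this]
  exact dvd_add h2 h1

theorem coprime_succ_pow {c m : ℕ} (hm : m ≠ 0) : Nat.Coprime (c ^ m + 1) c := by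
  have h1 : Nat.Coprime (c ^ m + 1) (c ^ m) := by simp
  exact Nat.Coprime.coprime_dvd_right (dvd_pow_self c hm) h1

theorem coprime_sub_pow {c m : ℕ} (hc : 1 ≤ c) (hm : m ≠ 0) : Nat.Coprime (c ^ m - 1) c := by
  have h4 : 1 ≤ c ^ m := Nat.one_le_pow _ _ hc
  have h5 := Nat.coprime_self_add_right (m := c ^ m - 1) (n := 1)
  rw [Nat.sub_add_cancel h4] at h5
  exact Nat.Coprime.coprime_dvd_right (dvd_pow_self c hm) (h5.2 (Nat.coprime_one_right _))

/-- the nonsplit dihedral groups -/
theorem dih_plus_max {F : Type u} [Field F] [Finite F] (hq2 : Nat.card F ≠ 2) (hq7 : Nat.card F ≠ 7) (hq9 : Nat.card F ≠ 9)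
    {M : Subgroup (ProjectiveSpecialLinearGroup (Fin 2) F)}
    (e : M ≃* DihedralGroup ((Nat.card F + 1) / Nat.gcd 2 (Nat.card F - 1))) : IsCoatom M := by
  classical
  obtain ⟨p, r, hp, hcp, hr, hpr⟩ := exists_pn F
  have hq1 : 1 < Nat.card F := Finite.one_lt_card
  obtain ⟨n, hn⟩ : ∃ n, n = (Nat.card F + 1) / Nat.gcd 2 (Nat.card F - 1) := ⟨_, rfl⟩
  rw [← hn] at e
  have hd1 : 0 < Nat.gcd 2 (Nat.card F - 1) := Nat.gcd_pos_of_pos_left _ (by norm_num)
  have hd2 : Nat.gcd 2 (Nat.card F - 1) ∣ 2 := Nat.gcd_dvd_left _ _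
  have hd3 : Nat.gcd 2 (Nat.card F - 1) ≤ 2 := Nat.le_of_dvd (by norm_num) hd2
  have hdn : Nat.gcd 2 (Nat.card F - 1) * n = Nat.card F + 1 := by rw [hn]; exact Nat.mul_div_cancel' (d_dvd_add hq1)
  have hcM : Nat.card M = 2 * n := by rw [Nat.card_congr e.toEquiv, DihedralGroup.nat_card]
  have hdM : Nat.gcd 2 (Nat.card F - 1) * Nat.card M = 2 * (Nat.card F + 1) := by rw [hcM, ← hdn]; ring
  have hG := card_PSL F
  have hfac : (Nat.card F + 1) * (Nat.card F - 2) + 2 = Nat.card F * (Nat.card F - 1) := by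
    obtain ⟨r, hr⟩ : ∃ r, Nat.card F = r + 2 := ⟨Nat.card F - 2, by omega⟩
    rw [hr, show r + 2 - 2 = r by omega, show r + 2 - 1 = r + 1 by omega]; ring
  have hn0 : 0 < n := by
    apply Nat.pos_of_ne_zero
    rintro h
    rw [h] at hdn; omega
  have hodd : p ≠ 2 → Odd (Nat.card F) ∧ Nat.card M = Nat.card F + 1 ∧ 2 * n = Nat.card F + 1 := by
    intro hp2
    have h1 := odd_of_ne_two (F := F) p hp2
    rw [gcd_two_odd h1] at hdn
    exact ⟨h1, by omega, hdn⟩
  refine coatom_of ?_ ?_
  · intro hM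
    rw [hM, Subgroup.card_top, hG] at hdM
    have h1 : (Nat.card F + 1) * (Nat.card F * (Nat.card F - 1)) = (Nat.card F + 1) * 2 := by linarith [hdM]
    have h2 := Nat.eq_of_mul_eq_mul_left (by omega) h1
    have h3 : 3 * 2 ≤ Nat.card F * (Nat.card F - 1) := Nat.mul_le_mul (by omega) (by omega)
    omega
  · intro H hH hMH
    have hdv := Subgroup.card_dvd_of_le hMH
    have hHG : Nat.gcd 2 (Nat.card F - 1) * Nat.card H ∣ Nat.card F * (Nat.card F - 1) * (Nat.card F + 1) := by
      rw [← hG]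
      exact Nat.mul_dvd_mul_left _ (Subgroup.card_subgroup_dvd_card H)
    rcases list_ord p hH with h | h | h | h | h | h | h
    · exfalso
      obtain ⟨x, _, _, h3⟩ := h
      have h4 := (Nat.mul_dvd_mul_left (Nat.gcd 2 (Nat.card F - 1)) hdv).trans h3
      rw [hdM] at h4
      have h5 : Nat.card F + 1 ∣ Nat.card F * (Nat.card F - 1) := (dvd_mul_left _ 2).trans h4
      rw [← hfac] at h5
      have h6 := Nat.le_of_dvd (by norm_num) ((Nat.dvd_add_right (dvd_mul_right _ _)).1 h5)
      omega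
    · obtain ⟨_, _, h⟩ := h
      have h1 : Nat.card H ≤ n := by
        rcases h with h | h
        · rw [← hn] at h; exact Nat.le_of_dvd hn0 h
        · have h2 : 0 < (Nat.card F - 1) / Nat.gcd 2 (Nat.card F - 1) :=
            Nat.div_pos (Nat.le_of_dvd (by omega) (Nat.gcd_dvd_right _ _)) hd1
          refine (Nat.le_of_dvd h2 h).trans ?_
          rw [hn]
          exact Nat.div_le_div_right (by omega)
      omega
    · obtain ⟨n', _, _, hc, h⟩ := h
      have h1 : n' ≤ n := by
        rcases h with h | h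
        · rw [← hn] at h; exact Nat.le_of_dvd hn0 h
        · have h2 : 0 < (Nat.card F - 1) / Nat.gcd 2 (Nat.card F - 1) :=
            Nat.div_pos (Nat.le_of_dvd (by omega) (Nat.gcd_dvd_right _ _)) hd1
          refine (Nat.le_of_dvd h2 h).trans ?_
          rw [hn]
          exact Nat.div_le_div_right (by omega)
      omega
    · -- A4
      have hp2 : p ≠ 2 := by rintro rfl; exact h.2.1 (by norm_num)
      have hp3 : p ≠ 3 := by rintro rfl; exact h.2.1 (by norm_num)
      obtain ⟨ho, hc1, hn2⟩ := hodd hp2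
      rw [h.1, hc1]
      by_contra hlt
      rw [h.1, hc1] at hdv
      have h5 : Nat.card F = 3 ∨ Nat.card F = 5 := by
        obtain ⟨c, hc⟩ := ho
        have : Nat.card F = 3 ∨ Nat.card F = 5 ∨ Nat.card F = 9 := by omega
        rcases this with h | h | h
        · exact Or.inl h
        · exact Or.inr h
        · exact absurd h hq9
      rcases h5 with h5 | h5
      · have : p ∣ 3 := by rw [← h5, hpr]; exact dvd_pow_self _ hr
        exact hp3 ((Nat.prime_dvd_prime_iff_eq hp.out Nat.prime_three).1 this)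
      · have hn3 : n = 3 := by omega
        subst hn3
        exact no_dih3_a4 ((Subgroup.inclusion hMH).comp e.symm.toMonoidHom) ((Subgroup.inclusion_injective hMH).comp e.symm.injective) h.2.2
    · -- S4
      have hp2 : p ≠ 2 := by rintro rfl; exact h.2.1 (by norm_num)
      obtain ⟨ho, hc1, hn2⟩ := hodd hp2
      have hcH := h.1
      obtain ⟨_, _, ⟨f⟩⟩ := h
      obtain ⟨b, hb⟩ := ord_of_iso hMH e f
      have := s4_ord b
      have h5 : Nat.card F = 3 ∨ Nat.card F = 5 := by
        obtain ⟨c, hc⟩ := ho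
        omega
      rw [hcH, gcd_two_odd ho] at hHG
      rcases h5 with h5 | h5 <;> rw [h5] at hHG <;> norm_num at hHG
    · -- A5
      have hp2 : p ≠ 2 := by
        rintro rfl
        rcases h.2.1 with h | h
        · norm_num at h
        · exact h (by norm_num)
      have hp5 : p ≠ 5 := by
        rintro rfl
        rcases h.2.1 with h | h
        · norm_num at h
        · exact h (by norm_num)
      obtain ⟨ho, hc1, hn2⟩ := hodd hp2
      have hcH := h.1
      obtain ⟨_, _, ⟨f⟩⟩ := h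
      obtain ⟨b, hb⟩ := ord_of_iso hMH e f
      have := a5_ord b
      have h5 : Nat.card F = 3 ∨ Nat.card F = 5 := by
        obtain ⟨c, hc⟩ := ho
        omega
      rw [hcH, gcd_two_odd ho] at hHG
      rcases h5 with h5 | h5
      · rw [h5] at hHG; norm_num at hHG
      · have : p ∣ 5 := by rw [← h5, hpr]; exact dvd_pow_self _ hr
        exact absurd ((Nat.prime_dvd_prime_iff_eq hp.out Nat.prime_five).1 this) hp5
    · exfalso
      obtain ⟨k, m, hm, hk, h⟩ := h
      have hk1 : 1 < Nat.card k := Finite.one_lt_card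
      have h1 : Nat.card H ∣ Nat.card k * (Nat.card k - 1) * (Nat.card k + 1) := by
        rcases h with h | h
        · rw [← h.1]; exact dvd_mul_left _ _
        · rw [h.1]
      have h2 : Nat.card F + 1 ∣ Nat.card M := by
        rw [hcM, ← hdn]
        exact Nat.mul_dvd_mul_right hd2 n
      have h3 := h2.trans (hdv.trans h1)
      rw [mul_assoc, sq_sub_fac, ← hk] at h3
      have h4 := (coprime_succ_pow (c := Nat.card k) (m := m) (by omega)).dvd_of_dvd_mul_left h3
      have h5 : 4 ≤ Nat.card k ^ 2 := by nlinarith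
      have h6 := Nat.le_of_dvd (by omega) h4
      have h7 : Nat.card k ^ 2 ≤ Nat.card k ^ m := Nat.pow_le_pow_right (by omega) hm
      omega

/-- the split dihedral groups -/
theorem dih_minus_max {F : Type u} [Field F] [Finite F] (hq : Nat.card F ∉ ({2, 3, 5, 7, 9, 11} : Finset ℕ))
    {M : Subgroup (ProjectiveSpecialLinearGroup (Fin 2) F)}
    (e : M ≃* DihedralGroup ((Nat.card F - 1) / Nat.gcd 2 (Nat.card F - 1))) : IsCoatom M := by
  classical
  obtain ⟨p, r, hp, hcp, hr, hpr⟩ := exists_pn F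
  simp only [Finset.mem_insert, Finset.mem_singleton, not_or] at hq
  have hq1 : 1 < Nat.card F := Finite.one_lt_card
  have hq4 : 4 ≤ Nat.card F := by omega
  obtain ⟨n, hn⟩ : ∃ n, n = (Nat.card F - 1) / Nat.gcd 2 (Nat.card F - 1) := ⟨_, rfl⟩
  rw [← hn] at e
  have hd1 : 0 < Nat.gcd 2 (Nat.card F - 1) := Nat.gcd_pos_of_pos_left _ (by norm_num)
  have hd2 : Nat.gcd 2 (Nat.card F - 1) ∣ 2 := Nat.gcd_dvd_left _ _
  have hd3 : Nat.gcd 2 (Nat.card F - 1) ≤ 2 := Nat.le_of_dvd (by norm_num) hd2
  have hdn : Nat.gcd 2 (Nat.card F - 1) * n = Nat.card F - 1 := by rw [hn]; exact Nat.mul_div_cancel' (Nat.gcd_dvd_right _ _)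
  have hcM : Nat.card M = 2 * n := by rw [Nat.card_congr e.toEquiv, DihedralGroup.nat_card]
  have hdM : Nat.gcd 2 (Nat.card F - 1) * Nat.card M = 2 * (Nat.card F - 1) := by
    calc _ = 2 * (Nat.gcd 2 (Nat.card F - 1) * n) := by rw [hcM]; ring
      _ = _ := by rw [hdn]
  have hG := card_PSL F
  have hn0 : 0 < n := by
    apply Nat.pos_of_ne_zero
    rintro h
    rw [h] at hdn; omega
  have hpn : ¬ p ∣ n := by
    intro h
    have h1 : p ∣ Nat.card F - 1 := by rw [← hdn]; exact dvd_mul_of_dvd_right h _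
    have h2 : p ∣ Nat.card F := by rw [hpr]; exact dvd_pow_self _ hr
    have h3 : p ∣ 1 := by
      have := Nat.dvd_sub h2 h1
      rwa [show Nat.card F - (Nat.card F - 1) = 1 by omega] at this
    exact hp.out.one_lt.ne' (Nat.dvd_one.1 h3)
  have hodd : p ≠ 2 → Odd (Nat.card F) ∧ Nat.card M = Nat.card F - 1 ∧ 2 * n = Nat.card F - 1 := by
    intro hp2
    have h1 := odd_of_ne_two (F := F) p hp2
    rw [gcd_two_odd h1] at hdn
    exact ⟨h1, by omega, hdn⟩
  refine coatom_of ?_ ?_
  · intro hM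
    rw [hM, Subgroup.card_top, hG] at hdM
    have h1 : (Nat.card F - 1) * (Nat.card F * (Nat.card F + 1)) = (Nat.card F - 1) * 2 := by linarith [hdM]
    have h2 := Nat.eq_of_mul_eq_mul_left (by omega) h1
    have h3 : 3 * 2 ≤ Nat.card F * (Nat.card F + 1) := Nat.mul_le_mul (by omega) (by omega)
    omega
  · intro H hH hMH
    have hdv := Subgroup.card_dvd_of_le hMH
    rcases list_ord p hH with h | h | h | h | h | h | h
    · exfalso
      obtain ⟨x, hfix, _, h3⟩ := h
      have h4 := (Nat.mul_dvd_mul_left (Nat.gcd 2 (Nat.card F - 1)) hdv).trans h3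
      rw [hdM] at h4
      have h5 : 2 ∣ Nat.card F := Nat.dvd_of_mul_dvd_mul_right (by omega) h4
      have hp2 : p = 2 := by
        by_contra hp2
        obtain ⟨c, hc⟩ := (hodd hp2).1
        omega
      subst hp2
      have hd : Nat.gcd 2 (Nat.card F - 1) = 1 := gcd_two_even even_of_two hq1
      rw [hd, one_mul] at hdn
      -- the commutator of a rotation and a reflection is a square
      have hU : Psi F ((e.symm (DihedralGroup.r 1) * e.symm (DihedralGroup.sr 0) * (e.symm (DihedralGroup.r 1))⁻¹ * (e.symm (DihedralGroup.sr 0))⁻¹ : M) :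
          ProjectiveSpecialLinearGroup (Fin 2) F) ∈ U x := by
        simp only [Subgroup.coe_mul, Subgroup.coe_inv, map_mul, map_inv]
        exact comm_mem_U (Psi_mem_mob F _) (Psi_mem_mob F _) (hfix _ (hMH (e.symm (DihedralGroup.r 1)).2)) (hfix _ (hMH (e.symm (DihedralGroup.sr 0)).2))
      have h6 : (e.symm (DihedralGroup.r 1) * e.symm (DihedralGroup.sr 0) * (e.symm (DihedralGroup.r 1))⁻¹ * (e.symm (DihedralGroup.sr 0))⁻¹ : M) =
          e.symm (DihedralGroup.r 2) := by
        rw [← map_inv, ← map_inv, ← map_mul, ← map_mul, ← map_mul]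
        congr 1
        simp
        norm_num
      rw [h6] at hU
      have h7 := U_pow 2 hU
      rw [← map_pow, ← map_one (Psi F)] at h7
      have h8 := Psi_injective F h7
      have h9 : (e.symm (DihedralGroup.r 2)) ^ 2 = 1 := Subtype.ext h8
      rw [← map_pow, ← map_one e.symm] at h9
      have h10 := e.symm.injective h9
      have h11 : (DihedralGroup.r 1 : DihedralGroup n) ^ 4 = 1 := by
        rw [← h10, DihedralGroup.r_one_pow, pow_two, DihedralGroup.r_mul_r]
        congr 1
        push_cast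
        norm_num
      have h12 := orderOf_dvd_of_pow_eq_one h11
      rw [DihedralGroup.orderOf_r_one] at h12
      have h13 : n ∣ 2 ^ 2 := by norm_num; exact h12
      obtain ⟨j, hj, hj2⟩ := (Nat.dvd_prime_pow Nat.prime_two).1 h13
      interval_cases j <;> omega
    · obtain ⟨_, _, h⟩ := h
      exfalso
      have h2 : 0 < (Nat.card F - 1) / Nat.gcd 2 (Nat.card F - 1) :=
        Nat.div_pos (Nat.le_of_dvd (by omega) (Nat.gcd_dvd_right _ _)) hd1
      have h1 : Nat.gcd 2 (Nat.card F - 1) * Nat.card H ≤ Nat.card F + 1 := by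
        rcases h with h | h
        · have h1 := Nat.le_of_dvd (Nat.div_pos (by omega) (by omega)) h
          have h2 := Nat.mul_le_mul_left (Nat.gcd 2 (Nat.card F - 1)) h1
          have h3 := Nat.mul_div_le (Nat.card F + 1) (Nat.gcd 2 (Nat.card F - 1))
          omega
        · have h1 := Nat.le_of_dvd h2 h
          have h2 := Nat.mul_le_mul_left (Nat.gcd 2 (Nat.card F - 1)) h1
          have h3 := Nat.mul_div_le (Nat.card F - 1) (Nat.gcd 2 (Nat.card F - 1))
          omega
      have h3 : Nat.gcd 2 (Nat.card F - 1) * Nat.card M ≤ Nat.gcd 2 (Nat.card F - 1) * Nat.card H :=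
        Nat.mul_le_mul_left _ (Nat.le_of_dvd Nat.card_pos hdv)
      omega
    · obtain ⟨n', _, _, hc, h⟩ := h
      rw [hc, hcM] at hdv
      have h0 : n ∣ n' := Nat.dvd_of_mul_dvd_mul_left (by norm_num) hdv
      rcases h with h | h
      · exfalso
        have h1 := h0.trans h
        have h2 := Nat.mul_dvd_mul_left (Nat.gcd 2 (Nat.card F - 1)) h1
        rw [hdn, Nat.mul_div_cancel' (d_dvd_add hq1)] at h2
        have h3 : Nat.card F + 1 = (Nat.card F - 1) + 2 := by omega
        rw [h3] at h2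
        have h4 := Nat.le_of_dvd (by norm_num) ((Nat.dvd_add_right (dvd_refl _)).1 h2)
        omega
      · rw [← hn] at h
        have := Nat.le_of_dvd hn0 h
        omega
    · -- A4
      have hp2 : p ≠ 2 := by rintro rfl; exact h.2.1 (by norm_num)
      obtain ⟨⟨c, hc⟩, hc1, hn2⟩ := hodd hp2
      rw [h.1, hc1]
      omega
    · -- S4
      have hp2 : p ≠ 2 := by rintro rfl; exact h.2.1 (by norm_num)
      obtain ⟨⟨c, hc⟩, hc1, hn2⟩ := hodd hp2
      obtain ⟨_, _, ⟨f⟩⟩ := h
      obtain ⟨b, hb⟩ := ord_of_iso hMH e f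
      have := s4_ord b
      omega
    · -- A5
      have hp2 : p ≠ 2 := by
        rintro rfl
        rcases h.2.1 with h | h
        · norm_num at h
        · exact h (by norm_num)
      obtain ⟨⟨c, hc⟩, hc1, hn2⟩ := hodd hp2
      obtain ⟨_, _, ⟨f⟩⟩ := h
      obtain ⟨b, hb⟩ := ord_of_iso hMH e f
      have := a5_ord b
      omega
    · obtain ⟨k, m, hm, hk, h⟩ := h
      haveI := char_sub p k
      have hk1 : 1 < Nat.card k := Finite.one_lt_card
      have h1 : n ≤ Nat.card k + 1 := by
        rcases h with h | h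
        · obtain ⟨_, ⟨f⟩⟩ := h
          obtain ⟨b, hb⟩ := ord_of_iso hMH e f
          have h2 := psl_ord_le k p b (by rw [hb]; exact hpn)
          rw [hb] at h2
          exact (Nat.le_mul_of_pos_left _ (Nat.gcd_pos_of_pos_left _ (by norm_num))).trans h2
        · obtain ⟨_, ⟨f⟩⟩ := h
          obtain ⟨b, hb⟩ := ord_of_iso hMH e f
          have h2 := pgl_ord_le k p b (by rw [hb]; exact hpn)
          rwa [hb] at h2
      have h2 : Nat.card k * Nat.card k ≤ Nat.card F := by
        rw [← hk, ← pow_two]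
        exact Nat.pow_le_pow_right (by omega) hm
      have h3 : Nat.card F - 1 ≤ Nat.gcd 2 (Nat.card F - 1) * (Nat.card k + 1) := by
        calc Nat.card F - 1 = Nat.gcd 2 (Nat.card F - 1) * n := hdn.symm
          _ ≤ _ := Nat.mul_le_mul_left _ h1
      by_cases hp2 : p = 2
      · subst hp2
        have hd : Nat.gcd 2 (Nat.card F - 1) = 1 := gcd_two_even even_of_two hq1
        rw [hd, one_mul] at h3
        have hk2 : Nat.card k = 2 := by
          by_contra hne
          have : 3 ≤ Nat.card k := by omega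
          have : Nat.card F ≤ Nat.card k + 2 := by omega
          nlinarith
        have hH6 : Nat.card H ≤ 6 := by
          have hH1 : Nat.card H ≤ Nat.card k * (Nat.card k - 1) * (Nat.card k + 1) := by
            rcases h with h | h
            · rw [← h.1]
              exact Nat.le_mul_of_pos_left _ (Nat.gcd_pos_of_pos_left _ (by norm_num))
            · exact h.1.le
          rw [hk2] at hH1
          norm_num at hH1
          exact hH1
        rw [hd, one_mul] at hdM
        omega
      · exfalso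
        obtain ⟨ho, _, _⟩ := hodd hp2
        rw [gcd_two_odd ho] at h3
        have hko := odd_of_ne_two (F := k) p hp2
        have hk3 : Nat.card k = 3 := by
          obtain ⟨c, hc⟩ := hko
          by_contra hne
          have : 5 ≤ Nat.card k := by omega
          have : Nat.card F ≤ 2 * Nat.card k + 3 := by omega
          nlinarith
        rw [hk3] at h3 hk
        have hm2 : m = 2 := by
          by_contra hm2
          have : 3 ^ 3 ≤ 3 ^ m := Nat.pow_le_pow_right (by norm_num) (by omega)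
          omega
        rw [hm2] at hk
        norm_num at hk
        exact hq.2.2.2.2.1 hk.symm

end CfsgLib.Mob30
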