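import Mathlib
import Cfsg.Agent.Lib.Mob30

set_option autoImplicit false
set_option maxHeartbeats 400000

/-! Quaternion pairs are conjugate in `GL(2,q)`; Klein four-groups. -/
namespace CfsgLib.Mob31

open OnePoint Matrix CfsgLib.Mob3 CfsgLib.Mob4 CfsgLib.Mob5 CfsgLib.Mob10 CfsgLib.Mob12 CfsgLib.Mob13 CfsgLib.Mob16 CfsgLib.Mob18 CfsgLib.Mob20 CfsgLib.Mob22 CfsgLib.Mob24

universe u v w

/-! ### Klein four-groups -/
section
variable {G : Type u} [Group G]

/-- a pair of distinct commuting involutions -/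
def KP (x y : G) : Prop := x * x = 1 ∧ y * y = 1 ∧ x ≠ 1 ∧ y ≠ 1 ∧ x ≠ y ∧ x * y = y * x

theorem KP.map {H : Type v} [Group H] {x y : G} (h : KP x y) (f : G →* H) (hf : Function.Injective f) : KP (f x) (f y) := by
  obtain ⟨h1, h2, h3, h4, h5, h6⟩ := h
  refine ⟨by rw [← map_mul, h1, map_one], by rw [← map_mul, h2, map_one], ?_, ?_, fun h => h5 (hf h), by rw [← map_mul, h6, map_mul]⟩
  · intro h; rw [← map_one f] at h; exact h3 (hf h)
  · intro h; rw [← map_one f] at h; exact h4 (hf h)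

theorem KP.of_map {H : Type v} [Group H] {x y : G} (f : G →* H) (hf : Function.Injective f) (h : KP (f x) (f y)) : KP x y := by
  obtain ⟨h1, h2, h3, h4, h5, h6⟩ := h
  refine ⟨hf (by rw [map_mul, h1, map_one]), hf (by rw [map_mul, h2, map_one]), ?_, ?_, fun h => h5 (by rw [h]), hf (by rw [map_mul, h6, map_mul])⟩
  · intro h; rw [h, map_one] at h3; exact h3 rfl
  · intro h; rw [h, map_one] at h4; exact h4 rfl

theorem KP.symm {x y : G} (h : KP x y) : KP y x := ⟨h.2.1, h.1, h.2.2.2.1, h.2.2.1, h.2.2.2.2.1.symm, h.2.2.2.2.2.symm⟩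

theorem KP.right {x y : G} (h : KP x y) : KP x (x * y) := by
  obtain ⟨h1, h2, h3, h4, h5, h6⟩ := h
  refine ⟨h1, ?_, h3, ?_, ?_, ?_⟩
  · calc x * y * (x * y) = x * (y * x) * y := by group
      _ = x * (x * y) * y := by rw [h6]
      _ = (x * x) * (y * y) := by group
      _ = 1 := by rw [h1, h2, one_mul]
  · intro h
    apply h5
    calc x = x * (y * y) := by rw [h2, mul_one]
      _ = (x * y) * y := by group
      _ = y := by rw [h, one_mul]
  · intro h
    exact h4 (left_eq_mul.1 h)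
  · calc x * (x * y) = x * (y * x) := by rw [h6]
      _ = x * y * x := by group

/-- the four-group of a pair -/
def kv {x y : G} (h : KP x y) : Subgroup G where
  carrier := {1, x, y, x * y}
  one_mem' := by simp
  mul_mem' := by
    obtain ⟨h1, h2, h3, h4, h5, h6⟩ := h
    have e1 : x * (x * y) = y := by rw [← mul_assoc, h1, one_mul]
    have e2 : x * y * y = x := by rw [mul_assoc, h2, mul_one]
    have e3 : x * y * x = y := by rw [mul_assoc, ← h6, ← mul_assoc, h1, one_mul]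
    have e4 : y * (x * y) = x := by rw [h6, ← mul_assoc, h2, one_mul]
    have e5 : x * y * (x * y) = 1 := by rw [mul_assoc, e4, h1]
    rintro a b (rfl | rfl | rfl | rfl) (rfl | rfl | rfl | rfl) <;>
      simp only [one_mul, mul_one, h1, h2, e1, e2, e3, e4, e5, ← h6, Set.mem_insert_iff, Set.mem_singleton_iff, true_or, or_true]
  inv_mem' := by
    obtain ⟨h1, h2, h3, h4, h5, h6⟩ := h
    have e4 : y * (x * y) = x := by rw [h6, ← mul_assoc, h2, one_mul]
    have e5 : x * y * (x * y) = 1 := by rw [mul_assoc, e4, h1]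
    rintro a (rfl | rfl | rfl | rfl)
    · simp
    · rw [inv_eq_of_mul_eq_one_right h1]; simp
    · rw [inv_eq_of_mul_eq_one_right h2]; simp
    · rw [inv_eq_of_mul_eq_one_right e5]; simp

theorem mem_kv {x y : G} (h : KP x y) {g : G} : g ∈ kv h ↔ g = 1 ∨ g = x ∨ g = y ∨ g = x * y := Iff.rfl

theorem kv_card {x y : G} (h : KP x y) : Nat.card (kv h) = 4 := by
  have h0 := h.right
  obtain ⟨h1, h2, h3, h4, h5, h6⟩ := h
  have : ((kv ⟨h1, h2, h3, h4, h5, h6⟩ : Subgroup G) : Set G) = {1, x, y, x * y} := rfl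
  rw [← SetLike.coe_sort_coe, Nat.card_coe_set_eq, this]
  rw [Set.ncard_insert_of_notMem, Set.ncard_insert_of_notMem, Set.ncard_pair]
  · intro h
    exact h3 (right_eq_mul.1 h)
  · rintro (h | h)
    · exact h5 h
    · exact h0.2.2.2.2.1 h
  · rintro (h | h | h)
    · exact h3 h.symm
    · exact h4 h.symm
    · exact h0.2.2.2.1 h.symm

theorem kv_klein {x y : G} (h : KP x y) : IsKleinFour (kv h) := by
  refine ⟨kv_card h, ?_⟩
  have h0 := h.right
  have hsq : ∀ g : kv h, g ^ 2 = 1 := by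
    rintro ⟨g, hg⟩
    apply Subtype.ext
    rcases hg with rfl | rfl | rfl | rfl
    · simp
    · rw [Subgroup.coe_pow, pow_two]; exact h.1
    · rw [Subgroup.coe_pow, pow_two]; exact h.2.1
    · rw [Subgroup.coe_pow, pow_two]; exact h0.2.1
  apply Nat.dvd_antisymm
  · exact Monoid.exponent_dvd_of_forall_pow_eq_one hsq
  · have h1 := Monoid.order_dvd_exponent (⟨x, by rw [mem_kv]; simp⟩ : kv h)
    have h2 : orderOf (⟨x, by rw [mem_kv]; simp⟩ : kv h) = 2 := by
      haveI : Fact (Nat.Prime 2) := ⟨Nat.prime_two⟩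
      apply orderOf_eq_prime (hsq _)
      intro hx
      exact h.2.2.1 (congrArg Subtype.val hx)
    rwa [h2] at h1

theorem klein_sq {V : Subgroup G} (hV : IsKleinFour V) {x : G} (hx : x ∈ V) : x * x = 1 := by
  haveI := hV
  have h1 : (⟨x, hx⟩ : V) ^ 2 = 1 := by
    rw [← IsKleinFour.exponent_two (G := V)]
    exact Monoid.pow_exponent_eq_one _
  rw [pow_two] at h1
  exact congrArg Subtype.val h1

theorem klein_comm {V : Subgroup G} (hV : IsKleinFour V) {x y : G} (hx : x ∈ V) (hy : y ∈ V) : x * y = y * x := by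
  have h1 := klein_sq hV (V.mul_mem hx hy)
  have h2 := klein_sq hV hx
  have h3 := klein_sq hV hy
  have h4 : x * y = (x * y)⁻¹ := (inv_eq_of_mul_eq_one_right h1).symm
  rw [h4, _root_.mul_inv_rev, inv_eq_of_mul_eq_one_right h2, inv_eq_of_mul_eq_one_right h3]

theorem klein_kp {V : Subgroup G} (hV : IsKleinFour V) {x y : G} (hx : x ∈ V) (hy : y ∈ V) (h1 : x ≠ 1) (h2 : y ≠ 1) (h3 : x ≠ y) : KP x y :=
  ⟨klein_sq hV hx, klein_sq hV hy, h1, h2, h3, klein_comm hV hx hy⟩

theorem klein_eq {V : Subgroup G} (hV : IsKleinFour V) {x y : G} (hx : x ∈ V) (hy : y ∈ V) (h : KP x y) : V = kv h := by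
  haveI : Finite V := Nat.finite_of_card_ne_zero (by rw [hV.card_four]; norm_num)
  symm
  apply Subgroup.eq_of_le_of_card_ge
  · rintro g (rfl | rfl | rfl | rfl)
    · exact V.one_mem
    · exact hx
    · exact hy
    · exact V.mul_mem hx hy
  · rw [hV.card_four, kv_card]

theorem klein_pair {V : Subgroup G} (hV : IsKleinFour V) : ∃ x ∈ V, ∃ y ∈ V, KP x y := by
  haveI := hV
  obtain ⟨e⟩ := IsKleinFour.nonempty_mulEquiv (G₁ := DihedralGroup 2) (G₂ := V)
  have hinj : Function.Injective (V.subtype.comp e.toMonoidHom) := V.subtype_injective.comp e.injective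
  have h0 : KP (DihedralGroup.r 1 : DihedralGroup 2) (DihedralGroup.sr 0) := by
    refine ⟨by decide, by decide, by decide, by decide, by decide, by decide⟩
  exact ⟨_, (e (DihedralGroup.r 1)).2, _, (e (DihedralGroup.sr 0)).2, h0.map _ hinj⟩

theorem klein_iff {V : Subgroup G} : IsKleinFour V ↔ ∃ x y, ∃ h : KP x y, V = kv h := by
  constructor
  · intro hV
    obtain ⟨x, hx, y, hy, h⟩ := klein_pair hV
    exact ⟨x, y, h, klein_eq hV hx hy h⟩
  · rintro ⟨x, y, h, rfl⟩
    exact kv_klein h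

theorem kv_map {H : Type v} [Group H] {x y : G} (h : KP x y) (f : G →* H) (hf : Function.Injective f) :
    (kv h).map f = kv (h.map f hf) := by
  ext g
  rw [Subgroup.mem_map, mem_kv]
  constructor
  · rintro ⟨g, hg, rfl⟩
    rcases hg with rfl | rfl | rfl | rfl
    · left; exact map_one f
    · right; left; rfl
    · right; right; left; rfl
    · right; right; right; exact map_mul f x y
  · rintro (rfl | rfl | rfl | rfl)
    · exact ⟨1, (kv h).one_mem, map_one f⟩
    · exact ⟨x, by rw [mem_kv]; simp, rfl⟩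
    · exact ⟨y, by rw [mem_kv]; simp, rfl⟩
    · exact ⟨x * y, by rw [mem_kv]; simp, map_mul f x y⟩

/-- the number of ordered pairs in a four-group -/
theorem pairs_card {V : Subgroup G} (hV : IsKleinFour V) : Nat.card {q : G × G // q.1 ∈ V ∧ q.2 ∈ V ∧ KP q.1 q.2} = 6 := by
  classical
  haveI := hV
  obtain ⟨e⟩ := IsKleinFour.nonempty_mulEquiv (G₁ := DihedralGroup 2) (G₂ := V)
  have hinj : Function.Injective (V.subtype.comp e.toMonoidHom) := V.subtype_injective.comp e.injective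
  have h1 : Nat.card {q : DihedralGroup 2 × DihedralGroup 2 // q.1 ≠ 1 ∧ q.2 ≠ 1 ∧ q.1 ≠ q.2} = 6 := by
    rw [Nat.card_eq_fintype_card]; decide
  rw [← h1]
  symm
  have hD : ∀ q : DihedralGroup 2 × DihedralGroup 2, q.1 ≠ 1 ∧ q.2 ≠ 1 ∧ q.1 ≠ q.2 → KP q.1 q.2 := by
    intro q hq
    refine ⟨?_, ?_, hq.1, hq.2.1, hq.2.2, ?_⟩
    · have : ∀ x : DihedralGroup 2, x * x = 1 := by decide
      exact this _
    · have : ∀ x : DihedralGroup 2, x * x = 1 := by decide
      exact this _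
    · have : ∀ x y : DihedralGroup 2, x * y = y * x := by decide
      exact this _ _
  apply Nat.card_eq_of_bijective (fun q : {q : DihedralGroup 2 × DihedralGroup 2 // q.1 ≠ 1 ∧ q.2 ≠ 1 ∧ q.1 ≠ q.2} =>
    (⟨((e q.1.1 : G), (e q.1.2 : G)), (e q.1.1).2, (e q.1.2).2, (hD q.1 q.2).map _ hinj⟩ : {q : G × G // q.1 ∈ V ∧ q.2 ∈ V ∧ KP q.1 q.2}))
  constructor
  · rintro ⟨⟨a, b⟩, ha⟩ ⟨⟨c, d⟩, hc⟩ h
    have h2 := congrArg Subtype.val h
    have h3 := congrArg Prod.fst h2
    have h4 := congrArg Prod.snd h2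
    apply Subtype.ext
    exact Prod.ext (hinj h3) (hinj h4)
  · rintro ⟨⟨a, b⟩, ha, hb, hab⟩
    have hab' : KP (e.symm ⟨a, ha⟩) (e.symm ⟨b, hb⟩) := by
      apply KP.of_map _ hinj
      change KP ((e (e.symm ⟨a, ha⟩) : V) : G) ((e (e.symm ⟨b, hb⟩) : V) : G)
      rw [e.apply_symm_apply, e.apply_symm_apply]
      exact hab
    refine ⟨⟨(e.symm ⟨a, ha⟩, e.symm ⟨b, hb⟩), hab'.2.2.1, hab'.2.2.2.1, hab'.2.2.2.2.1⟩, ?_⟩
    apply Subtype.ext
    apply Prod.ext
    · change ((e (e.symm ⟨a, ha⟩) : V) : G) = a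
      rw [e.apply_symm_apply]
    · change ((e (e.symm ⟨b, hb⟩) : V) : G) = b
      rw [e.apply_symm_apply]

/-- pairs and four-groups -/
theorem card_pairs [Finite G] : Nat.card {q : G × G // KP q.1 q.2} = 6 * Nat.card {V : Subgroup G // IsKleinFour V} := by
  classical
  have e : {q : G × G // KP q.1 q.2} ≃ Σ V : {V : Subgroup G // IsKleinFour V}, {q : G × G // q.1 ∈ V.1 ∧ q.2 ∈ V.1 ∧ KP q.1 q.2} :=
    { toFun := fun q => ⟨⟨kv q.2, kv_klein q.2⟩, ⟨q.1, by rw [mem_kv]; simp, by rw [mem_kv]; simp, q.2⟩⟩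
      invFun := fun s => ⟨s.2.1, s.2.2.2.2⟩
      left_inv := fun q => rfl
      right_inv := by
        rintro ⟨⟨V, hV⟩, ⟨q, h1, h2, h3⟩⟩
        have h4 := klein_eq hV h1 h2 h3
        subst h4
        rfl }
  haveI : Fintype {V : Subgroup G // IsKleinFour V} := Fintype.ofFinite _
  rw [Nat.card_congr e, Nat.card_sigma]
  have h6 : ∀ V : {V : Subgroup G // IsKleinFour V}, Nat.card {q : G × G // q.1 ∈ V.1 ∧ q.2 ∈ V.1 ∧ KP q.1 q.2} = 6 := fun V => pairs_card V.2
  rw [Finset.sum_congr rfl (fun V _ => h6 V)]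
  rw [Finset.sum_const, smul_eq_mul, Finset.card_univ, Nat.card_eq_fintype_card, mul_comm]

end

/-! ### Quaternion pairs -/
section
variable {F : Type u} [Field F]

theorem quat_conj {α β : F} (h2 : (2 : F) ≠ 0) (hS : α ^ 2 + β ^ 2 = -1) {I J : Matrix (Fin 2) (Fin 2) F}
    (hI : I * I = -1) (hJ : J * J = -1) (hIJ : I * J = -(J * I)) :
    ∃ g : GL (Fin 2) F, (g : Matrix (Fin 2) (Fin 2) F) * !![α, β; β, -α] = I * (g : Matrix (Fin 2) (Fin 2) F) ∧
      (g : Matrix (Fin 2) (Fin 2) F) * !![0, 1; -1, 0] = J * (g : Matrix (Fin 2) (Fin 2) F) := by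
  -- the operators `T` and `S`
  have hS0 : I + β • J + α • (1 : Matrix (Fin 2) (Fin 2) F) ≠ 0 := by
    intro h
    have h1 : I = -(β • J) - α • (1 : Matrix (Fin 2) (Fin 2) F) := by
      have := congrArg (fun X => X - (β • J + α • (1 : Matrix (Fin 2) (Fin 2) F))) h
      simp only [zero_sub] at this
      rw [← sub_eq_zero] at this ⊢
      rw [← this]
      abel
    have h3 : I * J = J * I := by
      rw [h1]
      simp [sub_mul, mul_sub]
    rw [h3] at hIJ
    have h4 : (2 : F) • (J * I) = 0 := by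
      rw [two_smul]
      nth_rw 1 [hIJ]
      simp
    have h5 : J * I = 0 := (smul_eq_zero.1 h4).resolve_left h2
    have h6 : (1 : Matrix (Fin 2) (Fin 2) F) = 0 := by
      calc (1 : Matrix (Fin 2) (Fin 2) F) = -(J * J) := by rw [hJ]; simp
        _ = J * (I * I) * J := by rw [hI]; simp
        _ = (J * I) * (I * J) := by simp only [mul_assoc]
        _ = 0 := by rw [h5, zero_mul]
    have h7 := congrFun (congrFun h6 0) 0
    simp at h7
  have hTS : (I + β • J - α • (1 : Matrix (Fin 2) (Fin 2) F)) * (I + β • J + α • (1 : Matrix (Fin 2) (Fin 2) F)) = 0 := by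
    have e1 : (I + β • J - α • (1 : Matrix (Fin 2) (Fin 2) F)) * (I + β • J + α • (1 : Matrix (Fin 2) (Fin 2) F)) =
        I * I + β • (I * J + J * I) + (β ^ 2) • (J * J) - (α ^ 2) • (1 : Matrix (Fin 2) (Fin 2) F) := by
      simp only [sub_mul, mul_add, add_mul, smul_mul_assoc, mul_smul_comm, one_mul, mul_one, smul_add, smul_sub, smul_smul, pow_two, mul_comm α β]
      abel
    rw [e1, hI, hJ, hIJ]
    have e2 : α ^ 2 = -1 - β ^ 2 := by linear_combination hS
    rw [e2, sub_smul, neg_smul, one_smul, smul_neg]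
    simp
  obtain ⟨i, j, hij⟩ : ∃ i j, (I + β • J + α • (1 : Matrix (Fin 2) (Fin 2) F)) i j ≠ 0 := by
    by_contra hcon
    push Not at hcon
    exact hS0 (by ext i j; exact hcon i j)
  obtain ⟨v, hv⟩ : ∃ v : Fin 2 → F, v = fun i => (I + β • J + α • (1 : Matrix (Fin 2) (Fin 2) F)) i j := ⟨_, rfl⟩
  have hv0 : v i ≠ 0 := by rw [hv]; exact hij
  have hTv : (I + β • J - α • (1 : Matrix (Fin 2) (Fin 2) F)) *ᵥ v = 0 := by
    have := congrArg (fun X : Matrix (Fin 2) (Fin 2) F => fun i => X i j) hTS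
    rw [hv]
    exact this
  have hIv : I *ᵥ v = α • v - β • (J *ᵥ v) := by
    rw [Matrix.sub_mulVec, Matrix.add_mulVec, Matrix.smul_mulVec, Matrix.smul_mulVec, Matrix.one_mulVec] at hTv
    have := congrArg (fun X => X - β • (J *ᵥ v) + α • v) hTv
    simp only [zero_sub] at this
    rw [← sub_eq_zero] at this ⊢
    rw [← this]
    abel
  have hJJv : J *ᵥ (J *ᵥ v) = -v := by rw [Matrix.mulVec_mulVec, hJ, Matrix.neg_mulVec, Matrix.one_mulVec]
  have hIJv : I *ᵥ (J *ᵥ v) = -(J *ᵥ (I *ᵥ v)) := by rw [Matrix.mulVec_mulVec, hIJ, Matrix.neg_mulVec, Matrix.mulVec_mulVec]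
  -- the determinant
  have hdet : v 0 * (-(J *ᵥ v) 1) - (-(J *ᵥ v) 0) * v 1 ≠ 0 := by
    intro hdet
    obtain ⟨c, hc⟩ : ∃ c : F, J *ᵥ v = c • v := by
      refine ⟨(J *ᵥ v) i / v i, ?_⟩
      funext l
      rw [Pi.smul_apply, smul_eq_mul]
      fin_cases i <;> fin_cases l
      · simp only [Fin.zero_eta] at *; field_simp
      · simp only [Fin.zero_eta, Fin.mk_one] at *; field_simp; linear_combination -hdet
      · simp only [Fin.zero_eta, Fin.mk_one] at *; field_simp; linear_combination hdet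
      · simp only [Fin.mk_one] at *; field_simp
    have h3 : c * c = -1 := by
      have := hJJv
      rw [hc, Matrix.mulVec_smul, hc, smul_smul] at this
      have h4 := congrFun this i
      rw [Pi.smul_apply, smul_eq_mul, Pi.neg_apply] at h4
      have h5 : (c * c + 1) * v i = 0 := by linear_combination h4
      linear_combination (mul_eq_zero.1 h5).resolve_right hv0
    have h4 : I *ᵥ v = (α - β * c) • v := by
      rw [hIv, hc, smul_smul, sub_smul]
    have h5 : (c * (α - β * c)) * v i = 0 := by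
      have := hIJv
      rw [hc, Matrix.mulVec_smul, h4, Matrix.mulVec_smul, hc, smul_smul, smul_smul] at this
      have h6 := congrFun this i
      rw [Pi.smul_apply, smul_eq_mul, Pi.neg_apply, Pi.smul_apply, smul_eq_mul] at h6
      have h7 : 2 * ((c * (α - β * c)) * v i) = 0 := by linear_combination h6
      exact (mul_eq_zero.1 h7).resolve_left h2
    have h6 := (mul_eq_zero.1 h5).resolve_right hv0
    have hc0 : c ≠ 0 := by
      rintro rfl
      rw [mul_zero] at h3
      exact one_ne_zero (by linear_combination h3 : (1 : F) = 0)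
    have h7 := (mul_eq_zero.1 h6).resolve_left hc0
    have hIIv : I *ᵥ (I *ᵥ v) = -v := by rw [Matrix.mulVec_mulVec, hI, Matrix.neg_mulVec, Matrix.one_mulVec]
    rw [h4, h7, zero_smul, Matrix.mulVec_zero] at hIIv
    have h8 := congrFun hIIv i
    rw [Pi.zero_apply, Pi.neg_apply] at h8
    exact hv0 (by linear_combination h8)
  -- the conjugating matrix
  obtain ⟨w, hw⟩ : ∃ w, w = -(J *ᵥ v) := ⟨_, rfl⟩
  have hdet' : Matrix.det !![v 0, w 0; v 1, w 1] ≠ 0 := by
    rw [Matrix.det_fin_two_of, hw]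
    simpa using hdet
  have hJv : J *ᵥ v = -w := by rw [hw, neg_neg]
  have hJw : J *ᵥ w = v := by rw [hw, Matrix.mulVec_neg, hJJv, neg_neg]
  have hIv' : I *ᵥ v = α • v + β • w := by rw [hIv, hw, smul_neg, sub_eq_add_neg]
  have hIw : I *ᵥ w = β • v - α • w := by
    rw [hw, Matrix.mulVec_neg, hIJv, neg_neg, hIv', Matrix.mulVec_add, Matrix.mulVec_smul, Matrix.mulVec_smul, hJw, hJv]
    simp only [smul_neg, hw, neg_neg]
    abel
  have gJ : ∀ M : Matrix (Fin 2) (Fin 2) F, M * !![v 0, w 0; v 1, w 1] = !![(M *ᵥ v) 0, (M *ᵥ w) 0; (M *ᵥ v) 1, (M *ᵥ w) 1] := by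
    intro M
    ext a b
    fin_cases a <;> fin_cases b <;> simp [Matrix.mul_apply, Matrix.mulVec, dotProduct, Fin.sum_univ_two]
  refine ⟨Matrix.GeneralLinearGroup.mkOfDetNeZero _ hdet', ?_, ?_⟩
  · change !![v 0, w 0; v 1, w 1] * !![α, β; β, -α] = I * !![v 0, w 0; v 1, w 1]
    rw [gJ, hIv', hIw, Matrix.mul_fin_two]
    ext a b
    fin_cases a <;> fin_cases b <;> simp <;> ring
  · change !![v 0, w 0; v 1, w 1] * !![0, 1; -1, 0] = J * !![v 0, w 0; v 1, w 1]
    rw [gJ, hJv, hJw, Matrix.mul_fin_two]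
    ext a b
    fin_cases a <;> fin_cases b <;> simp

end

end CfsgLib.Mob31
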