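import Mathlib
import Cfsg.Agent.Lib.Mob31

set_option autoImplicit false
set_option maxHeartbeats 400000

/-! Pairs of commuting involutions of `PSL(2,q)` under `PGL(2,q)`. -/
namespace CfsgLib.Mob32

open OnePoint Matrix CfsgLib.Mob3 CfsgLib.Mob4 CfsgLib.Mob5 CfsgLib.Mob10 CfsgLib.Mob12 CfsgLib.Mob13 CfsgLib.Mob16 CfsgLib.Mob18 CfsgLib.Mob20 CfsgLib.Mob22 CfsgLib.Mob24 CfsgLib.Mob31

universe u v w

section
variable {F : Type u} [Field F]

/-- involutions lift to matrices of trace zero -/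
theorem tr_of_sq (h2 : (2 : F) ≠ 0) {A : Matrix.SpecialLinearGroup (Fin 2) F} (h : ps A * ps A = 1) (h1 : ps A ≠ 1) : A.1 0 0 + A.1 1 1 = 0 := by
  obtain ⟨a, b, c, d, hd, rfl⟩ := exists_m4 A
  change a + d = 0
  rw [← ps_mul, m4_mul, ps_m4_eq_one] at h
  rw [Ne, ps_m4_eq_one] at h1
  obtain ⟨e1, e2, e3⟩ := h
  by_contra hne
  have hb : b = 0 := by
    have : b * (a + d) = 0 := by linear_combination e1
    exact (mul_eq_zero.1 this).resolve_right hne
  have hc : c = 0 := by
    have : c * (a + d) = 0 := by linear_combination e2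
    exact (mul_eq_zero.1 this).resolve_right hne
  apply h1
  refine ⟨hb, hc, ?_⟩
  have : (a - d) * (a + d) = 0 := by linear_combination e3
  linear_combination (mul_eq_zero.1 this).resolve_right hne

theorem sq_of_tr' {A : Matrix.SpecialLinearGroup (Fin 2) F} (h : A.1 0 0 + A.1 1 1 = 0) : A.1 * A.1 = -1 := by
  obtain ⟨a, b, c, d, hd, rfl⟩ := exists_m4 A
  have h' : a + d = 0 := h
  change !![a, b; c, d] * !![a, b; c, d] = -1
  rw [Matrix.mul_fin_two]
  ext i j
  fin_cases i <;> fin_cases j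
  · simp; linear_combination a * h' - hd
  · simp; linear_combination b * h'
  · simp; linear_combination c * h'
  · simp; linear_combination d * h' - hd

theorem anti_of_tr {A B : Matrix.SpecialLinearGroup (Fin 2) F} (h : A.1 0 0 + A.1 1 1 = 0) (h' : B.1 0 0 + B.1 1 1 = 0)
    (h'' : (A * B).1 0 0 + (A * B).1 1 1 = 0) : A.1 * B.1 = -(B.1 * A.1) := by
  obtain ⟨a, b, c, d, hd, rfl⟩ := exists_m4 A
  obtain ⟨a', b', c', d', hd', rfl⟩ := exists_m4 B
  have e1 : a + d = 0 := h
  have e2 : a' + d' = 0 := h'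
  rw [m4_mul] at h''
  have e3 : (a * a' + b * c') + (c * b' + d * d') = 0 := h''
  change !![a, b; c, d] * !![a', b'; c', d'] = -(!![a', b'; c', d'] * !![a, b; c, d])
  rw [Matrix.mul_fin_two, Matrix.mul_fin_two]
  have ed : d = -a := by linear_combination e1
  have ed' : d' = -a' := by linear_combination e2
  subst ed
  subst ed'
  ext i j
  fin_cases i <;> fin_cases j
  · simp; linear_combination e3
  · simp; ring
  · simp; ring
  · simp; linear_combination e3

/-- the quaternion relations for a pair of commuting involutions -/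
theorem quat_of_kp (h2 : (2 : F) ≠ 0) {A B : Matrix.SpecialLinearGroup (Fin 2) F} (h : KP (ps A) (ps B)) :
    A.1 * A.1 = -1 ∧ B.1 * B.1 = -1 ∧ A.1 * B.1 = -(B.1 * A.1) := by
  have h3 := h.right
  have e1 := tr_of_sq h2 h.1 h.2.2.1
  have e2 := tr_of_sq h2 h.2.1 h.2.2.2.1
  have e3 := tr_of_sq (A := A * B) h2 (by rw [ps_mul]; exact h3.2.1) (by rw [ps_mul]; exact h3.2.2.2.1)
  exact ⟨sq_of_tr' e1, sq_of_tr' e2, anti_of_tr e1 e2 e3⟩

end

section
variable {F : Type u} [Field F] [DecidableEq F]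

theorem gm_conj_of {g : GL (Fin 2) F} {A B : Matrix.SpecialLinearGroup (Fin 2) F}
    (h : (g : Matrix (Fin 2) (Fin 2) F) * A.1 = B.1 * (g : Matrix (Fin 2) (Fin 2) F)) :
    gm F F g * Psi F (ps A) * (gm F F g)⁻¹ = Psi F (ps B) := by
  have h1 : g * Matrix.SpecialLinearGroup.toGL A = Matrix.SpecialLinearGroup.toGL B * g := by
    apply Units.ext
    exact h
  have e1 : Psi F (ps A) = gm F F (Matrix.SpecialLinearGroup.toGL A) := Psi_mk F A
  have e2 : Psi F (ps B) = gm F F (Matrix.SpecialLinearGroup.toGL B) := Psi_mk F B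
  rw [e1, e2, mul_inv_eq_iff_eq_mul, ← map_mul, ← map_mul, h1]

/-- standard pair -/
def x0 {α β : F} (hS : α ^ 2 + β ^ 2 = -1) : ProjectiveSpecialLinearGroup (Fin 2) F := ps (m4 α β β (-α) (by linear_combination (-1) * hS))
def y0 (F : Type u) [Field F] : ProjectiveSpecialLinearGroup (Fin 2) F := ps (m4 (0 : F) 1 (-1) 0 (by ring))

theorem kp0 (h2 : (2 : F) ≠ 0) {α β : F} (hS : α ^ 2 + β ^ 2 = -1) : KP (x0 hS) (y0 F) := by
  have h1 : x0 hS * x0 hS = 1 := by
    apply sq_of_tr
    change α + -α = 0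
    ring
  have h3 : y0 F * y0 F = 1 := by
    apply sq_of_tr
    change (0 : F) + 0 = 0
    ring
  have hne : α ≠ 0 ∨ β ≠ 0 := by
    by_contra h
    push Not at h
    rw [h.1, h.2] at hS
    norm_num at hS
  have h4 : x0 hS ≠ 1 := by
    unfold x0
    rw [Ne, ps_m4_eq_one]
    rintro ⟨h, _, h'⟩
    rcases hne with h5 | h5
    · have : 2 * α = 0 := by linear_combination h'
      exact h5 ((mul_eq_zero.1 this).resolve_left h2)
    · exact h5 h
  have h5 : y0 F ≠ 1 := by
    unfold y0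
    rw [Ne, ps_m4_eq_one]
    rintro ⟨h, _, _⟩
    exact one_ne_zero h
  have h6 : x0 hS * y0 F * (x0 hS * y0 F) = 1 := by
    unfold x0 y0
    rw [← ps_mul, m4_mul]
    apply sq_of_tr
    change (α * 0 + β * -1) + (β * 1 + -α * 0) = 0
    ring
  have h7 : x0 hS * y0 F ≠ 1 := by
    unfold x0 y0
    rw [← ps_mul, m4_mul, Ne, ps_m4_eq_one]
    rintro ⟨h, _, h'⟩
    rcases hne with h5 | h5
    · exact h5 (by linear_combination h)
    · have : 2 * β = 0 := by linear_combination -h'
      exact h5 ((mul_eq_zero.1 this).resolve_left h2)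
  refine ⟨h1, h3, h4, h5, ?_, ?_⟩
  · intro h
    rw [h, h3] at h7
    exact h7 rfl
  · have e1 : x0 hS * y0 F = (x0 hS * y0 F)⁻¹ := (inv_eq_of_mul_eq_one_right h6).symm
    rw [e1, _root_.mul_inv_rev, inv_eq_of_mul_eq_one_right h1, inv_eq_of_mul_eq_one_right h3]

/-- pairs of commuting involutions are conjugate to the standard pair -/
theorem conj_std (h2 : (2 : F) ≠ 0) {α β : F} (hS : α ^ 2 + β ^ 2 = -1) {x y : ProjectiveSpecialLinearGroup (Fin 2) F} (h : KP x y) :
    ∃ g ∈ mob F, g * Psi F (x0 hS) * g⁻¹ = Psi F x ∧ g * Psi F (y0 F) * g⁻¹ = Psi F y := by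
  obtain ⟨A, rfl⟩ := QuotientGroup.mk_surjective x
  obtain ⟨B, rfl⟩ := QuotientGroup.mk_surjective y
  obtain ⟨e1, e2, e3⟩ := quat_of_kp h2 h
  obtain ⟨g, hg1, hg2⟩ := quat_conj h2 hS e1 e2 e3
  exact ⟨gm F F g, gm_range_le ⟨g, rfl⟩, gm_conj_of hg1, gm_conj_of hg2⟩

theorem conj_pair [Finite F] (h2 : (2 : F) ≠ 0) {x y x' y' : ProjectiveSpecialLinearGroup (Fin 2) F} (h : KP x y) (h' : KP x' y') :
    ∃ g ∈ mob F, g * Psi F x * g⁻¹ = Psi F x' ∧ g * Psi F y * g⁻¹ = Psi F y' := by
  obtain ⟨α, β, hS⟩ := exists_ab F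
  obtain ⟨g, hg, h1, h3⟩ := conj_std h2 hS h
  obtain ⟨g', hg', h1', h3'⟩ := conj_std h2 hS h'
  refine ⟨g' * g⁻¹, (mob F).mul_mem hg' ((mob F).inv_mem hg), ?_, ?_⟩
  · rw [← h1, ← h1']; group
  · rw [← h3, ← h3']; group

theorem gm_smul {M N : GL (Fin 2) F} {r : F} (h : (N : Matrix (Fin 2) (Fin 2) F) = r • (M : Matrix (Fin 2) (Fin 2) F)) : gm F F N = gm F F M := by
  rw [← mul_inv_eq_one, ← map_inv, ← map_mul, gm_ker, Subgroup.mem_center_iff]
  have h1 : ((N * M⁻¹ : GL (Fin 2) F) : Matrix (Fin 2) (Fin 2) F) = r • 1 := by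
    rw [Units.val_mul, h, Matrix.smul_mul, ← Units.val_mul, mul_inv_cancel]
    rfl
  intro X
  apply Units.ext
  rw [Units.val_mul X, Units.val_mul _ X, h1]
  simp

theorem exists_smul {M N : GL (Fin 2) F} (h : gm F F M = gm F F N) :
    ∃ r : F, (M : Matrix (Fin 2) (Fin 2) F) = r • (N : Matrix (Fin 2) (Fin 2) F) := by
  rw [← mul_inv_eq_one, ← map_inv, ← map_mul, gm_ker, Matrix.GeneralLinearGroup.center_eq_range_scalar] at h
  obtain ⟨r, hr⟩ := h
  refine ⟨r, ?_⟩
  have h1 : M = Matrix.GeneralLinearGroup.scalar (Fin 2) r * N := by rw [hr, inv_mul_cancel_right]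
  rw [h1, Units.val_mul]
  ext i j
  fin_cases i <;> fin_cases j <;> simp [Matrix.mul_apply, Fin.sum_univ_two]

/-- the centraliser of the standard pair -/
theorem cent_std (h2 : (2 : F) ≠ 0) {α β : F} (hS : α ^ 2 + β ^ 2 = -1) {h : Equiv.Perm (OnePoint F)} (hh : h ∈ mob F)
    (h1 : h * Psi F (x0 hS) = Psi F (x0 hS) * h) (h3 : h * Psi F (y0 F) = Psi F (y0 F) * h) :
    h = 1 ∨ h = Psi F (x0 hS) ∨ h = Psi F (y0 F) ∨ h = Psi F (x0 hS * y0 F) := by
  rw [← pm_self] at hh
  obtain ⟨g, rfl⟩ := hh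
  have e1 : Psi F (x0 hS) = gm F F (Matrix.SpecialLinearGroup.toGL (m4 α β β (-α) (by linear_combination (-1) * hS))) := Psi_mk F _
  have e2 : Psi F (y0 F) = gm F F (Matrix.SpecialLinearGroup.toGL (m4 (0 : F) 1 (-1) 0 (by ring))) := Psi_mk F _
  have e3 : Psi F (x0 hS * y0 F) = gm F F (Matrix.SpecialLinearGroup.toGL (m4 α β β (-α) (by linear_combination (-1) * hS) * m4 (0 : F) 1 (-1) 0 (by ring))) :=
    Psi_mk F _
  rw [e1, ← map_mul, ← map_mul] at h1
  rw [e2, ← map_mul, ← map_mul] at h3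
  obtain ⟨s, hs⟩ := exists_smul h1
  obtain ⟨t, ht⟩ := exists_smul h3
  obtain ⟨a, ha⟩ : ∃ a, a = (g : Matrix (Fin 2) (Fin 2) F) 0 0 := ⟨_, rfl⟩
  obtain ⟨b, hb⟩ : ∃ b, b = (g : Matrix (Fin 2) (Fin 2) F) 0 1 := ⟨_, rfl⟩
  obtain ⟨c, hc⟩ : ∃ c, c = (g : Matrix (Fin 2) (Fin 2) F) 1 0 := ⟨_, rfl⟩
  obtain ⟨d, hd⟩ : ∃ d, d = (g : Matrix (Fin 2) (Fin 2) F) 1 1 := ⟨_, rfl⟩
  have hg : (g : Matrix (Fin 2) (Fin 2) F) = !![a, b; c, d] := by
    ext i j
    fin_cases i <;> fin_cases j <;> simp [ha, hb, hc, hd]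
  have hdet : a * d - b * c ≠ 0 := by
    have := det_ne g
    rwa [← ha, ← hb, ← hc, ← hd] at this
  have hs' : !![a, b; c, d] * !![α, β; β, -α] = s • (!![α, β; β, -α] * !![a, b; c, d]) := by
    rw [Units.val_mul, Units.val_mul, hg] at hs
    exact hs
  have ht' : !![a, b; c, d] * !![0, 1; -1, 0] = t • (!![0, 1; -1, 0] * !![a, b; c, d]) := by
    rw [Units.val_mul, Units.val_mul, hg] at ht
    exact ht
  have hsd := congrArg Matrix.det hs'
  have htd := congrArg Matrix.det ht'
  rw [Matrix.det_mul, Matrix.det_smul, Matrix.det_mul, Matrix.det_fin_two_of, Matrix.det_fin_two_of, Fintype.card_fin] at hsd htd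
  rw [Matrix.mul_fin_two, Matrix.mul_fin_two] at hs' ht'
  have s00 : a * α + b * β = s * (α * a + β * c) := congrFun (congrFun hs' 0) 0
  have s01 : a * β + b * -α = s * (α * b + β * d) := congrFun (congrFun hs' 0) 1
  have t00 : a * 0 + b * -1 = t * (0 * a + 1 * c) := congrFun (congrFun ht' 0) 0
  have t01 : a * 1 + b * 0 = t * (0 * b + 1 * d) := congrFun (congrFun ht' 0) 1
  -- the scalars are signs
  have hs1 : s = 1 ∨ s = -1 := by
    have h4 : (s - 1) * (s + 1) * (a * d - b * c) = 0 := by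
      linear_combination (-1) * hsd + (a * d - b * c) * (s ^ 2 - 1) * hS
    rcases mul_eq_zero.1 ((mul_eq_zero.1 h4).resolve_right hdet) with h5 | h5
    · left; linear_combination h5
    · right; linear_combination h5
  have ht1 : t = 1 ∨ t = -1 := by
    have h4 : (t - 1) * (t + 1) * (a * d - b * c) = 0 := by linear_combination (-1) * htd
    rcases mul_eq_zero.1 ((mul_eq_zero.1 h4).resolve_right hdet) with h5 | h5
    · left; linear_combination h5
    · right; linear_combination h5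
  have hz : ∀ u : F, u * α = 0 → u * β = 0 → u = 0 := by
    intro u h5 h6
    linear_combination u * hS - α * h5 - β * h6
  rcases ht1 with rfl | rfl
  · have ed : d = a := by linear_combination -t01
    have ec : c = -b := by linear_combination -t00
    subst ed
    subst ec
    rcases hs1 with rfl | rfl
    · left
      have hb0 : b = 0 := by
        apply hz
        · have : 2 * (b * α) = 0 := by linear_combination -s01
          exact (mul_eq_zero.1 this).resolve_left h2
        · have : 2 * (b * β) = 0 := by linear_combination s00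
          exact (mul_eq_zero.1 this).resolve_left h2
      rw [← map_one (gm F F)]
      apply gm_smul (r := d)
      rw [hg, hb0]
      ext i j
      fin_cases i <;> fin_cases j <;> simp
    · right; right; left
      have ha0 : d = 0 := by
        apply hz
        · have : 2 * (d * α) = 0 := by linear_combination s00
          exact (mul_eq_zero.1 this).resolve_left h2
        · have : 2 * (d * β) = 0 := by linear_combination s01
          exact (mul_eq_zero.1 this).resolve_left h2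
      rw [e2]
      apply gm_smul (r := b)
      rw [hg, ha0]
      change _ = b • !![(0 : F), 1; -1, 0]
      ext i j
      fin_cases i <;> fin_cases j <;> simp
  · have ed : d = -a := by linear_combination t01
    have ec : c = b := by linear_combination t00
    subst ed
    subst ec
    rcases hs1 with rfl | rfl
    · right; left
      have hab : a * β = c * α := by
        have : 2 * (a * β - c * α) = 0 := by linear_combination s01
        linear_combination (mul_eq_zero.1 this).resolve_left h2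
      rw [e1]
      apply gm_smul (r := -(a * α + c * β))
      rw [hg]
      change _ = -(a * α + c * β) • !![α, β; β, -α]
      ext i j
      fin_cases i <;> fin_cases j
      · simp; linear_combination a * hS - β * hab
      · simp; linear_combination c * hS + α * hab
      · simp; linear_combination c * hS + α * hab
      · simp; linear_combination a * hS - β * hab
    · right; right; right
      have hab : a * α + c * β = 0 := by
        have : 2 * (a * α + c * β) = 0 := by linear_combination s00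
        exact (mul_eq_zero.1 this).resolve_left h2
      rw [e3]
      apply gm_smul (r := a * β - c * α)
      rw [hg, map_mul, Units.val_mul]
      change _ = (a * β - c * α) • (!![α, β; β, -α] * !![(0 : F), 1; -1, 0])
      rw [Matrix.mul_fin_two]
      ext i j
      fin_cases i <;> fin_cases j
      · simp; linear_combination a * hS - α * hab
      · simp; linear_combination c * hS - β * hab
      · simp; linear_combination c * hS - β * hab
      · simp; linear_combination (-a) * hS + α * hab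

/-- the centraliser of a pair in `PGL(2,q)` is the four-group -/
theorem cent_pair [Finite F] (h2 : (2 : F) ≠ 0) {x y : ProjectiveSpecialLinearGroup (Fin 2) F} (h : KP x y) {g : Equiv.Perm (OnePoint F)} (hg : g ∈ mob F)
    (h1 : g * Psi F x * g⁻¹ = Psi F x) (h3 : g * Psi F y * g⁻¹ = Psi F y) : ∃ z ∈ kv h, g = Psi F z := by
  obtain ⟨α, β, hS⟩ := exists_ab F
  obtain ⟨k, hk, e1, e2⟩ := conj_std h2 hS h
  have hk1 : k⁻¹ * g * k ∈ mob F := (mob F).mul_mem ((mob F).mul_mem ((mob F).inv_mem hk) hg) hk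
  have c1 : k⁻¹ * g * k * Psi F (x0 hS) = Psi F (x0 hS) * (k⁻¹ * g * k) := by
    have : Psi F (x0 hS) = k⁻¹ * Psi F x * k := by rw [← e1]; group
    rw [this]
    calc k⁻¹ * g * k * (k⁻¹ * Psi F x * k) = k⁻¹ * (g * Psi F x * g⁻¹) * g * k := by group
      _ = k⁻¹ * Psi F x * k * (k⁻¹ * g * k) := by rw [h1]; group
  have c2 : k⁻¹ * g * k * Psi F (y0 F) = Psi F (y0 F) * (k⁻¹ * g * k) := by
    have : Psi F (y0 F) = k⁻¹ * Psi F y * k := by rw [← e2]; group
    rw [this]
    calc k⁻¹ * g * k * (k⁻¹ * Psi F y * k) = k⁻¹ * (g * Psi F y * g⁻¹) * g * k := by group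
      _ = k⁻¹ * Psi F y * k * (k⁻¹ * g * k) := by rw [h3]; group
  have hgk : g = k * (k⁻¹ * g * k) * k⁻¹ := by group
  rcases cent_std h2 hS hk1 c1 c2 with h4 | h4 | h4 | h4
  · refine ⟨1, (kv h).one_mem, ?_⟩
    rw [hgk, h4, map_one]; group
  · refine ⟨x, by rw [mem_kv]; simp, ?_⟩
    rw [hgk, h4, e1]
  · refine ⟨y, by rw [mem_kv]; simp, ?_⟩
    rw [hgk, h4, e2]
  · refine ⟨x * y, by rw [mem_kv]; simp, ?_⟩
    rw [hgk, h4, map_mul, map_mul, ← e1, ← e2]; group

theorem sm_conj {g s : Equiv.Perm (OnePoint F)} (hg : g ∈ mob F) (hs : s ∈ sm F F) : g * s * g⁻¹ ∈ sm F F := by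
  rw [← pm_self] at hg
  obtain ⟨M, rfl⟩ := hg
  obtain ⟨A, rfl⟩ := hs
  rw [MonoidHom.comp_apply, ← map_inv, ← map_mul, ← map_mul]
  apply gm_mem_sm_of_isSquare
  refine ⟨1, ?_⟩
  rw [Units.val_mul, Units.val_mul, Matrix.det_mul, Matrix.det_mul]
  have h1 : Matrix.det ((Matrix.SpecialLinearGroup.toGL A : GL (Fin 2) F) : Matrix (Fin 2) (Fin 2) F) = 1 := A.2
  rw [h1, mul_one, mul_one, ← Matrix.det_mul, ← Units.val_mul, mul_inv_cancel]
  simp

theorem cj_sm {g : Equiv.Perm (OnePoint F)} (hg : g ∈ mob F) : cj g (sm F F) = sm F F := by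
  ext s
  rw [mem_cj]
  constructor
  · intro h
    have := sm_conj hg h
    rwa [show g * (g⁻¹ * s * g) * g⁻¹ = s by group] at this
  · intro h
    have := sm_conj ((mob F).inv_mem hg) h
    rwa [inv_inv] at this

/-- the conjugate of an element of `PSL` by an element of `PGL` -/
theorem exists_conj {g : Equiv.Perm (OnePoint F)} (hg : g ∈ mob F) (z : ProjectiveSpecialLinearGroup (Fin 2) F) :
    ∃ w, Psi F w = g * Psi F z * g⁻¹ := by
  have h1 := sm_conj hg (Psi_mem F z)
  rw [← Psi_range] at h1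
  exact h1

theorem kp_conj {g : Equiv.Perm (OnePoint F)} {x y x' y' : ProjectiveSpecialLinearGroup (Fin 2) F} (h : KP x y)
    (hx : Psi F x' = g * Psi F x * g⁻¹) (hy : Psi F y' = g * Psi F y * g⁻¹) : KP x' y' := by
  apply KP.of_map (Psi F) (Psi_injective F)
  rw [hx, hy]
  exact (h.map (Psi F) (Psi_injective F)).map (MulAut.conj g).toMonoidHom (MulAut.conj g).injective

/-- Klein four-groups of `PSL(2,q)` -/
theorem card_kp [Finite F] (h2 : (2 : F) ≠ 0) : Nat.card (mob F) =
    4 * Nat.card {q : ProjectiveSpecialLinearGroup (Fin 2) F × ProjectiveSpecialLinearGroup (Fin 2) F // KP q.1 q.2} := by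
  classical
  haveI : Finite (OnePoint F) := inferInstanceAs (Finite (Option F))
  haveI : Finite (Equiv.Perm (OnePoint F)) := inferInstance
  haveI : Finite (ProjectiveSpecialLinearGroup (Fin 2) F) := Finite.of_injective _ (Psi_injective F)
  obtain ⟨α, β, hS⟩ := exists_ab F
  have h0 := kp0 h2 hS
  -- conjugation of a pair
  have hex : ∀ g : mob F, ∃ q : {q : ProjectiveSpecialLinearGroup (Fin 2) F × ProjectiveSpecialLinearGroup (Fin 2) F // KP q.1 q.2},
      Psi F q.1.1 = (g : Equiv.Perm (OnePoint F)) * Psi F (x0 hS) * (g : Equiv.Perm (OnePoint F))⁻¹ ∧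
      Psi F q.1.2 = (g : Equiv.Perm (OnePoint F)) * Psi F (y0 F) * (g : Equiv.Perm (OnePoint F))⁻¹ := by
    intro g
    obtain ⟨x, hx⟩ := exists_conj g.2 (x0 hS)
    obtain ⟨y, hy⟩ := exists_conj g.2 (y0 F)
    exact ⟨⟨(x, y), kp_conj h0 hx hy⟩, hx, hy⟩
  choose f hf1 hf2 using hex
  haveI : Fintype {q : ProjectiveSpecialLinearGroup (Fin 2) F × ProjectiveSpecialLinearGroup (Fin 2) F // KP q.1 q.2} := Fintype.ofFinite _
  rw [Nat.card_congr (Equiv.sigmaFiberEquiv f).symm, Nat.card_sigma]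
  have h4 : ∀ q, Nat.card {g : mob F // f g = q} = 4 := by
    rintro ⟨⟨x, y⟩, hq⟩
    obtain ⟨g0, hg0, e1, e2⟩ := conj_std h2 hS hq
    rw [← kv_card h0]
    symm
    have hz : ∀ z : kv h0, f ⟨g0 * Psi F z, (mob F).mul_mem hg0 (Psi_mem_mob F _)⟩ = ⟨(x, y), hq⟩ := by
      rintro ⟨z, hz⟩
      have c1 : z * x0 hS = x0 hS * z := klein_comm (kv_klein h0) hz (by rw [mem_kv]; simp)
      have c2 : z * y0 F = y0 F * z := klein_comm (kv_klein h0) hz (by rw [mem_kv]; simp)
      apply Subtype.ext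
      apply Prod.ext
      · apply Psi_injective F
        rw [hf1]
        change g0 * Psi F z * Psi F (x0 hS) * (g0 * Psi F z)⁻¹ = Psi F x
        rw [← e1]
        calc g0 * Psi F z * Psi F (x0 hS) * (g0 * Psi F z)⁻¹ = g0 * (Psi F z * Psi F (x0 hS)) * (Psi F z)⁻¹ * g0⁻¹ := by group
          _ = g0 * Psi F (x0 hS) * g0⁻¹ := by rw [← map_mul, c1, map_mul]; group
      · apply Psi_injective F
        rw [hf2]
        change g0 * Psi F z * Psi F (y0 F) * (g0 * Psi F z)⁻¹ = Psi F y
        rw [← e2]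
        calc g0 * Psi F z * Psi F (y0 F) * (g0 * Psi F z)⁻¹ = g0 * (Psi F z * Psi F (y0 F)) * (Psi F z)⁻¹ * g0⁻¹ := by group
          _ = g0 * Psi F (y0 F) * g0⁻¹ := by rw [← map_mul, c2, map_mul]; group
    apply Nat.card_eq_of_bijective (fun z : kv h0 => (⟨_, hz z⟩ : {g : mob F // f g = ⟨(x, y), hq⟩}))
    constructor
    · intro z w h
      have h5 : g0 * Psi F z = g0 * Psi F w := congrArg (fun t : {g : mob F // f g = ⟨(x, y), hq⟩} => ((t.1 : mob F) : Equiv.Perm (OnePoint F))) h
      exact Subtype.ext (Psi_injective F (mul_left_cancel h5))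
    · rintro ⟨⟨g, hg⟩, hfg⟩
      have a1 := hf1 ⟨g, hg⟩
      have a2 := hf2 ⟨g, hg⟩
      rw [hfg] at a1 a2
      change Psi F x = g * Psi F (x0 hS) * g⁻¹ at a1
      change Psi F y = g * Psi F (y0 F) * g⁻¹ at a2
      obtain ⟨z, hz', hz2⟩ := cent_pair h2 h0 (g := g0⁻¹ * g) ((mob F).mul_mem ((mob F).inv_mem hg0) hg)
        (by
          have : Psi F (x0 hS) = g0⁻¹ * Psi F x * g0 := by rw [← e1]; group
          conv_rhs => rw [this, a1]
          group)
        (by
          have : Psi F (y0 F) = g0⁻¹ * Psi F y * g0 := by rw [← e2]; group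
          conv_rhs => rw [this, a2]
          group)
      refine ⟨⟨z, hz'⟩, ?_⟩
      apply Subtype.ext
      apply Subtype.ext
      change g0 * Psi F z = g
      rw [← hz2]; group
  rw [Finset.sum_congr rfl (fun q _ => h4 q), Finset.sum_const, smul_eq_mul, Finset.card_univ, Nat.card_eq_fintype_card, mul_comm]

/-- twelve times the number of four-groups -/
theorem twelve [Finite F] (hodd : Odd (Nat.card F)) (h2 : (2 : F) ≠ 0) :
    12 * Nat.card {V : Subgroup (ProjectiveSpecialLinearGroup (Fin 2) F) // IsKleinFour V} = Nat.card (ProjectiveSpecialLinearGroup (Fin 2) F) := by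
  haveI : Finite (OnePoint F) := inferInstanceAs (Finite (Option F))
  haveI : Finite (Equiv.Perm (OnePoint F)) := inferInstance
  haveI : Finite (ProjectiveSpecialLinearGroup (Fin 2) F) := Finite.of_injective _ (Psi_injective F)
  have h1 := card_kp h2
  rw [card_pairs, ← pm_self, card_pm, ← card_PSL F, gcd_two_odd hodd] at h1
  omega

end

end CfsgLib.Mob32
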