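import Mathlib
import Cfsg.Agent.Lib.Mob32

set_option autoImplicit false
set_option maxHeartbeats 400000

/-! Conjugacy of four-groups in `PSL(2,q)`. -/
namespace CfsgLib.Mob33

open OnePoint Matrix CfsgLib.Mob3 CfsgLib.Mob4 CfsgLib.Mob5 CfsgLib.Mob10 CfsgLib.Mob12 CfsgLib.Mob13 CfsgLib.Mob16 CfsgLib.Mob18 CfsgLib.Mob20 CfsgLib.Mob22 CfsgLib.Mob24 CfsgLib.Mob31 CfsgLib.Mob32

universe u v w

theorem two_ne {F : Type u} [Field F] [Finite F] (hodd : Odd (Nat.card F)) : (2 : F) ≠ 0 := by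
  obtain ⟨p, n, hp, hc, hn, hpn⟩ := exists_pn F
  have hp2 : p ≠ 2 := by
    rintro rfl
    exact (Nat.not_even_iff_odd.2 hodd) even_of_two
  exact two_ne_zero_of p hp2

section
variable {F : Type u} [Field F] [DecidableEq F]

theorem mem_sm_iff (M : GL (Fin 2) F) : gm F F M ∈ sm F F ↔ IsSquare (Matrix.det (M : Matrix (Fin 2) (Fin 2) F)) := by
  constructor
  · rintro ⟨A, hA⟩
    rw [MonoidHom.comp_apply] at hA
    obtain ⟨r, hr⟩ := exists_smul hA.symm
    refine ⟨r, ?_⟩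
    rw [hr, Matrix.det_smul, Fintype.card_fin]
    have h1 : Matrix.det ((Matrix.SpecialLinearGroup.toGL A : GL (Fin 2) F) : Matrix (Fin 2) (Fin 2) F) = 1 := A.2
    rw [h1, mul_one, pow_two]
  · exact gm_mem_sm_of_isSquare M

theorem mul_mem_of_not [Finite F] {g h : Equiv.Perm (OnePoint F)} (hg : g ∈ mob F) (hh : h ∈ mob F) (hg' : g ∉ sm F F) (hh' : h ∉ sm F F) :
    g * h ∈ sm F F := by
  rw [← pm_self] at hg hh
  obtain ⟨M, rfl⟩ := hg
  obtain ⟨N, rfl⟩ := hh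
  rw [← map_mul, mem_sm_iff, Units.val_mul, Matrix.det_mul]
  rw [mem_sm_iff] at hg' hh'
  exact isSquare_mul_of_not hg' hh'

theorem exists_not_sm [Finite F] (hodd : Odd (Nat.card F)) : ∃ t ∈ mob F, t ∉ sm F F := by
  by_contra hcon
  push Not at hcon
  have h1 : mob F = sm F F := le_antisymm hcon (sm_le_pm.trans gm_range_le)
  have h2 := card_sm (F := F)
  have h3 := card_pm (F := F)
  rw [pm_self, h1] at h3
  rw [gcd_two_odd hodd, ← h3] at h2
  haveI : Finite (OnePoint F) := inferInstanceAs (Finite (Option F))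
  haveI : Finite (Equiv.Perm (OnePoint F)) := inferInstance
  have h4 : 0 < Nat.card (sm F F) := Nat.card_pos
  omega

/-- conjugation of pairs -/
def CP (g : Equiv.Perm (OnePoint F)) (x y x' y' : ProjectiveSpecialLinearGroup (Fin 2) F) : Prop :=
  Psi F x' = g * Psi F x * g⁻¹ ∧ Psi F y' = g * Psi F y * g⁻¹

theorem CP.mul {g h : Equiv.Perm (OnePoint F)} {x y x' y' x'' y'' : ProjectiveSpecialLinearGroup (Fin 2) F}
    (h1 : CP g x y x' y') (h2 : CP h x' y' x'' y'') : CP (h * g) x y x'' y'' := by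
  refine ⟨?_, ?_⟩
  · rw [h2.1, h1.1]; group
  · rw [h2.2, h1.2]; group

theorem CP.inv {g : Equiv.Perm (OnePoint F)} {x y x' y' : ProjectiveSpecialLinearGroup (Fin 2) F}
    (h1 : CP g x y x' y') : CP g⁻¹ x' y' x y := by
  refine ⟨?_, ?_⟩
  · rw [h1.1]; group
  · rw [h1.2]; group

theorem exists_cp [Finite F] (h2 : (2 : F) ≠ 0) {x y x' y' : ProjectiveSpecialLinearGroup (Fin 2) F} (h : KP x y) (h' : KP x' y') :
    ∃ g ∈ mob F, CP g x y x' y' := by
  obtain ⟨g, hg, h1, h3⟩ := conj_pair h2 h h'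
  exact ⟨g, hg, h1.symm, h3.symm⟩

/-- an element swapping a pair, with determinant `2` -/
theorem exists_swap [Finite F] (h2 : (2 : F) ≠ 0) {x y : ProjectiveSpecialLinearGroup (Fin 2) F} (h : KP x y) :
    ∃ s ∈ mob F, CP s x y y x ∧ (s ∈ sm F F ↔ IsSquare (2 : F)) := by
  obtain ⟨α, β, hS⟩ := exists_ab F
  have hdet : Matrix.det !![α, β + 1; β - 1, -α] = 2 := by
    rw [Matrix.det_fin_two_of]; linear_combination (-1) * hS
  have hdet' : Matrix.det !![α, β + 1; β - 1, -α] ≠ 0 := by rw [hdet]; exact h2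
  obtain ⟨k, hk, e1, e2⟩ := conj_std h2 hS h
  have c1 : gm F F (Matrix.GeneralLinearGroup.mkOfDetNeZero _ hdet') * Psi F (x0 hS) * (gm F F (Matrix.GeneralLinearGroup.mkOfDetNeZero _ hdet'))⁻¹ = Psi F (y0 F) := by
    apply gm_conj_of
    change !![α, β + 1; β - 1, -α] * !![α, β; β, -α] = !![(0 : F), 1; -1, 0] * !![α, β + 1; β - 1, -α]
    rw [Matrix.mul_fin_two, Matrix.mul_fin_two]
    ext i j
    fin_cases i <;> fin_cases j
    · simp; linear_combination hS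
    · simp; ring
    · simp; ring
    · simp; linear_combination hS
  have c2 : gm F F (Matrix.GeneralLinearGroup.mkOfDetNeZero _ hdet') * Psi F (y0 F) * (gm F F (Matrix.GeneralLinearGroup.mkOfDetNeZero _ hdet'))⁻¹ = Psi F (x0 hS) := by
    apply gm_conj_of
    change !![α, β + 1; β - 1, -α] * !![(0 : F), 1; -1, 0] = !![α, β; β, -α] * !![α, β + 1; β - 1, -α]
    rw [Matrix.mul_fin_two, Matrix.mul_fin_two]
    ext i j
    fin_cases i <;> fin_cases j
    · simp; linear_combination (-1) * hS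
    · simp; ring
    · simp; ring
    · simp; linear_combination (-1) * hS
  have hm : gm F F (Matrix.GeneralLinearGroup.mkOfDetNeZero _ hdet') ∈ mob F := gm_range_le ⟨_, rfl⟩
  have hsq : gm F F (Matrix.GeneralLinearGroup.mkOfDetNeZero _ hdet') ∈ sm F F ↔ IsSquare (2 : F) := by
    rw [mem_sm_iff]
    change IsSquare (Matrix.det !![α, β + 1; β - 1, -α]) ↔ _
    rw [hdet]
  generalize gm F F (Matrix.GeneralLinearGroup.mkOfDetNeZero _ hdet') = s at c1 c2 hm hsq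
  refine ⟨k * s * k⁻¹, (mob F).mul_mem ((mob F).mul_mem hk hm) ((mob F).inv_mem hk), ⟨?_, ?_⟩, ?_⟩
  · rw [← e1, ← e2, ← c1]; group
  · rw [← e1, ← e2, ← c2]; group
  · rw [← hsq]
    constructor
    · intro h3
      have := sm_conj ((mob F).inv_mem hk) h3
      rwa [show k⁻¹ * (k * s * k⁻¹) * k⁻¹⁻¹ = s by group] at this
    · exact sm_conj hk

/-- all permutations of a four-group by elements of `PSL` when `2` is a square -/
theorem cp_in [Finite F] (h2 : (2 : F) ≠ 0) (hsq : IsSquare (2 : F)) {x y x' y' : ProjectiveSpecialLinearGroup (Fin 2) F} (h : KP x y) (h' : KP x' y')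
    (hx : x' ∈ kv h) (hy : y' ∈ kv h) : ∃ t ∈ sm F F, CP t x y x' y' := by
  have R1 : ∀ x y : ProjectiveSpecialLinearGroup (Fin 2) F, KP x y → ∃ t ∈ sm F F, CP t x y y x := by
    intro x y h
    obtain ⟨s, _, h1, h3⟩ := exists_swap h2 h
    exact ⟨s, h3.2 hsq, h1⟩
  have R2 : ∀ x y : ProjectiveSpecialLinearGroup (Fin 2) F, KP x y → ∃ t ∈ sm F F, CP t x y x (x * y) := by
    intro x y h
    have h3 : KP y (x * y) := by rw [h.2.2.2.2.2]; exact h.symm.right
    obtain ⟨t, ht, h4, h5⟩ := R1 y (x * y) h3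
    refine ⟨t, ht, ?_, h4⟩
    have e : y * (x * y) = x := by rw [h.2.2.2.2.2, ← mul_assoc, h.2.1, one_mul]
    have e' : x * y * y = x := by rw [mul_assoc, h.2.1, mul_one]
    calc Psi F x = Psi F (x * y) * Psi F y := by rw [← map_mul, e']
      _ = (t * Psi F y * t⁻¹) * (t * Psi F (x * y) * t⁻¹) := by rw [← h4, ← h5]
      _ = t * Psi F x * t⁻¹ := by
        rw [show t * Psi F y * t⁻¹ * (t * Psi F (x * y) * t⁻¹) = t * (Psi F y * Psi F (x * y)) * t⁻¹ by group, ← map_mul, e]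
  have T : ∀ {x y x' y' x'' y'' : ProjectiveSpecialLinearGroup (Fin 2) F}, (∃ t ∈ sm F F, CP t x y x' y') → (∃ t ∈ sm F F, CP t x' y' x'' y'') →
      ∃ t ∈ sm F F, CP t x y x'' y'' := by
    rintro x y x' y' x'' y'' ⟨t, ht, h1⟩ ⟨s, hs, h3⟩
    exact ⟨s * t, (sm F F).mul_mem hs ht, h1.mul h3⟩
  have hr := h.right
  have hyx : y * x = x * y := h.2.2.2.2.2.symm
  rcases hx with hx | hx | hx | hx
  · exact absurd hx h'.2.2.1
  · rcases hy with hy | hy | hy | hy
    · exact absurd hy h'.2.2.2.1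
    · exact absurd (hx.trans hy.symm) h'.2.2.2.2.1
    · subst hx; subst hy
      exact ⟨1, (sm F F).one_mem, by group, by group⟩
    · subst hx; subst hy
      exact R2 _ _ h
  · rcases hy with hy | hy | hy | hy
    · exact absurd hy h'.2.2.2.1
    · subst hx; subst hy
      exact R1 _ _ h
    · exact absurd (hx.trans hy.symm) h'.2.2.2.2.1
    · subst hx; subst hy
      have := R2 _ _ h.symm
      rw [hyx] at this
      exact T (R1 _ _ h) this
  · rcases hy with hy | hy | hy | hy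
    · exact absurd hy h'.2.2.2.1
    · subst hx; subst hy
      exact T (R2 _ _ h) (R1 _ _ hr)
    · subst hx; subst hy
      have h6 := R2 _ _ h.symm
      rw [hyx] at h6
      have h7 : KP y' (x * y') := by rw [← hyx]; exact h.symm.right
      exact T (T (R1 _ _ h) h6) (R1 _ _ h7)
    · exact absurd (hx.trans hy.symm) h'.2.2.2.2.1

/-- conjugate pairs give conjugate four-groups -/
theorem map_of_cp {γ x y x' y' : ProjectiveSpecialLinearGroup (Fin 2) F} (h : KP x y) (h' : KP x' y') (hc : CP (Psi F γ) x y x' y') :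
    kv h' = (kv h).map (MulAut.conj γ).toMonoidHom := by
  rw [kv_map h _ (MulAut.conj γ).injective]
  have e1 : x' = γ * x * γ⁻¹ := Psi_injective F (by rw [hc.1, map_mul, map_mul, map_inv])
  have e2 : y' = γ * y * γ⁻¹ := Psi_injective F (by rw [hc.2, map_mul, map_mul, map_inv])
  subst e1
  subst e2
  rfl

theorem exists_gamma {g : Equiv.Perm (OnePoint F)} (hg : g ∈ sm F F) : ∃ γ, Psi F γ = g := by
  rw [← Psi_range] at hg
  exact hg

theorem classes_one [Finite F] (hodd : Odd (Nat.card F)) (hnsq : ¬ IsSquare (2 : F)) {V W : Subgroup (ProjectiveSpecialLinearGroup (Fin 2) F)}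
    (hV : IsKleinFour V) (hW : IsKleinFour W) : ∃ g, W = V.map (MulAut.conj g).toMonoidHom := by
  have h2 := two_ne hodd
  obtain ⟨x, y, h, rfl⟩ := klein_iff.1 hV
  obtain ⟨x', y', h', rfl⟩ := klein_iff.1 hW
  obtain ⟨g, hg, hc⟩ := exists_cp h2 h h'
  by_cases hgs : g ∈ sm F F
  · obtain ⟨γ, rfl⟩ := exists_gamma hgs
    exact ⟨γ, map_of_cp h h' hc⟩
  · obtain ⟨s, hs, hsc, hss⟩ := exists_swap h2 h
    have hs' : s ∉ sm F F := fun hx => hnsq (hss.1 hx)
    obtain ⟨γ, hγ⟩ := exists_gamma (mul_mem_of_not hg hs hgs hs')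
    refine ⟨γ, ?_⟩
    -- γ maps (y, x) to (x', y')
    have h3 : CP s y x x y := ⟨hsc.2, hsc.1⟩
    have h4 := map_of_cp h.symm h' (γ := γ) (by rw [hγ]; exact h3.mul hc)
    rw [h4]
    congr 1
    exact (klein_eq (kv_klein h.symm) (by rw [mem_kv]; simp) (by rw [mem_kv]; simp) h)

theorem classes_two [Finite F] (hodd : Odd (Nat.card F)) (hsq : IsSquare (2 : F)) :
    ∃ V₁ V₂ : Subgroup (ProjectiveSpecialLinearGroup (Fin 2) F), IsKleinFour V₁ ∧ IsKleinFour V₂ ∧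
      (¬ ∃ g : ProjectiveSpecialLinearGroup (Fin 2) F, V₂ = V₁.map (MulAut.conj g).toMonoidHom) ∧
      ∀ W : Subgroup (ProjectiveSpecialLinearGroup (Fin 2) F), IsKleinFour W →
        (∃ g : ProjectiveSpecialLinearGroup (Fin 2) F, W = V₁.map (MulAut.conj g).toMonoidHom) ∨
        (∃ g : ProjectiveSpecialLinearGroup (Fin 2) F, W = V₂.map (MulAut.conj g).toMonoidHom) := by
  have h2 := two_ne hodd
  obtain ⟨α, β, hS⟩ := exists_ab F
  have h0 := kp0 h2 hS
  obtain ⟨t, ht, hts⟩ := exists_not_sm hodd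
  obtain ⟨x₂, hx₂⟩ := exists_conj ht (x0 hS)
  obtain ⟨y₂, hy₂⟩ := exists_conj ht (y0 F)
  have hk2 := kp_conj h0 hx₂ hy₂
  have hct : CP t (x0 hS) (y0 F) x₂ y₂ := ⟨hx₂, hy₂⟩
  refine ⟨kv h0, kv hk2, kv_klein h0, kv_klein hk2, ?_, ?_⟩
  · rintro ⟨γ, hγ⟩
    -- γ⁻¹ t normalises the four-group
    have hx' : γ⁻¹ * x₂ * γ ∈ kv h0 := by
      have h3 : x₂ ∈ kv hk2 := by rw [mem_kv]; simp
      rw [hγ] at h3
      obtain ⟨z, hz, hz2⟩ := h3
      have h4 : γ * z * γ⁻¹ = x₂ := hz2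
      rw [← h4]
      have : γ⁻¹ * (γ * z * γ⁻¹) * γ = z := by group
      rw [this]; exact hz
    have hy' : γ⁻¹ * y₂ * γ ∈ kv h0 := by
      have h3 : y₂ ∈ kv hk2 := by rw [mem_kv]; simp
      rw [hγ] at h3
      obtain ⟨z, hz, hz2⟩ := h3
      have h4 : γ * z * γ⁻¹ = y₂ := hz2
      rw [← h4]
      have : γ⁻¹ * (γ * z * γ⁻¹) * γ = z := by group
      rw [this]; exact hz
    have hc1 : CP (Psi F γ)⁻¹ x₂ y₂ (γ⁻¹ * x₂ * γ) (γ⁻¹ * y₂ * γ) := by
      refine ⟨?_, ?_⟩ <;> rw [map_mul, map_mul, map_inv, inv_inv]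
    have hc2 := hct.mul hc1
    have hk3 : KP (γ⁻¹ * x₂ * γ) (γ⁻¹ * y₂ * γ) := kp_conj h0 hc2.1 hc2.2
    obtain ⟨s, hs, hsc⟩ := cp_in h2 hsq h0 hk3 hx' hy'
    -- s⁻¹ (γ⁻¹ t) centralises the pair
    have hc3 := hc2.mul hsc.inv
    have hm : s⁻¹ * ((Psi F γ)⁻¹ * t) ∈ mob F :=
      (mob F).mul_mem ((mob F).inv_mem ((sm_le_pm.trans gm_range_le) hs)) ((mob F).mul_mem ((mob F).inv_mem (Psi_mem_mob F γ)) ht)
    obtain ⟨z, _, hz⟩ := cent_pair h2 h0 hm hc3.1.symm hc3.2.symm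
    apply hts
    have : t = Psi F γ * s * (s⁻¹ * ((Psi F γ)⁻¹ * t)) := by group
    rw [this, hz]
    exact (sm F F).mul_mem ((sm F F).mul_mem (Psi_mem F γ) hs) (Psi_mem F z)
  · intro W hW
    obtain ⟨x', y', h', rfl⟩ := klein_iff.1 hW
    obtain ⟨g, hg, hc⟩ := exists_cp h2 h0 h'
    by_cases hgs : g ∈ sm F F
    · left
      obtain ⟨γ, rfl⟩ := exists_gamma hgs
      exact ⟨γ, map_of_cp h0 h' hc⟩
    · right
      have ht' : t⁻¹ ∉ sm F F := fun h => hts (by rw [← inv_inv t]; exact (sm F F).inv_mem h)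
      obtain ⟨γ, hγ⟩ := exists_gamma (mul_mem_of_not hg ((mob F).inv_mem ht) hgs ht')
      refine ⟨γ, map_of_cp hk2 h' ?_⟩
      rw [hγ]
      exact hct.inv.mul hc

end

end CfsgLib.Mob33
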