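import Mathlib
import Cfsg.Agent.Lib.Mob33

set_option autoImplicit false
set_option maxHeartbeats 400000

/-! Subgroups of order four of `SL(2,q)`; conjugacy of involutions of `PSL(2,q)`. -/
namespace CfsgLib.Mob34

open OnePoint Matrix CfsgLib.Mob3 CfsgLib.Mob4 CfsgLib.Mob5 CfsgLib.Mob10 CfsgLib.Mob12 CfsgLib.Mob13 CfsgLib.Mob16 CfsgLib.Mob18 CfsgLib.Mob20 CfsgLib.Mob22 CfsgLib.Mob24 CfsgLib.Mob31 CfsgLib.Mob32 CfsgLib.Mob33

universe u v w

section
variable {F : Type u} [Field F]

theorem sum_sq [Finite F] (h2 : (2 : F) ≠ 0) (c : F) : ∃ a b : F, a ^ 2 + b ^ 2 = c := by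
  classical
  haveI : Fintype F := Fintype.ofFinite F
  have hodd : Fintype.card F % 2 = 1 := by
    by_contra hne
    obtain ⟨p, n, hp, hc, hn, hpn⟩ := exists_pn F
    by_cases hp2 : p = 2
    · subst hp2
      apply h2
      exact_mod_cast CharP.cast_eq_zero F 2
    · have := odd_of_ne_two (F := F) p hp2
      rw [Nat.card_eq_fintype_card] at this
      obtain ⟨k, hk⟩ := this
      omega
  obtain ⟨a, b, h⟩ := FiniteField.exists_root_sum_quadratic (f := (Polynomial.X ^ 2 : Polynomial F)) (g := Polynomial.X ^ 2 - Polynomial.C c)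
    (Polynomial.degree_X_pow 2) (Polynomial.degree_X_pow_sub_C (by norm_num) c) hodd
  refine ⟨a, b, ?_⟩
  simp at h
  linear_combination h

/-- elements of trace zero are conjugate in `SL(2,F)` to the standard one -/
theorem conj_J [Finite F] (h2 : (2 : F) ≠ 0) {A : Matrix.SpecialLinearGroup (Fin 2) F} (h : A.1 0 0 + A.1 1 1 = 0) :
    ∃ g : Matrix.SpecialLinearGroup (Fin 2) F, g * m4 0 (-1) 1 0 (by ring) = A * g := by
  obtain ⟨a, b, c, d, hd, rfl⟩ := exists_m4 A
  have h' : a + d = 0 := h
  have ed : d = -a := by linear_combination h'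
  subst ed
  obtain ⟨v, w, hvw⟩ : ∃ v w : F, v * (c * v - a * w) - w * (a * v + b * w) ≠ 0 := by
    by_cases hc : c = 0
    · by_cases hb : b = 0
      · refine ⟨1, 1, ?_⟩
        rw [hc, hb] at hd ⊢
        intro h3
        have : a = 0 := by
          have : 2 * a = 0 := by linear_combination -h3
          exact (mul_eq_zero.1 this).resolve_left h2
        rw [this] at hd
        norm_num at hd
      · refine ⟨0, 1, ?_⟩
        intro h3
        exact hb (by linear_combination -h3)
    · refine ⟨1, 0, ?_⟩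
      intro h3
      exact hc (by linear_combination h3)
  obtain ⟨x, y, hxy⟩ := sum_sq h2 (v * (c * v - a * w) - w * (a * v + b * w))⁻¹
  obtain ⟨δ, hδ⟩ : ∃ δ, δ = v * (c * v - a * w) - w * (a * v + b * w) := ⟨_, rfl⟩
  rw [← hδ] at hxy hvw
  have hxy' : δ * (x ^ 2 + y ^ 2) = 1 := by rw [hxy]; exact mul_inv_cancel₀ hvw
  -- P = (v, Av), Z = (x, -y; y, x)
  refine ⟨m4 (v * x + (a * v + b * w) * y) (v * -y + (a * v + b * w) * x) (w * x + (c * v - a * w) * y) (w * -y + (c * v - a * w) * x)
    (by rw [hδ] at hxy'; linear_combination hxy'), ?_⟩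
  rw [m4_mul, m4_mul]
  apply m4_congr
  · linear_combination (v * y) * hd
  · linear_combination (v * x) * hd
  · linear_combination (w * y) * hd
  · linear_combination (w * x) * hd

theorem conj_tr0 [Finite F] (h2 : (2 : F) ≠ 0) {A B : Matrix.SpecialLinearGroup (Fin 2) F} (hA : A.1 0 0 + A.1 1 1 = 0) (hB : B.1 0 0 + B.1 1 1 = 0) :
    ∃ g : Matrix.SpecialLinearGroup (Fin 2) F, g * A * g⁻¹ = B := by
  obtain ⟨g, hg⟩ := conj_J h2 hA
  obtain ⟨h, hh⟩ := conj_J h2 hB
  refine ⟨h * g⁻¹, ?_⟩
  have e1 : A = g * m4 0 (-1) 1 0 (by ring) * g⁻¹ := by rw [hg]; group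
  have e2 : B = h * m4 0 (-1) 1 0 (by ring) * h⁻¹ := by rw [hh]; group
  rw [e1, e2]; group

/-- conjugacy of involutions -/
theorem invol_conj [Finite F] (h2 : (2 : F) ≠ 0) {x y : ProjectiveSpecialLinearGroup (Fin 2) F} (hx : orderOf x = 2) (hy : orderOf y = 2) : IsConj x y := by
  obtain ⟨A, rfl⟩ := QuotientGroup.mk_surjective x
  obtain ⟨B, rfl⟩ := QuotientGroup.mk_surjective y
  have key : ∀ A : Matrix.SpecialLinearGroup (Fin 2) F, orderOf (ps A) = 2 → A.1 0 0 + A.1 1 1 = 0 := by
    intro A h
    apply tr_of_sq h2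
    · have h1 := pow_orderOf_eq_one (ps A)
      rw [h, pow_two] at h1
      exact h1
    · intro h1
      rw [h1, orderOf_one] at h
      norm_num at h
  obtain ⟨g, hg⟩ := conj_tr0 h2 (key A hx) (key B hy)
  rw [isConj_iff]
  exact ⟨ps g, by rw [← hg]; rfl⟩

/-! ### counting -/

theorem card_conj {G : Type v} [Group G] [Finite G] (x : G) (X : Set G) (hX : ∀ y, y ∈ X ↔ IsConj x y) :
    Nat.card G = Nat.card X * Nat.card (Subgroup.centralizer ({x} : Set G)) := by
  classical
  have h0 : ∀ g : G, g * x * g⁻¹ ∈ X := fun g => (hX _).2 (isConj_iff.2 ⟨g, rfl⟩)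
  haveI : Fintype X := Fintype.ofFinite _
  rw [Nat.card_congr (Equiv.sigmaFiberEquiv (fun g : G => (⟨g * x * g⁻¹, h0 g⟩ : X))).symm, Nat.card_sigma]
  have h4 : ∀ y : X, Nat.card {g : G // (⟨g * x * g⁻¹, h0 g⟩ : X) = y} = Nat.card (Subgroup.centralizer ({x} : Set G)) := by
    rintro ⟨y, hy⟩
    obtain ⟨k, hk⟩ := isConj_iff.1 ((hX y).1 hy)
    symm
    apply Nat.card_eq_of_bijective (fun z : Subgroup.centralizer ({x} : Set G) => (⟨k * z, by
      apply Subtype.ext
      have hz : x * z = z * x := Subgroup.mem_centralizer_singleton_iff.1 z.2 |>.symm ▸ rfl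
      change k * z * x * (k * z)⁻¹ = y
      rw [← hk]
      calc k * z * x * (k * z)⁻¹ = k * (z * x) * (z : G)⁻¹ * k⁻¹ := by group
        _ = k * x * k⁻¹ := by rw [← hz]; group⟩ : {g : G // (⟨g * x * g⁻¹, h0 g⟩ : X) = ⟨y, hy⟩}))
    constructor
    · intro z w h
      have h5 : k * (z : G) = k * w := congrArg Subtype.val h
      exact Subtype.ext (mul_left_cancel h5)
    · rintro ⟨g, hg⟩
      have hg' : g * x * g⁻¹ = y := congrArg Subtype.val hg
      refine ⟨⟨k⁻¹ * g, ?_⟩, ?_⟩
      · rw [Subgroup.mem_centralizer_singleton_iff]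
        have e : g * x = y * g := by rw [← hg']; group
        have e' : y = k * x * k⁻¹ := hk.symm
        rw [mul_assoc, e, e']; group
      · apply Subtype.ext
        change k * (k⁻¹ * g) = g
        group
  rw [Finset.sum_congr rfl (fun q _ => h4 q), Finset.sum_const, smul_eq_mul, Finset.card_univ, Nat.card_eq_fintype_card (α := X)]

theorem card_hyp [DecidableEq F] [Finite F] (m : F) : Nat.card {t : F × F // t.1 * t.2 = m} + 1 = Nat.card F + (if m = 0 then Nat.card F else 0) := by
  classical
  haveI : Fintype F := Fintype.ofFinite F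
  have hu : Nat.card {x : F // x ≠ 0} + 1 = Nat.card F := by
    rw [Nat.card_eq_fintype_card, Nat.card_eq_fintype_card, Fintype.card_subtype_compl, Fintype.card_subtype_eq]
    have : 0 < Fintype.card F := Fintype.card_pos
    omega
  split_ifs with hm
  · subst hm
    have e : {t : F × F // t.1 * t.2 = 0} ≃ F ⊕ {x : F // x ≠ 0} :=
      { toFun := fun t => if h : t.1.1 = 0 then Sum.inl t.1.2 else Sum.inr ⟨t.1.1, h⟩
        invFun := fun s => match s with
          | Sum.inl y => ⟨(0, y), zero_mul y⟩
          | Sum.inr x => ⟨(x.1, 0), mul_zero _⟩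
        left_inv := by
          rintro ⟨⟨a, b⟩, h⟩
          by_cases h0 : a = 0
          · subst h0; simp
          · have hb : b = 0 := (mul_eq_zero.1 h).resolve_left h0
            subst hb
            simp [h0]
        right_inv := by
          rintro (y | ⟨x, hx⟩)
          · simp
          · simp [hx] }
    rw [Nat.card_congr e, Nat.card_sum]
    omega
  · have e : {t : F × F // t.1 * t.2 = m} ≃ {x : F // x ≠ 0} :=
      { toFun := fun t => ⟨t.1.1, fun h => hm (by rw [← t.2, h, zero_mul])⟩
        invFun := fun x => ⟨(x.1, m / x.1), mul_div_cancel₀ m x.2⟩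
        left_inv := by
          rintro ⟨⟨a, b⟩, h⟩
          have ha : a ≠ 0 := fun h0 => hm (by rw [← h]; simp [h0])
          apply Subtype.ext
          apply Prod.ext
          · rfl
          · change m / a = b
            rw [← h]; field_simp
        right_inv := fun x => rfl }
    rw [Nat.card_congr e]
    omega

/-- the number of elements of trace zero -/
theorem card_tr0 [Finite F] : Nat.card {A : Matrix.SpecialLinearGroup (Fin 2) F | A.1 0 0 + A.1 1 1 = 0} + Nat.card F =
    Nat.card F * Nat.card F + Nat.card F * Nat.card {a : F // a * a = -1} := by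
  classical
  haveI : Fintype F := Fintype.ofFinite F
  have e : {A : Matrix.SpecialLinearGroup (Fin 2) F | A.1 0 0 + A.1 1 1 = 0} ≃ Σ a : F, {t : F × F // t.1 * t.2 = -1 - a * a} :=
    { toFun := fun A => ⟨A.1.1 0 0, ⟨(A.1.1 0 1, A.1.1 1 0), by
        have h1 : A.1.1 0 0 + A.1.1 1 1 = 0 := A.2
        have h2 := A.1.2
        rw [Matrix.det_fin_two] at h2
        linear_combination (-1) * h2 + A.1.1 0 0 * h1⟩⟩
      invFun := fun s => ⟨m4 s.1 s.2.1.1 s.2.1.2 (-s.1) (by linear_combination (-1) * s.2.2), by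
        change s.1 + -s.1 = 0
        ring⟩
      left_inv := by
        rintro ⟨A, hA⟩
        apply Subtype.ext
        apply Subtype.ext
        have h1 : A.1 0 0 + A.1 1 1 = 0 := hA
        change !![A.1 0 0, A.1 0 1; A.1 1 0, -A.1 0 0] = A.1
        ext i j
        fin_cases i <;> fin_cases j
        · rfl
        · rfl
        · rfl
        · simp; linear_combination (-1) * h1
      right_inv := fun s => rfl }
  rw [Nat.card_congr e, Nat.card_sigma]
  have h1 : ∀ a : F, Nat.card {t : F × F // t.1 * t.2 = -1 - a * a} + 1 = Nat.card F + (if a * a = -1 then Nat.card F else 0) := by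
    intro a
    rw [card_hyp]
    congr 1
    by_cases h : a * a = -1
    · have h' : -1 - a * a = 0 := by linear_combination (-1) * h
      rw [if_pos h', if_pos h]
    · have h' : -1 - a * a ≠ 0 := fun h' => h (by linear_combination (-1) * h')
      rw [if_neg h', if_neg h]
  have h2 : ∑ a : F, (Nat.card {t : F × F // t.1 * t.2 = -1 - a * a} + 1) = ∑ a : F, (Nat.card F + (if a * a = -1 then Nat.card F else 0)) :=
    Finset.sum_congr rfl (fun a _ => h1 a)
  rw [Finset.sum_add_distrib, Finset.sum_add_distrib, Finset.sum_const, Finset.sum_const, Finset.card_univ, ← Finset.sum_filter, Finset.sum_const,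
    smul_eq_mul, smul_eq_mul, smul_eq_mul, mul_one, ← Nat.card_eq_fintype_card] at h2
  rw [h2]
  congr 1
  rw [mul_comm, Nat.card_eq_fintype_card (α := {a : F // a * a = -1}), Fintype.card_subtype]

theorem roots_one [Finite F] (h : Nat.card F % 4 = 1) : Nat.card {a : F // a * a = -1} = 2 := by
  classical
  haveI : Fintype F := Fintype.ofFinite F
  rw [Nat.card_eq_fintype_card] at h
  have h1 : IsSquare (-1 : F) := by rw [FiniteField.isSquare_neg_one_iff]; omega
  obtain ⟨i, hi⟩ := h1
  have h2 : (2 : F) ≠ 0 := two_ne (by rw [Nat.card_eq_fintype_card]; exact Nat.odd_iff.2 (by omega))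
  have hi0 : i ≠ 0 := by
    rintro rfl
    norm_num at hi
  have : {a : F | a * a = -1} = {i, -i} := by
    ext a
    simp only [Set.mem_insert_iff, Set.mem_singleton_iff]
    constructor
    · intro ha
      have ha' : a * a = -1 := ha
      have : (a - i) * (a + i) = 0 := by linear_combination ha' + hi
      rcases mul_eq_zero.1 this with h3 | h3
      · left; linear_combination h3
      · right; linear_combination h3
    · rintro (rfl | rfl)
      · exact hi.symm
      · change -i * -i = -1
        rw [hi]; ring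
  change Nat.card {a : F | a * a = -1} = 2
  rw [this, Nat.card_coe_set_eq, Set.ncard_pair]
  intro h3
  have : 2 * i = 0 := by linear_combination h3
  exact hi0 ((mul_eq_zero.1 this).resolve_left h2)

theorem roots_three [Finite F] (h : Nat.card F % 4 = 3) : Nat.card {a : F // a * a = -1} = 0 := by
  classical
  haveI : Fintype F := Fintype.ofFinite F
  rw [Nat.card_eq_fintype_card] at h
  have h1 : ¬ IsSquare (-1 : F) := by rw [FiniteField.isSquare_neg_one_iff]; omega
  haveI : IsEmpty {a : F // a * a = -1} := ⟨fun a => h1 ⟨a.1, a.2.symm⟩⟩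
  exact Nat.card_of_isEmpty

theorem card_SL [Finite F] : Nat.card (Matrix.SpecialLinearGroup (Fin 2) F) = Nat.card F * (Nat.card F - 1) * (Nat.card F + 1) := by
  haveI : Fintype F := Fintype.ofFinite F
  classical
  rw [CfsgLib.SL2.card_SL2, Nat.card_eq_fintype_card]

end

section
variable {F : Type u} [Field F]

theorem m1_tr {A : Matrix.SpecialLinearGroup (Fin 2) F} (h : A * A = -1) (h2 : (2 : F) ≠ 0) : A.1 0 0 + A.1 1 1 = 0 := by
  obtain ⟨a, b, c, d, hd, rfl⟩ := exists_m4 A
  change a + d = 0
  rw [m4_mul] at h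
  have h1 := congrArg Subtype.val h
  have e00 : a * a + b * c = -1 := congrFun (congrFun h1 0) 0
  have e11 : c * b + d * d = -1 := congrFun (congrFun h1 1) 1
  have e01 : a * b + b * d = 0 := by
    have : (!![a * a + b * c, a * b + b * d; c * a + d * c, c * b + d * d] : Matrix (Fin 2) (Fin 2) F) 0 1 = (-1 : Matrix (Fin 2) (Fin 2) F) 0 1 := congrFun (congrFun h1 0) 1
    simpa using this
  by_contra hne
  have hb : b = 0 := by
    have : b * (a + d) = 0 := by linear_combination e01
    exact (mul_eq_zero.1 this).resolve_right hne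
  subst hb
  have : (a - d) * (a + d) = 0 := by linear_combination e00 - e11
  have h3 : a = d := by linear_combination (mul_eq_zero.1 this).resolve_right hne
  subst h3
  have : (2 : F) = 0 := by linear_combination e00 - hd
  exact h2 this

theorem sq_one {A : Matrix.SpecialLinearGroup (Fin 2) F} (h : A * A = 1) (h2 : (2 : F) ≠ 0) : A = 1 ∨ A = -1 := by
  by_cases h1 : ps A = 1
  · obtain ⟨a, b, c, d, hd, rfl⟩ := exists_m4 A
    rw [ps_m4_eq_one] at h1
    obtain ⟨rfl, rfl, rfl⟩ := h1
    have : (a - 1) * (a + 1) = 0 := by linear_combination hd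
    rcases mul_eq_zero.1 this with h3 | h3
    · left
      have ha : a = 1 := by linear_combination h3
      subst ha
      apply Subtype.ext
      change !![(1 : F), 0; 0, 1] = 1
      exact Matrix.one_fin_two.symm
    · right
      have ha : a = -1 := by linear_combination h3
      subst ha
      apply Subtype.ext
      change !![(-1 : F), 0; 0, -1] = -1
      ext i j
      fin_cases i <;> fin_cases j <;> simp
  · exfalso
    have h3 := tr_of_sq h2 (by rw [← ps_mul, h, ps_one]) h1
    have h4 := sq_of_tr' h3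
    have h5 : A.1 * A.1 = 1 := congrArg Subtype.val h
    rw [h5] at h4
    have h6 : (1 : F) = -1 := by
      have := congrFun (congrFun h4 0) 0
      simpa using this
    exact h2 (by linear_combination h6)

/-- a subgroup of order four is generated by a square root of `-1` -/
theorem exists_gen {A : Subgroup (Matrix.SpecialLinearGroup (Fin 2) F)} (hA : Nat.card A = 4) (h2 : (2 : F) ≠ 0) :
    ∃ I ∈ A, I.1 0 0 + I.1 1 1 = 0 ∧ orderOf I = 4 ∧ A = Subgroup.zpowers I := by
  haveI : Finite A := Nat.finite_of_card_ne_zero (by rw [hA]; norm_num)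
  have hex : ∃ I ∈ A, I * I ≠ 1 := by
    by_contra hcon
    push Not at hcon
    have h1 : (A : Set (Matrix.SpecialLinearGroup (Fin 2) F)) ⊆ {1, -1} := by
      intro x hx
      rcases sq_one (hcon x hx) h2 with h | h
      · left; exact h
      · right; exact h
    have h3 := Set.ncard_le_ncard h1 (Set.toFinite _)
    rw [← Nat.card_coe_set_eq] at h3
    have h4 := Set.ncard_insert_le (1 : Matrix.SpecialLinearGroup (Fin 2) F) {-1}
    rw [Set.ncard_singleton] at h4
    change Nat.card A ≤ _ at h3
    omega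
  obtain ⟨I, hI, hI2⟩ := hex
  have h4 : orderOf I ∣ 4 := by
    rw [← hA, ← Subgroup.orderOf_mk I hI]
    exact orderOf_dvd_natCard _
  have h5 : orderOf I = 4 := by
    have h6 : orderOf I ∣ 2 ^ 2 := by norm_num; exact h4
    obtain ⟨k, hk, hk2⟩ := (Nat.dvd_prime_pow Nat.prime_two).1 h6
    interval_cases k
    · exfalso
      rw [pow_zero, orderOf_eq_one_iff] at hk2
      rw [hk2] at hI2
      exact hI2 (one_mul 1)
    · exfalso
      apply hI2
      have := pow_orderOf_eq_one I
      rwa [hk2, pow_one, pow_two] at this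
    · rw [hk2]; norm_num
  have h6 : I * I = -1 := by
    have h7 : I * I * (I * I) = 1 := by
      have := pow_orderOf_eq_one I
      rw [h5] at this
      rw [← this]
      rw [pow_succ, pow_succ, pow_two]; simp only [mul_assoc]
    exact (sq_one h7 h2).resolve_left hI2
  refine ⟨I, hI, m1_tr h6 h2, h5, ?_⟩
  symm
  apply Subgroup.eq_of_le_of_card_ge
  · rw [Subgroup.zpowers_le]; exact hI
  · rw [Nat.card_zpowers, h5, hA]

theorem map_zp {G : Type v} [Group G] (g x : G) : (Subgroup.zpowers x).map (MulAut.conj g).toMonoidHom = Subgroup.zpowers (g * x * g⁻¹) := by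
  rw [MonoidHom.map_zpowers]
  rfl

theorem conj_four [Finite F] (h2 : (2 : F) ≠ 0) {A B : Subgroup (Matrix.SpecialLinearGroup (Fin 2) F)} (hA : Nat.card A = 4) (hB : Nat.card B = 4) :
    ∃ g : Matrix.SpecialLinearGroup (Fin 2) F, B = A.map (MulAut.conj g).toMonoidHom := by
  obtain ⟨I, -, hI, -, rfl⟩ := exists_gen hA h2
  obtain ⟨J, -, hJ, -, rfl⟩ := exists_gen hB h2
  obtain ⟨g, hg⟩ := conj_tr0 h2 hI hJ
  exact ⟨g, by rw [map_zp, hg]⟩

/-- the order of the normaliser -/
theorem card_norm [Finite F] (h2 : (2 : F) ≠ 0) {A : Subgroup (Matrix.SpecialLinearGroup (Fin 2) F)} (hA : Nat.card A = 4) :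
    ∃ c, Nat.card (Subgroup.normalizer (A : Set (Matrix.SpecialLinearGroup (Fin 2) F))) = 2 * c ∧
      Nat.card {A : Matrix.SpecialLinearGroup (Fin 2) F | A.1 0 0 + A.1 1 1 = 0} * c = Nat.card F * (Nat.card F - 1) * (Nat.card F + 1) := by
  classical
  haveI : Finite (Matrix.SpecialLinearGroup (Fin 2) F) := inferInstance
  obtain ⟨I, -, hI, hI4, rfl⟩ := exists_gen hA h2
  have hI2 : I * I = -1 := Subtype.ext (sq_of_tr' hI)
  refine ⟨Nat.card (Subgroup.centralizer ({I} : Set (Matrix.SpecialLinearGroup (Fin 2) F))), ?_, ?_⟩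
  · -- an element inverting `I`
    have hinv : (I⁻¹).1 0 0 + (I⁻¹).1 1 1 = 0 := by
      obtain ⟨a, b, c, d, hd, rfl⟩ := exists_m4 I
      have h' : a + d = 0 := hI
      have : (m4 a b c d hd)⁻¹ = m4 d (-b) (-c) a (by linear_combination hd) := by
        rw [inv_eq_iff_mul_eq_one, m4_mul]
        apply Subtype.ext
        change !![_, _; _, _] = (1 : Matrix (Fin 2) (Fin 2) F)
        rw [Matrix.one_fin_two]
        ext i j
        fin_cases i <;> fin_cases j
        · simp; linear_combination hd
        · simp; ring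
        · simp; ring
        · simp; linear_combination hd
      rw [this]
      change d + a = 0
      linear_combination h'
    obtain ⟨j, hj⟩ := conj_tr0 h2 hI hinv
    have hIne : I ≠ I⁻¹ := by
      intro h
      have : I ^ 2 = 1 := by rw [pow_two]; nth_rw 1 [h]; rw [inv_mul_cancel]
      have := orderOf_dvd_of_pow_eq_one this
      rw [hI4] at this
      norm_num at this
    have hmem : ∀ g, g ∈ Subgroup.normalizer (Subgroup.zpowers I : Set (Matrix.SpecialLinearGroup (Fin 2) F)) ↔
        g * I * g⁻¹ = I ∨ g * I * g⁻¹ = I⁻¹ := by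
      intro g
      constructor
      · intro hg
        have h1 : g * I * g⁻¹ ∈ Subgroup.zpowers I := ((Subgroup.mem_normalizer_iff.1 hg) I).1 (Subgroup.mem_zpowers I)
        have ho : orderOf (g * I * g⁻¹) = 4 := by
          rw [← hI4]
          exact orderOf_injective (MulAut.conj g).toMonoidHom (MulAut.conj g).injective I
        obtain ⟨n, hn⟩ := (Subgroup.mem_zpowers_iff.1 h1)
        have hfin : ∃ m : ℕ, m < 4 ∧ I ^ m = g * I * g⁻¹ := by
          have h3 : g * I * g⁻¹ ∈ Submonoid.powers I := by
            rw [mem_powers_iff_mem_zpowers]; exact h1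
          obtain ⟨m, hm⟩ := h3
          refine ⟨m % 4, Nat.mod_lt _ (by norm_num), ?_⟩
          rw [← hI4, pow_mod_orderOf]
          exact hm
        obtain ⟨m, hm, hm2⟩ := hfin
        interval_cases m
        · rw [pow_zero] at hm2
          rw [← hm2, orderOf_one] at ho
          norm_num at ho
        · left; rw [← hm2, pow_one]
        · exfalso
          rw [← hm2] at ho
          have : (I ^ 2) ^ 2 = 1 := by
            rw [← pow_mul, show 2 * 2 = orderOf I by rw [hI4], pow_orderOf_eq_one]
          have := orderOf_dvd_of_pow_eq_one this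
          rw [ho] at this
          norm_num at this
        · right
          rw [← hm2]
          apply eq_inv_of_mul_eq_one_left
          rw [← pow_succ, show 3 + 1 = orderOf I by rw [hI4], pow_orderOf_eq_one]
      · intro hg
        rw [Subgroup.mem_normalizer_iff_map_conj_eq]
        refine (map_zp g I).trans ?_
        rcases hg with hg | hg
        · rw [hg]
        · rw [hg, Subgroup.zpowers_inv]
    have hcen : ∀ c : Subgroup.centralizer ({I} : Set (Matrix.SpecialLinearGroup (Fin 2) F)), (c : Matrix.SpecialLinearGroup (Fin 2) F) * I * (c : Matrix.SpecialLinearGroup (Fin 2) F)⁻¹ = I := by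
      intro c
      have h1 := Subgroup.mem_centralizer_singleton_iff.1 c.2
      rw [h1]; group
    have hB : Nat.card Bool = 2 := by simp
    suffices hsuf : Nat.card (Subgroup.centralizer ({I} : Set (Matrix.SpecialLinearGroup (Fin 2) F)) × Bool) =
        Nat.card (Subgroup.normalizer (Subgroup.zpowers I : Set (Matrix.SpecialLinearGroup (Fin 2) F))) by
      rw [Nat.card_prod, hB] at hsuf
      omega
    apply Nat.card_eq_of_bijective (fun cb : Subgroup.centralizer ({I} : Set (Matrix.SpecialLinearGroup (Fin 2) F)) × Bool =>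
      (if cb.2 then ⟨j * cb.1, (hmem _).2 (Or.inr (by
          rw [show j * (cb.1 : Matrix.SpecialLinearGroup (Fin 2) F) * I * (j * (cb.1 : Matrix.SpecialLinearGroup (Fin 2) F))⁻¹ = j * ((cb.1 : Matrix.SpecialLinearGroup (Fin 2) F) * I * (cb.1 : Matrix.SpecialLinearGroup (Fin 2) F)⁻¹) * j⁻¹ by group, hcen, hj]))⟩
        else ⟨cb.1, (hmem _).2 (Or.inl (hcen cb.1))⟩ : Subgroup.normalizer (Subgroup.zpowers I : Set (Matrix.SpecialLinearGroup (Fin 2) F))))
    constructor
    · rintro ⟨c, b⟩ ⟨c', b'⟩ h
      have hc1 := hcen c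
      have hc2 := hcen c'
      cases b <;> cases b' <;> simp only [if_true, if_false, Bool.false_eq_true] at h
      · have h3 : (c : Matrix.SpecialLinearGroup (Fin 2) F) = c' := Subtype.mk.inj h
        rw [Subtype.ext h3]
      · exfalso
        have h3 : (c : Matrix.SpecialLinearGroup (Fin 2) F) = j * c' := Subtype.mk.inj h
        rw [h3, show j * (c' : Matrix.SpecialLinearGroup (Fin 2) F) * I * (j * (c' : Matrix.SpecialLinearGroup (Fin 2) F))⁻¹ = j * ((c' : Matrix.SpecialLinearGroup (Fin 2) F) * I * (c' : Matrix.SpecialLinearGroup (Fin 2) F)⁻¹) * j⁻¹ by group, hc2, hj] at hc1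
        exact hIne hc1.symm
      · exfalso
        have h3 : j * (c : Matrix.SpecialLinearGroup (Fin 2) F) = c' := Subtype.mk.inj h
        rw [← h3, show j * (c : Matrix.SpecialLinearGroup (Fin 2) F) * I * (j * (c : Matrix.SpecialLinearGroup (Fin 2) F))⁻¹ = j * ((c : Matrix.SpecialLinearGroup (Fin 2) F) * I * (c : Matrix.SpecialLinearGroup (Fin 2) F)⁻¹) * j⁻¹ by group, hc1, hj] at hc2
        exact hIne hc2.symm
      · have h3 : j * (c : Matrix.SpecialLinearGroup (Fin 2) F) = j * c' := Subtype.mk.inj h
        rw [Subtype.ext (mul_left_cancel h3)]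
    · rintro ⟨g, hg⟩
      rcases (hmem g).1 hg with h | h
      · refine ⟨(⟨g, Subgroup.mem_centralizer_singleton_iff.2 (by nth_rw 2 [← h]; group)⟩, false), ?_⟩
        simp
      · refine ⟨(⟨j⁻¹ * g, Subgroup.mem_centralizer_singleton_iff.2 ?_⟩, true), ?_⟩
        · have h3 : g * I = I⁻¹ * g := by rw [← h]; group
          rw [mul_assoc, h3, ← hj]; group
        · apply Subtype.ext
          simp
  · rw [← card_SL]
    symm
    refine (card_conj I _ ?_)
    intro y
    rw [isConj_iff]
    constructor
    · intro hy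
      exact conj_tr0 h2 hI hy
    · rintro ⟨g, rfl⟩
      apply m1_tr _ h2
      rw [show g * I * g⁻¹ * (g * I * g⁻¹) = g * (I * I) * g⁻¹ by group, hI2]
      simp

end

end CfsgLib.Mob34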