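import Mathlib
import Cfsg.Agent.Lib.Mob34

set_option autoImplicit false
set_option maxHeartbeats 400000

/-! Maximal subgroups: reduction to the list; subfields of finite fields. -/
namespace CfsgLib.Mob35

open OnePoint Matrix CfsgLib.Mob3 CfsgLib.Mob4 CfsgLib.Mob5 CfsgLib.Mob7 CfsgLib.Mob10 CfsgLib.Mob12 CfsgLib.Mob13 CfsgLib.Mob15 CfsgLib.Mob16 CfsgLib.Mob18 CfsgLib.Mob20 CfsgLib.Mob22 CfsgLib.Mob24 CfsgLib.Mob25 CfsgLib.Mob28 CfsgLib.Mob29 CfsgLib.Mob30 CfsgLib.Mob31 CfsgLib.Mob32 CfsgLib.Mob33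

universe u v w

/-! ### subfields -/
section
variable {F : Type u} [Field F] [Finite F]

theorem mem_iff_pow (k : Subfield F) (x : F) : x ∈ k ↔ x ^ Nat.card k = x := by
  classical
  haveI : Fintype F := Fintype.ofFinite F
  haveI : Fintype k := Fintype.ofFinite k
  constructor
  · intro hx
    have h := FiniteField.pow_card (⟨x, hx⟩ : k)
    rw [← Nat.card_eq_fintype_card] at h
    exact congrArg Subtype.val h
  · intro hx
    have hc : 1 < Nat.card k := Finite.one_lt_card
    -- the roots of `X ^ c - X`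
    have hne : (Polynomial.X ^ Nat.card k - Polynomial.X : Polynomial F) ≠ 0 := FiniteField.X_pow_card_sub_X_ne_zero F hc
    have hdeg : (Polynomial.X ^ Nat.card k - Polynomial.X : Polynomial F).natDegree = Nat.card k := FiniteField.X_pow_card_sub_X_natDegree_eq F hc
    have h1 := Polynomial.card_roots' (Polynomial.X ^ Nat.card k - Polynomial.X : Polynomial F)
    rw [hdeg] at h1
    have h2 : (Polynomial.X ^ Nat.card k - Polynomial.X : Polynomial F).roots.toFinset.card ≤ Nat.card k := (Multiset.toFinset_card_le _).trans h1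
    have h3 : (Finset.univ.filter (fun y : F => y ∈ k)) ⊆ (Polynomial.X ^ Nat.card k - Polynomial.X : Polynomial F).roots.toFinset := by
      intro y hy
      rw [Finset.mem_filter] at hy
      rw [Multiset.mem_toFinset, Polynomial.mem_roots hne, Polynomial.IsRoot.def]
      have h := FiniteField.pow_card (⟨y, hy.2⟩ : k)
      rw [← Nat.card_eq_fintype_card] at h
      have h' : y ^ Nat.card k = y := congrArg Subtype.val h
      rw [Polynomial.eval_sub, Polynomial.eval_pow, Polynomial.eval_X, h', sub_self]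
    have h4 : (Finset.univ.filter (fun y : F => y ∈ k)).card = Nat.card k := by
      rw [← Fintype.card_subtype, ← Nat.card_eq_fintype_card]
    have h5 := Finset.eq_of_subset_of_card_le h3 (by rw [h4]; exact h2)
    have h6 : x ∈ (Polynomial.X ^ Nat.card k - Polynomial.X : Polynomial F).roots.toFinset := by
      rw [Multiset.mem_toFinset, Polynomial.mem_roots hne, Polynomial.IsRoot.def]
      rw [Polynomial.eval_sub, Polynomial.eval_pow, Polynomial.eval_X, hx, sub_self]
    rw [← h5, Finset.mem_filter] at h6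
    exact h6.2

theorem sub_le_of {k k' : Subfield F} {s : ℕ} (h : Nat.card k' = Nat.card k ^ s) : k ≤ k' := by
  intro x hx
  rw [mem_iff_pow] at hx ⊢
  rw [h]
  have : ∀ s : ℕ, x ^ Nat.card k ^ s = x := by
    intro s
    induction s with
    | zero => simp
    | succ n ih => rw [pow_succ, pow_mul, ih, hx]
  exact this s

/-- intermediate fields -/
theorem exists_between {k : Subfield F} {r s : ℕ} (hs : s ≠ 0) (h : Nat.card k ^ (s * r) = Nat.card F) :
    ∃ k' : Subfield F, k ≤ k' ∧ Nat.card k' = Nat.card k ^ s ∧ Nat.card k' ^ r = Nat.card F := by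
  obtain ⟨p, n, hp, hc, hn, hpn⟩ := exists_pn k
  have h1 := GaloisField.card p (n * s) (Nat.mul_ne_zero hn hs)
  haveI : Finite (GaloisField p (n * s)) := inferInstance
  obtain ⟨k', ⟨e⟩⟩ := exists_subfield (k := GaloisField p (n * s)) (F := F) (m := r) (by rw [h1, ← h, hpn, ← pow_mul, ← pow_mul]; ring_nf)
  have h2 : Nat.card k' = Nat.card k ^ s := by rw [← Nat.card_congr e.toEquiv, h1, hpn, pow_mul]
  exact ⟨k', sub_le_of h2, h2, by rw [h2, ← pow_mul, h]⟩

end

section
variable {F : Type u} [Field F] [DecidableEq F]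

theorem gm_sub {k k' : Subfield F} (hkk : k ≤ k') (M : GL (Fin 2) k) :
    gm k F M = gm k' F (Matrix.GeneralLinearGroup.map (Subfield.inclusion hkk) M) := by
  rw [gm_eq, gm_eq]
  apply mk_congr <;> rfl

theorem pm_mono {k k' : Subfield F} (hkk : k ≤ k') : pm k F ≤ pm k' F := by
  rintro _ ⟨M, rfl⟩
  rw [gm_sub hkk]
  exact ⟨_, rfl⟩

theorem sm_mono {k k' : Subfield F} (hkk : k ≤ k') : sm k F ≤ sm k' F := by
  rintro _ ⟨A, rfl⟩
  rw [MonoidHom.comp_apply, gm_sub hkk]
  refine ⟨Matrix.SpecialLinearGroup.map (Subfield.inclusion hkk) A, ?_⟩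
  rw [MonoidHom.comp_apply]
  congr 1
  apply Units.ext
  ext i j
  rfl

theorem sm_le_sm (k : Subfield F) : sm k F ≤ sm F F := by
  rintro _ ⟨A, rfl⟩
  refine ⟨Matrix.SpecialLinearGroup.map (algebraMap k F) A, ?_⟩
  rw [MonoidHom.comp_apply, MonoidHom.comp_apply, gm_eq, gm_eq]
  apply mk_congr <;> rfl

theorem pm_le_mob (k : Subfield F) : pm k F ≤ mob F := gm_range_le

theorem cj_mono {h : Equiv.Perm (OnePoint F)} {A B : Subgroup (Equiv.Perm (OnePoint F))} (hAB : A ≤ B) : cj h A ≤ cj h B := by
  intro g hg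
  rw [mem_cj] at hg ⊢
  exact hAB hg

theorem cj_cj_inv (h : Equiv.Perm (OnePoint F)) (A : Subgroup (Equiv.Perm (OnePoint F))) : cj h⁻¹ (cj h A) = A := by
  ext g
  rw [mem_cj, mem_cj, inv_inv, show h⁻¹ * (h * g * h⁻¹) * h = g by group]

theorem cj_inv_cj (h : Equiv.Perm (OnePoint F)) (A : Subgroup (Equiv.Perm (OnePoint F))) : cj h (cj h⁻¹ A) = A := by
  have := cj_cj_inv h⁻¹ A
  rwa [inv_inv] at this

theorem cj_mob {h : Equiv.Perm (OnePoint F)} (hh : h ∈ mob F) : cj h (mob F) = mob F := by
  ext g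
  rw [mem_cj, Subgroup.mul_mem_cancel_right _ hh, Subgroup.mul_mem_cancel_left _ ((mob F).inv_mem hh)]

/-- maximal subgroups inside a permutation group -/
def MaxIn {X : Type v} [Group X] (H G : Subgroup X) : Prop := H < G ∧ ∀ K : Subgroup X, H ≤ K → K ≤ G → K = H ∨ K = G

theorem maxIn_of_coatom {Γ : Type v} [Group Γ] {X : Type w} [Group X] {f : Γ →* X} (hf : Function.Injective f) {M : Subgroup Γ} (hM : IsCoatom M) :
    MaxIn (M.map f) f.range := by
  have h1 : ∀ K : Subgroup X, K ≤ f.range → (K.comap f).map f = K := fun K hK => Subgroup.map_comap_eq_self hK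
  refine ⟨?_, ?_⟩
  · refine lt_of_le_of_ne (by rintro _ ⟨x, _, rfl⟩; exact ⟨x, rfl⟩) ?_
    intro h
    apply hM.1
    rw [eq_top_iff]
    intro x _
    have h2 : f x ∈ M.map f := by rw [h]; exact ⟨x, rfl⟩
    obtain ⟨y, hy, hxy⟩ := h2
    rw [← hf hxy]
    exact hy
  · intro K h2 h3
    have h4 : M ≤ K.comap f := Subgroup.map_le_iff_le_comap.1 h2
    rcases hM.le_iff.1 h4 with h5 | h5
    · right
      rw [← h1 K h3, h5, ← MonoidHom.range_eq_map]
    · left
      rw [← h1 K h3, h5]

theorem MaxIn.cj {H G : Subgroup (Equiv.Perm (OnePoint F))} (h : MaxIn H G) (g : Equiv.Perm (OnePoint F)) : MaxIn (cj g H) (cj g G) := by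
  refine ⟨?_, ?_⟩
  · refine lt_of_le_of_ne (cj_mono h.1.le) ?_
    intro he
    apply h.1.ne
    rw [← cj_cj_inv g H, he, cj_cj_inv]
  · intro K h1 h2
    have h3 : H ≤ CfsgLib.Mob4.cj g⁻¹ K := by rw [← cj_cj_inv g H]; exact cj_mono h1
    have h4 : CfsgLib.Mob4.cj g⁻¹ K ≤ G := by rw [← cj_cj_inv g G]; exact cj_mono h2
    rcases h.2 _ h3 h4 with h5 | h5
    · left; rw [← h5, cj_inv_cj]
    · right; rw [← h5, cj_inv_cj]

/-- the list of subgroups, with maximal tori; proper subfield case of order at least three -/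
theorem classify3 {K : Type v} [Field K] [DecidableEq K] [Algebra F K] [Finite F] [IsAlgClosed K] (p : ℕ) [hp : Fact p.Prime] [CharP F p] [CharP K p]
    {G H : Subgroup (Equiv.Perm (OnePoint F))} (hHG : H ≤ G) (hG : G ≤ mob F) :
    H = ⊥ ∨ (∃ x, UU H x ≠ ⊥ ∧ ∀ g ∈ H, g x = x) ∨ (∃ D, Tor K G D ∧ H ≤ D) ∨
    (Nat.card H = 12 ∧ ¬ p ∣ 12 ∧ Nonempty (H ≃* alternatingGroup (Fin 4))) ∨
    (Nat.card H = 24 ∧ ¬ p ∣ 24 ∧ Nonempty (H ≃* Equiv.Perm (Fin 4))) ∨
    (Nat.card H = 60 ∧ (p = 3 ∨ ¬ p ∣ 60) ∧ Nonempty (H ≃* alternatingGroup (Fin 5))) ∨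
    (∃ h ∈ mob F, ∃ k : Subfield F, 3 ≤ Nat.card k ∧ (cj h H = sm k F ∨ cj h H = pm k F)) := by
  haveI : Finite (OnePoint F) := inferInstanceAs (Finite (Option F))
  haveI : Finite (Equiv.Perm (OnePoint F)) := inferInstance
  have hH := hHG.trans hG
  haveI : Finite H := inferInstance
  haveI := bc_finite K H hH
  obtain ⟨φ, -, hφ⟩ := bc_iso K H hH
  have hc : Nat.card (bc K H) = Nat.card H := (Nat.card_congr φ.toEquiv).symm
  by_cases hU : ∀ y, UU (bc K H) y = ⊥
  · rcases classify2 (K := K) p hHG hG with h | h | h | h | h | h | h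
    · left; exact h
    · right; left; exact h
    · right; right; left; exact h
    · right; right; right; left; exact h
    · right; right; right; right; left; exact h
    · right; right; right; right; right; left; exact h
    · exfalso
      -- subfield subgroups contain unipotent elements
      obtain ⟨h, hh, k, hk⟩ := h
      have h1 : aff 1 (algebraMap k F 1) one_ne_zero ∈ cj h H := by
        have h2 : aff 1 (algebraMap k F 1) one_ne_zero ∈ sm k F := ⟨up 1, by rw [MonoidHom.comp_apply, gm_up]⟩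
        rcases hk with hk | hk
        · rw [hk]; exact h2
        · rw [hk]; exact sm_le_pm h2
      have h3 : aff 1 (algebraMap k F 1) one_ne_zero ∈ UU (cj h H) ∞ := ⟨h1, uni_inf.2 ⟨_, rfl⟩⟩
      have h4 : UU (cj h H) ∞ ≠ ⊥ := by
        intro h5
        rw [h5, Subgroup.mem_bot, ← aff_one] at h3
        have := (aff_inj h3).2
        rw [map_one] at this
        exact one_ne_zero this
      have h6 : UU H (h⁻¹ ∞) ≠ ⊥ := by
        intro h7
        apply h4
        have h8 := cj_UU hh H (h⁻¹ ∞)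
        rw [h7, ← Equiv.Perm.mul_apply, mul_inv_cancel, Equiv.Perm.one_apply] at h8
        rw [← h8, eq_bot_iff]
        intro g hg
        rw [mem_cj, Subgroup.mem_bot] at hg
        rw [Subgroup.mem_bot]
        have : g = h * (h⁻¹ * g * h) * h⁻¹ := by group
        rw [this, hg]; group
      exact (UU_ne_iff p hH φ hφ _).2 h6 (hU _)
  · push Not at hU
    obtain ⟨y, hy⟩ := hU
    obtain ⟨x, rfl, hx⟩ := rational_of_UU p hH φ hφ hy
    have hfix : ∀ g ∈ H, ∀ k : ℕ, g ^ p ^ k = 1 → ∃ x, g x = x := fun g _ k hg => fix_of_ppow p g k hg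
    rcases CfsgLib.Mob9.wild p (bc_le K H) hy with h | h | h | h
    · right; left
      refine ⟨x, hx, ?_⟩
      intro g hg
      apply jj_injective (K := K)
      rw [← hφ ⟨g, hg⟩]
      exact h _ (φ ⟨g, hg⟩).2
    · rcases classify2 (K := K) p hHG hG with h' | h' | h' | h' | h' | h' | h'
      · left; exact h'
      · right; left; exact h'
      · right; right; left; exact h'
      · right; right; right; left; exact h'
      · right; right; right; right; left; exact h'
      · right; right; right; right; right; left; exact h'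
      · -- dihedral: use the torus directly
        obtain ⟨y, z, hd⟩ := h
        by_cases hS : St (bc K H) y = ⊥
        · have hc2 := (hd.iso (bc_le K H)).2.1
          rw [hS, Subgroup.card_bot, mul_one] at hc2
          obtain ⟨g, hg, hgy⟩ := hd.2.2
          have hg1 : g ≠ 1 := by
            rintro rfl
            exact hd.1 hgy
          obtain ⟨u, hu⟩ := exists_fix (bc_le K H hg)
          have hall : ∀ k ∈ bc K H, k u = u := by
            intro k hk
            have h1 : (⟨g, hg⟩ : bc K H) ≠ 1 := fun h => hg1 (congrArg Subtype.val h)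
            haveI : Fact (Nat.Prime 2) := ⟨Nat.prime_two⟩
            have h2 := mem_zpowers_of_prime_card (p := 2) hc2 h1 (g' := ⟨k, hk⟩)
            obtain ⟨n, hn⟩ := Subgroup.mem_zpowers_iff.1 h2
            have h3 : k = g ^ n := (congrArg Subtype.val hn).symm
            rw [h3]
            exact Function.IsFixedPt.perm_zpow hu n
          rcases fixed_case p hHG hG hall with h | h | h
          · left; exact h
          · right; left; exact h
          · right; right; left; exact h
        · right; right; left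
          obtain ⟨g, hg, hg1⟩ := (Subgroup.bot_or_exists_ne_one _).resolve_left hS
          have hgz : g z = z := by
            rcases hd.2.1 g hg.1 with h | h
            · exact h.2
            · exact absurd (hg.2.symm.trans h.1) hd.1
          refine ⟨_, ⟨y, z, hd.1, ⟨g, bc_mono hHG hg.1, hg1, hg.2, hgz⟩, rfl⟩, ?_⟩
          apply le_unb hH
          intro k hk
          exact ⟨bc_mono hHG hk, hd.2.1 k hk⟩
    · right; right; right; right; right; right
      obtain ⟨h1, h2, h3⟩ := h
      rw [card_UU_bc p hH φ hφ] at h1 h2 h3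
      rw [card_Om_bc p hH φ hφ] at h2
      have hst : Nat.card (St (bc K H) (jj F K x)) = Nat.card (St H x) := by
        have e1 := card_Om p (bc_le K H) (fun g hg k _ => CfsgLib.Mob3.exists_fix (bc_le K H hg)) hy
        have e2 := card_Om p hH hfix hx
        rw [card_Om_bc p hH φ hφ, hc, ← e2] at e1
        haveI := Om_finite p hH hfix hx
        haveI : Nonempty {y : OnePoint F | UU H y ≠ ⊥} := ⟨⟨x, hx⟩⟩
        exact Nat.eq_of_mul_eq_mul_left Nat.card_pos e1
      rw [hst] at h3
      obtain ⟨h, hh, k, hk3, hk⟩ := CfsgLib.Mob11.W p hH hfix hx (by omega) h2 (by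
        rcases h3 with h4 | h4
        · rw [h4]; omega
        · exact h4.ge)
      exact ⟨h, hh, k, by rw [hk3]; exact h1, hk⟩
    · right; right; right; right; right; left
      obtain ⟨h1, hp3, ⟨e⟩⟩ := h
      exact ⟨by rw [← hc, h1], Or.inl hp3, ⟨φ.trans e⟩⟩

end

end CfsgLib.Mob35
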