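import Mathlib
import Cfsg.Agent.Lib.Mob35

set_option autoImplicit false
set_option maxHeartbeats 400000

/-! Maximal subgroups of `PSL(2,q)`, `q` even. -/
namespace CfsgLib.Mob36

open OnePoint Matrix CfsgLib.Mob3 CfsgLib.Mob4 CfsgLib.Mob5 CfsgLib.Mob7 CfsgLib.Mob10 CfsgLib.Mob12 CfsgLib.Mob13 CfsgLib.Mob15 CfsgLib.Mob16 CfsgLib.Mob18 CfsgLib.Mob20 CfsgLib.Mob22 CfsgLib.Mob24 CfsgLib.Mob25 CfsgLib.Mob28 CfsgLib.Mob29 CfsgLib.Mob30 CfsgLib.Mob31 CfsgLib.Mob32 CfsgLib.Mob33 CfsgLib.Mob35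

universe u v w

theorem cub_strict {a b : ℕ} (ha : 1 ≤ a) (h : a < b) : a * (a - 1) * (a + 1) < b * (b - 1) * (b + 1) := by
  obtain ⟨c, rfl⟩ : ∃ c, a = c + 1 := ⟨a - 1, by omega⟩
  obtain ⟨d, rfl⟩ : ∃ d, b = c + 1 + (d + 1) := ⟨b - c - 2, by omega⟩
  rw [show c + 1 - 1 = c by omega, show c + 1 + (d + 1) - 1 = c + d + 1 by omega]
  have h1 : (c + 1) * c * (c + 1 + 1) ≤ (c + 1) * (c + d + 1) * (c + 1 + 1) := by gcongr; omega
  have h2 : (c + 1) * (c + d + 1) * (c + 1 + 1) < (c + 1 + (d + 1)) * (c + d + 1) * (c + 1 + (d + 1) + 1) := by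
    have : (c + 1) * (c + d + 1) < (c + 1 + (d + 1)) * (c + d + 1) := Nat.mul_lt_mul_of_pos_right (by omega) (by omega)
    exact Nat.mul_lt_mul_of_lt_of_le this (by omega) (by omega)
  omega

theorem cub_inj {a b : ℕ} (ha : 1 ≤ a) (hb : 1 ≤ b) (h : a * (a - 1) * (a + 1) = b * (b - 1) * (b + 1)) : a = b := by
  rcases lt_trichotomy a b with h1 | h1 | h1
  · exact absurd h (cub_strict ha h1).ne
  · exact h1
  · exact absurd h (cub_strict hb h1).ne'

section
variable {F : Type u} [Field F] [DecidableEq F] [Finite F]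

theorem card_smk (k : Subfield F) : Nat.gcd 2 (Nat.card k - 1) * Nat.card (sm k F) = Nat.card k * (Nat.card k - 1) * (Nat.card k + 1) := by
  obtain ⟨e⟩ := sm_iso (k := k) (F := F)
  rw [Nat.card_congr e.toEquiv]
  exact card_PSL k

theorem card_pmk (k : Subfield F) : Nat.card (pm k F) = Nat.card k * (Nat.card k - 1) * (Nat.card k + 1) := by
  obtain ⟨e⟩ := pm_iso (k := k) (F := F)
  rw [Nat.card_congr e.toEquiv]
  exact card_PGL k

/-- the list of maximal subgroups, first form -/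
theorem max_list (p : ℕ) [hp : Fact p.Prime] [CharP F p] {G H : Subgroup (Equiv.Perm (OnePoint F))} (hsG : sm F F ≤ G) (hG : G ≤ mob F)
    (hn : ∀ g ∈ mob F, cj g G = G) {d : ℕ} (hd0 : 0 < d) (hd2 : d ≤ 2)
    (hd : d * Nat.card G = Nat.card F * (Nat.card F - 1) * (Nat.card F + 1)) (hq : 4 ≤ Nat.card F) (hH : MaxIn H G) :
    (Nat.card F + 1) * Nat.card H = Nat.card G ∨
    Nonempty (H ≃* DihedralGroup ((Nat.card F - 1) / d)) ∨ Nonempty (H ≃* DihedralGroup ((Nat.card F + 1) / d)) ∨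
    (Nat.card H = 12 ∧ ¬ p ∣ 12 ∧ Nonempty (H ≃* alternatingGroup (Fin 4))) ∨
    (Nat.card H = 24 ∧ ¬ p ∣ 24 ∧ Nonempty (H ≃* Equiv.Perm (Fin 4))) ∨
    (Nat.card H = 60 ∧ (p = 3 ∨ ¬ p ∣ 60) ∧ Nonempty (H ≃* alternatingGroup (Fin 5))) ∨
    (∃ h ∈ mob F, ∃ k : Subfield F, 3 ≤ Nat.card k ∧ MaxIn (cj h H) G ∧ (cj h H = sm k F ∨ cj h H = pm k F)) := by
  classical
  haveI : Finite (OnePoint F) := inferInstanceAs (Finite (Option F))
  haveI : Finite (Equiv.Perm (OnePoint F)) := inferInstance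
  haveI : CharP (AlgebraicClosure F) p := inferInstance
  have hSt : ∀ x : OnePoint F, St G x ≠ G ∧ St G x ≠ ⊥ := by
    intro x
    have h1 := card_St_G p hsG hG x
    have h2 : 0 < Nat.card (St G x) := Nat.card_pos
    constructor
    · intro h3
      rw [h3] at h1 h2
      have : Nat.card G < (Nat.card F + 1) * Nat.card G := by nlinarith
      omega
    · intro h3
      apply UU_G_ne hsG x
      rw [eq_bot_iff, ← h3]
      exact UU_le_St G x
  rcases classify3 (K := AlgebraicClosure F) p hH.1.le hG with h | h | h | h | h | h | h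
  · exfalso
    rcases hH.2 (St G ∞) (by rw [h]; exact bot_le) inf_le_left with h1 | h1
    · exact (hSt ∞).2 (h1.trans h)
    · exact (hSt ∞).1 h1
  · left
    obtain ⟨x, _, hx⟩ := h
    rcases hH.2 (St G x) (fun g hg => ⟨hH.1.le hg, hx g hg⟩) inf_le_left with h1 | h1
    · rw [← h1]; exact card_St_G p hsG hG x
    · exact absurd h1 (hSt x).1
  · obtain ⟨D, hD, hHD⟩ := h
    have hiso := hD.iso p hsG hG hd0 hd2 hd
    rcases hH.2 D hHD hD.le with h1 | h1
    · rw [h1] at hiso
      rcases hiso with h2 | h2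
      · right; left; exact h2
      · right; right; left; exact h2
    · exfalso
      rw [h1] at hiso
      have hle : Nat.card G * d ≤ 2 * (Nat.card F + 1) := by
        rcases hiso with ⟨⟨e⟩⟩ | ⟨⟨e⟩⟩
        · rw [Nat.card_congr e.toEquiv, DihedralGroup.nat_card, mul_assoc]
          have := Nat.div_mul_le_self (Nat.card F - 1) d
          omega
        · rw [Nat.card_congr e.toEquiv, DihedralGroup.nat_card, mul_assoc]
          have := Nat.div_mul_le_self (Nat.card F + 1) d
          omega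
      rw [mul_comm, hd] at hle
      have : 4 * 3 ≤ Nat.card F * (Nat.card F - 1) := Nat.mul_le_mul hq (by omega)
      have := Nat.mul_le_mul_right (Nat.card F + 1) this
      omega
  · right; right; right; left; exact h
  · right; right; right; right; left; exact h
  · right; right; right; right; right; left; exact h
  · right; right; right; right; right; right
    obtain ⟨h, hh, k, hk3, hk⟩ := h
    refine ⟨h, hh, k, hk3, ?_, hk⟩
    have := hH.cj h
    rwa [hn h hh] at this

/-- in characteristic two the two groups agree -/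
theorem pm_eq_sm [CharP F 2] (k : Subfield F) : pm k F = sm k F := by
  haveI : Fact (Nat.Prime 2) := ⟨Nat.prime_two⟩
  haveI := char_sub 2 k
  apply le_antisymm _ sm_le_pm
  intro g hg
  have h1 := pm_pow_mem (k := k) 2 hg
  rwa [gcd_two_even even_of_two Finite.one_lt_card, pow_one] at h1

theorem exists_type0 (k : Subfield F) : ∃ (F₀ : Type) (_ : Field F₀) (_ : Fintype F₀), Fintype.card F₀ = Nat.card k ∧
    Nonempty (ProjectiveSpecialLinearGroup (Fin 2) k ≃* ProjectiveSpecialLinearGroup (Fin 2) F₀) ∧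
    Nonempty (ProjGenLinGroup (Fin 2) k ≃* ProjGenLinGroup (Fin 2) F₀) := by
  obtain ⟨k₀, i1, i2, ⟨e⟩, hc⟩ := exists_small k
  exact ⟨k₀, i1, i2, hc, psl_congr e, pgl_congr e⟩

/-- the degree is prime -/
theorem deg_prime {k : Subfield F} (X : Subfield F → Subgroup (Equiv.Perm (OnePoint F))) {G : Subgroup (Equiv.Perm (OnePoint F))}
    (hmono : ∀ k k' : Subfield F, k ≤ k' → X k ≤ X k') (hG : ∀ k', X k' ≤ G)
    (hinj : ∀ k k' : Subfield F, Nat.card (X k) = Nat.card (X k') → Nat.card k = Nat.card k')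
    (hlt : ∀ k' : Subfield F, Nat.card k' < Nat.card F → X k' ≠ G) (hne : Nat.card k ≠ Nat.card F)
    (hmax : MaxIn (X k) G) : ∃ r, r.Prime ∧ Nat.card k ^ r = Nat.card F := by
  haveI : Fintype F := Fintype.ofFinite F
  obtain ⟨m, hm⟩ := card_subfield k
  rw [← Nat.card_eq_fintype_card] at hm
  have hk1 : 1 < Nat.card k := Finite.one_lt_card
  have hq : 1 < Nat.card F := Finite.one_lt_card
  have hm1 : m ≠ 1 := by
    rintro rfl
    rw [pow_one] at hm
    exact hne hm
  have hm0 : m ≠ 0 := by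
    rintro rfl
    rw [pow_zero] at hm
    omega
  obtain ⟨r, hr, s, rfl⟩ := Nat.exists_prime_and_dvd hm1
  have hs0 : s ≠ 0 := by rintro rfl; simp at hm0
  by_cases hs1 : s = 1
  · exact ⟨r, hr, by rw [← hm, hs1, mul_one]⟩
  exfalso
  obtain ⟨k', hkk, hc, hc2⟩ := exists_between (k := k) (r := r) hs0 (by rw [mul_comm s r, hm])
  have hk' : 1 < Nat.card k' := Finite.one_lt_card
  rcases hmax.2 (X k') (hmono _ _ hkk) (hG k') with h1 | h1
  · have h2 := hinj k' k (by rw [h1])
    have h3 : Nat.card k ^ s = Nat.card k ^ 1 := by rw [← hc, pow_one]; exact h2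
    exact hs1 (Nat.pow_right_injective hk1 h3)
  · refine hlt k' ?_ h1
    rw [← hc2]
    calc Nat.card k' = Nat.card k' ^ 1 := (pow_one _).symm
      _ < Nat.card k' ^ r := Nat.pow_lt_pow_right hk' hr.one_lt

theorem gcd_sub (p : ℕ) [hp : Fact p.Prime] [CharP F p] (k : Subfield F) : Nat.gcd 2 (Nat.card k - 1) = Nat.gcd 2 (Nat.card F - 1) := by
  haveI := char_sub p k
  by_cases hp2 : p = 2
  · subst hp2
    rw [gcd_two_even even_of_two Finite.one_lt_card, gcd_two_even even_of_two Finite.one_lt_card]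
  · rw [gcd_two_odd (odd_of_ne_two p hp2), gcd_two_odd (odd_of_ne_two p hp2)]

theorem sm_inj (p : ℕ) [hp : Fact p.Prime] [CharP F p] {k k' : Subfield F} (h : Nat.card (sm k F) = Nat.card (sm k' F)) : Nat.card k = Nat.card k' := by
  have h1 := card_smk k
  have h2 := card_smk k'
  rw [gcd_sub p] at h1 h2
  rw [h, h2] at h1
  exact cub_inj Nat.card_pos Nat.card_pos h1.symm

theorem sm_inj_top (p : ℕ) [hp : Fact p.Prime] [CharP F p] {k : Subfield F} (h : Nat.card (sm k F) = Nat.card (sm F F)) : Nat.card k = Nat.card F := by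
  have h1 := card_smk k
  have h2 := card_sm (F := F)
  rw [gcd_sub p] at h1
  rw [h, h2] at h1
  exact cub_inj Nat.card_pos Nat.card_pos h1.symm

theorem sm_top (p : ℕ) [hp : Fact p.Prime] [CharP F p] {k : Subfield F} (h : Nat.card k = Nat.card F) : sm k F = sm F F := by
  haveI : Finite (OnePoint F) := inferInstanceAs (Finite (Option F))
  haveI : Finite (Equiv.Perm (OnePoint F)) := inferInstance
  apply Subgroup.eq_of_le_of_card_ge (sm_le_sm k)
  have h1 := card_smk k
  have h2 := card_sm (F := F)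
  rw [gcd_sub p, h, ← h2] at h1
  exact (Nat.eq_of_mul_eq_mul_left (Nat.gcd_pos_of_pos_left _ (by norm_num)) h1).ge

/-- maximal subgroups, `q` even -/
theorem even_list [CharP F 2] (h4 : 4 ≤ Nat.card F) {M : Subgroup (ProjectiveSpecialLinearGroup (Fin 2) F)} (hM : IsCoatom M) :
    Nat.card M = Nat.card F * (Nat.card F - 1) ∨
    Nonempty (M ≃* DihedralGroup (Nat.card F - 1)) ∨
    Nonempty (M ≃* DihedralGroup (Nat.card F + 1)) ∨
    (∃ (F₀ : Type) (_ : Field F₀) (_ : Fintype F₀) (r : ℕ), r.Prime ∧ Fintype.card F₀ ≠ 2 ∧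
        Nat.card F = Fintype.card F₀ ^ r ∧ Nonempty (M ≃* ProjectiveSpecialLinearGroup (Fin 2) F₀)) := by
  haveI : Fact (Nat.Prime 2) := ⟨Nat.prime_two⟩
  have hq : 1 < Nat.card F := Finite.one_lt_card
  have hmax : MaxIn (M.map (Psi F)) (sm F F) := by
    rw [← Psi_range]
    exact maxIn_of_coatom (Psi_injective F) hM
  have e : M ≃* M.map (Psi F) := M.equivMapOfInjective (Psi F) (Psi_injective F)
  have hd : 1 * Nat.card (sm F F) = Nat.card F * (Nat.card F - 1) * (Nat.card F + 1) := by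
    rw [← card_sm, gcd_two_even even_of_two hq]
  rcases max_list 2 (le_refl (sm F F)) (sm_le_pm.trans gm_range_le) (fun g hg => cj_sm hg) (by norm_num) (by norm_num) hd h4 hmax with h | h | h | h | h | h | h
  · left
    rw [← Nat.card_congr e.toEquiv] at h
    rw [one_mul, ← h, mul_comm] at hd
    exact Nat.eq_of_mul_eq_mul_right (by omega) hd
  · right; left
    rw [Nat.div_one] at h
    obtain ⟨f⟩ := h
    exact ⟨e.trans f⟩
  · right; right; left
    rw [Nat.div_one] at h
    obtain ⟨f⟩ := h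
    exact ⟨e.trans f⟩
  · exact absurd (by norm_num) h.2.1
  · exact absurd (by norm_num) h.2.1
  · rcases h.2.1 with h | h
    · norm_num at h
    · exact absurd (by norm_num) h
  · right; right; right
    obtain ⟨h, hh, k, hk3, hmk, hk⟩ := h
    have hk' : cj h (M.map (Psi F)) = sm k F := by
      rcases hk with hk | hk
      · exact hk
      · rw [hk, pm_eq_sm]
    rw [hk'] at hmk
    have hne : Nat.card k ≠ Nat.card F := by
      intro h1
      exact hmk.1.ne (sm_top 2 h1)
    obtain ⟨r, hr, hkr⟩ := deg_prime (fun k => sm k F) (fun _ _ h => sm_mono h) (fun k' => sm_le_sm k') (fun k k' h => sm_inj 2 h)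
      (fun k' h1 h2 => h1.ne (sm_inj_top 2 (by rw [h2]))) hne hmk
    obtain ⟨f⟩ := iso_of_conj hk'
    obtain ⟨f'⟩ := sm_iso (k := k) (F := F)
    obtain ⟨F₀, i1, i2, hc, ⟨f''⟩, -⟩ := exists_type0 k
    exact ⟨F₀, i1, i2, r, hr, by rw [hc]; omega, by rw [hc, hkr], ⟨(f.trans f').trans f''⟩⟩

end

end CfsgLib.Mob36
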