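import Cfsg.Agent.Lib.SL2
import Cfsg.Agent.Lib.Quat
import Cfsg.Agent.Lib.PSLOrd
/-!
Involutions and Sylow 2-subgroups of `PSL(2,q)`, `q` odd.
-/
set_option autoImplicit false
set_option maxHeartbeats 400000

namespace CfsgLib.PSL2Fus

open Matrix

section SL
variable {F : Type*} [Field F]

theorem sum_two_squares [Fintype F] (hodd : Fintype.card F % 2 = 1) (c : F) :
    ∃ u t : F, u ^ 2 + t ^ 2 = c := by
  obtain ⟨a, b, h⟩ := FiniteField.exists_root_sum_quadratic (R := F) (f := Polynomial.X ^ 2)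
    (g := Polynomial.X ^ 2 - Polynomial.C c) (Polynomial.degree_X_pow 2)
    (Polynomial.degree_X_pow_sub_C (by decide) _) hodd
  simp only [Polynomial.eval_pow, Polynomial.eval_X, Polynomial.eval_sub, Polynomial.eval_C] at h
  exact ⟨a, b, by linear_combination h⟩

theorem two_ne_zero_of_odd [Fintype F] (hodd : Fintype.card F % 2 = 1) : (2 : F) ≠ 0 := by
  intro h
  have : CharP F 2 := CharTwo.of_one_ne_zero_of_two_eq_zero one_ne_zero h
  have h2 := (FiniteField.even_card_iff_char_two (F := F)).1 (ringChar.eq F 2)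
  omega

theorem exists_repr [Fintype F] (hodd : Fintype.card F % 2 = 1) {a b c : F}
    (h : a * a + b * c = -1) : ∃ s t : F, c * s ^ 2 - 2 * a * s * t - b * t ^ 2 = 1 := by
  have h2 := two_ne_zero_of_odd hodd
  by_cases hc : c = 0
  · by_cases hb : b = 0
    · subst hc hb
      have ha : a ≠ 0 := by
        rintro rfl
        simp at h
      refine ⟨1, -(2 * a)⁻¹, ?_⟩
      field_simp
      ring
    · obtain ⟨u, s, hus⟩ := sum_two_squares hodd (-b)
      refine ⟨s, (u - a * s) / b, ?_⟩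
      subst hc
      have e : b * ((u - a * s) / b) = u - a * s := by field_simp
      have : -b * (0 * s ^ 2 - 2 * a * s * ((u - a * s) / b) - b * ((u - a * s) / b) ^ 2) = -b := by
        linear_combination hus - s ^ 2 * h + (2 * a * s + b * ((u - a * s) / b) + (u - a * s)) * e
      have hb' : -b ≠ 0 := neg_ne_zero.2 hb
      exact mul_left_cancel₀ hb' (by rw [this, mul_one])
  · obtain ⟨u, t, hut⟩ := sum_two_squares hodd c
    refine ⟨(u + a * t) / c, t, ?_⟩
    have e : c * ((u + a * t) / c) = u + a * t := by field_simp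
    have : c * (c * ((u + a * t) / c) ^ 2 - 2 * a * ((u + a * t) / c) * t - b * t ^ 2) = c := by
      linear_combination hut - t ^ 2 * h + (c * ((u + a * t) / c) + (u + a * t) - 2 * a * t) * e
    exact mul_left_cancel₀ hc (by rw [this, mul_one])

/-- the standard element of order 4 -/
def w : SpecialLinearGroup (Fin 2) F := ⟨!![0, -1; 1, 0], by simp [Matrix.det_fin_two]⟩

theorem exists_conj_w [Fintype F] (hodd : Fintype.card F % 2 = 1) (x : SpecialLinearGroup (Fin 2) F)
    (hx : x * x = -1) : ∃ g : SpecialLinearGroup (Fin 2) F, x * g = g * w := by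
  obtain ⟨x, hdet⟩ := x
  have hx' : x * x = -1 := by
    exact congrArg Subtype.val hx
  rw [Matrix.det_fin_two] at hdet
  have e00 := congrFun (congrFun hx' 0) 0
  have e01 := congrFun (congrFun hx' 0) 1
  have e10 := congrFun (congrFun hx' 1) 0
  have e11 := congrFun (congrFun hx' 1) 1
  simp only [Matrix.mul_apply, Fin.sum_univ_two, Matrix.neg_apply, Matrix.one_apply_eq,
    Matrix.one_apply_ne (by decide : (0 : Fin 2) ≠ 1), Matrix.one_apply_ne (by decide : (1 : Fin 2) ≠ 0)] at e00 e01 e10 e11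
  set a := x 0 0 with ha
  set b := x 0 1 with hb
  set c := x 1 0 with hc
  set d := x 1 1 with hd
  have hd' : d = -a := by
    by_contra hne
    have hne' : a + d ≠ 0 := fun h => hne (by linear_combination h)
    have hb0 : b = 0 := by
      have : b * (a + d) = 0 := by linear_combination e01
      exact (mul_eq_zero.1 this).resolve_right hne'
    rw [hb0] at e00 hdet
    apply hne'
    have h1 : a * (a + d) = 0 := by linear_combination e00 + hdet
    have ha0 : a ≠ 0 := by
      intro h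
      rw [h] at hdet
      simp at hdet
    exact (mul_eq_zero.1 h1).resolve_left ha0
  have h1 : a * a + b * c = -1 := by linear_combination e00
  obtain ⟨s, t, hst⟩ := exists_repr hodd h1
  refine ⟨⟨!![s, a * s + b * t; t, c * s - a * t], ?_⟩, ?_⟩
  · rw [Matrix.det_fin_two_of]
    linear_combination hst
  · apply Subtype.ext
    show x * !![s, a * s + b * t; t, c * s - a * t] = !![s, a * s + b * t; t, c * s - a * t] * !![0, -1; 1, 0]
    ext i j
    fin_cases i <;> fin_cases j <;>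
      simp [Matrix.mul_apply, Fin.sum_univ_two, ← ha, ← hb, ← hc, ← hd, hd']
    · linear_combination s * h1
    · ring
    · linear_combination t * h1

theorem mk_eq_one_iff' (hc2 : (2 : F) ≠ 0) (s : SpecialLinearGroup (Fin 2) F) :
    (QuotientGroup.mk s : ProjectiveSpecialLinearGroup (Fin 2) F) = 1 ↔ s = 1 ∨ s = -1 := by
  rw [PSLOrd.mk_eq_one_iff]
  constructor
  · rintro ⟨c, hc⟩
    have hdet := s.2
    rw [hc, Matrix.det_smul, Matrix.det_one, mul_one, Fintype.card_fin] at hdet
    have : (c - 1) * (c + 1) = 0 := by linear_combination hdet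
    rcases mul_eq_zero.1 this with h | h
    · left
      apply Subtype.ext
      rw [hc, sub_eq_zero.1 h, one_smul]; rfl
    · right
      apply Subtype.ext
      rw [hc, eq_neg_of_add_eq_zero_left h]
      simp
  · rintro (rfl | rfl)
    · exact ⟨1, by simp⟩
    · exact ⟨-1, by simp⟩

/-- one class of involutions in `PSL(2,q)`. -/
theorem exists_conj_of_order_two [Fintype F] (hodd : Fintype.card F % 2 = 1)
    {x y : ProjectiveSpecialLinearGroup (Fin 2) F} (hx : orderOf x = 2) (hy : orderOf y = 2) :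
    ∃ g, g * x * g⁻¹ = y := by
  have h2 := two_ne_zero_of_odd hodd
  have key : ∀ x : ProjectiveSpecialLinearGroup (Fin 2) F, orderOf x = 2 →
      ∃ g, g⁻¹ * x * g = QuotientGroup.mk w := by
    intro x hx
    obtain ⟨s, rfl⟩ := QuotientGroup.mk_surjective x
    have hs2 : (QuotientGroup.mk (s * s) : ProjectiveSpecialLinearGroup (Fin 2) F) = 1 := by
      rw [QuotientGroup.mk_mul, ← pow_two]
      have := pow_orderOf_eq_one (QuotientGroup.mk s : ProjectiveSpecialLinearGroup (Fin 2) F)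
      rwa [hx] at this
    rcases (mk_eq_one_iff' h2 _).1 hs2 with h | h
    · exfalso
      have h1 : (QuotientGroup.mk s : ProjectiveSpecialLinearGroup (Fin 2) F) = 1 := by
        rw [mk_eq_one_iff' h2]
        by_cases hs : s = 1
        · exact Or.inl hs
        · right
          exact Subtype.ext (by simpa using CfsgLib.SL2.eq_neg_one_of_mul_self h2 s hs h)
      rw [h1, orderOf_one] at hx
      omega
    · obtain ⟨g, hg⟩ := exists_conj_w hodd s h
      refine ⟨QuotientGroup.mk g, ?_⟩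
      rw [← QuotientGroup.mk_inv, ← QuotientGroup.mk_mul, ← QuotientGroup.mk_mul, mul_assoc, hg,
        inv_mul_cancel_left]
  obtain ⟨g, hg⟩ := key x hx
  obtain ⟨k, hk⟩ := key y hy
  refine ⟨k * g⁻¹, ?_⟩
  calc k * g⁻¹ * x * (k * g⁻¹)⁻¹ = k * (g⁻¹ * x * g) * k⁻¹ := by group
    _ = y := by rw [hg, ← hk]; group

/-- a noncommutative 2-subgroup of `SL(2,q)`. -/
theorem exists_noncomm [Fintype F] (hodd : Fintype.card F % 2 = 1) :
    ∃ (P : Subgroup (SpecialLinearGroup (Fin 2) F)), IsPGroup 2 P ∧ ∃ x ∈ P, ∃ y ∈ P, x * y ≠ y * x := by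
  have h2 := two_ne_zero_of_odd hodd
  obtain ⟨a, b, hab⟩ := sum_two_squares hodd (-1 : F)
  set v : SpecialLinearGroup (Fin 2) F := ⟨!![a, b; b, -a], by
    rw [Matrix.det_fin_two_of]; linear_combination -hab⟩ with hv
  have hw2 : (w : SpecialLinearGroup (Fin 2) F) * w = -1 := by
    apply Subtype.ext
    show !![0, -1; 1, 0] * !![0, -1; 1, 0] = -(1 : Matrix (Fin 2) (Fin 2) F)
    ext i j
    fin_cases i <;> fin_cases j <;> simp [Matrix.mul_apply, Fin.sum_univ_two]
  have hv2 : v * v = -1 := by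
    apply Subtype.ext
    show !![a, b; b, -a] * !![a, b; b, -a] = -(1 : Matrix (Fin 2) (Fin 2) F)
    ext i j
    fin_cases i <;> fin_cases j <;> simp [Matrix.mul_apply, Fin.sum_univ_two]
    · linear_combination hab
    · ring
    · ring
    · linear_combination hab
  have hvw : v * w = - (w * v) := by
    apply Subtype.ext
    show !![a, b; b, -a] * !![0, -1; 1, 0] = -(!![0, -1; 1, 0] * !![a, b; b, -a])
    ext i j
    fin_cases i <;> fin_cases j <;> simp [Matrix.mul_apply, Fin.sum_univ_two]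
  have hn1 : ∀ u : SpecialLinearGroup (Fin 2) F, u ≠ -u := by
    intro u hu
    have hu' : (u : Matrix (Fin 2) (Fin 2) F) = -u := congrArg Subtype.val hu
    have h3 : (u : Matrix (Fin 2) (Fin 2) F) = 0 := by
      have : (2 : F) • (u : Matrix (Fin 2) (Fin 2) F) = 0 := by
        rw [two_smul]; nth_rewrite 2 [hu']; simp
      exact (smul_eq_zero.1 this).resolve_left h2
    have h4 := u.2
    rw [h3, Matrix.det_zero] at h4
    exact zero_ne_one h4
  have hpg : ∀ u : SpecialLinearGroup (Fin 2) F, u * u = -1 → IsPGroup 2 (Subgroup.zpowers u) := by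
    intro u hu
    apply IsPGroup.of_card (n := 2)
    rw [Nat.card_zpowers]
    have h4 : u ^ 2 ^ 2 = 1 := by
      have : u ^ 2 ^ 2 = (u * u) * (u * u) := by
        rw [show 2 ^ 2 = 2 + 2 from rfl, pow_add, pow_two]
      rw [this, hu]; simp
    have h5 : ¬ u ^ 2 ^ 1 = 1 := by
      rw [pow_one, pow_two, hu]
      intro h
      exact hn1 1 h.symm
    exact orderOf_eq_prime_pow h5 h4
  refine ⟨Subgroup.zpowers v ⊔ Subgroup.zpowers w, ?_, v, ?_, w, ?_, ?_⟩
  · apply IsPGroup.to_sup_of_normal_right' (hpg v hv2) (hpg w hw2)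
    rw [Subgroup.zpowers_le]
    have hcv : v * w * v⁻¹ = w⁻¹ := by
      rw [hvw, mul_inv_eq_iff_eq_mul]
      have : w⁻¹ = -(w : SpecialLinearGroup (Fin 2) F) := by
        rw [inv_eq_iff_mul_eq_one]
        rw [mul_neg, hw2, neg_neg]
      rw [this, neg_mul]
    have hcv2 : v⁻¹ * w * v⁻¹⁻¹ = w⁻¹ := by
      have h5 : v⁻¹ * (v * w * v⁻¹) * v = v⁻¹ * w⁻¹ * v := by rw [hcv]
      have h6 : w = v⁻¹ * w⁻¹ * v := by rw [← h5]; group
      have h7 : w⁻¹ = v⁻¹ * w * v := by
        have := congrArg (·⁻¹) h6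
        simpa [mul_assoc] using this
      rw [h7]; group
    rw [Subgroup.mem_normalizer_iff]
    have hzp : ∀ (u : SpecialLinearGroup (Fin 2) F), u * w * u⁻¹ = w⁻¹ → ∀ x ∈ Subgroup.zpowers (w : SpecialLinearGroup (Fin 2) F),
        u * x * u⁻¹ ∈ Subgroup.zpowers (w : SpecialLinearGroup (Fin 2) F) := by
      rintro u hu x ⟨k, rfl⟩
      show u * w ^ k * u⁻¹ ∈ _
      rw [← conj_zpow, hu]
      exact Subgroup.zpow_mem _ (Subgroup.inv_mem _ (Subgroup.mem_zpowers _)) _
    intro x
    refine ⟨fun hx => hzp v hcv x hx, fun hx => ?_⟩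
    have := hzp v⁻¹ hcv2 _ hx
    have e : v⁻¹ * (v * x * v⁻¹) * v⁻¹⁻¹ = x := by group
    rwa [e] at this
  · exact le_sup_left (a := Subgroup.zpowers v) (Subgroup.mem_zpowers v)
  · exact le_sup_right (a := Subgroup.zpowers v) (Subgroup.mem_zpowers w)
  · rw [hvw]
    exact fun h => hn1 _ h.symm

end SL

section Dih
variable {D : Type*} [Group D]

/-- automorphisms of a dihedral-like group are of 2-power order. -/
theorem dih_aut {A X : D} {n : ℕ} (hA : orderOf A = 2 ^ (n + 2))
    (hD : ∀ g : D, (∃ i : ℤ, g = A ^ i) ∨ ∃ i : ℤ, g = X * A ^ i)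
    (hinv : ∀ i : ℤ, (X * A ^ i) ^ 2 = 1) (α : MulAut D) : ∃ m, α ^ (2 ^ m) = 1 := by
  have hαA : ∃ k : ℕ, α A = A ^ k := by
    classical
    rcases hD (α A) with ⟨i, hi⟩ | ⟨i, hi⟩
    · have hf : IsOfFinOrder A := by
        rw [← orderOf_pos_iff, hA]; positivity
      have h1 : α A ∈ Subgroup.zpowers A := ⟨i, hi.symm⟩
      rw [hf.mem_zpowers_iff_mem_range_orderOf] at h1
      obtain ⟨k, -, hk⟩ := Finset.mem_image.1 h1
      exact ⟨k, hk.symm⟩
    · exfalso
      have h1 : (α A) ^ 2 = 1 := by rw [hi]; exact hinv i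
      have h2 : orderOf (α A) = orderOf A := orderOf_injective α.toMonoidHom α.injective A
      have h3 := orderOf_dvd_of_pow_eq_one h1
      rw [h2, hA, pow_add] at h3
      have h4 := Nat.le_of_dvd (by norm_num) h3
      have h5 : 1 ≤ 2 ^ n := Nat.one_le_two_pow
      omega
  obtain ⟨k, hk⟩ := hαA
  have hpow : ∀ j : ℕ, (α ^ j) A = A ^ k ^ j := by
    intro j
    induction j with
    | zero => simp
    | succ j ih => rw [pow_succ', MulAut.mul_apply, ih, map_pow, hk, ← pow_mul, ← pow_succ']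
  have hkodd : Nat.Coprime k (2 ^ (n + 2)) := by
    rw [Nat.coprime_comm, Nat.coprime_pow_left_iff (by omega), Nat.coprime_two_left, Nat.odd_iff]
    by_contra h
    have h0 : k % 2 = 0 := by omega
    obtain ⟨l, rfl⟩ := Nat.dvd_of_mod_eq_zero h0
    have h1 : (α A) ^ (2 ^ (n + 1)) = 1 := by
      have e : 2 * l * 2 ^ (n + 1) = 2 ^ (n + 2) * l := by ring
      rw [hk, ← pow_mul, e, pow_mul, ← hA, pow_orderOf_eq_one, one_pow]
    have h2 : orderOf (α A) = orderOf A := orderOf_injective α.toMonoidHom α.injective A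
    have h3 := orderOf_dvd_of_pow_eq_one h1
    rw [h2, hA] at h3
    have := (Nat.pow_dvd_pow_iff_le_right (by norm_num)).1 h3
    omega
  -- a power of `α` fixes `A`
  have hfix : (α ^ 2 ^ (n + 1)) A = A := by
    rw [hpow]
    have h1 : k ^ 2 ^ (n + 1) ≡ 1 [MOD 2 ^ (n + 2)] := by
      have := Nat.ModEq.pow_totient hkodd
      rwa [Nat.totient_prime_pow Nat.prime_two (by omega), show n + 2 - 1 = n + 1 by omega,
        show 2 - 1 = 1 from rfl, mul_one] at this
    rw [← hA] at h1
    have := pow_eq_pow_iff_modEq.2 h1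
    rwa [pow_one] at this
  set β := α ^ 2 ^ (n + 1) with hβ
  have hβA : ∀ i : ℤ, β (A ^ i) = A ^ i := fun i => by rw [map_zpow, hfix]
  have hβX : ∃ j : ℤ, β X = X * A ^ j := by
    rcases hD (β X) with ⟨i, hi⟩ | h
    · refine ⟨0, ?_⟩
      have : X = A ^ i := β.injective (by rw [hi, hβA])
      rw [this, hβA]; simp
    · exact h
  obtain ⟨j, hj⟩ := hβX
  have hβm : ∀ m : ℕ, (β ^ m) X = X * A ^ (j * m) := by
    intro m
    induction m with
    | zero => simp
    | succ m ih =>
      rw [pow_succ', MulAut.mul_apply, ih, map_mul, hβA, hj, mul_assoc, ← _root_.zpow_add]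
      congr 2; push_cast; ring
  have hβmA : ∀ m : ℕ, ∀ i : ℤ, (β ^ m) (A ^ i) = A ^ i := by
    intro m i
    induction m with
    | zero => simp
    | succ m ih => rw [pow_succ', MulAut.mul_apply, ih, hβA]
  refine ⟨(n + 1) + (n + 2), ?_⟩
  rw [pow_add, pow_mul, ← hβ]
  have hX : (β ^ 2 ^ (n + 2)) X = X := by
    rw [hβm, ← hA, mul_comm, _root_.zpow_mul, zpow_natCast, pow_orderOf_eq_one, _root_.one_zpow, mul_one]
  ext g
  rcases hD g with ⟨i, rfl⟩ | ⟨i, rfl⟩
  · rw [hβmA]; rfl
  · rw [map_mul, hX, hβmA]; rfl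

end Dih

section Syl
variable {F : Type*} [Field F]

/-- the Sylow 2-subgroups of `PSL(2,q)` are dihedral-like. -/
theorem sylow_dih [Fintype F] (hodd : Fintype.card F % 2 = 1) (h16 : 16 ∣ Fintype.card F ^ 2 - 1)
    (S : Sylow 2 (ProjectiveSpecialLinearGroup (Fin 2) F)) :
    ∃ (A X : S) (n : ℕ), orderOf A = 2 ^ (n + 2) ∧
      (∀ g : S, (∃ i : ℤ, g = A ^ i) ∨ ∃ i : ℤ, g = X * A ^ i) ∧ (∀ i : ℤ, (X * A ^ i) ^ 2 = 1) := by
  have hp : Fact (Nat.Prime 2) := ⟨Nat.prime_two⟩
  have h2 := two_ne_zero_of_odd hodd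
  let π : SpecialLinearGroup (Fin 2) F →* ProjectiveSpecialLinearGroup (Fin 2) F := QuotientGroup.mk' _
  have hπ : ∀ s, π s = 1 ↔ s = 1 ∨ s = -1 := fun s => mk_eq_one_iff' h2 s
  set S' := (S : Subgroup (ProjectiveSpecialLinearGroup (Fin 2) F)).comap π with hS'
  have hneg2 : (-1 : SpecialLinearGroup (Fin 2) F) ^ 2 = 1 := by rw [neg_one_sq]
  have hker : IsPGroup 2 π.ker := by
    rintro ⟨x, hx⟩
    refine ⟨1, Subtype.ext ?_⟩
    rcases (hπ x).1 hx with rfl | rfl
    · simp
    · simpa using hneg2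
  have hS'p : IsPGroup 2 S' := S.isPGroup'.comap_of_ker_isPGroup π hker
  -- orders
  have hcard : 8 ∣ Nat.card (ProjectiveSpecialLinearGroup (Fin 2) F) := by
    have h := CfsgLib.SL2.gcd_mul_card_PSL2 (F := F)
    have hq := Fintype.card_pos (α := F)
    set q := Fintype.card F with hqd
    have hg : Nat.gcd 2 (q - 1) = 2 := by
      apply Nat.gcd_eq_left
      omega
    rw [hg] at h
    have h3 : q * (q - 1) * (q + 1) = q * (q ^ 2 - 1) := by
      rw [mul_assoc]; congr 1
      zify [hq, Nat.one_le_pow 2 q hq]; ring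
    rw [h3] at h
    have h4 : 16 ∣ 2 * Nat.card (ProjectiveSpecialLinearGroup (Fin 2) F) := by
      rw [h]; exact Dvd.dvd.mul_left h16 _
    exact Nat.dvd_of_mul_dvd_mul_left (by norm_num : 0 < 2) h4
  have hScard : 8 ∣ Nat.card S := by
    have := S.pow_dvd_card_of_pow_dvd_card (n := 3) (by simpa using hcard)
    simpa using this
  have hneg1 : (-1 : SpecialLinearGroup (Fin 2) F) ≠ 1 := by
    intro h
    have h3 := congrFun (congrFun (congrArg Subtype.val h) 0) 0
    simp at h3
    apply h2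
    linear_combination -h3
  have hzS : (-1 : SpecialLinearGroup (Fin 2) F) ∈ S' := by
    show π (-1) ∈ (S : Subgroup (ProjectiveSpecialLinearGroup (Fin 2) F))
    rw [(hπ _).2 (Or.inr rfl)]; exact Subgroup.one_mem _
  have huniq : ∀ x : S', x ^ 2 = 1 → x = 1 ∨ x = ⟨-1, hzS⟩ := by
    intro x hx
    by_cases h : x = 1
    · exact Or.inl h
    right
    apply Subtype.ext
    have hx' : (x : SpecialLinearGroup (Fin 2) F) * x = 1 := by
      rw [← pow_two]; exact congrArg Subtype.val hx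
    have h3 := CfsgLib.SL2.eq_neg_one_of_mul_self h2 (x : SpecialLinearGroup (Fin 2) F)
      (fun h4 => h (Subtype.ext h4)) hx'
    exact Subtype.ext (by simpa using h3)
  have hquat := CfsgLib.Quat.unique_involution hS'p ⟨-1, hzS⟩
    (fun h => hneg1 (congrArg Subtype.val h)) (Subtype.ext hneg2) huniq
  -- not cyclic
  have hnc : ¬ IsCyclic S' := by
    intro hcyc
    obtain ⟨P, hP, x, hx, y, hy, hxy⟩ := exists_noncomm (F := F) hodd
    obtain ⟨Q, hQ⟩ := (hP.map π).exists_le_sylow
    obtain ⟨g, hg⟩ := MulAction.exists_smul_eq (ProjectiveSpecialLinearGroup (Fin 2) F) Q S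
    obtain ⟨k, hk⟩ := QuotientGroup.mk_surjective g
    have hmem : ∀ u ∈ P, k * u * k⁻¹ ∈ S' := by
      intro u hu
      show π (k * u * k⁻¹) ∈ (S : Subgroup (ProjectiveSpecialLinearGroup (Fin 2) F))
      rw [← hg, map_mul, map_mul, map_inv]
      have h5 : π u ∈ (Q : Subgroup (ProjectiveSpecialLinearGroup (Fin 2) F)) :=
        hQ (Subgroup.mem_map_of_mem π hu)
      have h6 : π k = g := hk
      rw [h6]
      exact Subgroup.smul_mem_pointwise_smul _ (MulAut.conj g) _ h5
    letI := hcyc.commGroup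
    have h7 : (⟨_, hmem x hx⟩ : S') * ⟨_, hmem y hy⟩ = ⟨_, hmem y hy⟩ * ⟨_, hmem x hx⟩ := by
      exact mul_comm _ _
    have h8 : k * x * k⁻¹ * (k * y * k⁻¹) = k * y * k⁻¹ * (k * x * k⁻¹) := congrArg Subtype.val h7
    apply hxy
    have h9 : k * (x * y) * k⁻¹ = k * (y * x) * k⁻¹ := by
      calc k * (x * y) * k⁻¹ = k * x * k⁻¹ * (k * y * k⁻¹) := by group
        _ = k * y * k⁻¹ * (k * x * k⁻¹) := h8
        _ = k * (y * x) * k⁻¹ := by group
    exact mul_left_cancel (mul_right_cancel h9)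
  obtain ⟨n, ⟨e⟩⟩ := hquat.resolve_left hnc
  -- the map to `S`
  have hπS : ∀ x : S', π x ∈ (S : Subgroup (ProjectiveSpecialLinearGroup (Fin 2) F)) := fun x => x.2
  let ρ : S' →* S := (π.comp S'.subtype).codRestrict _ hπS
  have hρsurj : Function.Surjective ρ := by
    rintro ⟨y, hy⟩
    obtain ⟨x, rfl⟩ := QuotientGroup.mk_surjective y
    exact ⟨⟨x, hy⟩, rfl⟩
  have hρ : ∀ x : S', ρ x = 1 ↔ x = 1 ∨ x = ⟨-1, hzS⟩ := by
    intro x
    have h3 : ρ x = 1 ↔ π x = 1 := by
      constructor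
      · intro h; exact congrArg Subtype.val h
      · intro h; exact Subtype.ext h
    rw [h3, hπ]
    constructor
    · rintro (h | h)
      · exact Or.inl (Subtype.ext h)
      · exact Or.inr (Subtype.ext h)
    · rintro (h | h)
      · exact Or.inl (congrArg Subtype.val h)
      · exact Or.inr (congrArg Subtype.val h)
  have hz2 : (⟨-1, hzS⟩ : S') ^ 2 = 1 := Subtype.ext hneg2
  have hz1 : (⟨-1, hzS⟩ : S') ≠ 1 := fun h => hneg1 (congrArg Subtype.val h)
  set z : S' := ⟨-1, hzS⟩ with hz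
  -- order of `S'`
  have hS'card : 16 ∣ Nat.card S' := by
    have h3 := ρ.ker.card_mul_index
    have h4 : ρ.ker.index = Nat.card S := by
      rw [Subgroup.index_ker, MonoidHom.range_eq_top.2 hρsurj, Subgroup.card_top]
    have h5 : 2 ∣ Nat.card ρ.ker := by
      have h6 : orderOf (⟨z, (hρ z).2 (Or.inr rfl)⟩ : ρ.ker) = 2 := by
        rw [← Subgroup.orderOf_coe]
        exact orderOf_eq_prime hz2 hz1
      have h7 := orderOf_dvd_natCard (⟨z, (hρ z).2 (Or.inr rfl)⟩ : ρ.ker)
      rwa [h6] at h7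
    rw [← h3, h4]
    obtain ⟨a, ha⟩ := h5
    obtain ⟨b, hb⟩ := hScard
    rw [ha, hb]
    exact ⟨a * b, by ring⟩
  have hcardQ : Nat.card S' = 4 * 2 ^ n := by
    rw [Nat.card_congr e.toEquiv, Nat.card_eq_fintype_card, QuaternionGroup.card]
  have hn2 : 2 ≤ n := by
    rw [hcardQ] at hS'card
    have := Nat.le_of_dvd (by positivity) hS'card
    by_contra hlt
    have h5 : n = 0 ∨ n = 1 := by omega
    rcases h5 with rfl | rfl <;> norm_num at this
  obtain ⟨m, rfl⟩ := Nat.exists_eq_add_of_le hn2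
  -- the elements
  have haz : e.symm (QuaternionGroup.a (2 ^ (2 + m) : ℕ)) = z := by
    have h3 : (e.symm (QuaternionGroup.a (2 ^ (2 + m) : ℕ))) ^ 2 = 1 := by
      rw [← map_pow]
      have : (QuaternionGroup.a ((2 ^ (2 + m) : ℕ) : ZMod (2 * 2 ^ (2 + m)))) ^ 2 = 1 := by
        rw [pow_two, QuaternionGroup.a_mul_a, QuaternionGroup.one_def]
        congr 1
        rw [← Nat.cast_add, ← two_mul]
        exact ZMod.natCast_self _
      rw [this, map_one]
    refine (huniq _ h3).resolve_left ?_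
    rw [MulEquiv.map_eq_one_iff, QuaternionGroup.one_def]
    intro h4
    have h5 : ((2 ^ (2 + m) : ℕ) : ZMod (2 * 2 ^ (2 + m))) = 0 := by
      injection h4
    rw [ZMod.natCast_eq_zero_iff] at h5
    have := Nat.le_of_dvd (by positivity) h5
    have h6 : 0 < 2 ^ (2 + m) := by positivity
    omega
  set at' : S' := e.symm (QuaternionGroup.a 1) with hat
  set xt : S' := e.symm (QuaternionGroup.xa 0) with hxt
  have hatpow : ∀ i : ℕ, at' ^ i = e.symm (QuaternionGroup.a (i : ZMod _)) := by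
    intro i
    rw [hat, ← map_pow, QuaternionGroup.a_one_pow]
  have hatz : at' ^ 2 ^ (2 + m) = z := by rw [hatpow, haz]
  have hρz : ρ z = 1 := (hρ z).2 (Or.inr rfl)
  refine ⟨ρ at', ρ xt, m, ?_, ?_, ?_⟩
  · rw [add_comm m 2, add_comm 2 m]
    apply orderOf_eq_prime_pow
    · rw [← map_pow, hρ]
      rintro (h | h)
      · have h4 : at' ^ 2 ^ (2 + m) = 1 := by
          have e1 : 2 ^ (2 + m) = 2 ^ (m + 1) * 2 := by ring
          rw [e1, pow_mul, h, one_pow]
        rw [hatz] at h4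
        exact hz1 h4
      · have h4 : at' ^ 2 ^ (2 + m) = 1 := by
          have e1 : 2 ^ (2 + m) = 2 ^ (m + 1) * 2 := by ring
          rw [e1, pow_mul, h, hz2]
        rw [hatz] at h4
        exact hz1 h4
    · rw [← map_pow, show m + 1 + 1 = 2 + m by ring, hatz, hρz]
  · intro g
    obtain ⟨y, rfl⟩ := hρsurj g
    have hNe : NeZero (2 * 2 ^ (2 + m)) := ⟨by positivity⟩
    rcases hey : e y with i | i
    · left
      refine ⟨((i.val : ℕ) : ℤ), ?_⟩
      rw [zpow_natCast, ← map_pow, hatpow, ZMod.natCast_zmod_val, ← hey, MulEquiv.symm_apply_apply]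
    · right
      refine ⟨((i.val : ℕ) : ℤ), ?_⟩
      rw [zpow_natCast, ← map_pow, hatpow, ZMod.natCast_zmod_val, hxt, ← map_mul, ← map_mul,
        QuaternionGroup.xa_mul_a, zero_add, ← hey, MulEquiv.symm_apply_apply]
  · intro i
    have h3 : ∃ j : ZMod (2 * 2 ^ (2 + m)), xt * at' ^ i = e.symm (QuaternionGroup.xa j) := by
      rw [hxt, hat, ← map_zpow, ← map_mul]
      rcases hq : (QuaternionGroup.a 1 : QuaternionGroup (2 ^ (2 + m))) ^ i with j | j
      · refine ⟨j, ?_⟩
        rw [QuaternionGroup.xa_mul_a, zero_add]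
      · exfalso
        have h6 : ∀ i : ℤ, ∃ j, (QuaternionGroup.a 1 : QuaternionGroup (2 ^ (2 + m))) ^ i = QuaternionGroup.a j := by
          intro i
          have h7 : (QuaternionGroup.a 1 : QuaternionGroup (2 ^ (2 + m))) ^ i ∈ Subgroup.zpowers (QuaternionGroup.a 1) := ⟨i, rfl⟩
          obtain ⟨k, hk⟩ := (mem_powers_iff_mem_zpowers.2 h7 : _ ∈ Submonoid.powers _)
          refine ⟨k, ?_⟩
          rw [← hk]
          exact QuaternionGroup.a_one_pow k
        obtain ⟨k, hk⟩ := h6 i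
        rw [hk] at hq
        exact absurd hq (by simp)
    obtain ⟨j, hj⟩ := h3
    rw [← map_zpow, ← map_mul, ← map_pow, hj, ← map_pow]
    have h4 : (QuaternionGroup.xa j : QuaternionGroup (2 ^ (2 + m))) ^ 2 = QuaternionGroup.a ((2 ^ (2 + m) : ℕ) : ZMod _) := by
      rw [pow_two, QuaternionGroup.xa_mul_xa, add_sub_cancel_right]
    rw [h4, haz, hρz]

end Syl

end CfsgLib.PSL2Fus
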