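import Mathlib
set_option autoImplicit false
set_option linter.style.haveILetI false
set_option linter.unusedSectionVars false

/-! Orbits of quadratic forms in characteristic two. -/

namespace CfsgLib.QF
open Matrix Module

section trans
variable {F : Type*} [Field F] {V : Type*} [AddCommGroup V] [Module F V] [FiniteDimensional F V]

theorem sumExtend_inl {ι : Type*} {v : ι → V} (hv : LinearIndependent F v) (i : ι) : Basis.sumExtend hv (Sum.inl i) = v i := by
  simp only [Basis.sumExtend, Basis.coe_reindex, Basis.coe_extend, Function.comp_apply]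
  rfl

/-- transitivity on independent families -/
theorem exists_equiv {ι : Type*} [Fintype ι] {v v' : ι → V} (hv : LinearIndependent F v) (hv' : LinearIndependent F v') :
    ∃ g : V ≃ₗ[F] V, ∀ i, g (v i) = v' i := by
  classical
  let b := Basis.sumExtend hv
  let b' := Basis.sumExtend hv'
  haveI h1 : Finite (ι ⊕ Basis.sumExtendIndex hv) := Module.Finite.finite_basis b
  haveI h2 : Finite (ι ⊕ Basis.sumExtendIndex hv') := Module.Finite.finite_basis b'
  haveI : Finite (Basis.sumExtendIndex hv) := Finite.of_injective (Sum.inr : _ → ι ⊕ Basis.sumExtendIndex hv) Sum.inr_injective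
  haveI : Finite (Basis.sumExtendIndex hv') := Finite.of_injective (Sum.inr : _ → ι ⊕ Basis.sumExtendIndex hv') Sum.inr_injective
  haveI := Fintype.ofFinite (Basis.sumExtendIndex hv)
  haveI := Fintype.ofFinite (Basis.sumExtendIndex hv')
  have h3 := Module.finrank_eq_card_basis b
  have h4 := Module.finrank_eq_card_basis b'
  rw [h3, Fintype.card_sum, Fintype.card_sum] at h4
  obtain ⟨e⟩ := Fintype.card_eq.mp (Nat.add_left_cancel h4)
  refine ⟨b.equiv b' (Equiv.sumCongr (Equiv.refl ι) e), fun i => ?_⟩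
  have h5 : b (Sum.inl i) = v i := sumExtend_inl hv i
  have h6 : b' (Sum.inl i) = v' i := sumExtend_inl hv' i
  rw [← h5, Basis.equiv_apply, ← h6]
  rfl

end trans

section gl
variable {F : Type*} [Field F] {n : ℕ}

/-- a linear equivalence as a matrix -/
theorem exists_GL (g : (Fin n → F) ≃ₗ[F] (Fin n → F)) : ∃ A : GL (Fin n) F, ∀ v, A.1 *ᵥ v = g v := by
  refine ⟨⟨LinearMap.toMatrix' (g : (Fin n → F) →ₗ[F] (Fin n → F)), LinearMap.toMatrix' (g.symm : (Fin n → F) →ₗ[F] (Fin n → F)), ?_, ?_⟩, ?_⟩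
  · rw [← LinearMap.toMatrix'_comp, LinearEquiv.comp_symm, LinearMap.toMatrix'_id]
  · rw [← LinearMap.toMatrix'_comp, LinearEquiv.symm_comp, LinearMap.toMatrix'_id]
  · intro v
    exact LinearMap.toMatrix'_mulVec _ v

theorem exists_GLv {ι : Type*} [Fintype ι] {v v' : ι → Fin n → F} (hv : LinearIndependent F v) (hv' : LinearIndependent F v') :
    ∃ A : GL (Fin n) F, ∀ i, A.1 *ᵥ v i = v' i := by
  obtain ⟨g, hg⟩ := exists_equiv hv hv'
  obtain ⟨A, hA⟩ := exists_GL g
  exact ⟨A, fun i => by rw [hA, hg]⟩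

/-- the transpose -/
def tr (A : GL (Fin n) F) : GL (Fin n) F := ⟨A.1ᵀ, (A⁻¹).1ᵀ, by
  rw [← Matrix.transpose_mul, ← Units.val_mul, inv_mul_cancel, Units.val_one, Matrix.transpose_one], by
  rw [← Matrix.transpose_mul, ← Units.val_mul, mul_inv_cancel, Units.val_one, Matrix.transpose_one]⟩

theorem dot_tr (A : GL (Fin n) F) (w v : Fin n → F) : w ⬝ᵥ ((tr A).1 *ᵥ v) = (A.1 *ᵥ w) ⬝ᵥ v := by
  change w ⬝ᵥ (A.1ᵀ *ᵥ v) = _
  rw [Matrix.dotProduct_mulVec, Matrix.vecMul_transpose]

end gl

section char2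
variable {F : Type*} [Field F] [Fintype F] [CharP F 2] {m : ℕ} (Q : QuadraticForm F (Fin (m + 2) → F))

theorem two0 : (2 : F) = 0 := CharTwo.two_eq_zero

theorem sq_surj (c : F) : ∃ s : F, s * s = c := by
  obtain ⟨s, hs⟩ := FiniteField.isSquare_of_char_two (ringChar.eq F 2) c
  exact ⟨s, hs.symm⟩

/-- the orbit of a form -/
def Orb : Set ((Fin (m + 2) → F) → F) := Set.range (fun A : GL (Fin (m + 2)) F => fun v => Q (A.1 *ᵥ v))

theorem B_self (x : Fin (m + 2) → F) : Q.polarBilin x x = 0 := by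
  rw [QuadraticMap.polarBilin_apply_apply, QuadraticMap.polar_self, two_smul, ← two_mul, two0, zero_mul]

theorem B_symm (x y : Fin (m + 2) → F) : Q.polarBilin x y = Q.polarBilin y x := by
  rw [QuadraticMap.polarBilin_apply_apply, QuadraticMap.polarBilin_apply_apply, QuadraticMap.polar_comm]

theorem Q_add (x y : Fin (m + 2) → F) : Q (x + y) = Q x + Q y + Q.polarBilin x y := QuadraticMap.map_add _ _ _
theorem Q_smul (s : F) (x : Fin (m + 2) → F) : Q (s • x) = s * s * Q x := QuadraticMap.map_smul _ _ _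

theorem indep {a b : Fin (m + 2) → F} (h : Q.polarBilin a b ≠ 0) : LinearIndependent F ![a, b] := by
  rw [LinearIndependent.pair_iff]
  intro s t hst
  constructor
  · have h1 := congrArg (fun z => Q.polarBilin z b) hst
    simp only [map_add, map_smul, LinearMap.add_apply, LinearMap.smul_apply, B_self, smul_eq_mul, mul_zero, add_zero, map_zero,
      LinearMap.zero_apply] at h1
    exact (mul_eq_zero.mp h1).resolve_right h
  · have h1 := congrArg (fun z => Q.polarBilin a z) hst
    simp only [map_add, map_smul, B_self, smul_eq_mul, mul_zero, zero_add, map_zero] at h1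
    exact (mul_eq_zero.mp h1).resolve_right h

theorem caseI {a b u : Fin (m + 2) → F} (hab : Q.polarBilin a b ≠ 0) (hau : Q.polarBilin a u = 0) (hbu : Q.polarBilin b u = 0) (hu : Q u ≠ 0)
    (α1 α2 : F) (β : F) : ∃ a1 a2, Q a1 = α1 ∧ Q a2 = α2 ∧ Q.polarBilin a1 a2 = β := by
  set c := β / Q.polarBilin a b with hc
  have hcb : c * Q.polarBilin a b = β := div_mul_cancel₀ _ hab
  obtain ⟨s, hs⟩ := sq_surj ((α1 - Q (c • a)) / Q u)
  obtain ⟨t, ht⟩ := sq_surj ((α2 - Q b) / Q u)
  have hub : Q.polarBilin u b = 0 := by rw [B_symm, hbu]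
  refine ⟨c • a + s • u, b + t • u, ?_, ?_, ?_⟩
  · rw [Q_add, Q_smul Q s u, hs, div_mul_cancel₀ _ hu]
    simp only [map_smul, LinearMap.smul_apply, hau, smul_eq_mul, mul_zero]
    ring
  · rw [Q_add, Q_smul Q t u, ht, div_mul_cancel₀ _ hu]
    simp only [map_smul, hbu, smul_eq_mul, mul_zero]
    ring
  · simp only [map_add, map_smul, LinearMap.add_apply, LinearMap.smul_apply, hau, hub, B_self, smul_eq_mul, mul_zero, add_zero]
    exact hcb

theorem case1g {a1 a2 : Fin (m + 2) → F} (h : Q.polarBilin a1 a2 ≠ 0) (x y : Fin m → F) : ∃ A : GL (Fin (m + 2)) F,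
    A.1 *ᵥ Pi.single 0 1 = a1 ∧ A.1 *ᵥ Pi.single 1 1 = a2 ∧
    ∀ j : Fin m, Q.polarBilin a1 (A.1 *ᵥ Pi.single j.succ.succ 1) = x j ∧ Q.polarBilin a2 (A.1 *ᵥ Pi.single j.succ.succ 1) = y j := by
  set β := Q.polarBilin a1 a2 with hβ
  have h21 : Q.polarBilin a2 a1 = β := by rw [B_symm]
  obtain ⟨A, hA⟩ := exists_GLv (v := ![(Pi.single 0 1 : Fin (m + 2) → F), Pi.single 1 1]) (v' := ![a1, a2]) (by
    rw [LinearIndependent.pair_iff]
    intro s t hst
    have h0 := congrFun hst 0
    have h1 := congrFun hst 1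
    simp at h0 h1
    exact ⟨h0, h1⟩) (indep Q h)
  have hA0 : A.1 *ᵥ Pi.single 0 1 = a1 := hA 0
  have hA1 : A.1 *ᵥ Pi.single 1 1 = a2 := hA 1
  set s : Fin m → F := fun j => (y j - Q.polarBilin a2 (A.1 *ᵥ Pi.single j.succ.succ 1)) / β with hs
  set t : Fin m → F := fun j => (x j - Q.polarBilin a1 (A.1 *ᵥ Pi.single j.succ.succ 1)) / β with ht
  let f : (Fin (m + 2) → F) →ₗ[F] (Fin (m + 2) → F) :=
    { toFun := fun v => v + ((∑ j, s j * v j.succ.succ) • Pi.single 0 1 + (∑ j, t j * v j.succ.succ) • Pi.single 1 1)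
      map_add' := fun v w => by
        simp only [Pi.add_apply, mul_add, Finset.sum_add_distrib, add_smul]
        abel
      map_smul' := fun c v => by
        simp only [Pi.smul_apply, smul_eq_mul, RingHom.id_apply, smul_add, smul_smul, Finset.mul_sum]
        have e : ∀ r : Fin m → F, ∑ j, r j * (c * v j.succ.succ) = ∑ j, c * (r j * v j.succ.succ) := fun r =>
          Finset.sum_congr rfl fun j _ => by ring
        rw [e, e] }
  have hf : ∀ v, f v = v + ((∑ j, s j * v j.succ.succ) • Pi.single 0 1 + (∑ j, t j * v j.succ.succ) • Pi.single 1 1) := fun _ => rfl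
  have hinj : Function.Injective f := by
    rw [injective_iff_map_eq_zero]
    intro v hv
    have hj : ∀ j : Fin m, v j.succ.succ = 0 := by
      intro j
      have h0 := congrFun hv j.succ.succ
      rw [hf] at h0
      have e1 : j.succ.succ ≠ (1 : Fin (m + 2)) := by
        intro h; have := congrArg Fin.val h; simp at this
      have e0 : j.succ.succ ≠ (0 : Fin (m + 2)) := Fin.succ_ne_zero _
      simpa [Pi.single_apply, e0, e1] using h0
    rw [hf] at hv
    simpa [hj] using hv
  obtain ⟨C, hC⟩ := exists_GL (LinearEquiv.ofInjectiveEndo f hinj)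
  have hC' : ∀ v, C.1 *ᵥ v = f v := fun v => hC v
  have e0 : C.1 *ᵥ Pi.single 0 1 = Pi.single 0 1 := by
    rw [hC', hf]
    have : ∀ j : Fin m, (Pi.single 0 1 : Fin (m + 2) → F) j.succ.succ = 0 := fun j => Pi.single_eq_of_ne (Fin.succ_ne_zero _) _
    simp [this]
  have e1 : C.1 *ᵥ Pi.single 1 1 = Pi.single 1 1 := by
    rw [hC', hf]
    have : ∀ j : Fin m, (Pi.single 1 1 : Fin (m + 2) → F) j.succ.succ = 0 := fun j => Pi.single_eq_of_ne (by
      intro h; have := congrArg Fin.val h; simp at this) _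
    simp [this]
  have ej : ∀ j : Fin m, C.1 *ᵥ Pi.single j.succ.succ 1 = Pi.single j.succ.succ 1 + (s j • Pi.single 0 1 + t j • Pi.single 1 1) := by
    intro j
    rw [hC', hf]
    have : ∀ i : Fin m, (Pi.single j.succ.succ 1 : Fin (m + 2) → F) i.succ.succ = if i = j then 1 else 0 := by
      intro i
      rw [Pi.single_apply]
      simp only [Fin.succ_inj]
    simp [this]
  refine ⟨A * C, ?_, ?_, fun j => ?_⟩
  · rw [Units.val_mul, ← Matrix.mulVec_mulVec, e0, hA0]
  · rw [Units.val_mul, ← Matrix.mulVec_mulVec, e1, hA1]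
  · rw [Units.val_mul, ← Matrix.mulVec_mulVec, ej, Matrix.mulVec_add, Matrix.mulVec_add, Matrix.mulVec_smul, Matrix.mulVec_smul, hA0, hA1]
    simp only [map_add, map_smul, B_self, smul_eq_mul, mul_zero, zero_add, add_zero, h21, ← hβ]
    constructor
    · rw [ht]; field_simp; ring
    · rw [hs]; field_simp; ring

end char2

end CfsgLib.QF
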