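import Cfsg.Agent.Lib.QF1
set_option autoImplicit false
set_option linter.style.haveILetI false
set_option linter.unusedSectionVars false

/-! Orbits of quadratic forms in characteristic two: counting. -/

namespace CfsgLib.QF
open Matrix Module

section cnt
variable {F : Type*} [Field F] [Fintype F] [DecidableEq F] [CharP F 2]

/-- binary form -/
def Q2 (c1 c2 β : F) (p : F × F) : F := c1 * (p.1*p.1) + c2*(p.2*p.2) + β * (p.1*p.2)

theorem Q2_smul (c1 c2 β s : F) (p : F × F) : Q2 c1 c2 β (s • p) = s * s * Q2 c1 c2 β p := by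
  simp only [Q2, Prod.smul_fst, Prod.smul_snd, smul_eq_mul]; ring

theorem sq_inj {s t : F} (h : s * s = t * t) : s = t := by
  have h1 : (s - t) * (s - t) = 0 := by
    have : (s - t) * (s - t) = s * s - t * t - 2 * (t * (s - t)) := by ring
    rw [this, h, two0]; ring
  exact sub_eq_zero.mp (mul_self_eq_zero.mp h1)

theorem cnt1 (c1 c2 β c : F) (hc : c ≠ 0) : (Finset.univ.filter (fun p : F × F => Q2 c1 c2 β p = c)).card ≤ Fintype.card F + 1 := by
  set S := Finset.univ.filter (fun p : F × F => Q2 c1 c2 β p = c) with hS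
  have h2 : ((Finset.univ : Finset Fˣ) ×ˢ S).card ≤ ((Finset.univ : Finset (F × F)).erase 0).card := by
    refine Finset.card_le_card_of_injOn (fun z => (z.1 : F) • z.2) ?_ ?_
    · rintro ⟨s, p⟩ h
      have hp : Q2 c1 c2 β p = c := by
        have := (Finset.mem_product.mp h).2
        simpa [hS] using this
      refine Finset.mem_erase.mpr ⟨?_, Finset.mem_univ _⟩
      intro h0
      have h1 : Q2 c1 c2 β ((s : F) • p) = s * s * c := by rw [Q2_smul, hp]
      change (s : F) • p = 0 at h0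
      rw [h0] at h1
      simp only [Q2, Prod.fst_zero, Prod.snd_zero, mul_zero, add_zero] at h1
      exact mul_ne_zero (mul_ne_zero s.ne_zero s.ne_zero) hc h1.symm
    · rintro ⟨s, p⟩ h ⟨s', p'⟩ h' he
      have hp : Q2 c1 c2 β p = c := by
        have := (Finset.mem_product.mp h).2
        simpa [hS] using this
      have hp' : Q2 c1 c2 β p' = c := by
        have := (Finset.mem_product.mp h').2
        simpa [hS] using this
      change (s : F) • p = (s' : F) • p' at he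
      have h1 := congrArg (Q2 c1 c2 β) he
      rw [Q2_smul, Q2_smul, hp, hp'] at h1
      have h2 : s = s' := Units.ext (sq_inj (mul_right_cancel₀ hc h1))
      subst h2
      have h3 : p = p' := by
        have := congrArg (fun z => (s : F)⁻¹ • z) he
        simpa [smul_smul, inv_mul_cancel₀ s.ne_zero] using this
      rw [h3]
  rw [Finset.card_product, Finset.card_erase_of_mem (Finset.mem_univ _), Finset.card_univ, Finset.card_univ, Fintype.card_prod,
    Fintype.card_units] at h2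
  have hq : 1 < Fintype.card F := Fintype.one_lt_card
  obtain ⟨r, hr⟩ : ∃ r, Fintype.card F = r + 2 := ⟨Fintype.card F - 2, by omega⟩
  rw [hr] at h2 ⊢
  have e1 : (r + 2) * (r + 2) - 1 = (r + 1) * (r + 3) := by
    rw [Nat.sub_eq_iff_eq_add (by nlinarith)]; ring
  rw [e1, show r + 2 - 1 = r + 1 from rfl] at h2
  exact Nat.le_of_mul_le_mul_left h2 (by omega)

theorem cnt2 (c1 c2 β d δ : F) (p : F × F) (hp : Q2 c1 c2 β p ≠ 0) :
    (Finset.univ.filter (fun r : F × F => Q2 c1 c2 β r = d ∧ p.1 * r.2 + p.2 * r.1 = δ)).card ≤ 2 := by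
  rcases Finset.eq_empty_or_nonempty (Finset.univ.filter (fun r : F × F => Q2 c1 c2 β r = d ∧ p.1 * r.2 + p.2 * r.1 = δ)) with h | ⟨r, hr⟩
  · rw [h]; simp
  · have hr' := (Finset.mem_filter.mp hr).2
    refine (Finset.card_le_card (t := {r, r + (β * δ / Q2 c1 c2 β p) • p}) ?_).trans Finset.card_le_two
    intro s hs
    have hs' := (Finset.mem_filter.mp hs).2
    obtain ⟨τ, hτ⟩ : ∃ τ : F, s = r + τ • p := by
      by_cases h1 : p.1 = 0
      · have h2 : p.2 ≠ 0 := by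
          intro h2
          apply hp
          simp [Q2, h1, h2]
        refine ⟨(s.2 - r.2) / p.2, ?_⟩
        have h3 := hs'.2.trans hr'.2.symm
        rw [h1, zero_mul, zero_mul, zero_add, zero_add] at h3
        have h4 := mul_left_cancel₀ h2 h3
        ext
        · simp [h1, h4]
        · simp [h2]
      · refine ⟨(s.1 - r.1) / p.1, ?_⟩
        have h3 := hs'.2.trans hr'.2.symm
        ext
        · simp [h1]
        · simp only [Prod.snd_add, Prod.smul_snd, smul_eq_mul]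
          field_simp
          linear_combination h3 - (p.2 * (s.1 - r.1)) * two0 (F := F)
    have h5 : τ * (τ * Q2 c1 c2 β p + β * δ) = 0 := by
      have h6 := hs'.1.trans hr'.1.symm
      rw [hτ] at h6
      simp only [Q2, Prod.fst_add, Prod.snd_add, Prod.smul_fst, Prod.smul_snd, smul_eq_mul] at h6 ⊢
      rw [← hr'.2]
      linear_combination h6 - (c1 * r.1 * τ * p.1 + c2 * r.2 * τ * p.2) * two0 (F := F)
    rcases mul_eq_zero.mp h5 with h6 | h6
    · rw [h6, zero_smul, add_zero] at hτ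
      rw [hτ]; simp
    · have h7 : τ = β * δ / Q2 c1 c2 β p := by
        rw [eq_div_iff hp]
        linear_combination h6 - β * δ * two0 (F := F)
      rw [hτ, h7]; simp

variable {n : ℕ}

theorem fib (c1 c2 β : F) (hβ : β ≠ 0) (R : (Fin n → F) → F) (x y : Fin n → F) (hx : R x ≠ 0) (δ : F) (hδ : δ ≠ 0)
    (hxy : R (x + y) = R x + R y + β * δ) :
    (Finset.univ.filter (fun w : (Fin n → F) × (Fin n → F) => ∀ v, Q2 c1 c2 β (w.1 ⬝ᵥ v, w.2 ⬝ᵥ v) = R v)).card ≤ 2 * (Fintype.card F + 1) := by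
  classical
  set T := Finset.univ.filter (fun w : (Fin n → F) × (Fin n → F) => ∀ v, Q2 c1 c2 β (w.1 ⬝ᵥ v, w.2 ⬝ᵥ v) = R v) with hT
  set D := Finset.univ.filter (fun z : (F × F) × (F × F) => Q2 c1 c2 β z.1 = R x ∧ Q2 c1 c2 β z.2 = R y ∧ z.1.1 * z.2.2 + z.1.2 * z.2.1 = δ) with hD
  have hpol : ∀ w ∈ T, ∀ v v', β * ((w.1 ⬝ᵥ v) * (w.2 ⬝ᵥ v') + (w.2 ⬝ᵥ v) * (w.1 ⬝ᵥ v')) = R (v + v') - R v - R v' := by
    intro w hw v v'
    have h1 := (Finset.mem_filter.mp hw).2
    rw [← h1, ← h1, ← h1]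
    simp only [Q2, dotProduct_add]
    linear_combination (-(c1 * (w.1 ⬝ᵥ v) * (w.1 ⬝ᵥ v')) - c2 * (w.2 ⬝ᵥ v) * (w.2 ⬝ᵥ v')) * two0 (F := F)
  have h1 : T.card ≤ D.card := by
    refine Finset.card_le_card_of_injOn (fun w => ((w.1 ⬝ᵥ x, w.2 ⬝ᵥ x), (w.1 ⬝ᵥ y, w.2 ⬝ᵥ y))) ?_ ?_
    · intro w hw
      have h1 := (Finset.mem_filter.mp hw).2
      refine Finset.mem_filter.mpr ⟨Finset.mem_univ _, h1 x, h1 y, ?_⟩
      have h2 := hpol w hw x y
      rw [hxy] at h2
      refine mul_left_cancel₀ hβ ?_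
      rw [h2]; ring
    · intro w hw w' hw' he
      have hw1 := (Finset.mem_filter.mp hw).2
      have hw2 := (Finset.mem_filter.mp hw').2
      have e1 : w.1 ⬝ᵥ x = w'.1 ⬝ᵥ x := congrArg (fun z => z.1.1) he
      have e2 : w.2 ⬝ᵥ x = w'.2 ⬝ᵥ x := congrArg (fun z => z.1.2) he
      have e3 : w.1 ⬝ᵥ y = w'.1 ⬝ᵥ y := congrArg (fun z => z.2.1) he
      have e4 : w.2 ⬝ᵥ y = w'.2 ⬝ᵥ y := congrArg (fun z => z.2.2) he
      have hd : (w.1 ⬝ᵥ x) * (w.2 ⬝ᵥ y) + (w.2 ⬝ᵥ x) * (w.1 ⬝ᵥ y) = δ := by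
        have h2 := hpol w hw x y
        rw [hxy] at h2
        refine mul_left_cancel₀ hβ ?_
        rw [h2]; ring
      have key : ∀ v, w.1 ⬝ᵥ v = w'.1 ⬝ᵥ v ∧ w.2 ⬝ᵥ v = w'.2 ⬝ᵥ v := by
        intro v
        have a1 := mul_left_cancel₀ hβ ((hpol w hw x v).trans (hpol w' hw' x v).symm)
        have a2 := mul_left_cancel₀ hβ ((hpol w hw y v).trans (hpol w' hw' y v).symm)
        rw [← e1, ← e2] at a1
        rw [← e3, ← e4] at a2
        constructor
        · refine mul_left_cancel₀ hδ ?_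
          rw [← hd]
          linear_combination (w.1 ⬝ᵥ y) * a1 + (w.1 ⬝ᵥ x) * a2 - ((w.1 ⬝ᵥ x) * (w.1 ⬝ᵥ y) * (w.2 ⬝ᵥ v - w'.2 ⬝ᵥ v)) * two0 (F := F)
        · refine mul_left_cancel₀ hδ ?_
          rw [← hd]
          linear_combination (w.2 ⬝ᵥ y) * a1 + (w.2 ⬝ᵥ x) * a2 - ((w.2 ⬝ᵥ x) * (w.2 ⬝ᵥ y) * (w.1 ⬝ᵥ v - w'.1 ⬝ᵥ v)) * two0 (F := F)
      refine Prod.ext ?_ ?_
      · exact dotProduct_eq _ _ (fun v => (key v).1)
      · exact dotProduct_eq _ _ (fun v => (key v).2)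
  have h2 : D.card ≤ 2 * (D.image Prod.fst).card := by
    refine Finset.card_le_mul_card_image D 2 ?_
    intro p hp
    obtain ⟨z, hz, hzp⟩ := Finset.mem_image.mp hp
    have hz' := (Finset.mem_filter.mp hz).2
    have hp0 : Q2 c1 c2 β p ≠ 0 := by rw [← hzp, hz'.1]; exact hx
    refine le_trans ?_ (cnt2 c1 c2 β (R y) δ p hp0)
    refine Finset.card_le_card_of_injOn Prod.snd ?_ ?_
    · intro z hz
      obtain ⟨h3, h4⟩ := Finset.mem_filter.mp hz
      have h5 := (Finset.mem_filter.mp h3).2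
      refine Finset.mem_filter.mpr ⟨Finset.mem_univ _, h5.2.1, ?_⟩
      rw [← h4]; exact h5.2.2
    · intro z hz z' hz' he
      refine Prod.ext ?_ he
      rw [(Finset.mem_filter.mp hz).2, (Finset.mem_filter.mp hz').2]
  have h3 : (D.image Prod.fst).card ≤ Fintype.card F + 1 := by
    refine le_trans (Finset.card_le_card ?_) (cnt1 c1 c2 β (R x) hx)
    intro p hp
    obtain ⟨z, hz, hzp⟩ := Finset.mem_image.mp hp
    refine Finset.mem_filter.mpr ⟨Finset.mem_univ _, ?_⟩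
    rw [← hzp]; exact (Finset.mem_filter.mp hz).2.1
  omega

end cnt

section m3
variable {F : Type*} [Field F] [Fintype F] [DecidableEq F] [CharP F 2] {m : ℕ} (Q : QuadraticForm F (Fin (m + 2) → F))

theorem exists_ab {a b : Fin (m + 2) → F} (h : Q.polarBilin a b ≠ 0) : ∃ a b, Q.polarBilin a b ≠ 0 ∧ Q a ≠ 0 := by
  by_cases h1 : Q a = 0
  · by_cases h2 : Q b = 0
    · refine ⟨a + b, b, ?_, ?_⟩
      · rw [map_add, LinearMap.add_apply, B_self, add_zero]; exact h
      · rw [Q_add, h1, h2, zero_add, zero_add]; exact h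
    · exact ⟨b, a, by rw [B_symm]; exact h, h2⟩
  · exact ⟨a, b, h, h1⟩

theorem orb_caseI {a b u : Fin (m + 2) → F} (hab : Q.polarBilin a b ≠ 0) (hau : Q.polarBilin a u = 0) (hbu : Q.polarBilin b u = 0) (hu : Q u ≠ 0) :
    (Fintype.card F ^ (m + 2) - 1) * (Fintype.card F ^ (m + 2) - Fintype.card F) ≤ 2 * (Fintype.card F + 1) * Nat.card (Orb Q) := by
  have hex : ∀ d : Fˣ × (F × F) × ((Fin m → F) × (Fin m → F)), ∃ A : GL (Fin (m + 2)) F,
      Q (A.1 *ᵥ Pi.single 0 1) = d.2.1.1 ∧ Q (A.1 *ᵥ Pi.single 1 1) = d.2.1.2 ∧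
      Q.polarBilin (A.1 *ᵥ Pi.single 0 1) (A.1 *ᵥ Pi.single 1 1) = d.1 ∧
      (∀ j : Fin m, Q.polarBilin (A.1 *ᵥ Pi.single 0 1) (A.1 *ᵥ Pi.single j.succ.succ 1) = d.2.2.1 j) ∧
      (∀ j : Fin m, Q.polarBilin (A.1 *ᵥ Pi.single 1 1) (A.1 *ᵥ Pi.single j.succ.succ 1) = d.2.2.2 j) := by
    rintro ⟨β, ⟨α1, α2⟩, x, y⟩
    obtain ⟨a1, a2, h1, h2, h3⟩ := caseI Q hab hau hbu hu α1 α2 β
    obtain ⟨A, hA0, hA1, hA⟩ := case1g Q (a1 := a1) (a2 := a2) (by rw [h3]; exact β.ne_zero) x y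
    exact ⟨A, by rw [hA0, h1], by rw [hA1, h2], by rw [hA0, hA1, h3], fun j => by rw [hA0]; exact (hA j).1, fun j => by rw [hA1]; exact (hA j).2⟩
  choose A hA1 hA2 hA3 hA4 hA5 using hex
  let φ : Fˣ × (F × F) × ((Fin m → F) × (Fin m → F)) → Orb Q := fun d => ⟨fun v => Q ((A d).1 *ᵥ v), A d, rfl⟩
  have hpol : ∀ d d', φ d = φ d' → ∀ v w, Q.polarBilin ((A d).1 *ᵥ v) ((A d).1 *ᵥ w) = Q.polarBilin ((A d').1 *ᵥ v) ((A d').1 *ᵥ w) := by
    intro d d' h v w
    have h1 : ∀ v, Q ((A d).1 *ᵥ v) = Q ((A d').1 *ᵥ v) := fun v => congrFun (congrArg Subtype.val h) v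
    have h2 := h1 (v + w)
    rw [Matrix.mulVec_add, Matrix.mulVec_add, Q_add, Q_add, h1, h1] at h2
    exact add_left_cancel h2
  have hinj : Function.Injective φ := by
    intro d d' h
    have h1 : ∀ v, Q ((A d).1 *ᵥ v) = Q ((A d').1 *ᵥ v) := fun v => congrFun (congrArg Subtype.val h) v
    refine Prod.ext (Units.ext ?_) (Prod.ext (Prod.ext ?_ ?_) (Prod.ext (funext fun j => ?_) (funext fun j => ?_)))
    · rw [← hA3, ← hA3, hpol d d' h]
    · rw [← hA1, ← hA1, h1]
    · rw [← hA2, ← hA2, h1]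
    · rw [← hA4, ← hA4, hpol d d' h]
    · rw [← hA5, ← hA5, hpol d d' h]
  haveI : Finite (Orb Q) := Set.toFinite _
  have h1 := Nat.card_le_card_of_injective φ hinj
  rw [Nat.card_eq_fintype_card, Fintype.card_prod, Fintype.card_prod, Fintype.card_prod, Fintype.card_prod, Fintype.card_fun, Fintype.card_units,
    Fintype.card_fin] at h1
  have hq : 1 < Fintype.card F := Fintype.one_lt_card
  set q := Fintype.card F with hqd
  obtain ⟨r, hr⟩ : ∃ r, q = r + 2 := ⟨q - 2, by omega⟩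
  have h2 : (q ^ (m + 2) - 1) * (q ^ (m + 2) - q) ≤ q ^ (m + 2) * q ^ (m + 2) := Nat.mul_le_mul (Nat.sub_le _ _) (Nat.sub_le _ _)
  refine h2.trans (le_trans ?_ (Nat.mul_le_mul_left _ h1))
  rw [hr, show r + 2 - 1 = r + 1 from rfl]
  have e1 : (r + 2) ^ (m + 2) * (r + 2) ^ (m + 2) = ((r + 2) * (r + 2)) * (((r + 2) * (r + 2)) * ((r + 2) ^ m * (r + 2) ^ m)) := by ring
  have e2 : 2 * (r + 2 + 1) * ((r + 1) * ((r + 2) * (r + 2) * ((r + 2) ^ m * (r + 2) ^ m))) =
      (2 * (r + 2 + 1) * (r + 1)) * (((r + 2) * (r + 2)) * ((r + 2) ^ m * (r + 2) ^ m)) := by ring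
  rw [e1, e2]
  exact Nat.mul_le_mul_right _ (by nlinarith)

theorem orb_caseII {a b : Fin (m + 2) → F} (hab : Q.polarBilin a b ≠ 0) (ha : Q a ≠ 0)
    (hu : ∀ u, Q.polarBilin a u = 0 → Q.polarBilin b u = 0 → Q u = 0) :
    (Fintype.card F ^ (m + 2) - 1) * (Fintype.card F ^ (m + 2) - Fintype.card F) ≤ 2 * (Fintype.card F + 1) * Nat.card (Orb Q) := by
  classical
  set β := Q.polarBilin a b with hβ
  have hba : Q.polarBilin b a = β := by rw [B_symm]
  let w1 : Fin (m + 2) → F := fun i => Q.polarBilin (Pi.single i 1) b / β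
  let w2 : Fin (m + 2) → F := fun i => Q.polarBilin a (Pi.single i 1) / β
  have hv : ∀ v : Fin (m + 2) → F, v = ∑ i, v i • Pi.single i (1 : F) := fun v => by
    conv_lhs => rw [← Finset.univ_sum_single v]
    refine Finset.sum_congr rfl fun i _ => ?_
    rw [← Pi.single_smul, smul_eq_mul, mul_one]
  have hw1 : ∀ v, w1 ⬝ᵥ v = Q.polarBilin v b / β := by
    intro v
    conv_rhs => rw [hv v]
    rw [map_sum, LinearMap.sum_apply, Finset.sum_div]
    refine Finset.sum_congr rfl fun i _ => ?_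
    rw [map_smul, LinearMap.smul_apply, smul_eq_mul]
    change Q.polarBilin (Pi.single i 1) b / β * v i = _
    ring
  have hw2 : ∀ v, w2 ⬝ᵥ v = Q.polarBilin a v / β := by
    intro v
    conv_rhs => rw [hv v]
    rw [map_sum, Finset.sum_div]
    refine Finset.sum_congr rfl fun i _ => ?_
    rw [map_smul, smul_eq_mul]
    change Q.polarBilin a (Pi.single i 1) / β * v i = _
    ring
  have hQ : ∀ v, Q v = Q2 (Q a) (Q b) β (w1 ⬝ᵥ v, w2 ⬝ᵥ v) := by
    intro v
    set s := w1 ⬝ᵥ v with hs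
    set t := w2 ⬝ᵥ v with ht
    have hs' : s * β = Q.polarBilin v b := by rw [hs, hw1, div_mul_cancel₀ _ hab]
    have ht' : t * β = Q.polarBilin a v := by rw [ht, hw2, div_mul_cancel₀ _ hab]
    obtain ⟨u, hu'⟩ : ∃ u, v = u + (s • a + t • b) := ⟨v - (s • a + t • b), by abel⟩
    have hau : Q.polarBilin a u = 0 := by
      have : u = v - (s • a + t • b) := by rw [hu']; abel
      rw [this, map_sub, map_add, map_smul, map_smul, B_self, ← hβ, ← ht']
      simp
    have hbu : Q.polarBilin b u = 0 := by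
      have : u = v - (s • a + t • b) := by rw [hu']; abel
      rw [this, map_sub, map_add, map_smul, map_smul, B_self, hba, B_symm, ← hs']
      simp
    have hua : Q.polarBilin u a = 0 := by rw [B_symm, hau]
    have hub : Q.polarBilin u b = 0 := by rw [B_symm, hbu]
    have h1 : Q v = Q u + Q (s • a + t • b) + Q.polarBilin u (s • a + t • b) := by rw [hu', Q_add]
    have h2 : Q.polarBilin u (s • a + t • b) = 0 := by rw [map_add, map_smul, map_smul, hua, hub, smul_zero, smul_zero, add_zero]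
    have h3 : Q.polarBilin (s • a) (t • b) = t * (s * β) := by
      rw [map_smul, map_smul, LinearMap.smul_apply, ← hβ]; rfl
    rw [h1, hu u hau hbu, h2, Q_add, Q_smul, Q_smul, h3]
    simp only [Q2]
    ring
  have hi : LinearIndependent F ![w1, w2] := by
    rw [LinearIndependent.pair_iff]
    intro s t hst
    constructor
    · have h1 := congrArg (fun z => z ⬝ᵥ a) hst
      simp only [add_dotProduct, smul_dotProduct, hw1, hw2, B_self, zero_dotProduct, ← hβ, smul_eq_mul, zero_div, mul_zero, add_zero, div_self hab, mul_one] at h1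
      exact h1
    · have h1 := congrArg (fun z => z ⬝ᵥ b) hst
      simp only [add_dotProduct, smul_dotProduct, hw1, hw2, B_self, zero_dotProduct, ← hβ, smul_eq_mul, zero_div, mul_zero, zero_add, div_self hab, mul_one] at h1
      exact h1
  let P := {s : Fin 2 → (Fin (m + 2) → F) // LinearIndependent F s}
  let f : P → ((Fin (m + 2) → F) → F) := fun s v => Q2 (Q a) (Q b) β (s.1 0 ⬝ᵥ v, s.1 1 ⬝ᵥ v)
  have hf : ∀ s, f s ∈ Orb Q := by
    intro s
    obtain ⟨A, hA⟩ := exists_GLv hi s.2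
    refine ⟨tr A, ?_⟩
    funext v
    have h0 : A.1 *ᵥ w1 = s.1 0 := hA 0
    have h1 : A.1 *ᵥ w2 = s.1 1 := hA 1
    change Q ((tr A).1 *ᵥ v) = _
    rw [hQ, dot_tr, dot_tr, h0, h1]
  haveI : Fintype P := Fintype.ofFinite _
  have h1 : (Finset.univ : Finset P).card ≤ (2 * (Fintype.card F + 1)) * (Finset.univ.image f).card := by
    refine Finset.card_le_mul_card_image Finset.univ _ ?_
    intro R hR
    obtain ⟨s0, -, hs0⟩ := Finset.mem_image.mp hR
    have hs0' : ∀ v, Q2 (Q a) (Q b) β (s0.1 0 ⬝ᵥ v, s0.1 1 ⬝ᵥ v) = R v := fun v => congrFun hs0 v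
    -- dual vectors
    obtain ⟨A, hA⟩ := exists_GLv (v := ![(Pi.single 0 1 : Fin (m + 2) → F), Pi.single 1 1]) (v' := s0.1) (by
      rw [LinearIndependent.pair_iff]
      intro s t hst
      have h0 := congrFun hst 0
      have h1 := congrFun hst 1
      simp at h0 h1
      exact ⟨h0, h1⟩) s0.2
    have hA0 : A.1 *ᵥ Pi.single 0 1 = s0.1 0 := hA 0
    have hA1 : A.1 *ᵥ Pi.single 1 1 = s0.1 1 := hA 1
    have hcan : ∀ z, (tr A).1 *ᵥ ((tr A)⁻¹.1 *ᵥ z) = z := by
      intro z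
      rw [Matrix.mulVec_mulVec, ← Units.val_mul, mul_inv_cancel, Units.val_one, Matrix.one_mulVec]
    have hd0 : ∀ z, s0.1 0 ⬝ᵥ ((tr A)⁻¹.1 *ᵥ z) = z 0 := by
      intro z
      rw [← hA0, ← dot_tr, hcan]
      simp
    have hd1 : ∀ z, s0.1 1 ⬝ᵥ ((tr A)⁻¹.1 *ᵥ z) = z 1 := by
      intro z
      rw [← hA1, ← dot_tr, hcan]
      simp
    refine le_trans ?_ (fib (Q a) (Q b) β hab R ((tr A)⁻¹.1 *ᵥ Pi.single 0 1) ((tr A)⁻¹.1 *ᵥ Pi.single 1 1) ?_ 1 one_ne_zero ?_)
    · refine Finset.card_le_card_of_injOn (fun s => (s.1 0, s.1 1)) ?_ ?_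
      · intro s hs
        refine Finset.mem_filter.mpr ⟨Finset.mem_univ _, ?_⟩
        intro v
        have := (Finset.mem_filter.mp hs).2
        exact congrFun this v
      · intro s _ s' _ he
        refine Subtype.ext (funext fun i => ?_)
        fin_cases i
        · exact congrArg Prod.fst he
        · exact congrArg Prod.snd he
    · rw [← hs0', hd0, hd1]
      simpa [Q2] using ha
    · rw [← Matrix.mulVec_add, ← hs0', ← hs0', ← hs0', hd0, hd1, hd0, hd1, hd0, hd1]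
      simp [Q2]
  have h2 : (Finset.univ.image f).card ≤ Nat.card (Orb Q) := by
    haveI : Fintype (Orb Q) := Fintype.ofFinite _
    rw [Nat.card_eq_fintype_card, ← Set.toFinset_card]
    refine Finset.card_le_card ?_
    intro R hR
    obtain ⟨s, -, hs⟩ := Finset.mem_image.mp hR
    rw [Set.mem_toFinset, ← hs]
    exact hf s
  have h3 : (Finset.univ : Finset P).card = (Fintype.card F ^ (m + 2) - 1) * (Fintype.card F ^ (m + 2) - Fintype.card F) := by
    rw [Finset.card_univ, ← Nat.card_eq_fintype_card]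
    have := card_linearIndependent (K := F) (V := Fin (m + 2) → F) (k := 2) (by rw [Module.finrank_fin_fun]; omega)
    rw [this, Fin.prod_univ_two, Module.finrank_fin_fun]
    simp
  rw [← h3]
  exact h1.trans (Nat.mul_le_mul_left _ h2)

/-- the orbit bound -/
theorem orb_le (h : ∃ a b, Q.polarBilin a b ≠ 0) :
    (Fintype.card F ^ (m + 2) - 1) * (Fintype.card F ^ (m + 2) - Fintype.card F) ≤ 2 * (Fintype.card F + 1) * Nat.card (Orb Q) := by
  obtain ⟨a, b, h⟩ := h
  obtain ⟨a, b, hab, ha⟩ := exists_ab Q h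
  by_cases hc : ∃ u, Q.polarBilin a u = 0 ∧ Q.polarBilin b u = 0 ∧ Q u ≠ 0
  · obtain ⟨u, h1, h2, h3⟩ := hc
    exact orb_caseI Q hab h1 h2 h3
  · push Not at hc
    exact orb_caseII Q hab ha hc

end m3

end CfsgLib.QF
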