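import Cfsg.Agent.Lib.QF1
set_option autoImplicit false
set_option linter.style.haveILetI false
set_option linter.unusedSectionVars false

/-! Orbits of quadratic forms in odd characteristic. -/

namespace CfsgLib.QF
open Matrix Module

section odd
variable {F : Type*} [Field F] [Fintype F] [DecidableEq F] (h2 : (2 : F) ≠ 0) {m : ℕ} (Q : QuadraticForm F (Fin (m + 1) → F))

theorem oB_self (x : Fin (m + 1) → F) : Q.polarBilin x x = 2 * Q x := by
  rw [QuadraticMap.polarBilin_apply_apply, QuadraticMap.polar_self, two_smul, ← two_mul]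

theorem oB_symm (x y : Fin (m + 1) → F) : Q.polarBilin x y = Q.polarBilin y x := by
  rw [QuadraticMap.polarBilin_apply_apply, QuadraticMap.polarBilin_apply_apply, QuadraticMap.polar_comm]

theorem oQ_add (x y : Fin (m + 1) → F) : Q (x + y) = Q x + Q y + Q.polarBilin x y := QuadraticMap.map_add _ _ _
theorem oQ_smul (s : F) (x : Fin (m + 1) → F) : Q (s • x) = s * s * Q x := QuadraticMap.map_smul _ _ _

/-- the orbit -/
def Orb1 : Set ((Fin (m + 1) → F) → F) := Set.range (fun A : GL (Fin (m + 1)) F => fun v => Q (A.1 *ᵥ v))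

include h2 in
theorem ocase1g {a : Fin (m + 1) → F} (h : Q a ≠ 0) (x : Fin m → F) : ∃ A : GL (Fin (m + 1)) F,
    A.1 *ᵥ Pi.single 0 1 = a ∧ ∀ j : Fin m, Q.polarBilin a (A.1 *ᵥ Pi.single j.succ 1) = x j := by
  have ha0 : a ≠ 0 := by rintro rfl; exact h (QuadraticMap.map_zero Q)
  obtain ⟨A, hA⟩ := exists_GLv (v := fun _ : Unit => (Pi.single 0 1 : Fin (m + 1) → F)) (v' := fun _ => a)
    (LinearIndependent.of_subsingleton () (by
      intro h
      have := congrFun h 0
      simp at this)) (LinearIndependent.of_subsingleton () ha0)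
  have hA0 : A.1 *ᵥ Pi.single 0 1 = a := hA ()
  have hne : 2 * Q a ≠ 0 := mul_ne_zero h2 h
  set t : Fin m → F := fun j => (x j - Q.polarBilin a (A.1 *ᵥ Pi.single j.succ 1)) / (2 * Q a) with ht
  let f : (Fin (m + 1) → F) →ₗ[F] (Fin (m + 1) → F) :=
    { toFun := fun v => v + (∑ j, t j * v j.succ) • Pi.single 0 1
      map_add' := fun v w => by
        simp only [Pi.add_apply, mul_add, Finset.sum_add_distrib, add_smul]
        abel
      map_smul' := fun c v => by
        simp only [Pi.smul_apply, smul_eq_mul, RingHom.id_apply, smul_add, smul_smul, Finset.mul_sum]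
        have e : ∀ r : Fin m → F, ∑ j, r j * (c * v j.succ) = ∑ j, c * (r j * v j.succ) := fun r =>
          Finset.sum_congr rfl fun j _ => by ring
        rw [e] }
  have hf : ∀ v, f v = v + (∑ j, t j * v j.succ) • Pi.single 0 1 := fun _ => rfl
  have hinj : Function.Injective f := by
    rw [injective_iff_map_eq_zero]
    intro v hv
    have hj : ∀ j : Fin m, v j.succ = 0 := by
      intro j
      have h0 := congrFun hv j.succ
      rw [hf] at h0
      have e0 : j.succ ≠ (0 : Fin (m + 1)) := Fin.succ_ne_zero _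
      simpa [Pi.single_apply, e0] using h0
    rw [hf] at hv
    simpa [hj] using hv
  obtain ⟨C, hC⟩ := exists_GL (LinearEquiv.ofInjectiveEndo f hinj)
  have hC' : ∀ v, C.1 *ᵥ v = f v := fun v => hC v
  have e0 : C.1 *ᵥ Pi.single 0 1 = Pi.single 0 1 := by
    rw [hC', hf]
    have : ∀ j : Fin m, (Pi.single 0 1 : Fin (m + 1) → F) j.succ = 0 := fun j => Pi.single_eq_of_ne (Fin.succ_ne_zero _) _
    simp [this]
  have ej : ∀ j : Fin m, C.1 *ᵥ Pi.single j.succ 1 = Pi.single j.succ 1 + t j • Pi.single 0 1 := by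
    intro j
    rw [hC', hf]
    have : ∀ i : Fin m, (Pi.single j.succ 1 : Fin (m + 1) → F) i.succ = if i = j then 1 else 0 := by
      intro i
      rw [Pi.single_apply]
      simp only [Fin.succ_inj]
    simp [this]
  refine ⟨A * C, ?_, fun j => ?_⟩
  · rw [Units.val_mul, ← Matrix.mulVec_mulVec, e0, hA0]
  · rw [Units.val_mul, ← Matrix.mulVec_mulVec, ej, Matrix.mulVec_add, Matrix.mulVec_smul, hA0, map_add, map_smul, oB_self, ht, smul_eq_mul]
    field_simp
    ring

include h2 in
theorem orb1_of_values {T : Type*} [Fintype T] (e : T → F) (he : Function.Injective e) (a : T → (Fin (m + 1) → F)) (ha : ∀ t, Q (a t) = e t)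
    (hne : ∀ t, e t ≠ 0) : Fintype.card T * Fintype.card F ^ m ≤ Nat.card (Orb1 Q) := by
  have hex : ∀ d : T × (Fin m → F), ∃ A : GL (Fin (m + 1)) F,
      Q (A.1 *ᵥ Pi.single 0 1) = e d.1 ∧
      (∀ j : Fin m, Q.polarBilin (A.1 *ᵥ Pi.single 0 1) (A.1 *ᵥ Pi.single j.succ 1) = d.2 j) := by
    rintro ⟨t, x⟩
    obtain ⟨A, hA0, hA⟩ := ocase1g h2 Q (a := a t) (by rw [ha]; exact hne t) x
    exact ⟨A, by rw [hA0, ha], fun j => by rw [hA0]; exact hA j⟩
  choose A hA1 hA4 using hex
  let φ : T × (Fin m → F) → Orb1 Q := fun d => ⟨fun v => Q ((A d).1 *ᵥ v), A d, rfl⟩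
  have hinj : Function.Injective φ := by
    intro d d' h
    have h1 : ∀ v, Q ((A d).1 *ᵥ v) = Q ((A d').1 *ᵥ v) := fun v => congrFun (congrArg Subtype.val h) v
    have hpol : ∀ v w, Q.polarBilin ((A d).1 *ᵥ v) ((A d).1 *ᵥ w) = Q.polarBilin ((A d').1 *ᵥ v) ((A d').1 *ᵥ w) := by
      intro v w
      have h2 := h1 (v + w)
      rw [Matrix.mulVec_add, Matrix.mulVec_add, oQ_add, oQ_add, h1, h1] at h2
      exact add_left_cancel h2
    refine Prod.ext (he ?_) (funext fun j => ?_)
    · rw [← hA1, ← hA1, h1]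
    · rw [← hA4, ← hA4, hpol]
  haveI : Finite (Orb1 Q) := Set.toFinite _
  have h1 := Nat.card_le_card_of_injective φ hinj
  rwa [Nat.card_eq_fintype_card, Fintype.card_prod, Fintype.card_fun, Fintype.card_fin] at h1

include h2 in
theorem universal {c d : F} (hc : c ≠ 0) (hd : d ≠ 0) (e : F) : ∃ x y : F, x * x * c + y * y * d = e := by
  have hodd : Fintype.card F % 2 = 1 := by
    apply FiniteField.odd_card_of_char_ne_two
    intro h
    apply h2
    haveI : CharP F 2 := by rw [← h]; infer_instance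
    exact CharTwo.two_eq_zero
  obtain ⟨x, y, h⟩ := FiniteField.exists_root_sum_quadratic (f := Polynomial.C c * Polynomial.X ^ 2 + Polynomial.C 0 * Polynomial.X + Polynomial.C (-e))
    (g := Polynomial.C d * Polynomial.X ^ 2 + Polynomial.C 0 * Polynomial.X + Polynomial.C 0)
    (Polynomial.degree_quadratic hc) (Polynomial.degree_quadratic hd) hodd
  simp at h
  exact ⟨x, y, by linear_combination h⟩

include h2 in
theorem orb1_le {u : Fin (m + 1) → F} (hu : Q u ≠ 0) : Fintype.card F ^ (m + 1) - 1 ≤ 2 * Nat.card (Orb1 Q) := by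
  classical
  by_cases hc : ∃ v, Q.polarBilin u v = 0 ∧ Q v ≠ 0
  · obtain ⟨v, huv, hv⟩ := hc
    have hall : ∀ e : F, ∃ a, Q a = e := by
      intro e
      obtain ⟨x, y, h⟩ := universal h2 hu hv e
      refine ⟨x • u + y • v, ?_⟩
      rw [oQ_add, oQ_smul, oQ_smul, map_smul, map_smul, LinearMap.smul_apply, huv, smul_zero, smul_zero, add_zero, h]
    choose a ha using hall
    have h1 := orb1_of_values h2 Q (T := Fˣ) (fun t => (t : F)) Units.val_injective (fun t => a t) (fun t => ha t) (fun t => t.ne_zero)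
    rw [Fintype.card_units] at h1
    have hq : 1 < Fintype.card F := Fintype.one_lt_card
    obtain ⟨r, hr⟩ : ∃ r, Fintype.card F = r + 2 := ⟨Fintype.card F - 2, by omega⟩
    rw [hr] at h1 ⊢
    rw [show r + 2 - 1 = r + 1 from rfl] at h1
    have h3 : (r + 2) ^ (m + 1) ≤ 2 * ((r + 1) * (r + 2) ^ m) := by
      rw [pow_succ, ← mul_assoc, mul_comm _ (r + 2)]
      exact Nat.mul_le_mul_right _ (by omega)
    omega
  · push Not at hc
    set w : Fin (m + 1) → F := fun i => Q.polarBilin u (Pi.single i 1) / (2 * Q u) with hw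
    have hne : 2 * Q u ≠ 0 := mul_ne_zero h2 hu
    have hwv : ∀ v, w ⬝ᵥ v = Q.polarBilin u v / (2 * Q u) := by
      intro v
      have hv : v = ∑ i, v i • Pi.single i (1 : F) := by
        conv_lhs => rw [← Finset.univ_sum_single v]
        refine Finset.sum_congr rfl fun i _ => ?_
        rw [← Pi.single_smul, smul_eq_mul, mul_one]
      conv_rhs => rw [hv]
      rw [map_sum, Finset.sum_div]
      refine Finset.sum_congr rfl fun i _ => ?_
      rw [map_smul, smul_eq_mul]
      change Q.polarBilin u (Pi.single i 1) / (2 * Q u) * v i = _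
      ring
    have hQ : ∀ v, Q v = Q u * ((w ⬝ᵥ v) * (w ⬝ᵥ v)) := by
      intro v
      set s := w ⬝ᵥ v with hs
      have hs' : s * (2 * Q u) = Q.polarBilin u v := by rw [hs, hwv, div_mul_cancel₀ _ hne]
      have h1 : Q.polarBilin u (v - s • u) = 0 := by
        rw [map_sub, map_smul, oB_self, smul_eq_mul, hs', sub_self]
      have h3 : Q v = Q (s • u + (v - s • u)) := by congr 1; abel
      have h4 : Q.polarBilin (s • u) (v - s • u) = 0 := by rw [map_smul, LinearMap.smul_apply, h1, smul_zero]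
      rw [h3, oQ_add, hc _ h1, h4, oQ_smul]
      ring
    have hw0 : w ≠ 0 := by
      intro h
      have := hQ u
      rw [h, zero_dotProduct, mul_zero, mul_zero] at this
      exact hu this
    let P := {w' : Fin (m + 1) → F // w' ≠ 0}
    let f : P → ((Fin (m + 1) → F) → F) := fun s v => Q u * ((s.1 ⬝ᵥ v) * (s.1 ⬝ᵥ v))
    have hf : ∀ s, f s ∈ Orb1 Q := by
      intro s
      obtain ⟨A, hA⟩ := exists_GLv (v := fun _ : Unit => w) (v' := fun _ => s.1) (LinearIndependent.of_subsingleton () hw0)
        (LinearIndependent.of_subsingleton () s.2)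
      have hA0 : A.1 *ᵥ w = s.1 := hA ()
      refine ⟨tr A, ?_⟩
      funext v
      change Q ((tr A).1 *ᵥ v) = _
      rw [hQ, dot_tr, hA0]
    have h1 : (Finset.univ : Finset P).card ≤ 2 * (Finset.univ.image f).card := by
      refine Finset.card_le_mul_card_image Finset.univ _ ?_
      intro R hR
      obtain ⟨s0, -, hs0⟩ := Finset.mem_image.mp hR
      refine (Finset.card_le_card (t := {s0, ⟨-s0.1, neg_ne_zero.mpr s0.2⟩}) ?_).trans Finset.card_le_two
      intro s hs
      have hs1 : f s = f s0 := ((Finset.mem_filter.mp hs).2).trans hs0.symm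
      have hs2 : ∀ v, (s.1 ⬝ᵥ v) * (s.1 ⬝ᵥ v) = (s0.1 ⬝ᵥ v) * (s0.1 ⬝ᵥ v) := fun v => mul_left_cancel₀ hu (congrFun hs1 v)
      have hs3 : ∀ v v', (s.1 ⬝ᵥ v) * (s.1 ⬝ᵥ v') = (s0.1 ⬝ᵥ v) * (s0.1 ⬝ᵥ v') := by
        intro v v'
        have h4 := hs2 (v + v')
        rw [dotProduct_add, dotProduct_add] at h4
        refine mul_left_cancel₀ h2 ?_
        linear_combination h4 - hs2 v - hs2 v'
      obtain ⟨i, hi⟩ := Function.ne_iff.mp s.2
      have hsi : ∀ (z : Fin (m + 1) → F) j, z ⬝ᵥ Pi.single j 1 = z j := fun z j => by simp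
      have h5 : ∀ j, s.1 i * s.1 j = s0.1 i * s0.1 j := fun j => by
        have := hs3 (Pi.single i 1) (Pi.single j 1)
        rwa [hsi, hsi, hsi, hsi] at this
      rw [Finset.mem_insert, Finset.mem_singleton]
      rcases mul_self_eq_mul_self_iff.mp (h5 i) with h6 | h6
      · left
        refine Subtype.ext (funext fun j => ?_)
        have := h5 j
        rw [← h6] at this
        exact mul_left_cancel₀ hi this
      · right
        refine Subtype.ext (funext fun j => ?_)
        have := h5 j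
        have h7 : s0.1 i = - s.1 i := by rw [h6, neg_neg]
        rw [h7] at this
        change s.1 j = - s0.1 j
        refine mul_left_cancel₀ hi ?_
        rw [this]; ring
    have h3 : (Finset.univ.image f).card ≤ Nat.card (Orb1 Q) := by
      haveI : Fintype (Orb1 Q) := Fintype.ofFinite _
      rw [Nat.card_eq_fintype_card, ← Set.toFinset_card]
      refine Finset.card_le_card ?_
      intro R hR
      obtain ⟨s, -, hs⟩ := Finset.mem_image.mp hR
      rw [Set.mem_toFinset, ← hs]
      exact hf s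
    have h4 : (Finset.univ : Finset P).card = Fintype.card F ^ (m + 1) - 1 := by
      rw [Finset.card_univ, Fintype.card_subtype_compl, Fintype.card_fun, Fintype.card_fin]
      simp
    rw [← h4]
    exact h1.trans (Nat.mul_le_mul_left _ h3)

end odd

end CfsgLib.QF
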