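import Mathlib
import Cfsg.Prelude.Def_Solvable
import Cfsg.Agent.Lib.Core
import Cfsg.Agent.Lib.SZ

/-!
# Three-cycles in the symmetric group of degree 8
-/

set_option autoImplicit false
set_option linter.all false
open scoped Pointwise

namespace CfsgLib.S8sub

open Equiv Equiv.Perm

theorem conj_cyc (g : Perm (Fin 8)) (a b c : Fin 8) : g * (swap a b * swap a c) * g⁻¹ = swap (g a) (g b) * swap (g a) (g c) := by
  rw [Equiv.swap_apply_apply, Equiv.swap_apply_apply]; group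

theorem cyc_rot : ∀ x y z : Fin 8, x ≠ y → x ≠ z → y ≠ z → swap y z * swap y x = swap x y * swap x z := by decide +kernel

theorem disj (a b c a' b' c' : Fin 8) (h1 : a ≠ a') (h2 : a ≠ b') (h3 : a ≠ c') (h4 : b ≠ a') (h5 : b ≠ b') (h6 : b ≠ c')
    (h7 : c ≠ a') (h8 : c ≠ b') (h9 : c ≠ c') : Commute (swap a' b' * swap a' c') (swap a b * swap a c) := by
  have hfix : ∀ t : Fin 8, t ≠ a' → t ≠ b' → t ≠ c' → (swap a' b' * swap a' c') t = t := by
    intro t k1 k2 k3
    rw [Perm.mul_apply, swap_apply_of_ne_of_ne k1 k3, swap_apply_of_ne_of_ne k1 k2]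
  have h := conj_cyc (swap a' b' * swap a' c') a b c
  rw [hfix a h1 h2 h3, hfix b h4 h5 h6, hfix c h7 h8 h9, mul_inv_eq_iff_eq_mul] at h
  exact h

theorem exists_cyc (c : Perm (Fin 8)) : ∃ x y z : Fin 8, x ≠ y ∧ x ≠ z ∧ y ≠ z ∧
    Commute (c * (swap x y * swap x z) * c⁻¹) (swap x y * swap x z) := by
  classical
  by_cases hF : 2 < (Finset.univ.filter fun x => c x = x).card
  · obtain ⟨x, y, z, hx, hy, hz, hxy, hxz, hyz⟩ := Finset.two_lt_card_iff.1 hF
    refine ⟨x, y, z, hxy, hxz, hyz, ?_⟩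
    simp only [Finset.mem_filter, Finset.mem_univ, true_and] at hx hy hz
    rw [conj_cyc, hx, hy, hz]
  · have hM : 6 ≤ (Finset.univ.filter fun x => c x ≠ x).card := by
      have := Finset.card_filter_add_card_filter_not (s := (Finset.univ : Finset (Fin 8))) (fun x => c x = x)
      simp only [Finset.card_univ, Fintype.card_fin] at this
      have h' : (Finset.univ.filter fun x => c x ≠ x) = (Finset.univ.filter fun x => ¬ c x = x) := rfl
      rw [h']; omega
    set M := Finset.univ.filter fun x => c x ≠ x with hMdef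
    have hMm : ∀ x, x ∈ M ↔ c x ≠ x := fun x => by simp [hMdef]
    have pick : ∀ s : Finset (Fin 8), s.card ≤ 5 → ∃ x ∈ M, x ∉ s := by
      intro s hs
      by_contra hcon
      push Not at hcon
      have := Finset.card_le_card (show M ⊆ s from hcon)
      omega
    obtain ⟨x, hx, -⟩ := pick ∅ (by simp)
    rw [hMm] at hx
    have hinj := c.injective
    by_cases h3 : c (c (c x)) = x
    · have h2 : c (c x) ≠ x := by
        intro h2
        rw [h2] at h3
        exact hx h3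
      refine ⟨x, c x, c (c x), hx.symm, h2.symm, fun h => hx (hinj h).symm, ?_⟩
      rw [conj_cyc, h3, cyc_rot x (c x) (c (c x)) hx.symm h2.symm (fun h => hx (hinj h).symm)]
    by_cases h2 : c (c x) = x
    · obtain ⟨y, hy, hy1⟩ := pick {x, c x} (Finset.card_le_two.trans (by norm_num))
      rw [hMm] at hy
      simp only [Finset.mem_insert, Finset.mem_singleton, not_or] at hy1
      obtain ⟨z, hz, hz1⟩ := pick {x, c x, y, c y, c⁻¹ y} Finset.card_le_five
      rw [hMm] at hz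
      simp only [Finset.mem_insert, Finset.mem_singleton, not_or] at hz1
      obtain ⟨z1, z2, z3, z4, z5⟩ := hz1
      refine ⟨x, y, z, Ne.symm hy1.1, Ne.symm z1, Ne.symm z3, ?_⟩
      rw [conj_cyc]
      apply disj
      · exact hx.symm
      · intro h; exact hy1.2 (hinj (by rw [← h, h2]))
      · intro h; exact z2 (hinj (by rw [← h, h2]))
      · exact hy1.2
      · exact hy.symm
      · intro h; exact z5 (by rw [eq_inv_iff_eq, h])
      · exact z2
      · exact z4
      · exact hz.symm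
    · obtain ⟨z, hz, hz1⟩ := pick {x, c x, c⁻¹ x, c (c x), c (c (c x))} Finset.card_le_five
      rw [hMm] at hz
      simp only [Finset.mem_insert, Finset.mem_singleton, not_or] at hz1
      obtain ⟨z1, z2, z3, z4, z5⟩ := hz1
      refine ⟨x, c (c x), z, Ne.symm h2, Ne.symm z1, Ne.symm z4, ?_⟩
      rw [conj_cyc]
      apply disj
      · exact hx.symm
      · exact Ne.symm h3
      · intro h; exact z3 (by rw [eq_inv_iff_eq, h])
      · intro h; exact hx (hinj h)
      · intro h; exact hx (hinj (hinj h)).symm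
      · intro h; exact z2 (hinj h).symm
      · exact z2
      · exact z5
      · exact hz.symm

theorem pcore : Cfsg.pCore 3 (Perm (Fin 8)) = ⊥ := by
  haveI : Fact (Nat.Prime 3) := ⟨Nat.prime_three⟩
  have hn := CfsgLib.Core.pCore_normal 3 (Perm (Fin 8))
  have hp := CfsgLib.Core.pCore_isPGroup 3 (Perm (Fin 8))
  have hle : Cfsg.pCore 3 (Perm (Fin 8)) ≤ alternatingGroup (Fin 8) := by
    intro x hx
    obtain ⟨k, hk⟩ := hp ⟨x, hx⟩
    have hk' : x ^ (3 ^ k) = 1 := congrArg Subtype.val hk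
    rw [Equiv.Perm.mem_alternatingGroup]
    have h1 := congrArg Equiv.Perm.sign hk'
    rw [map_pow, map_one] at h1
    rcases Int.units_eq_one_or (Equiv.Perm.sign x) with h | h
    · exact h
    · exfalso
      rw [h, Odd.neg_one_pow (Odd.pow (by decide))] at h1
      exact absurd h1 (by decide)
  haveI : IsSimpleGroup (alternatingGroup (Fin 8)) := alternatingGroup.isSimpleGroup (by simp)
  have hN : ((Cfsg.pCore 3 (Perm (Fin 8))).subgroupOf (alternatingGroup (Fin 8))).Normal := inferInstance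
  rcases hN.eq_bot_or_eq_top with h | h
  · rw [Subgroup.subgroupOf_eq_bot] at h
    rw [eq_bot_iff]
    intro x hx
    exact h.le_bot ⟨hx, hle hx⟩
  · exfalso
    have hmem : (swap 0 1 * swap 2 3 : Perm (Fin 8)) ∈ Cfsg.pCore 3 (Perm (Fin 8)) := by
      have h1 : (swap 0 1 * swap 2 3 : Perm (Fin 8)) ∈ alternatingGroup (Fin 8) := by
        rw [Equiv.Perm.mem_alternatingGroup]; decide
      have h2 : (⟨_, h1⟩ : alternatingGroup (Fin 8)) ∈ (Cfsg.pCore 3 (Perm (Fin 8))).subgroupOf (alternatingGroup (Fin 8)) := by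
        rw [h]; trivial
      exact Subgroup.mem_subgroupOf.1 h2
    obtain ⟨k, hk⟩ := hp ⟨_, hmem⟩
    have hk' : (swap 0 1 * swap 2 3 : Perm (Fin 8)) ^ (3 ^ k) = 1 := congrArg Subtype.val hk
    have h2 : (swap 0 1 * swap 2 3 : Perm (Fin 8)) ^ 2 = 1 := by decide +kernel
    have h3 : orderOf (swap 0 1 * swap 2 3 : Perm (Fin 8)) = 1 := Nat.eq_one_of_dvd_coprimes
      (Nat.Coprime.pow_right k (by norm_num : Nat.Coprime 2 3)) (orderOf_dvd_of_pow_eq_one h2) (orderOf_dvd_of_pow_eq_one hk')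
    rw [orderOf_eq_one_iff] at h3
    revert h3
    decide +kernel

theorem s4332 (σ : Equiv.Perm (Fin 8)) (hσ : σ.IsThreeCycle) :
    (∀ c : Equiv.Perm (Fin 8), ∃ g : Equiv.Perm (Fin 8), IsConj c g ∧
      ((Subgroup.zpowers σ).subgroupOf (Subgroup.zpowers σ ⊔ MulAut.conj g • Subgroup.zpowers σ)).IsSubnormal) ∧
    Cfsg.pCore 3 (Equiv.Perm (Fin 8)) = ⊥ := by
  refine ⟨fun c => ?_, pcore⟩
  obtain ⟨x, y, z, hxy, hxz, hyz, hcomm⟩ := exists_cyc c
  have h3 := Equiv.Perm.isThreeCycle_swap_mul_swap_same hxy hxz hyz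
  obtain ⟨τ, hτ⟩ := isConj_iff.1 ((Equiv.Perm.isConj_iff_cycleType_eq).2 (h3.cycleType.trans hσ.cycleType.symm))
  refine ⟨τ * c * τ⁻¹, isConj_iff.2 ⟨τ, rfl⟩, ?_⟩
  have hc : Commute (τ * c * τ⁻¹ * σ * (τ * c * τ⁻¹)⁻¹) σ := by
    set s := swap x y * swap x z with hs
    have e1 : τ * c * τ⁻¹ * σ * (τ * c * τ⁻¹)⁻¹ = τ * (c * s * c⁻¹) * τ⁻¹ := by rw [← hτ]; group
    rw [e1, ← hτ]
    show τ * (c * s * c⁻¹) * τ⁻¹ * (τ * s * τ⁻¹) = τ * s * τ⁻¹ * (τ * (c * s * c⁻¹) * τ⁻¹)
    have e2 := hcomm.eq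
    calc τ * (c * s * c⁻¹) * τ⁻¹ * (τ * s * τ⁻¹) = τ * ((c * s * c⁻¹) * s) * τ⁻¹ := by group
      _ = τ * (s * (c * s * c⁻¹)) * τ⁻¹ := by rw [e2]
      _ = _ := by group
  apply Subgroup.Normal.isSubnormal
  rw [Subgroup.normal_subgroupOf_iff_le_normalizer le_sup_left, sup_le_iff]
  refine ⟨Subgroup.le_normalizer, ?_⟩
  intro w hw
  rw [CfsgLib.SZ.mem_conj_iff] at hw
  obtain ⟨n, hn⟩ := Subgroup.mem_zpowers_iff.1 hw
  apply Subgroup.centralizer_le_normalizer
  rw [Subgroup.mem_centralizer_iff]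
  intro v hv
  obtain ⟨m, rfl⟩ := Subgroup.mem_zpowers_iff.1 hv
  have hw' : w = (τ * c * τ⁻¹ * σ * (τ * c * τ⁻¹)⁻¹) ^ n := by
    rw [conj_zpow, hn]; group
  rw [hw']
  exact ((hc.zpow_zpow n m).eq).symm

end CfsgLib.S8sub
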