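import Cfsg.Agent.Lib.AutPSU1
import Cfsg.Agent.Lib.MD4
set_option autoImplicit false
set_option linter.style.haveILetI false
set_option linter.unusedSectionVars false

/-! Minimal degrees of unitary groups: the unipotent radical of a totally isotropic subspace. -/

namespace CfsgLib.SUm
open Module CfsgLib.Herm CfsgLib.AutPSU CfsgLib.MD

variable {F V : Type*} [Field F] [AddCommGroup V] [Module F V] [FiniteDimensional F V]
  {σ : F →+* F} {q : ℕ} {B : V →ₛₗ[σ] V →ₗ[F] F}

theorem nw_mul {W : Submodule F V} {g k : SUL B} (hg : ∀ x ∈ W, g.1 x = x) (hk : ∀ x, k.1 x - x ∈ W) (x : V) :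
    (g * k).1 x = x + (g.1 x - x) + (k.1 x - x) := by
  rw [mul_apply']
  have e : k.1 x = x + (k.1 x - x) := by abel
  conv_lhs => rw [e, map_add, hg _ (hk x)]
  abel

/-- the unipotent radical -/
def NW (B : V →ₛₗ[σ] V →ₗ[F] F) (W : Submodule F V) : Subgroup (SUL B) where
  carrier := {g | (∀ x, g.1 x - x ∈ W) ∧ (∀ x ∈ W, g.1 x = x)}
  one_mem' := ⟨fun x => by rw [one_apply', sub_self]; exact W.zero_mem, fun x _ => one_apply' x⟩
  mul_mem' {g k} hg hk := ⟨fun x => by
      rw [nw_mul hg.2 hk.1]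
      have e : x + (g.1 x - x) + (k.1 x - x) - x = (g.1 x - x) + (k.1 x - x) := by abel
      rw [e]; exact W.add_mem (hg.1 x) (hk.1 x), fun x hx => by rw [mul_apply', hk.2 x hx, hg.2 x hx]⟩
  inv_mem' {g} hg := by
    have h1 : ∀ x ∈ W, (g⁻¹).1 x = x := fun x hx => by
      conv_lhs => rw [← hg.2 x hx]
      exact inv_apply' g x
    refine ⟨fun x => ?_, h1⟩
    have h2 : (g⁻¹).1 x - x = -(g.1 x - x) := by
      rw [← h1 _ (hg.1 x), map_sub, inv_apply', neg_sub]
    rw [h2]; exact W.neg_mem (hg.1 x)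

noncomputable instance (W : Submodule F V) : CommGroup (NW B W) :=
  { (inferInstance : Group (NW B W)) with
    mul_comm := fun g k => by
      apply Subtype.ext
      apply K_ext
      intro x
      change (g.1 * k.1).1 x = (k.1 * g.1).1 x
      rw [nw_mul g.2.2 k.2.1, nw_mul k.2.2 g.2.1]
      abel }

/-- the stabilizer -/
def GW (B : V →ₛₗ[σ] V →ₗ[F] F) (W : Submodule F V) : Subgroup (SUL B) where
  carrier := {g | ∀ w, g.1 w ∈ W ↔ w ∈ W}
  one_mem' := fun w => by rw [one_apply']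
  mul_mem' {g k} hg hk := fun w => by rw [mul_apply', hg, hk]
  inv_mem' {g} hg := fun w => by
    rw [← hg, apply_inv']

theorem mem_GW_of {W : Submodule F V} {g : SUL B} (hg : ∀ w ∈ W, g.1 w ∈ W) : g ∈ GW B W := by
  intro w
  refine ⟨fun hw => ?_, hg w⟩
  have h1 : W.map (g.1 : V →ₗ[F] V) = W := by
    refine Submodule.eq_of_le_of_finrank_eq ?_ ?_
    · rintro _ ⟨x, hx, rfl⟩
      exact hg x hx
    · exact LinearEquiv.finrank_map_eq g.1 W
  rw [← h1] at hw
  obtain ⟨x, hx, hxw⟩ := hw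
  have : x = w := g.1.injective hxw
  rwa [this] at hx

theorem conj_mem {W : Submodule F V} {g n : SUL B} (hg : g ∈ GW B W) (hn : n ∈ NW B W) : g * n * g⁻¹ ∈ NW B W := by
  have hg' : ∀ x ∈ W, (g⁻¹).1 x ∈ W := fun x hx => ((GW B W).inv_mem hg x).mpr hx
  refine ⟨fun x => ?_, fun x hx => ?_⟩
  · have e : (g * n * g⁻¹).1 x - x = g.1 (n.1 ((g⁻¹).1 x) - (g⁻¹).1 x) := by
      rw [mul_apply', mul_apply', map_sub, apply_inv']
    rw [e]
    exact (hg _).mpr (hn.1 _)
  · rw [mul_apply', mul_apply', hn.2 _ (hg' x hx), apply_inv']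

/-- conjugation -/
noncomputable def cj {W : Submodule F V} (g : GW B W) (n : NW B W) : NW B W := ⟨g.1 * n.1 * g.1⁻¹, conj_mem g.2 n.2⟩

theorem cj_mul {W : Submodule F V} (g : GW B W) (n n' : NW B W) : cj g (n * n') = cj g n * cj g n' := by
  apply Subtype.ext
  change g.1 * (n.1 * n'.1) * g.1⁻¹ = (g.1 * n.1 * g.1⁻¹) * (g.1 * n'.1 * g.1⁻¹)
  group

theorem cj_cj {W : Submodule F V} (g g' : GW B W) (n : NW B W) : cj g (cj g' n) = cj (g * g') n := by
  apply Subtype.ext
  change g.1 * (g'.1 * n.1 * g'.1⁻¹) * g.1⁻¹ = (g.1 * g'.1) * n.1 * (g.1 * g'.1)⁻¹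
  group

theorem cj_one {W : Submodule F V} (n : NW B W) : cj (1 : GW B W) n = n := by
  apply Subtype.ext
  change 1 * n.1 * 1⁻¹ = n.1
  group

/-- conjugated characters -/
noncomputable def chj {W : Submodule F V} (χ : AddChar (Additive (NW B W)) ℂ) (g : GW B W) : AddChar (Additive (NW B W)) ℂ where
  toFun n := χ (Additive.ofMul (cj g n.toMul))
  map_zero_eq_one' := by
    have : cj g (1 : NW B W) = 1 := by
      apply Subtype.ext
      change g.1 * 1 * g.1⁻¹ = 1
      group
    change χ (Additive.ofMul (cj g (1 : NW B W))) = 1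
    rw [this]
    exact AddChar.map_zero_eq_one χ
  map_add_eq_mul' n n' := by
    change χ (Additive.ofMul (cj g (n.toMul * n'.toMul))) = _
    rw [cj_mul]
    exact AddChar.map_add_eq_mul χ _ _

theorem chj_apply {W : Submodule F V} (χ : AddChar (Additive (NW B W)) ℂ) (g : GW B W) (n : NW B W) :
    chj χ g (Additive.ofMul n) = χ (Additive.ofMul (cj g n)) := rfl

section elts
variable (h : HForm B) {W : Submodule F V} (hW : ∀ x ∈ W, ∀ y ∈ W, B x y = 0)

include hW in
theorem tv_mem {w : V} (hw : w ∈ W) (c : F) : tv h w c ∈ NW B W := by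
  by_cases hc : c + σ c = 0
  · refine ⟨fun x => ?_, fun x hx => ?_⟩
    · rw [tv_apply h (hW w hw w hw) hc, add_sub_cancel_left]
      exact W.smul_mem _ hw
    · rw [tv_apply h (hW w hw w hw) hc, hW w hw x hx, mul_zero, zero_smul, add_zero]
  · rw [tv, dif_neg (fun H => hc H.2)]
    exact (NW B W).one_mem

include hW in
theorem si_mem {u w : V} (hu : u ∈ W) (hw : w ∈ W) (c : F) : si h u w c ∈ NW B W := by
  by_cases hc : c + σ c + B w w = 0
  · have e := si_apply h (hW u hu u hu) (hW u hu w hw) hc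
    refine ⟨fun x => ?_, fun x hx => ?_⟩
    · rw [e, add_assoc, add_sub_cancel_left]
      exact W.add_mem (W.smul_mem _ hw) (W.smul_mem _ hu)
    · rw [e, hW u hu x hx, hW w hw x hx, mul_zero, sub_zero, zero_smul, zero_smul, add_zero, add_zero]
  · rw [si, dif_neg (fun H => hc H.2.2)]
    exact (NW B W).one_mem

/-- transvections in the radical -/
noncomputable def tvN (w : W) (c : F) : Additive (NW B W) := Additive.ofMul ⟨tv h w.1 c, tv_mem h hW w.2 c⟩

/-- Siegel elements in the radical -/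
noncomputable def siN (u w : W) : Additive (NW B W) := Additive.ofMul ⟨si h u.1 w.1 0, si_mem h hW u.2 w.2 0⟩

theorem tvN_add (w : W) {c d : F} (hc : c + σ c = 0) (hd : d + σ d = 0) : tvN h hW w (c + d) = tvN h hW w c + tvN h hW w d := by
  apply congrArg Additive.ofMul
  apply Subtype.ext
  exact (tv_mul h (hW w.1 w.2 w.1 w.2) hc hd).symm

theorem siN_add (u w w' : W) : siN h hW u (w + w') = siN h hW u w + siN h hW u w' := by
  apply congrArg Additive.ofMul
  apply Subtype.ext
  have h0 : ∀ y : W, (0 : F) + σ 0 + B y.1 y.1 = 0 := fun y => by rw [map_zero, hW y.1 y.2 y.1 y.2, add_zero, add_zero]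
  have h1 := si_mul h (hW u.1 u.2 u.1 u.2) (hW u.1 u.2 w.1 w.2) (h0 w) (hW u.1 u.2 w'.1 w'.2) (h0 w')
  rw [hW w.1 w.2 w'.1 w'.2, sub_zero, add_zero] at h1
  exact h1.symm

theorem siN_self (hq : QConj σ q) (u : W) (z : F) : siN h hW u (z • u) = tvN h hW u (z - σ z) := by
  apply congrArg Additive.ofMul
  apply Subtype.ext
  apply K_ext
  intro x
  have hu := hW u.1 u.2 u.1 u.2
  have hz : (z • u : W).1 = z • u.1 := rfl
  have hzu : B u.1 (z • u.1) = 0 := by rw [map_smul_right, hu, mul_zero]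
  have hzz : (0 : F) + σ 0 + B (z • u.1) (z • u.1) = 0 := by
    rw [map_zero, map_smul_right, map_smul_left, hu, mul_zero, mul_zero, add_zero, add_zero]
  have hc : (z - σ z) + σ (z - σ z) = 0 := by rw [map_sub, hq.invol]; ring
  change (si h u.1 (z • u.1) 0).1 x = (tv h u.1 (z - σ z)).1 x
  rw [si_apply h hu hzu hzz, tv_apply h hu hc, map_smul_left, smul_smul, zero_mul, zero_sub, add_assoc, ← add_smul]
  congr 2
  ring

theorem tvN_expand (hq : QConj σ q) (u w : W) (l : F) {c : F} (hc : c + σ c = 0) :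
    tvN h hW (l • u + w) c = tvN h hW u (c * (l * σ l)) + tvN h hW w c + siN h hW u ((c * σ l) • w) := by
  apply congrArg Additive.ofMul
  apply Subtype.ext
  apply K_ext
  intro x
  have hu := hW u.1 u.2 u.1 u.2
  have hw := hW w.1 w.2 w.1 w.2
  have huw := hW u.1 u.2 w.1 w.2
  have hwu := hW w.1 w.2 u.1 u.2
  have e1 : (l • u + w : W).1 = l • u.1 + w.1 := rfl
  have e2 : ((c * σ l) • w : W).1 = (c * σ l) • w.1 := rfl
  have h1 : B (l • u.1 + w.1) (l • u.1 + w.1) = 0 := hW _ (l • u + w).2 _ (l • u + w).2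
  have h2 : c * (l * σ l) + σ (c * (l * σ l)) = 0 := by
    rw [map_mul, map_mul, hq.invol, mul_comm (σ l) l, ← add_mul, hc, zero_mul]
  have h3 : B u.1 ((c * σ l) • w.1) = 0 := by rw [map_smul_right, huw, mul_zero]
  have h4 : (0 : F) + σ 0 + B ((c * σ l) • w.1) ((c * σ l) • w.1) = 0 := by
    rw [map_zero, map_smul_right, map_smul_left, hw, mul_zero, mul_zero, add_zero, add_zero]
  change (tv h (l • u.1 + w.1) c).1 x = (tv h u.1 (c * (l * σ l)) * tv h w.1 c * si h u.1 ((c * σ l) • w.1) 0).1 x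
  rw [mul_apply', mul_apply', si_apply h hu h3 h4, tv_apply h hw hc, tv_apply h hu h2, tv_apply h h1 hc]
  have hσc : σ c = -c := by linear_combination hc
  have e3 : B ((c * σ l) • w.1) x = -(c * l) * B w.1 x := by
    rw [map_smul_left, map_mul, hq.invol, hσc]; ring
  have e4 : ∀ y : V, B u.1 (x + y) = B u.1 x + B u.1 y := fun y => map_add_right _ _ _ _
  have e5 : B w.1 (x + B u.1 x • ((c * σ l) • w.1) + (0 * B u.1 x - -(c * l) * B w.1 x) • u.1) = B w.1 x := by
    rw [map_add_right, map_add_right, map_smul_right, map_smul_right, map_smul_right, hw, hwu]; ring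
  rw [e3, e5]
  have e6 : B u.1 (x + B u.1 x • ((c * σ l) • w.1) + (0 * B u.1 x - -(c * l) * B w.1 x) • u.1 + (c * B w.1 x) • w.1) = B u.1 x := by
    rw [map_add_right, map_add_right, map_add_right, map_smul_right, map_smul_right, map_smul_right, map_smul_right, hu, huw]; ring
  rw [e6, map_add_left, map_smul_left]
  module

theorem cj_tvN (g : GW B W) (w : W) {c : F} (hc : c + σ c = 0) : Additive.ofMul (cj g (tvN h hW w c).toMul) = tvN h hW ⟨g.1.1 w.1, (g.2 _).mpr w.2⟩ c := by
  apply congrArg Additive.ofMul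
  apply Subtype.ext
  exact conj_tv h g.1 (hW w.1 w.2 w.1 w.2) hc

theorem cj_siN (g : GW B W) (u w : W) : Additive.ofMul (cj g (siN h hW u w).toMul) =
    siN h hW ⟨g.1.1 u.1, (g.2 _).mpr u.2⟩ ⟨g.1.1 w.1, (g.2 _).mpr w.2⟩ := by
  apply congrArg Additive.ofMul
  apply Subtype.ext
  exact conj_si h g.1 (hW u.1 u.2 u.1 u.2) (hW u.1 u.2 w.1 w.2) (by rw [map_zero, hW w.1 w.2 w.1 w.2, add_zero, add_zero])

end elts

end CfsgLib.SUm
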