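import Cfsg.Agent.Lib.SUm1
set_option autoImplicit false
set_option linter.style.haveILetI false
set_option linter.unusedSectionVars false

/-! Minimal degrees of unitary groups: counting the characters in an orbit. -/

namespace CfsgLib.SUm
open Module CfsgLib.Herm CfsgLib.AutPSU CfsgLib.MD

variable {F V : Type*} [Field F] [Fintype F] [AddCommGroup V] [Module F V] [FiniteDimensional F V]
  {σ : F →+* F} {q : ℕ} {B : V →ₛₗ[σ] V →ₗ[F] F} (hq : QConj σ q) (h : HForm B) {W : Submodule F V} (hW : ∀ x ∈ W, ∀ y ∈ W, B x y = 0)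
  (χ0 : AddChar (Additive (NW B W)) ℂ) (e : W) (he : ∃ c, c + σ c = 0 ∧ χ0 (tvN h hW e c) ≠ 1)

theorem chi_ne {A : Type*} [AddGroup A] (χ : AddChar A ℂ) (z : A) : χ z ≠ 0 := fun hz => by
  have := AddChar.map_add_eq_mul χ z (-z)
  rw [add_neg_cancel, AddChar.map_zero_eq_one, hz, zero_mul] at this
  exact one_ne_zero this

include hq in
theorem skew_mem (z : F) : (z - σ z) + σ (z - σ z) = 0 := by rw [map_sub, hq.invol]; ring

/-- the character `z ↦ χ0 (tv e (z - σ z))` -/
noncomputable def psF : AddChar F ℂ where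
  toFun z := χ0 (tvN h hW e (z - σ z))
  map_zero_eq_one' := by
    have : tvN h hW e (0 - σ 0) = 0 := by
      rw [map_zero, sub_zero]
      apply congrArg Additive.ofMul
      apply Subtype.ext
      exact tv_zero h e.1
    rw [this, AddChar.map_zero_eq_one]
  map_add_eq_mul' z z' := by
    have hσ : ∀ z : F, (z - σ z) + σ (z - σ z) = 0 := fun z => skew_mem hq z
    have e1 : z + z' - σ (z + z') = (z - σ z) + (z' - σ z') := by rw [map_add]; ring
    rw [e1, tvN_add h hW e (hσ z) (hσ z'), AddChar.map_add_eq_mul]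

theorem psF_apply (z : F) : psF hq h hW χ0 e z = χ0 (tvN h hW e (z - σ z)) := rfl

include hq in
theorem exists_skew {c : F} (hc : c + σ c = 0) : ∃ z, z - σ z = c := by
  obtain ⟨d, hd⟩ := hq.exists_ne
  -- d - σ d ≠ 0 and c / (d - σ d) is fixed
  have hd0 : d - σ d ≠ 0 := fun h => hd (sub_eq_zero.mp h).symm
  refine ⟨c / (d - σ d) * d, ?_⟩
  have hf : σ (c / (d - σ d)) = c / (d - σ d) := by
    rw [map_div₀, map_sub, hq.invol]
    have h1 : σ c = -c := by linear_combination hc
    rw [h1, ← neg_sub d (σ d), neg_div_neg_eq]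
  rw [map_mul, hf, ← mul_sub, div_mul_cancel₀ _ hd0]

include he in
theorem psF_ne : psF hq h hW χ0 e ≠ 1 := by
  obtain ⟨c, hc, hne⟩ := he
  obtain ⟨z, hz⟩ := exists_skew hq hc
  intro h1
  apply hne
  rw [← hz, ← psF_apply hq h hW χ0 e z, h1]
  rfl

include hq he in
/-- if `c t` is killed for all skew `c` then `t = 0` -/
theorem skew_nd {t : F} (ht : σ t = t) (hall : ∀ c, c + σ c = 0 → χ0 (tvN h hW e (c * t)) = 1) : t = 0 := by
  by_contra ht0
  obtain ⟨c, hc, hne⟩ := he
  apply hne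
  have h1 := hall (c / t) (by
    rw [map_div₀, ht, ← add_div, hc, zero_div])
  rwa [div_mul_cancel₀ _ ht0] at h1

include hq he in
theorem skew_nd' {t : F} (hall : ∀ μ, χ0 (tvN h hW e (μ * t - σ (μ * t))) = 1) : t = 0 := by
  have h1 := psF_ne hq h hW χ0 e he
  refine psi_inj (ψ := psF hq h hW χ0 e) h1 (a := t) (b := 0) (fun c => ?_)
  rw [zero_mul, AddChar.map_zero_eq_one, psF_apply, mul_comm t c, hall]

/-- the relation -/
def rel (χ : AddChar (Additive (NW B W)) ℂ) (v : W) : Prop := ∀ c, c + σ c = 0 → χ (tvN h hW v c) = χ0 (tvN h hW e c)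

theorem rel_chj (g : GW B W) (v : W) : rel h hW χ0 e (chj χ0 g) v ↔ rel h hW χ0 e χ0 ⟨g.1.1 v.1, (g.2 _).mpr v.2⟩ := by
  constructor
  · intro hr c hc
    have h1 := hr c hc
    change χ0 (Additive.ofMul (cj g (tvN h hW v c).toMul)) = _ at h1
    rwa [cj_tvN h hW g v hc] at h1
  · intro hr c hc
    have h1 := hr c hc
    change χ0 (Additive.ofMul (cj g (tvN h hW v c).toMul)) = _
    rwa [cj_tvN h hW g v hc]

include hq in
theorem card_norm_le [DecidableEq F] (κ d : F) : (Finset.univ.filter (fun l : F => (l + κ) * σ (l + κ) = d)).card ≤ q + 1 := by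
  by_cases hd : σ d = d ∧ d ≠ 0
  · have h1 := hq.card_norm hd.1 hd.2
    rw [← h1, Nat.card_eq_fintype_card, ← Finset.card_univ]
    refine Finset.card_le_card_of_injOn (fun l => if hl : (l + κ) * σ (l + κ) = d then ⟨l + κ, hl⟩ else ⟨_, (hq.exists_norm hd.1).choose_spec⟩)
      (fun _ _ => Finset.mem_univ _) ?_
    intro l hl l' hl' hee
    have h2 := (Finset.mem_filter.mp hl).2
    have h3 := (Finset.mem_filter.mp hl').2
    simp only [dif_pos h2, dif_pos h3, Subtype.mk.injEq] at hee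
    exact add_right_cancel hee
  · refine le_trans (Finset.card_le_card (t := {-κ}) ?_) (by simp)
    intro l hl
    have h2 := (Finset.mem_filter.mp hl).2
    rw [Finset.mem_singleton]
    have h3 : σ d = d := by rw [← h2]; exact hq.norm_fixed _
    have h4 : d = 0 := by
      by_contra h5
      exact hd ⟨h3, h5⟩
    rw [h4] at h2
    have h5 : l + κ = 0 := by
      rcases mul_eq_zero.mp h2 with h6 | h6
      · exact h6
      · exact (map_eq_zero σ).mp h6
    exact eq_neg_of_add_eq_zero_left h5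

/-- the character `μ ↦ χ0 (si e (μ w))` -/
noncomputable def siF (w : W) : AddChar F ℂ where
  toFun z := χ0 (siN h hW e (z • w))
  map_zero_eq_one' := by
    have h1 := siN_add h hW e 0 0
    rw [add_zero] at h1
    have : siN h hW e ((0 : F) • w) = 0 := by
      rw [zero_smul]
      exact (left_eq_add.mp h1)
    rw [this, AddChar.map_zero_eq_one]
  map_add_eq_mul' z z' := by
    rw [add_smul, siN_add, AddChar.map_add_eq_mul]

include hq he in
theorem fibre_le [DecidableEq F] (w : W) [DecidablePred (fun l : F => rel h hW χ0 e χ0 (l • e + w))] :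
    (Finset.univ.filter (fun l : F => rel h hW χ0 e χ0 (l • e + w))).card ≤ q + 1 := by
  rcases Finset.eq_empty_or_nonempty (Finset.univ.filter (fun l : F => rel h hW χ0 e χ0 (l • e + w))) with h0 | ⟨l0, hl0⟩
  · rw [h0]; simp
  obtain ⟨κ, hκ⟩ := exists_shift (psF_ne hq h hW χ0 e he) (siF h hW χ0 e w)
  have hκ' : ∀ z, χ0 (siN h hW e (z • w)) = χ0 (tvN h hW e (κ * z - σ (κ * z))) := hκ
  have hr0 := (Finset.mem_filter.mp hl0).2
  refine le_trans (Finset.card_le_card (t := Finset.univ.filter (fun l : F => (l + κ) * σ (l + κ) = (l0 + κ) * σ (l0 + κ))) ?_)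
    (card_norm_le hq κ _)
  intro l hl
  have hr := (Finset.mem_filter.mp hl).2
  refine Finset.mem_filter.mpr ⟨Finset.mem_univ _, ?_⟩
  have hexp : ∀ l c, c + σ c = 0 → χ0 (tvN h hW (l • e + w) c) =
      χ0 (tvN h hW w c) * χ0 (tvN h hW e (c * (l * σ l + κ * σ l + σ κ * l))) := by
    intro l c hc
    have hσc : σ c = -c := by linear_combination hc
    have h2 : c * (l * σ l) + σ (c * (l * σ l)) = 0 := by
      rw [map_mul, map_mul, hq.invol, mul_comm (σ l) l, ← add_mul, hc, zero_mul]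
    rw [tvN_expand h hW hq e w l hc, AddChar.map_add_eq_mul, AddChar.map_add_eq_mul, hκ']
    have e1 : c * (l * σ l + κ * σ l + σ κ * l) = c * (l * σ l) + (κ * (c * σ l) - σ (κ * (c * σ l))) := by
      rw [map_mul, map_mul, hq.invol, hσc]; ring
    rw [e1, tvN_add h hW e h2 (skew_mem hq _), AddChar.map_add_eq_mul]
    ring
  have ht : (l * σ l + κ * σ l + σ κ * l) - (l0 * σ l0 + κ * σ l0 + σ κ * l0) = 0 := by
    refine skew_nd hq h hW χ0 e he ?_ (fun c hc => ?_)
    · simp only [map_sub, map_add, map_mul, hq.invol]; ring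
    · have h1 := hr c hc
      have h2 := hr0 c hc
      rw [hexp l c hc] at h1
      rw [hexp l0 c hc] at h2
      have h3 := mul_left_cancel₀ (chi_ne χ0 _) (h1.trans h2.symm)
      have hs : ∀ l, c * (l * σ l + κ * σ l + σ κ * l) + σ (c * (l * σ l + κ * σ l + σ κ * l)) = 0 := by
        intro l
        simp only [map_add, map_mul, hq.invol]
        linear_combination (l * σ l + κ * σ l + σ κ * l) * hc
      have e1 : tvN h hW e (c * (l * σ l + κ * σ l + σ κ * l)) =
          tvN h hW e (c * ((l * σ l + κ * σ l + σ κ * l) - (l0 * σ l0 + κ * σ l0 + σ κ * l0))) + tvN h hW e (c * (l0 * σ l0 + κ * σ l0 + σ κ * l0)) := by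
        rw [← tvN_add h hW e _ (hs l0)]
        · congr 1; ring
        · have h4 := hs l
          have h5 := hs l0
          rw [mul_sub, map_sub]
          linear_combination h4 - h5
      rw [e1, AddChar.map_add_eq_mul] at h3
      exact (mul_eq_right₀ (chi_ne χ0 _)).mp h3
  have e2 : ∀ l, (l + κ) * σ (l + κ) = (l * σ l + κ * σ l + σ κ * l) + κ * σ κ := by
    intro l; rw [map_add]; ring
  rw [e2, e2]
  linear_combination ht

/-- kernels of functionals -/
theorem ker_card {X : Type*} [AddCommGroup X] [Module F X] [FiniteDimensional F X] (φ : X →ₗ[F] F) (x : X) {m : ℕ} (hm : finrank F X = m + 1)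
    (hφ : φ x = 1) : Nat.card (LinearMap.ker φ) = Fintype.card F ^ m := by
  have h1 := LinearMap.finrank_range_add_finrank_ker φ
  have h2 : LinearMap.range φ = ⊤ := by
    rw [LinearMap.range_eq_top]
    intro z
    exact ⟨z • x, by rw [map_smul, hφ, smul_eq_mul, mul_one]⟩
  rw [h2, finrank_top, finrank_self, hm] at h1
  rw [Module.natCard_eq_pow_finrank (K := F), Nat.card_eq_fintype_card]
  congr 1
  omega

include hq he in
theorem rel_card_le [DecidableEq F] [Fintype W] {m : ℕ} (hm : finrank F W = m + 1) (he0 : e ≠ 0) [DecidablePred (fun v : W => rel h hW χ0 e χ0 v)] :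
    (Finset.univ.filter (fun v : W => rel h hW χ0 e χ0 v)).card ≤ (q + 1) * Fintype.card F ^ m := by
  classical
  obtain ⟨φ, hφ⟩ := Module.Projective.exists_dual_eq_one F he0
  let f : W → LinearMap.ker φ := fun v => ⟨v - φ v • e, by rw [LinearMap.mem_ker, map_sub, map_smul, hφ, smul_eq_mul, mul_one, sub_self]⟩
  haveI : Finite (LinearMap.ker φ) := Finite.of_injective (fun x : LinearMap.ker φ => x.1) Subtype.val_injective
  haveI : Fintype (LinearMap.ker φ) := Fintype.ofFinite _
  have h1 := Finset.card_le_mul_card_image (f := f) (Finset.univ.filter (fun v : W => rel h hW χ0 e χ0 v)) (q + 1) (by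
    intro b _
    refine le_trans ?_ (fibre_le hq h hW χ0 e he b.1)
    have hv : ∀ v, f v = b → v = φ v • e + b.1 := by
      intro v hv
      have := congrArg Subtype.val hv
      change v - φ v • e = b.1 at this
      rw [← this]; abel
    refine Finset.card_le_card_of_injOn (fun v => φ v) ?_ ?_
    · intro v hv1
      obtain ⟨h2, h3⟩ := Finset.mem_filter.mp hv1
      refine Finset.mem_filter.mpr ⟨Finset.mem_univ _, ?_⟩
      rw [← hv v h3]
      exact (Finset.mem_filter.mp h2).2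
    · intro v hv1 v' hv2 hee
      rw [hv v (Finset.mem_filter.mp hv1).2, hv v' (Finset.mem_filter.mp hv2).2]
      change φ v = φ v' at hee
      rw [hee])
  refine h1.trans (Nat.mul_le_mul_left _ ?_)
  rw [← ker_card φ e hm hφ, Nat.card_eq_fintype_card, ← Finset.card_univ]
  exact Finset.card_le_card (Finset.subset_univ _)

include hq h hW in
theorem exists_si (ℓ : W →ₗ[F] F) (hℓ : ℓ e = 0) : ∃ g : GW B W, ∀ w : W, g.1.1 w.1 = w.1 - ℓ w • e.1 := by
  obtain ⟨ℓ', hℓ'⟩ := LinearMap.exists_extend ℓ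
  obtain ⟨y, hy⟩ := h.exists_repr ℓ'
  have hy' : ∀ w : W, B y w.1 = ℓ w := fun w => by
    rw [hy, ← hℓ']; rfl
  obtain ⟨c, hc⟩ := hq.exists_trace (c := -B y y) (by rw [map_neg, h.self_fixed])
  have he1 : B e.1 e.1 = 0 := hW e.1 e.2 e.1 e.2
  have hey : B e.1 y = 0 := h.eq_zero_comm (by rw [hy', hℓ])
  have hc' : c + σ c + B y y = 0 := by rw [hc]; ring
  have hact : ∀ w : W, (si h e.1 y c).1 w.1 = w.1 - ℓ w • e.1 := by
    intro w
    rw [si_apply h he1 hey hc', hW e.1 e.2 w.1 w.2, hy' w, zero_smul, mul_zero, zero_sub, neg_smul, add_zero, sub_eq_add_neg]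
  refine ⟨⟨si h e.1 y c, mem_GW_of (fun w hw => ?_)⟩, hact⟩
  have := hact ⟨w, hw⟩
  rw [this]
  exact W.sub_mem hw (W.smul_mem _ e.2)

include hq he in
theorem rel_ge [Fintype (GW B W)] [DecidableEq (AddChar (Additive (NW B W)) ℂ)] {m : ℕ} (hm : finrank F W = m + 1) (he0 : e ≠ 0) (v : W) (g0 : GW B W)
    (hg0 : g0.1.1 v.1 = e.1) [DecidablePred (fun χ => rel h hW χ0 e χ v)] :
    Fintype.card F ^ m ≤ ((Finset.univ.image (chj χ0)).filter (fun χ => rel h hW χ0 e χ v)).card := by
  classical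
  obtain ⟨φ, hφ⟩ := Module.Projective.exists_dual_eq_one F he0
  let Y := LinearMap.ker (Module.Dual.eval F W e)
  have hYc : Nat.card Y = Fintype.card F ^ m := ker_card (Module.Dual.eval F W e) φ (by rw [Subspace.dual_finrank_eq, hm]) hφ
  have hY : ∀ ℓ : Y, ∃ g : GW B W, ∀ w : W, g.1.1 w.1 = w.1 - ℓ.1 w • e.1 := fun ℓ => exists_si hq h hW e ℓ.1 ℓ.2
  choose C hC using hY
  have hCe : ∀ ℓ : Y, (C ℓ).1.1 e.1 = e.1 := fun ℓ => by
    rw [hC, show ℓ.1 e = 0 from ℓ.2, zero_smul, sub_zero]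
  haveI : Finite Y := Nat.finite_of_card_ne_zero (by rw [hYc]; exact pow_ne_zero _ Fintype.card_ne_zero)
  haveI : Fintype Y := Fintype.ofFinite _
  rw [← hYc, Nat.card_eq_fintype_card, ← Finset.card_univ]
  refine Finset.card_le_card_of_injOn (fun ℓ => chj χ0 (C ℓ * g0)) ?_ ?_
  · intro ℓ _
    refine Finset.mem_filter.mpr ⟨Finset.mem_image_of_mem _ (Finset.mem_univ _), ?_⟩
    change rel h hW χ0 e (chj χ0 (C ℓ * g0)) v
    rw [rel_chj]
    have h1 : (⟨(C ℓ * g0).1.1 v.1, ((C ℓ * g0).2 _).mpr v.2⟩ : W) = e := by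
      apply Subtype.ext
      change ((C ℓ).1 * g0.1).1 v.1 = e.1
      rw [mul_apply', hg0, hCe]
    rw [h1]
    intro c _; rfl
  · intro ℓ _ ℓ' _ hee
    change chj χ0 (C ℓ * g0) = chj χ0 (C ℓ' * g0) at hee
    have h1 : ∀ n : NW B W, χ0 (Additive.ofMul (cj (C ℓ) n)) = χ0 (Additive.ofMul (cj (C ℓ') n)) := by
      intro n
      have h2 := congrArg (fun χ : AddChar (Additive (NW B W)) ℂ => χ (Additive.ofMul (cj g0⁻¹ n))) hee
      change χ0 (Additive.ofMul (cj (C ℓ * g0) (cj g0⁻¹ n))) = χ0 (Additive.ofMul (cj (C ℓ' * g0) (cj g0⁻¹ n))) at h2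
      rwa [cj_cj, cj_cj, mul_assoc, mul_assoc, mul_inv_cancel, mul_one, mul_one] at h2
    have h3 : ∀ (ℓ : Y) (w : W), χ0 (Additive.ofMul (cj (C ℓ) (siN h hW e w).toMul)) =
        χ0 (siN h hW e w) * χ0 (tvN h hW e (-ℓ.1 w - σ (-ℓ.1 w))) := by
      intro ℓ w
      rw [cj_siN, ← siN_self h hW hq, ← AddChar.map_add_eq_mul, ← siN_add]
      congr 2
      · exact Subtype.ext (hCe ℓ)
      · apply Subtype.ext
        change (C ℓ).1.1 w.1 = w.1 + (-ℓ.1 w) • e.1
        rw [hC, neg_smul, sub_eq_add_neg]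
    apply Subtype.ext
    apply LinearMap.ext
    intro w
    have h4 : ℓ'.1 w - ℓ.1 w = 0 := by
      refine skew_nd' hq h hW χ0 e he (fun μ => ?_)
      have h5 := h1 (siN h hW e (μ • w)).toMul
      rw [h3, h3] at h5
      have h6 := mul_left_cancel₀ (chi_ne χ0 _) h5
      have e1 : -ℓ.1 (μ • w) - σ (-ℓ.1 (μ • w)) =
          (μ * (ℓ'.1 w - ℓ.1 w) - σ (μ * (ℓ'.1 w - ℓ.1 w))) + (-ℓ'.1 (μ • w) - σ (-ℓ'.1 (μ • w))) := by
        rw [map_smul, map_smul, smul_eq_mul, smul_eq_mul]
        simp only [map_neg, map_mul, map_sub]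
        ring
      rw [e1, tvN_add h hW e (skew_mem hq _) (skew_mem hq _), AddChar.map_add_eq_mul] at h6
      exact (mul_eq_right₀ (chi_ne χ0 _)).mp h6
    exact (sub_eq_zero.mp h4).symm

include hq he in
/-- the orbit bound -/
theorem orbit_count [Finite V] [Fintype (GW B W)] [DecidableEq (AddChar (Additive (NW B W)) ℂ)] {m : ℕ} (hm : finrank F W = m + 1) (he0 : e ≠ 0)
    (htr : ∀ v : W, v ≠ 0 → ∃ g : GW B W, g.1.1 v.1 = e.1) :
    Fintype.card F ^ (m + 1) - 1 ≤ (q + 1) * (Finset.univ.image (chj χ0)).card := by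
  classical
  haveI : Fintype W := Fintype.ofFinite _
  have h1 := Finset.card_mul_le_card_mul (fun (v : W) (χ : AddChar (Additive (NW B W)) ℂ) => rel h hW χ0 e χ v)
    (s := Finset.univ.erase (0 : W)) (t := Finset.univ.image (chj χ0)) (m := Fintype.card F ^ m) (n := (q + 1) * Fintype.card F ^ m) (by
      intro v hv
      obtain ⟨g0, hg0⟩ := htr v (Finset.ne_of_mem_erase hv)
      exact rel_ge hq h hW χ0 e he hm he0 v g0 hg0) (by
      intro χ hχ
      obtain ⟨g, -, rfl⟩ := Finset.mem_image.mp hχ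
      refine le_trans ?_ (rel_card_le hq h hW χ0 e he hm he0)
      refine Finset.card_le_card_of_injOn (fun v => (⟨g.1.1 v.1, (g.2 _).mpr v.2⟩ : W)) ?_ ?_
      · intro v hv
        have h2 := (Finset.mem_filter.mp hv).2
        exact Finset.mem_filter.mpr ⟨Finset.mem_univ _, (rel_chj h hW χ0 e g v).mp h2⟩
      · intro v _ v' _ hee
        exact Subtype.ext (g.1.1.injective (congrArg Subtype.val hee)))
  rw [Finset.card_erase_of_mem (Finset.mem_univ _), Finset.card_univ, Module.card_eq_pow_finrank (K := F), hm] at h1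
  have h2 : 0 < Fintype.card F ^ m := pow_pos Fintype.card_pos _
  refine Nat.le_of_mul_le_mul_right ?_ h2
  calc _ ≤ _ := h1
    _ = _ := by ring

end CfsgLib.SUm
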