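import Cfsg.Agent.Lib.WL2
import Cfsg.Agent.Lib.QF3
import Cfsg.Agent.Lib.Symp2
set_option autoImplicit false
set_option linter.style.haveILetI false
set_option linter.unusedSectionVars false

/-! The Weil representation: irreducibility; the lower bound. -/

namespace CfsgLib.WL
open Matrix CfsgLib.MD CfsgLib.QF

/-- quasisimple groups -/
theorem qs {G : Type*} [Group G] (hs : IsSimpleGroup (G ⧸ Subgroup.center G)) (hp : commutator G = ⊤) (N : Subgroup G) [hN0 : N.Normal] :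
    N ≤ Subgroup.center G ∨ N = ⊤ := by
  have hN : (N.map (QuotientGroup.mk' (Subgroup.center G))).Normal := Subgroup.Normal.map inferInstance _ (QuotientGroup.mk'_surjective _)
  rcases hN.eq_bot_or_eq_top with h | h
  · left
    have := (Subgroup.map_eq_bot_iff _).mp h
    rwa [QuotientGroup.ker_mk'] at this
  · right
    rw [eq_top_iff, ← hp, commutator_def, Subgroup.commutator_le]
    intro g _ k _
    have hg : QuotientGroup.mk' (Subgroup.center G) g ∈ N.map (QuotientGroup.mk' (Subgroup.center G)) := by rw [h]; trivial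
    obtain ⟨x, hx, hxg⟩ := hg
    have hz : x⁻¹ * g ∈ Subgroup.center G := QuotientGroup.eq.mp hxg
    obtain ⟨z, hz1⟩ : ∃ z, z = x⁻¹ * g := ⟨_, rfl⟩
    have hg2 : g = x * z := by rw [hz1]; group
    rw [← hz1, Subgroup.mem_center_iff] at hz
    change g * k * g⁻¹ * k⁻¹ ∈ N
    have h3 : g * k * g⁻¹ * k⁻¹ = x * (k * x⁻¹ * k⁻¹) := by
      rw [hg2]
      have h4 : x * z * k * (x * z)⁻¹ * k⁻¹ = x * (z * k * z⁻¹) * x⁻¹ * k⁻¹ := by group
      have h5 : z * k * z⁻¹ = k := by rw [← hz k]; group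
      rw [h4, h5]; group
    rw [h3]
    exact N.mul_mem hx (hN0.conj_mem _ (N.inv_mem hx) k)

variable {F : Type*} [Field F] [Fintype F] [DecidableEq F] {n : ℕ}

/-- odd basis functions -/
def Dd (t : Fin n → F) : (Fin n → F) → ℂ := Pi.single t 1 - Pi.single (-t) 1

theorem pm_of_sq (h2 : (2 : F) ≠ 0) {t s : Fin n → F} (h : ∀ i j, t i * t j = s i * s j) : t = s ∨ t = -s := by
  by_cases ht : t = 0
  · left
    rw [ht]
    funext i
    have := h i i
    rw [ht, Pi.zero_apply, mul_zero] at this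
    exact (mul_self_eq_zero.mp this.symm).symm
  · obtain ⟨i, hi⟩ := Function.ne_iff.mp ht
    rcases mul_self_eq_mul_self_iff.mp (h i i) with h6 | h6
    · left
      funext j
      have := h i j
      rw [← h6] at this
      exact mul_left_cancel₀ hi this
    · right
      funext j
      have := h i j
      have h7 : s i = - t i := by rw [h6, neg_neg]
      rw [h7] at this
      change t j = - s j
      refine mul_left_cancel₀ hi ?_
      rw [this]; ring

theorem irr_aux {ψ : AddChar F ℂ} (hψ : ψ ≠ 1) (h2 : (2 : F) ≠ 0) (U : Submodule ℂ ((Fin n → F) → ℂ)) (hU : U ≤ Ve F n (-1)) (hne : U ≠ ⊥)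
    (hinv : ∀ g : Matrix.symplecticGroup (Fin n) F, ∀ f ∈ U, Wl hψ h2 g f ∈ U) : U = Ve F n (-1) := by
  classical
  have hX : ∀ X : SymW F n, ∀ f ∈ U, TX ψ X f ∈ U := by
    intro X f hf
    obtain ⟨c, hc⟩ := impl_unique hψ (Wl_good hψ h2 (aE X)).1 (impl_TX h2 ψ X)
    rw [hc]
    exact U.smul_mem c (hinv _ f hf)
  have hA : ∀ A : GL (Fin n) F, ∀ f ∈ U, TA A f ∈ U := by
    intro A f hf
    obtain ⟨c, hc⟩ := impl_unique hψ (Wl_good hψ h2 (gE A)).1 (impl_TA ψ A)
    rw [hc]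
    exact U.smul_mem c (hinv _ f hf)
  obtain ⟨f, hf, hf0⟩ := (Submodule.ne_bot_iff U).mp hne
  obtain ⟨t0, ht0⟩ := Function.ne_iff.mp hf0
  have hodd : ∀ f ∈ U, ∀ t, f (-t) = - f t := by
    intro f hf t
    have h1 : Pa f = (-1 : ℂ) • f := hU hf
    have h3 := congrFun h1 t
    rw [Pa_apply, Pi.smul_apply, smul_eq_mul] at h3
    rw [h3]; ring
  have ht00 : t0 ≠ -t0 := by
    intro h
    have h1 := hodd f hf t0
    rw [← h] at h1
    apply ht0
    change f t0 = 0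
    linear_combination h1 / 2
  -- the projection
  let Θ : (Fin n → F) → AddChar (SymW F n) ℂ := fun t =>
    { toFun := fun X => ψ (2⁻¹ * (t0 ⬝ᵥ (X.1 *ᵥ t0))) * ψ (-(2⁻¹ * (t ⬝ᵥ (X.1 *ᵥ t))))
      map_zero_eq_one' := by
        change ψ (2⁻¹ * (t0 ⬝ᵥ ((0 : Matrix (Fin n) (Fin n) F) *ᵥ t0))) * ψ (-(2⁻¹ * (t ⬝ᵥ ((0 : Matrix (Fin n) (Fin n) F) *ᵥ t)))) = 1
        rw [Matrix.zero_mulVec, Matrix.zero_mulVec, dotProduct_zero, dotProduct_zero, mul_zero, neg_zero, AddChar.map_zero_eq_one, mul_one]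
      map_add_eq_mul' := fun X Y => by
        change ψ (2⁻¹ * (t0 ⬝ᵥ ((X.1 + Y.1) *ᵥ t0))) * ψ (-(2⁻¹ * (t ⬝ᵥ ((X.1 + Y.1) *ᵥ t)))) = _
        rw [Matrix.add_mulVec, Matrix.add_mulVec, dotProduct_add, dotProduct_add, mul_add, mul_add, neg_add, AddChar.map_add_eq_mul,
          AddChar.map_add_eq_mul]
        ring }
  have hΘ : ∀ t X, Θ t X = ψ (2⁻¹ * (t0 ⬝ᵥ (X.1 *ᵥ t0))) * ψ (-(2⁻¹ * (t ⬝ᵥ (X.1 *ᵥ t)))) := fun _ _ => rfl
  have hΘ1 : ∀ t, Θ t = 0 → t = t0 ∨ t = -t0 := by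
    intro t h
    have h1 : ∀ X : SymW F n, ψ (2⁻¹ * (t0 ⬝ᵥ (X.1 *ᵥ t0))) = ψ (2⁻¹ * (t ⬝ᵥ (X.1 *ᵥ t))) := by
      intro X
      have h3 : Θ t X = 1 := by rw [h]; rfl
      rw [hΘ] at h3
      have h4 := psi_neg ψ (2⁻¹ * (t ⬝ᵥ (X.1 *ᵥ t)))
      refine mul_right_cancel₀ (psi_ne ψ (-(2⁻¹ * (t ⬝ᵥ (X.1 *ᵥ t))))) ?_
      rw [h3, h4]
    apply pm_of_sq h2
    intro i j
    have h5 : ∀ (s : Fin n → F) (c : F), s ⬝ᵥ ((r2 c (Pi.single i 1) (Pi.single j 1) : SymW F n).1 *ᵥ s) = 2 * (s i * s j) * c := by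
      intro s c
      change s ⬝ᵥ ((c • (Matrix.vecMulVec (Pi.single i 1) (Pi.single j 1) + Matrix.vecMulVec (Pi.single j 1) (Pi.single i 1))) *ᵥ s) = _
      rw [Matrix.smul_mulVec, Matrix.add_mulVec, Matrix.vecMulVec_mulVec, Matrix.vecMulVec_mulVec, dotProduct_smul, dotProduct_add, single_one_dotProduct,
        single_one_dotProduct]
      simp only [MulOpposite.smul_eq_mul_unop, dotProduct_smul, MulOpposite.unop_op, smul_eq_mul, dotProduct_single_one, op_smul_eq_smul]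
      ring
    have h6 : 2⁻¹ * (2 * (t0 i * t0 j)) = 2⁻¹ * (2 * (t i * t j)) := by
      refine psi_inj hψ (fun c => ?_)
      have := h1 (r2 c (Pi.single i 1) (Pi.single j 1))
      rw [h5, h5] at this
      rw [mul_assoc 2⁻¹ _ c, mul_assoc 2⁻¹ _ c, this]
    have h7 : (2 : F)⁻¹ * 2 = 1 := inv_mul_cancel₀ h2
    rw [← mul_assoc, h7, one_mul, ← mul_assoc, h7, one_mul] at h6
    exact h6.symm
  have hΘ2 : ∀ t, t = t0 ∨ t = -t0 → Θ t = 0 := by
    intro t h
    ext X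
    rw [hΘ, AddChar.zero_apply]
    have h3 : t ⬝ᵥ (X.1 *ᵥ t) = t0 ⬝ᵥ (X.1 *ᵥ t0) := by
      rcases h with rfl | rfl
      · rfl
      · rw [Matrix.mulVec_neg, neg_dotProduct, dotProduct_neg, neg_neg]
    rw [h3, psi_neg]
  have hD0 : Dd t0 ∈ U := by
    have h1 : (∑ X : SymW F n, ψ (2⁻¹ * (t0 ⬝ᵥ (X.1 *ᵥ t0))) • TX ψ X f) = ((Fintype.card (SymW F n) : ℂ) * f t0) • Dd t0 := by
      funext t
      rw [Finset.sum_apply]
      have h3 : ∀ X : SymW F n, (ψ (2⁻¹ * (t0 ⬝ᵥ (X.1 *ᵥ t0))) • TX ψ X f) t = Θ t X * f t := by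
        intro X
        rw [hΘ, Pi.smul_apply, smul_eq_mul, mul_assoc]
        rfl
      rw [Finset.sum_congr rfl (fun X _ => h3 X), ← Finset.sum_mul, AddChar.sum_eq_ite]
      change _ = ((Fintype.card (SymW F n) : ℂ) * f t0) * ((Pi.single t0 1 : (Fin n → F) → ℂ) t - (Pi.single (-t0) 1 : (Fin n → F) → ℂ) t)
      by_cases ht1 : t = t0
      · rw [if_pos (hΘ2 t (Or.inl ht1)), ht1, Pi.single_eq_same, Pi.single_eq_of_ne ht00]
        ring
      · by_cases ht2 : t = -t0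
        · rw [if_pos (hΘ2 t (Or.inr ht2)), ht2, Pi.single_eq_same, Pi.single_eq_of_ne (Ne.symm ht00), hodd f hf]
          ring
        · rw [if_neg (fun h => (hΘ1 t h).elim ht1 ht2), Pi.single_eq_of_ne ht1, Pi.single_eq_of_ne ht2]
          ring
    have h3 : ((Fintype.card (SymW F n) : ℂ) * f t0) • Dd t0 ∈ U := by
      rw [← h1]
      exact U.sum_mem (fun X _ => U.smul_mem _ (hX X f hf))
    have h4 : (Fintype.card (SymW F n) : ℂ) * f t0 ≠ 0 := mul_ne_zero (Nat.cast_ne_zero.mpr Fintype.card_ne_zero) ht0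
    have h5 := U.smul_mem ((Fintype.card (SymW F n) : ℂ) * f t0)⁻¹ h3
    rwa [smul_smul, inv_mul_cancel₀ h4, one_smul] at h5
  have ht0z : t0 ≠ 0 := by
    intro h
    apply ht00
    rw [h, neg_zero]
  have hD : ∀ t, Dd t ∈ U := by
    intro t
    by_cases ht : t = 0
    · have : Dd t = 0 := by rw [ht, Dd, neg_zero, sub_self]
      rw [this]; exact U.zero_mem
    · obtain ⟨B, hB⟩ := exists_GLv (v := fun _ : Unit => t) (v' := fun _ => t0)
        (LinearIndependent.of_subsingleton () ht) (LinearIndependent.of_subsingleton () ht0z)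
      have hB0 : B.1 *ᵥ t = t0 := hB ()
      have h1 := hA (tr B) _ hD0
      have h3 : TA (tr B) (Dd t0) = Dd t := by
        funext s
        change Dd t0 (B.1ᵀᵀ *ᵥ s) = Dd t s
        rw [Matrix.transpose_transpose]
        have hinj : Function.Injective (fun s => B.1 *ᵥ s) := by
          intro a b hab
          have h5 : ∀ z, (B⁻¹).1 *ᵥ (B.1 *ᵥ z) = z := fun z => by
            rw [Matrix.mulVec_mulVec, ← Units.val_mul, inv_mul_cancel, Units.val_one, Matrix.one_mulVec]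
          rw [← h5 a, ← h5 b]
          exact congrArg (fun z => (B⁻¹).1 *ᵥ z) hab
        have h6 : (B.1 *ᵥ s = t0) ↔ s = t := by rw [← hB0]; exact hinj.eq_iff
        have h7 : (B.1 *ᵥ s = -t0) ↔ s = -t := by rw [← hB0, ← Matrix.mulVec_neg]; exact hinj.eq_iff
        simp only [Dd, Pi.sub_apply, Pi.single_apply, h6, h7]
      rwa [h3] at h1
  refine le_antisymm hU ?_
  intro f hf
  have h1 : f = (2⁻¹ : ℂ) • ∑ t, f t • Dd t := by
    funext s
    have h3 : f (-s) = - f s := by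
      have h1 : Pa f = (-1 : ℂ) • f := hf
      have h3 := congrFun h1 s
      rw [Pa_apply, Pi.smul_apply, smul_eq_mul] at h3
      rw [h3]; ring
    rw [Pi.smul_apply, Finset.sum_apply]
    have h4 : ∀ t, (f t • Dd t) s = (if s = t then f t else 0) - (if -s = t then f t else 0) := by
      intro t
      simp only [Dd, Pi.smul_apply, Pi.sub_apply, Pi.single_apply, smul_eq_mul, neg_eq_iff_eq_neg]
      split_ifs <;> ring
    rw [Finset.sum_congr rfl (fun t _ => h4 t), Finset.sum_sub_distrib, Finset.sum_ite_eq, Finset.sum_ite_eq, if_pos (Finset.mem_univ _),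
      if_pos (Finset.mem_univ _), h3, smul_eq_mul]
    ring
  rw [h1]
  exact U.smul_mem _ (U.sum_mem (fun t _ => U.smul_mem _ (hD t)))

theorem exists_weil (h2 : (2 : F) ≠ 0) (hd0 : 0 < (Fintype.card F ^ n - 1) / 2) :
    ∃ ρ : Representation ℂ (Matrix.symplecticGroup (Fin n) F) (Fin ((Fintype.card F ^ n - 1) / 2) → ℂ), ρ.IsIrreducible := by
  obtain ⟨ψ, hψ⟩ := exists_psi (F := F)
  set d := (Fintype.card F ^ n - 1) / 2 with hd
  obtain ⟨e⟩ : Nonempty (Ve F n (-1) ≃ₗ[ℂ] (Fin d → ℂ)) := by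
    refine ⟨LinearEquiv.ofFinrankEq _ _ ?_⟩
    rw [dim_m h2, Module.finrank_fin_fun]
  let ρ : Representation ℂ (Matrix.symplecticGroup (Fin n) F) (Fin d → ℂ) :=
    { toFun := fun g => e.toLinearMap ∘ₗ rhoW hψ h2 g ∘ₗ e.symm.toLinearMap
      map_one' := by
        apply LinearMap.ext; intro v
        change e (rhoW hψ h2 1 (e.symm v)) = v
        rw [map_one]
        exact e.apply_symm_apply v
      map_mul' := fun g g' => by
        apply LinearMap.ext; intro v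
        change e (rhoW hψ h2 (g * g') (e.symm v)) = e (rhoW hψ h2 g (e.symm (e (rhoW hψ h2 g' (e.symm v)))))
        rw [map_mul, e.symm_apply_apply]
        rfl }
  have hρ : ∀ g v, ρ g v = e (rhoW hψ h2 g (e.symm v)) := fun _ _ => rfl
  refine ⟨ρ, ?_⟩
  haveI hnt : Nontrivial (Subrepresentation ρ) := by
    refine ⟨⟨⊥, ⊤, fun h => ?_⟩⟩
    have h1 : (fun _ => 1 : Fin d → ℂ) ∈ (⊥ : Subrepresentation ρ) := by rw [h]; trivial
    have h3 : (fun _ => 1 : Fin d → ℂ) = 0 := h1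
    have := congrFun h3 ⟨0, hd0⟩
    exact one_ne_zero this
  refine ⟨fun S => ?_⟩
  by_cases hS : S = ⊥
  · exact Or.inl hS
  right
  let U : Submodule ℂ ((Fin n → F) → ℂ) := (S.toSubmodule.map e.symm.toLinearMap).map (Ve F n (-1)).subtype
  have hmem : ∀ f, f ∈ U ↔ ∃ v ∈ S.toSubmodule, (e.symm v).1 = f := by
    intro f
    constructor
    · rintro ⟨_, ⟨v, hv, rfl⟩, rfl⟩
      exact ⟨v, hv, rfl⟩
    · rintro ⟨v, hv, rfl⟩
      exact ⟨_, ⟨v, hv, rfl⟩, rfl⟩
  have hU := irr_aux hψ h2 U (by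
    intro f hf
    obtain ⟨v, hv, rfl⟩ := (hmem f).mp hf
    exact (e.symm v).2) (by
    intro h
    apply hS
    apply Subrepresentation.toSubmodule_injective
    rw [show (⊥ : Subrepresentation ρ).toSubmodule = ⊥ from rfl, eq_bot_iff]
    intro v hv
    have h1 : (e.symm v).1 ∈ U := (hmem _).mpr ⟨v, hv, rfl⟩
    rw [h, Submodule.mem_bot] at h1
    have h3 : e.symm v = 0 := Subtype.ext h1
    have h4 : v = 0 := by
      have := congrArg e h3
      rwa [e.apply_symm_apply, map_zero] at this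
    rw [h4]; exact Submodule.zero_mem _) (by
    intro g f hf
    obtain ⟨v, hv, rfl⟩ := (hmem f).mp hf
    refine (hmem _).mpr ⟨ρ g v, S.apply_mem_toSubmodule g hv, ?_⟩
    rw [hρ, e.symm_apply_apply, rhoW_coe])
  apply Subrepresentation.toSubmodule_injective
  rw [show (⊤ : Subrepresentation ρ).toSubmodule = ⊤ from rfl, eq_top_iff]
  intro v _
  have h1 : (e.symm v).1 ∈ U := by rw [hU]; exact (e.symm v).2
  obtain ⟨v', hv', h3⟩ := (hmem _).mp h1
  have h4 : v' = v := e.symm.injective (Subtype.ext h3)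
  rwa [h4] at hv'

theorem sp_qs (h2 : (2 : F) ≠ 0) (hn : 2 ≤ n) (N : Subgroup (Matrix.symplecticGroup (Fin n) F)) [N.Normal] : N ≤ Subgroup.center _ ∨ N = ⊤ := by
  have hq3 : 3 ≤ Fintype.card F := by
    have h1 : 1 < Fintype.card F := Fintype.one_lt_card
    have h3 : Fintype.card F ≠ 2 := by
      intro h
      apply h2
      have h4 := FiniteField.cast_card_eq_zero F
      rw [h] at h4
      exact_mod_cast h4
    omega
  refine qs (CfsgLib.Symp.isSimpleGroup_PSp n hn (fun _ => hq3)) (CfsgLib.Symp.commutator_symplecticGroup n ?_) N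
  by_cases h : n = 2
  · exact Or.inr (Or.inl ⟨h, hq3⟩)
  · left; omega

theorem aE_not_central (h2 : (2 : F) ≠ 0) (hn : 1 ≤ n) {X : SymW F n} (hX : X ≠ 0) : aE X ∉ Subgroup.center (Matrix.symplecticGroup (Fin n) F) := by
  intro h
  have h3 := CfsgLib.Symp.card_center_symplecticGroup (F := F) n hn
  have h4 : (⟨aE X, h⟩ : Subgroup.center (Matrix.symplecticGroup (Fin n) F)) ^ Nat.card (Subgroup.center (Matrix.symplecticGroup (Fin n) F)) = 1 := pow_card_eq_one'
  have h5 : (aE X) ^ 2 = 1 := by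
    have h6 : (aE X) ^ Nat.card (Subgroup.center (Matrix.symplecticGroup (Fin n) F)) = 1 := congrArg Subtype.val h4
    obtain ⟨c, hc⟩ : Nat.card (Subgroup.center (Matrix.symplecticGroup (Fin n) F)) ∣ 2 := by rw [h3]; exact Nat.gcd_dvd_left 2 _
    have h7 : (aE X) ^ (Nat.card (Subgroup.center (Matrix.symplecticGroup (Fin n) F)) * c) = 1 := by rw [pow_mul, h6, one_pow]
    rwa [← hc] at h7
  rw [pow_two, ← aE_add] at h5
  apply hX
  apply Subtype.ext
  have h6 : (X + X : SymW F n).1 = 0 := by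
    have h7 := congrArg (fun z : Matrix.symplecticGroup (Fin n) F => z.1.toBlocks₁₂) h5
    change (Matrix.fromBlocks 1 (X + X : SymW F n).1 0 1).toBlocks₁₂ = (1 : Matrix (Fin n ⊕ Fin n) (Fin n ⊕ Fin n) F).toBlocks₁₂ at h7
    rw [Matrix.toBlocks_fromBlocks₁₂, ← Matrix.fromBlocks_one, Matrix.toBlocks_fromBlocks₁₂] at h7
    exact h7
  have h8 : (2 : F) • X.1 = 0 := by rw [two_smul]; exact h6
  exact (smul_eq_zero.mp h8).resolve_left h2

theorem lb_odd (h2 : (2 : F) ≠ 0) (hn : 2 ≤ n) {k : ℕ} (ρ : Representation ℂ (Matrix.symplecticGroup (Fin n) F) (Fin k → ℂ)) (hρ : ρ.IsIrreducible) (hk : 2 ≤ k) :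
    Fintype.card F ^ n - 1 ≤ 2 * k := by
  obtain ⟨m, rfl⟩ : ∃ m, n = m + 1 := ⟨n - 1, by omega⟩
  obtain ⟨ψ, hψ⟩ := exists_psi (F := F)
  set X0 : SymW F (m + 1) := r1 1 (Pi.single 0 1) with hX0
  have hX00 : X0 ≠ 0 := by
    intro h
    have h1 := congrArg (fun z : SymW F (m + 1) => z.1 0 0) h
    simp [hX0, r1, Matrix.vecMulVec_apply] at h1
  have hne : ρ (aE X0) ≠ 1 := by
    intro h
    let N : Subgroup (Matrix.symplecticGroup (Fin (m + 1)) F) := MonoidHom.ker (MonoidHom.toHomUnits ρ)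
    have hN : ∀ x, x ∈ N ↔ ρ x = 1 := by
      intro x
      rw [MonoidHom.mem_ker, Units.ext_iff]
      rfl
    rcases sp_qs h2 hn N with h1 | h1
    · exact aE_not_central h2 (by omega) hX00 (h1 ((hN _).mpr h))
    · obtain ⟨x, hx⟩ := nontriv_of_irr ρ hρ hk
      exact hx ((hN x).mp (by rw [h1]; trivial))
  obtain ⟨χ0, Q0, h1, h3, h4, h5⟩ := symp_setup ρ X0 hne hψ
  have hu : Q0 (Pi.single 0 1) ≠ 0 := by
    intro h
    apply h1
    rw [hX0, h3, h, zero_mul, AddChar.map_zero_eq_one]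
  exact (orb1_le h2 Q0 hu).trans (Nat.mul_le_mul_left _ h5)

end CfsgLib.WL
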