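import Cfsg.Agent.Lib.SUm2
import Cfsg.Agent.Lib.WL3
set_option autoImplicit false
set_option linter.style.haveILetI false
set_option linter.unusedSectionVars false

/-! Minimal degrees of unitary groups: transitivity and the even-dimensional bound. -/

namespace CfsgLib.SUm
open Module CfsgLib.Herm CfsgLib.AutPSU CfsgLib.MD

variable {F V : Type*} [Field F] [Fintype F] [AddCommGroup V] [Module F V] [FiniteDimensional F V]
  {σ : F →+* F} {q : ℕ} {B : V →ₛₗ[σ] V →ₗ[F] F} (hq : QConj σ q) (h : HForm B) {W : Submodule F V} (hW : ∀ x ∈ W, ∀ y ∈ W, B x y = 0)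

include hq h hW in
theorem tr1 {v w : W} (hvw : ∀ a : F, v ≠ a • (w - v)) : ∃ g : GW B W, g.1.1 v.1 = w.1 := by
  have h1 : v ∉ Submodule.span F {w - v} := by
    intro hh
    obtain ⟨a, ha⟩ := Submodule.mem_span_singleton.mp hh
    exact hvw a ha.symm
  obtain ⟨f, hf, hf2⟩ := Submodule.exists_dual_map_eq_bot_of_notMem h1 inferInstance
  have hf3 : f (w - v) = 0 := by
    have h2 : f (w - v) ∈ (Submodule.span F {w - v}).map f := ⟨_, Submodule.mem_span_singleton_self _, rfl⟩
    rwa [hf2, Submodule.mem_bot] at h2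
  obtain ⟨g, hg⟩ := exists_si hq h hW (w - v) (-(f v)⁻¹ • f) (by rw [LinearMap.smul_apply, hf3, smul_zero])
  refine ⟨g, ?_⟩
  rw [hg, LinearMap.smul_apply, smul_eq_mul, neg_mul, inv_mul_cancel₀ hf, neg_smul, one_smul, sub_neg_eq_add]
  change v.1 + (w.1 - v.1) = w.1
  abel

include hq h hW in
theorem tr2 (hm : 2 ≤ finrank F W) {v e : W} (hv : v ≠ 0) (he : e ≠ 0) : ∃ g : GW B W, g.1.1 v.1 = e.1 := by
  by_cases hc : ∀ a : F, v ≠ a • (e - v)
  · exact tr1 hq h hW hc
  · push Not at hc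
    obtain ⟨a, ha⟩ := hc
    -- e is a multiple of v
    have ha0 : a ≠ 0 := by
      rintro rfl
      rw [zero_smul] at ha
      exact hv ha
    have hev : e = (a⁻¹ * (1 + a)) • v := by
      have h1 : a • e = (1 + a) • v := by
        rw [add_smul, one_smul]
        nth_rewrite 1 [ha]
        rw [smul_sub]; abel
      rw [mul_smul, ← h1, smul_smul, inv_mul_cancel₀ ha0, one_smul]
    obtain ⟨w, hw⟩ : ∃ w : W, w ∉ Submodule.span F {v} := by
      by_contra hcon
      push Not at hcon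
      have h1 : Submodule.span F {v} = ⊤ := by
        rw [eq_top_iff]; intro x _; exact hcon x
      have h2 := finrank_span_singleton (K := F) hv
      rw [h1, finrank_top] at h2
      omega
    obtain ⟨g1, hg1⟩ := tr1 hq h hW (v := v) (w := w) (by
      intro b hb
      apply hw
      have hb0 : b ≠ 0 := by
        rintro rfl
        rw [zero_smul] at hb
        exact hv hb
      have h1 : b • w = (1 + b) • v := by
        rw [add_smul, one_smul]
        nth_rewrite 1 [hb]
        rw [smul_sub]; abel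
      have h2 : w = (b⁻¹ * (1 + b)) • v := by rw [mul_smul, ← h1, smul_smul, inv_mul_cancel₀ hb0, one_smul]
      rw [h2]
      exact Submodule.smul_mem _ _ (Submodule.mem_span_singleton_self _))
    obtain ⟨g2, hg2⟩ := tr1 hq h hW (v := w) (w := e) (by
      intro b hb
      apply hw
      by_cases hb1 : 1 + b = 0
      · have h1 : (1 + b) • w = b • e := by
          rw [add_smul, one_smul]
          nth_rewrite 1 [hb]
          rw [smul_sub]; abel
        rw [hb1, zero_smul] at h1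
        have hb0 : b ≠ 0 := by
          rintro rfl
          rw [add_zero] at hb1
          exact one_ne_zero hb1
        exact absurd ((smul_eq_zero.mp h1.symm).resolve_left hb0) he
      · have h1 : (1 + b) • w = b • e := by
          rw [add_smul, one_smul]
          nth_rewrite 1 [hb]
          rw [smul_sub]; abel
        have h2 : w = ((1 + b)⁻¹ * b) • e := by rw [mul_smul, ← h1, smul_smul, inv_mul_cancel₀ hb1, one_smul]
        rw [h2, hev, smul_smul]
        exact Submodule.smul_mem _ _ (Submodule.mem_span_singleton_self _))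
    refine ⟨g2 * g1, ?_⟩
    change (g2.1 * g1.1).1 v.1 = e.1
    rw [mul_apply', hg1, hg2]

include hq h hW in
theorem tr3 (hm : finrank F W = 1) (hV : 3 ≤ finrank F V) {v e : W} (hv : v ≠ 0) (he : e ≠ 0) : ∃ g : GW B W, g.1.1 v.1 = e.1 := by
  obtain ⟨g, hg, hge⟩ := exists_SUL_isotropic hq h hV (e := v.1) (e' := e.1) (fun h => hv (Subtype.ext h)) (hW _ v.2 _ v.2)
    (fun h => he (Subtype.ext h)) (hW _ e.2 _ e.2)
  refine ⟨⟨⟨g, hg⟩, mem_GW_of (fun w hw => ?_)⟩, hge⟩
  obtain ⟨a, ha⟩ := (finrank_eq_one_iff_of_nonzero' v hv).mp hm ⟨w, hw⟩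
  have : w = a • v.1 := (congrArg Subtype.val ha).symm
  change g w ∈ W
  rw [this, map_smul, hge]
  exact W.smul_mem _ e.2

include hq h in
/-- totally isotropic subspaces -/
theorem exists_W {m : ℕ} (hV : 2 * m ≤ finrank F V) : ∃ W : Submodule F V, (∀ x ∈ W, ∀ y ∈ W, B x y = 0) ∧ finrank F W = m := by
  have h1 := card_isFrameH hq h m
  have h2 : Nat.card {w : Fin m → V // IsFrameH B w} ≠ 0 := by
    rw [h1, Finset.prod_ne_zero_iff]
    intro i hi
    rw [Finset.mem_range] at hi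
    refine mul_ne_zero (pow_ne_zero _ hq.pos.ne') ?_
    obtain ⟨j, hj⟩ : ∃ j, finrank F V - 2 * i = j + 2 := ⟨finrank F V - 2 * i - 2, by omega⟩
    rw [hj, cnt_sub_one hq]
    have h3 : ∀ i, fU q i ≠ 0 := by
      intro i
      rw [fU]
      split_ifs
      · omega
      · have : 2 ≤ q ^ (i + 1) := hq.two_le.trans (Nat.le_self_pow (by omega) q)
        omega
    exact mul_ne_zero (h3 _) (h3 _)
  have h3 : Nonempty {w : Fin m → V // IsFrameH B w} := by
    by_contra h4
    rw [not_nonempty_iff] at h4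
    exact h2 Nat.card_of_isEmpty
  obtain ⟨w, hw⟩ := h3
  have hw' := (isFrameH_iff_span B w).mp hw
  refine ⟨Submodule.span F (Set.range w), hw'.2, ?_⟩
  rw [finrank_span_eq_card hw'.1, Fintype.card_fin]

include h in
theorem tv_not_central (hq : QConj σ q) (hV : 2 ≤ finrank F V) {e : V} (he0 : e ≠ 0) (he : B e e = 0) {c : F} (hc : c + σ c = 0) (hc0 : c ≠ 0) :
    tv h e c ∉ Subgroup.center (SUL B) := by
  intro hcen
  obtain ⟨a, ha⟩ := (mem_center_iff h hq hV _).mp hcen
  have h1 := ha e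
  rw [tv_apply h he hc, he, mul_zero, zero_smul, add_zero] at h1
  have ha1 : a = 1 := by
    have h2 : (a - 1) • e = 0 := by rw [sub_smul, one_smul, ← h1, sub_self]
    exact sub_eq_zero.mp ((smul_eq_zero.mp h2).resolve_right he0)
  apply he0
  apply h.nd
  intro y
  have h2 := ha y
  rw [tv_apply h he hc, ha1, one_smul, add_eq_left] at h2
  exact (mul_eq_zero.mp ((smul_eq_zero.mp h2).resolve_right he0)).resolve_left hc0

theorem ker_tv (hV : (finrank F V = 3 ∧ 3 ≤ q) ∨ 4 ≤ finrank F V) {k : ℕ} (ρ : Representation ℂ (SUL B) (Fin k → ℂ)) (hq : QConj σ q) (h : HForm B)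
    (hρ : ∃ g, ρ g ≠ 1) {e : V} (he0 : e ≠ 0) (he : B e e = 0) {c : F} (hc : c + σ c = 0) (hc0 : c ≠ 0) : ρ (tv h e c) ≠ 1 := by
  intro h1
  let N : Subgroup (SUL B) := MonoidHom.ker (MonoidHom.toHomUnits ρ)
  have hN : ∀ x, x ∈ N ↔ ρ x = 1 := by
    intro x
    rw [MonoidHom.mem_ker, Units.ext_iff]
    rfl
  rcases CfsgLib.WL.qs (isSimpleGroup_SUL hq h hV) (commutator_SUL_eq_top hq h hV) N with h2 | h2
  · exact tv_not_central h hq (by omega) he0 he hc hc0 (h2 ((hN _).mpr h1))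
  · obtain ⟨x, hx⟩ := hρ
    exact hx ((hN x).mp (by rw [h2]; trivial))

noncomputable instance [Finite V] (W : Submodule F V) : Fintype (NW B W) := by
  haveI : Finite (V ≃ₗ[F] V) := DFunLike.finite _
  exact Fintype.ofFinite _

noncomputable instance [Finite V] (W : Submodule F V) : Fintype (Additive (NW B W)) := inferInstanceAs (Fintype (NW B W))

noncomputable instance [Finite V] (W : Submodule F V) : Fintype (GW B W) := by
  haveI : Finite (V ≃ₗ[F] V) := DFunLike.finite _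
  exact Fintype.ofFinite _

theorem eig_chj {W : Submodule F V} {k : ℕ} (ρ : Representation ℂ (SUL B) (Fin k → ℂ)) (χ0 : AddChar (Additive (NW B W)) ℂ) {x : Fin k → ℂ}
    (hx : Eig (fun n : Additive (NW B W) => ρ n.toMul.1) χ0 x) (g : GW B W) :
    Eig (fun n : Additive (NW B W) => ρ n.toMul.1) (chj χ0 g) (ρ (g.1)⁻¹ x) := by
  intro n
  have h1 : ρ n.toMul.1 (ρ (g.1)⁻¹ x) = ρ (g.1)⁻¹ (ρ (cj g n.toMul).1 x) := by
    rw [← Module.End.mul_apply, ← Module.End.mul_apply, ← map_mul, ← map_mul]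
    congr 2
    change n.toMul.1 * g.1⁻¹ = g.1⁻¹ * (g.1 * n.toMul.1 * g.1⁻¹)
    group
  change ρ n.toMul.1 (ρ (g.1)⁻¹ x) = χ0 (Additive.ofMul (cj g n.toMul)) • ρ (g.1)⁻¹ x
  rw [h1]
  have h2 : ρ (cj g n.toMul).1 x = χ0 (Additive.ofMul (cj g n.toMul)) • x := hx (Additive.ofMul (cj g n.toMul))
  rw [h2, map_smul]

include hq h in
theorem even_bound [Finite V] {m : ℕ} (hm : 2 ≤ m) (hV : finrank F V = 2 * m) {k : ℕ} (ρ : Representation ℂ (SUL B) (Fin k → ℂ)) (hρ : ∃ g, ρ g ≠ 1) :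
    Fintype.card F ^ m - 1 ≤ (q + 1) * k := by
  classical
  obtain ⟨W, hW, hWm⟩ := exists_W hq h (m := m) (by omega)
  obtain ⟨m', rfl⟩ : ∃ m', m = m' + 1 := ⟨m - 1, by omega⟩
  haveI : Nontrivial W := Module.nontrivial_of_finrank_pos (R := F) (by omega)
  obtain ⟨e, he0⟩ := exists_ne (0 : W)
  obtain ⟨d, hd⟩ := hq.exists_ne
  have hc : (d - σ d) + σ (d - σ d) = 0 := skew_mem hq d
  have hc0 : d - σ d ≠ 0 := fun h => hd (sub_eq_zero.mp h).symm
  have h1 : ρ (tv h e.1 (d - σ d)) ≠ 1 := ker_tv (by right; omega) ρ hq h hρ (fun h => he0 (Subtype.ext h)) (hW _ e.2 _ e.2) hc hc0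
  obtain ⟨χ0, x0, hx0, hE, hχ⟩ := exists_char (fun n : Additive (NW B W) => ρ n.toMul.1) (map_one ρ) (fun n n' => map_mul ρ _ _)
    (tvN h hW e (d - σ d)) h1
  have h2 := orbit_count hq h hW χ0 e ⟨_, hc, hχ⟩ hWm he0 (fun v hv => tr2 hq h hW (by omega) hv he0)
  refine h2.trans (Nat.mul_le_mul_left _ ?_)
  have h3 := card_le (fun n : Additive (NW B W) => ρ n.toMul.1) (Finset.univ.image (chj χ0)) (by
    intro χ hχ
    obtain ⟨g, -, rfl⟩ := Finset.mem_image.mp hχ
    refine ⟨ρ (g.1)⁻¹ x0, ?_, eig_chj ρ χ0 hE g⟩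
    intro h4
    apply hx0
    have h5 : x0 = ρ g.1 (ρ (g.1)⁻¹ x0) := by
      rw [← Module.End.mul_apply, ← map_mul, mul_inv_cancel, map_one]; rfl
    rw [h5, h4, map_zero])
  rwa [Module.finrank_fin_fun] at h3

end CfsgLib.SUm
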