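import Cfsg.Agent.Lib.SUm3
import Cfsg.Agent.Lib.Herm9
set_option autoImplicit false
set_option linter.style.haveILetI false
set_option linter.unusedSectionVars false

/-! Minimal degrees of unitary groups: the odd-dimensional bound. -/

namespace CfsgLib.SUm
open Module CfsgLib.Herm CfsgLib.AutPSU CfsgLib.MD

/-- eigenspaces with multiplicity -/
theorem card_mul_le {W : Type*} [AddCommGroup W] [Fintype W] {V : Type*} [AddCommGroup V] [Module ℂ V] [FiniteDimensional ℂ V]
    (σ : W → (V →ₗ[ℂ] V)) {ι : Type*} [Fintype ι] (S : Finset (AddChar W ℂ))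
    (hS : ∀ χ ∈ S, ∃ v : ι → V, LinearIndependent ℂ v ∧ ∀ i, Eig σ χ (v i)) : Fintype.card ι * S.card ≤ Module.finrank ℂ V := by
  classical
  choose v hv1 hv2 using fun χ : S => hS χ.1 χ.2
  have hli : LinearIndependent ℂ (fun z : S × ι => v z.1 z.2) := by
    rw [Fintype.linearIndependent_iff]
    intro g hg
    rw [Fintype.sum_prod_type] at hg
    rintro ⟨χ, i⟩
    have h1 := congrArg (pr σ χ.1) hg
    rw [map_sum, map_zero, Finset.sum_eq_single χ] at h1
    · rw [map_sum] at h1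
      have h2 : ∀ j, pr σ χ.1 (g (χ, j) • v χ j) = g (χ, j) • v χ j := fun j => by
        rw [map_smul, pr_of_eig σ (hv2 χ j)]
      rw [Finset.sum_congr rfl (fun j _ => h2 j)] at h1
      exact (Fintype.linearIndependent_iff.mp (hv1 χ)) (fun j => g (χ, j)) h1 i
    · intro χ' _ hne
      rw [map_sum]
      refine Finset.sum_eq_zero fun j _ => ?_
      rw [map_smul, pr_of_eig_ne σ (fun hh => hne (Subtype.ext hh)) (hv2 χ' j), smul_zero]
    · intro hh; exact absurd (Finset.mem_univ _) hh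
  have := hli.fintype_card_le_finrank
  rwa [Fintype.card_prod, Fintype.card_coe, mul_comm] at this

/-- simultaneous eigenvectors of an abelian subgroup -/
theorem exists_char_sub {G : Type*} [Group G] [Finite G] (A : Subgroup G) (hA : ∀ x ∈ A, ∀ y ∈ A, x * y = y * x) {k : ℕ}
    (ρ : Representation ℂ G (Fin k → ℂ)) {g0 : G} (hg0 : g0 ∈ A) (h0 : ρ g0 ≠ 1) :
    ∃ (x : Fin k → ℂ) (τ : G → ℂ), x ≠ 0 ∧ (∀ g ∈ A, ρ g x = τ g • x) ∧ τ g0 ≠ 1 := by
  classical
  letI : CommGroup A := { (inferInstance : Group A) with mul_comm := fun a b => Subtype.ext (hA a.1 a.2 b.1 b.2) }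
  haveI : Fintype (Additive A) := Fintype.ofFinite (Additive A)
  obtain ⟨Θ, x, hx, hE, hΘ⟩ := exists_char (fun n : Additive A => ρ n.toMul.1) (map_one ρ) (fun n n' => map_mul ρ _ _) (Additive.ofMul ⟨g0, hg0⟩) h0
  refine ⟨x, fun g => if hg : g ∈ A then Θ (Additive.ofMul ⟨g, hg⟩) else 1, hx, fun g hg => ?_, ?_⟩
  · beta_reduce
    rw [dif_pos hg]
    exact hE (Additive.ofMul ⟨g, hg⟩)
  · beta_reduce
    rw [dif_pos hg0]
    exact hΘ

theorem closure_comm {G : Type*} [Group G] {S : Set G} (hS : ∀ x ∈ S, ∀ y ∈ S, x * y = y * x) :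
    ∀ x ∈ Subgroup.closure S, ∀ y ∈ Subgroup.closure S, x * y = y * x := by
  have h1 : Subgroup.closure S ≤ Subgroup.centralizer S := by
    rw [Subgroup.closure_le]
    intro x hx
    rw [SetLike.mem_coe, Subgroup.mem_centralizer_iff]
    intro y hy
    exact hS y hy x hx
  have h2 : Subgroup.closure S ≤ Subgroup.centralizer (Subgroup.closure S : Set G) := by
    rw [Subgroup.closure_le]
    intro x hx
    rw [SetLike.mem_coe, Subgroup.mem_centralizer_iff]
    intro y hy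
    exact ((Subgroup.mem_centralizer_iff.mp (h1 hy)) x hx).symm
  intro x hx y hy
  exact ((Subgroup.mem_centralizer_iff.mp (h2 hx)) y hy).symm

variable {F V : Type*} [Field F] [Fintype F] [AddCommGroup V] [Module F V] [FiniteDimensional F V]
  {σ : F →+* F} {q : ℕ} {B : V →ₛₗ[σ] V →ₗ[F] F} (hq : QConj σ q) (h : HForm B) {W : Submodule F V} (hW : ∀ x ∈ W, ∀ y ∈ W, B x y = 0)

include hq h hW in
theorem exists_t {m : ℕ} (hm : finrank F W = m) (hV : finrank F V = 2 * m + 1) : ∃ t : V, (∀ x ∈ W, B x t = 0) ∧ B t t = 1 := by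
  have hp := finrank_perp hq h W
  have hle := le_perp_of_isotropic hW
  obtain ⟨t, ht, htW⟩ : ∃ t ∈ perp B W, t ∉ W := by
    by_contra hcon
    push Not at hcon
    have h1 : perp B W = W := le_antisymm hcon hle
    rw [h1] at hp
    omega
  have htt : B t t ≠ 0 := by
    intro h0
    have ht' : ∀ x ∈ W, B x t = 0 := ht
    have hiso : ∀ u ∈ W ⊔ Submodule.span F {t}, ∀ v ∈ W ⊔ Submodule.span F {t}, B u v = 0 := by
      intro u hu v hv
      obtain ⟨w1, hw1, z1, hz1, rfl⟩ := Submodule.mem_sup.mp hu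
      obtain ⟨w2, hw2, z2, hz2, rfl⟩ := Submodule.mem_sup.mp hv
      obtain ⟨a1, rfl⟩ := Submodule.mem_span_singleton.mp hz1
      obtain ⟨a2, rfl⟩ := Submodule.mem_span_singleton.mp hz2
      rw [map_add_left, map_add_right, map_add_right, map_smul_left, map_smul_left, map_smul_right, map_smul_right, hW w1 hw1 w2 hw2,
        ht' w1 hw1, h.eq_zero_comm (ht' w2 hw2), h0]
      ring
    have h1 := Submodule.finrank_mono (le_perp_of_isotropic hiso)
    have h2 := finrank_perp hq h (W ⊔ Submodule.span F {t})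
    have h3 : W < W ⊔ Submodule.span F {t} := by
      refine lt_of_le_of_ne le_sup_left (fun heq => htW ?_)
      rw [heq]
      exact (le_sup_right : Submodule.span F {t} ≤ _) (Submodule.mem_span_singleton_self t)
    have h4 := Submodule.finrank_lt_finrank_of_lt h3
    omega
  obtain ⟨a, ha0, ha⟩ := exists_smul_one hq h htt (map_one σ) one_ne_zero
  exact ⟨a • t, fun x hx => by rw [map_smul_right, show B x t = 0 from ht x hx, mul_zero], ha⟩

include h in
theorem nw_fix {t : V} (ht : ∀ x ∈ W, B x t = 0) {n : SUL B} (hn : n ∈ NW B W) : n.1 t = t := by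
  have h1 : n.1 t - t = 0 := by
    apply h.nd
    intro y
    have h2 : ∀ w ∈ W, B t w = 0 := fun w hw => h.eq_zero_comm (ht w hw)
    have h3 : B (n.1 t) (n.1 ((n⁻¹).1 y)) = B t ((n⁻¹).1 y) := pres n _ _
    rw [apply_inv'] at h3
    have h4 : (n⁻¹).1 y = y + ((n⁻¹).1 y - y) := by abel
    have h5 : (n⁻¹).1 y - y ∈ W := ((NW B W).inv_mem hn).1 y
    rw [map_sub_left, h3, h4, map_add_right, h2 _ h5, add_zero, sub_self]
  exact sub_eq_zero.mp h1

section main
variable {t : V} (ht : ∀ x ∈ W, B x t = 0) (ht1 : B t t = 1) (e : W)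

include hW ht in
theorem si_nw {b c : F} (hc : c + σ c + B (b • t) (b • t) = 0) {n : SUL B} (hn : n ∈ NW B W) :
    n * si h e.1 (b • t) c = si h e.1 (b • t) c * n := by
  have h1 := conj_si h n (hW _ e.2 _ e.2) (by rw [map_smul_right, ht _ e.2, mul_zero]) hc
  rw [map_smul, nw_fix h ht hn, hn.2 _ e.2, mul_inv_eq_iff_eq_mul] at h1
  exact h1

include hq hW ht ht1 in
theorem si_conj {a b c θ : F} (ha : σ a = a) (hθ : θ + σ θ = -1) (hc : c + σ c + B (b • t) (b • t) = 0) :
    si h e.1 (b • t) c * si h e.1 (a • t) (θ * (a * a)) * (si h e.1 (b • t) c)⁻¹ =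
      si h e.1 (a • t) (θ * (a * a)) * (tvN h hW e (a * (b - σ b))).toMul.1 := by
  have hee := hW _ e.2 _ e.2
  have het : ∀ b : F, B e.1 (b • t) = 0 := fun b => by rw [map_smul_right, ht _ e.2, mul_zero]
  have hte : ∀ b : F, B (b • t) e.1 = 0 := fun b => h.eq_zero_comm (het b)
  have hd : θ * (a * a) + σ (θ * (a * a)) + B (a • t) (a • t) = 0 := by
    rw [map_smul_left, map_smul_right, ht1, map_mul, map_mul, ha]
    linear_combination (a * a) * hθ
  have h1 := conj_si h (si h e.1 (b • t) c) hee (het a) hd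
  rw [si_apply h hee (het b) hc, si_apply h hee (het b) hc, hee, hte, het] at h1
  have h8 : e.1 + (0 : F) • (b • t) + (c * 0 - 0) • e.1 = e.1 := by
    rw [mul_zero, sub_zero, zero_smul, zero_smul, add_zero, add_zero]
  have h9 : a • t + (0 : F) • (b • t) + (c * 0 - B (b • t) (a • t)) • e.1 = a • t + (-(a * σ b)) • e.1 := by
    rw [map_smul_left, map_smul_right, ht1, zero_smul, add_zero, mul_zero, zero_sub, mul_one, mul_comm]
  rw [h8, h9] at h1
  rw [h1]
  have h2 : (tvN h hW e (a * (b - σ b))).toMul.1 = si h e.1 ((-(a * σ b)) • e.1) 0 := by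
    have h3 := siN_self h hW hq e (-(a * σ b))
    have h4 : -(a * σ b) - σ (-(a * σ b)) = a * (b - σ b) := by
      rw [map_neg, map_mul, ha, hq.invol]; ring
    rw [h4] at h3
    rw [← h3]
    rfl
  have h5 : B e.1 ((-(a * σ b)) • e.1) = 0 := by rw [map_smul_right, hee, mul_zero]
  have h6 : (0 : F) + σ 0 + B ((-(a * σ b)) • e.1) ((-(a * σ b)) • e.1) = 0 := by
    rw [map_zero, map_smul_right, map_smul_left, hee, mul_zero, mul_zero, add_zero, add_zero]
  rw [h2, si_mul h hee (het a) hd h5 h6]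
  have h7 : B (a • t) ((-(a * σ b)) • e.1) = 0 := by rw [map_smul_right, hte, mul_zero]
  rw [h7, sub_zero, add_zero]

include hq hW ht ht1 in
theorem odd_setup [Finite V] {θ : F} (hθ : θ + σ θ = -1) {k : ℕ} (ρ : Representation ℂ (SUL B) (Fin k → ℂ)) {c0 : F} (h0 : ρ (tv h e.1 c0) ≠ 1) :
    ∃ (χ0 : AddChar (Additive (NW B W)) ℂ) (x0 : Fin k → ℂ), x0 ≠ 0 ∧ Eig (fun n : Additive (NW B W) => ρ n.toMul.1) χ0 x0 ∧
      χ0 (tvN h hW e c0) ≠ 1 ∧ ∀ a, σ a = a → ∃ τ : ℂ, ρ (si h e.1 (a • t) (θ * (a * a))) x0 = τ • x0 := by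
  classical
  haveI : Finite (V ≃ₗ[F] V) := DFunLike.finite _
  have hee := hW _ e.2 _ e.2
  have het : ∀ b : F, B e.1 (b • t) = 0 := fun b => by rw [map_smul_right, ht _ e.2, mul_zero]
  have hd : ∀ a, σ a = a → θ * (a * a) + σ (θ * (a * a)) + B (a • t) (a • t) = 0 := by
    intro a ha
    rw [map_smul_left, map_smul_right, ht1, map_mul, map_mul, ha]
    linear_combination (a * a) * hθ
  let S : Set (SUL B) := {g | g ∈ NW B W ∨ ∃ a, σ a = a ∧ g = si h e.1 (a • t) (θ * (a * a))}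
  have hS : ∀ x ∈ S, ∀ y ∈ S, x * y = y * x := by
    rintro x (hx | ⟨a, ha, rfl⟩) y (hy | ⟨b, hb, rfl⟩)
    · exact congrArg Subtype.val (mul_comm (⟨x, hx⟩ : NW B W) ⟨y, hy⟩)
    · exact si_nw h hW ht e (hd b hb) hx
    · exact (si_nw h hW ht e (hd a ha) hy).symm
    · rw [si_mul h hee (het a) (hd a ha) (het b) (hd b hb), si_mul h hee (het b) (hd b hb) (het a) (hd a ha), add_comm (a • t) (b • t)]
      congr 1
      rw [map_smul_left, map_smul_right, map_smul_left, map_smul_right, ha, hb]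
      ring
  obtain ⟨x, τ, hx, hE, hτ⟩ := exists_char_sub (Subgroup.closure S) (closure_comm hS) ρ
    (Subgroup.subset_closure (Or.inl (tv_mem h hW e.2 c0))) h0
  have hNW : ∀ n : NW B W, n.1 ∈ Subgroup.closure S := fun n => Subgroup.subset_closure (Or.inl n.2)
  have hmul : ∀ n n' : NW B W, τ (n.1 * n'.1) = τ n.1 * τ n'.1 := by
    intro n n'
    have h1 := hE (n.1 * n'.1) ((Subgroup.closure S).mul_mem (hNW n) (hNW n'))
    rw [map_mul, Module.End.mul_apply, hE _ (hNW n'), map_smul, hE _ (hNW n), smul_smul] at h1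
    have h2 : (τ n'.1 * τ n.1 - τ (n.1 * n'.1)) • x = 0 := by rw [sub_smul, h1, sub_self]
    have h3 := (smul_eq_zero.mp h2).resolve_right hx
    linear_combination -h3
  have hone : τ 1 = 1 := by
    have h1 := hE 1 (Subgroup.one_mem _)
    rw [map_one, Module.End.one_apply] at h1
    have h2 : (τ 1 - 1) • x = 0 := by rw [sub_smul, one_smul, ← h1, sub_self]
    exact sub_eq_zero.mp ((smul_eq_zero.mp h2).resolve_right hx)
  refine ⟨{ toFun := fun n => τ n.toMul.1
            map_zero_eq_one' := hone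
            map_add_eq_mul' := fun n n' => hmul n.toMul n'.toMul }, x, hx, fun n => hE _ (hNW n.toMul), hτ, fun a ha => ?_⟩
  exact ⟨τ _, hE _ (Subgroup.subset_closure (Or.inr ⟨a, ha, rfl⟩))⟩

include hq hW ht ht1 in
theorem odd_indep [Finite V] {θ : F} (hθ : θ + σ θ = -1) {k : ℕ} (ρ : Representation ℂ (SUL B) (Fin k → ℂ))
    (χ0 : AddChar (Additive (NW B W)) ℂ) (x0 : Fin k → ℂ) (hx0 : x0 ≠ 0) (hE : Eig (fun n : Additive (NW B W) => ρ n.toMul.1) χ0 x0)
    (he : ∃ c, c + σ c = 0 ∧ χ0 (tvN h hW e c) ≠ 1)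
    (hτ : ∀ a, σ a = a → ∃ τ : ℂ, ρ (si h e.1 (a • t) (θ * (a * a))) x0 = τ • x0) :
    ∃ v : {c : F // c + σ c = 0} → (Fin k → ℂ), LinearIndependent ℂ v ∧ ∀ i, Eig (fun n : Additive (NW B W) => ρ n.toMul.1) χ0 (v i) := by
  classical
  have hex : ∀ s : {c : F // c + σ c = 0}, ∃ b c : F, b - σ b = s.1 ∧ c + σ c + B (b • t) (b • t) = 0 := by
    intro s
    obtain ⟨b, hb⟩ := exists_skew hq s.2
    obtain ⟨c, hc⟩ := hq.exists_trace (c := -B (b • t) (b • t)) (by rw [map_neg, h.self_fixed])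
    exact ⟨b, c, hb, by rw [hc]; ring⟩
  choose b c hb hc using hex
  have hinv : ∀ (g : SUL B) (x : Fin k → ℂ), ρ g (ρ g⁻¹ x) = x := fun g x => by
    rw [← Module.End.mul_apply, ← map_mul, mul_inv_cancel, map_one]; rfl
  have hv0 : ∀ s, ρ (si h e.1 (b s • t) (c s))⁻¹ x0 ≠ 0 := fun s h0 => hx0 (by
    rw [← hinv (si h e.1 (b s • t) (c s)) x0, h0, map_zero])
  refine ⟨fun s => ρ (si h e.1 (b s • t) (c s))⁻¹ x0, ?_, ?_⟩
  · -- independence
    let η : {c : F // c + σ c = 0} → AddChar (fixF σ) ℂ := fun s =>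
      { toFun := fun a => χ0 (tvN h hW e (a.1 * s.1))
        map_zero_eq_one' := by
          have : tvN h hW e ((0 : fixF σ).1 * s.1) = 0 := by
            change tvN h hW e (0 * s.1) = 0
            rw [zero_mul]
            apply congrArg Additive.ofMul
            apply Subtype.ext
            exact tv_zero h e.1
          rw [this, AddChar.map_zero_eq_one]
        map_add_eq_mul' := fun a a' => by
          have hs : ∀ a : fixF σ, a.1 * s.1 + σ (a.1 * s.1) = 0 := fun a => by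
            rw [map_mul, show σ a.1 = a.1 from a.2, ← mul_add, s.2, mul_zero]
          change χ0 (tvN h hW e ((a.1 + a'.1) * s.1)) = _
          rw [add_mul, tvN_add h hW e (hs a) (hs a'), AddChar.map_add_eq_mul] }
    have hη : ∀ s a, η s a = χ0 (tvN h hW e (a.1 * s.1)) := fun _ _ => rfl
    have hηinj : Function.Injective η := by
      intro s s' hss
      apply Subtype.ext
      by_contra hne
      obtain ⟨c1, hc1, hne1⟩ := he
      apply hne1
      have hd0 : s.1 - s'.1 ≠ 0 := sub_ne_zero.mpr hne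
      have hs1 : σ (s.1 - s'.1) = -(s.1 - s'.1) := by
        rw [map_sub]
        linear_combination s.2 - s'.2
      have ha : σ (c1 / (s.1 - s'.1)) = c1 / (s.1 - s'.1) := by
        have h1 : σ c1 = -c1 := by linear_combination hc1
        rw [map_div₀, hs1, h1, neg_div_neg_eq]
      have h1 := congrArg (fun χ : AddChar (fixF σ) ℂ => χ ⟨c1 / (s.1 - s'.1), ha⟩) hss
      change χ0 (tvN h hW e (c1 / (s.1 - s'.1) * s.1)) = χ0 (tvN h hW e (c1 / (s.1 - s'.1) * s'.1)) at h1
      have hsk : ∀ s : {c : F // c + σ c = 0}, ∀ z, σ z = z → z * s.1 + σ (z * s.1) = 0 := fun s z hz => by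
        rw [map_mul, hz, ← mul_add, s.2, mul_zero]
      have h2 : tvN h hW e (c1 / (s.1 - s'.1) * s.1) = tvN h hW e c1 + tvN h hW e (c1 / (s.1 - s'.1) * s'.1) := by
        rw [← tvN_add h hW e hc1 (hsk s' _ ha)]
        congr 1
        field_simp
        ring
      rw [h2, AddChar.map_add_eq_mul] at h1
      exact (mul_eq_right₀ (chi_ne χ0 _)).mp h1
    haveI : Finite (fixF σ) := Subtype.finite
    haveI : Fintype (fixF σ) := Fintype.ofFinite _
    have hli := (AddChar.linearIndependent (fixF σ) ℂ).comp η hηinj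
    rw [Fintype.linearIndependent_iff] at hli ⊢
    intro g hg s
    obtain ⟨i, hi⟩ := Function.ne_iff.mp (hv0 s)
    have h1 := hli (fun s => g s * ρ (si h e.1 (b s • t) (c s))⁻¹ x0 i) (by
      funext a
      rw [Finset.sum_apply]
      obtain ⟨τ, hτa⟩ := hτ a.1 a.2
      have hτ0 : τ ≠ 0 := by
        rintro rfl
        rw [zero_smul] at hτa
        apply hx0
        have h3 : ρ (si h e.1 (a.1 • t) (θ * (a.1 * a.1)))⁻¹ (ρ (si h e.1 (a.1 • t) (θ * (a.1 * a.1))) x0) = x0 := by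
          rw [← Module.End.mul_apply, ← map_mul, inv_mul_cancel, map_one]; rfl
        rw [← h3, hτa, map_zero]
      have hact : ∀ s, ρ (si h e.1 (a.1 • t) (θ * (a.1 * a.1))) (ρ (si h e.1 (b s • t) (c s))⁻¹ x0) =
          (τ * η s a) • ρ (si h e.1 (b s • t) (c s))⁻¹ x0 := by
        intro s
        have h4 := si_conj hq h hW ht ht1 e (a := a.1) (b := b s) (c := c s) a.2 hθ (hc s)
        rw [mul_inv_eq_iff_eq_mul] at h4
        have h5 : si h e.1 (a.1 • t) (θ * (a.1 * a.1)) * (si h e.1 (b s • t) (c s))⁻¹ =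
            (si h e.1 (b s • t) (c s))⁻¹ * (si h e.1 (a.1 • t) (θ * (a.1 * a.1)) * (tvN h hW e (a.1 * (b s - σ (b s)))).toMul.1) := by
          rw [eq_inv_mul_iff_mul_eq, ← mul_assoc, h4, mul_inv_cancel_right]
        rw [← Module.End.mul_apply, ← map_mul, h5, map_mul, map_mul, Module.End.mul_apply, Module.End.mul_apply, hb s]
        have h6 : ρ (tvN h hW e (a.1 * s.1)).toMul.1 x0 = χ0 (tvN h hW e (a.1 * s.1)) • x0 := hE (tvN h hW e (a.1 * s.1))
        rw [h6, map_smul, hτa, smul_smul, map_smul, hη, mul_comm]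
      have h7 := congrFun (congrArg (ρ (si h e.1 (a.1 • t) (θ * (a.1 * a.1)))) hg) i
      rw [map_sum, map_zero, Finset.sum_apply] at h7
      have h8 : ∀ s, (ρ (si h e.1 (a.1 • t) (θ * (a.1 * a.1))) (g s • ρ (si h e.1 (b s • t) (c s))⁻¹ x0)) i =
          τ * ((g s * ρ (si h e.1 (b s • t) (c s))⁻¹ x0 i) * η s a) := by
        intro s
        rw [map_smul, hact, Pi.smul_apply, Pi.smul_apply, smul_eq_mul, smul_eq_mul]
        ring
      rw [Finset.sum_congr rfl (fun s _ => h8 s), ← Finset.mul_sum] at h7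
      exact (mul_eq_zero.mp h7).resolve_left hτ0) s
    exact (mul_eq_zero.mp h1).resolve_right hi
  · intro s n
    have h1 := si_nw h hW ht e (hc s) (n := n.toMul.1) n.toMul.2
    have h2 : n.toMul.1 * (si h e.1 (b s • t) (c s))⁻¹ = (si h e.1 (b s • t) (c s))⁻¹ * n.toMul.1 := by
      rw [eq_inv_mul_iff_mul_eq, ← mul_assoc, ← h1, mul_inv_cancel_right]
    change ρ n.toMul.1 (ρ (si h e.1 (b s • t) (c s))⁻¹ x0) = _
    rw [← Module.End.mul_apply, ← map_mul, h2, map_mul, Module.End.mul_apply]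
    have h3 : ρ n.toMul.1 x0 = χ0 n • x0 := hE n
    rw [h3, map_smul]

end main

include hq h in
theorem odd_bound [Finite V] {m : ℕ} (hm : 1 ≤ m) (hV : finrank F V = 2 * m + 1) (hex : m = 1 → 3 ≤ q) {k : ℕ} (ρ : Representation ℂ (SUL B) (Fin k → ℂ))
    (hρ : ∃ g, ρ g ≠ 1) : q * (Fintype.card F ^ m - 1) ≤ (q + 1) * k := by
  classical
  obtain ⟨W, hW, hWm⟩ := exists_W hq h (m := m) (by omega)
  obtain ⟨t, ht, ht1⟩ := exists_t hq h hW hWm hV
  obtain ⟨m', rfl⟩ : ∃ m', m = m' + 1 := ⟨m - 1, by omega⟩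
  haveI : Nontrivial W := Module.nontrivial_of_finrank_pos (R := F) (by omega)
  obtain ⟨e, he0⟩ := exists_ne (0 : W)
  obtain ⟨d, hd⟩ := hq.exists_ne
  obtain ⟨θ, hθ⟩ := hq.exists_trace (c := -1) (by rw [map_neg, map_one])
  have hc : (d - σ d) + σ (d - σ d) = 0 := skew_mem hq d
  have hc0 : d - σ d ≠ 0 := fun h => hd (sub_eq_zero.mp h).symm
  have h1 : ρ (tv h e.1 (d - σ d)) ≠ 1 := ker_tv (by
    by_cases h3 : m' = 0
    · left; exact ⟨by omega, hex (by omega)⟩
    · right; omega) ρ hq h hρ (fun h => he0 (Subtype.ext h)) (hW _ e.2 _ e.2) hc hc0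
  obtain ⟨χ0, x0, hx0, hE, hχ, hτ⟩ := odd_setup hq h hW ht ht1 e hθ ρ h1
  have h2 := orbit_count hq h hW χ0 e ⟨_, hc, hχ⟩ hWm he0 (fun v hv => by
    by_cases h3 : m' = 0
    · exact tr3 hq h hW (by omega) (by omega) hv he0
    · exact tr2 hq h hW (by omega) hv he0)
  obtain ⟨v, hv1, hv2⟩ := odd_indep hq h hW ht ht1 e hθ ρ χ0 x0 hx0 hE ⟨_, hc, hχ⟩ hτ
  have h3 := card_mul_le (fun n : Additive (NW B W) => ρ n.toMul.1) (ι := {c : F // c + σ c = 0}) (Finset.univ.image (chj χ0)) (by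
    intro χ hχ
    obtain ⟨g, -, rfl⟩ := Finset.mem_image.mp hχ
    refine ⟨fun s => ρ (g.1)⁻¹ (v s), ?_, fun s => eig_chj ρ χ0 (hv2 s) g⟩
    refine hv1.map' (ρ (g.1)⁻¹) ?_
    rw [LinearMap.ker_eq_bot]
    intro x y hxy
    have h5 : ∀ x, ρ g.1 (ρ (g.1)⁻¹ x) = x := fun x => by
      rw [← Module.End.mul_apply, ← map_mul, mul_inv_cancel, map_one]; rfl
    rw [← h5 x, ← h5 y, hxy])
  rw [Module.finrank_fin_fun, ← Nat.card_eq_fintype_card, hq.card_trace (c := 0) (map_zero σ)] at h3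
  calc q * (Fintype.card F ^ (m' + 1) - 1) ≤ q * ((q + 1) * (Finset.univ.image (chj χ0)).card) := Nat.mul_le_mul_left _ h2
    _ = (q + 1) * (q * (Finset.univ.image (chj χ0)).card) := by ring
    _ ≤ (q + 1) * k := Nat.mul_le_mul_left _ h3

end CfsgLib.SUm
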