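import Cfsg.Agent.Lib.SmS3
set_option autoImplicit false
set_option linter.style.haveILetI false

/-! Intersections of Sylow subgroups. -/

namespace CfsgLib.SmS
open Subgroup MulAction CfsgLib.NPC
open scoped Pointwise

theorem card_sylow_pow {G : Type*} [Group G] [Finite G] {p : ℕ} [hp : Fact p.Prime] (k : ℕ) (hd : p ^ k ∣ Nat.card G) (hd2 : ¬ p ^ (k + 1) ∣ Nat.card G)
    (P : Sylow p G) : Nat.card P = p ^ k := by
  rw [P.card_eq_multiplicity]
  have h0 : Nat.card G ≠ 0 := Nat.card_pos.ne'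
  have h4 := (hp.out.pow_dvd_iff_le_factorization h0).mp hd
  have h5 : ¬ k + 1 ≤ (Nat.card G).factorization p := fun h => hd2 ((hp.out.pow_dvd_iff_le_factorization h0).mpr h)
  have : (Nat.card G).factorization p = k := by omega
  rw [this]

theorem sylow_dvd {G : Type*} [Group G] [Finite G] {p : ℕ} [hp : Fact p.Prime] (P : Sylow p G) {a b : ℕ} (ha : Nat.card P = a) (hb : Nat.card G = a * b) :
    Nat.card (Sylow p G) ∣ b ∧ (P : Subgroup G).index = b := by
  have h2 := P.card_dvd_index
  have h3 := (P : Subgroup G).card_mul_index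
  have ha' : Nat.card ↥(P : Subgroup G) = a := ha
  have hpos : 0 < a := by rw [← ha]; exact Nat.card_pos
  rw [ha', hb] at h3
  have : (P : Subgroup G).index = b := Nat.eq_of_mul_eq_mul_left hpos h3
  rw [this] at h2
  exact ⟨h2, this⟩

theorem inter_data {G : Type*} [Group G] [Finite G] [IsSimpleGroup G] {p : ℕ} [hp : Fact p.Prime] (hG : ¬ IsMulCommutative G)
    (P R : Sylow p G) (hPR : P ≠ R) (M : Subgroup G) (hP : (P : Subgroup G) ≤ M) (hR : (R : Subgroup G) ≤ M) (hM : M ≠ ⊤) :
    ∃ m n : ℕ, n % p = 1 ∧ n ≠ 1 ∧ n ∣ m ∧ m * M.index = (P : Subgroup G).index ∧ M.index ≠ 1 ∧ 2 * Nat.card G ∣ (M.index).factorial ∧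
      Nat.card M = Nat.card P * m := by
  have h1 : (P.subtype hP : Sylow p M) ≠ R.subtype hR := by
    intro h
    apply hPR
    apply Sylow.ext
    have h2 := congrArg (fun S : Sylow p M => (S : Subgroup M).map M.subtype) h
    simp only [Sylow.coe_subtype, subgroupOf_map_subtype] at h2
    rwa [inf_eq_left.mpr hP, inf_eq_left.mpr hR] at h2
  have h2 : Nat.card (Sylow p M) % p = 1 := by
    have : Nat.card (Sylow p M) % p = 1 % p := card_sylow_modEq_one p M
    rw [this, Nat.mod_eq_of_lt hp.out.one_lt]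
  refine ⟨(P : Subgroup G).relIndex M, Nat.card (Sylow p M), h2, ?_, ?_, relIndex_mul_index hP, fun h => hM (index_eq_one.mp h),
    two_card_dvd hG M hM, ?_⟩
  · intro h
    haveI : Subsingleton (Sylow p M) := (Nat.card_eq_one_iff_unique.mp h).1
    exact h1 (Subsingleton.elim _ _)
  · exact (P.subtype hP).card_dvd_index
  · have := ((P : Subgroup G).subgroupOf M).card_mul_index
    rw [← this]
    congr 1
    exact Nat.card_congr (subgroupOfEquivOfLe hP).toEquiv

theorem normalizer_ne_top {G : Type*} [Group G] [Finite G] [IsSimpleGroup G] {D : Subgroup G} (h1 : D ≠ ⊥) (h2 : D ≠ ⊤) :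
    normalizer (D : Set G) ≠ ⊤ := by
  intro h
  rcases (normalizer_eq_top_iff.mp h).eq_bot_or_eq_top with h3 | h3
  · exact h1 h3
  · exact h2 h3

/-- conditions for the subgroup of order `p` in the intersection of two Sylow subgroups of order `p ^ 2` -/
theorem sq_data {G : Type*} [Group G] [Finite G] [IsSimpleGroup G] {p : ℕ} [hp : Fact p.Prime] (hG : ¬ IsMulCommutative G)
    (P : Sylow p G) (hP : Nat.card P = p ^ 2) (h : ¬ Nat.card (Sylow p G) % p ^ 2 = 1) :
    ∃ (D : Subgroup G) (m n : ℕ), Nat.card D = p ∧ n % p = 1 ∧ n ≠ 1 ∧ n ∣ m ∧ m * (centralizer (D : Set G)).index = (P : Subgroup G).index ∧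
      (centralizer (D : Set G)).index ≠ 1 ∧ 2 * Nat.card G ∣ ((centralizer (D : Set G)).index).factorial ∧
      Nat.card (centralizer (D : Set G)) = p ^ 2 * m ∧ D ≤ (P : Subgroup G) := by
  have hp2 : 1 < p ^ 2 := by nlinarith [hp.out.one_lt]
  obtain ⟨R, hPR, hR⟩ := exists_intersection p 2 (by
    intro h'; apply h
    have : Nat.card (Sylow p G) % p ^ 2 = 1 % p ^ 2 := h'
    rw [this, Nat.mod_eq_of_lt hp2]) P
  have hRc : Nat.card R = p ^ 2 := by rw [R.card_eq_multiplicity, ← P.card_eq_multiplicity, hP]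
  have comm : ∀ S : Sylow p G, ∀ x ∈ (S : Subgroup G), ∀ y ∈ (S : Subgroup G), x * y = y * x := by
    intro S x hx y hy
    have hS : Nat.card S = p ^ 2 := by rw [S.card_eq_multiplicity, ← P.card_eq_multiplicity, hP]
    have hc := IsPGroup.commutative_of_card_eq_prime_sq hS
    exact congrArg (fun z : ↥(S : Subgroup G) => (z : G)) (hc ⟨x, hx⟩ ⟨y, hy⟩)
  set D := (R : Subgroup G) ⊓ (P : Subgroup G) with hD
  have hDP : D ≠ (P : Subgroup G) := by
    intro h1
    apply hPR
    apply Sylow.ext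
    exact (P.3 R.2 (inf_eq_right.mp h1)).symm
  have hDc : Nat.card D = p := by
    have h1 := ((R : Subgroup G).subgroupOf (P : Subgroup G)).card_mul_index
    rw [card_subgroupOf_eq, ← hD] at h1
    have hP' : Nat.card ↥(P : Subgroup G) = p ^ 2 := hP
    rw [hP'] at h1
    have h2 : Nat.card D ∣ p ^ 2 := Dvd.intro _ h1
    obtain ⟨i, hi, hi2⟩ := (Nat.dvd_prime_pow hp.out).mp h2
    have h3 : i ≠ 2 := by
      rintro rfl
      exact hDP (eq_of_le_of_card_ge inf_le_right (by rw [hP', hi2]))
    have h4 : i ≠ 0 := by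
      rintro rfl
      rw [hi2, pow_zero, one_mul] at h1
      rw [h1] at hR
      simp only [Nat.add_one_sub_one, pow_one] at hR
      have := hp.out.one_lt
      nlinarith
    have : i = 1 := by omega
    rw [hi2, this, pow_one]
  have hD1 : D ≠ ⊥ := by
    intro h1
    rw [h1, card_bot] at hDc
    exact hp.out.one_lt.ne hDc
  have hDt : D ≠ ⊤ := by
    intro h1
    have : D ≤ (P : Subgroup G) := inf_le_right
    rw [h1, top_le_iff] at this
    exact hDP (h1.trans this.symm)
  have hPC : (P : Subgroup G) ≤ centralizer (D : Set G) := by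
    intro x hx; rw [mem_centralizer_iff]; intro y hy
    exact comm P y hy.2 x hx
  have hRC : (R : Subgroup G) ≤ centralizer (D : Set G) := by
    intro x hx; rw [mem_centralizer_iff]; intro y hy
    exact comm R y hy.1 x hx
  have hCt : centralizer (D : Set G) ≠ ⊤ := by
    intro h1
    apply normalizer_ne_top hD1 hDt
    rw [eq_top_iff, ← h1]
    exact centralizer_le_normalizer' D
  obtain ⟨m, n, b1, b2, b3, b4, b5, b6, b7⟩ := inter_data hG P R hPR _ hPC hRC hCt
  exact ⟨D, m, n, hDc, b1, b2, b3, b4, b5, b6, by rw [b7]; congr 1, inf_le_right⟩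

end CfsgLib.SmS
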