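import Cfsg.Agent.Lib.SmS4
set_option autoImplicit false
set_option linter.style.haveILetI false

/-! Groups with `p + 1` Sylow `p`-subgroups acting like `PSL₂(p)`: coordinates. -/

namespace CfsgLib.SmS
open Subgroup MulAction CfsgLib.NPC
open scoped Pointwise

def xk (p k i : ℕ) : ℕ := if i = p then p else (i + k) % p

structure Zas {G : Type*} [Group G] [Finite G] {p : ℕ} [hp : Fact p.Prime] (P : Sylow p G) (h : ℕ) : Prop where
  hP : Nat.card P = p
  hn : Nat.card (Sylow p G) = p + 1
  hc : Nat.card (centralizer ((P : Subgroup G) : Set G)) = p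
  he : (centralizer ((P : Subgroup G) : Set G)).relIndex (normalizer ((P : Subgroup G) : Set G)) = h
  h2 : 2 * h + 1 = p

section
variable {G : Type*} [Group G] [Finite G] {p h : ℕ} [hp : Fact p.Prime] {P : Sylow p G}

theorem fixes_one_iff (N : Subgroup G) (g : G) : g • (QuotientGroup.mk 1 : G ⧸ N) = QuotientGroup.mk 1 ↔ g ∈ N := by
  rw [fix_iff]; simp

theorem nofix' (hP : Nat.card P = p) {v : G} (hv : v ∈ (P : Subgroup G)) (hv1 : v ≠ 1) {x : G ⧸ normalizer ((P : Subgroup G) : Set G)}
    (hx : v • x = x) : x = QuotientGroup.mk 1 := by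
  have ho : orderOf v = p := by rw [← Nat.card_zpowers, zpowers_eq_of_mem hP hv hv1]; exact hP
  have h1 := fix_one P hP ho
  rw [Nat.card_eq_one_iff_unique] at h1
  haveI := h1.1
  have h2 : v • (QuotientGroup.mk 1 : G ⧸ normalizer ((P : Subgroup G) : Set G)) = QuotientGroup.mk 1 :=
    (fixes_one_iff _ v).mpr (le_normalizer hv)
  exact congrArg Subtype.val (Subsingleton.elim (⟨x, hx⟩ : fixedBy (G ⧸ normalizer ((P : Subgroup G) : Set G)) v) ⟨_, h2⟩)

structure Coord (P : Sylow p G) (u : G) (pt : ℕ → G ⧸ normalizer ((P : Subgroup G) : Set G)) : Prop where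
  hu : u ∈ (P : Subgroup G)
  ho : orderOf u = p
  inf : pt p = QuotientGroup.mk 1
  inj : ∀ i j, i ≤ p → j ≤ p → pt i = pt j → i = j
  surj : ∀ x, ∃ i ≤ p, x = pt i
  act : ∀ k, ∀ i ≤ p, u ^ k • pt i = pt (xk p k i)

theorem exists_coord' (hP : Nat.card P = p) (hn : Nat.card (Sylow p G) = p + 1) : ∃ u pt, Coord P u pt := by
  classical
  obtain ⟨⟨u, hu⟩, ho⟩ := exists_prime_orderOf_dvd_card' (G := P) p (by rw [hP])
  have ho' : orderOf u = p := by rw [← ho]; exact (Subgroup.orderOf_mk u hu).symm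
  have hu1 : u ≠ 1 := by rintro rfl; rw [orderOf_one] at ho'; exact hp.out.one_lt.ne ho'
  have hp0 := hp.out.pos
  have hcard : Nat.card (G ⧸ normalizer ((P : Subgroup G) : Set G)) = p + 1 := by
    rw [← Subgroup.index, syl_index, hn]
  have hnt : Nontrivial (G ⧸ normalizer ((P : Subgroup G) : Set G)) := by
    rw [← Finite.one_lt_card_iff_nontrivial, hcard]; omega
  obtain ⟨o, hoi⟩ := exists_ne (QuotientGroup.mk 1 : G ⧸ normalizer ((P : Subgroup G) : Set G))
  have huinf : ∀ k : ℕ, u ^ k • (QuotientGroup.mk 1 : G ⧸ normalizer ((P : Subgroup G) : Set G)) = QuotientGroup.mk 1 :=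
    fun k => (fixes_one_iff _ _).mpr (le_normalizer (pow_mem hu k))
  have hne : ∀ k : ℕ, u ^ k • o ≠ QuotientGroup.mk 1 := by
    intro k hk
    apply hoi
    rw [← huinf k] at hk
    exact smul_left_cancel _ hk
  have hpow : ∀ k : ℕ, ¬ p ∣ k → u ^ k ≠ 1 := fun k hk h => hk (ho' ▸ orderOf_dvd_of_pow_eq_one h)
  have hinj : ∀ i j, i < p → j < p → u ^ i • o = u ^ j • o → i = j := by
    have key : ∀ i j, i ≤ j → j < p → u ^ i • o = u ^ j • o → i = j := by
      intro i j hij hj he
      by_contra hne'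
      apply hoi
      apply nofix' hP (pow_mem hu (j - i)) (hpow _ fun hd => by
        have := Nat.le_of_dvd (by omega) hd
        omega)
      have : u ^ j = u ^ i * u ^ (j - i) := by rw [← pow_add]; congr 1; omega
      rw [this, mul_smul] at he
      exact (smul_left_cancel _ he).symm
    intro i j hi hj he
    rcases le_total i j with h | h
    · exact key i j h hj he
    · exact (key j i h hi he.symm).symm
  set pt : ℕ → G ⧸ normalizer ((P : Subgroup G) : Set G) := fun i => if i = p then QuotientGroup.mk 1 else u ^ i • o with hpt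
  have hptp : pt p = QuotientGroup.mk 1 := by rw [hpt]; simp
  have hpti : ∀ i, i ≠ p → pt i = u ^ i • o := fun i hi => by rw [hpt]; simp [hi]
  have hptinj : ∀ i j, i ≤ p → j ≤ p → pt i = pt j → i = j := by
    intro i j hi hj he
    by_cases h1 : i = p
    · by_cases h2 : j = p
      · rw [h1, h2]
      · rw [h1, hptp, hpti j h2] at he; exact absurd he.symm (hne j)
    · by_cases h2 : j = p
      · rw [h2, hptp, hpti i h1] at he; exact absurd he (hne i)
      · rw [hpti i h1, hpti j h2] at he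
        exact hinj i j (by omega) (by omega) he
  refine ⟨u, pt, hu, ho', hptp, hptinj, ?_, ?_⟩
  · have hb : Function.Bijective (fun i : Fin (p + 1) => pt i) := by
      rw [Nat.bijective_iff_injective_and_card]
      refine ⟨fun i j hij => Fin.ext (hptinj i j (by omega) (by omega) hij), ?_⟩
      rw [hcard]; simp
    intro x
    obtain ⟨i, hi⟩ := hb.2 x
    exact ⟨i, by omega, hi.symm⟩
  · intro k i hi
    unfold xk
    by_cases h1 : i = p
    · rw [if_pos h1, h1, hptp]; exact huinf k
    · rw [if_neg h1, hpti i h1, hpti _ (Nat.mod_lt _ hp0).ne, ← mul_smul, ← pow_add]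
      congr 1
      rw [pow_eq_pow_iff_modEq, ho', add_comm]
      exact (Nat.mod_modEq _ _).symm

theorem Zas.exists_coord (Z : Zas P h) : ∃ u pt, Coord P u pt := exists_coord' Z.hP Z.hn

variable {u : G} {pt : ℕ → G ⧸ normalizer ((P : Subgroup G) : Set G)}

theorem Coord.mem_N (C : Coord P u pt) {g : G} (hg : g • pt p = pt p) : g ∈ normalizer ((P : Subgroup G) : Set G) := by
  rw [C.inf] at hg; exact (fixes_one_iff _ g).mp hg

theorem Coord.conj_pow (C : Coord P u pt) (hP : Nat.card P = p) {g : G} (hg : g ∈ normalizer ((P : Subgroup G) : Set G)) :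
    ∃ c < p, ∀ i : ℕ, g * u ^ i * g⁻¹ = u ^ (c * i) := by
  classical
  have hu1 : u ≠ 1 := by rintro rfl; have := C.ho; rw [orderOf_one] at this; exact hp.out.one_lt.ne this
  have h1 : g * u * g⁻¹ ∈ (P : Subgroup G) := (mem_normalizer_iff.mp hg u).mp C.hu
  have hz : zpowers u = (P : Subgroup G) := zpowers_eq_of_mem hP C.hu hu1
  rw [← hz] at h1
  rw [mem_zpowers_iff_mem_range_orderOf] at h1
  obtain ⟨c, hc, hc2⟩ := Finset.mem_image.mp h1
  rw [Finset.mem_range, C.ho] at hc
  refine ⟨c, hc, fun i => ?_⟩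
  have h2 : g * u ^ i * g⁻¹ = (g * u * g⁻¹) ^ i := map_pow (MulAut.conj g) u i
  rw [h2, ← hc2, ← pow_mul]

/-- elements fixing two points -/
theorem Coord.stab (Z : Zas P h) (C : Coord P u pt) {g : G} (h1 : g • pt p = pt p) (h0 : g • pt 0 = pt 0) :
    ∃ c < p, c ^ h % p = 1 ∧ ∀ i < p, g • pt i = pt (c * i % p) := by
  have hp0 := hp.out.pos
  have hg := C.mem_N h1
  obtain ⟨c, hc, hcj⟩ := C.conj_pow Z.hP hg
  refine ⟨c, hc, ?_, ?_⟩
  · have hm : ∀ m : ℕ, g ^ m * u * (g ^ m)⁻¹ = u ^ (c ^ m) := by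
      intro m
      induction m with
      | zero => simp
      | succ m ih =>
        rw [pow_succ' g m, mul_inv_rev]
        calc g * g ^ m * u * ((g ^ m)⁻¹ * g⁻¹) = g * (g ^ m * u * (g ^ m)⁻¹) * g⁻¹ := by group
          _ = _ := by rw [ih, hcj, pow_succ' c m]
    have hgh : g ^ h ∈ centralizer ((P : Subgroup G) : Set G) := by
      have hno : ((centralizer ((P : Subgroup G) : Set G)).subgroupOf (normalizer ((P : Subgroup G) : Set G))).Normal := by
        rw [← normalizerMonoidHom_ker]; infer_instance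
      have := pow_index_mem ((centralizer ((P : Subgroup G) : Set G)).subgroupOf (normalizer ((P : Subgroup G) : Set G))) ⟨g, hg⟩
      have he : ((centralizer ((P : Subgroup G) : Set G)).subgroupOf (normalizer ((P : Subgroup G) : Set G))).index = h := Z.he
      rw [he, mem_subgroupOf] at this
      exact this
    have h3 := hm h
    have h4 : g ^ h * u * (g ^ h)⁻¹ = u ^ 1 := by
      rw [← mem_centralizer_iff.mp hgh u C.hu, mul_inv_cancel_right, pow_one]
    rw [h4, pow_eq_pow_iff_modEq, C.ho] at h3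
    have : c ^ h % p = 1 % p := h3.symm
    rw [this, Nat.mod_eq_of_lt hp.out.one_lt]
  · intro i hi
    have e1 : pt i = u ^ i • pt 0 := by
      rw [C.act i 0 (by omega)]
      unfold xk
      rw [if_neg (by omega), zero_add, Nat.mod_eq_of_lt hi]
    have e2 : g • pt i = u ^ (c * i) • pt 0 := by
      rw [e1, ← hcj i, mul_smul, mul_smul]
      have : g⁻¹ • pt 0 = pt 0 := by rw [inv_smul_eq_iff, h0]
      rw [this]
    rw [e2, C.act _ 0 (by omega)]
    unfold xk
    rw [if_neg (by omega), zero_add]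

theorem Coord.exists_y (Z : Zas P h) (C : Coord P u pt) {w : ℕ} (hw : w ^ h % p = 1) (hh : 0 < h) :
    ∃ y : G, y • pt p = pt p ∧ ∀ i < p, y • pt i = pt (w * i % p) := by
  classical
  have hp0 := hp.out.pos
  have hu1 : u ≠ 1 := by rintro rfl; have := C.ho; rw [orderOf_one] at this; exact hp.out.one_lt.ne this
  have hz : zpowers u = (P : Subgroup G) := zpowers_eq_of_mem Z.hP C.hu hu1
  haveI : IsCyclic P := isCyclic_of_prime_card Z.hP
  letI : CommGroup ↥(P : Subgroup G) := IsCyclic.commGroup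
  have hcop : (Nat.card ↥(P : Subgroup G)).Coprime w := by
    have : Nat.card ↥(P : Subgroup G) = p := Z.hP
    rw [this, Nat.Prime.coprime_iff_not_dvd hp.out]
    intro hd
    have : w ^ h % p = 0 := Nat.mod_eq_zero_of_dvd (dvd_pow hd hh.ne')
    omega
  let σ : MulAut ↥(P : Subgroup G) := { powCoprime hcop with map_mul' := fun a b => by simp [mul_pow] }
  have hσ : ∀ x : ↥(P : Subgroup G), σ x = x ^ w := fun x => rfl
  have hσm : ∀ m : ℕ, ∀ x : ↥(P : Subgroup G), (σ ^ m) x = x ^ (w ^ m) := by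
    intro m
    induction m with
    | zero => intro x; simp
    | succ m ih => intro x; rw [pow_succ', MulAut.mul_apply, ih, hσ, ← pow_mul, pow_succ]
  have hσh : σ ^ h = 1 := by
    ext x
    rw [hσm, MulAut.one_apply]
    congr 1
    have hx : x ^ (w ^ h) = x ^ 1 := by
      rw [pow_eq_pow_iff_modEq]
      have hd : orderOf x ∣ p := by
        have h1 := orderOf_dvd_natCard x
        have hP' : Nat.card ↥(P : Subgroup G) = p := Z.hP
        rwa [hP'] at h1
      apply Nat.ModEq.of_dvd hd
      change w ^ h % p = 1 % p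
      rw [hw, Nat.mod_eq_of_lt hp.out.one_lt]
    rw [hx, pow_one]
  have hR : Nat.card (P : Subgroup G).normalizerMonoidHom.range = h := by
    have h1 := Subgroup.index_ker (P : Subgroup G).normalizerMonoidHom
    rw [← h1, normalizerMonoidHom_ker]; exact Z.he
  have hmem : σ ∈ (P : Subgroup G).normalizerMonoidHom.range := by
    haveI : Fintype (MulAut ↥(P : Subgroup G)) := Fintype.ofFinite _
    have hcyc : IsCyclic (MulAut ↥(P : Subgroup G)) := by
      have e := IsCyclic.mulAutMulEquiv ↥(P : Subgroup G)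
      have hP' : Nat.card ↥(P : Subgroup G) = p := Z.hP
      haveI : Fact (Nat.card ↥(P : Subgroup G)).Prime := ⟨by rw [hP']; exact hp.out⟩
      exact isCyclic_of_surjective e.symm.toMonoidHom e.symm.surjective
    have h1 := IsCyclic.card_pow_eq_one_le (α := MulAut ↥(P : Subgroup G)) hh
    have h2 : (Finset.univ.filter fun a : MulAut ↥(P : Subgroup G) => a ∈ (P : Subgroup G).normalizerMonoidHom.range).card = h := by
      rw [← hR, Nat.card_eq_fintype_card, Fintype.card_subtype]
    have h3 : (Finset.univ.filter fun a : MulAut ↥(P : Subgroup G) => a ∈ (P : Subgroup G).normalizerMonoidHom.range) ⊆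
        (Finset.univ.filter fun a : MulAut ↥(P : Subgroup G) => a ^ h = 1) := by
      intro a ha
      rw [Finset.mem_filter] at ha ⊢
      refine ⟨ha.1, ?_⟩
      have h4 := pow_card_eq_one' (x := (⟨a, ha.2⟩ : (P : Subgroup G).normalizerMonoidHom.range))
      rw [hR] at h4
      exact congrArg Subtype.val h4
    have h4 := Finset.eq_of_subset_of_card_le h3 (by rw [h2]; exact h1)
    have h5 : σ ∈ (Finset.univ.filter fun a : MulAut ↥(P : Subgroup G) => a ^ h = 1) := by
      rw [Finset.mem_filter]; exact ⟨Finset.mem_univ _, hσh⟩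
    rw [← h4, Finset.mem_filter] at h5
    exact h5.2
  obtain ⟨⟨n, hn⟩, hnσ⟩ := hmem
  have hnu : ∀ i : ℕ, n * u ^ i * n⁻¹ = u ^ (w * i) := by
    intro i
    have h1 := congrArg (fun τ : MulAut ↥(P : Subgroup G) => ((τ ⟨u ^ i, pow_mem C.hu i⟩ : ↥(P : Subgroup G)) : G)) hnσ
    have h2 : ((σ ⟨u ^ i, pow_mem C.hu i⟩ : ↥(P : Subgroup G)) : G) = (u ^ i) ^ w := by rw [hσ]; rfl
    have h3 : (((P : Subgroup G).normalizerMonoidHom ⟨n, hn⟩ ⟨u ^ i, pow_mem C.hu i⟩ : ↥(P : Subgroup G)) : G) = n * u ^ i * n⁻¹ := rfl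
    rw [h3, h2, ← pow_mul, mul_comm i w] at h1
    exact h1
  have hninf : n • pt p = pt p := by rw [C.inf]; exact (fixes_one_iff _ n).mpr hn
  obtain ⟨j, hj, hj2⟩ := C.surj (n • pt 0)
  have hjp : j ≠ p := by
    intro hjp
    rw [hjp, ← hninf] at hj2
    have := C.inj 0 p (by omega) le_rfl (smul_left_cancel _ hj2)
    omega
  refine ⟨(u ^ j)⁻¹ * n, ?_, fun i hi => ?_⟩
  · rw [mul_smul, hninf, inv_smul_eq_iff, C.act j p le_rfl]
    unfold xk; rw [if_pos rfl]
  · have e1 : pt i = u ^ i • pt 0 := by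
      rw [C.act i 0 (by omega)]
      unfold xk
      rw [if_neg (by omega), zero_add, Nat.mod_eq_of_lt hi]
    have e3 : pt j = u ^ j • pt 0 := by
      rw [C.act j 0 (by omega)]
      unfold xk
      rw [if_neg (by omega), zero_add, Nat.mod_eq_of_lt (by omega)]
    rw [mul_smul, e1]
    have e2 : n • u ^ i • pt 0 = u ^ (w * i) • u ^ j • pt 0 := by
      rw [← e3, ← hj2, ← hnu i, mul_smul, mul_smul, inv_smul_smul]
    have e4 : u ^ (w * i) * u ^ j = u ^ j * u ^ (w * i) := by rw [← pow_add, ← pow_add, add_comm]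
    have e5 : u ^ (w * i) • pt 0 = pt (w * i % p) := by
      rw [C.act _ 0 (by omega)]
      unfold xk
      rw [if_neg (by omega), zero_add]
    rw [e2, inv_smul_eq_iff, ← e5, ← mul_smul, e4, mul_smul]

theorem Coord.exists_t (Z : Zas P h) (C : Coord P u pt) : ∃ t : G, t • pt p = pt 0 ∧ t • pt 0 = pt p := by
  have hp0 := hp.out.pos
  obtain ⟨g1, hg1⟩ := exists_smul_eq G (pt p) (pt 0)
  obtain ⟨j, hj, hj2⟩ := C.surj (g1⁻¹ • pt p)
  have hjp : j ≠ p := by
    intro hjp
    rw [hjp, inv_smul_eq_iff, hg1] at hj2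
    have := C.inj _ _ le_rfl (by omega) hj2
    omega
  refine ⟨g1 * u ^ j, ?_, ?_⟩
  · rw [mul_smul, C.act j p le_rfl]
    unfold xk; rw [if_pos rfl, hg1]
  · rw [mul_smul, C.act j 0 (by omega)]
    unfold xk
    rw [if_neg (by omega), zero_add, Nat.mod_eq_of_lt (by omega), ← hj2, smul_inv_smul]

end

section
variable {G : Type*} [Group G] [Finite G] [IsSimpleGroup G] {p h : ℕ} [hp : Fact p.Prime] {P : Sylow p G} {u : G}
  {pt : ℕ → G ⧸ normalizer ((P : Subgroup G) : Set G)}

theorem Coord.faithful' (hn : Nat.card (Sylow p G) = p + 1) (C : Coord P u pt) {g g' : G} (hgg : ∀ i ≤ p, g • pt i = g' • pt i) : g = g' := by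
  have hN : normalizer ((P : Subgroup G) : Set G) ≠ ⊤ := by
    intro h
    have h1 := syl_index P
    rw [h, index_top, hn] at h1
    have := hp.out.pos
    omega
  apply coset_inj _ hN
  ext x
  obtain ⟨i, hi, rfl⟩ := C.surj x
  exact hgg i hi

theorem cent_card (hP : Nat.card P = p) (hn : Nat.card (Sylow p G) = p + 1) : Nat.card (centralizer ((P : Subgroup G) : Set G)) = p := by
  have hp0 := hp.out.pos
  obtain ⟨u, pt, C⟩ := exists_coord' hP hn
  have hu1 : u ≠ 1 := by rintro rfl; have := C.ho; rw [orderOf_one] at this; exact hp.out.one_lt.ne this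
  have hz : zpowers u = (P : Subgroup G) := zpowers_eq_of_mem hP C.hu hu1
  have h1 : centralizer ((P : Subgroup G) : Set G) = (P : Subgroup G) := by
    apply le_antisymm
    · intro x hx
      have hxN := centralizer_le_normalizer' (P : Subgroup G) hx
      have hxp : x • pt p = pt p := by rw [C.inf]; exact (fixes_one_iff _ x).mpr hxN
      obtain ⟨j, hj, hj2⟩ := C.surj (x • pt 0)
      have hjp : j < p := by
        by_contra hc'
        have : j = p := by omega
        rw [this, ← hxp] at hj2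
        have := C.inj _ _ (by omega) le_rfl (smul_left_cancel _ hj2)
        omega
      have hu0 : ∀ k, k < p → u ^ k • pt 0 = pt k := by
        intro k hk
        rw [C.act k 0 (by omega)]; unfold xk; rw [if_neg (by omega), zero_add, Nat.mod_eq_of_lt hk]
      have hxu : x = u ^ j := by
        apply C.faithful' hn
        intro i hi
        by_cases hip : i = p
        · rw [hip, hxp, C.act j p le_rfl]; unfold xk; rw [if_pos rfl]
        · rw [← hu0 i (by omega), ← mul_smul, ← mul_smul]
          have hc : Commute x (u ^ i) := (mem_centralizer_iff.mp hx _ (pow_mem C.hu i)).symm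
          rw [hc.eq, mul_smul, hj2, ← hu0 j hjp, ← mul_smul, ← pow_add, ← pow_add, add_comm]
      rw [hxu]; exact pow_mem C.hu j
    · intro x hx
      rw [mem_centralizer_iff]
      intro y hy
      have hx' : x ∈ zpowers u := by rw [hz]; exact hx
      have hy' : y ∈ zpowers u := by rw [hz]; exact hy
      obtain ⟨a, rfl⟩ := mem_zpowers_iff.mp hx'
      obtain ⟨b, rfl⟩ := mem_zpowers_iff.mp hy'
      exact (Commute.refl u).zpow_zpow b a
  rw [h1]; exact hP

theorem zas_of_card (P : Sylow p G) (h2 : 2 * h + 1 = p) (hh : 0 < h) (hcard : Nat.card G = p * (p + 1) * h) (hn : Nat.card (Sylow p G) = p + 1) :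
    Zas P h := by
  have hp0 := hp.out.pos
  have hP : Nat.card P = p := by
    apply card_sylow_prime
    · rw [hcard, mul_assoc]; exact dvd_mul_right _ _
    · rw [hcard, pow_two, mul_assoc]
      intro hd
      rcases hp.out.dvd_mul.mp (Nat.dvd_of_mul_dvd_mul_left hp0 hd) with h1 | h1
      · exact hp.out.one_lt.ne' (Nat.dvd_one.mp ((Nat.dvd_add_right (dvd_refl p)).mp h1))
      · have := Nat.le_of_dvd hh h1; omega
  have hc := cent_card hP hn
  refine ⟨hP, hn, hc, ?_, h2⟩
  have h1 := card_cent_mul (P : Subgroup G)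
  have h3 := (normalizer ((P : Subgroup G) : Set G)).card_mul_index
  rw [syl_index, hn, ← h1, hc, hcard] at h3
  have h4 : p * (p + 1) * (centralizer ((P : Subgroup G) : Set G)).relIndex (normalizer ((P : Subgroup G) : Set G)) = p * (p + 1) * h := by
    rw [← h3]; ring
  exact Nat.eq_of_mul_eq_mul_left (by positivity) h4

end

end CfsgLib.SmS
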