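import Cfsg.Agent.Lib.SmZ1
import Cfsg.Agent.Lib.Chev1
set_option autoImplicit false
set_option linter.style.haveILetI false

/-! Groups with `p + 1` Sylow `p`-subgroups acting like `PSL₂(p)`: uniqueness by a finite check. -/

namespace CfsgLib.SmS
open Subgroup MulAction CfsgLib.NPC CfsgLib.Chev
open scoped Pointwise

def tab (p c a b L i : ℕ) : ℕ :=
  cond (Nat.beq i p) 0 (cond (Nat.beq i 0) p
    ((c ^ (((L >>> (8 * i)) % 256) / 2) * cond (Nat.beq (((L >>> (8 * i)) % 256) % 2) 1) b a) % p))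

def xkb (p k i : ℕ) : ℕ := cond (Nat.beq i p) p ((i + k) % p)

theorem xkb_eq (p k i : ℕ) : xkb p k i = xk p k i := by
  unfold xkb xk
  by_cases h : i = p
  · rw [if_pos h, h]; simp [Nat.beq_refl]
  · rw [if_neg h]
    have : Nat.beq i p = false := by
      rw [← Bool.not_eq_true]; intro h'; exact h (Nat.eq_of_beq_eq_true h')
    rw [this]; rfl

def relb (p k : ℕ) (S : ℕ → ℕ) (l cc j : ℕ) : Bool := Nat.beq (S (xkb p 1 (S j))) (xkb p k (S ((cc * j + l) % p)))

noncomputable def candb (p h k : ℕ) (S : ℕ → ℕ) : Bool :=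
  ball p fun l => !(relb p k S l 1 0) || ball p fun cc => !(Nat.beq (cc ^ h % p) 1) || !(ball p (relb p k S l cc))

noncomputable def zchk (p h w v L : ℕ) (fl : Bool) (c0 a0 b0 : ℕ) : Bool :=
  (ball p fun c => !(Nat.beq (c ^ h % p) 1) || (fl && Nat.beq c w) ||
    ((ball p fun b => Nat.beq b 0 || (Nat.beq c c0 && Nat.beq 1 a0 && Nat.beq b b0) || candb p h 1 (tab p c 1 b L)) &&
     (ball p fun b => Nat.beq b 0 || (Nat.beq c c0 && Nat.beq v a0 && Nat.beq b b0) || candb p h v (tab p c v b L)))) &&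
  (ball p fun i => Nat.beq i 0 || Nat.beq (w ^ (((L >>> (8 * i)) % 256) / 2) * (cond (Nat.beq (((L >>> (8 * i)) % 256) % 2) 1) v 1) % p) i) &&
  (ball p fun a => Nat.beq a 0 || !(ball h fun m => !(Nat.beq (w ^ m * a % p) 1) && !(Nat.beq (w ^ m * a % p) v))) &&
  (ball p fun c => !(Nat.beq (c ^ h % p) 1) || !(ball h fun m => !(Nat.beq (w ^ m % p) c))) &&
  Nat.beq (w ^ h % p) 1 && Nat.blt 0 h && Nat.blt 0 v && Nat.blt v p && Nat.blt 1 w && Nat.blt w p

theorem beq_iff' (a b : ℕ) : Nat.beq a b = true ↔ a = b := ⟨Nat.eq_of_beq_eq_true, fun h => by rw [h]; exact Nat.beq_refl b⟩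

theorem ball_iff {n : ℕ} {q : ℕ → Bool} : ball n q = true ↔ ∀ k < n, q k = true := by
  constructor
  · exact ball_spec
  · intro h
    induction n with
    | zero => rfl
    | succ n ih => rw [ball_succ, h n (by omega), ih fun k hk => h k (by omega)]; rfl

section
variable {G : Type*} [Group G] [Finite G] {p h : ℕ} [hp : Fact p.Prime] {P : Sylow p G} {u : G}
  {pt : ℕ → G ⧸ normalizer ((P : Subgroup G) : Set G)}

theorem Coord.exists_S (C : Coord P u pt) (t : G) : ∃ S : ℕ → ℕ, ∀ i ≤ p, S i ≤ p ∧ t • pt i = pt (S i) := by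
  classical
  have h1 : ∀ i, ∃ j, i ≤ p → (j ≤ p ∧ t • pt i = pt j) := by
    intro i
    obtain ⟨j, hj, hj2⟩ := C.surj (t • pt i)
    exact ⟨j, fun _ => ⟨hj, hj2⟩⟩
  choose S hS using h1
  exact ⟨S, fun i hi => hS i hi⟩

variable {t y : G} {S : ℕ → ℕ} {w : ℕ}

theorem Coord.S_facts (C : Coord P u pt) (hS : ∀ i ≤ p, S i ≤ p ∧ t • pt i = pt (S i)) (ht1 : t • pt p = pt 0) (ht0 : t • pt 0 = pt p) :
    S p = 0 ∧ S 0 = p ∧ ∀ i, 1 ≤ i → i < p → 1 ≤ S i ∧ S i < p := by
  have hp0 := hp.out.pos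
  have h1 : S p = 0 := by
    have := (hS p le_rfl).2
    rw [ht1] at this
    exact (C.inj _ _ (by omega) (hS p le_rfl).1 this).symm
  have h2 : S 0 = p := by
    have := (hS 0 (by omega)).2
    rw [ht0] at this
    exact (C.inj _ _ le_rfl (hS 0 (by omega)).1 this).symm
  refine ⟨h1, h2, fun i hi hip => ⟨?_, ?_⟩⟩
  · by_contra hc
    have hSi : S i = 0 := by omega
    have := (hS i (by omega)).2
    rw [hSi, ← ht1] at this
    have := C.inj _ _ (by omega) le_rfl (smul_left_cancel _ this)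
    omega
  · by_contra hc
    have hSi : S i = p := by have := (hS i (by omega)).1; omega
    have := (hS i (by omega)).2
    rw [hSi, ← ht0] at this
    have := C.inj _ _ (by omega) (by omega) (smul_left_cancel _ this)
    omega

theorem Coord.R2 (Z : Zas P h) (C : Coord P u pt) (hS : ∀ i ≤ p, S i ≤ p ∧ t • pt i = pt (S i)) (ht1 : t • pt p = pt 0) (ht0 : t • pt 0 = pt p)
    (hy1 : y • pt p = pt p) (hy : ∀ i < p, y • pt i = pt (w * i % p)) :
    ∃ c < p, c ^ h % p = 1 ∧ (∀ i, 1 ≤ i → i < p → S (w * i % p) = c * S i % p) ∧ ∀ i < p, (t * y * t⁻¹) • pt i = pt (c * i % p) := by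
  have hp0 := hp.out.pos
  obtain ⟨f1, f2, f3⟩ := C.S_facts hS ht1 ht0
  have hy0 : y • pt 0 = pt 0 := by rw [hy 0 hp0, mul_zero, Nat.zero_mod]
  obtain ⟨c, hc, hc2, hc3⟩ := C.stab Z (g := t * y * t⁻¹)
    (by rw [mul_smul, mul_smul, inv_smul_eq_iff.mpr ht0.symm, hy0, ht0])
    (by rw [mul_smul, mul_smul, inv_smul_eq_iff.mpr ht1.symm, hy1, ht1])
  refine ⟨c, hc, hc2, fun i hi hip => ?_, hc3⟩
  have h1 := hc3 (S i) (f3 i hi hip).2
  rw [← (hS i (by omega)).2, mul_smul, inv_smul_smul, mul_smul, hy i hip, (hS _ (Nat.mod_lt _ hp0).le).2] at h1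
  exact C.inj _ _ (hS _ (Nat.mod_lt _ hp0).le).1 (Nat.mod_lt _ hp0).le h1

theorem Coord.R3 (Z : Zas P h) (C : Coord P u pt) (hS : ∀ i ≤ p, S i ≤ p ∧ t • pt i = pt (S i)) (ht1 : t • pt p = pt 0) (ht0 : t • pt 0 = pt p) :
    ∃ l < p, ∃ c < p, c ^ h % p = 1 ∧ ∀ j < p, S (xk p 1 (S j)) = xk p (S 1) (S ((c * j + l) % p)) := by
  have hp0 := hp.out.pos
  have hp1 := hp.out.one_lt
  obtain ⟨f1, f2, f3⟩ := C.S_facts hS ht1 ht0
  have hxk : ∀ k i, i ≤ p → xk p k i ≤ p := by
    intro k i hi; unfold xk; split_ifs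
    · exact le_rfl
    · exact (Nat.mod_lt _ hp0).le
  have hu0 : ∀ k, u ^ k • pt 0 = pt (k % p) := by
    intro k
    rw [C.act k 0 (by omega)]; unfold xk; rw [if_neg (by omega), zero_add]
  have hup : ∀ k, u ^ k • pt p = pt p := by
    intro k
    rw [C.act k p le_rfl]; unfold xk; rw [if_pos rfl]
  set g := (u ^ (S 1) * t)⁻¹ * (t * u * t) with hg
  have hg1 : g • pt p = pt p := by
    rw [hg, mul_smul, inv_smul_eq_iff, mul_smul, mul_smul, mul_smul, ht1]
    have e1 : u • pt 0 = pt 1 := by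
      have := hu0 1
      rwa [pow_one, Nat.mod_eq_of_lt hp1] at this
    rw [e1, hu0, (hS 1 (by omega)).2, Nat.mod_eq_of_lt (f3 1 le_rfl hp1).2]
  obtain ⟨l, hl, hl2⟩ := C.surj (g • pt 0)
  have hlp : l < p := by
    by_contra hc
    have : l = p := by omega
    rw [this, ← hg1] at hl2
    have := C.inj _ _ (by omega) le_rfl (smul_left_cancel _ hl2)
    omega
  obtain ⟨c, hc, hc2, hc3⟩ := C.stab Z (g := (u ^ l)⁻¹ * g)
    (by rw [mul_smul, hg1, inv_smul_eq_iff, hup])
    (by rw [mul_smul, hl2, inv_smul_eq_iff, hu0, Nat.mod_eq_of_lt hlp])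
  refine ⟨l, hlp, c, hc, hc2, fun j hj => ?_⟩
  have h1 := hc3 j hj
  rw [mul_smul, inv_smul_eq_iff, hg, mul_smul, inv_smul_eq_iff, mul_smul, mul_smul, mul_smul, (hS j (by omega)).2] at h1
  have e1 : u • pt (S j) = pt (xk p 1 (S j)) := by
    have := C.act 1 (S j) (hS j (by omega)).1
    rwa [pow_one] at this
  have e2 : u ^ l • pt (c * j % p) = pt ((c * j + l) % p) := by
    rw [C.act l _ (Nat.mod_lt _ hp0).le]
    unfold xk
    rw [if_neg (Nat.mod_lt _ hp0).ne, Nat.mod_add_mod]
  rw [e1, (hS _ (hxk 1 _ (hS j (by omega)).1)).2, e2, (hS _ (Nat.mod_lt _ hp0).le).2,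
    C.act _ _ (hS _ (Nat.mod_lt _ hp0).le).1] at h1
  exact C.inj _ _ (hS _ (hxk 1 _ (hS j (by omega)).1)).1 (hxk _ _ (hS _ (Nat.mod_lt _ hp0).le).1) h1

theorem S_pow {c : ℕ} (hw0 : ¬ p ∣ w) (hS : ∀ i, 1 ≤ i → i < p → 1 ≤ S i ∧ S i < p)
    (hR : ∀ i, 1 ≤ i → i < p → S (w * i % p) = c * S i % p) (k e : ℕ) (he : 1 ≤ e) (hep : e < p) :
    S (w ^ k * e % p) = c ^ k * S e % p := by
  have hp0 := hp.out.pos
  induction k with
  | zero => rw [pow_zero, one_mul, pow_zero, one_mul, Nat.mod_eq_of_lt hep, Nat.mod_eq_of_lt (hS e he hep).2]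
  | succ k ih =>
    have h1 : w ^ (k + 1) * e % p = w * (w ^ k * e % p) % p := by
      rw [Nat.mul_mod_mod, pow_succ', mul_assoc]
    have h2 : 1 ≤ w ^ k * e % p := by
      rw [Nat.one_le_iff_ne_zero]
      intro h0
      have := Nat.dvd_of_mod_eq_zero h0
      rcases hp.out.dvd_mul.mp this with h | h
      · exact hw0 (hp.out.dvd_of_dvd_pow h)
      · exact absurd (Nat.le_of_dvd he h) (by omega)
    rw [h1, hR _ h2 (Nat.mod_lt _ hp0), ih, Nat.mul_mod_mod, pow_succ', mul_assoc]

end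

section
variable {G : Type*} [Group G] [Finite G] [IsSimpleGroup G] {p h : ℕ} [hp : Fact p.Prime] {P : Sylow p G} {u : G}
  {pt : ℕ → G ⧸ normalizer ((P : Subgroup G) : Set G)}

theorem Coord.faithful (Z : Zas P h) (C : Coord P u pt) {g g' : G} (hgg : ∀ i ≤ p, g • pt i = g' • pt i) : g = g' :=
  C.faithful' Z.hn hgg

/-- description of a group by explicit permutations -/
theorem zas_main (Z : Zas P h) {w v L : ℕ} {fl : Bool} {c0 a0 b0 : ℕ} (hchk : zchk p h w v L fl c0 a0 b0 = true)
    (hfl : fl = true → ∀ y ∈ normalizer ((P : Subgroup G) : Set G), y ≠ 1 → centralizer ({y} : Set G) ≤ normalizer ((P : Subgroup G) : Set G)) :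
    ∃ (f : G →* Equiv.Perm (Fin (p + 1))) (X Y T : Equiv.Perm (Fin (p + 1))), Function.Injective f ∧ f.range = closure {X, Y, T} ∧
      (∀ i, (X i : ℕ) = xk p 1 i) ∧ (∀ i, (Y i : ℕ) = if (i : ℕ) = p then p else w * i % p) ∧ (∀ i, (T i : ℕ) = tab p c0 a0 b0 L i) := by
  classical
  have hp0 := hp.out.pos
  have hp1 := hp.out.one_lt
  unfold zchk at hchk
  simp only [Bool.and_eq_true, ball_iff, Bool.or_eq_true, Bool.not_eq_true', ← Bool.not_eq_true, beq_iff', Nat.blt_eq] at hchk
  obtain ⟨⟨⟨⟨⟨⟨⟨⟨⟨k1, k2⟩, k3⟩, k4⟩, k5⟩, k6⟩, k7⟩, k8⟩, k9⟩, k10⟩ := hchk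
  have hw0 : ¬ p ∣ w := fun hd => absurd (Nat.le_of_dvd (by omega) hd) (by omega)
  obtain ⟨u, pt, C⟩ := Z.exists_coord
  obtain ⟨y, hy1, hy⟩ := C.exists_y Z k5 k6
  obtain ⟨t', ht1', ht0'⟩ := C.exists_t Z
  -- normalization
  have hypow : ∀ m : ℕ, (y ^ m • pt p = pt p) ∧ ∀ i < p, y ^ m • pt i = pt (w ^ m * i % p) := by
    intro m
    induction m with
    | zero => exact ⟨by simp, fun i hi => by rw [pow_zero, one_smul, pow_zero, one_mul, Nat.mod_eq_of_lt hi]⟩
    | succ m ih =>
      refine ⟨by rw [pow_succ, mul_smul, hy1, ih.1], fun i hi => ?_⟩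
      rw [pow_succ, mul_smul, hy i hi, ih.2 _ (Nat.mod_lt _ hp0), Nat.mul_mod_mod, ← mul_assoc, ← pow_succ]
  obtain ⟨S', hS'⟩ := C.exists_S t'
  obtain ⟨f1', f2', f3'⟩ := C.S_facts hS' ht1' ht0'
  obtain ⟨m, hm⟩ : ∃ m, w ^ m * S' 1 % p = 1 ∨ w ^ m * S' 1 % p = v := by
    have := k3 (S' 1) (f3' 1 le_rfl hp1).2
    rcases this with h0 | h0
    · have := (f3' 1 le_rfl hp1).1; omega
    · by_contra hcon
      push Not at hcon
      apply h0
      intro m _
      exact ⟨(hcon m).1, (hcon m).2⟩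
  set t := y ^ m * t' with ht
  have ht1 : t • pt p = pt 0 := by rw [ht, mul_smul, ht1', (hypow m).2 0 hp0, mul_zero, Nat.zero_mod]
  have ht0 : t • pt 0 = pt p := by rw [ht, mul_smul, ht0', (hypow m).1]
  obtain ⟨S, hS⟩ := C.exists_S t
  obtain ⟨f1, f2, f3⟩ := C.S_facts hS ht1 ht0
  have hS1 : S 1 = 1 ∨ S 1 = v := by
    have h1 := (hS 1 (by omega)).2
    rw [ht, mul_smul, (hS' 1 (by omega)).2, (hypow m).2 _ (f3' 1 le_rfl hp1).2] at h1
    have h2 := C.inj _ _ (Nat.mod_lt _ hp0).le (hS 1 (by omega)).1 h1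
    rw [← h2]; exact hm
  obtain ⟨c, hc, hc1, hc2, hc3⟩ := C.R2 Z hS ht1 ht0 hy1 hy
  obtain ⟨l, hl, cc, hcc, hcc1, hrel⟩ := C.R3 Z hS ht1 ht0
  -- table
  have htab : ∀ i ≤ p, S i = tab p c (S 1) (S v) L i := by
    intro i hi
    unfold tab
    by_cases hip : i = p
    · rw [hip, Nat.beq_refl, cond_true, f1]
    · have h1 : Nat.beq i p = false := by
        rw [← Bool.not_eq_true]; intro h'; exact hip (Nat.eq_of_beq_eq_true h')
      rw [h1, cond_false]
      by_cases hi0 : i = 0
      · rw [hi0, Nat.beq_refl, cond_true, f2]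
      · have h2 : Nat.beq i 0 = false := by
          rw [← Bool.not_eq_true]; intro h'; exact hi0 (Nat.eq_of_beq_eq_true h')
        rw [h2, cond_false]
        have h3 := k2 i (by omega)
        rcases h3 with h3 | h3
        · exact absurd h3 hi0
        · generalize ((L >>> (8 * i)) % 256) / 2 = k at *
          generalize Nat.beq (((L >>> (8 * i)) % 256) % 2) 1 = ε at *
          cases ε with
          | false =>
            rw [cond_false] at h3 ⊢
            conv_lhs => rw [← h3]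
            exact S_pow hw0 f3 hc2 k 1 le_rfl hp1
          | true =>
            rw [cond_true] at h3 ⊢
            conv_lhs => rw [← h3]
            exact S_pow hw0 f3 hc2 k v k7 k8
  -- the candidate fails the refutation
  have hcand : candb p h (S 1) (tab p c (S 1) (S v) L) ≠ true := by
    intro hcd
    unfold candb at hcd
    simp only [Bool.or_eq_true, ball_iff, Bool.not_eq_true', ← Bool.not_eq_true, beq_iff'] at hcd
    have hr : ∀ q, ∀ j < p, (∀ j', q * j' = q * j' → True) → (q * j + l) % p = (cc * j + l) % p → relb p (S 1) (tab p c (S 1) (S v) L) l q j = true := by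
      intro q j hj _ he
      unfold relb
      rw [beq_iff', xkb_eq, xkb_eq, ← htab j (by omega), he, ← htab _ (Nat.mod_lt _ hp0).le]
      rw [← htab _ (by unfold xk; split_ifs; exacts [le_rfl, (Nat.mod_lt _ hp0).le])]
      exact hrel j hj
    rcases hcd l hl with h1 | h1
    · exact h1 (hr 1 0 hp0 (fun _ _ => trivial) (by simp))
    · rcases h1 cc hcc with h2 | h2
      · exact h2 hcc1
      · exact h2 fun j hj => hr cc j hj (fun _ _ => trivial) rfl
  -- the flag
  have hflag : ¬ (fl = true ∧ c = w) := by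
    rintro ⟨h1, h2⟩
    have hyN : y ∈ normalizer ((P : Subgroup G) : Set G) := C.mem_N hy1
    have hty : t * y * t⁻¹ = y := by
      apply C.faithful Z
      intro i hi
      by_cases hip : i = p
      · rw [hip, hy1, mul_smul, mul_smul, inv_smul_eq_iff.mpr ht0.symm, hy 0 hp0, mul_zero, Nat.zero_mod, ht0]
      · rw [hc3 i (by omega), hy i (by omega), h2]
    have hy11 : y ≠ 1 := by
      intro hy11
      have h3 := hy 1 hp1
      rw [hy11, one_smul, mul_one, Nat.mod_eq_of_lt k10] at h3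
      have hw1 := C.inj _ _ (by omega) (by omega) h3
      omega
    have h3 := hfl h1 y hyN hy11
    have h4 : t ∈ centralizer ({y} : Set G) := by
      rw [mem_centralizer_singleton_iff]
      calc t * y = t * y * t⁻¹ * t := by group
        _ = y * t := by rw [hty]
    have h5 := h3 h4
    have h6 : t • pt p = pt p := by rw [C.inf]; exact (fixes_one_iff _ t).mpr h5
    rw [ht1] at h6
    have := C.inj _ _ (by omega) le_rfl h6
    omega
  -- hence the table is the given one
  have hSv := f3 v k7 k8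
  have hfin : c = c0 ∧ S 1 = a0 ∧ S v = b0 := by
    rcases k1 c hc with (h1 | h1) | h1
    · exact absurd hc1 h1
    · exact absurd h1 hflag
    · rcases hS1 with h2 | h2
      · rcases h1.1 (S v) hSv.2 with (h3 | h3) | h3
        · omega
        · exact ⟨h3.1.1, by rw [h2]; exact h3.1.2, h3.2⟩
        · exact absurd (by rw [h2]; exact h3) hcand
      · rcases h1.2 (S v) hSv.2 with (h3 | h3) | h3
        · omega
        · exact ⟨h3.1.1, by rw [h2]; exact h3.1.2, h3.2⟩
        · exact absurd (by rw [h2]; exact h3) hcand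
  -- the permutation representation
  have hbij : Function.Bijective (fun i : Fin (p + 1) => pt i) := by
    constructor
    · intro i j hij; exact Fin.ext (C.inj _ _ (by omega) (by omega) hij)
    · intro x; obtain ⟨i, hi, hx⟩ := C.surj x; exact ⟨⟨i, by omega⟩, hx.symm⟩
  let E : Fin (p + 1) ≃ G ⧸ normalizer ((P : Subgroup G) : Set G) := Equiv.ofBijective _ hbij
  have hE : ∀ i, E i = pt i := fun i => rfl
  let f : G →* Equiv.Perm (Fin (p + 1)) := E.symm.permCongrHom.toMonoidHom.comp (toPermHom G (G ⧸ normalizer ((P : Subgroup G) : Set G)))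
  have hf : ∀ g i, pt ((f g i : Fin (p + 1)) : ℕ) = g • pt i := by
    intro g i
    rw [← hE, ← hE]
    change E (E.symm (g • E i)) = _
    rw [Equiv.apply_symm_apply]
  have hfv : ∀ g i k, k ≤ p → g • pt ((i : Fin (p + 1)) : ℕ) = pt k → ((f g i : Fin (p + 1)) : ℕ) = k := by
    intro g i k hk he
    rw [← hf] at he
    exact C.inj _ _ (by omega) hk he
  have hinj : Function.Injective f := by
    intro g g' hgg
    apply C.faithful Z
    intro i hi
    have h1 := hf g ⟨i, by omega⟩
    have h2 := hf g' ⟨i, by omega⟩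
    rw [hgg] at h1
    rw [← h1]; exact h2
  refine ⟨f, f u, f y, f t, hinj, ?_, ?_, ?_, ?_⟩
  · have htop : closure ({u, y, t} : Set G) = ⊤ := by
      set K := closure ({u, y, t} : Set G) with hK
      have huK : u ∈ K := subset_closure (by simp)
      have hyK : y ∈ K := subset_closure (by simp)
      have htK : t ∈ K := subset_closure (by simp)
      have s1 : ∀ g : G, g • pt p = pt p → g • pt 0 = pt 0 → g ∈ K := by
        intro g hg1 hg0
        obtain ⟨q, hq, hq1, hq2⟩ := C.stab Z hg1 hg0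
        rcases k4 q hq with h8 | h8
        · exact absurd hq1 h8
        · by_contra hgK
          apply h8
          intro m _ he
          apply hgK
          have : g = y ^ m := by
            apply C.faithful Z
            intro i hi
            by_cases hip : i = p
            · rw [hip, hg1, (hypow m).1]
            · rw [hq2 i (by omega), (hypow m).2 i (by omega), ← he, Nat.mod_mul_mod]
          rw [this]; exact pow_mem hyK m
      have s2 : ∀ g : G, g • pt p = pt p → g ∈ K := by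
        intro g hg1
        obtain ⟨j, hj, hj2⟩ := C.surj (g • pt 0)
        have hjp : j < p := by
          by_contra hc'
          have : j = p := by omega
          rw [this, ← hg1] at hj2
          have := C.inj _ _ (by omega) le_rfl (smul_left_cancel _ hj2)
          omega
        have h1 := s1 ((u ^ j)⁻¹ * g) (by
            rw [mul_smul, hg1, inv_smul_eq_iff, C.act j p le_rfl]; unfold xk; rw [if_pos rfl])
          (by
            rw [mul_smul, hj2, inv_smul_eq_iff, C.act j 0 (by omega)]; unfold xk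
            rw [if_neg (by omega), zero_add, Nat.mod_eq_of_lt hjp])
        have h2 := mul_mem (pow_mem huK j) h1
        rwa [mul_inv_cancel_left] at h2
      rw [eq_top_iff]
      intro g _
      obtain ⟨j, hj, hj2⟩ := C.surj (g • pt p)
      by_cases hjp : j = p
      · exact s2 g (by rw [hj2, hjp])
      · have h1 := s2 (t⁻¹ * ((u ^ j)⁻¹ * g)) (by
          rw [mul_smul, mul_smul, hj2, inv_smul_eq_iff, inv_smul_eq_iff, ht1, C.act j 0 (by omega)]; unfold xk
          rw [if_neg (by omega), zero_add, Nat.mod_eq_of_lt (by omega)])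
        have h2 := mul_mem (pow_mem huK j) (mul_mem htK h1)
        rwa [mul_inv_cancel_left, mul_inv_cancel_left] at h2
    rw [MonoidHom.range_eq_map, ← htop, MonoidHom.map_closure]
    congr 1
    simp only [Set.image_insert_eq, Set.image_singleton]
  · intro i
    apply hfv
    · unfold xk; split_ifs
      · exact le_rfl
      · exact (Nat.mod_lt _ hp0).le
    · have := C.act 1 (i : ℕ) (by omega)
      rwa [pow_one] at this
  · intro i
    apply hfv
    · split_ifs
      · exact le_rfl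
      · exact (Nat.mod_lt _ hp0).le
    · split_ifs with hi
      · rw [hi, hy1]
      · exact hy i (by omega)
  · intro i
    rw [← hfin.1, ← hfin.2.1, ← hfin.2.2, ← htab i (by omega)]
    exact hfv _ _ _ (hS i (by omega)).1 (hS i (by omega)).2

/-- two groups with the same parameters are isomorphic -/
theorem zas_unique (Z : Zas P h) {w v L : ℕ} {fl : Bool} {c0 a0 b0 : ℕ} (hchk : zchk p h w v L fl c0 a0 b0 = true)
    (hfl : fl = true → ∀ y ∈ normalizer ((P : Subgroup G) : Set G), y ≠ 1 → centralizer ({y} : Set G) ≤ normalizer ((P : Subgroup G) : Set G))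
    {G' : Type*} [Group G'] [Finite G'] [IsSimpleGroup G'] {P' : Sylow p G'} (Z' : Zas P' h)
    (hfl' : fl = true → ∀ y ∈ normalizer ((P' : Subgroup G') : Set G'), y ≠ 1 → centralizer ({y} : Set G') ≤ normalizer ((P' : Subgroup G') : Set G')) :
    Nonempty (G ≃* G') := by
  obtain ⟨f, X, Y, T, h1, h2, h3, h4, h5⟩ := zas_main Z hchk hfl
  obtain ⟨f', X', Y', T', h1', h2', h3', h4', h5'⟩ := zas_main Z' hchk hfl'
  have e1 : X = X' := by ext i; rw [h3, h3']
  have e2 : Y = Y' := by ext i; rw [h4, h4']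
  have e3 : T = T' := by ext i; rw [h5, h5']
  have e : f.range = f'.range := by rw [h2, h2', e1, e2, e3]
  exact ⟨(MonoidHom.ofInjective h1).trans ((MulEquiv.subgroupCongr e).trans (MonoidHom.ofInjective h1').symm)⟩

end

end CfsgLib.SmS
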