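import Cfsg.Agent.Lib.SmZ2
set_option autoImplicit false
set_option maxRecDepth 100000
namespace CfsgLib.SmS
open CfsgLib.Chev

theorem zc7 : zchk 7 3 2 3 0x3050401020000 true 4 3 1 = true := by decide +kernel
theorem zc11 : zchk 11 5 3 2 0x704090503060802010000 false 4 2 1 = true := by decide +kernel
theorem zc13 : zchk 13 6 4 2 0x6070a08030b05090204010000 false 10 1 7 = true := by decide +kernel
theorem zc17 : zchk 17 8 2 3 0x80a090c050b0f0e0607030d0401020000 false 9 1 6 = true := by decide +kernel
theorem zc19 : zchk 19 9 4 2 0x90a040b07050f0c110803060e10020d010000 false 5 2 1 = true := by decide +kernel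
theorem zc23 : zchk 23 11 2 5 0xb0d050f0c070811150e1409030a061312010410020000 false 12 5 1 = true := by decide +kernel

end CfsgLib.SmS
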