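import Cfsg.Agent.Lib.SmZ3
import Cfsg.Agent.Lib.SL2
set_option autoImplicit false
set_option linter.style.haveILetI false

namespace CfsgLib.SmS
open Subgroup MulAction CfsgLib.NPC CfsgLib.Chev

theorem nonab_of_card {G : Type*} [Group G] [Finite G] [IsSimpleGroup G] {N : ℕ} (hN : ¬ N.Prime) (h : Nat.card G = N) : ¬ IsMulCommutative G :=
  nonab (by rw [h]; exact hN)

theorem zas_of_order {G : Type*} [Group G] [Finite G] [IsSimpleGroup G] {p h N : ℕ} [hp : Fact p.Prime] (h2 : 2 * h + 1 = p) (hh : 0 < h)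
    (hN : N = p * (p + 1) * h) (hcard : Nat.card G = N) (hnp : ¬ N.Prime)
    (hk : ∀ n ∈ Nat.divisors N, n % p = 1 → n ≠ 1 → n = p + 1) (P : Sylow p G) : Zas P h := by
  have hG := nonab_of_card hnp hcard
  obtain ⟨a1, a2, a3, _⟩ := syl hG (by rw [hcard, hN, mul_assoc]; exact dvd_mul_right _ _) P
  refine zas_of_card P h2 hh (hcard.trans hN) (hk _ ?_ a1 a3)
  rw [Nat.mem_divisors, ← hcard]
  exact ⟨⟨_, a2.symm⟩, Nat.card_pos.ne'⟩

theorem psl_card {F : Type*} [Field F] [Fintype F] {p h : ℕ} [hp : Fact p.Prime] (h2 : 2 * h + 1 = p) (hF : Fintype.card F = p) :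
    Nat.card (Matrix.ProjectiveSpecialLinearGroup (Fin 2) F) = p * (p + 1) * h := by
  have h1 := CfsgLib.SL2.gcd_mul_card_PSL2 (F := F)
  rw [hF] at h1
  have h3 : Nat.gcd 2 (p - 1) = 2 := by
    have : p - 1 = 2 * h := by omega
    rw [this]; exact Nat.gcd_mul_right_right_of_gcd_eq_one_aux h
  rw [h3] at h1
  have h4 : p - 1 = 2 * h := by omega
  rw [h4] at h1
  have : 2 * Nat.card (Matrix.ProjectiveSpecialLinearGroup (Fin 2) F) = 2 * (p * (p + 1) * h) := by rw [h1]; ring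
  omega
where
  Nat.gcd_mul_right_right_of_gcd_eq_one_aux (h : ℕ) : Nat.gcd 2 (2 * h) = 2 := by
    rw [Nat.gcd_eq_left (dvd_mul_right 2 h)]

theorem psl_iso {G : Type*} [Group G] [Finite G] [IsSimpleGroup G] {p h N : ℕ} [hp : Fact p.Prime] (h2 : 2 * h + 1 = p) (hh : 1 < h)
    (hN : N = p * (p + 1) * h) (hcard : Nat.card G = N) (hnp : ¬ N.Prime)
    (hk : ∀ n ∈ Nat.divisors N, n % p = 1 → n ≠ 1 → n = p + 1) {w v L c0 a0 b0 : ℕ} (hchk : zchk p h w v L false c0 a0 b0 = true)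
    {F : Type*} [Field F] [Fintype F] (hF : Fintype.card F = p) : Nonempty (G ≃* Matrix.ProjectiveSpecialLinearGroup (Fin 2) F) := by
  haveI : IsSimpleGroup (Matrix.ProjectiveSpecialLinearGroup (Fin 2) F) :=
    Matrix.ProjectiveSpecialLinearGroup.rank_two_simple (by rw [Nat.card_eq_fintype_card, hF]; omega)
  obtain ⟨P⟩ : Nonempty (Sylow p G) := inferInstance
  obtain ⟨P'⟩ : Nonempty (Sylow p (Matrix.ProjectiveSpecialLinearGroup (Fin 2) F)) := inferInstance
  exact zas_unique (zas_of_order h2 (by omega) hN hcard hnp hk P) hchk (fun h => absurd h (by decide))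
    (zas_of_order h2 (by omega) hN ((psl_card h2 hF).trans hN.symm) hnp hk P') (fun h => absurd h (by decide))

end CfsgLib.SmS
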