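import Mathlib
import Cfsg.Agent.Lib.SolvStr
import Cfsg.Agent.Lib.Transfer2
import Cfsg.Agent.Lib.CharBasic3
import Cfsg.Prelude.Def_SolvableStructure

/-!
# Solvable structure II
-/

set_option autoImplicit false
set_option linter.style.haveILetI false
set_option linter.unnecessarySimpa false

namespace CfsgLib.SolvStr2

open scoped Pointwise commutatorElement
open CfsgLib.Coprime CfsgLib.SolvStr

universe u v

variable {G : Type u} [Group G]

section Primitive

variable [Finite G] {Ω : Type v} [MulAction G Ω] [FaithfulSMul G Ω]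

theorem minimal_normal_abelian (hs : Group.IsSolvable G) (M : Subgroup G) [M.Normal] (hM : M ≠ ⊥)
    (hmin : ∀ K : Subgroup G, K.Normal → K ≤ M → K = ⊥ ∨ K = M) : IsMulCommutative M ∧ ∃ p d : ℕ, p.Prime ∧ 0 < d ∧ Nat.card M = p ^ d := by
  haveI := hs
  obtain ⟨M', hM'n, hM'M, hM'b, -, hM'c, p, hp, hM'p⟩ := CfsgLib.SZ.exists_minimal_normal_le M inferInstance hM
  have hMM : M' = M := (hmin M' hM'n hM'M).resolve_left hM'b
  subst hMM
  refine ⟨hM'c, p, ?_⟩
  haveI : Fact p.Prime := ⟨hp⟩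
  have hMp : IsPGroup p M' := fun x => ⟨1, by rw [pow_one]; exact Subtype.ext (hM'p x x.2)⟩
  obtain ⟨d, hd⟩ := IsPGroup.iff_card.mp hMp
  refine ⟨d, hp, Nat.pos_of_ne_zero ?_, hd⟩
  rintro rfl
  rw [pow_zero, Subgroup.card_eq_one] at hd
  exact hM hd

theorem minimal_transitive (hprim : MulAction.IsPreprimitive G Ω) (M : Subgroup G) [M.Normal] (hM : M ≠ ⊥) : MulAction.IsPretransitive M Ω := by
  apply MulAction.IsQuasiPreprimitive.isPretransitive_of_normal (G := G) (X := Ω)
  intro h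
  apply hM
  rw [eq_bot_iff]
  intro m hm
  rw [Subgroup.mem_bot]
  apply FaithfulSMul.eq_of_smul_eq_smul (α := Ω)
  intro ω
  have : ω ∈ MulAction.fixedPoints M Ω := by rw [h]; trivial
  rw [one_smul]
  exact this ⟨m, hm⟩

theorem stabilizer_bot (M : Subgroup G) (hMc : IsMulCommutative M) (ht : MulAction.IsPretransitive M Ω) (ω : Ω) :
    MulAction.stabilizer M ω = ⊥ := by
  rw [eq_bot_iff]
  intro m hm
  rw [MulAction.mem_stabilizer_iff] at hm
  rw [Subgroup.mem_bot]
  apply Subtype.ext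
  apply FaithfulSMul.eq_of_smul_eq_smul (α := Ω)
  intro x
  obtain ⟨n, rfl⟩ := MulAction.exists_smul_eq M ω x
  have h1 : m * n = n * m := hMc.is_comm.comm m n
  have h2 : m • n • ω = n • ω := by rw [smul_smul, h1, mul_smul, hm]
  rw [OneMemClass.coe_one, one_smul]
  exact h2

/-- S0547 -/
theorem primitive_solvable (hs : Group.IsSolvable G) [Nonempty Ω] (hprim : MulAction.IsPreprimitive G Ω) (M : Subgroup G) [M.Normal] (hM : M ≠ ⊥)
    (hmin : ∀ K : Subgroup G, K.Normal → K ≤ M → K = ⊥ ∨ K = M) : MulAction.IsPretransitive M Ω ∧ (∀ ω : Ω, MulAction.stabilizer M ω = ⊥) ∧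
      ∃ p d : ℕ, p.Prime ∧ 0 < d ∧ Nat.card Ω = p ^ d ∧ Nat.card M = p ^ d := by
  obtain ⟨hMc, p, d, hp, hd, hcard⟩ := minimal_normal_abelian hs M hM hmin
  have ht := minimal_transitive hprim M hM
  have hst := stabilizer_bot M hMc ht
  refine ⟨ht, hst, p, d, hp, hd, ?_, hcard⟩
  obtain ⟨ω⟩ := (inferInstance : Nonempty Ω)
  rw [← hcard]
  have h1 := MulAction.index_stabilizer_of_transitive M ω
  rw [hst, Subgroup.index_bot] at h1
  exact h1.symm

/-- S0548 -/
theorem primitive_solvable' (hs : Group.IsSolvable G) (hprim : MulAction.IsPreprimitive G Ω) (M : Subgroup G) [M.Normal] (hM : M ≠ ⊥)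
    (hmin : ∀ K : Subgroup G, K.Normal → K ≤ M → K = ⊥ ∨ K = M) (ω : Ω) : Subgroup.IsComplement' M (MulAction.stabilizer G ω) ∧
      MulAction.stabilizer G ω ⊓ Subgroup.centralizer (M : Set G) = ⊥ ∧
      ∀ K : Subgroup G, K ≤ M → MulAction.stabilizer G ω ≤ Subgroup.normalizer (K : Set G) → K = ⊥ ∨ K = M := by
  obtain ⟨hMc, p, d, hp, hd, hcard⟩ := minimal_normal_abelian hs M hM hmin
  have ht := minimal_transitive hprim M hM
  have hst := stabilizer_bot M hMc ht
  have hsup : M ⊔ MulAction.stabilizer G ω = ⊤ := by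
    rw [eq_top_iff]
    intro g _
    obtain ⟨m, hm⟩ := MulAction.exists_smul_eq M ω (g • ω)
    have h1 : (m : G)⁻¹ * g ∈ MulAction.stabilizer G ω := by
      rw [MulAction.mem_stabilizer_iff, mul_smul, ← hm]
      change (m : G)⁻¹ • (m : G) • ω = ω
      rw [inv_smul_smul]
    have h2 := Subgroup.mul_mem_sup m.2 h1
    simpa using h2
  refine ⟨Subgroup.isComplement'_of_disjoint_and_mul_eq_univ ?_ ?_, ?_, ?_⟩
  · rw [disjoint_iff, eq_bot_iff]
    rintro m ⟨hm, hm2⟩
    have : (⟨m, hm⟩ : M) ∈ MulAction.stabilizer M ω := hm2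
    rw [hst ω, Subgroup.mem_bot] at this
    exact congrArg Subtype.val this
  · rw [← Subgroup.normal_mul, hsup]; rfl
  · rw [eq_bot_iff]
    rintro h ⟨hh, hc⟩
    rw [Subgroup.mem_bot]
    apply FaithfulSMul.eq_of_smul_eq_smul (α := Ω)
    intro x
    obtain ⟨m, rfl⟩ := MulAction.exists_smul_eq M ω x
    have h1 : (m : G) * h = h * m := Subgroup.mem_centralizer_iff.mp hc m m.2
    have hh : h • ω = ω := hh
    change h • (m : G) • ω = (1 : G) • (m : G) • ω
    rw [smul_smul, ← h1, mul_smul, hh, one_smul]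
  · intro K hKM hK
    apply hmin K _ hKM
    rw [← Subgroup.normalizer_eq_top_iff, eq_top_iff, ← hsup]
    apply sup_le _ hK
    intro m hm
    rw [Subgroup.mem_normalizer_iff]
    intro k
    have key : ∀ m ∈ M, ∀ k ∈ K, m * k * m⁻¹ = k := by
      intro m hm k hk
      have : m * k = k * m := congrArg Subtype.val (hMc.is_comm.comm (⟨m, hm⟩ : M) ⟨k, hKM hk⟩)
      rw [this]; group
    constructor
    · intro hk
      rw [key m hm k hk]; exact hk
    · intro hk
      have := key _ (inv_mem hm) _ hk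
      have e : m⁻¹ * (m * k * m⁻¹) * m⁻¹⁻¹ = k := by group
      rw [e] at this
      rw [this]; exact hk

end Primitive


theorem equiv_of_sup_eq {X Y N : Subgroup G} [N.Normal] (hX : X ⊓ N = ⊥) (hY : Y ⊓ N = ⊥) (h : X ⊔ N = Y ⊔ N) : Nonempty (X ≃* Y) := by
  have key : ∀ Z : Subgroup G, Z ⊓ N = ⊥ → Function.Bijective ((QuotientGroup.mk' N).subgroupMap Z) := by
    intro Z hZ
    refine ⟨?_, (QuotientGroup.mk' N).subgroupMap_surjective Z⟩
    rw [injective_iff_map_eq_one]
    intro z hz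
    have h1 : QuotientGroup.mk' N (z : G) = 1 := congrArg Subtype.val hz
    have h2 : (z : G) ∈ Z ⊓ N := ⟨z.2, (QuotientGroup.eq_one_iff (z : G)).mp h1⟩
    rw [hZ, Subgroup.mem_bot] at h2
    exact Subtype.ext h2
  have h2 : ∀ Z : Subgroup G, (Z ⊔ N).map (QuotientGroup.mk' N) = Z.map (QuotientGroup.mk' N) := by
    intro Z
    rw [Subgroup.map_sup, QuotientGroup.map_mk'_self, sup_bot_eq]
  have h3 : X.map (QuotientGroup.mk' N) = Y.map (QuotientGroup.mk' N) := by rw [← h2, h, h2]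
  exact ⟨(MulEquiv.ofBijective _ (key X hX)).trans ((MulEquiv.subgroupCongr h3).trans (MulEquiv.ofBijective _ (key Y hY)).symm)⟩

theorem core_free_sup (U : Subgroup G) (hU : IsCoatom U) (hcore : U.normalCore = ⊥) (K : Subgroup G) (hK : K.Normal) (hK1 : K ≠ ⊥) :
    K ⊔ U = ⊤ := by
  rcases hU.le_iff.mp (le_sup_right : U ≤ K ⊔ U) with h | h
  · exact h
  · exfalso
    apply hK1
    have h1 : K ≤ U := by rw [← h]; exact le_sup_left
    have := (Subgroup.normal_le_normalCore (H := U) (N := K)).mpr h1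
    rwa [hcore, le_bot_iff] at this

theorem isComplement'_of {A U : Subgroup G} [A.Normal] (h1 : A ⊓ U = ⊥) (h2 : A ⊔ U = ⊤) : Subgroup.IsComplement' A U := by
  apply Subgroup.isComplement'_of_disjoint_and_mul_eq_univ (disjoint_iff.mpr h1)
  rw [← Subgroup.normal_mul, h2]; rfl

/-- S0550 -/
theorem two_minimal (U : Subgroup G) (hU : IsCoatom U) (hcore : U.normalCore = ⊥) (A B : Subgroup G) [hAn : A.Normal] [hBn : B.Normal]
    (hA : A ≠ ⊥) (hB : B ≠ ⊥) (hAmin : ∀ K : Subgroup G, K.Normal → K ≤ A → K = ⊥ ∨ K = A)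
    (hBmin : ∀ K : Subgroup G, K.Normal → K ≤ B → K = ⊥ ∨ K = B) (hAB : A ≠ B) :
    Subgroup.centralizer (B : Set G) = A ∧ Subgroup.centralizer (A : Set G) = B ∧ Subgroup.IsComplement' A U ∧
      Subgroup.IsComplement' B U ∧ ¬ IsMulCommutative A ∧ Nonempty (A ≃* B) ∧ Nonempty (A ≃* ↥((A ⊔ B) ⊓ U)) := by
  have hinf : A ⊓ B = ⊥ := by
    rcases hAmin (A ⊓ B) inferInstance inf_le_left with h | h
    · exact h
    · exfalso
      have hle : A ≤ B := by rw [← h]; exact inf_le_right
      rcases hBmin A hAn hle with h2 | h2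
      · exact hA h2
      · exact hAB h2
  have hcommAB : ⁅A, B⁆ = ⊥ := by
    rw [eq_bot_iff, ← hinf]
    exact le_inf (Subgroup.commutator_le_left _ _) (Subgroup.commutator_le_right _ _)
  have hAC : A ≤ Subgroup.centralizer (B : Set G) := (Subgroup.commutator_eq_bot_iff_le_centralizer).mp hcommAB
  have hBC : B ≤ Subgroup.centralizer (A : Set G) := by
    rw [Subgroup.commutator_comm] at hcommAB
    exact (Subgroup.commutator_eq_bot_iff_le_centralizer).mp hcommAB
  obtain ⟨hCB, hCBmin⟩ := CfsgLib.SolvStr.core_free U hU hcore B hB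
  obtain ⟨hCA, hCAmin⟩ := CfsgLib.SolvStr.core_free U hU hcore A hA
  have hA2 : Subgroup.centralizer (B : Set G) = A := by
    rcases hCBmin with h | ⟨-, h⟩
    · exfalso
      rw [h, le_bot_iff] at hAC
      exact hA hAC
    · exact ((h A hAn hAC).resolve_left hA).symm
  have hB2 : Subgroup.centralizer (A : Set G) = B := by
    rcases hCAmin with h | ⟨-, h⟩
    · exfalso
      rw [h, le_bot_iff] at hBC
      exact hB hBC
    · exact ((h B hBn hBC).resolve_left hB).symm
  have hAU : A ⊓ U = ⊥ := by rw [← hA2]; exact hCB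
  have hBU : B ⊓ U = ⊥ := by rw [← hB2]; exact hCA
  have hAU2 := core_free_sup U hU hcore A hAn hA
  have hBU2 := core_free_sup U hU hcore B hBn hB
  -- Dedekind
  have hded : ∀ X : Subgroup G, X.Normal → X ≤ A ⊔ B → X ⊔ U = ⊤ → ((A ⊔ B) ⊓ U) ⊔ X = A ⊔ B := by
    intro X hX hXle hXU
    apply le_antisymm (sup_le inf_le_left hXle)
    intro g hg
    haveI := hX
    obtain ⟨x, hx, u, hu, rfl⟩ := Subgroup.mem_sup_of_normal_left.mp (by rw [hXU]; trivial : g ∈ X ⊔ U)
    have hu2 : u ∈ A ⊔ B := by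
      have := mul_mem (inv_mem (hXle hx)) hg
      simpa using this
    exact mul_mem (Subgroup.mem_sup_right hx) (Subgroup.mem_sup_left ⟨hu2, hu⟩)
  obtain ⟨e1⟩ : Nonempty (A ≃* ↥((A ⊔ B) ⊓ U)) := by
    apply equiv_of_sup_eq (N := B) hinf
    · rw [eq_bot_iff, ← hBU]
      exact le_inf inf_le_right (inf_le_left.trans inf_le_right)
    · rw [hded B hBn le_sup_right hBU2]
  obtain ⟨e2⟩ : Nonempty (B ≃* ↥((A ⊔ B) ⊓ U)) := by
    apply equiv_of_sup_eq (N := A) (by rw [inf_comm]; exact hinf)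
    · rw [eq_bot_iff, ← hAU]
      exact le_inf inf_le_right (inf_le_left.trans inf_le_right)
    · rw [hded A hAn le_sup_left hAU2, sup_comm]
  refine ⟨hA2, hB2, isComplement'_of hAU hAU2, isComplement'_of hBU hBU2, ?_, ⟨e1.trans e2.symm⟩, ⟨e1⟩⟩
  intro hc
  apply hA
  rw [eq_bot_iff, ← hinf]
  refine le_inf le_rfl ?_
  rw [← hB2]
  intro a ha
  rw [Subgroup.mem_centralizer_iff]
  intro b hb
  exact congrArg Subtype.val (hc.is_comm.comm (⟨b, hb⟩ : A) ⟨a, ha⟩)

/-- S0586 -/
theorem fitting_eq_socle [Finite G] (hΦ : frattini G = ⊥) : Cfsg.fittingSubgroup G = sSup {N : Subgroup G | N.Normal ∧ N ≠ ⊥ ∧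
    IsMulCommutative N ∧ ∀ K : Subgroup G, K.Normal → K ≤ N → K = ⊥ ∨ K = N} := by
  classical
  set F := Cfsg.fittingSubgroup G with hF
  haveI hFn : F.Normal := CfsgLib.Core.fitting_normal G
  have hFnil : Group.IsNilpotent F := CfsgLib.Core.fitting_nilpotent G
  set S := sSup {N : Subgroup G | N.Normal ∧ N ≠ ⊥ ∧ IsMulCommutative N ∧ ∀ K : Subgroup G, K.Normal → K ≤ N → K = ⊥ ∨ K = N} with hS
  have hFc : IsMulCommutative F := by
    have h1 : commutator F ≤ frattini F := CfsgLib.Frattini.commutator_le_frattini_of_nilpotent hFnil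
    have h2 : (commutator F).map F.subtype ≤ ⊥ := by
      rw [← hΦ]
      exact (Subgroup.map_mono h1).trans (CfsgLib.SolvStr.frattini_normal_le F)
    rw [le_bot_iff, Subgroup.map_eq_bot_iff_of_injective _ F.subtype_injective] at h2
    refine ⟨⟨fun a b => ?_⟩⟩
    rw [← commutatorElement_eq_one_iff_mul_comm, ← Subgroup.mem_bot, ← h2]
    exact Subgroup.commutator_mem_commutator (Subgroup.mem_top _) (Subgroup.mem_top _)
  have hSF : S ≤ F := by
    rw [hS]
    apply sSup_le
    rintro N ⟨hN, -, hNc, -⟩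
    apply CfsgLib.Core.le_fitting hN
    letI : CommGroup N := { (inferInstance : Group N) with mul_comm := hNc.is_comm.comm }
    infer_instance
  haveI hSn : S.Normal := by
    rw [hS]
    exact Subgroup.sSup_normal _ (fun N hN => hN.1)
  haveI hSc : IsMulCommutative S := by
    refine ⟨⟨fun a b => Subtype.ext ?_⟩⟩
    change (a : G) * b = b * a
    exact congrArg Subtype.val (hFc.is_comm.comm (⟨a, hSF a.2⟩ : F) ⟨b, hSF b.2⟩)
  obtain ⟨H, hH⟩ := CfsgLib.SolvStr.complement_of_frattini_bot hΦ S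
  apply le_antisymm _ hSF
  have hFH : F ⊓ H = ⊥ := by
    by_contra hne
    have hn : (F ⊓ H).Normal := by
      refine ⟨fun x hx g => ?_⟩
      obtain ⟨s, hs, h, hh, rfl⟩ := Subgroup.mem_sup_of_normal_left.mp (by rw [hH.sup_eq_top]; trivial : g ∈ S ⊔ H)
      have h1 : h * x * h⁻¹ ∈ F ⊓ H := ⟨hFn.conj_mem x hx.1 h, H.mul_mem (H.mul_mem hh hx.2) (H.inv_mem hh)⟩
      have h2 : s * h * x * (s * h)⁻¹ = h * x * h⁻¹ := by
        have h3 : s * (h * x * h⁻¹) = (h * x * h⁻¹) * s := congrArg Subtype.val (hFc.is_comm.comm (⟨s, hSF hs⟩ : F) ⟨_, h1.1⟩)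
        have : s * h * x * (s * h)⁻¹ = (s * (h * x * h⁻¹)) * s⁻¹ := by group
        rw [this, h3]; group
      rw [h2]; exact h1
    haveI := hn
    have hsol : Group.IsSolvable (F ⊓ H : Subgroup G) := by
      haveI : Group.IsSolvable F := inferInstance
      exact CfsgLib.SZ.isSolvable_of_le inf_le_left this
    obtain ⟨M, hMn, hMle, hMb, hMmin, hMc, -⟩ := CfsgLib.SZ.exists_minimal_normal_le (F ⊓ H) hsol hne
    apply hMb
    have h1 : M ≤ S := by
      rw [hS]
      exact le_sSup ⟨hMn, hMb, hMc, hMmin⟩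
    rw [eq_bot_iff, ← hH.disjoint.eq_bot]
    exact le_inf h1 (hMle.trans inf_le_right)
  intro f hf
  obtain ⟨s, hs, h, hh, rfl⟩ := Subgroup.mem_sup_of_normal_left.mp (by rw [hH.sup_eq_top]; trivial : f ∈ S ⊔ H)
  have h1 : h ∈ F ⊓ H := by
    refine ⟨?_, hh⟩
    have := mul_mem (inv_mem (hSF hs)) hf
    simpa using this
  rw [hFH, Subgroup.mem_bot] at h1
  rw [h1, mul_one]; exact hs


theorem le_centralizer_of_comm {A : Subgroup G} (h : IsMulCommutative A) : A ≤ Subgroup.centralizer (A : Set G) := by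
  intro a ha
  rw [Subgroup.mem_centralizer_iff]
  intro b hb
  exact congrArg Subtype.val (h.is_comm.comm (⟨b, hb⟩ : A) ⟨a, ha⟩)

/-- S0551 -/
theorem core_free_conj [Finite G] (hs : Group.IsSolvable G) (U V : Subgroup G) (hU : IsCoatom U) (hV : IsCoatom V) (hUc : U.normalCore = ⊥)
    (hVc : V.normalCore = ⊥) : ∃ g : G, MulAut.conj g • U = V := by
  classical
  haveI := hs
  haveI : Nontrivial G := by
    by_contra h
    rw [not_nontrivial_iff_subsingleton] at h
    exact hU.1 (Subsingleton.elim _ _)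
  obtain ⟨N, hNn, -, hNb, hNmin, hNc, p, hp, hNp⟩ := CfsgLib.SZ.exists_minimal_normal_le (⊤ : Subgroup G) inferInstance top_ne_bot
  haveI := hNn
  haveI : Fact p.Prime := ⟨hp⟩
  obtain ⟨h1, h2⟩ := CfsgLib.SolvStr.core_free U hU hUc N hNb
  obtain ⟨h1', -⟩ := CfsgLib.SolvStr.core_free V hV hVc N hNb
  have hNC : N ≤ Subgroup.centralizer (N : Set G) := le_centralizer_of_comm hNc
  have hCN : Subgroup.centralizer (N : Set G) = N := by
    rcases h2 with h | ⟨-, h⟩
    · exfalso
      rw [h, le_bot_iff] at hNC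
      exact hNb hNC
    · exact ((h N hNn hNC).resolve_left hNb).symm
  rw [hCN] at h1 h1'
  have hNU := core_free_sup U hU hUc N hNn hNb
  have hNV := core_free_sup V hV hVc N hNn hNb
  by_cases hNt : N = ⊤
  · rw [hNt, top_inf_eq] at h1 h1'
    exact ⟨1, by rw [h1, h1']; simp⟩
  have hnt : Nontrivial (G ⧸ N) := by
    rw [← Finite.one_lt_card_iff_nontrivial]
    have h3 : Nat.card (G ⧸ N) = N.index := rfl
    rw [h3]
    have h4 : N.index ≠ 1 := fun h => hNt (Subgroup.index_eq_one.mp h)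
    have h5 : N.index ≠ 0 := Subgroup.index_ne_zero_of_finite
    omega
  obtain ⟨M', hM'n, -, hM'b, hM'min, -, q, hq, hM'q⟩ := CfsgLib.SZ.exists_minimal_normal_le (⊤ : Subgroup (G ⧸ N)) inferInstance top_ne_bot
  haveI := hM'n
  haveI : Fact q.Prime := ⟨hq⟩
  set M := M'.comap (QuotientGroup.mk' N) with hM
  haveI hMn : M.Normal := inferInstance
  have hNM : N ≤ M := by
    intro x hx
    rw [hM, Subgroup.mem_comap]
    have : QuotientGroup.mk' N x = 1 := (QuotientGroup.eq_one_iff x).mpr hx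
    rw [this]; exact one_mem _
  have hMN : M ≠ N := by
    intro h
    apply hM'b
    have h3 : M.map (QuotientGroup.mk' N) = M' := Subgroup.map_comap_eq_self_of_surjective (QuotientGroup.mk'_surjective N) _
    rw [← h3, h, QuotientGroup.map_mk'_self]
  have hMq : ∀ x ∈ M, x ^ q ∈ N := by
    intro x hx
    rw [hM, Subgroup.mem_comap] at hx
    have h3 := hM'q _ hx
    rw [← map_pow] at h3
    exact (QuotientGroup.eq_one_iff _).mp h3
  -- q ≠ p
  have hpq : q ≠ p := by
    rintro rfl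
    have hMp : IsPGroup q M := by
      intro x
      refine ⟨2, ?_⟩
      apply Subtype.ext
      have h3 := hNp _ (hMq x x.2)
      change (x : G) ^ q ^ 2 = 1
      rw [pow_two, pow_mul]; exact h3
    -- N ≤ C(M)
    have h3 : ⁅N, M⁆ < N := by
      have := commutator_lt_of_isPGroup (p := q) (U := N) (P := M) (fun x => ⟨1, by
        rw [pow_one]; exact Subtype.ext (hNp x x.2)⟩) hMp (by rw [Subgroup.normalizer_eq_top]; exact le_top) hNb
      exact this
    have h4 : ⁅N, M⁆ = ⊥ := (hNmin _ inferInstance h3.le).resolve_right h3.ne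
    have h5 : M ≤ Subgroup.centralizer (N : Set G) := by
      rw [Subgroup.commutator_comm] at h4
      exact (Subgroup.commutator_eq_bot_iff_le_centralizer).mp h4
    rw [hCN] at h5
    exact hMN (le_antisymm h5 hNM)
  -- Q = M ⊓ U is a Sylow q-subgroup of M
  have key : ∀ W : Subgroup G, IsCoatom W → W.normalCore = ⊥ → N ⊔ W = ⊤ → N ⊓ W = ⊥ →
      IsSyl q (M ⊓ W) M ∧ Subgroup.normalizer ((M ⊓ W : Subgroup G) : Set G) = W := by
    intro W hW hWc hNW hNW2
    have hp1 : IsPGroup q (M ⊓ W : Subgroup G) := by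
      intro x
      refine ⟨1, ?_⟩
      rw [pow_one]
      have h3 : (x : G) ^ q ∈ N ⊓ W := ⟨hMq x x.2.1, W.pow_mem x.2.2 q⟩
      rw [hNW2, Subgroup.mem_bot] at h3
      exact Subtype.ext h3
    have hMeq : N ⊔ (M ⊓ W) = M := by
      apply le_antisymm (sup_le hNM inf_le_left)
      intro x hx
      obtain ⟨n, hn, w, hw, rfl⟩ := Subgroup.mem_sup_of_normal_left.mp (by rw [hNW]; trivial : x ∈ N ⊔ W)
      have : w ∈ M := by
        have := mul_mem (inv_mem (hNM hn)) hx
        simpa using this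
      exact Subgroup.mul_mem_sup hn ⟨this, hw⟩
    have hdisj : N ⊓ (M ⊓ W) = ⊥ := by
      rw [eq_bot_iff, ← hNW2]
      exact le_inf inf_le_left (inf_le_right.trans inf_le_right)
    have hcard : Nat.card M = Nat.card N * Nat.card (M ⊓ W : Subgroup G) := by
      have h3 := CfsgLib.CD.card_mul_card N (M ⊓ W)
      rw [hdisj, Subgroup.card_bot, mul_one] at h3
      rw [h3, ← Subgroup.normal_mul, hMeq]; rfl
    constructor
    · refine ⟨inf_le_left, ?_⟩
      obtain ⟨k, hk⟩ := IsPGroup.iff_card.mp hp1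
      obtain ⟨l, hl⟩ := IsPGroup.iff_card.mp (fun x => ⟨1, by rw [pow_one]; exact Subtype.ext (hNp x x.2)⟩ : IsPGroup p N)
      rw [hcard, hk, hl, Nat.factorization_mul (pow_pos hp.pos _).ne' (pow_pos hq.pos _).ne', Finsupp.add_apply,
        hp.factorization_pow, hq.factorization_pow, Finsupp.single_eq_same, Finsupp.single_apply, if_neg (Ne.symm hpq), zero_add]
    · have hle : W ≤ Subgroup.normalizer ((M ⊓ W : Subgroup G) : Set G) := by
        intro w hw
        rw [SolvStr.mem_normalizer_iff_conj, Subgroup.smul_inf, Subgroup.Normal.conj_smul_eq_self w M,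
          Subgroup.conj_smul_eq_self_of_mem hw]
      rcases hW.le_iff.mp hle with h | h
      · exfalso
        rw [Subgroup.normalizer_eq_top_iff] at h
        have h3 := (Subgroup.normal_le_normalCore (H := W) (N := M ⊓ W)).mpr inf_le_right
        rw [hWc, le_bot_iff] at h3
        rw [h3, sup_bot_eq] at hMeq
        exact hMN hMeq.symm
      · exact h
  obtain ⟨k1, k2⟩ := key U hU hUc hNU h1
  obtain ⟨k3, k4⟩ := key V hV hVc hNV h1'
  obtain ⟨g, -, hg⟩ := k1.exists_conj k3
  refine ⟨g, ?_⟩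
  rw [← k2, ← k4, ← hg]
  exact CfsgLib.Subnormal.normalizer_conj _ _


/-- permutable subgroups: the product set is a subgroup if every `c a` can be rewritten -/
theorem exists_subgroup_of_permute {A C : Subgroup G} (h : ∀ a ∈ A, ∀ c ∈ C, ∃ a' ∈ A, ∃ c' ∈ C, c * a = a' * c') :
    ∃ S : Subgroup G, (S : Set G) = (A : Set G) * (C : Set G) := by
  refine ⟨{ carrier := (A : Set G) * (C : Set G), mul_mem' := ?_, one_mem' := ⟨1, A.one_mem, 1, C.one_mem, by simp⟩, inv_mem' := ?_ }, rfl⟩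
  · rintro _ _ ⟨a, ha, c, hc, rfl⟩ ⟨b, hb, d, hd, rfl⟩
    obtain ⟨b', hb', c', hc', hbc⟩ := h b hb c hc
    refine ⟨a * b', A.mul_mem ha hb', c' * d, C.mul_mem hc' hd, ?_⟩
    change a * b' * (c' * d) = a * c * (b * d)
    calc a * b' * (c' * d) = a * (b' * c') * d := by group
      _ = a * (c * b) * d := by rw [hbc]
      _ = _ := by group
  · rintro _ ⟨a, ha, c, hc, rfl⟩
    obtain ⟨a', ha', c', hc', hac⟩ := h a⁻¹ (A.inv_mem ha) c⁻¹ (C.inv_mem hc)
    refine ⟨a', ha', c', hc', ?_⟩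
    change a' * c' = (a * c)⁻¹
    rw [← hac, mul_inv_rev]

theorem permute_of_exists {A C : Subgroup G} {S : Subgroup G} (h : (S : Set G) = (A : Set G) * (C : Set G)) :
    ∀ a ∈ A, ∀ c ∈ C, ∃ a' ∈ A, ∃ c' ∈ C, c * a = a' * c' := by
  intro a ha c hc
  have h1 : a ∈ S := by
    have : a ∈ (S : Set G) := by rw [h]; exact ⟨a, ha, 1, C.one_mem, by simp⟩
    exact this
  have h2 : c ∈ S := by
    have : c ∈ (S : Set G) := by rw [h]; exact ⟨1, A.one_mem, c, hc, by simp⟩
    exact this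
  have h3 : c * a ∈ (S : Set G) := S.mul_mem h2 h1
  rw [h] at h3
  obtain ⟨a', ha', c', hc', hac⟩ := h3
  exact ⟨a', ha', c', hc', hac.symm⟩

theorem permute_sup {A A' C : Subgroup G} (h : ∀ a ∈ A, ∀ c ∈ C, ∃ a' ∈ A, ∃ c' ∈ C, c * a = a' * c')
    (h' : ∀ a ∈ A', ∀ c ∈ C, ∃ a' ∈ A', ∃ c' ∈ C, c * a = a' * c') :
    ∀ a ∈ A ⊔ A', ∀ c ∈ C, ∃ a' ∈ A ⊔ A', ∃ c' ∈ C, c * a = a' * c' := by
  have key : ∀ a ∈ A ⊔ A', (∀ c ∈ C, ∃ a' ∈ A ⊔ A', ∃ c' ∈ C, c * a = a' * c') ∧ (∀ c ∈ C, ∃ a' ∈ A ⊔ A', ∃ c' ∈ C, c * a⁻¹ = a' * c') := by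
    intro a ha
    rw [Subgroup.sup_eq_closure] at ha
    induction ha using Subgroup.closure_induction with
    | mem x hx =>
      rcases hx with hx | hx
      · constructor
        · intro c hc
          obtain ⟨a', ha', c', hc', e⟩ := h x hx c hc
          exact ⟨a', Subgroup.mem_sup_left ha', c', hc', e⟩
        · intro c hc
          obtain ⟨a', ha', c', hc', e⟩ := h x⁻¹ (A.inv_mem hx) c hc
          exact ⟨a', Subgroup.mem_sup_left ha', c', hc', e⟩
      · constructor
        · intro c hc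
          obtain ⟨a', ha', c', hc', e⟩ := h' x hx c hc
          exact ⟨a', Subgroup.mem_sup_right ha', c', hc', e⟩
        · intro c hc
          obtain ⟨a', ha', c', hc', e⟩ := h' x⁻¹ (A'.inv_mem hx) c hc
          exact ⟨a', Subgroup.mem_sup_right ha', c', hc', e⟩
    | one => exact ⟨fun c hc => ⟨1, one_mem _, c, hc, by simp⟩, fun c hc => ⟨1, one_mem _, c, hc, by simp⟩⟩
    | mul x y _ _ hx hy =>
      constructor
      · intro c hc
        obtain ⟨a₁, ha₁, c₁, hc₁, e₁⟩ := hx.1 c hc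
        obtain ⟨a₂, ha₂, c₂, hc₂, e₂⟩ := hy.1 c₁ hc₁
        exact ⟨a₁ * a₂, mul_mem ha₁ ha₂, c₂, hc₂, by rw [← mul_assoc, e₁, mul_assoc, e₂, mul_assoc]⟩
      · intro c hc
        obtain ⟨a₁, ha₁, c₁, hc₁, e₁⟩ := hy.2 c hc
        obtain ⟨a₂, ha₂, c₂, hc₂, e₂⟩ := hx.2 c₁ hc₁
        exact ⟨a₁ * a₂, mul_mem ha₁ ha₂, c₂, hc₂, by rw [mul_inv_rev, ← mul_assoc, e₁, mul_assoc, e₂, mul_assoc]⟩
    | inv x _ hx => exact ⟨hx.2, by rw [inv_inv]; exact hx.1⟩
  exact fun a ha => (key a ha).1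

theorem permute_conj {A C : Subgroup G} (h : ∀ a ∈ A, ∀ c ∈ C, ∃ a' ∈ A, ∃ c' ∈ C, c * a = a' * c') (g : G) :
    ∀ a ∈ MulAut.conj g • A, ∀ c ∈ MulAut.conj g • C, ∃ a' ∈ MulAut.conj g • A, ∃ c' ∈ MulAut.conj g • C, c * a = a' * c' := by
  rintro _ ⟨a, ha, rfl⟩ _ ⟨c, hc, rfl⟩
  obtain ⟨a', ha', c', hc', e⟩ := h a ha c hc
  refine ⟨MulAut.conj g a', ⟨a', ha', rfl⟩, MulAut.conj g c', ⟨c', hc', rfl⟩, ?_⟩
  rw [← map_mul, ← e]
  exact (map_mul (MulAut.conj g) c a).symm

/-- S0566 (Kegel) -/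
theorem kegel_normal [Finite G] (n : ℕ) : ∀ (A B : Subgroup G), Nat.card G ≤ Nat.card A + n → A ≠ ⊥ → B ≠ ⊥ →
    (∀ x : G, ∃ S : Subgroup G, S ≠ ⊤ ∧ (S : Set G) = (A : Set G) * ((MulAut.conj x • B : Subgroup G) : Set G)) →
    ∃ N : Subgroup G, N.Normal ∧ N ≠ ⊤ ∧ (A ≤ N ∨ B ≤ N) := by
  classical
  induction n with
  | zero =>
    intro A B hn hA hB h
    exfalso
    obtain ⟨S, hS, hS2⟩ := h 1
    have hAt : A = ⊤ := by
      apply Subgroup.eq_top_of_card_eq
      have := Subgroup.card_le_card_group A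
      omega
    apply hS
    rw [eq_top_iff]
    intro x _
    have : x ∈ (S : Set G) := by
      rw [hS2, hAt]
      exact ⟨x, trivial, 1, one_mem _, by simp⟩
    exact this
  | succ n ih =>
    intro A B hn hA hB h
    by_cases hall : ∀ x : G, MulAut.conj x • B ≤ Subgroup.normalizer (A : Set G)
    · by_cases hAn : Subgroup.normalizer (A : Set G) = ⊤
      · refine ⟨A, Subgroup.normalizer_eq_top_iff.mp hAn, ?_, Or.inl le_rfl⟩
        rintro rfl
        obtain ⟨S, hS, hS2⟩ := h 1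
        apply hS
        rw [eq_top_iff]
        intro x _
        have : x ∈ (S : Set G) := by
          rw [hS2]
          exact ⟨x, trivial, 1, one_mem _, by simp⟩
        exact this
      · refine ⟨Subgroup.normalClosure (B : Set G), inferInstance, ?_, Or.inr Subgroup.le_normalClosure⟩
        intro h1
        apply hAn
        rw [eq_top_iff, ← h1]
        have : Subgroup.normalClosure (B : Set G) ≤ Subgroup.normalizer (A : Set G) := by
          rw [Subgroup.normalClosure, Subgroup.closure_le]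
          intro y hy
          obtain ⟨b, hb, hby⟩ := Group.mem_conjugatesOfSet_iff.mp hy
          obtain ⟨c, rfl⟩ := isConj_iff.mp hby
          exact hall c ⟨b, hb, rfl⟩
        exact this
    · push Not at hall
      obtain ⟨x, hx⟩ := hall
      obtain ⟨b, hb, hbA⟩ := SetLike.not_le_iff_exists.mp hx
      set A' := A ⊔ MulAut.conj b • A with hA'
      have hlt : A < A' := by
        refine lt_of_le_of_ne le_sup_left (fun heq => hbA ?_)
        rw [SolvStr.mem_normalizer_iff_conj]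
        apply Subgroup.eq_of_le_of_card_ge
        · exact (le_sup_right : MulAut.conj b • A ≤ A').trans heq.ge
        · rw [Nat.card_congr (Subgroup.equivSMul (MulAut.conj b) A).toEquiv]
      have hcard : Nat.card A < Nat.card A' := by
        refine lt_of_le_of_ne (Subgroup.card_le_of_le hlt.le) (fun h3 => hlt.ne (Subgroup.eq_of_le_of_card_ge hlt.le h3.ge))
      -- permutability
      have hperm : ∀ y : G, ∀ a ∈ A', ∀ c ∈ MulAut.conj y • B, ∃ a' ∈ A', ∃ c' ∈ MulAut.conj y • B, c * a = a' * c' := by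
        intro y
        apply permute_sup
        · obtain ⟨S, -, hS⟩ := h y
          exact permute_of_exists hS
        · obtain ⟨S, -, hS⟩ := h (b⁻¹ * y)
          have := permute_conj (permute_of_exists hS) b
          have e : MulAut.conj b • MulAut.conj (b⁻¹ * y) • B = MulAut.conj y • B := by
            rw [← mul_smul, ← map_mul, mul_inv_cancel_left]
          rwa [e] at this
      have hnew : ∀ y : G, ∃ S : Subgroup G, S ≠ ⊤ ∧ (S : Set G) = (A' : Set G) * ((MulAut.conj y • B : Subgroup G) : Set G) := by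
        intro y
        obtain ⟨S, hS⟩ := exists_subgroup_of_permute (hperm y)
        refine ⟨S, fun hSt => ?_, hS⟩
        have hfac : ∀ g : G, ∃ a ∈ A', ∃ c ∈ MulAut.conj y • B, g = a * c := by
          intro g
          have : g ∈ (S : Set G) := by rw [hSt]; trivial
          rw [hS] at this
          obtain ⟨a, ha, c, hc, e⟩ := this
          exact ⟨a, ha, c, hc, e.symm⟩
        obtain ⟨hfac2, -⟩ := SolvStr.conj_factorization A' (MulAut.conj y • B) A' (MulAut.conj x • B) hfac ⟨1, by simp⟩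
          ⟨x * y⁻¹, by rw [← mul_smul, ← map_mul, inv_mul_cancel_right]⟩
        obtain ⟨T, hT, hT2⟩ := h x
        have hAT : A ≤ T := by
          intro a ha
          have : a ∈ (T : Set G) := by rw [hT2]; exact ⟨a, ha, 1, one_mem _, by simp⟩
          exact this
        have hBT : MulAut.conj x • B ≤ T := by
          intro c hc
          have : c ∈ (T : Set G) := by rw [hT2]; exact ⟨1, one_mem _, c, hc, by simp⟩
          exact this
        have hA'T : A' ≤ T := by
          apply sup_le hAT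
          rintro _ ⟨a, ha, rfl⟩
          exact T.mul_mem (T.mul_mem (hBT hb) (hAT ha)) (T.inv_mem (hBT hb))
        apply hT
        rw [eq_top_iff]
        intro g _
        obtain ⟨a, ha, c, hc, rfl⟩ := hfac2 g
        exact T.mul_mem (hA'T ha) (hBT hc)
      obtain ⟨N, hN, hN2, hN3⟩ := ih A' B (by omega) (fun h0 => hA (by rw [eq_bot_iff, ← h0]; exact hlt.le)) hB hnew
      exact ⟨N, hN, hN2, hN3.imp (fun h0 => hlt.le.trans h0) id⟩


/-- S0587 -/
theorem core_free_pCore [Finite G] (p : ℕ) [hp : Fact p.Prime] (hL : Cfsg.pCore p G ≠ ⊥) (M : Subgroup G) (hM : IsCoatom M)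
    (hcore : M.normalCore = ⊥) : (IsMulCommutative (Cfsg.pCore p G) ∧ ∀ a ∈ Cfsg.pCore p G, a ^ p = 1) ∧
      Subgroup.IsComplement' (Cfsg.pCore p G) M ∧
      (∀ K : Subgroup G, K.Normal → K ≤ Cfsg.pCore p G → K = ⊥ ∨ K = Cfsg.pCore p G) ∧
      Subgroup.centralizer ((Cfsg.pCore p G : Subgroup G) : Set G) = Cfsg.pCore p G ∧
      ∀ (q : ℕ) [Fact q.Prime], Cfsg.pCore q ↥M ≠ ⊥ → Nat.card (Cfsg.pCore p G) % q = 1 % q ∧ q ≠ p := by
  classical
  set L := Cfsg.pCore p G with hLdef
  haveI hLn : L.Normal := CfsgLib.Core.pCore_normal p G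
  have hLp : IsPGroup p L := CfsgLib.Core.pCore_isPGroup p G
  -- the center of L
  set Z := (Subgroup.center L).map L.subtype with hZ
  haveI hZn : Z.Normal := by rw [hZ]; infer_instance
  have hZL : Z ≤ L := Subgroup.map_subtype_le _
  have hZb : Z ≠ ⊥ := by
    haveI : Nontrivial L := (Subgroup.nontrivial_iff_ne_bot L).mpr hL
    haveI := hLp.center_nontrivial
    intro h
    rw [hZ, Subgroup.map_eq_bot_iff_of_injective _ L.subtype_injective] at h
    exact (Subgroup.nontrivial_iff_ne_bot (Subgroup.center L)).mp inferInstance h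
  have hLCZ : L ≤ Subgroup.centralizer (Z : Set G) := by
    intro x hx
    rw [Subgroup.mem_centralizer_iff]
    rintro _ ⟨z, hz, rfl⟩
    exact (congrArg Subtype.val (Subgroup.mem_center_iff.mp hz ⟨x, hx⟩)).symm
  obtain ⟨h1, h2⟩ := CfsgLib.SolvStr.core_free M hM hcore Z hZb
  have hCne : Subgroup.centralizer (Z : Set G) ≠ ⊥ := fun h => hL (by rw [h, le_bot_iff] at hLCZ; exact hLCZ)
  have hCmin := (h2.resolve_left hCne).2
  have hZC : Z = Subgroup.centralizer (Z : Set G) := (hCmin Z hZn (hZL.trans hLCZ)).resolve_left hZb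
  have hLZ : L = Z := le_antisymm (hLCZ.trans hZC.ge) hZL
  rw [← hLZ] at h1 hCmin hZC
  have hLc : IsMulCommutative L := by
    refine ⟨⟨fun a b => Subtype.ext ?_⟩⟩
    have h3 : (b : G) ∈ Subgroup.centralizer (L : Set G) := by rw [← hZC]; exact b.2
    exact Subgroup.mem_centralizer_iff.mp h3 a a.2
  have hmin : ∀ K : Subgroup G, K.Normal → K ≤ L → K = ⊥ ∨ K = L := by
    intro K hK hKL
    have := hCmin K hK (hKL.trans hZC.le)
    rwa [← hZC] at this
  have hLM : L ⊓ M = ⊥ := by rw [hZC]; exact h1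
  have hLM2 := core_free_sup M hM hcore L hLn hL
  refine ⟨⟨hLc, ?_⟩, isComplement'_of hLM hLM2, hmin, hZC.symm, ?_⟩
  · -- elementary abelian: the elements of order dividing p form a normal subgroup
    let Ω : Subgroup G :=
      { carrier := {x | x ∈ L ∧ x ^ p = 1}
        one_mem' := ⟨L.one_mem, one_pow _⟩
        mul_mem' := by
          rintro a b ⟨ha, ha2⟩ ⟨hb, hb2⟩
          have hab : Commute a b := congrArg Subtype.val (hLc.is_comm.comm (⟨a, ha⟩ : L) ⟨b, hb⟩)
          exact ⟨L.mul_mem ha hb, by rw [hab.mul_pow, ha2, hb2, one_mul]⟩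
        inv_mem' := by
          rintro a ⟨ha, ha2⟩
          exact ⟨L.inv_mem ha, by rw [inv_pow, ha2, inv_one]⟩ }
    have hΩn : Ω.Normal := by
      refine ⟨fun x hx g => ⟨hLn.conj_mem x hx.1 g, ?_⟩⟩
      rw [conj_pow, hx.2]; group
    have hΩL : Ω ≤ L := fun x hx => hx.1
    rcases hmin Ω hΩn hΩL with h | h
    · exfalso
      obtain ⟨k, hk⟩ := IsPGroup.iff_card.mp hLp
      have hk0 : k ≠ 0 := by
        rintro rfl
        rw [pow_zero, Subgroup.card_eq_one] at hk
        exact hL hk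
      obtain ⟨x, hx⟩ := exists_prime_orderOf_dvd_card' (G := L) p (by rw [hk]; exact dvd_pow_self p hk0)
      have h3 : (x : G) ∈ Ω := ⟨x.2, by
        have := pow_orderOf_eq_one x
        rw [hx] at this
        exact congrArg Subtype.val this⟩
      rw [h, Subgroup.mem_bot] at h3
      have : x = 1 := Subtype.ext h3
      rw [this, orderOf_one] at hx
      exact hp.out.one_lt.ne hx
    · intro a ha
      rw [← h] at ha
      exact ha.2
  · intro q hq hqM
    set Q := (Cfsg.pCore q M).map M.subtype with hQ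
    have hQp : IsPGroup q Q := (CfsgLib.Core.pCore_isPGroup q M).map _
    have hQM : Q ≤ M := Subgroup.map_subtype_le _
    have hMQ : M ≤ Subgroup.normalizer (Q : Set G) := by
      have := CfsgLib.Core.pCore_normal q M
      intro m hm
      rw [SolvStr.mem_normalizer_iff_conj]
      apply Subgroup.eq_of_le_of_card_ge
      · rintro _ ⟨_, ⟨x, hx, rfl⟩, rfl⟩
        exact ⟨⟨m, hm⟩ * x * ⟨m, hm⟩⁻¹, this.conj_mem x hx ⟨m, hm⟩, rfl⟩
      · rw [Nat.card_congr (Subgroup.equivSMul (MulAut.conj m) Q).toEquiv]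
    have hfix : L ⊓ Subgroup.centralizer (Q : Set G) = ⊥ := by
      have hn : (L ⊓ Subgroup.centralizer (Q : Set G)).Normal := by
        refine ⟨fun x hx g => ?_⟩
        obtain ⟨l, hl, m, hm, rfl⟩ := Subgroup.mem_sup_of_normal_left.mp (by rw [hLM2]; trivial : g ∈ L ⊔ M)
        have h3 : m * x * m⁻¹ ∈ L ⊓ Subgroup.centralizer (Q : Set G) := by
          refine ⟨hLn.conj_mem x hx.1 m, ?_⟩
          refine Subgroup.mem_centralizer_iff.mpr fun y hy => ?_
          have h4 : m⁻¹ * y * m ∈ Q := by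
            have := (Subgroup.mem_normalizer_iff.mp (hMQ (M.inv_mem hm)) y).mp hy
            simpa using this
          have h5 := Subgroup.mem_centralizer_iff.mp hx.2 _ h4
          calc y * (m * x * m⁻¹) = m * ((m⁻¹ * y * m) * x) * m⁻¹ := by group
            _ = m * (x * (m⁻¹ * y * m)) * m⁻¹ := by rw [h5]
            _ = _ := by group
        have h4 : l * m * x * (l * m)⁻¹ = m * x * m⁻¹ := by
          have h5 : l * (m * x * m⁻¹) = (m * x * m⁻¹) * l := congrArg Subtype.val (hLc.is_comm.comm (⟨l, hl⟩ : L) ⟨_, h3.1⟩)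
          have : l * m * x * (l * m)⁻¹ = (l * (m * x * m⁻¹)) * l⁻¹ := by group
          rw [this, h5]; group
        rw [h4]; exact h3
      rcases hmin _ hn inf_le_left with h | h
      · exact h
      · exfalso
        apply hqM
        have h3 : Q ≤ Subgroup.centralizer (L : Set G) := by
          rw [Subgroup.le_centralizer_iff, ← h]; exact inf_le_right
        have h4 : Q ≤ ⊥ := by
          rw [← hLM]
          exact le_inf (h3.trans hZC.ge) hQM
        rw [le_bot_iff, hQ, Subgroup.map_eq_bot_iff_of_injective _ M.subtype_injective] at h4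
        exact h4
    have h3 := CfsgLib.Transfer.card_modEq_centralizer (r := q) (R := Q) (T := L) hQp (by rw [Subgroup.normalizer_eq_top]; exact le_top)
    rw [hfix, Subgroup.card_bot] at h3
    refine ⟨h3, ?_⟩
    rintro rfl
    obtain ⟨k, hk⟩ := IsPGroup.iff_card.mp hLp
    have hk0 : k ≠ 0 := by
      rintro rfl
      rw [pow_zero, Subgroup.card_eq_one] at hk
      exact hL hk
    rw [hk] at h3
    have h4 : q ^ k % q = 0 := Nat.mod_eq_zero_of_dvd (dvd_pow_self q hk0)
    have h5 : q ^ k % q = 1 % q := h3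
    rw [h4, Nat.mod_eq_of_lt hp.out.one_lt] at h5
    exact absurd h5 (by norm_num)

/-- S0553 -/
theorem normal_sylow_of_coprime_maximal [Finite G] (hs : Group.IsSolvable G) [Nontrivial G]
    (h : ∀ M : Subgroup G, IsCoatom M → (Nat.card M).Coprime M.index) :
    ∃ p : ℕ, p.Prime ∧ p ∣ Nat.card G ∧ ∀ P : Sylow p G, (P : Subgroup G).Normal := by
  classical
  set Φ := frattini G with hΦ
  haveI hs' := hs
  have hΦt : Φ ≠ ⊤ := by
    intro h1
    obtain ⟨M, hM, -⟩ := IsCoatomic.eq_top_or_exists_le_coatom (⊥ : Subgroup G) |>.resolve_left bot_ne_top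
    have h2 := frattini_le_coatom hM
    rw [← hΦ, h1, top_le_iff] at h2
    exact hM.1 h2
  have hnt : Nontrivial (G ⧸ Φ) := by
    rw [← Finite.one_lt_card_iff_nontrivial]
    have h3 : Nat.card (G ⧸ Φ) = Φ.index := rfl
    rw [h3]
    have h4 : Φ.index ≠ 1 := fun h => hΦt (Subgroup.index_eq_one.mp h)
    have h5 : Φ.index ≠ 0 := Subgroup.index_ne_zero_of_finite
    omega
  obtain ⟨N', hN'n, -, hN'b, hN'min, hN'c, p, hp, hN'p⟩ := CfsgLib.SZ.exists_minimal_normal_le (⊤ : Subgroup (G ⧸ Φ)) inferInstance top_ne_bot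
  haveI := hN'n
  haveI : Fact p.Prime := ⟨hp⟩
  set f := QuotientGroup.mk' Φ with hf
  have hfs : Function.Surjective f := QuotientGroup.mk'_surjective Φ
  set N := N'.comap f with hN
  haveI hNn : N.Normal := inferInstance
  have hΦN : Φ ≤ N := by
    intro x hx
    rw [hN, Subgroup.mem_comap]
    have : f x = 1 := (QuotientGroup.eq_one_iff x).mpr hx
    rw [this]; exact one_mem _
  have hNmap : N.map f = N' := Subgroup.map_comap_eq_self_of_surjective hfs _
  have hNΦ : ¬ N ≤ Φ := by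
    intro h1
    apply hN'b
    rw [← hNmap, le_antisymm h1 hΦN, QuotientGroup.map_mk'_self]
  -- a maximal subgroup not containing N
  obtain ⟨M, hM, hNM⟩ : ∃ M : Subgroup G, IsCoatom M ∧ ¬ N ≤ M := by
    by_contra hcon
    push Not at hcon
    apply hNΦ
    intro x hx
    rw [hΦ, CfsgLib.Frattini.mem_frattini_iff]
    exact fun M hM => hcon M hM hx
  have hNMt : N ⊔ M = ⊤ := by
    rcases hM.le_iff.mp (le_sup_right : M ≤ N ⊔ M) with h1 | h1
    · exact h1
    · exact absurd (h1 ▸ le_sup_left : N ≤ M) hNM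
  have hΦM : Φ ≤ M := frattini_le_coatom hM
  -- index of M is a power of p
  have hidx : M.index = M.relIndex N := CfsgLib.Solv2.index_eq_relIndex_of_sup hNMt
  have hNMn : M ⊓ N = Φ := by
    have hn : ((M ⊓ N).map f).Normal := by
      refine ⟨fun y hy z => ?_⟩
      obtain ⟨x, hx, rfl⟩ := hy
      obtain ⟨g, rfl⟩ := hfs z
      obtain ⟨n, hn, m, hm, rfl⟩ := Subgroup.mem_sup_of_normal_left.mp (by rw [hNMt]; trivial : g ∈ N ⊔ M)
      have h1 : m * x * m⁻¹ ∈ M ⊓ N := ⟨M.mul_mem (M.mul_mem hm hx.1) (M.inv_mem hm), hNn.conj_mem x hx.2 m⟩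
      refine ⟨m * x * m⁻¹, h1, ?_⟩
      have h2 : f n * f (m * x * m⁻¹) = f (m * x * m⁻¹) * f n :=
        congrArg Subtype.val (hN'c.is_comm.comm (⟨f n, hn⟩ : N') ⟨_, h1.2⟩)
      calc f (m * x * m⁻¹) = f (m * x * m⁻¹) * f n * (f n)⁻¹ := by group
        _ = f n * f (m * x * m⁻¹) * (f n)⁻¹ := by rw [h2]
        _ = f (n * m) * f x * (f (n * m))⁻¹ := by simp only [map_mul, map_inv]; group
    have hle : (M ⊓ N).map f ≤ N' := by rw [← hNmap]; exact Subgroup.map_mono inf_le_right
    rcases hN'min _ hn hle with h1 | h1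
    · apply le_antisymm _ (le_inf hΦM hΦN)
      intro x hx
      have : f x ∈ (M ⊓ N).map f := ⟨x, hx, rfl⟩
      rw [h1, Subgroup.mem_bot] at this
      exact (QuotientGroup.eq_one_iff x).mp this
    · exfalso
      apply hNM
      intro x hx
      have : f x ∈ (M ⊓ N).map f := by rw [h1]; exact hx
      obtain ⟨y, hy, hxy⟩ := this
      have h2 : y⁻¹ * x ∈ Φ := QuotientGroup.eq.mp hxy
      have h3 := M.mul_mem hy.1 (hΦM h2)
      simpa using h3
  have hN'pg : IsPGroup p N' := fun x => ⟨1, by rw [pow_one]; exact Subtype.ext (hN'p x x.2)⟩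
  obtain ⟨k, hk⟩ := IsPGroup.iff_card.mp hN'pg
  have hcardN : M.index = p ^ k := by
    rw [hidx, ← Subgroup.inf_relIndex_right, hNMn]
    have h1 := Subgroup.relIndex_ker N f
    rw [QuotientGroup.ker_mk', hNmap, hk] at h1
    exact h1
  have hk0 : k ≠ 0 := by
    rintro rfl
    rw [pow_zero, Subgroup.card_eq_one] at hk
    exact hN'b hk
  have hpM : ¬ p ∣ Nat.card M := by
    intro hd
    have h1 := h M hM
    rw [hcardN] at h1
    exact hp.one_lt.ne' (Nat.dvd_one.mp (h1 ▸ Nat.dvd_gcd hd (dvd_pow_self p hk0)))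
  refine ⟨p, hp, ?_, ?_⟩
  · rw [← M.card_mul_index, hcardN]
    exact (dvd_pow_self p hk0).mul_left _
  · intro P
    -- P ⊔ Φ = N
    have hPN : (P : Subgroup G) ≤ N := by
      have h1 : IsSyl p ((P : Subgroup G).map f) ⊤ := isSyl_map (CfsgLib.Transfer.isSyl_top P) f hfs
      have h2 : N' ≤ (P : Subgroup G).map f := by
        obtain ⟨R, hR, hNR⟩ := exists_isSyl_ge (K := (⊤ : Subgroup (G ⧸ Φ))) le_top hN'pg
        obtain ⟨c, -, hc⟩ := hR.exists_conj h1
        rw [← hc, ← Subgroup.Normal.conj_smul_eq_self c N']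
        exact Subgroup.pointwise_smul_le_pointwise_smul_iff.mpr hNR
      have h3 : Nat.card ((P : Subgroup G).map f) = Nat.card N' := by
        rw [h1.2, hk, Subgroup.card_top]
        have h4 : Nat.card (G ⧸ Φ) = p ^ k * Nat.card (M.map f) := by
          have h5 : N' ⊓ M.map f = ⊥ := by
            rw [eq_bot_iff]
            rintro _ ⟨hx, m, hm, rfl⟩
            have h6 : m ∈ M ⊓ N := ⟨hm, hx⟩
            rw [hNMn] at h6
            exact (QuotientGroup.eq_one_iff m).mpr h6
          have h6 := CfsgLib.CD.card_mul_card N' (M.map f)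
          rw [h5, Subgroup.card_bot, mul_one, hk] at h6
          rw [h6]
          have h7 : N' ⊔ M.map f = ⊤ := by
            rw [← hNmap, ← Subgroup.map_sup, hNMt, Subgroup.map_top_of_surjective f hfs]
          rw [← Subgroup.normal_mul, h7]
          exact Subgroup.card_top.symm
        rw [h4, Nat.factorization_mul (pow_pos hp.pos _).ne' Nat.card_pos.ne', Finsupp.add_apply, hp.factorization_pow,
          Finsupp.single_eq_same, Nat.factorization_eq_zero_of_not_dvd, add_zero]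
        exact fun hd => hpM (hd.trans (Subgroup.card_map_dvd M f))
      have h4 : N' = (P : Subgroup G).map f := Subgroup.eq_of_le_of_card_ge h2 h3.le
      intro x hx
      rw [hN, Subgroup.mem_comap, h4]
      exact ⟨x, hx, rfl⟩
    have h1 := CfsgLib.Solv3.frattini_isSyl (CfsgLib.Transfer.isSyl_of_sylow_le P hPN)
    have hNeq : N ≤ Φ ⊔ (P : Subgroup G) := by
      intro x hx
      have h2 : IsSyl p ((P : Subgroup G).map f) ⊤ := isSyl_map (CfsgLib.Transfer.isSyl_top P) f hfs
      have h3 : N' ≤ (P : Subgroup G).map f := by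
        obtain ⟨R, hR, hNR⟩ := exists_isSyl_ge (K := (⊤ : Subgroup (G ⧸ Φ))) le_top hN'pg
        obtain ⟨c, -, hc⟩ := hR.exists_conj h2
        rw [← hc, ← Subgroup.Normal.conj_smul_eq_self c N']
        exact Subgroup.pointwise_smul_le_pointwise_smul_iff.mpr hNR
      obtain ⟨y, hy, hyx⟩ := h3 hx
      have h4 : y⁻¹ * x ∈ Φ := QuotientGroup.eq.mp hyx
      have h5 := mul_mem (Subgroup.mem_sup_right (S := Φ) hy) (Subgroup.mem_sup_left (T := (P : Subgroup G)) h4)
      simpa using h5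
    have h2 : Subgroup.normalizer ((P : Subgroup G) : Set G) ⊔ frattini G = ⊤ := by
      rw [eq_top_iff, ← h1]
      refine sup_le (hNeq.trans (sup_le le_sup_right (Subgroup.le_normalizer.trans le_sup_left))) le_sup_left
    exact Subgroup.normalizer_eq_top_iff.mp (frattini_nongenerating h2)

end CfsgLib.SolvStr2
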