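import Cfsg.Agent.Lib.TW11
import Cfsg.Agent.Lib.ChevAut2
set_option autoImplicit false
set_option linter.style.haveILetI false
set_option linter.unusedSectionVars false

/-! Automorphisms of twisted groups, I: reduction to automorphisms preserving `U` and `V`. -/

namespace CfsgLib.Chev
open Cfsg.Lie Matrix CfsgLib.BNP CfsgLib.PWM

namespace TN
variable {D : ChevalleyDatum} {T : TD D} {K : Type*} [Field K] {A : TA T K} {O : TO T} (R : TN A O) (M : CG D K)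

/-- `θ` maps `K ∩ G` onto `L ∩ G` -/
def Pre1 {G : Subgroup (GL D.Idx K)} (θ : ↥G ≃* ↥G) (P Q : Subgroup (GL D.Idx K)) : Prop :=
  ∀ g : ↥G, (g : GL D.Idx K) ∈ P ↔ (θ g : GL D.Idx K) ∈ Q

theorem Pre1.symm {G : Subgroup (GL D.Idx K)} {θ : ↥G ≃* ↥G} {P Q : Subgroup (GL D.Idx K)} (h : Pre1 θ P Q) : Pre1 θ.symm Q P := by
  intro g
  rw [h (θ.symm g), θ.apply_symm_apply]

theorem Pre1.trans {G : Subgroup (GL D.Idx K)} {θ θ' : ↥G ≃* ↥G} {P Q Q' : Subgroup (GL D.Idx K)} (h : Pre1 θ P Q) (h' : Pre1 θ' Q Q') :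
    Pre1 (θ.trans θ') P Q' := fun g => (h g).trans (h' (θ g))

theorem Pre1.conj {G : Subgroup (GL D.Idx K)} {P : Subgroup (GL D.Idx K)} {x : ↥G}
    (h : ∀ u : GL D.Idx K, u ∈ P ↔ (x : GL D.Idx K) * u * (x : GL D.Idx K)⁻¹ ∈ P) : Pre1 (MulAut.conj x) P P := fun g => h g

include M in
theorem B_norm {b : GL D.Idx K} (hb : b ∈ D.borelSubgroup K) (x : GL D.Idx K) :
    x ∈ D.posUnipotent K ↔ b * x * b⁻¹ ∈ D.posUnipotent K := by
  have h1 : D.borelSubgroup K ≤ Subgroup.normalizer (D.posUnipotent K : Set (GL D.Idx K)) :=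
    sup_le Subgroup.le_normalizer M.H_norm_U
  exact Subgroup.mem_normalizer_iff.mp (h1 hb) x

include R M

theorem norm_U1 {g : GL D.Idx K} (hg : g ∈ A.Gs M)
    (h : ∀ u ∈ A.Gs M, u ∈ D.posUnipotent K ↔ g * u * g⁻¹ ∈ D.posUnipotent K) : g ∈ D.borelSubgroup K := by
  have h' : g ∈ Subgroup.normalizer ((D.posUnipotent K ⊓ A.Gs M : Subgroup (GL D.Idx K)) : Set (GL D.Idx K)) := by
    rw [Subgroup.mem_normalizer_iff]
    intro u
    constructor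
    · rintro ⟨h1, h2⟩
      exact ⟨(h u h2).mp h1, (A.Gs M).mul_mem ((A.Gs M).mul_mem hg h2) ((A.Gs M).inv_mem hg)⟩
    · rintro ⟨h1, h2⟩
      have h3 : u ∈ A.Gs M := by
        have := mul_mem (mul_mem (inv_mem hg) h2) hg
        have e : g⁻¹ * (g * u * g⁻¹) * g = u := by group
        rwa [e] at this
      exact ⟨(h u h3).mpr h1, h3⟩
  set P := R.bnp1 M with hP
  set N : Subgroup ↥(A.Gs M) := (Subgroup.normalizer ((D.posUnipotent K ⊓ A.Gs M : Subgroup (GL D.Idx K)) : Set (GL D.Idx K))).subgroupOf (A.Gs M) with hN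
  have hB : P.B ≤ N := by
    intro b hb
    have hb' : (b : GL D.Idx K) ∈ D.borelSubgroup K := R.of_mem_bnp1_B M hb
    have h1 : D.borelSubgroup K ≤ Subgroup.normalizer (D.posUnipotent K : Set (GL D.Idx K)) :=
      sup_le Subgroup.le_normalizer M.H_norm_U
    have h2 := h1 hb'
    change (b : GL D.Idx K) ∈ Subgroup.normalizer _
    rw [Subgroup.mem_normalizer_iff] at h2 ⊢
    intro u
    have h3 : u ∈ A.Gs M ↔ (b : GL D.Idx K) * u * (b : GL D.Idx K)⁻¹ ∈ A.Gs M := by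
      constructor
      · intro h3; exact mul_mem (mul_mem b.2 h3) (inv_mem b.2)
      · intro h3
        have := mul_mem (mul_mem (inv_mem b.2) h3) b.2
        have e : (b : GL D.Idx K)⁻¹ * ((b : GL D.Idx K) * u * (b : GL D.Idx K)⁻¹) * (b : GL D.Idx K) = u := by group
        rwa [e] at this
    exact and_congr (h2 u) h3
  have h3 := CfsgLib.BNP.eq_parabolic (P := P) hB
  have h4 : (⟨g, hg⟩ : ↥(A.Gs M)) ∈ N := h'
  rw [h3] at h4
  have h5 : P.S ∩ N = ∅ := by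
    rw [Set.eq_empty_iff_forall_notMem]
    rintro n ⟨⟨J, he⟩, hn⟩
    obtain ⟨x, hx, hx1, hxf, hxV⟩ := R.x J
    have hn' : (n : GL D.Idx K) ∈ Subgroup.normalizer ((D.posUnipotent K ⊓ A.Gs M : Subgroup (GL D.Idx K)) : Set (GL D.Idx K)) := hn
    have e1 : (n : GL D.Idx K) = R.n J := he
    rw [e1, Subgroup.mem_normalizer_iff] at hn'
    have h6 := ((hn' x).mp ⟨hx, (A.mem_Gs M).mpr ⟨M.U_le_G hx, hxf⟩⟩).1
    have h7 : R.n J * x * (R.n J)⁻¹ ∈ D.posUnipotent K ⊓ D.negUnipotent K := ⟨h6, hxV⟩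
    rw [M.U_inf_V, Subgroup.mem_bot, mul_inv_eq_one, mul_eq_left] at h7
    exact hx1 h7
  rw [h5, CfsgLib.BNP.parabolic_empty] at h4
  exact R.of_mem_bnp1_B M h4

/-- longest words exchange `U` and `V` -/
theorem top_iff {L : List (Fin O.m)} (hL : Top O L) (x : GL D.Idx K) :
    (x ∈ D.posUnipotent K ↔ R.nn L * x * (R.nn L)⁻¹ ∈ D.negUnipotent K) ∧
    (x ∈ D.negUnipotent K ↔ R.nn L * x * (R.nn L)⁻¹ ∈ D.posUnipotent K) := by
  have hneg : ∀ s < D.nroots, s ∈ PosS D → rl D (wv (O.fl L)) s ∉ PosS D := fun s hs hp =>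
    M.all_neg (Wd_wv D _) (fun i hi => hL ⟨i, hi⟩) hs hp
  have hpos : ∀ s < D.nroots, s ∉ PosS D → rl D (wv (O.fl L)) s ∈ PosS D := by
    intro s hs hn'
    have h2 := hneg (D.neg s) (M.N.neg_lt hs) (M.neg_mem_PosS hs (GD.notPos_iff.mp hn'))
    rw [M.rl_neg (Wd_wv D _) hs] at h2
    by_contra h3
    exact h2 (M.neg_mem_PosS (M.rl_lt (Wd_wv D _) hs) (GD.notPos_iff.mp h3))
  obtain ⟨h, hh, he⟩ := R.nn_eq M L
  have e1 : R.nn L * x * (R.nn L)⁻¹ = h * (nl D K (wv (O.fl L)) * x * (nl D K (wv (O.fl L)))⁻¹) * h⁻¹ := by rw [he]; group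
  have e2 : nl D K (wv (O.fl L)) * x * (nl D K (wv (O.fl L)))⁻¹ = h⁻¹ * (R.nn L * x * (R.nn L)⁻¹) * h⁻¹⁻¹ := by rw [he]; group
  have hV : ∀ y, h * y * h⁻¹ ∈ D.negUnipotent K ↔ y ∈ D.negUnipotent K := fun y =>
    (Subgroup.mem_normalizer_iff.mp (M.H_norm_V hh) y).symm
  have hU : ∀ y, h * y * h⁻¹ ∈ D.posUnipotent K ↔ y ∈ D.posUnipotent K := fun y =>
    (Subgroup.mem_normalizer_iff.mp (M.H_norm_U hh) y).symm
  rw [e1, hV, hU]
  rw [M.U_eq, M.V_eq]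
  refine ⟨⟨fun hx => ?_, fun hx => ?_⟩, ⟨fun hx => ?_, fun hx => ?_⟩⟩
  · exact M.nl_conj_XS (Wd_wv D _) (fun s hs hs' => GD.notPos_iff.mp (hneg s hs' hs)) hx
  · have h1 := M.nl_conj_XS' (Wd_wv D _) (S' := PosS D) (fun s hs h' => by
      by_contra h2
      exact (GD.notPos_iff.mpr h') (hpos s hs h2)) hx
    have e : (nl D K (wv (O.fl L)))⁻¹ * (nl D K (wv (O.fl L)) * x * (nl D K (wv (O.fl L)))⁻¹) * nl D K (wv (O.fl L)) = x := by group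
    rwa [e] at h1
  · exact M.nl_conj_XS (Wd_wv D _) (fun s hs hs' => hpos s hs' (GD.notPos_iff.mpr hs)) hx
  · have h1 := M.nl_conj_XS' (Wd_wv D _) (S' := NegS D) (fun s hs h' => by
      by_contra h2
      exact hneg s hs (by by_contra h3; exact h2 (GD.notPos_iff.mp h3)) h') hx
    have e : (nl D K (wv (O.fl L)))⁻¹ * (nl D K (wv (O.fl L)) * x * (nl D K (wv (O.fl L)))⁻¹) * nl D K (wv (O.fl L)) = x := by group
    rwa [e] at h1

/-- the opposite -/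
theorem opp1 {g : GL D.Idx K} (hg : g ∈ A.Gs M)
    (h : ∀ u ∈ D.posUnipotent K, u ∈ A.Gs M → g * u * g⁻¹ ∈ D.posUnipotent K → u = 1) :
    ∃ u ∈ D.posUnipotent K, u ∈ A.Gs M ∧ ∀ x, x ∈ D.posUnipotent K ↔ u⁻¹ * (g * x * g⁻¹) * u ∈ D.negUnipotent K := by
  obtain ⟨b, hb, L, u', hu', hbG, huG', -, rfl⟩ := R.canon M hg
  have hL : Top O L := by
    intro i hi
    have hi' : rl D (wv (O.fl L)) (D.simple (O.rep (O.orb i))) ∈ PosS D := (TO.desc_orb O M.toGD (TO.fixW_fl O M.toGD L) i).mp hi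
    obtain ⟨x, hx, hx1, hxf, hxV⟩ := R.x (O.orb i)
    have hxG : x ∈ A.Gs M := (A.mem_Gs M).mpr ⟨M.U_le_G hx, hxf⟩
    have h2 := R.conj_Um_pos M hi' ((mem_Um M).mpr ⟨⟨hx, hxG⟩, hxV⟩)
    have h3 := h (u'⁻¹ * x * u') (mul_mem (mul_mem (inv_mem hu') hx) hu') (mul_mem (mul_mem (inv_mem huG') hxG) huG') (by
      have e : b * R.nn L * u' * (u'⁻¹ * x * u') * (b * R.nn L * u')⁻¹ = b * (R.nn L * x * (R.nn L)⁻¹) * b⁻¹ := by group
      rw [e]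
      exact (B_norm M hb _).mp h2)
    apply hx1
    have e : x = u' * (u'⁻¹ * x * u') * u'⁻¹ := by group
    rw [e, h3]; group
  obtain ⟨u, hu, t, ht, huG, htG, rfl⟩ := mem_B_of_Gs M hb hbG
  refine ⟨u, hu, huG, fun x => ?_⟩
  have e : u⁻¹ * (u * t * R.nn L * u' * x * (u * t * R.nn L * u')⁻¹) * u =
      t * (R.nn L * (u' * x * u'⁻¹) * (R.nn L)⁻¹) * t⁻¹ := by group
  have hV : ∀ y, y ∈ D.negUnipotent K ↔ t * y * t⁻¹ ∈ D.negUnipotent K := fun y =>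
    Subgroup.mem_normalizer_iff.mp (M.H_norm_V ht) y
  rw [e, ← hV, ← (R.top_iff M hL _).1]
  exact B_norm M (GD.U_le_B hu') x

theorem sylow_U1 [Finite K] {p : ℕ} [Fact p.Prime] [CharP K p] :
    ∃ P : Sylow p ↥(A.Gs M), (P : Subgroup ↥(A.Gs M)) = (D.posUnipotent K).subgroupOf (A.Gs M) := by
  have hU : IsPGroup p ↥((D.posUnipotent K).subgroupOf (A.Gs M)) := by
    rintro ⟨g, hg⟩
    refine ⟨Fintype.card D.Idx, ?_⟩
    apply Subtype.ext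
    apply Subtype.ext
    exact M.U_pow (p := p) hg
  obtain ⟨P, hP⟩ := hU.exists_le_sylow
  refine ⟨P, le_antisymm ?_ hP⟩
  by_contra hcon
  haveI : Finite ↥P := inferInstance
  haveI : Group.IsNilpotent ↥P := P.isPGroup'.isNilpotent
  set N : Subgroup ↥P := ((D.posUnipotent K).subgroupOf (A.Gs M)).subgroupOf (P : Subgroup ↥(A.Gs M)) with hN
  have hlt : N < ⊤ := by
    rw [lt_top_iff_ne_top]
    intro h
    apply hcon
    exact Subgroup.subgroupOf_eq_top.mp h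
  have hnc := normalizerCondition_of_isNilpotent N hlt
  obtain ⟨x, hx, hxN⟩ := SetLike.exists_of_lt hnc
  rw [Subgroup.mem_normalizer_iff] at hx
  have hxB : ((x : ↥(A.Gs M)) : GL D.Idx K) ∈ D.borelSubgroup K := by
    apply R.norm_U1 M x.1.2
    intro u huG
    have hUP : u ∈ D.posUnipotent K → (⟨u, huG⟩ : ↥(A.Gs M)) ∈ P := fun h => hP (Subgroup.mem_subgroupOf.mpr h)
    constructor
    · intro hu
      exact (hx ⟨⟨u, huG⟩, hUP hu⟩).mp hu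
    · intro hu
      have hP2 : (x : ↥(A.Gs M)) * ⟨u, huG⟩ * (x : ↥(A.Gs M))⁻¹ ∈ P :=
        hP (Subgroup.mem_subgroupOf.mpr hu)
      have hP3 : (⟨u, huG⟩ : ↥(A.Gs M)) ∈ P := by
        have := mul_mem (mul_mem (inv_mem x.2) hP2) x.2
        have e : (x : ↥(A.Gs M))⁻¹ * ((x : ↥(A.Gs M)) * ⟨u, huG⟩ * (x : ↥(A.Gs M))⁻¹) * (x : ↥(A.Gs M)) = ⟨u, huG⟩ := by group
        rwa [e] at this
      exact (hx ⟨⟨u, huG⟩, hP3⟩).mpr hu
  obtain ⟨u, hu, h, hh, huG, hhG, he⟩ := mem_B_of_Gs M hxB x.1.2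
  have hhP : (⟨h, hhG⟩ : ↥(A.Gs M)) ∈ P := by
    have h1 : (⟨u, huG⟩ : ↥(A.Gs M)) ∈ P := hP (Subgroup.mem_subgroupOf.mpr hu)
    have := mul_mem (inv_mem h1) x.2
    have e : (⟨u, huG⟩ : ↥(A.Gs M))⁻¹ * (x : ↥(A.Gs M)) = ⟨h, hhG⟩ := by
      apply Subtype.ext
      change u⁻¹ * ((x : ↥(A.Gs M)) : GL D.Idx K) = h
      rw [he]; group
    rwa [e] at this
  obtain ⟨k, hk⟩ := P.isPGroup' ⟨_, hhP⟩
  have hk' : h ^ p ^ k = 1 := congrArg (fun z : ↥P => ((z : ↥(A.Gs M)) : GL D.Idx K)) hk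
  have h1 : h = 1 := by
    have hd1 := orderOf_dvd_of_pow_eq_one hk'
    have hd2 := orderOf_dvd_of_pow_eq_one (M.H_pow hh)
    have hcop : Nat.Coprime (p ^ k) (Nat.card K - 1) := by
      apply Nat.Coprime.pow_left
      letI := Fintype.ofFinite K
      obtain ⟨n, hp, hn⟩ := FiniteField.card K p
      rw [Nat.card_eq_fintype_card, hn]
      rw [Nat.Prime.coprime_iff_not_dvd hp]
      intro hdvd
      have h5 : p ∣ p ^ (n : ℕ) := dvd_pow_self p n.pos.ne'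
      have h6 : 1 ≤ p ^ (n : ℕ) := Nat.one_le_pow _ _ hp.pos
      have h7 : p ∣ 1 := by
        have := (Nat.dvd_sub h5 hdvd)
        rwa [Nat.sub_sub_self h6] at this
      exact hp.one_lt.ne' (Nat.dvd_one.mp h7)
    have := Nat.eq_one_of_dvd_coprimes hcop hd1 hd2
    rwa [orderOf_eq_one_iff] at this
  apply hxN
  change ((x : ↥(A.Gs M)) : GL D.Idx K) ∈ D.posUnipotent K
  rw [he, h1, mul_one]
  exact hu

theorem frame_U1 [Finite K] (θ : ↥(A.Gs M) ≃* ↥(A.Gs M)) :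
    ∃ (x : ↥(A.Gs M)) (θ' : ↥(A.Gs M) ≃* ↥(A.Gs M)), (∀ y, θ y = x * θ' y * x⁻¹) ∧
      Pre1 θ' (D.posUnipotent K) (D.posUnipotent K) := by
  obtain ⟨p, hp⟩ := CharP.exists K
  haveI : Fact p.Prime := ⟨CharP.char_is_prime K p⟩
  obtain ⟨P, hP⟩ := R.sylow_U1 M (p := p)
  have h1 : IsPGroup p ((P : Subgroup ↥(A.Gs M)).map θ.toMonoidHom) := P.isPGroup'.map _
  obtain ⟨Q, hQ⟩ := h1.exists_le_sylow
  have h2 : (P : Subgroup ↥(A.Gs M)).map θ.toMonoidHom = Q := by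
    apply SetLike.coe_injective
    apply Set.eq_of_subset_of_ncard_le hQ
    have e1 : (Q : Set ↥(A.Gs M)).ncard = (P : Set ↥(A.Gs M)).ncard := by
      have : Nat.card Q = Nat.card P := (Q.equiv P).toEquiv |> Nat.card_congr
      exact this
    have e2 : (((P : Subgroup ↥(A.Gs M)).map θ.toMonoidHom : Subgroup ↥(A.Gs M)) : Set ↥(A.Gs M)).ncard = (P : Set ↥(A.Gs M)).ncard := by
      rw [Subgroup.coe_map]
      exact Set.ncard_image_of_injective _ θ.injective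
    exact (e1.trans e2.symm).le
  obtain ⟨x, hx⟩ := MulAction.exists_smul_eq ↥(A.Gs M) P Q
  refine ⟨x, θ.trans (MulAut.conj x⁻¹), ?_, ?_⟩
  · intro y
    change θ y = x * (x⁻¹ * θ y * x⁻¹⁻¹) * x⁻¹
    group
  · intro g
    have h3 : ∀ y : ↥(A.Gs M), y ∈ (P : Subgroup ↥(A.Gs M)) ↔ (y : GL D.Idx K) ∈ D.posUnipotent K := by
      intro y
      rw [hP]
      exact Iff.rfl
    rw [← h3]
    change _ ↔ ((x⁻¹ * θ g * x⁻¹⁻¹ : ↥(A.Gs M)) : GL D.Idx K) ∈ _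
    rw [← h3, inv_inv]
    have h4 : θ g ∈ (Q : Subgroup ↥(A.Gs M)) ↔ x⁻¹ * θ g * x ∈ (P : Subgroup ↥(A.Gs M)) := by
      rw [← hx, Sylow.coe_subgroup_smul, Subgroup.mem_pointwise_smul_iff_inv_smul_mem]
      have : (MulAut.conj x)⁻¹ • θ g = x⁻¹ * θ g * x := by
        rw [← map_inv]
        change x⁻¹ * θ g * x⁻¹⁻¹ = _
        rw [inv_inv]
      rw [this]
    rw [← h4, ← h2, Subgroup.mem_map_equiv]
    change _ ↔ θ.symm (θ g) ∈ _
    rw [θ.symm_apply_apply]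

theorem frame1 [Finite K] {L0 : List (Fin O.m)} (ht : Top O L0) (θ : ↥(A.Gs M) ≃* ↥(A.Gs M)) :
    ∃ (x : ↥(A.Gs M)) (θ' : ↥(A.Gs M) ≃* ↥(A.Gs M)), (∀ y, θ y = x * θ' y * x⁻¹) ∧
      Pre1 θ' (D.posUnipotent K) (D.posUnipotent K) ∧ Pre1 θ' (D.negUnipotent K) (D.negUnipotent K) := by
  obtain ⟨x, θ₁, h1, h2⟩ := R.frame_U1 M θ
  set n : ↥(A.Gs M) := ⟨R.nn L0, R.nn_mem_Gs M L0⟩ with hn
  have h3 : ∀ g : GL D.Idx K, g ∈ D.posUnipotent K ↔ R.nn L0 * g * (R.nn L0)⁻¹ ∈ D.negUnipotent K := fun g => (R.top_iff M ht g).1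
  have h4 : ∀ u ∈ D.posUnipotent K, u ∈ A.Gs M → (θ₁ n : GL D.Idx K) * u * (θ₁ n : GL D.Idx K)⁻¹ ∈ D.posUnipotent K → u = 1 := by
    intro u hu huG hu2
    obtain ⟨g, hg⟩ := θ₁.surjective ⟨u, huG⟩
    have hgU : (g : GL D.Idx K) ∈ D.posUnipotent K := by
      rw [h2 g, hg]; exact hu
    have h5 : (((n * g * n⁻¹ : ↥(A.Gs M))) : GL D.Idx K) ∈ D.posUnipotent K := by
      rw [h2, map_mul, map_mul, map_inv, hg]
      exact hu2
    have h6 : (((n * g * n⁻¹ : ↥(A.Gs M))) : GL D.Idx K) ∈ D.negUnipotent K := (h3 g).mp hgU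
    have h7 : (((n * g * n⁻¹ : ↥(A.Gs M))) : GL D.Idx K) ∈ D.posUnipotent K ⊓ D.negUnipotent K := ⟨h5, h6⟩
    rw [M.U_inf_V, Subgroup.mem_bot] at h7
    have h8 : n * g * n⁻¹ = 1 := Subtype.ext h7
    have h9 : g = 1 := by
      have : g = n⁻¹ * (n * g * n⁻¹) * n := by group
      rw [this, h8]; group
    rw [h9, map_one] at hg
    exact (congrArg Subtype.val hg).symm
  obtain ⟨u, hu, huG, h5⟩ := R.opp1 M (θ₁ n).2 h4
  set u' : ↥(A.Gs M) := ⟨u, huG⟩ with hu'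
  refine ⟨x * u', θ₁.trans (MulAut.conj u'⁻¹), ?_, ?_, ?_⟩
  · intro y
    change θ y = x * u' * (u'⁻¹ * θ₁ y * u'⁻¹⁻¹) * (x * u')⁻¹
    rw [h1]; group
  · intro g
    change _ ↔ ((u'⁻¹ * θ₁ g * u'⁻¹⁻¹ : ↥(A.Gs M)) : GL D.Idx K) ∈ _
    rw [h2 g]
    change _ ↔ u⁻¹ * (θ₁ g : GL D.Idx K) * u⁻¹⁻¹ ∈ _
    constructor
    · intro h
      exact mul_mem (mul_mem (inv_mem hu) h) (inv_mem (inv_mem hu))
    · intro h
      have := mul_mem (mul_mem hu h) (inv_mem hu)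
      have e : u * (u⁻¹ * (θ₁ g : GL D.Idx K) * u⁻¹⁻¹) * u⁻¹ = (θ₁ g : GL D.Idx K) := by group
      rwa [e] at this
  · intro g
    change _ ↔ u⁻¹ * (θ₁ g : GL D.Idx K) * u⁻¹⁻¹ ∈ _
    rw [inv_inv]
    have e1 : (g : GL D.Idx K) ∈ D.negUnipotent K ↔ ((n⁻¹ * g * n : ↥(A.Gs M)) : GL D.Idx K) ∈ D.posUnipotent K := by
      rw [h3]
      have : R.nn L0 * ((n⁻¹ * g * n : ↥(A.Gs M)) : GL D.Idx K) * (R.nn L0)⁻¹ = g := by
        change R.nn L0 * ((R.nn L0)⁻¹ * (g : GL D.Idx K) * R.nn L0) * (R.nn L0)⁻¹ = g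
        group
      rw [this]
    rw [e1, h2, h5]
    have : (θ₁ n : GL D.Idx K) * (θ₁ (n⁻¹ * g * n) : GL D.Idx K) * (θ₁ n : GL D.Idx K)⁻¹ = (θ₁ g : GL D.Idx K) := by
      rw [map_mul, map_mul, map_inv]
      change (θ₁ n : GL D.Idx K) * ((θ₁ n : GL D.Idx K)⁻¹ * (θ₁ g : GL D.Idx K) * (θ₁ n : GL D.Idx K)) * (θ₁ n : GL D.Idx K)⁻¹ = _
      group
    rw [this]

/-- an automorphism preserving `U` preserves `B` -/
theorem pre_B {θ : ↥(A.Gs M) ≃* ↥(A.Gs M)} (h : Pre1 θ (D.posUnipotent K) (D.posUnipotent K)) :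
    Pre1 θ (D.borelSubgroup K) (D.borelSubgroup K) := by
  have key : ∀ {θ : ↥(A.Gs M) ≃* ↥(A.Gs M)}, Pre1 θ (D.posUnipotent K) (D.posUnipotent K) → ∀ g : ↥(A.Gs M),
      (g : GL D.Idx K) ∈ D.borelSubgroup K → (θ g : GL D.Idx K) ∈ D.borelSubgroup K := by
    intro θ h g hg
    apply R.norm_U1 M (θ g).2
    intro u huG
    obtain ⟨y, hy⟩ := θ.surjective ⟨u, huG⟩
    have e : (θ g : GL D.Idx K) * u * (θ g : GL D.Idx K)⁻¹ = (θ (g * y * g⁻¹) : GL D.Idx K) := by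
      rw [map_mul, map_mul, map_inv, hy]; rfl
    have e2 : u = (θ y : GL D.Idx K) := by rw [hy]
    rw [e, e2, ← h, ← h]
    exact B_norm M hg _
  intro g
  refine ⟨key h g, fun h1 => ?_⟩
  have := key h.symm (θ g) h1
  rwa [θ.symm_apply_apply] at this

/-- `H` is the intersection of the normalizers of `U` and `V` -/
theorem mem_H_iff {L0 : List (Fin O.m)} (ht : Top O L0) (g : ↥(A.Gs M)) : (g : GL D.Idx K) ∈ D.diagonalSubgroup K ↔ (g : GL D.Idx K) ∈ D.borelSubgroup K ∧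
      ∀ u ∈ A.Gs M, u ∈ D.negUnipotent K ↔ (g : GL D.Idx K) * u * (g : GL D.Idx K)⁻¹ ∈ D.negUnipotent K := by
  constructor
  · intro hg
    exact ⟨GD.H_le_B hg, fun u _ => Subgroup.mem_normalizer_iff.mp (M.H_norm_V hg) u⟩
  · rintro ⟨h1, h2⟩
    obtain ⟨u, hu, t, htH, huG, htG, he⟩ := mem_B_of_Gs M h1 g.2
    have hn := R.nn_mem_Gs M L0
    -- `u` normalises `V ∩ G`
    have h3 : ∀ v ∈ A.Gs M, v ∈ D.negUnipotent K ↔ u * v * u⁻¹ ∈ D.negUnipotent K := by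
      intro v hv
      have h4 := h2 (t⁻¹ * v * t) (mul_mem (mul_mem (inv_mem htG) hv) htG)
      rw [he] at h4
      have e : u * t * (t⁻¹ * v * t) * (u * t)⁻¹ = u * v * u⁻¹ := by group
      rw [e] at h4
      rw [← h4]
      have := Subgroup.mem_normalizer_iff.mp (M.H_norm_V (inv_mem htH)) v
      rw [inv_inv] at this
      exact this
    have h5 : R.nn L0 * u * (R.nn L0)⁻¹ ∈ D.borelSubgroup K := by
      apply R.norm_U1 M (mul_mem (mul_mem hn huG) (inv_mem hn))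
      intro w hw
      have hw' : (R.nn L0)⁻¹ * w * R.nn L0 ∈ A.Gs M := mul_mem (mul_mem (inv_mem hn) hw) hn
      have h6 := (R.top_iff M ht ((R.nn L0)⁻¹ * w * R.nn L0)).2
      have e1 : R.nn L0 * ((R.nn L0)⁻¹ * w * R.nn L0) * (R.nn L0)⁻¹ = w := by group
      rw [e1] at h6
      rw [← h6, h3 _ hw']
      have h7 := (R.top_iff M ht (u * ((R.nn L0)⁻¹ * w * R.nn L0) * u⁻¹)).2
      rw [h7]
      have e2 : R.nn L0 * (u * ((R.nn L0)⁻¹ * w * R.nn L0) * u⁻¹) * (R.nn L0)⁻¹ =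
        R.nn L0 * u * (R.nn L0)⁻¹ * w * (R.nn L0 * u * (R.nn L0)⁻¹)⁻¹ := by group
      rw [e2]
    have h8 : R.nn L0 * u * (R.nn L0)⁻¹ ∈ D.borelSubgroup K ⊓ D.negUnipotent K := ⟨h5, (R.top_iff M ht u).1.mp hu⟩
    rw [M.B_inf_V, Subgroup.mem_bot, mul_inv_eq_one, mul_eq_left] at h8
    rw [he, h8, one_mul]
    exact htH

/-- an automorphism preserving `U` and `V` preserves `H` -/
theorem pre_H {L0 : List (Fin O.m)} (ht : Top O L0) {θ : ↥(A.Gs M) ≃* ↥(A.Gs M)} (h : Pre1 θ (D.posUnipotent K) (D.posUnipotent K))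
    (h' : Pre1 θ (D.negUnipotent K) (D.negUnipotent K)) : Pre1 θ (D.diagonalSubgroup K) (D.diagonalSubgroup K) := by
  have hchar := R.mem_H_iff M ht
  have hB := R.pre_B M h
  intro g
  rw [hchar, hchar, hB g]
  refine and_congr_right fun _ => ?_
  constructor
  · intro h1 u hu
    obtain ⟨y, hy⟩ := θ.surjective ⟨u, hu⟩
    have e : (θ g : GL D.Idx K) * u * (θ g : GL D.Idx K)⁻¹ = (θ (g * y * g⁻¹) : GL D.Idx K) := by
      rw [map_mul, map_mul, map_inv, hy]; rfl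
    have e2 : u = (θ y : GL D.Idx K) := by rw [hy]
    rw [e, e2, ← h', ← h']
    exact h1 y y.2
  · intro h1 u hu
    have h2 := h1 (θ ⟨u, hu⟩) (θ ⟨u, hu⟩).2
    have e : (θ g : GL D.Idx K) * (θ ⟨u, hu⟩ : GL D.Idx K) * (θ g : GL D.Idx K)⁻¹ = (θ (g * ⟨u, hu⟩ * g⁻¹) : GL D.Idx K) := by
      rw [map_mul, map_mul, map_inv]; rfl
    rw [e, ← h', ← h'] at h2
    exact h2

end TN

end CfsgLib.Chev
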