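import Cfsg.Agent.Lib.TO1
import Cfsg.Agent.Lib.ChevFx2
import Cfsg.Prelude.Def_KGroupFacts
set_option autoImplicit false
set_option linter.style.haveILetI false
set_option linter.unusedSectionVars false

/-! Automorphisms of twisted groups, II: field automorphisms and conjugations. -/

namespace CfsgLib.Chev
open Cfsg.Lie Matrix CfsgLib.BNP CfsgLib.PWM

/-- the field automorphisms of a subgroup stable under them -/
noncomputable def faHom {D : ChevalleyDatum} {K : Type*} [Field K] (G1 : Subgroup (GL D.Idx K))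
    (h : ∀ (σ : RingAut K) (g : GL D.Idx K), g ∈ G1 → mapGL D σ g ∈ G1) : RingAut K →* MulAut ↥G1 where
  toFun σ :=
    { toFun := fun g => ⟨mapGL D σ g, h σ g g.2⟩
      invFun := fun g => ⟨mapGL D σ⁻¹ g, h σ⁻¹ g g.2⟩
      left_inv := fun g => by
        apply Subtype.ext
        apply Units.ext
        ext i j
        change σ.symm (σ ((g : GL D.Idx K) i j)) = _
        rw [σ.symm_apply_apply]
      right_inv := fun g => by
        apply Subtype.ext
        apply Units.ext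
        ext i j
        change σ (σ.symm ((g : GL D.Idx K) i j)) = _
        rw [σ.apply_symm_apply]
      map_mul' := fun a b => Subtype.ext (map_mul (mapGL D σ) (a : GL D.Idx K) b) }
  map_one' := by
    ext g
    rfl
  map_mul' σ τ := by
    ext g
    rfl

theorem faHom_coe {D : ChevalleyDatum} {K : Type*} [Field K] (G1 : Subgroup (GL D.Idx K))
    (h : ∀ (σ : RingAut K) (g : GL D.Idx K), g ∈ G1 → mapGL D σ g ∈ G1) (σ : RingAut K) (g : ↥G1) :
    ((faHom G1 h σ g : ↥G1) : GL D.Idx K) = mapGL D σ g := rfl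

theorem CG.mg_V {D : ChevalleyDatum} {K : Type*} [Field K] (M : CG D K) (σ : K ≃+* K) {g : GL D.Idx K}
    (hg : g ∈ D.negUnipotent K) : mapGL D σ g ∈ D.negUnipotent K := by
  rw [M.V_eq] at hg ⊢; exact M.mg_XS σ hg

theorem faHom_U {D : ChevalleyDatum} {K : Type*} [Field K] (M : CG D K) (G1 : Subgroup (GL D.Idx K))
    (h : ∀ (σ : RingAut K) (g : GL D.Idx K), g ∈ G1 → mapGL D σ g ∈ G1) (σ : RingAut K) :
    TN.Pre1 (faHom G1 h σ) (D.posUnipotent K) (D.posUnipotent K) := by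
  intro g
  refine ⟨fun hg => M.mg_U σ hg, fun hg => ?_⟩
  have h1 := M.mg_U σ⁻¹ hg
  have e : mapGL D σ⁻¹ (faHom G1 h σ g : ↥G1) = (g : GL D.Idx K) := by
    apply Units.ext
    ext i j
    change σ.symm (σ ((g : GL D.Idx K) i j)) = _
    rw [σ.symm_apply_apply]
  rwa [e] at h1

theorem faHom_V {D : ChevalleyDatum} {K : Type*} [Field K] (M : CG D K) (G1 : Subgroup (GL D.Idx K))
    (h : ∀ (σ : RingAut K) (g : GL D.Idx K), g ∈ G1 → mapGL D σ g ∈ G1) (σ : RingAut K) :
    TN.Pre1 (faHom G1 h σ) (D.negUnipotent K) (D.negUnipotent K) := by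
  intro g
  refine ⟨fun hg => M.mg_V σ hg, fun hg => ?_⟩
  have h1 := M.mg_V σ⁻¹ hg
  have e : mapGL D σ⁻¹ (faHom G1 h σ g : ↥G1) = (g : GL D.Idx K) := by
    apply Units.ext
    ext i j
    change σ.symm (σ ((g : GL D.Idx K) i j)) = _
    rw [σ.symm_apply_apply]
  rwa [e] at h1

/-- the outer automorphism group of isomorphic groups -/
theorem card_out_congr' {G H : Type*} [Group G] [Group H] (e : G ≃* H) : Nat.card (Cfsg.Out G) = Nat.card (Cfsg.Out H) := by
  refine Nat.card_congr (QuotientGroup.congr (Cfsg.Inn G) (Cfsg.Inn H) (MulAut.congr e) ?_).toEquiv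
  ext φ
  constructor
  · rintro ⟨_, ⟨g, rfl⟩, rfl⟩
    refine ⟨e g, ?_⟩
    ext x
    change e g * x * (e g)⁻¹ = e (g * e.symm x * g⁻¹)
    rw [map_mul, map_mul, map_inv, e.apply_symm_apply]
  · rintro ⟨g, rfl⟩
    refine ⟨MulAut.conj (e.symm g), ⟨e.symm g, rfl⟩, ?_⟩
    ext x
    change e (e.symm g * e.symm x * (e.symm g)⁻¹) = g * x * g⁻¹
    rw [map_mul, map_mul, map_inv, e.apply_symm_apply, e.apply_symm_apply]

/-- counting -/
theorem card_out_of {G : Type*} [Group G] {A : Type*} [Group A] (Fa : A →* MulAut G)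
    (h1 : ∀ φ : MulAut G, ∃ σ g, φ = MulAut.conj g * Fa σ) (h2 : ∀ σ, Fa σ ∈ Cfsg.Inn G → σ = 1) :
    Nat.card (Cfsg.Out G) = Nat.card A := by
  refine (Nat.card_congr (Equiv.ofBijective (fun σ : A => (QuotientGroup.mk (Fa σ) : Cfsg.Out G)) ⟨?_, ?_⟩)).symm
  · intro σ τ h
    have h3 : (Fa σ)⁻¹ * Fa τ ∈ Cfsg.Inn G := QuotientGroup.eq.mp h
    rw [← map_inv, ← map_mul] at h3
    exact inv_mul_eq_one.mp (h2 _ h3)
  · intro x
    obtain ⟨φ, rfl⟩ := QuotientGroup.mk_surjective x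
    obtain ⟨σ, g, rfl⟩ := h1 φ
    refine ⟨σ, ?_⟩
    apply QuotientGroup.eq.mpr
    have hn : (Cfsg.Inn G).Normal := inferInstance
    have h3 : MulAut.conj g ∈ Cfsg.Inn G := ⟨g, rfl⟩
    have h4 := hn.conj_mem _ h3 (Fa σ)⁻¹
    rw [inv_inv] at h4
    rw [← mul_assoc]
    exact h4

namespace TN
variable {D : ChevalleyDatum} {T : TD D} {K : Type*} [Field K] {A : TA T K} {O : TO T} (R : TN A O) (M : CG D K)
include R M

/-- inner automorphisms preserving `U` and `V` -/
theorem conj_H {L0 : List (Fin O.m)} (ht : Top O L0) (g : ↥(A.Gs M)) (hU : Pre1 (MulAut.conj g) (D.posUnipotent K) (D.posUnipotent K))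
    (hV : Pre1 (MulAut.conj g) (D.negUnipotent K) (D.negUnipotent K)) : (g : GL D.Idx K) ∈ D.diagonalSubgroup K := by
  rw [R.mem_H_iff M ht]
  refine ⟨R.norm_U1 M g.2 (fun u hu => hU ⟨u, hu⟩), fun u hu => hV ⟨u, hu⟩⟩

end TN

end CfsgLib.Chev
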