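import Cfsg.Agent.Lib.TWF4
set_option autoImplicit false
set_option linter.style.haveILetI false
set_option maxRecDepth 1000000

/-! Perfectness and simplicity of `²F₄(q)`. -/

namespace CfsgLib.Chev.TwF4
open Cfsg.Lie Matrix CfsgLib.BNP CfsgLib.PWM CfsgLib.Chev.GA CfsgLib.Chev CfsgLib.Chev.EV
open scoped commutatorElement

variable {K : Type*} [Field K] [CharP K 2] (θ τ : K →+* K) (hτ : ∀ t, τ t = (θ t) ^ 2)
  (hi : ∀ t, θ (τ t) = t) (hi' : ∀ t, τ (θ t) = t)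

theorem neg_eq' (K : Type*) [Field K] [CharP K 2] (t : K) : -t = t := by linear_combination (-t) * two0 K

theorem even_cast (K : Type*) [Field K] [CharP K 2] {c : ℤ} (h : c % 2 = 0) : (c : K) = 0 := by
  have h1 : c = 2 * (c / 2) := by omega
  rw [h1]; push_cast; rw [two0 K]; ring

/-- conjugation without signs -/
theorem nl_xg2 {l : List ℕ} (hl : Wd chevF4 l) {s : ℕ} (hs : s < chevF4.nroots) (t : K) :
    nl chevF4 K l * xg chevF4 s t * (nl chevF4 K l)⁻¹ = xg chevF4 (rl chevF4 l s) t := by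
  rcases (cgF4 K).nl_xg (F := K) l hl hs with h | h
  · exact h t
  · rw [h, neg_eq']

theorem cmt2 : chevF4.commTerms 27 28 = [(30, chevF4.chainM 27 28 1, 1, 1)] ∧ chevF4.chainM 27 28 1 % 2 = 0 ∧
    28 ≠ chevF4.neg 27 ∧ 27 < chevF4.nroots ∧ 28 < chevF4.nroots ∧ cmB chevF4 25 28 = true ∧ cmB chevF4 25 30 = true ∧
    cmB chevF4 27 30 = true := by
  decide +kernel

theorem comm_78 (K : Type*) [Field K] [CharP K 2] (a b : K) : Commute (xg chevF4 28 b) (xg chevF4 27 a) := by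
  obtain ⟨h1, h2, h3, l1, l2, _⟩ := cmt2
  have h := (cgF4 K).comm_xg l1 l2 (by decide) h3 a b
  unfold ChevalleyDatum.commWord at h
  rw [h1, List.map_cons, List.map_nil, wg_cons, wg_nil, mul_one, even_cast K h2] at h
  have e : (0 : K) * (-a) ^ 1 * b ^ 1 = 0 := by ring
  rw [e, (cgF4 K).xg_zero, mul_one] at h
  exact h

include hi' hτ in
theorem yy_mul (t u t' u' : K) : yy θ τ t u * yy θ τ t' u' = yy θ τ (t + t') (u + u' + t * θ t') := by
  have M := cgF4 K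
  have c1 := cm1.2.2.2.2.2.2.1
  obtain ⟨_, _, _, _, _, c2, c3, c4⟩ := cmt2
  have e1 : (t + t') * θ (t + t') + (u + u' + t * θ t') = (θ t * t' + (t * θ t + u)) + (t' * θ t' + u') := by
    rw [map_add]; linear_combination (t * θ t') * two0 K
  have e2 : τ (u + u' + t * θ t') = (t' * (θ t) ^ 2 + τ u) + τ u' := by
    rw [map_add, map_add, map_mul, hi', hτ t]; ring
  have h1 := comm_ab K (θ t) t'
  unfold yy
  rw [e1, e2, map_add, ← M.xg_add 25 t t', ← M.xg_add 27 (θ t) (θ t'), ← M.xg_add 28 _ (t' * θ t' + u'), ← M.xg_add 28 (θ t * t') _,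
    ← M.xg_add 30 _ (τ u'), ← M.xg_add 30 _ (τ u)]
  have k1 : Commute (xg chevF4 28 (t * θ t + u) * xg chevF4 30 (τ u)) (xg chevF4 25 t') :=
    (M.xg_cm c2 t' _).mul_left (M.xg_cm c3 t' _)
  have k2 : Commute ((xg chevF4 28 (θ t * t') * xg chevF4 30 (t' * (θ t) ^ 2)) * (xg chevF4 28 (t * θ t + u) * xg chevF4 30 (τ u)))
      (xg chevF4 27 (θ t')) :=
    ((comm_78 K _ _).mul_left (M.xg_cm c4 _ _)).mul_left ((comm_78 K _ _).mul_left (M.xg_cm c4 _ _))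
  have k3 : Commute (xg chevF4 30 (t' * (θ t) ^ 2)) (xg chevF4 28 (t * θ t + u)) := M.xg_cm c1 _ _
  have k4 : Commute (xg chevF4 30 (t' * (θ t) ^ 2) * xg chevF4 30 (τ u)) (xg chevF4 28 (t' * θ t' + u')) :=
    (M.xg_cm c1 _ _).mul_left (M.xg_cm c1 _ _)
  generalize xg chevF4 25 t = A at *
  generalize xg chevF4 25 t' = A' at *
  generalize xg chevF4 27 (θ t) = B at *
  generalize xg chevF4 27 (θ t') = B' at *
  generalize xg chevF4 28 (t * θ t + u) = C at *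
  generalize xg chevF4 28 (t' * θ t' + u') = C' at *
  generalize xg chevF4 28 (θ t * t') = F at *
  generalize xg chevF4 30 (t' * (θ t) ^ 2) = G at *
  generalize xg chevF4 30 (τ u) = E at *
  generalize xg chevF4 30 (τ u') = E' at *
  calc A * (B * (C * E)) * (A' * (B' * (C' * E'))) = A * B * ((C * E) * A') * (B' * (C' * E')) := by group
    _ = A * B * (A' * (C * E)) * (B' * (C' * E')) := by rw [k1.eq]
    _ = A * (B * A') * (C * E) * (B' * (C' * E')) := by group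
    _ = A * (A' * (B * (F * G))) * (C * E) * (B' * (C' * E')) := by rw [h1]
    _ = A * A' * B * ((F * G * (C * E)) * B') * (C' * E') := by group
    _ = A * A' * B * (B' * (F * G * (C * E))) * (C' * E') := by rw [k2.eq]
    _ = A * A' * B * B' * F * (G * C) * E * C' * E' := by group
    _ = A * A' * B * B' * F * (C * G) * E * C' * E' := by rw [k3.eq]
    _ = A * A' * B * B' * F * C * ((G * E) * C') * E' := by group
    _ = A * A' * B * B' * F * C * (C' * (G * E)) * E' := by rw [k4.eq]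
    _ = _ := by group

theorem yy_zero : yy θ τ 0 0 = 1 := by
  unfold yy
  simp only [map_zero, zero_mul, add_zero, (cgF4 K).xg_zero, mul_one]

include hi' hτ in
theorem yy_inv (t u : K) : (yy θ τ t u)⁻¹ = yy θ τ t (u + t * θ t) := by
  rw [inv_eq_iff_mul_eq_one, yy_mul θ τ hτ hi', ← yy_zero θ τ]
  congr 1
  · linear_combination t * two0 K
  · linear_combination (u + t * θ t) * two0 K

include hi' hτ in
theorem gg'_eq (t u : K) : gg' θ τ t u = nl chevF4 K [1, 2, 1, 2] * yy θ τ t (u + t * θ t) * (nl chevF4 K [1, 2, 1, 2])⁻¹ := by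
  have M := cgF4 K
  have rr : rl chevF4 [1, 2, 1, 2] 25 = 22 ∧ rl chevF4 [1, 2, 1, 2] 27 = 20 ∧ rl chevF4 [1, 2, 1, 2] 28 = 19 ∧
    rl chevF4 [1, 2, 1, 2] 30 = 17 ∧ 25 < chevF4.nroots ∧ 27 < chevF4.nroots ∧ 28 < chevF4.nroots ∧ 30 < chevF4.nroots := by decide +kernel
  obtain ⟨r1, r2, r3, r4, l1, l2, l3, l4⟩ := rr
  have hw : Wd chevF4 [1, 2, 1, 2] := Wd_wv chevF4 (w 1)
  have q1 := nl_xg2 (K := K) hw l1 t
  have q2 := nl_xg2 (K := K) hw l2 (θ t)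
  have q3 := nl_xg2 (K := K) hw l3 (t * θ t + (u + t * θ t))
  have q4 := nl_xg2 (K := K) hw l4 (τ (u + t * θ t))
  rw [r1] at q1
  rw [r2] at q2
  rw [r3] at q3
  rw [r4] at q4
  have e : nl chevF4 K [1, 2, 1, 2] * yy θ τ t (u + t * θ t) * (nl chevF4 K [1, 2, 1, 2])⁻¹ =
      xg chevF4 22 t * (xg chevF4 20 (θ t) * (xg chevF4 19 (t * θ t + (u + t * θ t)) * xg chevF4 17 (τ (u + t * θ t)))) := by
    rw [← q1, ← q2, ← q3, ← q4]
    unfold yy
    group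
  rw [e]
  unfold gg'
  have c1 := cm1.2.2.2.2.2.2.2.2
  have h1 := comm_ab' K (θ t) t
  have e1 : t * θ t + (u + t * θ t) = θ t * t + (t * θ t + u) := by ring
  have e2 : τ (u + t * θ t) = t * (θ t) ^ 2 + τ u := by
    rw [map_add, map_mul, hi', hτ t]; ring
  rw [e1, e2, ← M.xg_add 19 (θ t * t), ← M.xg_add 17 (t * (θ t) ^ 2)]
  have k1 := (M.xg_cm c1 (t * θ t + u) (t * (θ t) ^ 2)).eq
  generalize xg chevF4 22 t = A at *
  generalize xg chevF4 20 (θ t) = B at *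
  generalize xg chevF4 19 (θ t * t) = C at *
  generalize xg chevF4 17 (t * (θ t) ^ 2) = E at *
  generalize xg chevF4 17 (τ u) = F at *
  generalize xg chevF4 19 (t * θ t + u) = G at *
  calc B * (A * (G * F)) = (B * A) * (G * F) := by group
    _ = A * (B * (C * E)) * (G * F) := by rw [h1]
    _ = A * (B * (C * (E * G) * F)) := by group
    _ = A * (B * (C * (G * E) * F)) := by rw [k1]
    _ = _ := by group

theorem pair'_eq (t : K) : xg chevF4 14 (θ t) * xg chevF4 23 t =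
    nl chevF4 K [0, 3] * (xg chevF4 33 (θ t) * xg chevF4 24 t) * (nl chevF4 K [0, 3])⁻¹ := by
  have rr : rl chevF4 [0, 3] 33 = 14 ∧ rl chevF4 [0, 3] 24 = 23 ∧ 33 < chevF4.nroots ∧ 24 < chevF4.nroots := by decide +kernel
  obtain ⟨r1, r2, l1, l2⟩ := rr
  have hw : Wd chevF4 [0, 3] := Wd_wv chevF4 (w 0)
  have q1 := nl_xg2 (K := K) hw l1 (θ t)
  have q2 := nl_xg2 (K := K) hw l2 t
  rw [r1] at q1
  rw [r2] at q2
  rw [← q1, ← q2]
  group

variable {m : ℕ} (hθ : ∀ t, θ t = t ^ (2 ^ m))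

section
variable [Fintype K] (hK : Fintype.card K = 2 ^ (2 * m + 1))

include hi hi' hθ hK in
theorem hF_mem {c : Fin chevF4.rank → Kˣ} (hc : (ta θ τ hτ).st c = c) : hF chevF4 K c ∈ twistedF4 K (2 ^ m) := by
  apply H_le θ τ hτ hi hi' hθ hK
  refine Subgroup.mem_inf.mpr ⟨?_, ?_⟩
  · rw [← (cgF4 K).hF_range]; exact ⟨c, rfl⟩
  · rw [TA.mem_Gs]
    exact ⟨(cgF4 K).hF_mem_G c, by rw [(ta θ τ hτ).s_hF (cgF4 K), hc]⟩

/-- a torus element -/
noncomputable def tc (b : Kˣ) : Fin chevF4.rank → Kˣ := (![Units.map (θ : K →* K) b, 1, 1, b] : Fin 4 → Kˣ)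

include hi hi' in
omit [Fintype K] in
theorem tc_st (b : Kˣ) : (ta θ τ hτ).st (tc θ b) = tc θ b := by
  refine (st_eq_iff θ τ hτ hi hi' _).mpr ⟨rfl, ?_⟩
  change ((1 : Kˣ) : K) = θ ((1 : Kˣ) : K)
  rw [Units.val_one, map_one]

omit [CharP K 2] [Fintype K] in
theorem tc_prod (b : Kˣ) (r : ℕ) : ((∏ k : Fin chevF4.rank, tc θ b k ^ chevF4.cartan k r : Kˣ) : K) =
    (θ b) ^ chevF4.cartan 0 r * (b : K) ^ chevF4.cartan 3 r := by
  have h1 : ∏ k : Fin chevF4.rank, tc θ b k ^ chevF4.cartan k r = ∏ k : Fin 4, tc θ b (I k) ^ chevF4.cartan (I k) r := rfl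
  rw [h1, Fin.prod_univ_four]
  have e0 : tc θ b (I 0) = Units.map (θ : K →* K) b := rfl
  have e1 : tc θ b (I 1) = 1 := rfl
  have e2 : tc θ b (I 2) = 1 := rfl
  have e3 : tc θ b (I 3) = b := rfl
  rw [e0, e1, e2, e3, _root_.one_zpow, _root_.one_zpow, mul_one, mul_one, Units.val_mul, Units.val_zpow_eq_zpow_val,
    Units.val_zpow_eq_zpow_val]
  rfl

theorem cart : chevF4.cartan 0 33 = 2 ∧ chevF4.cartan 3 33 = 0 ∧ chevF4.cartan 0 24 = 0 ∧ chevF4.cartan 3 24 = 2 ∧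
    chevF4.cartan 0 25 = 0 ∧ chevF4.cartan 3 25 = -1 ∧ chevF4.cartan 0 27 = -1 ∧ chevF4.cartan 3 27 = 0 ∧
    chevF4.cartan 0 28 = -1 ∧ chevF4.cartan 3 28 = -1 ∧ chevF4.cartan 0 30 = -2 ∧ chevF4.cartan 3 30 = -1 ∧
    33 < chevF4.nroots ∧ 24 < chevF4.nroots ∧ 25 < chevF4.nroots ∧ 27 < chevF4.nroots ∧ 28 < chevF4.nroots ∧ 30 < chevF4.nroots := by
  decide +kernel

omit [Fintype K] in
theorem tc_pair (b : Kˣ) (t : K) : hF chevF4 K (tc θ b) * (xg chevF4 33 (θ t) * xg chevF4 24 t) * (hF chevF4 K (tc θ b))⁻¹ =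
    xg chevF4 33 (θ ((b : K) ^ 2 * t)) * xg chevF4 24 ((b : K) ^ 2 * t) := by
  obtain ⟨a1, a2, a3, a4, a5, a6, a7, a8, a9, a10, a11, a12, l1, l2, l3, l4, l5, l6⟩ := cart
  have M := cgF4 K
  have h1 := M.hF_xg (tc θ b) l1 (θ t)
  have h2 := M.hF_xg (tc θ b) l2 t
  rw [tc_prod, a1, a2, zpow_zero, mul_one] at h1
  rw [tc_prod, a3, a4, zpow_zero, one_mul] at h2
  have z2 : ∀ x : K, x ^ (2 : ℤ) = x ^ 2 := fun x => by rw [show (2 : ℤ) = ((2 : ℕ) : ℤ) from rfl, zpow_natCast]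
  have e1 : (θ (b : K)) ^ (2 : ℤ) * θ t = θ ((b : K) ^ 2 * t) := by
    rw [map_mul, map_pow, z2]
  have e2 : (b : K) ^ (2 : ℤ) * t = (b : K) ^ 2 * t := by rw [z2]
  rw [e1] at h1
  rw [e2] at h2
  rw [← h1, ← h2]
  group

include hτ hi' in
omit [Fintype K] in
theorem tc_yy (b : Kˣ) (t u : K) : hF chevF4 K (tc θ b) * yy θ τ t u * (hF chevF4 K (tc θ b))⁻¹ =
    yy θ τ ((b : K)⁻¹ * t) ((b : K)⁻¹ * θ (b : K)⁻¹ * u) := by
  obtain ⟨a1, a2, a3, a4, a5, a6, a7, a8, a9, a10, a11, a12, l1, l2, l3, l4, l5, l6⟩ := cart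
  have M := cgF4 K
  have h1 := M.hF_xg (tc θ b) l3 t
  have h2 := M.hF_xg (tc θ b) l4 (θ t)
  have h3 := M.hF_xg (tc θ b) l5 (t * θ t + u)
  have h4 := M.hF_xg (tc θ b) l6 (τ u)
  rw [tc_prod, a5, a6, zpow_zero, one_mul, _root_.zpow_neg_one] at h1
  rw [tc_prod, a7, a8, zpow_zero, mul_one, _root_.zpow_neg_one] at h2
  rw [tc_prod, a9, a10, _root_.zpow_neg_one, _root_.zpow_neg_one] at h3
  rw [tc_prod, a11, a12, _root_.zpow_neg_one] at h4
  have e2 : (θ (b : K))⁻¹ * θ t = θ ((b : K)⁻¹ * t) := by rw [map_mul, map_inv₀]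
  have e3 : (θ (b : K))⁻¹ * (b : K)⁻¹ * (t * θ t + u) = ((b : K)⁻¹ * t) * θ ((b : K)⁻¹ * t) + (b : K)⁻¹ * θ (b : K)⁻¹ * u := by
    rw [map_mul, map_inv₀]; ring
  have e4 : (θ (b : K)) ^ (-2 : ℤ) * (b : K)⁻¹ * τ u = τ ((b : K)⁻¹ * θ (b : K)⁻¹ * u) := by
    rw [map_mul, map_mul, hi', map_inv₀, hτ (b : K), _root_.zpow_neg, show (2 : ℤ) = ((2 : ℕ) : ℤ) from rfl, zpow_natCast]
  rw [e2] at h2
  rw [e3] at h3
  rw [e4] at h4
  have e : hF chevF4 K (tc θ b) * yy θ τ t u * (hF chevF4 K (tc θ b))⁻¹ =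
     (hF chevF4 K (tc θ b) * xg chevF4 25 t * (hF chevF4 K (tc θ b))⁻¹) *
     ((hF chevF4 K (tc θ b) * xg chevF4 27 (θ t) * (hF chevF4 K (tc θ b))⁻¹) *
     ((hF chevF4 K (tc θ b) * xg chevF4 28 (t * θ t + u) * (hF chevF4 K (tc θ b))⁻¹) *
     (hF chevF4 K (tc θ b) * xg chevF4 30 (τ u) * (hF chevF4 K (tc θ b))⁻¹))) := by
    unfold yy
    group
  rw [e, h1, h2, h3, h4]
  rfl

omit [CharP K 2] in
theorem exists_b (h2 : 2 < Fintype.card K) : ∃ b : Kˣ, b ≠ 1 := by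
  classical
  by_contra hc
  push Not at hc
  have h1 : (Finset.univ : Finset K) ⊆ {0, 1} := by
    intro a _
    by_cases h0 : a = 0
    · simp [h0]
    · have := congrArg Units.val (hc (Units.mk0 a h0))
      rw [Units.val_mk0, Units.val_one] at this
      simp [this]
  have h3 := Finset.card_le_card h1
  rw [Finset.card_univ] at h3
  have h4 : ({0, 1} : Finset K).card ≤ 2 := Finset.card_le_two
  omega

include hτ hi hi' hθ hK in
theorem yy_comm (h2 : 2 < Fintype.card K) (t u : K) : yy θ τ t u ∈ ⁅twistedF4 K (2 ^ m), twistedF4 K (2 ^ m)⁆ := by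
  obtain ⟨b, hb⟩ := exists_b h2
  set χ : K := (b : K)⁻¹ with hχ
  have hχ0 : χ ≠ 0 := inv_ne_zero b.ne_zero
  have hχ1 : χ + 1 ≠ 0 := by
    intro h
    apply hb
    apply Units.ext
    have : χ = 1 := by linear_combination h - two0 K
    rw [Units.val_one, ← inv_inv (b : K), ← hχ, this, inv_one]
  have hχ2 : χ * θ χ + 1 ≠ 0 := by
    intro h
    have h3 : χ * θ χ = 1 := by linear_combination h - two0 K
    have h4 : τ χ * χ = 1 := by
      have := congrArg τ h3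
      rwa [map_mul, hi', map_one] at this
    have h5 : τ χ = θ χ := mul_right_cancel₀ hχ0 (by rw [h4, mul_comm, h3])
    rw [hτ] at h5
    have h6 : θ χ ≠ 0 := (map_ne_zero θ).mpr hχ0
    have h7 : θ χ = 1 := by
      have : θ χ * θ χ = θ χ * 1 := by rw [mul_one, ← pow_two]; exact h5
      exact mul_left_cancel₀ h6 this
    rw [h7, mul_one] at h3
    apply hχ1
    rw [h3]
    linear_combination two0 K
  have hh := hF_mem θ τ hτ hi hi' hθ hK (tc_st θ τ hτ hi hi' b)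
  have key : ∀ t u : K, yy θ τ (χ * t) (χ * θ χ * u) * (yy θ τ t u)⁻¹ ∈ ⁅twistedF4 K (2 ^ m), twistedF4 K (2 ^ m)⁆ := by
    intro t u
    have := Subgroup.commutator_mem_commutator hh (yy_mem θ τ hτ hi' hθ t u)
    rw [commutatorElement_def, tc_yy θ τ hτ hi'] at this
    exact this
  have key0 : ∀ u : K, yy θ τ 0 u ∈ ⁅twistedF4 K (2 ^ m), twistedF4 K (2 ^ m)⁆ := by
    intro u
    have h5 := key 0 (u / (χ * θ χ + 1))
    rw [yy_inv θ τ hτ hi', yy_mul θ τ hτ hi'] at h5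
    have e1 : χ * 0 + 0 = (0 : K) := by ring
    have e2 : χ * θ χ * (u / (χ * θ χ + 1)) + (u / (χ * θ χ + 1) + 0 * θ 0) + χ * 0 * θ 0 = u := by
      field_simp
      ring
    rw [e1, e2] at h5
    exact h5
  have h5 := key (t / (χ + 1)) 0
  rw [yy_inv θ τ hτ hi', yy_mul θ τ hτ hi'] at h5
  have e1 : χ * (t / (χ + 1)) + t / (χ + 1) = t := by field_simp
  rw [e1] at h5
  generalize χ * θ χ * 0 + (0 + t / (χ + 1) * θ (t / (χ + 1))) + χ * (t / (χ + 1)) * θ (t / (χ + 1)) = v at h5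
  have h6 := mul_mem h5 (key0 (u - v))
  rw [yy_mul θ τ hτ hi'] at h6
  have e3 : v + (u - v) + t * θ 0 = u := by rw [map_zero]; ring
  rwa [e3, add_zero] at h6

include hτ hi hi' hθ hK in
theorem pair_comm (h2 : 2 < Fintype.card K) (t : K) : xg chevF4 33 (θ t) * xg chevF4 24 t ∈ ⁅twistedF4 K (2 ^ m), twistedF4 K (2 ^ m)⁆ := by
  obtain ⟨b, hb⟩ := exists_b h2
  have hχ1 : (b : K) ^ 2 - 1 ≠ 0 := by
    intro h
    apply hb
    apply Units.ext
    have h3 : ((b : K) - 1) ^ 2 = 0 := by linear_combination h + (1 - (b : K)) * two0 K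
    rw [Units.val_one]
    exact sub_eq_zero.mp (pow_eq_zero_iff two_ne_zero |>.mp h3)
  have hh := hF_mem θ τ hτ hi hi' hθ hK (tc_st θ τ hτ hi hi' b)
  have M := cgF4 K
  have h5 := Subgroup.commutator_mem_commutator hh (pair_mem θ τ hτ hθ (t / ((b : K) ^ 2 - 1)))
  rw [commutatorElement_def, tc_pair] at h5
  set t' := t / ((b : K) ^ 2 - 1) with ht'
  have e : xg chevF4 33 (θ ((b : K) ^ 2 * t')) * xg chevF4 24 ((b : K) ^ 2 * t') * (xg chevF4 33 (θ t') * xg chevF4 24 t')⁻¹ =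
      xg chevF4 33 (θ t) * xg chevF4 24 t := by
    have e1 : t = (b : K) ^ 2 * t' + -t' := by
      rw [ht']; field_simp; ring
    have e2 : xg chevF4 33 (θ t) = xg chevF4 33 (θ ((b : K) ^ 2 * t')) * (xg chevF4 33 (θ t'))⁻¹ := by
      rw [← M.xg_neg, M.xg_add, ← map_neg, ← map_add, ← e1]
    have e3 : xg chevF4 24 t = xg chevF4 24 ((b : K) ^ 2 * t') * (xg chevF4 24 t')⁻¹ := by
      rw [← M.xg_neg, M.xg_add, ← e1]
    rw [e2, e3]
    have k1 := (M.xg_cm cm1.2.1 (θ t') ((b : K) ^ 2 * t')).inv_right.eq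
    have k2 := (M.xg_cm cm1.2.1 (θ t') t').inv_inv.eq
    generalize xg chevF4 33 (θ ((b : K) ^ 2 * t')) = X at *
    generalize xg chevF4 24 ((b : K) ^ 2 * t') = Y at *
    generalize xg chevF4 33 (θ t') = x at *
    generalize xg chevF4 24 t' = y at *
    calc X * Y * (x * y)⁻¹ = X * Y * (y⁻¹ * x⁻¹) := by group
      _ = X * Y * (x⁻¹ * y⁻¹) := by rw [k2]
      _ = X * (Y * x⁻¹) * y⁻¹ := by group
      _ = X * (x⁻¹ * Y) * y⁻¹ := by rw [k1]
      _ = _ := by group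
  rwa [e] at h5

include hτ hi hi' hθ hK in
theorem perfect (h2 : 2 < Fintype.card K) : commutator ↥(twistedF4 K (2 ^ m)) = ⊤ := by
  apply perfect_of_le
  apply (cgF4 K).genSub_le
  have hn0 : nl chevF4 K [0, 3] ∈ twistedF4 K (2 ^ m) := n_mem θ τ hτ hθ (0 : Fin 2)
  have hn1 : nl chevF4 K [1, 2, 1, 2] ∈ twistedF4 K (2 ^ m) := n_mem θ τ hτ hθ (1 : Fin 2)
  intro w hw
  rcases (words θ τ hτ hθ).mp hw with ⟨t, rfl | rfl⟩ | ⟨t, u, rfl | rfl⟩
  · rw [wg_cons, wg_cons, wg_nil, mul_one]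
    exact pair_comm θ τ hτ hi hi' hθ hK h2 t
  · rw [wg_cons, wg_cons, wg_nil, mul_one, pair'_eq]
    exact comm_conj_mem hn0 (pair_comm θ τ hτ hi hi' hθ hK h2 t)
  · rw [wg_cons, wg_cons, wg_cons, wg_cons, wg_nil, mul_one]
    change gg θ τ t u ∈ _
    rw [gg_eq θ τ hτ hi']
    exact yy_comm θ τ hτ hi hi' hθ hK h2 _ _
  · rw [wg_cons, wg_cons, wg_cons, wg_cons, wg_nil, mul_one]
    change gg' θ τ t u ∈ _
    rw [gg'_eq θ τ hτ hi']
    exact comm_conj_mem hn1 (yy_comm θ τ hτ hi hi' hθ hK h2 _ _)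

end

theorem adj : ∀ k : ℕ, ∀ (h : k + 1 < O.m), ∃ s < chevF4.nroots,
    rl chevF4 (wv (O.fl [⟨k, by omega⟩, ⟨k + 1, h⟩, ⟨k, by omega⟩, ⟨k + 1, h⟩])) s ≠ s := by
  have key : ∀ k : Fin 1, ∃ s < chevF4.nroots,
    rl chevF4 (wv (O.fl [(⟨k, by omega⟩ : Fin 2), (⟨k + 1, by omega⟩ : Fin 2), (⟨k, by omega⟩ : Fin 2), (⟨k + 1, by omega⟩ : Fin 2)])) s ≠ s := by
    decide +kernel
  intro k h
  have h' : k + 1 < 2 := h
  exact key ⟨k, by omega⟩

theorem adj' : ∀ k : ℕ, ∀ (h : k + 1 < O.m), ∃ s < chevF4.nroots,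
    rl chevF4 (wv (O.fl [⟨k + 1, h⟩, ⟨k, by omega⟩, ⟨k + 1, h⟩, ⟨k, by omega⟩])) s ≠ s := by
  have key : ∀ k : Fin 1, ∃ s < chevF4.nroots,
    rl chevF4 (wv (O.fl [(⟨k + 1, by omega⟩ : Fin 2), (⟨k, by omega⟩ : Fin 2), (⟨k + 1, by omega⟩ : Fin 2), (⟨k, by omega⟩ : Fin 2)])) s ≠ s := by
    decide +kernel
  intro k h
  have h' : k + 1 < 2 := h
  exact key ⟨k, by omega⟩

theorem nontriv : Nontrivial ↥((ta θ τ hτ).Gs (cgF4 K)) := by
  obtain ⟨x, hx1, hx2, hx3, hx4⟩ := (R θ τ hτ).x (0 : Fin 2)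
  refine ⟨⟨⟨x, ((ta θ τ hτ).mem_Gs (cgF4 K)).mpr ⟨(cgF4 K).U_le_G hx1, hx3⟩⟩, 1, fun h => hx2 ?_⟩⟩
  exact congrArg Subtype.val h

include hi hi' hθ in
theorem simple [Fintype K] (hK : Fintype.card K = 2 ^ (2 * m + 1)) (h2 : 2 < Fintype.card K) :
    IsSimpleGroup ↥((ta θ τ hτ).Gs (cgF4 K)) := by
  haveI := nontriv θ τ hτ
  have hp := perfect θ τ hτ hi hi' hθ hK h2
  rw [eq_Gs θ τ hτ hi hi' hθ hK] at hp
  exact isSimpleGroup (P := (R θ τ hτ).bnp1 (cgF4 K)) ((R θ τ hτ).irred1 (cgF4 K) adj adj') ((R θ τ hτ).solvable_B1 (cgF4 K)) hp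
    (core θ τ hτ)

end CfsgLib.Chev.TwF4
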