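import Cfsg.Agent.Lib.TWG3
import Cfsg.Agent.Lib.TWF5
set_option autoImplicit false
set_option linter.style.haveILetI false
set_option maxRecDepth 1000000

/-! Perfectness and simplicity of `²G₂(q)`. -/

namespace CfsgLib.Chev.TwG2
open Cfsg.Lie Matrix CfsgLib.BNP CfsgLib.PWM CfsgLib.Chev.GA CfsgLib.Chev CfsgLib.Chev.EV
open scoped commutatorElement

variable {K : Type*} [Field K] [CharP K 3] (θ τ : K →+* K) (hτ : ∀ t, τ t = (θ t) ^ 3)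
  (hi : ∀ t, θ (τ t) = t) (hi' : ∀ t, τ (θ t) = t)

include hτ hi in
theorem ree_mul (t u v t' u' v' : K) : ree θ t u v * ree θ t' u' v' =
    ree θ (t + t') (u + u' - t * τ t') (v + v' - t' * u + t * t' * τ t' - t ^ 2 * τ t') := by
  unfold ree
  rw [P_mul]
  simp only [map_add, map_sub, map_mul, map_pow, hi]
  simp only [hτ]
  congr 1
  · ring
  · linear_combination (-(t * θ t * θ t') - t' * θ t * θ t') * three0 K
  · ring
  · ring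

theorem ree_zero : ree θ (0 : K) 0 0 = 1 := by
  unfold ree P
  simp only [map_zero, mul_zero, zero_mul, add_zero, (cgG2 K).xg_zero, Z_zero, mul_one]

include hτ hi in
theorem ree_inv (t : K) : (ree θ t 0 0)⁻¹ = ree θ (-t) (-(t * τ t)) (t ^ 2 * τ t) := by
  rw [inv_eq_iff_mul_eq_one, ree_mul θ τ hτ hi, ← ree_zero θ, map_neg]
  congr 1
  · ring
  · ring
  · linear_combination (t ^ 2 * τ t) * three0 K

theorem cart : chevG2.cartan 0 6 = -3 ∧ chevG2.cartan 1 6 = 2 ∧ chevG2.cartan 0 7 = 2 ∧ chevG2.cartan 1 7 = -1 ∧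
    chevG2.cartan 0 8 = -1 ∧ chevG2.cartan 1 8 = 1 ∧ chevG2.cartan 0 9 = 1 ∧ chevG2.cartan 1 9 = 0 ∧
    chevG2.cartan 0 10 = 3 ∧ chevG2.cartan 1 10 = -1 ∧ chevG2.cartan 0 11 = 0 ∧ chevG2.cartan 1 11 = 1 ∧
    6 < chevG2.nroots ∧ 7 < chevG2.nroots ∧ 8 < chevG2.nroots ∧ 9 < chevG2.nroots ∧ 10 < chevG2.nroots ∧ 11 < chevG2.nroots := by
  decide +kernel

omit [CharP K 3] in
theorem tc_prod (b : Kˣ) (r : ℕ) : ((∏ k : Fin chevG2.rank, tc θ b k ^ chevG2.cartan k r : Kˣ) : K) =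
    (θ b) ^ chevG2.cartan 0 r * (b : K) ^ chevG2.cartan 1 r := by
  have h1 : ∏ k : Fin chevG2.rank, tc θ b k ^ chevG2.cartan k r = ∏ k : Fin 2, tc θ b (I k) ^ chevG2.cartan (I k) r := rfl
  rw [h1, Fin.prod_univ_two]
  have e0 : tc θ b (I 0) = Units.map (θ : K →* K) b := rfl
  have e1 : tc θ b (I 1) = b := rfl
  rw [e0, e1, Units.val_mul, Units.val_zpow_eq_zpow_val, Units.val_zpow_eq_zpow_val]
  rfl

include hτ hi in
theorem tc_ree (b : Kˣ) (t u v : K) : hF chevG2 K (tc θ b) * ree θ t u v * (hF chevG2 K (tc θ b))⁻¹ =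
    ree θ ((τ (b : K))⁻¹ * (b : K) ^ 2 * t) (τ (b : K) * (b : K)⁻¹ * u) ((b : K) * v) := by
  obtain ⟨a1, a2, a3, a4, a5, a6, a7, a8, a9, a10, a11, a12, l1, l2, l3, l4, l5, l6⟩ := cart
  have M := cgG2 K
  have h6 := M.hF_xg (tc θ b) l1 t
  have h7 := M.hF_xg (tc θ b) l2 (θ t)
  have h8 := M.hF_xg (tc θ b) l3 (t * θ t + θ u)
  have h9 := M.hF_xg (tc θ b) l4 (t * (θ t) ^ 2 + θ v)
  have h10 := M.hF_xg (tc θ b) l5 u
  have h11 := M.hF_xg (tc θ b) l6 v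
  have hb : (b : K) ≠ 0 := b.ne_zero
  have hb' : θ (b : K) ≠ 0 := (map_ne_zero θ).mpr hb
  have z2 : ∀ x : K, x ^ (2 : ℤ) = x ^ 2 := fun x => by rw [show (2 : ℤ) = ((2 : ℕ) : ℤ) from rfl, zpow_natCast]
  have z3 : ∀ x : K, x ^ (3 : ℤ) = x ^ 3 := fun x => by rw [show (3 : ℤ) = ((3 : ℕ) : ℤ) from rfl, zpow_natCast]
  have z3' : ∀ x : K, x ^ (-3 : ℤ) = (x ^ 3)⁻¹ := fun x => by rw [_root_.zpow_neg, z3]
  rw [tc_prod, a1, a2, z2, z3'] at h6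
  rw [tc_prod, a3, a4, z2, _root_.zpow_neg_one] at h7
  rw [tc_prod, a5, a6, zpow_one, _root_.zpow_neg_one] at h8
  rw [tc_prod, a7, a8, zpow_one, zpow_zero, mul_one] at h9
  rw [tc_prod, a9, a10, z3, _root_.zpow_neg_one] at h10
  rw [tc_prod, a11, a12, zpow_one, zpow_zero, one_mul] at h11
  have hθτ : θ ((τ (b : K))⁻¹ * (b : K) ^ 2) = (θ (b : K)) ^ 2 * (b : K)⁻¹ := by
    rw [map_mul, map_inv₀, hi, map_pow]; ring
  have e6 : (θ (b : K) ^ 3)⁻¹ * (b : K) ^ 2 * t = (τ (b : K))⁻¹ * (b : K) ^ 2 * t := by rw [hτ]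
  have e7 : (θ (b : K)) ^ 2 * (b : K)⁻¹ * θ t = θ ((τ (b : K))⁻¹ * (b : K) ^ 2 * t) := by
    rw [map_mul θ _ t, hθτ]
  have e8 : (θ (b : K))⁻¹ * (b : K) * (t * θ t + θ u) = ((τ (b : K))⁻¹ * (b : K) ^ 2 * t) * θ ((τ (b : K))⁻¹ * (b : K) ^ 2 * t) +
      θ (τ (b : K) * (b : K)⁻¹ * u) := by
    rw [map_mul θ _ t, hθτ, map_mul, map_mul, hi, map_inv₀, hτ (b : K)]
    field_simp
  have e9 : θ (b : K) * (t * (θ t) ^ 2 + θ v) = ((τ (b : K))⁻¹ * (b : K) ^ 2 * t) * (θ ((τ (b : K))⁻¹ * (b : K) ^ 2 * t)) ^ 2 +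
      θ ((b : K) * v) := by
    rw [map_mul θ _ t, hθτ, map_mul, hτ (b : K)]
    field_simp
  have e10 : (θ (b : K)) ^ 3 * (b : K)⁻¹ * u = τ (b : K) * (b : K)⁻¹ * u := by rw [hτ]
  rw [e6] at h6
  rw [e7] at h7
  rw [e8] at h8
  rw [e9] at h9
  rw [e10] at h10
  have e : hF chevG2 K (tc θ b) * ree θ t u v * (hF chevG2 K (tc θ b))⁻¹ =
     (hF chevG2 K (tc θ b) * xg chevG2 7 (θ t) * (hF chevG2 K (tc θ b))⁻¹) *
     ((hF chevG2 K (tc θ b) * xg chevG2 6 t * (hF chevG2 K (tc θ b))⁻¹) *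
     ((hF chevG2 K (tc θ b) * xg chevG2 8 (t * θ t + θ u) * (hF chevG2 K (tc θ b))⁻¹) *
     ((hF chevG2 K (tc θ b) * xg chevG2 9 (t * (θ t) ^ 2 + θ v) * (hF chevG2 K (tc θ b))⁻¹) *
     ((hF chevG2 K (tc θ b) * xg chevG2 10 u * (hF chevG2 K (tc θ b))⁻¹) *
     (hF chevG2 K (tc θ b) * xg chevG2 11 v * (hF chevG2 K (tc θ b))⁻¹))))) := by
    unfold ree P Z
    group
  rw [e, h6, h7, h8, h9, h10, h11]
  rfl

variable {m : ℕ} (hθ : ∀ t, θ t = t ^ (3 ^ m))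

section
variable [Fintype K] (hK : Fintype.card K = 3 ^ (2 * m + 1))

include hτ hi hi' hθ hK in
theorem hF_mem (b : Kˣ) : hF chevG2 K (tc θ b) ∈ twistedG2 K (3 ^ m) :=
  H_le θ τ hτ hi hi' hθ hK (tc_mem θ τ hτ hi' b)

include hτ hi hi' hθ hK in
theorem key (b : Kˣ) (t u v : K) : ree θ ((τ (b : K))⁻¹ * (b : K) ^ 2 * t) (τ (b : K) * (b : K)⁻¹ * u) ((b : K) * v) * (ree θ t u v)⁻¹ ∈
    ⁅twistedG2 K (3 ^ m), twistedG2 K (3 ^ m)⁆ := by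
  have := Subgroup.commutator_mem_commutator (hF_mem θ τ hτ hi hi' hθ hK b) (ree_mem θ hθ t u v)
  rw [commutatorElement_def, tc_ree θ τ hτ hi] at this
  exact this

include hτ hi hi' hθ hK in
theorem ree_comm (h4 : 4 ≤ Fintype.card K) (t u v : K) : ree θ t u v ∈ ⁅twistedG2 K (3 ^ m), twistedG2 K (3 ^ m)⁆ := by
  obtain ⟨a0, ha0, ha2⟩ := exists_ne3 h4
  obtain ⟨b, hb⟩ : ∃ b : Kˣ, (b : K) = a0 := ⟨Units.mk0 a0 ha0, rfl⟩
  have hτ0 : τ a0 ≠ 0 := (map_ne_zero τ).mpr ha0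
  have hθ0 : θ a0 ≠ 0 := (map_ne_zero θ).mpr ha0
  have k := key θ τ hτ hi hi' hθ hK b
  rw [hb] at k
  have h1 : a0 - 1 ≠ 0 := by
    intro h
    apply ha2
    rw [sub_eq_zero.mp h, one_pow]
  have h2 : τ a0 * a0⁻¹ - 1 ≠ 0 := by
    intro h
    have h3 : τ a0 = a0 := by
      have := sub_eq_zero.mp h
      field_simp at this
      exact this
    have h5 : θ a0 = a0 := by
      calc θ a0 = θ (τ a0) := by rw [h3]
        _ = a0 := hi a0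
    have h6 : a0 ^ 3 = a0 := by
      have := hτ a0
      rw [h5, h3] at this
      exact this.symm
    apply ha2
    have : a0 * (a0 ^ 2 - 1) = 0 := by linear_combination h6
    rcases mul_eq_zero.mp this with h7 | h7
    · exact absurd h7 ha0
    · exact sub_eq_zero.mp h7
  have h3 : (τ a0)⁻¹ * a0 ^ 2 - 1 ≠ 0 := by
    intro h
    have h5 : a0 ^ 2 = τ a0 := by
      have := sub_eq_zero.mp h
      field_simp at this
      exact this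
    have h6 : (θ a0) ^ 2 = a0 := by rw [← map_pow, h5, hi]
    have h7 : θ a0 ^ 3 * (θ a0 - 1) = 0 := by
      have h8 := hτ a0
      rw [← h5] at h8
      have h9 : a0 ^ 2 = (θ a0) ^ 4 := by
        calc a0 ^ 2 = ((θ a0) ^ 2) ^ 2 := by rw [h6]
          _ = _ := by ring
      linear_combination h8 - h9
    rcases mul_eq_zero.mp h7 with h8 | h8
    · exact absurd h8 (pow_ne_zero 3 hθ0)
    · apply ha2
      calc a0 ^ 2 = ((θ a0) ^ 2) ^ 2 := by rw [h6]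
        _ = 1 := by rw [sub_eq_zero.mp h8]; ring
  have kv : ∀ v : K, ree θ 0 0 v ∈ ⁅twistedG2 K (3 ^ m), twistedG2 K (3 ^ m)⁆ := by
    intro v
    have h5 := k 0 0 (v / (a0 - 1))
    have e1 : (ree θ (0 : K) 0 (v / (a0 - 1)))⁻¹ = ree θ 0 0 (-(v / (a0 - 1))) := by
      rw [inv_eq_iff_mul_eq_one, ree_mul θ τ hτ hi, ← ree_zero θ]
      simp
    rw [e1, ree_mul θ τ hτ hi] at h5
    simp only [mul_zero, map_zero, add_zero, zero_mul, sub_zero] at h5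
    have e2 : a0 * (v / (a0 - 1)) + -(v / (a0 - 1)) = v := by field_simp; ring
    rwa [e2] at h5
  have ku : ∀ u : K, ree θ 0 u 0 ∈ ⁅twistedG2 K (3 ^ m), twistedG2 K (3 ^ m)⁆ := by
    intro u
    have h5 := k 0 (u / (τ a0 * a0⁻¹ - 1)) 0
    have e1 : (ree θ (0 : K) (u / (τ a0 * a0⁻¹ - 1)) 0)⁻¹ = ree θ 0 (-(u / (τ a0 * a0⁻¹ - 1))) 0 := by
      rw [inv_eq_iff_mul_eq_one, ree_mul θ τ hτ hi, ← ree_zero θ]
      simp
    rw [e1, ree_mul θ τ hτ hi] at h5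
    simp only [mul_zero, map_zero, add_zero, zero_mul, sub_zero] at h5
    have e2 : τ a0 * a0⁻¹ * (u / (τ a0 * a0⁻¹ - 1)) + -(u / (τ a0 * a0⁻¹ - 1)) = u := by
      generalize τ a0 * a0⁻¹ = y at h2
      field_simp
      ring
    rwa [e2] at h5
  have h5 := k (t / ((τ a0)⁻¹ * a0 ^ 2 - 1)) 0 0
  rw [ree_inv θ τ hτ hi, ree_mul θ τ hτ hi] at h5
  have e1 : (τ a0)⁻¹ * a0 ^ 2 * (t / ((τ a0)⁻¹ * a0 ^ 2 - 1)) + -(t / ((τ a0)⁻¹ * a0 ^ 2 - 1)) = t := by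
    generalize (τ a0)⁻¹ * a0 ^ 2 = y at h3
    field_simp
    ring
  rw [e1] at h5
  have key2 : ∀ A B : K, ree θ t A B ∈ ⁅twistedG2 K (3 ^ m), twistedG2 K (3 ^ m)⁆ → ree θ t u v ∈ ⁅twistedG2 K (3 ^ m), twistedG2 K (3 ^ m)⁆ := by
    intro A B h
    have h6 := mul_mem (mul_mem h (ku (u - A))) (kv (v - B))
    rw [ree_mul θ τ hτ hi, ree_mul θ τ hτ hi] at h6
    simp only [mul_zero, map_zero, add_zero, zero_mul, sub_zero] at h6
    have e2 : A + (u - A) = u := by ring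
    have e3 : B + (v - B) = v := by ring
    rwa [e2, e3] at h6
  exact key2 _ _ h5

include hτ hi hi' hθ hK in
theorem perfect (h4 : 4 ≤ Fintype.card K) : commutator ↥(twistedG2 K (3 ^ m)) = ⊤ := by
  apply perfect_of_le
  apply (cgG2 K).genSub_le
  intro w hw
  obtain ⟨t, u, v, rfl | rfl⟩ := words.mp hw
  · rw [wg_U θ hθ]
    exact ree_comm θ τ hτ hi hi' hθ hK h4 t u v
  · rw [wg_V θ hθ]
    exact comm_conj_mem (n_mem' θ hθ) (ree_comm θ τ hτ hi hi' hθ hK h4 t u v)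

end

theorem nontriv : Nontrivial ↥((ta θ τ hτ).Gs (cgG2 K)) := by
  obtain ⟨x, hx1, hx2, hx3, hx4⟩ := (R θ τ hτ).x (0 : Fin 1)
  refine ⟨⟨⟨x, ((ta θ τ hτ).mem_Gs (cgG2 K)).mpr ⟨(cgG2 K).U_le_G hx1, hx3⟩⟩, 1, fun h => hx2 ?_⟩⟩
  exact congrArg Subtype.val h

include hi hi' hθ in
theorem simple [Fintype K] (hK : Fintype.card K = 3 ^ (2 * m + 1)) (h4 : 4 ≤ Fintype.card K) :
    IsSimpleGroup ↥((ta θ τ hτ).Gs (cgG2 K)) := by
  haveI := nontriv θ τ hτ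
  have hp := perfect θ τ hτ hi hi' hθ hK h4
  rw [eq_Gs θ τ hτ hi hi' hθ hK] at hp
  have adj : ∀ k : ℕ, ∀ (h : k + 1 < O.m), ∃ s < chevG2.nroots,
      rl chevG2 (wv (O.fl [⟨k, by omega⟩, ⟨k + 1, h⟩, ⟨k, by omega⟩, ⟨k + 1, h⟩])) s ≠ s := by
    intro k h
    have h' : k + 1 < 1 := h
    omega
  have adj' : ∀ k : ℕ, ∀ (h : k + 1 < O.m), ∃ s < chevG2.nroots,
      rl chevG2 (wv (O.fl [⟨k + 1, h⟩, ⟨k, by omega⟩, ⟨k + 1, h⟩, ⟨k, by omega⟩])) s ≠ s := by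
    intro k h
    have h' : k + 1 < 1 := h
    omega
  exact isSimpleGroup (P := (R θ τ hτ).bnp1 (cgG2 K)) ((R θ τ hτ).irred1 (cgG2 K) adj adj') ((R θ τ hτ).solvable_B1 (cgG2 K)) hp
    (core θ τ hτ)

end CfsgLib.Chev.TwG2
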