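import Cfsg.Agent.Lib.TO2
import Cfsg.Agent.Lib.TWG4
set_option autoImplicit false
set_option linter.style.haveILetI false
set_option linter.unusedSectionVars false
set_option maxRecDepth 1000000

/-! The automorphisms of `²G₂(q)`. -/

namespace CfsgLib.Chev.TwG2
open Cfsg.Lie Matrix CfsgLib.BNP CfsgLib.PWM CfsgLib.Chev.GA CfsgLib.Chev CfsgLib.Chev.EV

variable {K : Type*} [Field K] [Fintype K] [CharP K 3] (θ τ : K →+* K) (hτ : ∀ t, τ t = (θ t) ^ 3)
  (hi : ∀ t, θ (τ t) = t) (hi' : ∀ t, τ (θ t) = t)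

/-- the fixed group -/
noncomputable abbrev G1 : Subgroup (GL chevG2.Idx K) := (ta θ τ hτ).Gs (cgG2 K)

include hτ hi' in
theorem ττ (t : K) : τ (τ t) = t ^ 3 := by
  rw [hτ t, map_pow, hi']

/-- unipotent elements -/
noncomputable def rG (t u v : K) : ↥(G1 θ τ hτ) :=
  ⟨ree θ t u v, (((mem_U θ τ hτ hi hi').mpr ⟨t, u, v, rfl⟩).2 : ree θ t u v ∈ (ta θ τ hτ).Gs (cgG2 K))⟩

/-- torus elements -/
noncomputable def hG (b : Kˣ) : ↥(G1 θ τ hτ) := ⟨hF chevG2 K (tc θ b), ((tc_mem θ τ hτ hi' b).2 : _ ∈ (ta θ τ hτ).Gs (cgG2 K))⟩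

theorem rG_mul (t u v t' u' v' : K) : rG θ τ hτ hi hi' t u v * rG θ τ hτ hi hi' t' u' v' =
    rG θ τ hτ hi hi' (t + t') (u + u' - t * τ t') (v + v' - t' * u + t * t' * τ t' - t ^ 2 * τ t') :=
  Subtype.ext (ree_mul θ τ hτ hi t u v t' u' v')

theorem rG_zero : rG θ τ hτ hi hi' 0 0 0 = 1 := Subtype.ext (ree_zero θ)

theorem rG_inj {t u v t' u' v' : K} (h : rG θ τ hτ hi hi' t u v = rG θ τ hτ hi hi' t' u' v') : t = t' ∧ u = u' ∧ v = v' :=
  ree_inj θ (congrArg Subtype.val h)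

theorem hG_rG (b : Kˣ) (t u v : K) : hG θ τ hτ hi' b * rG θ τ hτ hi hi' t u v * (hG θ τ hτ hi' b)⁻¹ =
    rG θ τ hτ hi hi' ((τ (b : K))⁻¹ * (b : K) ^ 2 * t) (τ (b : K) * (b : K)⁻¹ * u) ((b : K) * v) :=
  Subtype.ext (tc_ree θ τ hτ hi b t u v)

theorem exists_rG (g : ↥(G1 θ τ hτ)) (hg : (g : GL chevG2.Idx K) ∈ chevG2.posUnipotent K) : ∃ t u v, g = rG θ τ hτ hi hi' t u v := by
  obtain ⟨t, u, v, h⟩ := (mem_U θ τ hτ hi hi').mp ⟨hg, g.2⟩
  exact ⟨t, u, v, Subtype.ext h⟩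

theorem rG_U (t u v : K) : (rG θ τ hτ hi hi' t u v : GL chevG2.Idx K) ∈ chevG2.posUnipotent K :=
  ((mem_U θ τ hτ hi hi').mpr ⟨t, u, v, rfl⟩).1

theorem exists_hG (g : ↥(G1 θ τ hτ)) (hg : (g : GL chevG2.Idx K) ∈ chevG2.diagonalSubgroup K) : ∃ b, g = hG θ τ hτ hi' b := by
  obtain ⟨b, h⟩ := torus' θ τ hτ hi' ⟨hg, g.2⟩
  exact ⟨b, Subtype.ext h.symm⟩

theorem hG_H (b : Kˣ) : (hG θ τ hτ hi' b : GL chevG2.Idx K) ∈ chevG2.diagonalSubgroup K := (tc_mem θ τ hτ hi' b).1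

theorem hG_mul (b c : Kˣ) : hG θ τ hτ hi' (b * c) = hG θ τ hτ hi' b * hG θ τ hτ hi' c := by
  apply Subtype.ext
  change hF chevG2 K (tc θ (b * c)) = hF chevG2 K (tc θ b) * hF chevG2 K (tc θ c)
  rw [map_mul, map_mul]

theorem hG_one : hG θ τ hτ hi' (1 : Kˣ) = 1 := by
  apply Subtype.ext
  change hF chevG2 K (tc θ (1 : Kˣ)) = 1
  rw [map_one, map_one]

/-- central elements of `U` -/
theorem rG_central {t u v : K} (h : ∀ t' u' v', rG θ τ hτ hi hi' t u v * rG θ τ hτ hi hi' t' u' v' =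
    rG θ τ hτ hi hi' t' u' v' * rG θ τ hτ hi hi' t u v) : t = 0 ∧ u = 0 := by
  have h1 := h 0 1 0
  rw [rG_mul, rG_mul] at h1
  have h2 := (rG_inj θ τ hτ hi hi' h1).2.2
  simp only [map_zero, mul_zero, add_zero, sub_zero, zero_mul, mul_one, zero_add, map_one, ne_eq, OfNat.ofNat_ne_zero,
    not_false_eq_true, zero_pow] at h2
  have ht : t = 0 := by linear_combination h2
  subst ht
  have h3 := h 1 0 0
  rw [rG_mul, rG_mul] at h3
  have h4 := (rG_inj θ τ hτ hi hi' h3).2.2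
  simp only [map_zero, mul_zero, add_zero, sub_zero, zero_mul, one_mul, zero_add, map_one, ne_eq, OfNat.ofNat_ne_zero,
    not_false_eq_true, zero_pow] at h4
  refine ⟨rfl, ?_⟩
  linear_combination -h4

theorem rG_cube (t u v : K) : rG θ τ hτ hi hi' t u v * rG θ τ hτ hi hi' t u v * rG θ τ hτ hi hi' t u v =
    rG θ τ hτ hi hi' 0 0 (-(t ^ 2 * τ t)) := by
  rw [rG_mul, rG_mul]
  have h3 := three0 K
  congr 1
  · linear_combination t * h3
  · linear_combination (u - t * τ t) * h3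
  · linear_combination (v - t * u) * h3

section auto
variable (φ : ↥(G1 θ τ hτ) ≃* ↥(G1 θ τ hτ)) (hU : TN.Pre1 φ (chevG2.posUnipotent K) (chevG2.posUnipotent K))
  (hV : TN.Pre1 φ (chevG2.negUnipotent K) (chevG2.negUnipotent K))

include hU in
theorem phi_U (t u v : K) : ∃ t' u' v', φ (rG θ τ hτ hi hi' t u v) = rG θ τ hτ hi hi' t' u' v' :=
  exists_rG θ τ hτ hi hi' _ ((hU _).mp (rG_U θ τ hτ hi hi' t u v))

include hU hV in
theorem phi_H (b : Kˣ) : ∃ c, φ (hG θ τ hτ hi' b) = hG θ τ hτ hi' c :=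
  exists_hG θ τ hτ hi' _ (((R θ τ hτ).pre_H (cgG2 K) tp hU hV _).mp (hG_H θ τ hτ hi' b))

include hU in
theorem phi_Z (v : K) : ∃ v', φ (rG θ τ hτ hi hi' 0 0 v) = rG θ τ hτ hi hi' 0 0 v' := by
  obtain ⟨t', u', v', h⟩ := phi_U θ τ hτ hi hi' φ hU 0 0 v
  have h1 : t' = 0 ∧ u' = 0 := by
    apply rG_central θ τ hτ hi hi' (v := v')
    intro a b c
    obtain ⟨a', b', c', h2⟩ := phi_U θ τ hτ hi hi' φ.symm hU.symm a b c
    have h3 : rG θ τ hτ hi hi' a b c = φ (rG θ τ hτ hi hi' a' b' c') := by rw [← h2, φ.apply_symm_apply]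
    rw [← h, h3, ← map_mul, ← map_mul]
    congr 1
    rw [rG_mul, rG_mul]
    congr 1 <;> simp <;> ring
  rw [h, h1.1, h1.2]
  exact ⟨v', rfl⟩

include hU hV in
/-- the action on the centre of `U` -/
theorem phi_center : ∃ (c : Kˣ) (σ : RingAut K), (∀ v, φ (rG θ τ hτ hi hi' 0 0 v) = rG θ τ hτ hi hi' 0 0 (c * σ v)) := by
  choose β hβ using phi_Z θ τ hτ hi hi' φ hU
  choose α hα using phi_H θ τ hτ hi' φ hU hV
  have hadd : ∀ v w, β (v + w) = β v + β w := by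
    intro v w
    have h1 := congrArg φ (rG_mul θ τ hτ hi hi' 0 0 v 0 0 w)
    rw [map_mul, hβ, hβ, rG_mul] at h1
    simp only [map_zero, mul_zero, add_zero, sub_zero, zero_mul, ne_eq, OfNat.ofNat_ne_zero,
      not_false_eq_true, zero_pow] at h1
    rw [hβ] at h1
    exact (rG_inj θ τ hτ hi hi' h1).2.2.symm
  have hmul : ∀ (b : Kˣ) v, β (b * v) = α b * β v := by
    intro b v
    have h1 := congrArg φ (hG_rG θ τ hτ hi hi' b 0 0 v)
    rw [map_mul, map_mul, map_inv, hβ, hα, hG_rG] at h1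
    simp only [mul_zero] at h1
    rw [hβ] at h1
    exact (rG_inj θ τ hτ hi hi' h1).2.2.symm
  have hinj : Function.Injective β := by
    intro v w h
    have h1 : φ (rG θ τ hτ hi hi' 0 0 v) = φ (rG θ τ hτ hi hi' 0 0 w) := by rw [hβ, hβ, h]
    exact (rG_inj θ τ hτ hi hi' (φ.injective h1)).2.2
  have hsurj : Function.Surjective β := by
    intro w
    obtain ⟨v, hv⟩ := phi_Z θ τ hτ hi hi' φ.symm hU.symm w
    refine ⟨v, ?_⟩
    have h1 : φ (rG θ τ hτ hi hi' 0 0 v) = rG θ τ hτ hi hi' 0 0 w := by rw [← hv, φ.apply_symm_apply]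
    rw [hβ] at h1
    exact (rG_inj θ τ hτ hi hi' h1).2.2
  have h0 : β 0 = 0 := by
    have := hadd 0 0
    rw [add_zero] at this
    linear_combination -this
  have hc : β 1 ≠ 0 := fun h => one_ne_zero (hinj (h.trans h0.symm))
  have hα' : ∀ b : Kˣ, (α b : K) = (β 1)⁻¹ * β b := by
    intro b
    have := hmul b 1
    rw [mul_one] at this
    rw [this]
    field_simp
  have hm' : ∀ a b : K, (β 1)⁻¹ * β (a * b) = ((β 1)⁻¹ * β a) * ((β 1)⁻¹ * β b) := by
    intro a b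
    by_cases ha : a = 0
    · rw [ha, zero_mul, h0]; ring
    · have h1 := hmul (Units.mk0 a ha) b
      rw [hα', Units.val_mk0] at h1
      rw [h1]; ring
  let σ : K →+* K :=
    { toFun := fun a => (β 1)⁻¹ * β a
      map_one' := inv_mul_cancel₀ hc
      map_mul' := hm'
      map_zero' := by change (β 1)⁻¹ * β 0 = 0; rw [h0, mul_zero]
      map_add' := fun a b => by change (β 1)⁻¹ * β (a + b) = _; rw [hadd]; ring }
  have hσ : Function.Bijective σ := by
    constructor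
    · exact σ.injective
    · intro w
      obtain ⟨v, hv⟩ := hsurj (β 1 * w)
      refine ⟨v, ?_⟩
      change (β 1)⁻¹ * β v = w
      rw [hv]
      field_simp
  refine ⟨Units.mk0 (β 1) hc, RingEquiv.ofBijective σ hσ, fun v => ?_⟩
  rw [hβ]
  congr 1
  change β v = β 1 * ((β 1)⁻¹ * β v)
  field_simp

include hU in
/-- the elements `(0,u,0)` -/
theorem phi_u (hα : ∀ b, φ (hG θ τ hτ hi' b) = hG θ τ hτ hi' b) (hβ : ∀ v, φ (rG θ τ hτ hi hi' 0 0 v) = rG θ τ hτ hi hi' 0 0 v) (u : K) :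
    ∃ u', φ (rG θ τ hτ hi hi' 0 u 0) = rG θ τ hτ hi hi' 0 u' 0 := by
  obtain ⟨t', u', v', h⟩ := phi_U θ τ hτ hi hi' φ hU 0 u 0
  have h1 := congrArg φ (rG_cube θ τ hτ hi hi' 0 u 0)
  rw [map_mul, map_mul, h, rG_cube, hβ] at h1
  have h2 := (rG_inj θ τ hτ hi hi' h1).2.2
  have ht : t' = 0 := by
    have h3 : t' ^ 2 * τ t' = 0 := by simpa using h2
    rcases mul_eq_zero.mp h3 with h4 | h4
    · exact pow_eq_zero_iff (two_ne_zero) |>.mp h4
    · exact (map_eq_zero τ).mp h4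
  subst ht
  have h3 := congrArg φ (hG_rG θ τ hτ hi hi' (-1) 0 u 0)
  rw [map_mul, map_mul, map_inv, hα, h, hG_rG] at h3
  simp only [mul_zero, Units.val_neg, Units.val_one, map_neg, map_one, inv_neg, inv_one, neg_mul, one_mul, mul_neg, neg_neg] at h3
  rw [h] at h3
  have h4 := (rG_inj θ τ hτ hi hi' h3).2.2
  have h5 : v' = 0 := by linear_combination v' * three0 K + h4
  rw [h, h5]
  exact ⟨u', rfl⟩

/-- the parameter acting by `κ` -/
theorem kap (κ : Kˣ) (t u v : K) : hG θ τ hτ hi' (κ ^ 2 * Units.map (τ : K →* K) κ) * rG θ τ hτ hi hi' t u v *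
    (hG θ τ hτ hi' (κ ^ 2 * Units.map (τ : K →* K) κ))⁻¹ = rG θ τ hτ hi hi' (κ * t) (κ * τ κ * u) (κ ^ 2 * τ κ * v) := by
  have hk : (κ : K) ≠ 0 := κ.ne_zero
  have hk' : τ (κ : K) ≠ 0 := (map_ne_zero τ).mpr hk
  rw [hG_rG]
  have e : ((κ ^ 2 * Units.map (τ : K →* K) κ : Kˣ) : K) = (κ : K) ^ 2 * τ κ := by
    rw [Units.val_mul, Units.val_pow_eq_pow_val, Units.coe_map]; rfl
  rw [e, map_mul, map_pow, ττ θ τ hτ hi']
  congr 1
  · congr 1
    field_simp
  · congr 1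
    field_simp

include hU in
/-- rigidity on the unipotent group -/
theorem rigidU (hq : ∃ x : K, x ^ 3 ≠ x) (hα : ∀ b, φ (hG θ τ hτ hi' b) = hG θ τ hτ hi' b)
    (hβ : ∀ v, φ (rG θ τ hτ hi hi' 0 0 v) = rG θ τ hτ hi hi' 0 0 v) (t u v : K) : φ (rG θ τ hτ hi hi' t u v) = rG θ τ hτ hi hi' t u v := by
  have h3 := three0 K
  choose d hd using phi_u θ τ hτ hi hi' φ hU hα hβ
  have hABC : ∀ t, ∃ a b c, φ (rG θ τ hτ hi hi' t 0 0) = rG θ τ hτ hi hi' a b c := fun t => phi_U θ τ hτ hi hi' φ hU t 0 0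
  choose A B C hA using hABC
  have e1 : ∀ t u, A t * d u = t * u := by
    intro t u
    have h1 : rG θ τ hτ hi hi' 0 u 0 * rG θ τ hτ hi hi' t 0 0 =
        rG θ τ hτ hi hi' t 0 0 * rG θ τ hτ hi hi' 0 u 0 * rG θ τ hτ hi hi' 0 0 (-(t * u)) := by
      rw [rG_mul, rG_mul, rG_mul]
      congr 1 <;> simp
    have h2 := congrArg φ h1
    rw [map_mul, map_mul, map_mul, hd, hA, hβ, rG_mul, rG_mul, rG_mul] at h2
    have h4 := (rG_inj θ τ hτ hi hi' h2).2.2
    simp only [map_zero, mul_zero, add_zero, sub_zero, zero_mul, zero_add, ne_eq, OfNat.ofNat_ne_zero,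
      not_false_eq_true, zero_pow] at h4
    linear_combination -h4
  have e2 : A 1 ^ 2 * τ (A 1) = 1 := by
    have h1 := congrArg φ (rG_cube θ τ hτ hi hi' 1 0 0)
    rw [map_mul, map_mul, hA, rG_cube, hβ] at h1
    have h2 := (rG_inj θ τ hτ hi hi' h1).2.2
    rw [map_one, one_pow, one_mul] at h2
    linear_combination -h2
  have e3 : A 1 = 1 := by
    have h1 : τ (A 1 ^ 2 * τ (A 1)) = 1 := by rw [e2, map_one]
    rw [map_mul, map_pow, ττ θ τ hτ hi'] at h1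
    have h2 : A 1 ≠ 0 := fun h => by rw [h] at e2; simp at e2
    have h4 : (A 1 ^ 2 * τ (A 1)) ^ 2 = 1 := by rw [e2, one_pow]
    -- `τ(a)^2 a^3 = 1`, `a^4 τ(a)^2 = 1`
    have h5 : A 1 ^ 3 * τ (A 1) ^ 2 * (A 1 - 1) = 0 := by linear_combination h4 - h1
    rcases mul_eq_zero.mp h5 with h6 | h6
    · exfalso
      rcases mul_eq_zero.mp h6 with h7 | h7
      · exact h2 (pow_eq_zero_iff (by norm_num) |>.mp h7)
      · exact h2 ((map_eq_zero τ).mp (pow_eq_zero_iff (by norm_num) |>.mp h7))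
    · linear_combination h6
  have e4 : ∀ u, d u = u := by
    intro u
    have := e1 1 u
    rw [e3] at this
    linear_combination this
  have e5 : ∀ t, A t = t := by
    intro t
    have := e1 t 1
    rw [e4] at this
    linear_combination this
  have hφ : ∀ t u v, φ (rG θ τ hτ hi hi' t u v) = rG θ τ hτ hi hi' t (B t + u) (C t + v) := by
    intro t u v
    have h1 : rG θ τ hτ hi hi' t u v = rG θ τ hτ hi hi' t 0 0 * rG θ τ hτ hi hi' 0 u 0 * rG θ τ hτ hi hi' 0 0 v := by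
      rw [rG_mul, rG_mul]
      congr 1 <;> simp
    rw [h1, map_mul, map_mul, hA, hd, hβ, rG_mul, rG_mul, e5, e4]
    congr 1 <;> simp
  have e6 : ∀ t s, B (t + s) = B t + B s ∧ C (t + s) = C t + C s - s * B t := by
    intro t s
    have h1 := congrArg φ (rG_mul θ τ hτ hi hi' t 0 0 s 0 0)
    rw [map_mul, hφ, hφ, hφ, rG_mul] at h1
    obtain ⟨-, h2, h4⟩ := rG_inj θ τ hτ hi hi' h1
    refine ⟨by linear_combination -h2, by linear_combination -h4⟩
  have e7 : ∀ (κ : Kˣ) (t : K), B (κ * t) = κ * τ κ * B t ∧ C (κ * t) = κ ^ 2 * τ κ * C t := by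
    intro κ t
    have h1 := congrArg φ (kap θ τ hτ hi hi' κ t 0 0)
    rw [map_mul, map_mul, map_inv, hα, hφ, kap, hφ] at h1
    obtain ⟨-, h2, h4⟩ := rG_inj θ τ hτ hi hi' h1
    refine ⟨by linear_combination -h2, by linear_combination -h4⟩
  have hB0 : B 0 = 0 := by
    have := (e6 0 0).1
    rw [add_zero] at this
    linear_combination -this
  have hB1 : B 1 = 0 := by
    have h1 := (e6 1 (-1)).1
    have h2 := (e7 (-1) 1).1
    simp only [Units.val_neg, Units.val_one, map_neg, map_one, mul_one, mul_neg, neg_neg, one_mul] at h2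
    rw [add_neg_cancel, hB0, h2] at h1
    linear_combination B 1 * h3 + h1
  have hB : ∀ t, B t = 0 := by
    intro t
    by_cases ht : t = 0
    · rw [ht, hB0]
    · have := (e7 (Units.mk0 t ht) 1).1
      rw [mul_one, Units.val_mk0, hB1, mul_zero] at this
      exact this
  have hC0 : C 0 = 0 := by
    have := (e6 0 0).2
    rw [add_zero, hB0] at this
    linear_combination -this
  have hCk : ∀ t, C t = t ^ 2 * τ t * C 1 := by
    intro t
    by_cases ht : t = 0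
    · rw [ht, hC0]; simp
    · have := (e7 (Units.mk0 t ht) 1).2
      rwa [mul_one, Units.val_mk0] at this
  have hC1 : C 1 = 0 := by
    by_contra hne
    obtain ⟨x, hx⟩ := hq
    have h1 := (e6 x 1).2
    rw [hB, hCk (x + 1), hCk x, map_add, map_one] at h1
    have h2 : ((x - τ x) * (x - 1)) * C 1 = 0 := by
      linear_combination h1 - (C 1) * (x * τ x + x) * h3
    rcases mul_eq_zero.mp h2 with h4 | h4
    · rcases mul_eq_zero.mp h4 with h5 | h5
      · apply hx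
        have h6 : τ x = x := by linear_combination -h5
        rw [← ττ θ τ hτ hi', h6, h6]
      · apply hx
        have : x = 1 := by linear_combination h5
        rw [this, one_pow]
    · exact hne h4
  rw [hφ, hB, hCk, hC1]
  congr 1 <;> simp

end auto

end CfsgLib.Chev.TwG2
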