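import Cfsg.Agent.Lib.EV2
import Cfsg.Prelude.Def_LieTwisted
set_option autoImplicit false
set_option linter.style.haveILetI false
set_option maxRecDepth 1000000

/-! The twisted group `²F₄(q)`. -/

namespace CfsgLib.Chev.TwF4
open Cfsg.Lie Matrix CfsgLib.BNP CfsgLib.PWM CfsgLib.Chev.GA CfsgLib.Chev CfsgLib.Chev.EV

/-- indices -/
abbrev I (k : Fin 4) : Fin chevF4.rank := k

def ρf (r : ℕ) : ℕ := rhoF4.getD r 0
def πf : Equiv.Perm (Fin chevF4.rank) := (Equiv.swap (0 : Fin 4) 3 * Equiv.swap (1 : Fin 4) 2 : Equiv.Perm (Fin 4))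
theorem chk1 : chkTD chevF4 ρf πf = true := by decide +kernel
noncomputable def T : TD chevF4 := TD.of _ ρf πf chk1
def orb (i : Fin chevF4.rank) : Fin 2 := ([0, 1, 1, 0] : List (Fin 2)).getD i.val 0
def w (J : Fin 2) : List (Fin chevF4.rank) := ([[0, 3], [1, 2, 1, 2]] : List (List (Fin 4))).getD J.val []
def rep (J : Fin 2) : Fin chevF4.rank := ([0, 1] : List (Fin 4)).getD J.val 0
theorem chk2 : chkTO chevF4 ρf πf 2 orb w rep = true := by decide +kernel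
noncomputable def O : TO T := TO.of T 2 orb w rep chk2
def L0 : List (Fin 2) := [0, 1, 0, 1, 0, 1, 0, 1]
theorem chn : TN.Chain O L0 := chain_of O (by decide +kernel)
theorem tp : TN.Top O L0 := top_of O (by decide +kernel)
def Sl (J : Fin 2) : List ℕ := [[24, 33], [25, 27, 28, 30]].getD J.val []
theorem phi (J : Fin 2) : phiB chevF4 (w J) (Sl J) = true := by revert J; decide +kernel
theorem pee (J : Fin 2) : peelB chevF4 (Sl J) = true := by revert J; decide +kernel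
theorem srt (J : Fin 2) : srtB chevF4 (Sl J) = true := by revert J; decide +kernel

variable (K : Type*) [Field K] [CharP K 2]

theorem h20 : ((2 : ℕ) : K) = 0 := CharP.cast_eq_zero K 2

noncomputable def A0 : GE chevF4 K LF4 := (geF4 K (h20 K)).some

def eF (i : Fin chevF4.rank) : ℕ := [2, 2, 1, 1].getD i.val 1

theorem A0_inj : ∀ g ∈ chevF4.group K, ∀ h ∈ chevF4.group K, (A0 K).α g = (A0 K).α h → g = h := by
  haveI : Fact (Nat.Prime 2) := ⟨Nat.prime_two⟩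
  have h1 : ∀ i : Fin chevF4.rank, (chevF4.simple i, chevF4.simple (πf i), eF i, (1 : ℤ)) ∈ LF4 ∧
    (chevF4.simple (πf i), chevF4.simple i, 3 - eF i, (1 : ℤ)) ∈ LF4 ∧ eF i * (3 - eF i) = 2 := by decide +kernel
  have h2 : ∀ i : Fin chevF4.rank, (chevF4.neg (chevF4.simple i), chevF4.neg (chevF4.simple (πf i)), eF i, (1 : ℤ)) ∈ LF4 ∧
    (chevF4.neg (chevF4.simple (πf i)), chevF4.neg (chevF4.simple i), 3 - eF i, (1 : ℤ)) ∈ LF4 ∧ eF i * (3 - eF i) = 2 := by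
    decide +kernel
  exact (A0 K).injective (cgF4 K) (A0 K) (frobenius K 2)
    (fun i => ⟨_, (h1 i).1, _, (h1 i).2.1, rfl, rfl, rfl, fun t => by
      simp only [Int.cast_one, one_mul]
      rw [← pow_mul, (h1 i).2.2, frobenius_def]⟩)
    (fun i => ⟨_, (h2 i).1, _, (h2 i).2.1, rfl, rfl, rfl, fun t => by
      simp only [Int.cast_one, one_mul]
      rw [← pow_mul, (h2 i).2.2, frobenius_def]⟩)

variable {K} (θ τ : K →+* K) (hτ : ∀ t, τ t = (θ t) ^ 2)

noncomputable def ta : TA T K := (A0 K).ta (cgF4 K) T θ (fun i => if i.val < 2 then τ else θ) eF (A0_inj K)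
  (by
    have h : ∀ i : Fin chevF4.rank, (chevF4.simple i, chevF4.simple (πf i), eF i, (1 : ℤ)) ∈ LF4 := by decide +kernel
    exact h)
  (by
    have h : ∀ i : Fin chevF4.rank, (chevF4.neg (chevF4.simple i), chevF4.neg (chevF4.simple (πf i)), eF i, (1 : ℤ)) ∈ LF4 := by
      decide +kernel
    exact h)
  (by
    intro i t
    change Fin 4 at i
    fin_cases i
    · exact hτ t
    · exact hτ t
    · exact (pow_one _).symm
    · exact (pow_one _).symm)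

theorem s_x1 {r r' : ℕ} (h : (r, r', 1, (1 : ℤ)) ∈ LF4) (t : K) : (ta θ τ hτ).s (xg chevF4 r t) = xg chevF4 r' (θ t) := by
  change (A0 K).α (mapJ _ θ (xg chevF4 r t)) = _
  rw [(cgF4 K).mapJ_xg, (A0 K).act _ h]
  simp

theorem s_x2 {r r' : ℕ} (h : (r, r', 2, (1 : ℤ)) ∈ LF4) (t : K) : (ta θ τ hτ).s (xg chevF4 r t) = xg chevF4 r' (τ t) := by
  change (A0 K).α (mapJ _ θ (xg chevF4 r t)) = _
  rw [(cgF4 K).mapJ_xg, (A0 K).act _ h, hτ]
  simp

theorem mem1 : (33, 24, 2, (1 : ℤ)) ∈ LF4 ∧ (24, 33, 1, (1 : ℤ)) ∈ LF4 ∧ (14, 23, 2, (1 : ℤ)) ∈ LF4 ∧ (23, 14, 1, (1 : ℤ)) ∈ LF4 ∧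
    (27, 25, 2, (1 : ℤ)) ∈ LF4 ∧ (25, 27, 1, (1 : ℤ)) ∈ LF4 ∧ (28, 30, 2, (1 : ℤ)) ∈ LF4 ∧ (30, 28, 1, (1 : ℤ)) ∈ LF4 ∧
    (20, 22, 2, (1 : ℤ)) ∈ LF4 ∧ (22, 20, 1, (1 : ℤ)) ∈ LF4 ∧ (19, 17, 2, (1 : ℤ)) ∈ LF4 ∧ (17, 19, 1, (1 : ℤ)) ∈ LF4 := by
  refine ⟨?_, ?_, ?_, ?_, ?_, ?_, ?_, ?_, ?_, ?_, ?_, ?_⟩ <;> decide

theorem cm1 : cmB chevF4 24 33 = true ∧ cmB chevF4 33 24 = true ∧ cmB chevF4 14 23 = true ∧ cmB chevF4 23 14 = true ∧
    cmB4 chevF4 33 24 = true ∧ cmB4 chevF4 24 33 = true ∧ cmB chevF4 28 30 = true ∧ cmB chevF4 30 28 = true ∧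
    cmB chevF4 19 17 = true := by decide +kernel

theorem smp : chevF4.simple 0 = 33 ∧ chevF4.simple 1 = 27 ∧ chevF4.simple 2 = 25 ∧ chevF4.simple 3 = 24 ∧
    chevF4.neg 33 = 14 ∧ chevF4.neg 27 = 20 ∧ chevF4.neg 25 = 22 ∧ chevF4.neg 24 = 23 := by decide +kernel

theorem cmt : chevF4.commTerms 25 27 = [(28, chevF4.chainM 25 27 1, 1, 1), (30, chevF4.chainM 27 25 2, 1, 2)] ∧
    chevF4.chainM 25 27 1 % 2 = 1 ∧ chevF4.chainM 27 25 2 % 2 = 1 ∧ 27 ≠ chevF4.neg 25 ∧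
    chevF4.commTerms 22 20 = [(19, chevF4.chainM 22 20 1, 1, 1), (17, chevF4.chainM 20 22 2, 1, 2)] ∧
    chevF4.chainM 22 20 1 % 2 = 1 ∧ chevF4.chainM 20 22 2 % 2 = 1 ∧ 20 ≠ chevF4.neg 22 := by decide +kernel

theorem two0 (K : Type*) [Field K] [CharP K 2] : (2 : K) = 0 := by
  have := h20 K
  exact_mod_cast this

theorem odd_cast (K : Type*) [Field K] [CharP K 2] {c : ℤ} (h : c % 2 = 1) : (c : K) = 1 := by
  have h1 : c = 1 + 2 * (c / 2) := by omega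
  rw [h1]; push_cast; rw [two0 K]; ring

theorem comm_ab (K : Type*) [Field K] [CharP K 2] (α β : K) : xg chevF4 27 α * xg chevF4 25 β =
    xg chevF4 25 β * (xg chevF4 27 α * (xg chevF4 28 (α * β) * xg chevF4 30 (β * α ^ 2))) := by
  obtain ⟨h1, h2, h3, h4, _⟩ := cmt
  have lt : 25 < chevF4.nroots ∧ 27 < chevF4.nroots := by decide +kernel
  rw [(cgF4 K).comm_xg lt.1 lt.2 (by decide) h4 β α]
  unfold ChevalleyDatum.commWord
  rw [h1, List.map_cons, List.map_cons, List.map_nil, wg_cons, wg_cons, wg_nil, mul_one]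
  simp only [odd_cast K h2, odd_cast K h3, pow_one]
  have e1 : (1 : K) * -β * α = α * β := by linear_combination (-α * β) * two0 K
  have e2 : (1 : K) * -β * α ^ 2 = β * α ^ 2 := by linear_combination (-α ^ 2 * β) * two0 K
  rw [e1, e2]
  group

theorem comm_ab' (K : Type*) [Field K] [CharP K 2] (α β : K) : xg chevF4 20 α * xg chevF4 22 β =
    xg chevF4 22 β * (xg chevF4 20 α * (xg chevF4 19 (α * β) * xg chevF4 17 (β * α ^ 2))) := by
  obtain ⟨_, _, _, _, h1, h2, h3, h4⟩ := cmt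
  have lt : 22 < chevF4.nroots ∧ 20 < chevF4.nroots := by decide +kernel
  rw [(cgF4 K).comm_xg lt.1 lt.2 (by decide) h4 β α]
  unfold ChevalleyDatum.commWord
  rw [h1, List.map_cons, List.map_cons, List.map_nil, wg_cons, wg_cons, wg_nil, mul_one]
  simp only [odd_cast K h2, odd_cast K h3, pow_one]
  have e1 : (1 : K) * -β * α = α * β := by linear_combination (-α * β) * two0 K
  have e2 : (1 : K) * -β * α ^ 2 = β * α ^ 2 := by linear_combination (-α ^ 2 * β) * two0 K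
  rw [e1, e2]
  group

/-- the image of a product over the roots of the rank two subsystem -/
theorem s_quad (a b c d : K) : (ta θ τ hτ).s (xg chevF4 25 a * (xg chevF4 27 b * (xg chevF4 28 c * xg chevF4 30 d))) =
    xg chevF4 25 (τ b) * (xg chevF4 27 (θ a) * (xg chevF4 28 (θ a * τ b + θ d) * xg chevF4 30 (τ b * (θ a) ^ 2 + τ c))) := by
  obtain ⟨_, _, _, _, m1, m2, m3, m4, _⟩ := mem1
  obtain ⟨_, _, _, _, _, _, c1, c2, _⟩ := cm1
  have M := cgF4 K
  rw [(ta θ τ hτ).mul _ (M.xg_mem_G _ _) _ (mul_mem (M.xg_mem_G _ _) (mul_mem (M.xg_mem_G _ _) (M.xg_mem_G _ _))),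
    (ta θ τ hτ).mul _ (M.xg_mem_G _ _) _ (mul_mem (M.xg_mem_G _ _) (M.xg_mem_G _ _)), (ta θ τ hτ).mul _ (M.xg_mem_G _ _) _ (M.xg_mem_G _ _),
    s_x1 θ τ hτ m2, s_x2 θ τ hτ m1, s_x2 θ τ hτ m3, s_x1 θ τ hτ m4, ← mul_assoc, comm_ab K, ← M.xg_add, ← M.xg_add]
  have k1 := (M.xg_cm c1 (θ d) (τ c)).eq
  have k2 := (M.xg_cm c1 (θ d) (τ b * (θ a) ^ 2)).eq
  generalize xg chevF4 25 (τ b) = A
  generalize xg chevF4 27 (θ a) = B
  generalize xg chevF4 28 (θ a * τ b) = C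
  generalize xg chevF4 30 (τ b * (θ a) ^ 2) = E at *
  generalize xg chevF4 30 (τ c) = F at *
  generalize xg chevF4 28 (θ d) = G at *
  rw [k1]
  calc A * (B * (C * E)) * (G * F) = A * (B * (C * (E * G) * F)) := by group
    _ = A * (B * (C * (G * E) * F)) := by rw [k2]
    _ = _ := by group

theorem quad_iff (a b c d : K) : (ta θ τ hτ).s (xg chevF4 25 a * (xg chevF4 27 b * (xg chevF4 28 c * xg chevF4 30 d))) =
    xg chevF4 25 a * (xg chevF4 27 b * (xg chevF4 28 c * xg chevF4 30 d)) ↔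
    τ b = a ∧ θ a = b ∧ θ a * τ b + θ d = c ∧ τ b * (θ a) ^ 2 + τ c = d := by
  rw [s_quad]
  constructor
  · intro h
    have h3 : wg chevF4 ((Sl 1).map fun x => (x, (fun x => if x = 25 then τ b else if x = 27 then θ a else if x = 28 then θ a * τ b + θ d
          else τ b * (θ a) ^ 2 + τ c) x)) =
        wg chevF4 ((Sl 1).map fun x => (x, (fun x => if x = 25 then a else if x = 27 then b else if x = 28 then c else d) x)) := by
      change xg chevF4 25 (τ b) * (xg chevF4 27 (θ a) * (xg chevF4 28 (θ a * τ b + θ d) * (xg chevF4 30 (τ b * (θ a) ^ 2 + τ c) * 1))) =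
        xg chevF4 25 a * (xg chevF4 27 b * (xg chevF4 28 c * (xg chevF4 30 d * 1)))
      rw [mul_one, mul_one]
      exact h
    have h4 := (cgF4 K).form_unique' _ (of_decide_eq_true (srt 1)) _ _ h3
    exact ⟨h4 25 (by decide), h4 27 (by decide), h4 28 (by decide), h4 30 (by decide)⟩
  · rintro ⟨h1, h2, h3, h4⟩
    rw [h3, h4, h1, h2]

/-- the fixed elements -/
noncomputable def yy (t u : K) : GL chevF4.Idx K :=
  xg chevF4 25 t * (xg chevF4 27 (θ t) * (xg chevF4 28 (t * θ t + u) * xg chevF4 30 (τ u)))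

theorem yy_fix (hi : ∀ t, θ (τ t) = t) (hi' : ∀ t, τ (θ t) = t) (t u : K) : (ta θ τ hτ).s (yy θ τ t u) = yy θ τ t u := by
  unfold yy
  rw [quad_iff]
  refine ⟨hi' t, rfl, ?_, ?_⟩
  · rw [hi', hi]; ring
  · rw [map_add, map_mul, hi', hτ t]
    linear_combination t * (θ t) ^ 2 * two0 K

theorem braid (K : Type*) [Field K] [CharP K 2] : nl chevF4 K [2, 1, 2, 1] = nl chevF4 K [1, 2, 1, 2] := by
  rw [nl_word (cgF4 K) (h20 K) (by norm_num), nl_word (cgF4 K) (h20 K) (by norm_num)]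
  apply wg_eq_of_wEq (cgF4 K) (h20 K) (by norm_num)
  have h : wEq chevF4 TF4 2 (nlW chevF4 2 [2, 1, 2, 1]) (nlW chevF4 2 [1, 2, 1, 2]) = true := by decide +kernel
  exact h

end CfsgLib.Chev.TwF4
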