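import Cfsg.Agent.Lib.TWF1
set_option autoImplicit false
set_option linter.style.haveILetI false
set_option maxRecDepth 1000000

/-! The twisted group `²F₄(q)` is the fixed subgroup. -/

namespace CfsgLib.Chev.TwF4
open Cfsg.Lie Matrix CfsgLib.BNP CfsgLib.PWM CfsgLib.Chev.GA CfsgLib.Chev CfsgLib.Chev.EV

variable {K : Type*} [Field K] [CharP K 2] (θ τ : K →+* K) (hτ : ∀ t, τ t = (θ t) ^ 2)

theorem pair_iff' (a b : K) : (ta θ τ hτ).s (xg chevF4 24 a * xg chevF4 33 b) = xg chevF4 24 a * xg chevF4 33 b ↔ τ b = a ∧ θ a = b :=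
  (ta θ τ hτ).pair_iff (cgF4 K) (srt 0) cm1.1 (s_x1 θ τ hτ mem1.2.1) (s_x2 θ τ hτ mem1.1) a b

theorem ni_eq (K : Type*) [Field K] : ni chevF4 K 0 = ng chevF4 33 1 ∧ ni chevF4 K 1 = ng chevF4 27 1 ∧ ni chevF4 K 2 = ng chevF4 25 1 ∧
    ni chevF4 K 3 = ng chevF4 24 1 := by
  obtain ⟨h0, h1, h2, h3, _⟩ := smp
  unfold ni
  rw [h0, h1, h2, h3]
  exact ⟨rfl, rfl, rfl, rfl⟩

/-- the coordinates of a fixed element with non-trivial simple coordinates -/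
def tv (K : Type*) [Field K] (J : Fin 2) (r : ℕ) : K := if J = 1 ∧ r = 30 then 0 else 1

theorem fix1 (J : Fin 2) : (ta θ τ hτ).s (wg chevF4 ((Sl J).map fun r => (r, tv K J r))) = wg chevF4 ((Sl J).map fun r => (r, tv K J r)) := by
  have e0 : ∀ r, r ≠ 30 → tv K 1 r = 1 := by
    intro r hr
    unfold tv
    rw [if_neg (fun h => hr h.2)]
  have e1 : tv K 1 30 = 0 := by unfold tv; rw [if_pos ⟨rfl, rfl⟩]
  have e2 : ∀ r, tv K 0 r = 1 := by
    intro r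
    unfold tv
    rw [if_neg (fun h => absurd h.1 (by decide))]
  fin_cases J
  · change (ta θ τ hτ).s (xg chevF4 24 (tv K 0 24) * (xg chevF4 33 (tv K 0 33) * 1)) = xg chevF4 24 (tv K 0 24) * (xg chevF4 33 (tv K 0 33) * 1)
    rw [mul_one, pair_iff', e2, e2]
    exact ⟨map_one τ, map_one θ⟩
  · change (ta θ τ hτ).s (xg chevF4 25 (tv K 1 25) * (xg chevF4 27 (tv K 1 27) * (xg chevF4 28 (tv K 1 28) * (xg chevF4 30 (tv K 1 30) * 1)))) =
      xg chevF4 25 (tv K 1 25) * (xg chevF4 27 (tv K 1 27) * (xg chevF4 28 (tv K 1 28) * (xg chevF4 30 (tv K 1 30) * 1)))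
    rw [mul_one, quad_iff, e0 25 (by decide), e0 27 (by decide), e0 28 (by decide), e1]
    simp only [map_one, map_zero, mul_one, add_zero, one_pow, true_and]
    linear_combination two0 K

noncomputable def R : TN (ta θ τ hτ) O where
  n J := nl chevF4 K (wv (w J))
  eq J := ⟨1, one_mem _, (one_mul _).symm⟩
  fix J := by
    rw [(ta θ τ hτ).s_nl (cgF4 K)]
    fin_cases J
    · change ni chevF4 K 3 * (ni chevF4 K 0 * 1) = ni chevF4 K 0 * (ni chevF4 K 3 * 1)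
      obtain ⟨e0, e1, e2, e3⟩ := ni_eq K
      rw [mul_one, mul_one, e0, e3]
      exact ((cgF4 K).ng_cm cm1.2.2.2.2.1 1 1).eq
    · exact braid K
  x J := by
    have hr : ∀ J : Fin 2, ∃ r, r ∈ Sl J ∧ r ≠ 30 := by
      intro J
      fin_cases J
      · exact ⟨24, by decide, by decide⟩
      · exact ⟨25, by decide, by decide⟩
    obtain ⟨r, hr, hr'⟩ := hr J
    refine (ta θ τ hτ).exists_x (cgF4 K) (phi J) (pee J) (srt J) (tv K J) (fix1 θ τ hτ J) hr ?_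
    unfold tv
    rw [if_neg (fun h => hr' h.2)]
    exact one_ne_zero

section
variable (hi : ∀ t, θ (τ t) = t) (hi' : ∀ t, τ (θ t) = t)

include hi hi' in
theorem mem_Um0 {x : GL chevF4.Idx K} : x ∈ TN.Um (ta θ τ hτ) (cgF4 K) ((R θ τ hτ).n (0 : Fin 2)) ↔
    ∃ t, x = xg chevF4 24 t * xg chevF4 33 (θ t) := by
  rw [show (R θ τ hτ).n (0 : Fin 2) = nl chevF4 K (wv (w 0)) from rfl, (ta θ τ hτ).mem_Um_iff (cgF4 K) (phi 0) (pee 0)]
  constructor
  · rintro ⟨⟨t, rfl⟩, h⟩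
    have e : wg chevF4 ((Sl 0).map fun r => (r, t r)) = xg chevF4 24 (t 24) * xg chevF4 33 (t 33) := by
      change xg chevF4 24 (t 24) * (xg chevF4 33 (t 33) * 1) = _
      rw [mul_one]
    rw [e] at h ⊢
    exact ⟨t 24, by rw [((pair_iff' θ τ hτ _ _).mp h).2]⟩
  · rintro ⟨t, rfl⟩
    refine ⟨⟨fun r => if r = 24 then t else θ t, ?_⟩, ?_⟩
    · change _ = xg chevF4 24 t * (xg chevF4 33 (θ t) * 1)
      rw [mul_one]
    · exact (pair_iff' θ τ hτ _ _).mpr ⟨hi' t, rfl⟩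

include hi hi' in
theorem mem_Um1 {x : GL chevF4.Idx K} : x ∈ TN.Um (ta θ τ hτ) (cgF4 K) ((R θ τ hτ).n (1 : Fin 2)) ↔ ∃ t u, x = yy θ τ t u := by
  rw [show (R θ τ hτ).n (1 : Fin 2) = nl chevF4 K (wv (w 1)) from rfl, (ta θ τ hτ).mem_Um_iff (cgF4 K) (phi 1) (pee 1)]
  constructor
  · rintro ⟨⟨t, rfl⟩, h⟩
    have e : wg chevF4 ((Sl 1).map fun r => (r, t r)) =
        xg chevF4 25 (t 25) * (xg chevF4 27 (t 27) * (xg chevF4 28 (t 28) * xg chevF4 30 (t 30))) := by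
      change xg chevF4 25 (t 25) * (xg chevF4 27 (t 27) * (xg chevF4 28 (t 28) * (xg chevF4 30 (t 30) * 1))) = _
      rw [mul_one]
    rw [e] at h ⊢
    obtain ⟨k1, k2, k3, k4⟩ := (quad_iff θ τ hτ _ _ _ _).mp h
    refine ⟨t 25, θ (t 30), ?_⟩
    unfold yy
    rw [hi', k2, ← k3, k1, k2, mul_comm (t 27) (t 25)]
  · rintro ⟨t, u, rfl⟩
    refine ⟨⟨fun r => if r = 25 then t else if r = 27 then θ t else if r = 28 then t * θ t + u else τ u, ?_⟩, yy_fix θ τ hτ hi hi' t u⟩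
    change yy θ τ t u = xg chevF4 25 t * (xg chevF4 27 (θ t) * (xg chevF4 28 (t * θ t + u) * (xg chevF4 30 (τ u) * 1)))
    rw [mul_one]
    rfl

/-! ### The generators -/

variable {m : ℕ} (hθ : ∀ t, θ t = t ^ (2 ^ m))

/-- generator of type `B₂` -/
noncomputable def gg (t u : K) : GL chevF4.Idx K :=
  xg chevF4 27 (θ t) * (xg chevF4 25 t * (xg chevF4 28 (t * θ t + u) * xg chevF4 30 (τ u)))

noncomputable def gg' (t u : K) : GL chevF4.Idx K :=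
  xg chevF4 20 (θ t) * (xg chevF4 22 t * (xg chevF4 19 (t * θ t + u) * xg chevF4 17 (τ u)))

include hτ hi' in
theorem gg_eq (t u : K) : gg θ τ t u = yy θ τ t (u + t * θ t) := by
  unfold gg yy
  have M := cgF4 K
  rw [← mul_assoc (xg chevF4 27 (θ t)), comm_ab K]
  have e1 : τ (u + t * θ t) = t * (θ t) ^ 2 + τ u := by
    rw [map_add, map_mul, hi', hτ t]; ring
  have e2 : t * θ t + (u + t * θ t) = θ t * t + (t * θ t + u) := by ring
  rw [e1, e2, ← M.xg_add 28 (θ t * t) (t * θ t + u), ← M.xg_add 30 (t * (θ t) ^ 2) (τ u)]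
  have k2 := (M.xg_cm cm1.2.2.2.2.2.2.1 (t * θ t + u) (t * (θ t) ^ 2)).eq
  generalize xg chevF4 25 t = A
  generalize xg chevF4 27 (θ t) = B
  generalize xg chevF4 28 (θ t * t) = C
  generalize xg chevF4 30 (t * (θ t) ^ 2) = E at *
  generalize xg chevF4 30 (τ u) = F at *
  generalize xg chevF4 28 (t * θ t + u) = G at *
  calc A * (B * (C * E)) * (G * F) = A * (B * (C * (E * G) * F)) := by group
    _ = A * (B * (C * (G * E) * F)) := by rw [k2]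
    _ = _ := by group

/-- the negative generator is fixed -/
theorem gg'_fix (hi : ∀ t, θ (τ t) = t) (hi' : ∀ t, τ (θ t) = t) (t u : K) : (ta θ τ hτ).s (gg' θ τ t u) = gg' θ τ t u := by
  obtain ⟨_, _, _, _, _, _, _, _, m1, m2, m3, m4⟩ := mem1
  obtain ⟨_, _, _, _, _, _, _, _, c1⟩ := cm1
  have M := cgF4 K
  unfold gg'
  rw [(ta θ τ hτ).mul _ (M.xg_mem_G _ _) _ (mul_mem (M.xg_mem_G _ _) (mul_mem (M.xg_mem_G _ _) (M.xg_mem_G _ _))),
    (ta θ τ hτ).mul _ (M.xg_mem_G _ _) _ (mul_mem (M.xg_mem_G _ _) (M.xg_mem_G _ _)), (ta θ τ hτ).mul _ (M.xg_mem_G _ _) _ (M.xg_mem_G _ _),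
    s_x1 θ τ hτ m2, s_x2 θ τ hτ m1, s_x2 θ τ hτ m3, s_x1 θ τ hτ m4, hi', hi]
  -- x22(t) x20(θ t) x17(τ(tθt+u)) x19(u) = x20(θt) x22(t) x19(tθt+u) x17(τ u)
  rw [← mul_assoc (xg chevF4 20 (θ t)) (xg chevF4 22 t), comm_ab' K]
  have e1 : τ (t * θ t + u) = t * (θ t) ^ 2 + τ u := by
    rw [map_add, map_mul, hi', hτ t]; ring
  have e2 : u = θ t * t + (t * θ t + u) := by linear_combination (-t * θ t) * two0 K
  rw [e1]
  have e4 : xg chevF4 19 u = xg chevF4 19 (θ t * t) * xg chevF4 19 (t * θ t + u) := by rw [M.xg_add, ← e2]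
  rw [e4, ← M.xg_add 17 (t * (θ t) ^ 2) (τ u)]
  have k1 := (M.xg_cm c1 (θ t * t) (t * (θ t) ^ 2 + τ u)).eq
  have k2 := (M.xg_cm c1 (t * θ t + u) (t * (θ t) ^ 2 + τ u)).eq
  have k3 := (M.xg_cm c1 (t * θ t + u) (t * (θ t) ^ 2)).eq
  rw [← M.xg_add] at k1 k2
  generalize xg chevF4 22 t = A at *
  generalize xg chevF4 20 (θ t) = B at *
  generalize xg chevF4 19 (θ t * t) = C at *
  generalize xg chevF4 17 (t * (θ t) ^ 2) = E at *
  generalize xg chevF4 17 (τ u) = F at *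
  generalize xg chevF4 19 (t * θ t + u) = G at *
  calc A * (B * (E * F * (C * G))) = A * (B * ((E * F * C) * G)) := by group
    _ = A * (B * ((C * (E * F)) * G)) := by rw [k1]
    _ = A * (B * (C * (E * F * G))) := by group
    _ = A * (B * (C * (G * (E * F)))) := by rw [k2]
    _ = A * (B * (C * ((G * E) * F))) := by group
    _ = A * (B * (C * ((E * G) * F))) := by rw [k3]
    _ = _ := by group

include hτ hθ in
theorem words {w : List (ℕ × K)} : w ∈ f4Words K (2 ^ m) ↔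
    (∃ t : K, w = [(33, θ t), (24, t)] ∨ w = [(14, θ t), (23, t)]) ∨
    (∃ t u : K, w = [(27, θ t), (25, t), (28, t * θ t + u), (30, τ u)] ∨ w = [(20, θ t), (22, t), (19, t * θ t + u), (17, τ u)]) := by
  have e1 : ∀ t : K, t ^ (2 ^ m + 1) = t * θ t := by intro t; rw [hθ, pow_succ, mul_comm]
  have e2 : ∀ u : K, u ^ (2 * 2 ^ m) = τ u := by intro u; rw [hτ, hθ, mul_comm, pow_mul]
  simp only [hθ]
  have : w ∈ f4Words K (2 ^ m) ↔ (∃ t : K, w = [(33, t ^ 2 ^ m), (24, t)] ∨ w = [(14, t ^ 2 ^ m), (23, t)]) ∨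
    (∃ t u : K, w = [(27, t ^ 2 ^ m), (25, t), (28, t ^ (2 ^ m + 1) + u), (30, u ^ (2 * 2 ^ m))] ∨
      w = [(20, t ^ 2 ^ m), (22, t), (19, t ^ (2 ^ m + 1) + u), (17, u ^ (2 * 2 ^ m))]) := Iff.rfl
  rw [this]
  simp only [e1, e2, hθ]

include hi hi' hθ

theorem le_Gs : twistedF4 K (2 ^ m) ≤ (ta θ τ hτ).Gs (cgF4 K) := by
  apply (cgF4 K).genSub_le
  have M := cgF4 K
  obtain ⟨b1, b2, b3, b4, _⟩ := mem1
  intro w hw
  rw [TA.mem_Gs]
  refine ⟨by rw [M.G_eq]; exact M.wg_mem (fun p _ => Or.inl (Set.mem_univ _)), ?_⟩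
  rcases (words θ τ hτ hθ).mp hw with ⟨t, rfl | rfl⟩ | ⟨t, u, rfl | rfl⟩
  · rw [wg_cons, wg_cons, wg_nil, mul_one]
    rw [(ta θ τ hτ).mul _ (M.xg_mem_G _ _) _ (M.xg_mem_G _ _), s_x2 θ τ hτ b1, s_x1 θ τ hτ b2, hi']
    exact ((cgF4 K).xg_cm cm1.2.1 (θ t) t).eq
  · rw [wg_cons, wg_cons, wg_nil, mul_one]
    rw [(ta θ τ hτ).mul _ (M.xg_mem_G _ _) _ (M.xg_mem_G _ _), s_x2 θ τ hτ b3, s_x1 θ τ hτ b4, hi']
    exact ((cgF4 K).xg_cm cm1.2.2.1 (θ t) t).eq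
  · have e : wg chevF4 [(27, θ t), (25, t), (28, t * θ t + u), (30, τ u)] = yy θ τ t (u + t * θ t) := by
      rw [← gg_eq θ τ hτ hi', wg_cons, wg_cons, wg_cons, wg_cons, wg_nil, mul_one]
      rfl
    rw [e, yy_fix θ τ hτ hi hi']
  · have e : wg chevF4 [(20, θ t), (22, t), (19, t * θ t + u), (17, τ u)] = gg' θ τ t u := by
      rw [wg_cons, wg_cons, wg_cons, wg_cons, wg_nil, mul_one]
      rfl
    rw [e, gg'_fix θ τ hτ hi hi']

omit hi hi'

include hτ in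
theorem pair_mem (t : K) : xg chevF4 33 (θ t) * xg chevF4 24 t ∈ twistedF4 K (2 ^ m) := by
  have := (cgF4 K).wg_mem_genSub (S := f4Words K (2 ^ m)) ((words θ τ hτ hθ).mpr (Or.inl ⟨t, Or.inl rfl⟩))
  rwa [wg_cons, wg_cons, wg_nil, mul_one] at this

include hτ in
theorem pair_mem' (t : K) : xg chevF4 14 (θ t) * xg chevF4 23 t ∈ twistedF4 K (2 ^ m) := by
  have := (cgF4 K).wg_mem_genSub (S := f4Words K (2 ^ m)) ((words θ τ hτ hθ).mpr (Or.inl ⟨t, Or.inr rfl⟩))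
  rwa [wg_cons, wg_cons, wg_nil, mul_one] at this

include hτ in
theorem gg_mem (t u : K) : gg θ τ t u ∈ twistedF4 K (2 ^ m) := by
  have := (cgF4 K).wg_mem_genSub (S := f4Words K (2 ^ m)) ((words θ τ hτ hθ).mpr (Or.inr ⟨t, u, Or.inl rfl⟩))
  rwa [wg_cons, wg_cons, wg_cons, wg_cons, wg_nil, mul_one] at this

include hτ in
theorem gg'_mem (t u : K) : gg' θ τ t u ∈ twistedF4 K (2 ^ m) := by
  have := (cgF4 K).wg_mem_genSub (S := f4Words K (2 ^ m)) ((words θ τ hτ hθ).mpr (Or.inr ⟨t, u, Or.inr rfl⟩))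
  rwa [wg_cons, wg_cons, wg_cons, wg_cons, wg_nil, mul_one] at this

include hi' hτ in
theorem yy_mem (t u : K) : yy θ τ t u ∈ twistedF4 K (2 ^ m) := by
  have h := gg_mem θ τ hτ hθ t (u - t * θ t)
  rw [gg_eq θ τ hτ hi'] at h
  rwa [sub_add_cancel] at h

include hτ in
theorem ngp_mem (t : K) : ng chevF4 33 (θ t) * ng chevF4 24 t ∈ twistedF4 K (2 ^ m) := by
  obtain ⟨_, _, _, _, n0, _, _, n3⟩ := smp
  rw [(cgF4 K).ng_mul2 cm1.2.2.2.2.1, n0, n3]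
  have h := pair_mem' θ τ hτ hθ (-t⁻¹)
  rw [map_neg, map_inv₀] at h
  exact mul_mem (mul_mem (pair_mem θ τ hτ hθ t) h) (pair_mem θ τ hτ hθ t)

omit hθ in
/-- the monomial element as a product of generators -/
theorem n1_eq : nl chevF4 K [1, 2, 1, 2] = gg θ τ 1 0 * gg' θ τ 0 1 * gg θ τ 1 1 := by
  have h1 : wEq chevF4 TF4 2 (nlW chevF4 2 [1, 2, 1, 2]) ([(27, 1), (25, 1), (28, 1)] ++ [(19, 1), (17, 1)] ++ [(27, 1), (25, 1), (30, 1)]) = true := by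
    decide +kernel
  have M := cgF4 K
  rw [nl_word (cgF4 K) (h20 K) (by norm_num), wg_eq_of_wEq (cgF4 K) (h20 K) (by norm_num) h1, wg_cast_append, wg_cast_append]
  have e1 : gg θ τ 1 0 = wg chevF4 (castW K [(27, 1), (25, 1), (28, 1)]) := by
    change _ = xg chevF4 27 ((1 : ℕ) : K) * (xg chevF4 25 ((1 : ℕ) : K) * (xg chevF4 28 ((1 : ℕ) : K) * 1))
    unfold gg
    simp only [map_one, map_zero, Nat.cast_one, mul_one, add_zero, M.xg_zero]
  have e2 : gg' θ τ 0 1 = wg chevF4 (castW K [(19, 1), (17, 1)]) := by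
    change _ = xg chevF4 19 ((1 : ℕ) : K) * (xg chevF4 17 ((1 : ℕ) : K) * 1)
    unfold gg'
    simp only [map_one, map_zero, Nat.cast_one, mul_one, zero_mul, zero_add, M.xg_zero, one_mul]
  have e3 : gg θ τ 1 1 = wg chevF4 (castW K [(27, 1), (25, 1), (30, 1)]) := by
    change _ = xg chevF4 27 ((1 : ℕ) : K) * (xg chevF4 25 ((1 : ℕ) : K) * (xg chevF4 30 ((1 : ℕ) : K) * 1))
    unfold gg
    have : (1 : K) * 1 + 1 = 0 := by linear_combination two0 K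
    simp only [map_one, Nat.cast_one, mul_one]
    rw [mul_one] at this
    rw [this, M.xg_zero, one_mul]
  rw [e1, e2, e3]

include hτ in
theorem n_mem (J : Fin 2) : (R θ τ hτ).n J ∈ twistedF4 K (2 ^ m) := by
  change nl chevF4 K (wv (w J)) ∈ _
  obtain ⟨e0, e1, e2, e3⟩ := ni_eq K
  fin_cases J
  · change ni chevF4 K 0 * (ni chevF4 K 3 * 1) ∈ _
    rw [mul_one, e0, e3]
    have := ngp_mem θ τ hτ hθ 1
    rwa [map_one] at this
  · change nl chevF4 K [1, 2, 1, 2] ∈ _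
    rw [n1_eq θ τ]
    exact mul_mem (mul_mem (gg_mem θ τ hτ hθ 1 0) (gg'_mem θ τ hτ hθ 0 1)) (gg_mem θ τ hτ hθ 1 1)

include hi hi' in
theorem Um_le (J : Fin 2) : TN.Um (ta θ τ hτ) (cgF4 K) ((R θ τ hτ).n J) ≤ twistedF4 K (2 ^ m) := by
  intro x hx
  fin_cases J
  · obtain ⟨t, rfl⟩ := (mem_Um0 θ τ hτ hi hi').mp hx
    rw [← ((cgF4 K).xg_cm cm1.1 t (θ t)).eq]
    exact pair_mem θ τ hτ hθ t
  · obtain ⟨t, u, rfl⟩ := (mem_Um1 θ τ hτ hi hi').mp hx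
    exact yy_mem θ τ hτ hi' hθ t u

end

end CfsgLib.Chev.TwF4
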