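import Cfsg.Agent.Lib.TWF2
import Cfsg.Agent.Lib.CHO7
set_option autoImplicit false
set_option linter.style.haveILetI false
set_option maxRecDepth 1000000

/-! The torus and the order of the unipotent subgroup of `²F₄(q)`. -/

namespace CfsgLib.Chev
open Cfsg.Lie Matrix CfsgLib.BNP CfsgLib.PWM CfsgLib.Chev.GA CfsgLib.Chev.EV

namespace CG
variable {D : ChevalleyDatum} {K : Type*} [Field K] (M : CG D K)
include M

theorem nl_dgg {l : List ℕ} (hl : Wd D l) (ω : ℕ → Kˣ) :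
    nl D K l * dgg D ω * (nl D K l)⁻¹ = dgg D (fun s => ω (rl D l.reverse s)) := by
  induction l with
  | nil => rw [nl_nil]; simp
  | cons i l ih =>
    have h1 : i < D.rank := hl i (by simp)
    have h2 : Wd D l := fun j hj => hl j (List.mem_cons_of_mem _ hj)
    rw [nl_cons]
    have e : ni D K i * nl D K l * dgg D ω * (ni D K i * nl D K l)⁻¹ = ni D K i * (nl D K l * dgg D ω * (nl D K l)⁻¹) * (ni D K i)⁻¹ := by
      group
    rw [e, ih h2, M.ni_dgg h1]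
    congr 1
    funext s
    rw [List.reverse_cons, rl_append]
    rfl

theorem nl_hF_inv (l : List (Fin D.rank)) (c : Fin D.rank → Kˣ)
    (h : ∀ i : Fin D.rank, c i = 1 ∨ ∀ s < D.nroots, D.cartan i (rl D (wv l).reverse s) = - D.cartan i s) :
    nl D K (wv l) * hF D K c * (nl D K (wv l))⁻¹ = (hF D K c)⁻¹ := by
  rw [GD.hF_apply, M.nl_dgg (Wd_wv D l), ← map_inv]
  apply dgg_congr
  intro s hs
  rw [Pi.inv_apply, ← Finset.prod_inv_distrib]
  apply Finset.prod_congr rfl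
  intro i _
  rcases h i with h1 | h1
  · rw [h1, _root_.one_zpow, _root_.one_zpow, inv_one]
  · rw [h1 s hs, _root_.zpow_neg]

end CG

namespace TwF4
open Cfsg.Lie Matrix CfsgLib.BNP CfsgLib.PWM CfsgLib.Chev.GA CfsgLib.Chev CfsgLib.Chev.EV

/-- the inverse of the Cartan matrix -/
def B4 : Matrix (Fin chevF4.rank) (Fin chevF4.rank) ℤ :=
  Matrix.of (fun i j : Fin 4 => (([[2, 3, 4, 2], [3, 6, 8, 4], [2, 4, 6, 3], [1, 2, 3, 2]] : List (List ℤ)).getD i.val []).getD j.val 0)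

theorem B4_eq : cmat chevF4 * B4 = Matrix.diagonal (fun _ => ((1 : ℕ) : ℤ)) := by
  have h : ∀ i j : Fin chevF4.rank, ∑ k : Fin chevF4.rank, cmat chevF4 i k * B4 k j = if i = j then 1 else 0 := by
    decide +kernel
  ext i j
  rw [Matrix.mul_apply, h, Matrix.diagonal_apply]
  rfl

theorem sy : πf.symm (I 0) = I 3 ∧ πf.symm (I 1) = I 2 ∧ πf.symm (I 2) = I 1 ∧ πf.symm (I 3) = I 0 := by decide +kernel

variable {K : Type*} [Field K] [CharP K 2] (θ τ : K →+* K) (hτ : ∀ t, τ t = (θ t) ^ 2)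
  (hi : ∀ t, θ (τ t) = t) (hi' : ∀ t, τ (θ t) = t)

omit [CharP K 2] in
theorem hF_inj {c : Fin chevF4.rank → Kˣ} (h : hF chevF4 K c = 1) : c = 1 := by
  funext i
  have := (cgF4 K).pow_of_hF B4_eq h i
  rwa [pow_one] at this

/-- the torus of the fixed subgroup -/
theorem torus {h : GL chevF4.Idx K} (hh : h ∈ chevF4.diagonalSubgroup K ⊓ (ta θ τ hτ).Gs (cgF4 K)) :
    ∃ c : Fin chevF4.rank → Kˣ, (ta θ τ hτ).st c = c ∧ hF chevF4 K c = h := by
  obtain ⟨h1, h4⟩ := Subgroup.mem_inf.mp hh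
  rw [← (cgF4 K).hF_range] at h1
  obtain ⟨c, rfl⟩ := h1
  have h5 := (((ta θ τ hτ).mem_Gs (cgF4 K)).mp h4).2
  rw [(ta θ τ hτ).s_hF (cgF4 K)] at h5
  refine ⟨c, ?_, rfl⟩
  have hz : hF chevF4 K ((ta θ τ hτ).st c * c⁻¹) = 1 := by
    rw [map_mul, map_inv, h5, mul_inv_cancel]
  exact mul_inv_eq_one.mp (hF_inj hz)

include hi hi' in
/-- the elements fixed by the action on the torus -/
theorem st_eq_iff (c : Fin chevF4.rank → Kˣ) : (ta θ τ hτ).st c = c ↔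
    (c (I 0) : K) = θ (c (I 3)) ∧ (c (I 1) : K) = θ (c (I 2)) := by
  constructor
  · intro h
    have e : ∀ i : Fin chevF4.rank, (ta θ τ hτ).f (T.π.symm i) (c (T.π.symm i)) = (c i : K) := fun i => congrArg Units.val (congrFun h i)
    have p0 : T.π.symm (I 0) = (I 3) := sy.1
    have p1 : T.π.symm (I 1) = (I 2) := sy.2.1
    have e0 := e (I 0)
    have e1 := e (I 1)
    rw [p0] at e0
    rw [p1] at e1
    exact ⟨e0.symm, e1.symm⟩
  · rintro ⟨a0, a1⟩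
    funext i
    apply Units.ext
    change (ta θ τ hτ).f (T.π.symm i) (c (T.π.symm i)) = (c i : K)
    have p0 : T.π.symm (I 0) = (I 3) := sy.1
    have p1 : T.π.symm (I 1) = (I 2) := sy.2.1
    have p2 : T.π.symm (I 2) = (I 1) := sy.2.2.1
    have p3 : T.π.symm (I 3) = (I 0) := sy.2.2.2
    change Fin 4 at i
    fin_cases i
    · change (ta θ τ hτ).f (T.π.symm (I 0)) (c (T.π.symm (I 0))) = (c (I 0) : K)
      rw [p0]; exact a0.symm
    · change (ta θ τ hτ).f (T.π.symm (I 1)) (c (T.π.symm (I 1))) = (c (I 1) : K)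
      rw [p1]; exact a1.symm
    · change (ta θ τ hτ).f (T.π.symm (I 2)) (c (T.π.symm (I 2))) = (c (I 2) : K)
      rw [p2, a1]; exact hi' _
    · change (ta θ τ hτ).f (T.π.symm (I 3)) (c (T.π.symm (I 3))) = (c (I 3) : K)
      rw [p3, a0]; exact hi' _

omit [CharP K 2] in
theorem hF_dec (c : Fin chevF4.rank → Kˣ) : hF chevF4 K c =
    hF chevF4 K (Pi.mulSingle (I 0) (c (I 0))) * hF chevF4 K (Pi.mulSingle (I 3) (c (I 3))) *
    hF chevF4 K (Pi.mulSingle (I 1) (c (I 1)) * Pi.mulSingle (I 2) (c (I 2))) := by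
  have h : c = ∏ i : Fin 4, (Pi.mulSingle (I i) (c (I i)) : Fin chevF4.rank → Kˣ) := (Finset.univ_prod_mulSingle c).symm
  rw [Fin.prod_univ_four] at h
  simp only [← map_mul]
  congr 1
  refine h.trans ?_
  simp only [mul_comm, mul_left_comm]

variable {m : ℕ} (hθ : ∀ t, θ t = t ^ (2 ^ m))

include hτ hθ in
theorem pairH_mem (t : Kˣ) : hF chevF4 K (Pi.mulSingle (I 0) (Units.map (θ : K →* K) t)) * hF chevF4 K (Pi.mulSingle (I 3) t) ∈
    twistedF4 K (2 ^ m) := by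
  obtain ⟨e0, e1, e2, e3⟩ := ni_eq K
  obtain ⟨s0, s1, s2, s3, _⟩ := smp
  have c1 := cm1.2.2.2.2.1
  have M := cgF4 K
  have t0 : chevF4.simple (I 0) = 33 := s0
  have t3 : chevF4.simple (I 3) = 24 := s3
  have u0 : ni chevF4 K (I 0) = ng chevF4 33 1 := e0
  have u3 : ni chevF4 K (I 3) = ng chevF4 24 1 := e3
  rw [M.hF_single, M.hF_single, t0, t3, u0, u3]
  change ng chevF4 33 (θ t) * (ng chevF4 33 1)⁻¹ * (ng chevF4 24 (t : K) * (ng chevF4 24 1)⁻¹) ∈ _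
  have k1 := (M.ng_cm c1 1 (t : K)).inv_right.eq.symm
  have k2 := (M.ng_cm c1 (1 : K) (1 : K)).eq
  have e : ng chevF4 33 (θ t) * (ng chevF4 33 1)⁻¹ * (ng chevF4 24 (t : K) * (ng chevF4 24 1)⁻¹) =
      (ng chevF4 33 (θ t) * ng chevF4 24 (t : K)) * (ng chevF4 33 1 * ng chevF4 24 1)⁻¹ := by
    rw [← k2]
    generalize ng chevF4 33 (θ (t : K)) = x at *
    generalize ng chevF4 24 (t : K) = y at *
    generalize ng chevF4 33 (1 : K) = x1 at *
    generalize ng chevF4 24 (1 : K) = y1 at *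
    calc x * x1⁻¹ * (y * y1⁻¹) = x * (x1⁻¹ * y) * y1⁻¹ := by group
      _ = x * (y * x1⁻¹) * y1⁻¹ := by rw [k1]
      _ = _ := by group
  rw [e]
  refine mul_mem (ngp_mem θ τ hτ hθ _) (inv_mem ?_)
  have := ngp_mem θ τ hτ hθ 1
  rwa [map_one] at this

theorem cinv : ∀ s < chevF4.nroots, chevF4.cartan (I 1) (rl chevF4 [2, 1, 2, 1] s) = - chevF4.cartan (I 1) s ∧
    chevF4.cartan (I 2) (rl chevF4 [2, 1, 2, 1] s) = - chevF4.cartan (I 2) s := by decide +kernel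

theorem rl1 : rl chevF4 [1, 2, 1, 2] 28 = 19 ∧ rl chevF4 [1, 2, 1, 2] 30 = 17 ∧ 28 < chevF4.nroots ∧ 30 < chevF4.nroots := by
  decide +kernel

theorem v_eq : gg' θ τ 0 1 = nl chevF4 K [1, 2, 1, 2] * yy θ τ 0 1 * (nl chevF4 K [1, 2, 1, 2])⁻¹ := by
  have M := cgF4 K
  obtain ⟨r1, r2, l1, l2⟩ := rl1
  have neg1 : (-1 : K) = 1 := by linear_combination (-1 : K) * two0 K
  have key : ∀ {s r : ℕ}, s < chevF4.nroots → rl chevF4 [1, 2, 1, 2] s = r →
      nl chevF4 K [1, 2, 1, 2] * xg chevF4 s 1 * (nl chevF4 K [1, 2, 1, 2])⁻¹ = xg chevF4 r 1 := by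
    intro s r hs hr
    rcases M.nl_xg (F := K) [1, 2, 1, 2] (Wd_wv chevF4 (w 1)) hs with h | h
    · rw [h, hr]
    · rw [h, hr, neg1]
  have h1 := key l1 r1
  have h2 := key l2 r2
  have e1 : yy θ τ 0 1 = xg chevF4 28 1 * xg chevF4 30 1 := by
    unfold yy
    simp only [map_zero, map_one, zero_mul, zero_add, M.xg_zero, one_mul]
  have e2 : gg' θ τ 0 1 = xg chevF4 19 1 * xg chevF4 17 1 := by
    unfold gg'
    simp only [map_zero, map_one, zero_mul, zero_add, M.xg_zero, one_mul]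
  rw [e1, e2, ← h1, ← h2]
  group

section
variable [Fintype K] (hK : Fintype.card K = 2 ^ (2 * m + 1))

include hτ hi hi' hθ hK in
theorem quadH_mem (t : Kˣ) : hF chevF4 K (Pi.mulSingle (I 1) (Units.map (θ : K →* K) t) * Pi.mulSingle (I 2) t) ∈
    twistedF4 K (2 ^ m) := by
  set c : Fin chevF4.rank → Kˣ := Pi.mulSingle (I 1) (Units.map (θ : K →* K) t) * Pi.mulSingle (I 2) t with hc
  have M := cgF4 K
  have c1 : c (I 1) = Units.map (θ : K →* K) t := by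
    rw [hc, Pi.mul_apply, Pi.mulSingle_eq_same, Pi.mulSingle_eq_of_ne (by decide), mul_one]
  have c2 : c (I 2) = t := by
    rw [hc, Pi.mul_apply, Pi.mulSingle_eq_same, Pi.mulSingle_eq_of_ne (by decide), one_mul]
  have c0 : c (I 0) = 1 := by
    rw [hc, Pi.mul_apply, Pi.mulSingle_eq_of_ne (by decide), Pi.mulSingle_eq_of_ne (by decide), one_mul]
  have c3 : c (I 3) = 1 := by
    rw [hc, Pi.mul_apply, Pi.mulSingle_eq_of_ne (by decide), Pi.mulSingle_eq_of_ne (by decide), one_mul]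
  have hst : (ta θ τ hτ).st c = c := by
    refine (st_eq_iff θ τ hτ hi hi' c).mpr ⟨?_, ?_⟩
    · rw [c0, c3, Units.val_one, map_one]
    · rw [c1, c2]; rfl
  set k := hF chevF4 K c with hk
  have hkH : k ∈ chevF4.diagonalSubgroup K := by rw [← M.hF_range]; exact ⟨c, rfl⟩
  have hkG : k ∈ (ta θ τ hτ).Gs (cgF4 K) :=
    ((ta θ τ hτ).mem_Gs (cgF4 K)).mpr ⟨M.hF_mem_G c, by rw [hk, (ta θ τ hτ).s_hF (cgF4 K), hst]⟩
  set n := nl chevF4 K [1, 2, 1, 2] with hn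
  have hnN : n ∈ chevF4.monomialSubgroup K := (R θ τ hτ).n_mem_N (cgF4 K) (1 : Fin 2)
  have hnG : n ∈ (ta θ τ hτ).Gs (cgF4 K) := (R θ τ hτ).n_mem_Gs (cgF4 K) (1 : Fin 2)
  have hnT : n ∈ twistedF4 K (2 ^ m) := n_mem θ τ hτ hθ (1 : Fin 2)
  have hinv : n * k * n⁻¹ = k⁻¹ := by
    refine M.nl_hF_inv (w 1) c (fun i => ?_)
    change Fin 4 at i
    fin_cases i
    · exact Or.inl c0
    · exact Or.inr (fun s hs => (cinv s hs).1)
    · exact Or.inr (fun s hs => (cinv s hs).2)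
    · exact Or.inl c3
  have hUm : ∀ a b : K, yy θ τ a b ∈ TN.Um (ta θ τ hτ) (cgF4 K) n := fun a b => (mem_Um1 θ τ hτ hi hi').mpr ⟨a, b, rfl⟩
  have hle : TN.Um (ta θ τ hτ) (cgF4 K) n ≤ twistedF4 K (2 ^ m) := Um_le θ τ hτ hi hi' hθ (1 : Fin 2)
  have h1 : k * n * k⁻¹ ∈ twistedF4 K (2 ^ m) := by
    have e : k * n * k⁻¹ = (k * yy θ τ 1 (0 + 1 * θ 1) * k⁻¹) * (n * ((n⁻¹ * k * n) * yy θ τ 0 1 * (n⁻¹ * k * n)⁻¹) * n⁻¹) *
        (k * yy θ τ 1 (1 + 1 * θ 1) * k⁻¹) := by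
      have e1 : n = yy θ τ 1 (0 + 1 * θ 1) * (n * yy θ τ 0 1 * n⁻¹) * yy θ τ 1 (1 + 1 * θ 1) := by
        rw [← gg_eq θ τ hτ hi', ← gg_eq θ τ hτ hi', hn, ← v_eq, ← n1_eq]
      have e2 : k * n * k⁻¹ = k * (yy θ τ 1 (0 + 1 * θ 1) * (n * yy θ τ 0 1 * n⁻¹) * yy θ τ 1 (1 + 1 * θ 1)) * k⁻¹ := by
        rw [← e1]
      rw [e2]
      group
    rw [e]
    refine mul_mem (mul_mem (hle (TN.H_conj_Um (cgF4 K) hnN hkH hkG (hUm _ _))) ?_) (hle (TN.H_conj_Um (cgF4 K) hnN hkH hkG (hUm _ _)))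
    refine mul_mem (mul_mem hnT (hle ?_)) (inv_mem hnT)
    exact TN.H_conj_Um (cgF4 K) hnN (M.H_conj' hnN hkH) (mul_mem (mul_mem (inv_mem hnG) hkG) hnG) (hUm _ _)
  have h2 : k ^ 2 ∈ twistedF4 K (2 ^ m) := by
    have e : k ^ 2 = (k * n * k⁻¹) * n⁻¹ := by
      have : n * k⁻¹ * n⁻¹ = k := by
        calc n * k⁻¹ * n⁻¹ = (n * k * n⁻¹)⁻¹ := by group
          _ = k := by rw [hinv, inv_inv]
      calc k ^ 2 = k * k := pow_two k
        _ = k * (n * k⁻¹ * n⁻¹) := by rw [this]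
        _ = _ := by group
    rw [e]
    exact mul_mem h1 (inv_mem hnT)
  have h3 : k = (k ^ 2) ^ (2 ^ (2 * m)) := by
    rw [← pow_mul]
    have e : 2 * 2 ^ (2 * m) = Fintype.card K := by rw [hK]; ring
    rw [e, hk, ← map_pow]
    congr 1
    funext i
    rw [Pi.pow_apply]
    apply Units.ext
    rw [Units.val_pow_eq_pow_val]
    exact (FiniteField.pow_card _).symm
  rw [h3]
  exact pow_mem h2 _

include hi hi' hθ hK in
theorem H_le : chevF4.diagonalSubgroup K ⊓ (ta θ τ hτ).Gs (cgF4 K) ≤ twistedF4 K (2 ^ m) := by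
  intro h hh
  obtain ⟨c, hc, rfl⟩ := torus θ τ hτ hh
  obtain ⟨a0, a1⟩ := (st_eq_iff θ τ hτ hi hi' c).mp hc
  have b0 : c (I 0) = Units.map (θ : K →* K) (c (I 3)) := Units.ext a0
  have b1 : c (I 1) = Units.map (θ : K →* K) (c (I 2)) := Units.ext a1
  rw [hF_dec, b0, b1]
  exact mul_mem (pairH_mem θ τ hτ hθ _) (quadH_mem θ τ hτ hi hi' hθ hK _)

include hi hi' hθ hK in
theorem eq_Gs : twistedF4 K (2 ^ m) = (ta θ τ hτ).Gs (cgF4 K) :=
  le_antisymm (le_Gs θ τ hτ hi hi' hθ) ((R θ τ hτ).Gs_le_of (cgF4 K) (Um_le θ τ hτ hi hi' hθ) (n_mem θ τ hτ hθ)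
    (H_le θ τ hτ hi hi' hθ hK) chn tp)

end

theorem simple_in (i : Fin chevF4.rank) : ∃ J : Fin 2, chevF4.simple i ∈ Sl J ∧ chevF4.simple i ≠ 30 := by
  revert i; decide +kernel

theorem core : ((chevF4.borelSubgroup K ⊓ (ta θ τ hτ).Gs (cgF4 K)).subgroupOf ((ta θ τ hτ).Gs (cgF4 K))).normalCore = ⊥ := by
  refine (R θ τ hτ).core1' (cgF4 K) tp (fun i => ?_)
  obtain ⟨J, hJ, hJ'⟩ := simple_in i
  refine ⟨Sl J, tv K J, srt J, hJ, ?_, ?_⟩
  · unfold tv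
    rw [if_neg (fun h => hJ' h.2)]
    exact one_ne_zero
  · have h := ((ta θ τ hτ).mem_Um_iff (cgF4 K) (phi J) (pee J)).mpr ⟨⟨tv K J, rfl⟩, fix1 θ τ hτ J⟩
    exact ((TN.mem_Um (cgF4 K)).mp h).1.2

section fin
variable [Fintype K]

include hi hi' in
theorem card_Um0 : Nat.card (TN.Um (ta θ τ hτ) (cgF4 K) ((R θ τ hτ).n (0 : Fin 2))) = Fintype.card K := by
  rw [← Nat.card_eq_fintype_card]
  refine (Nat.card_congr (Equiv.ofBijective (fun t : K =>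
    (⟨_, (mem_Um0 θ τ hτ hi hi').mpr ⟨t, rfl⟩⟩ : TN.Um (ta θ τ hτ) (cgF4 K) ((R θ τ hτ).n (0 : Fin 2)))) ⟨?_, ?_⟩)).symm
  · intro t u h
    have h1 : xg chevF4 24 t * xg chevF4 33 (θ t) = xg chevF4 24 u * xg chevF4 33 (θ u) := congrArg Subtype.val h
    have h3' : wg chevF4 ((Sl 0).map fun x => (x, (fun x => if x = 24 then t else θ t) x)) =
        wg chevF4 ((Sl 0).map fun x => (x, (fun x => if x = 24 then u else θ u) x)) := by
      change xg chevF4 24 t * (xg chevF4 33 (θ t) * 1) = xg chevF4 24 u * (xg chevF4 33 (θ u) * 1)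
      rw [mul_one, mul_one]
      exact h1
    exact (cgF4 K).form_unique' _ (of_decide_eq_true (srt 0)) _ _ h3' 24 (by decide)
  · rintro ⟨x, hx⟩
    obtain ⟨t, rfl⟩ := (mem_Um0 θ τ hτ hi hi').mp hx
    exact ⟨t, rfl⟩

include hi hi' in
theorem card_Um1 : Nat.card (TN.Um (ta θ τ hτ) (cgF4 K) ((R θ τ hτ).n (1 : Fin 2))) = Fintype.card K ^ 2 := by
  have e : Fintype.card K ^ 2 = Nat.card (K × K) := by
    rw [Nat.card_prod, Nat.card_eq_fintype_card, pow_two]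
  rw [e]
  refine (Nat.card_congr (Equiv.ofBijective (fun t : K × K =>
    (⟨_, (mem_Um1 θ τ hτ hi hi').mpr ⟨t.1, t.2, rfl⟩⟩ : TN.Um (ta θ τ hτ) (cgF4 K) ((R θ τ hτ).n (1 : Fin 2)))) ⟨?_, ?_⟩)).symm
  · rintro ⟨t, u⟩ ⟨t', u'⟩ h
    have h1 : yy θ τ t u = yy θ τ t' u' := congrArg Subtype.val h
    have h3' : wg chevF4 ((Sl 1).map fun x => (x, (fun x => if x = 25 then t else if x = 27 then θ t else if x = 28 then t * θ t + u else τ u) x)) =
        wg chevF4 ((Sl 1).map fun x => (x, (fun x => if x = 25 then t' else if x = 27 then θ t' else if x = 28 then t' * θ t' + u' else τ u') x)) := by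
      change xg chevF4 25 t * (xg chevF4 27 (θ t) * (xg chevF4 28 (t * θ t + u) * (xg chevF4 30 (τ u) * 1))) =
        xg chevF4 25 t' * (xg chevF4 27 (θ t') * (xg chevF4 28 (t' * θ t' + u') * (xg chevF4 30 (τ u') * 1)))
      rw [mul_one, mul_one]
      exact h1
    have h5 := (cgF4 K).form_unique' _ (of_decide_eq_true (srt 1)) _ _ h3' 25 (by decide)
    have h6 := (cgF4 K).form_unique' _ (of_decide_eq_true (srt 1)) _ _ h3' 30 (by decide)
    have h7 : t = t' := h5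
    have h8 : τ u = τ u' := h6
    rw [h7, τ.injective h8]
  · rintro ⟨x, hx⟩
    obtain ⟨t, u, rfl⟩ := (mem_Um1 θ τ hτ hi hi').mp hx
    exact ⟨(t, u), rfl⟩

include hi hi' in
theorem card_Um (J : Fin 2) :
    Nat.card (TN.Um (ta θ τ hτ) (cgF4 K) ((R θ τ hτ).n J)) = Fintype.card K ^ ([1, 2].getD J.val 0) := by
  fin_cases J
  · exact (card_Um0 θ τ hτ hi hi').trans (pow_one _).symm
  · exact card_Um1 θ τ hτ hi hi'

include hi hi' in
theorem card_U : Nat.card ↥(chevF4.posUnipotent K ⊓ (ta θ τ hτ).Gs (cgF4 K)) = Fintype.card K ^ 12 := by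
  rw [(R θ τ hτ).card_U (cgF4 K) chn tp]
  have h' : (L0.map fun J => Nat.card (TN.Um (ta θ τ hτ) (cgF4 K) ((R θ τ hτ).n J))).prod = Fintype.card K ^ 12 := by
    have h : (L0.map fun J => Nat.card (TN.Um (ta θ τ hτ) (cgF4 K) ((R θ τ hτ).n J))) =
        L0.map fun J : Fin 2 => Fintype.card K ^ ([1, 2].getD J.val 0) :=
      List.map_congr_left (fun J _ => card_Um θ τ hτ hi hi' J)
    rw [h]
    generalize Fintype.card K = q
    change q ^ 1 * (q ^ 2 * (q ^ 1 * (q ^ 2 * (q ^ 1 * (q ^ 2 * (q ^ 1 * (q ^ 2 * 1))))))) = _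
    ring
  exact h'

include hi hi' in
theorem card_H : Nat.card ↥(chevF4.diagonalSubgroup K ⊓ (ta θ τ hτ).Gs (cgF4 K)) = (Fintype.card K - 1) ^ 2 := by
  have e : (Fintype.card K - 1) ^ 2 = Nat.card (Kˣ × Kˣ) := by
    rw [Nat.card_prod, Nat.card_units, Nat.card_eq_fintype_card, pow_two]
  rw [e]
  let cc : Kˣ × Kˣ → (Fin chevF4.rank → Kˣ) := fun p =>
    (![Units.map (θ : K →* K) p.1, Units.map (θ : K →* K) p.2, p.2, p.1] : Fin 4 → Kˣ)
  have hcc : ∀ p, (ta θ τ hτ).st (cc p) = cc p := fun p => (st_eq_iff θ τ hτ hi hi' _).mpr ⟨rfl, rfl⟩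
  refine (Nat.card_congr (Equiv.ofBijective (fun p : Kˣ × Kˣ =>
    (⟨hF chevF4 K (cc p), Subgroup.mem_inf.mpr ⟨?_, ?_⟩⟩ : ↥(chevF4.diagonalSubgroup K ⊓ (ta θ τ hτ).Gs (cgF4 K)))) ⟨?_, ?_⟩)).symm
  · rw [← (cgF4 K).hF_range]; exact ⟨_, rfl⟩
  · exact ((ta θ τ hτ).mem_Gs (cgF4 K)).mpr ⟨(cgF4 K).hF_mem_G _, by rw [(ta θ τ hτ).s_hF (cgF4 K), hcc]⟩
  · intro p p' h
    have h1 : hF chevF4 K (cc p) = hF chevF4 K (cc p') := congrArg Subtype.val h
    have h2 : hF chevF4 K (cc p * (cc p')⁻¹) = 1 := by rw [map_mul, map_inv, h1, mul_inv_cancel]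
    have h3 := mul_inv_eq_one.mp (hF_inj h2)
    exact Prod.ext (congrFun h3 (I 3)) (congrFun h3 (I 2))
  · rintro ⟨h, hh⟩
    obtain ⟨c, hc, he⟩ := torus θ τ hτ hh
    obtain ⟨a0, a1⟩ := (st_eq_iff θ τ hτ hi hi' c).mp hc
    refine ⟨(c (I 3), c (I 2)), Subtype.ext ?_⟩
    change hF chevF4 K (cc (c (I 3), c (I 2))) = h
    rw [← he]
    congr 1
    funext i
    change Fin 4 at i
    fin_cases i
    · exact Units.ext a0.symm
    · exact Units.ext a1.symm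
    · rfl
    · rfl

end fin

end TwF4

end CfsgLib.Chev
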