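import Cfsg.Agent.Lib.TWF3
import Cfsg.Agent.Lib.TW13
import Cfsg.Agent.Lib.DihLift
set_option autoImplicit false
set_option linter.style.haveILetI false
set_option maxRecDepth 1000000

/-! The Weyl group and the order of `²F₄(q)`. -/

namespace CfsgLib.Chev.TwF4
open Cfsg.Lie Matrix CfsgLib.BNP CfsgLib.PWM CfsgLib.Chev.GA CfsgLib.Chev CfsgLib.Chev.EV

theorem charP2 {K : Type*} [Field K] [Fintype K] {m : ℕ} (hK : Fintype.card K = 2 ^ (2 * m + 1)) : CharP K 2 := by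
  haveI : Fact (Nat.Prime 2) := ⟨Nat.prime_two⟩
  exact charP_of_card_eq_prime_pow hK

theorem setup {K : Type*} [Field K] [Fintype K] {m : ℕ} (hK : Fintype.card K = 2 ^ (2 * m + 1)) [CharP K 2] :
    ∃ θ τ : K →+* K, (∀ t, τ t = (θ t) ^ 2) ∧ (∀ t, θ (τ t) = t) ∧ (∀ t, τ (θ t) = t) ∧ ∀ t, θ t = t ^ (2 ^ m) := by
  haveI : Fact (Nat.Prime 2) := ⟨Nat.prime_two⟩
  have h1 : ∀ t : K, iterateFrobenius K 2 m t = t ^ (2 ^ m) := fun t => by rw [iterateFrobenius_def]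
  have h2 : ∀ t : K, iterateFrobenius K 2 (m + 1) t = t ^ (2 ^ (m + 1)) := fun t => by rw [iterateFrobenius_def]
  have h3 : ∀ t : K, t ^ (2 ^ (2 * m + 1)) = t := fun t => by rw [← hK]; exact FiniteField.pow_card t
  refine ⟨iterateFrobenius K 2 m, iterateFrobenius K 2 (m + 1), ?_, ?_, ?_, h1⟩
  · intro t
    rw [h1, h2, ← pow_mul, pow_succ]
  · intro t
    rw [h1, h2, ← pow_mul, ← pow_add]
    have : m + 1 + m = 2 * m + 1 := by ring
    rw [this, h3]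
  · intro t
    rw [h1, h2, ← pow_mul, ← pow_add]
    have : m + (m + 1) = 2 * m + 1 := by ring
    rw [this, h3]

variable {K : Type*} [Field K] [CharP K 2] (θ τ : K →+* K) (hτ : ∀ t, τ t = (θ t) ^ 2)
  (hi : ∀ t, θ (τ t) = t) (hi' : ∀ t, τ (θ t) = t)

/-- the generators of the Weyl group -/
noncomputable def sg2 : Fin 2 → Weyl ((R θ τ hτ).bnp1 (cgF4 K)) := (R θ τ hτ).sW1 (cgF4 K)

theorem wd_eq_one_iff (L : List (Fin 2)) : wd (sg2 θ τ hτ) L = 1 ↔ ∀ s < chevF4.nroots, rl chevF4 (wv (O.fl L)) s = s :=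
  (R θ τ hτ).wd1_eq_one_iff_rl (cgF4 K) L

theorem rl8 : ∀ s < chevF4.nroots, rl chevF4 (wv (O.fl ([0, 1, 0, 1, 0, 1, 0, 1, 0, 1, 0, 1, 0, 1, 0, 1] : List (Fin 2)))) s = s := by
  decide +kernel

theorem rl4 : ¬ ∀ s < chevF4.nroots, rl chevF4 (wv (O.fl ([0, 1, 0, 1, 0, 1, 0, 1] : List (Fin 2)))) s = s := by
  decide +kernel

theorem sq2 (J : Fin 2) : sg2 θ τ hτ J * sg2 θ τ hτ J = 1 := ((R θ τ hτ).invW1 (cgF4 K)).sq J

theorem order8 : orderOf (sg2 θ τ hτ 0 * sg2 θ τ hτ 1) = 8 := by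
  haveI : Fact (Nat.Prime 2) := ⟨Nat.prime_two⟩
  refine orderOf_eq_prime_pow (p := 2) (n := 2) ?_ ?_
  · intro h
    refine rl4 ((wd_eq_one_iff θ τ hτ _).mp ?_)
    simp only [wd_cons, wd_nil, mul_one]
    rw [← h]
    simp only [show (2 ^ 2 : ℕ) = 4 from rfl, pow_succ, pow_zero, one_mul, mul_assoc]
  · have h := (wd_eq_one_iff θ τ hτ _).mpr rl8
    simp only [wd_cons, wd_nil, mul_one] at h
    rw [← h]
    simp only [show (2 ^ (2 + 1) : ℕ) = 8 from rfl, pow_succ, pow_zero, one_mul, mul_assoc]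

/-- the Weyl group is dihedral -/
theorem exists_dih : ∃ e : DihedralGroup 8 ≃* Weyl ((R θ τ hτ).bnp1 (cgF4 K)),
    ∀ J : Fin 2, e (DihedralGroup.sr ((J.val : ℕ) : ZMod 8)) = sg2 θ τ hτ J := by
  set x := sg2 θ τ hτ 0 * sg2 θ τ hτ 1 with hxd
  set y := sg2 θ τ hτ 0 with hyd
  have hx : x ^ 8 = 1 := by rw [← order8 θ τ hτ]; exact pow_orderOf_eq_one _
  have hy : y * y = 1 := sq2 θ τ hτ 0
  have h1 : sg2 θ τ hτ 1 = y * x := by rw [hxd, ← mul_assoc, hy, one_mul]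
  have hxy : y * x * y = x⁻¹ := by
    rw [← h1, hxd, _root_.mul_inv_rev, inv_eq_of_mul_eq_one_left (sq2 θ τ hτ 1), inv_eq_of_mul_eq_one_left (sq2 θ τ hτ 0)]
  have ho : orderOf x = 8 := order8 θ τ hτ
  have hny : y ∉ Subgroup.zpowers x := by
    intro hmem
    obtain ⟨k, hk⟩ := Subgroup.mem_zpowers_iff.mp hmem
    have hc : y * x = x * y := by
      rw [← hk]; exact (Commute.refl x).zpow_left k |>.eq
    rw [hc, mul_assoc, hy, mul_one] at hxy
    have h2 : x ^ 2 = 1 := by rw [pow_two]; nth_rewrite 2 [hxy]; exact mul_inv_cancel x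
    have h3 := orderOf_dvd_of_pow_eq_one h2
    rw [ho] at h3
    norm_num at h3
  let f := CfsgLib.DihLift.lift 8 x y hx hy hxy
  have hinj : Function.Injective f := CfsgLib.DihLift.lift_injective 8 x y hx hy hxy ho hny
  have f0 : f (DihedralGroup.sr 0) = y := CfsgLib.DihLift.lift_sr_zero 8 x y hx hy hxy
  have f1 : f (DihedralGroup.sr 1) = y * x := by
    have := CfsgLib.DihLift.lift_sr_int 8 x y hx hy hxy 1
    rw [zpow_one, Int.cast_one] at this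
    exact this
  have hsurj : Function.Surjective f := by
    intro w
    obtain ⟨l, rfl⟩ := ((R θ τ hτ).invW1 (cgF4 K)).gen w
    induction l with
    | nil => exact ⟨1, map_one f⟩
    | cons J l ih =>
      obtain ⟨d, hd⟩ := ih
      have hJ : ∃ d', f d' = sg2 θ τ hτ J := by
        change Fin 2 at J
        fin_cases J
        · exact ⟨_, f0⟩
        · exact ⟨_, f1.trans h1.symm⟩
      obtain ⟨d', hd'⟩ := hJ
      refine ⟨d' * d, ?_⟩
      rw [map_mul, hd, hd', wd_cons]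
      rfl
  refine ⟨MulEquiv.ofBijective f ⟨hinj, hsurj⟩, fun J => ?_⟩
  fin_cases J
  · change f (DihedralGroup.sr ((0 : ℕ) : ZMod 8)) = _
    rw [Nat.cast_zero]
    exact f0
  · change f (DihedralGroup.sr ((1 : ℕ) : ZMod 8)) = _
    rw [Nat.cast_one]
    exact f1.trans h1.symm

/-- the quotient `N¹/H¹` -/
theorem NH : ∃ ψ : ↥(chevF4.monomialSubgroup K ⊓ (ta θ τ hτ).Gs (cgF4 K)) →* DihedralGroup 8, Function.Surjective ψ ∧
      ψ.ker = (chevF4.diagonalSubgroup K ⊓ (ta θ τ hτ).Gs (cgF4 K)).subgroupOf (chevF4.monomialSubgroup K ⊓ (ta θ τ hτ).Gs (cgF4 K)) := by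
  obtain ⟨e, _⟩ := exists_dih θ τ hτ
  refine ⟨e.symm.toMonoidHom.comp ((R θ τ hτ).homN1 (cgF4 K)), ?_, ?_⟩
  · exact e.symm.surjective.comp ((R θ τ hτ).homN1_surj (cgF4 K))
  · rw [← (R θ τ hτ).homN1_ker (cgF4 K)]
    ext n
    rw [MonoidHom.mem_ker, MonoidHom.mem_ker]
    exact e.symm.map_eq_one_iff

/-- the words -/
def Ws : List (List (Fin 2)) := [[], [0], [0, 1], [0, 1, 0], [0, 1, 0, 1], [0, 1, 0, 1, 0], [0, 1, 0, 1, 0, 1], [0, 1, 0, 1, 0, 1, 0],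
  [0, 1, 0, 1, 0, 1, 0, 1], [1], [1, 0], [1, 0, 1], [1, 0, 1, 0], [1, 0, 1, 0, 1], [1, 0, 1, 0, 1, 0], [1, 0, 1, 0, 1, 0, 1]]

def sd (J : Fin 2) : DihedralGroup 8 := DihedralGroup.sr ((J.val : ℕ) : ZMod 8)

theorem Ws_nodup : (Ws.map (wd sd)).Nodup := by decide +kernel

theorem Ws_univ : (Ws.map (wd sd)).toFinset = Finset.univ := by decide +kernel

theorem Ws_sub : ∀ L ∈ Ws, ∃ k ≤ 8, L = L0.take k ∨ L = (L0.drop 1).take k := by decide +kernel

theorem Ws_red {L : List (Fin 2)} (hL : L ∈ Ws) : Red (sg2 θ τ hτ) L := by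
  have H := (R θ τ hτ).exW1 (cgF4 K)
  have h0 : Red (sg2 θ τ hτ) L0 := (R θ τ hτ).red_of_chain (cgF4 K) chn
  obtain ⟨k, _, rfl | rfl⟩ := Ws_sub L hL
  · exact H.Red_take h0 k
  · exact H.Red_take (H.Red_drop h0 1) k

theorem sum_Ws (f : DihedralGroup 8 → ℕ) : ∑ d, f d = ((Ws.map (wd sd)).map f).sum := by
  rw [← Ws_univ, List.sum_toFinset f Ws_nodup]

omit [CharP K 2] in
theorem prod_pow {q : ℕ} (a : Fin 2 → ℕ) (ha : ∀ J : Fin 2, a J = q ^ ([1, 2].getD J.val 0)) (L : List (Fin 2)) :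
    (L.map a).prod = q ^ ((L.map fun J => [1, 2].getD J.val 0).sum) := by
  induction L with
  | nil => simp
  | cons J L ih =>
    rw [List.map_cons, List.prod_cons, ih, ha, List.map_cons, List.sum_cons, pow_add]

include hi hi' in
theorem order [Fintype K] (hq2 : 2 ≤ Fintype.card K) :
    Nat.card ↥((ta θ τ hτ).Gs (cgF4 K)) = Fintype.card K ^ 12 * (Fintype.card K - 1) * (Fintype.card K ^ 3 + 1) *
      (Fintype.card K ^ 4 - 1) * (Fintype.card K ^ 6 + 1) := by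
  haveI : Finite ↥((ta θ τ hτ).Gs (cgF4 K)) := inferInstance
  haveI : Fintype (Weyl ((R θ τ hτ).bnp1 (cgF4 K))) := Fintype.ofFinite _
  obtain ⟨e, he⟩ := exists_dih θ τ hτ
  have h1 := card_eq_sum_C (P := (R θ τ hτ).bnp1 (cgF4 K))
  have h2 := (R θ τ hτ).card_B1 (cgF4 K)
  have h4 := card_U θ τ hτ hi hi'
  have h5 := card_H θ τ hτ hi hi'
  have h6 : ∀ L ∈ Ws, Nat.card (C ((R θ τ hτ).bnp1 (cgF4 K)) (e (wd sd L))) =
      Nat.card ((R θ τ hτ).bnp1 (cgF4 K)).B * Fintype.card K ^ ((L.map fun J => [1, 2].getD J.val 0).sum) := by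
    intro L hL
    have h7 : ∀ L : List (Fin 2), e (wd sd L) = wd (sg2 θ τ hτ) L := by
      intro L
      induction L with
      | nil => rw [wd_nil, wd_nil, map_one]
      | cons J L ih => rw [wd_cons, wd_cons, map_mul, ih, sd, he]
    have h8 := card_C_red (P := (R θ τ hτ).bnp1 (cgF4 K)) ((R θ τ hτ).eS1 (cgF4 K))
      (a := fun J => Nat.card (TN.Um (ta θ τ hτ) (cgF4 K) ((R θ τ hτ).n J)))
      (fun J => (R θ τ hτ).card_C1_gen (cgF4 K) J) (l := L) (Ws_red θ τ hτ hL)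
    rw [h7]
    refine h8.trans ?_
    congr 1
    exact prod_pow _ (card_Um θ τ hτ hi hi') L
  rw [h1, ← e.toEquiv.sum_comp]
  change ∑ d, Nat.card (C ((R θ τ hτ).bnp1 (cgF4 K)) (e d)) = _
  rw [sum_Ws, List.map_map]
  have h10 : (Ws.map ((fun d => Nat.card (C ((R θ τ hτ).bnp1 (cgF4 K)) (e d))) ∘ wd sd)) =
      Ws.map fun L => Nat.card ((R θ τ hτ).bnp1 (cgF4 K)).B * Fintype.card K ^ ((L.map fun J => [1, 2].getD J.val 0).sum) :=
    List.map_congr_left h6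
  rw [h10, h2, h4, h5]
  clear h6 h10
  generalize Fintype.card K = q at hq2
  simp only [Ws, List.map_cons, List.map_nil, List.sum_cons, List.sum_nil]
  have a1 : 1 ≤ q := by omega
  have a4 : 1 ≤ q ^ 4 := Nat.one_le_pow _ _ (by omega)
  zify [a1, a4]
  simp
  ring

end CfsgLib.Chev.TwF4
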