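import Cfsg.Agent.Lib.TWF3
set_option autoImplicit false
set_option linter.style.haveILetI false
set_option maxRecDepth 1000000

/-! The twisted group `²G₂(q)`: unipotent elements. -/

namespace CfsgLib.Chev
open Cfsg.Lie Matrix CfsgLib.BNP CfsgLib.PWM CfsgLib.Chev.GA CfsgLib.Chev.EV

/-- the sign of the conjugation by a word -/
noncomputable def sgL (D : ChevalleyDatum) (T : Tab) : List ℕ → ℕ → ℤ
  | [], _ => 1
  | i :: l, s => eta D T i (rl D l s) * sgL D T l s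

namespace CG
variable {D : ChevalleyDatum} {K : Type*} [Field K] (M : CG D K)
include M

theorem nl_xg_sg {l : List ℕ} (hl : Wd D l) {s : ℕ} (hs : s < D.nroots) (t : K) :
    nl D K l * xg D s t * (nl D K l)⁻¹ = xg D (rl D l s) (((sgL D M.T l s : ℤ) : K) * t) := by
  induction l with
  | nil => rw [nl_nil]; simp [sgL]
  | cons i l ih =>
    have h1 : i < D.rank := hl i (by simp)
    have h2 : Wd D l := fun j hj => hl j (List.mem_cons_of_mem _ hj)
    rw [nl_cons]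
    have e : ni D K i * nl D K l * xg D s t * (ni D K i * nl D K l)⁻¹ = ni D K i * (nl D K l * xg D s t * (nl D K l)⁻¹) * (ni D K i)⁻¹ := by
      group
    rw [e, ih h2, M.ni_xg h1 (M.rl_lt h2 hs), rl_cons, sgL]
    congr 1
    push_cast
    ring

end CG

namespace TwG2
open Cfsg.Lie Matrix CfsgLib.BNP CfsgLib.PWM CfsgLib.Chev.GA CfsgLib.Chev CfsgLib.Chev.EV

/-- indices -/
abbrev I (k : Fin 2) : Fin chevG2.rank := k

def ρf (r : ℕ) : ℕ := rhoG2.getD r 0
def πf : Equiv.Perm (Fin chevG2.rank) := (Equiv.swap (0 : Fin 2) 1 : Equiv.Perm (Fin 2))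
theorem chk1 : chkTD chevG2 ρf πf = true := by decide +kernel
noncomputable def T : TD chevG2 := TD.of _ ρf πf chk1
def orb (_ : Fin chevG2.rank) : Fin 1 := 0
def w (_ : Fin 1) : List (Fin chevG2.rank) := ([0, 1, 0, 1, 0, 1] : List (Fin 2))
def rep (_ : Fin 1) : Fin chevG2.rank := (0 : Fin 2)
theorem chk2 : chkTO chevG2 ρf πf 1 orb w rep = true := by decide +kernel
noncomputable def O : TO T := TO.of T 1 orb w rep chk2
def L0 : List (Fin 1) := [0]
theorem chn : TN.Chain O L0 := chain_of O (by decide +kernel)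
theorem tp : TN.Top O L0 := top_of O (by decide +kernel)
def Sl : List ℕ := [6, 7, 8, 9, 10, 11]
theorem phi : phiB chevG2 (w 0) Sl = true := by decide +kernel
theorem pee : peelB chevG2 Sl = true := by decide +kernel
theorem srt : srtB chevG2 Sl = true := by decide +kernel

variable (K : Type*) [Field K] [CharP K 3]

theorem h30 : ((3 : ℕ) : K) = 0 := CharP.cast_eq_zero K 3

theorem three0 : (3 : K) = 0 := by
  have := h30 K
  exact_mod_cast this

noncomputable def A0 : GE chevG2 K LG2 := (geG2 K (h30 K)).some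

def eF (i : Fin chevG2.rank) : ℕ := [3, 1].getD i.val 1

theorem A0_inj : ∀ g ∈ chevG2.group K, ∀ h ∈ chevG2.group K, (A0 K).α g = (A0 K).α h → g = h := by
  haveI : Fact (Nat.Prime 3) := ⟨Nat.prime_three⟩
  have h1 : ∀ i : Fin chevG2.rank, (chevG2.simple i, chevG2.simple (πf i), eF i, (1 : ℤ)) ∈ LG2 ∧
    (chevG2.simple (πf i), chevG2.simple i, 4 - eF i, (1 : ℤ)) ∈ LG2 ∧ eF i * (4 - eF i) = 3 := by decide +kernel
  have h2 : ∀ i : Fin chevG2.rank, (chevG2.neg (chevG2.simple i), chevG2.neg (chevG2.simple (πf i)), eF i, (1 : ℤ)) ∈ LG2 ∧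
    (chevG2.neg (chevG2.simple (πf i)), chevG2.neg (chevG2.simple i), 4 - eF i, (1 : ℤ)) ∈ LG2 ∧ eF i * (4 - eF i) = 3 := by
    decide +kernel
  exact (A0 K).injective (cgG2 K) (A0 K) (frobenius K 3)
    (fun i => ⟨_, (h1 i).1, _, (h1 i).2.1, rfl, rfl, rfl, fun t => by
      simp only [Int.cast_one, one_mul]
      rw [← pow_mul, (h1 i).2.2, frobenius_def]⟩)
    (fun i => ⟨_, (h2 i).1, _, (h2 i).2.1, rfl, rfl, rfl, fun t => by
      simp only [Int.cast_one, one_mul]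
      rw [← pow_mul, (h2 i).2.2, frobenius_def]⟩)

variable {K} (θ τ : K →+* K) (hτ : ∀ t, τ t = (θ t) ^ 3)

noncomputable def ta : TA T K := (A0 K).ta (cgG2 K) T θ (fun i => if i.val < 1 then τ else θ) eF (A0_inj K)
  (by
    have h : ∀ i : Fin chevG2.rank, (chevG2.simple i, chevG2.simple (πf i), eF i, (1 : ℤ)) ∈ LG2 := by decide +kernel
    exact h)
  (by
    have h : ∀ i : Fin chevG2.rank, (chevG2.neg (chevG2.simple i), chevG2.neg (chevG2.simple (πf i)), eF i, (1 : ℤ)) ∈ LG2 := by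
      decide +kernel
    exact h)
  (by
    intro i t
    change Fin 2 at i
    fin_cases i
    · exact hτ t
    · exact (pow_one _).symm)

theorem s_x1 {r r' : ℕ} (h : (r, r', 1, (1 : ℤ)) ∈ LG2) (t : K) : (ta θ τ hτ).s (xg chevG2 r t) = xg chevG2 r' (θ t) := by
  change (A0 K).α (mapJ _ θ (xg chevG2 r t)) = _
  rw [(cgG2 K).mapJ_xg, (A0 K).act _ h]
  simp

theorem s_x3 {r r' : ℕ} (h : (r, r', 3, (1 : ℤ)) ∈ LG2) (t : K) : (ta θ τ hτ).s (xg chevG2 r t) = xg chevG2 r' (τ t) := by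
  change (A0 K).α (mapJ _ θ (xg chevG2 r t)) = _
  rw [(cgG2 K).mapJ_xg, (A0 K).act _ h, hτ]
  simp

theorem mem1 : (6, 7, 1, (1 : ℤ)) ∈ LG2 ∧ (7, 6, 3, (1 : ℤ)) ∈ LG2 ∧ (8, 10, 3, (1 : ℤ)) ∈ LG2 ∧ (10, 8, 1, (1 : ℤ)) ∈ LG2 ∧
    (9, 11, 3, (1 : ℤ)) ∈ LG2 ∧ (11, 9, 1, (1 : ℤ)) ∈ LG2 := by
  refine ⟨?_, ?_, ?_, ?_, ?_, ?_⟩ <;> decide

/-! ### Commutators in characteristic three -/

theorem cast3 (K : Type*) [Field K] [CharP K 3] {c : ℤ} (r : ℤ) (h : c % 3 = r) : (c : K) = (r : K) := by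
  have h1 : c = r + 3 * (c / 3) := by omega
  rw [h1]; push_cast; rw [three0 K]; ring

/-- roots whose root subgroups commute in characteristic three -/
def c3B (r s : ℕ) : Bool :=
  decide (r < chevG2.nroots) && decide (s < chevG2.nroots) && decide (s ≠ r) && decide (s ≠ chevG2.neg r) &&
    (chevG2.commTerms r s).all fun q => decide (q.2.1 % 3 = 0)

theorem cm3 (K : Type*) [Field K] [CharP K 3] {r s : ℕ} (h : c3B r s = true) (t u : K) :
    xg chevG2 s u * xg chevG2 r t = xg chevG2 r t * xg chevG2 s u := by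
  unfold c3B at h
  obtain ⟨h, h5⟩ := and_true h
  obtain ⟨h, h4⟩ := and_true h
  obtain ⟨h, h3⟩ := and_true h
  obtain ⟨h1, h2⟩ := and_true h
  rw [(cgG2 K).comm_xg (of_decide_eq_true h1) (of_decide_eq_true h2) (of_decide_eq_true h3) (of_decide_eq_true h4)]
  have e : wg chevG2 (chevG2.commWord K r s t u) = 1 := by
    unfold ChevalleyDatum.commWord
    rw [List.all_eq_true] at h5
    generalize chevG2.commTerms r s = L at h5 ⊢
    induction L with
    | nil => rw [List.map_nil, wg_nil]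
    | cons q L ih =>
      rw [List.map_cons, wg_cons, ih (fun q hq => h5 q (List.mem_cons_of_mem _ hq)), mul_one]
      have h6 := of_decide_eq_true (h5 q (List.mem_cons_self))
      have h7 := cast3 K 0 h6
      rw [Int.cast_zero] at h7
      rw [h7, zero_mul, zero_mul, (cgG2 K).xg_zero]
  rw [e, mul_one]

theorem cmt : chevG2.commTerms 7 6 = [(8, -1, 1, 1), (9, 1, 2, 1), (10, 1, 3, 1), (11, 1, 3, 2)] ∧
    chevG2.commTerms 7 8 = [(9, -2, 1, 1), (10, -3, 2, 1), (11, 3, 1, 2)] ∧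
    chevG2.commTerms 6 10 = [(11, 1, 1, 1)] ∧ 6 ≠ chevG2.neg 7 ∧ 8 ≠ chevG2.neg 7 ∧ 10 ≠ chevG2.neg 6 ∧
    (∀ k < 12, k < chevG2.nroots) := by decide +kernel

/-- `x_b x_a` -/
theorem c67 (K : Type*) [Field K] [CharP K 3] (α β : K) : xg chevG2 6 α * xg chevG2 7 β =
    xg chevG2 7 β * (xg chevG2 6 α * (xg chevG2 8 (α * β) * (xg chevG2 9 (α * β ^ 2) * (xg chevG2 10 (-(α * β ^ 3)) *
      xg chevG2 11 (-(α ^ 2 * β ^ 3)))))) := by
  obtain ⟨h1, h2, h3, n1, n2, n3, l⟩ := cmt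
  rw [(cgG2 K).comm_xg (l 7 (by decide)) (l 6 (by decide)) (by decide) n1 β α]
  unfold ChevalleyDatum.commWord
  rw [h1]
  simp only [List.map_cons, List.map_nil, wg_cons, wg_nil, mul_one]
  have e1 : ((-1 : ℤ) : K) * (-β) ^ 1 * α ^ 1 = α * β := by push_cast; ring
  have e2 : ((1 : ℤ) : K) * (-β) ^ 2 * α ^ 1 = α * β ^ 2 := by push_cast; ring
  have e3 : ((1 : ℤ) : K) * (-β) ^ 3 * α ^ 1 = -(α * β ^ 3) := by push_cast; ring
  have e4 : ((1 : ℤ) : K) * (-β) ^ 3 * α ^ 2 = -(α ^ 2 * β ^ 3) := by push_cast; ring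
  rw [e1, e2, e3, e4]
  group

theorem c87 (K : Type*) [Field K] [CharP K 3] (γ β : K) : xg chevG2 8 γ * xg chevG2 7 β =
    xg chevG2 7 β * (xg chevG2 8 γ * xg chevG2 9 (-(β * γ))) := by
  obtain ⟨h1, h2, h3, n1, n2, n3, l⟩ := cmt
  rw [(cgG2 K).comm_xg (l 7 (by decide)) (l 8 (by decide)) (by decide) n2 β γ]
  unfold ChevalleyDatum.commWord
  rw [h2]
  simp only [List.map_cons, List.map_nil, wg_cons, wg_nil, mul_one]
  have e1 : ((-2 : ℤ) : K) * (-β) ^ 1 * γ ^ 1 = -(β * γ) := by push_cast; linear_combination (β * γ) * three0 K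
  have e2 : ((-3 : ℤ) : K) * (-β) ^ 2 * γ ^ 1 = 0 := by push_cast; linear_combination (-β ^ 2 * γ) * three0 K
  have e3 : ((3 : ℤ) : K) * (-β) ^ 1 * γ ^ 2 = 0 := by push_cast; linear_combination (-β * γ ^ 2) * three0 K
  rw [e1, e2, e3, (cgG2 K).xg_zero, (cgG2 K).xg_zero]
  group

theorem c106 (K : Type*) [Field K] [CharP K 3] (γ β : K) : xg chevG2 10 γ * xg chevG2 6 β =
    xg chevG2 6 β * (xg chevG2 10 γ * xg chevG2 11 (-(β * γ))) := by
  obtain ⟨h1, h2, h3, n1, n2, n3, l⟩ := cmt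
  rw [(cgG2 K).comm_xg (l 6 (by decide)) (l 10 (by decide)) (by decide) n3 β γ]
  unfold ChevalleyDatum.commWord
  rw [h3]
  simp only [List.map_cons, List.map_nil, wg_cons, wg_nil, mul_one]
  have e1 : ((1 : ℤ) : K) * (-β) ^ 1 * γ ^ 1 = -(β * γ) := by push_cast; ring
  rw [e1]
  group

theorem cc : c3B 8 9 = true ∧ c3B 8 10 = true ∧ c3B 8 11 = true ∧ c3B 9 10 = true ∧ c3B 9 11 = true ∧ c3B 10 11 = true ∧
    c3B 7 9 = true ∧ c3B 7 10 = true ∧ c3B 7 11 = true ∧ c3B 6 8 = true ∧ c3B 6 9 = true ∧ c3B 6 11 = true := by decide +kernel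

/-- the part of height at least two -/
noncomputable def Z (c d e f : K) : GL chevG2.Idx K := xg chevG2 8 c * (xg chevG2 9 d * (xg chevG2 10 e * xg chevG2 11 f))

omit [CharP K 3] in
theorem Z_zero : Z (0 : K) 0 0 0 = 1 := by
  unfold Z; simp only [(cgG2 K).xg_zero, mul_one]

theorem Z_mul (c d e f c' d' e' f' : K) : Z c d e f * Z c' d' e' f' = Z (c + c') (d + d') (e + e') (f + f') := by
  obtain ⟨a1, a2, a3, a4, a5, a6, _⟩ := cc
  have M := cgG2 K
  unfold Z
  rw [← M.xg_add 8, ← M.xg_add 9, ← M.xg_add 10, ← M.xg_add 11]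
  have k1 := cm3 K a1 c' d
  have k2 := cm3 K a2 c' e
  have k3 := cm3 K a3 c' f
  have k4 := cm3 K a4 d' e
  have k5 := cm3 K a5 d' f
  have k6 := cm3 K a6 e' f
  generalize xg chevG2 8 c = C at *
  generalize xg chevG2 8 c' = C' at *
  generalize xg chevG2 9 d = D at *
  generalize xg chevG2 9 d' = D' at *
  generalize xg chevG2 10 e = E at *
  generalize xg chevG2 10 e' = E' at *
  generalize xg chevG2 11 f = F at *
  generalize xg chevG2 11 f' = F' at *
  calc C * (D * (E * F)) * (C' * (D' * (E' * F'))) = C * D * E * (F * C') * D' * E' * F' := by group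
    _ = C * D * E * (C' * F) * D' * E' * F' := by rw [k3]
    _ = C * D * (E * C') * (F * D') * E' * F' := by group
    _ = C * D * (C' * E) * (D' * F) * E' * F' := by rw [k2, k5]
    _ = C * (D * C') * (E * D') * (F * E') * F' := by group
    _ = C * (C' * D) * (D' * E) * (E' * F) * F' := by rw [k1, k4, k6]
    _ = _ := by group

theorem Z_x7 (c d e f b : K) : Z c d e f * xg chevG2 7 b = xg chevG2 7 b * Z c (d - b * c) e f := by
  obtain ⟨a1, a2, a3, a4, a5, a6, a7, a8, a9, _⟩ := cc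
  have M := cgG2 K
  unfold Z
  have e1 : d - b * c = -(b * c) + d := by ring
  rw [e1, ← M.xg_add 9]
  have k1 := cm3 K a7 b d
  have k2 := cm3 K a8 b e
  have k3 := cm3 K a9 b f
  have k4 := c87 K c b
  generalize xg chevG2 8 c = C at *
  generalize xg chevG2 9 d = D at *
  generalize xg chevG2 10 e = E at *
  generalize xg chevG2 11 f = F at *
  generalize xg chevG2 9 (-(b * c)) = X at *
  generalize xg chevG2 7 b = B at *
  calc C * (D * (E * F)) * B = C * D * E * (F * B) := by group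
    _ = C * D * E * (B * F) := by rw [k3]
    _ = C * D * (E * B) * F := by group
    _ = C * D * (B * E) * F := by rw [k2]
    _ = C * (D * B) * E * F := by group
    _ = C * (B * D) * E * F := by rw [k1]
    _ = (C * B) * D * E * F := by group
    _ = B * (C * X) * D * E * F := by rw [k4]
    _ = _ := by group

theorem Z_x6 (c d e f a : K) : Z c d e f * xg chevG2 6 a = xg chevG2 6 a * Z c d e (f - a * e) := by
  obtain ⟨a1, a2, a3, a4, a5, a6, a7, a8, a9, a10, a11, a12⟩ := cc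
  have M := cgG2 K
  unfold Z
  have e1 : f - a * e = -(a * e) + f := by ring
  rw [e1, ← M.xg_add 11]
  have k1 := cm3 K a10 a c
  have k2 := cm3 K a11 a d
  have k3 := cm3 K a12 a f
  have k4 := c106 K e a
  generalize xg chevG2 8 c = C at *
  generalize xg chevG2 9 d = D at *
  generalize xg chevG2 10 e = E at *
  generalize xg chevG2 11 f = F at *
  generalize xg chevG2 11 (-(a * e)) = X at *
  generalize xg chevG2 6 a = A at *
  calc C * (D * (E * F)) * A = C * D * E * (F * A) := by group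
    _ = C * D * E * (A * F) := by rw [k3]
    _ = C * D * (E * A) * F := by group
    _ = C * D * (A * (E * X)) * F := by rw [k4]
    _ = C * (D * A) * E * X * F := by group
    _ = C * (A * D) * E * X * F := by rw [k2]
    _ = (C * A) * D * E * X * F := by group
    _ = (A * C) * D * E * X * F := by rw [k1]
    _ = _ := by group

/-- elements of the unipotent group -/
noncomputable def P (b a c d e f : K) : GL chevG2.Idx K := xg chevG2 7 b * (xg chevG2 6 a * Z c d e f)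

theorem QP (a b c d e f : K) : xg chevG2 6 a * (xg chevG2 7 b * Z c d e f) =
    P b a (a * b + c) (a * b ^ 2 + d) (-(a * b ^ 3) + e) (-(a ^ 2 * b ^ 3) + f) := by
  unfold P
  rw [← mul_assoc, c67 K a b, ← Z_mul]
  unfold Z
  group

theorem P_mul (b a c d e f b' a' c' d' e' f' : K) : P b a c d e f * P b' a' c' d' e' f' =
    P (b + b') (a + a') (a * b' + c + c') (a * b' ^ 2 + d - b' * c + d') (-(a * b' ^ 3) + e + e')
      (-(a ^ 2 * b' ^ 3) + a' * a * b' ^ 3 + f - a' * e + f') := by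
  have M := cgG2 K
  have h1 := Z_x7 c d e f b'
  have h2 := QP a b' 0 0 0 0
  rw [Z_zero, mul_one] at h2
  simp only [add_zero] at h2
  unfold P at h2 ⊢
  have h3 := Z_x6 (a * b' + c) (a * b' ^ 2 + (d - b' * c)) (-(a * b' ^ 3) + e) (-(a ^ 2 * b' ^ 3) + f) a'
  have h4 := Z_mul (a * b') (a * b' ^ 2) (-(a * b' ^ 3)) (-(a ^ 2 * b' ^ 3)) c (d - b' * c) e f
  have e1 : Z (a * b' + c + c') (a * b' ^ 2 + d - b' * c + d') (-(a * b' ^ 3) + e + e')
      (-(a ^ 2 * b' ^ 3) + a' * a * b' ^ 3 + f - a' * e + f') =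
      Z (a * b' + c) (a * b' ^ 2 + (d - b' * c)) (-(a * b' ^ 3) + e) (-(a ^ 2 * b' ^ 3) + f - a' * (-(a * b' ^ 3) + e)) * Z c' d' e' f' := by
    rw [Z_mul]
    congr 1 <;> ring
  rw [e1, ← M.xg_add 7, ← M.xg_add 6]
  calc xg chevG2 7 b * (xg chevG2 6 a * Z c d e f) * (xg chevG2 7 b' * (xg chevG2 6 a' * Z c' d' e' f'))
      = xg chevG2 7 b * xg chevG2 6 a * (Z c d e f * xg chevG2 7 b') * xg chevG2 6 a' * Z c' d' e' f' := by group
    _ = xg chevG2 7 b * (xg chevG2 6 a * xg chevG2 7 b') * Z c (d - b' * c) e f * xg chevG2 6 a' * Z c' d' e' f' := by rw [h1]; group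
    _ = xg chevG2 7 b * xg chevG2 7 b' * xg chevG2 6 a * (Z (a * b') (a * b' ^ 2) (-(a * b' ^ 3)) (-(a ^ 2 * b' ^ 3)) * Z c (d - b' * c) e f) *
        xg chevG2 6 a' * Z c' d' e' f' := by rw [h2]; group
    _ = xg chevG2 7 b * xg chevG2 7 b' * xg chevG2 6 a * (Z (a * b' + c) (a * b' ^ 2 + (d - b' * c)) (-(a * b' ^ 3) + e) (-(a ^ 2 * b' ^ 3) + f) *
        xg chevG2 6 a') * Z c' d' e' f' := by rw [h4]; group
    _ = _ := by rw [h3]; group

theorem P_inj {b a c d e f b' a' c' d' e' f' : K} (h : P b a c d e f = P b' a' c' d' e' f') :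
    b = b' ∧ a = a' ∧ c = c' ∧ d = d' ∧ e = e' ∧ f = f' := by
  have key : ∀ b a c d e f : K, P b a c d e f = xg chevG2 6 a * (xg chevG2 7 b * Z (c - a * b) (d - a * b ^ 2) (e + a * b ^ 3) (f + a ^ 2 * b ^ 3)) := by
    intro b a c d e f
    rw [QP]
    congr 1 <;> ring
  rw [key, key] at h
  have h3 : wg chevG2 (Sl.map fun x => (x, (fun x => if x = 6 then a else if x = 7 then b else if x = 8 then c - a * b else
        if x = 9 then d - a * b ^ 2 else if x = 10 then e + a * b ^ 3 else f + a ^ 2 * b ^ 3) x)) =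
      wg chevG2 (Sl.map fun x => (x, (fun x => if x = 6 then a' else if x = 7 then b' else if x = 8 then c' - a' * b' else
        if x = 9 then d' - a' * b' ^ 2 else if x = 10 then e' + a' * b' ^ 3 else f' + a' ^ 2 * b' ^ 3) x)) := by
    change xg chevG2 6 a * (xg chevG2 7 b * (xg chevG2 8 (c - a * b) * (xg chevG2 9 (d - a * b ^ 2) * (xg chevG2 10 (e + a * b ^ 3) *
        (xg chevG2 11 (f + a ^ 2 * b ^ 3) * 1))))) =
      xg chevG2 6 a' * (xg chevG2 7 b' * (xg chevG2 8 (c' - a' * b') * (xg chevG2 9 (d' - a' * b' ^ 2) * (xg chevG2 10 (e' + a' * b' ^ 3) *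
        (xg chevG2 11 (f' + a' ^ 2 * b' ^ 3) * 1)))))
    rw [mul_one, mul_one]
    exact h
  have h4 := (cgG2 K).form_unique' _ (of_decide_eq_true srt) _ _ h3
  have k6 : a = a' := h4 6 (by decide)
  have k7 : b = b' := h4 7 (by decide)
  have k8 : c - a * b = c' - a' * b' := h4 8 (by decide)
  have k9 : d - a * b ^ 2 = d' - a' * b' ^ 2 := h4 9 (by decide)
  have k10 : e + a * b ^ 3 = e' + a' * b' ^ 3 := h4 10 (by decide)
  have k11 : f + a ^ 2 * b ^ 3 = f' + a' ^ 2 * b' ^ 3 := h4 11 (by decide)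
  subst k6 k7
  exact ⟨rfl, rfl, by linear_combination k8, by linear_combination k9, by linear_combination k10, by linear_combination k11⟩

theorem s_Z (c d e f : K) : (ta θ τ hτ).s (Z c d e f) = Z (θ e) (θ f) (τ c) (τ d) := by
  obtain ⟨_, _, m3, m4, m5, m6⟩ := mem1
  obtain ⟨a1, a2, a3, a4, a5, a6, _⟩ := cc
  have M := cgG2 K
  unfold Z
  rw [(ta θ τ hτ).mul _ (M.xg_mem_G _ _) _ (mul_mem (M.xg_mem_G _ _) (mul_mem (M.xg_mem_G _ _) (M.xg_mem_G _ _))),
    (ta θ τ hτ).mul _ (M.xg_mem_G _ _) _ (mul_mem (M.xg_mem_G _ _) (M.xg_mem_G _ _)), (ta θ τ hτ).mul _ (M.xg_mem_G _ _) _ (M.xg_mem_G _ _),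
    s_x3 θ τ hτ m3, s_x1 θ τ hτ m4, s_x3 θ τ hτ m5, s_x1 θ τ hτ m6]
  have k1 := cm3 K a2 (θ e) (τ c)
  have k2 := cm3 K a3 (θ e) (τ d)
  have k3 := cm3 K a4 (θ f) (τ c)
  have k4 := cm3 K a5 (θ f) (τ d)
  generalize xg chevG2 10 (τ c) = C at *
  generalize xg chevG2 11 (τ d) = D at *
  generalize xg chevG2 8 (θ e) = E at *
  generalize xg chevG2 9 (θ f) = F at *
  calc C * (D * (E * F)) = C * (D * E) * F := by group
    _ = C * (E * D) * F := by rw [k2]
    _ = (C * E) * (D * F) := by group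
    _ = (E * C) * (F * D) := by rw [k1, k4]
    _ = E * (C * F) * D := by group
    _ = E * (F * C) * D := by rw [k3]
    _ = _ := by group

omit [CharP K 3] in
theorem Z_mem_G (c d e f : K) : Z c d e f ∈ chevG2.group K := by
  have M := cgG2 K
  exact mul_mem (M.xg_mem_G _ _) (mul_mem (M.xg_mem_G _ _) (mul_mem (M.xg_mem_G _ _) (M.xg_mem_G _ _)))

omit [CharP K 3] in
theorem P_mem_G (b a c d e f : K) : P b a c d e f ∈ chevG2.group K := by
  have M := cgG2 K
  exact mul_mem (M.xg_mem_G _ _) (mul_mem (M.xg_mem_G _ _) (Z_mem_G _ _ _ _))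

theorem s_P (b a c d e f : K) : (ta θ τ hτ).s (P b a c d e f) =
    P (θ a) (τ b) (τ b * θ a + θ e) (τ b * (θ a) ^ 2 + θ f) (-(τ b * (θ a) ^ 3) + τ c) (-((τ b) ^ 2 * (θ a) ^ 3) + τ d) := by
  obtain ⟨m1, m2, _⟩ := mem1
  have M := cgG2 K
  rw [← QP, ← s_Z θ τ hτ]
  unfold P
  rw [(ta θ τ hτ).mul _ (M.xg_mem_G _ _) _ (mul_mem (M.xg_mem_G _ _) (Z_mem_G _ _ _ _)), (ta θ τ hτ).mul _ (M.xg_mem_G _ _) _ (Z_mem_G _ _ _ _),
    s_x3 θ τ hτ m2, s_x1 θ τ hτ m1]

/-- the fixed elements -/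
noncomputable def ree (t u v : K) : GL chevG2.Idx K := P (θ t) t (t * θ t + θ u) (t * (θ t) ^ 2 + θ v) u v

theorem P_fix (hi : ∀ t, θ (τ t) = t) (hi' : ∀ t, τ (θ t) = t) (b a c d e f : K) : (ta θ τ hτ).s (P b a c d e f) = P b a c d e f ↔
    P b a c d e f = ree θ a e f ∧ b = θ a ∧ c = a * θ a + θ e ∧ d = a * (θ a) ^ 2 + θ f := by
  rw [s_P θ τ hτ]
  constructor
  · intro h
    obtain ⟨k1, k2, k3, k4, k5, k6⟩ := P_inj h
    rw [k2] at k3 k4
    have e1 : b = θ a := k1.symm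
    refine ⟨?_, e1, k3.symm, k4.symm⟩
    unfold ree
    rw [e1, k3, k4]
  · rintro ⟨-, rfl, rfl, rfl⟩
    simp only [map_add, map_mul, map_pow, hi', hτ a]
    congr 1 <;> ring

theorem ree_fix (hi : ∀ t, θ (τ t) = t) (hi' : ∀ t, τ (θ t) = t) (t u v : K) : (ta θ τ hτ).s (ree θ t u v) = ree θ t u v := by
  unfold ree
  rw [P_fix θ τ hτ hi hi']
  exact ⟨rfl, rfl, rfl, rfl⟩

theorem braid (K : Type*) [Field K] [CharP K 3] : nl chevG2 K [1, 0, 1, 0, 1, 0] = nl chevG2 K [0, 1, 0, 1, 0, 1] := by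
  rw [nl_word (cgG2 K) (h30 K) (by norm_num), nl_word (cgG2 K) (h30 K) (by norm_num)]
  apply wg_eq_of_wEq (cgG2 K) (h30 K) (by norm_num)
  have h : wEq chevG2 TG2 3 (nlW chevG2 3 [1, 0, 1, 0, 1, 0]) (nlW chevG2 3 [0, 1, 0, 1, 0, 1]) = true := by decide +kernel
  exact h

end TwG2

end CfsgLib.Chev
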