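import Cfsg.Agent.Lib.TWG1
import Cfsg.Agent.Lib.TWF4
set_option autoImplicit false
set_option linter.style.haveILetI false
set_option maxRecDepth 1000000

/-! The twisted group `²G₂(q)` is the fixed subgroup. -/

namespace CfsgLib.Chev.TwG2
open Cfsg.Lie Matrix CfsgLib.BNP CfsgLib.PWM CfsgLib.Chev.GA CfsgLib.Chev CfsgLib.Chev.EV

variable {K : Type*} [Field K] [CharP K 3] (θ τ : K →+* K) (hτ : ∀ t, τ t = (θ t) ^ 3)

def tv (K : Type*) [Field K] (r : ℕ) : K := if r = 8 ∨ r = 9 then 0 else 1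

theorem wg_Sl (t : ℕ → K) : wg chevG2 (Sl.map fun r => (r, t r)) =
    P (t 7) (t 6) (t 6 * t 7 + t 8) (t 6 * t 7 ^ 2 + t 9) (-(t 6 * t 7 ^ 3) + t 10) (-(t 6 ^ 2 * t 7 ^ 3) + t 11) := by
  rw [← QP]
  change xg chevG2 6 (t 6) * (xg chevG2 7 (t 7) * (xg chevG2 8 (t 8) * (xg chevG2 9 (t 9) * (xg chevG2 10 (t 10) *
    (xg chevG2 11 (t 11) * 1))))) = _
  rw [mul_one]
  rfl

theorem fix1 : (ta θ τ hτ).s (wg chevG2 (Sl.map fun r => (r, tv K r))) = wg chevG2 (Sl.map fun r => (r, tv K r)) := by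
  have e8 : tv K 8 = 0 := by unfold tv; rw [if_pos (Or.inl rfl)]
  have e9 : tv K 9 = 0 := by unfold tv; rw [if_pos (Or.inr rfl)]
  have e : ∀ r, r ≠ 8 → r ≠ 9 → tv K r = 1 := by
    intro r h h'
    unfold tv
    rw [if_neg (fun h'' => h''.elim h h')]
  rw [wg_Sl, e8, e9, e 7 (by decide) (by decide), e 6 (by decide) (by decide), e 10 (by decide) (by decide), e 11 (by decide) (by decide), s_P]
  simp only [map_add, map_one, map_mul, map_neg, map_zero, map_pow]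
  congr 1 <;> ring

noncomputable def R : TN (ta θ τ hτ) O where
  n J := nl chevG2 K (wv (w J))
  eq J := ⟨1, one_mem _, (one_mul _).symm⟩
  fix J := by
    rw [(ta θ τ hτ).s_nl (cgG2 K)]
    exact braid K
  x J := by
    change Fin 1 at J
    obtain rfl : J = 0 := Subsingleton.elim _ _
    refine (ta θ τ hτ).exists_x (cgG2 K) phi pee srt (tv K) (fix1 θ τ hτ) (r := 6) (by decide) ?_
    unfold tv
    rw [if_neg (by decide)]
    exact one_ne_zero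

section
variable (hi : ∀ t, θ (τ t) = t) (hi' : ∀ t, τ (θ t) = t)

include hi hi' in
theorem mem_Um {x : GL chevG2.Idx K} : x ∈ TN.Um (ta θ τ hτ) (cgG2 K) ((R θ τ hτ).n (0 : Fin 1)) ↔ ∃ t u v, x = ree θ t u v := by
  rw [show (R θ τ hτ).n (0 : Fin 1) = nl chevG2 K (wv (w 0)) from rfl, (ta θ τ hτ).mem_Um_iff (cgG2 K) phi pee]
  constructor
  · rintro ⟨⟨t, rfl⟩, h⟩
    rw [wg_Sl] at h ⊢
    exact ⟨_, _, _, ((P_fix θ τ hτ hi hi' _ _ _ _ _ _).mp h).1⟩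
  · rintro ⟨t, u, v, rfl⟩
    refine ⟨⟨fun r => if r = 6 then t else if r = 7 then θ t else if r = 8 then θ u else if r = 9 then θ v else
      if r = 10 then u + t * (θ t) ^ 3 else v + t ^ 2 * (θ t) ^ 3, ?_⟩, ree_fix θ τ hτ hi hi' t u v⟩
    rw [wg_Sl]
    change ree θ t u v = P (θ t) t (t * θ t + θ u) (t * (θ t) ^ 2 + θ v) (-(t * (θ t) ^ 3) + (u + t * (θ t) ^ 3))
      (-(t ^ 2 * (θ t) ^ 3) + (v + t ^ 2 * (θ t) ^ 3))
    unfold ree
    congr 1 <;> ring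

/-! ### The generators -/

variable {m : ℕ} (hθ : ∀ t, θ t = t ^ (3 ^ m))

include hθ in
theorem wg_U (t u v : K) : wg chevG2 (reeWordU (3 ^ m) t u v) = ree θ t u v := by
  have e1 : ∀ t : K, t ^ (3 ^ m + 1) = t * θ t := by intro t; rw [hθ, pow_succ, mul_comm]
  have e2 : ∀ t : K, t ^ (2 * 3 ^ m + 1) = t * (θ t) ^ 2 := by
    intro t; rw [hθ, pow_succ, mul_comm (2 : ℕ), pow_mul, mul_comm]
  change wg chevG2 [(7, t ^ 3 ^ m), (6, t), (8, t ^ (3 ^ m + 1) + u ^ 3 ^ m), (9, t ^ (2 * 3 ^ m + 1) + v ^ 3 ^ m), (10, u), (11, v)] = _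
  rw [e1, e2, ← hθ, ← hθ, ← hθ]
  simp only [wg_cons, wg_nil, mul_one]
  rfl

theorem signs : ∀ s < chevG2.nroots, rl chevG2 [0, 1, 0, 1, 0, 1] s = chevG2.neg s ∧ sgL chevG2 TG2 [0, 1, 0, 1, 0, 1] s = -1 := by
  decide +kernel

omit [CharP K 3] in
/-- conjugation by the longest element -/
theorem nconj {s : ℕ} (hs : s < chevG2.nroots) (t : K) :
    nl chevG2 K [0, 1, 0, 1, 0, 1] * xg chevG2 s t * (nl chevG2 K [0, 1, 0, 1, 0, 1])⁻¹ = xg chevG2 (chevG2.neg s) (-t) := by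
  have h := (cgG2 K).nl_xg_sg (Wd_wv chevG2 (w 0)) hs t
  have h1 := signs s hs
  change nl chevG2 K [0, 1, 0, 1, 0, 1] * xg chevG2 s t * (nl chevG2 K [0, 1, 0, 1, 0, 1])⁻¹ =
    xg chevG2 (rl chevG2 [0, 1, 0, 1, 0, 1] s) (((sgL chevG2 TG2 [0, 1, 0, 1, 0, 1] s : ℤ) : K) * t) at h
  rw [h, h1.1, h1.2]
  congr 1
  push_cast
  ring

omit [CharP K 3] in
theorem nconj_wg (W : List (ℕ × K)) (hW : ∀ q ∈ W, q.1 < chevG2.nroots) :
    nl chevG2 K [0, 1, 0, 1, 0, 1] * wg chevG2 W * (nl chevG2 K [0, 1, 0, 1, 0, 1])⁻¹ = wg chevG2 (chevG2.negWord W) := by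
  induction W with
  | nil =>
    change _ * 1 * _ = (1 : GL chevG2.Idx K)
    group
  | cons q W ih =>
    have h1 := nconj (hW q (by simp)) q.2
    have h2 := ih (fun q hq => hW q (List.mem_cons_of_mem _ hq))
    change _ = wg chevG2 ((chevG2.neg q.1, -q.2) :: chevG2.negWord W)
    rw [wg_cons, wg_cons, ← h1, ← h2]
    group

include hθ in
theorem wg_V (t u v : K) : wg chevG2 (reeWordV (3 ^ m) t u v) =
    nl chevG2 K [0, 1, 0, 1, 0, 1] * ree θ t u v * (nl chevG2 K [0, 1, 0, 1, 0, 1])⁻¹ := by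
  rw [← wg_U θ hθ, nconj_wg]
  · rfl
  · intro q hq
    change q ∈ [(7, t ^ 3 ^ m), (6, t), (8, t ^ (3 ^ m + 1) + u ^ 3 ^ m), (9, t ^ (2 * 3 ^ m + 1) + v ^ 3 ^ m), (10, u), (11, v)] at hq
    have h12 : chevG2.nroots = 12 := by decide +kernel
    rw [h12]
    simp only [List.mem_cons, List.not_mem_nil, or_false] at hq
    rcases hq with rfl | rfl | rfl | rfl | rfl | rfl <;> norm_num

theorem words {w : List (ℕ × K)} : w ∈ g2Words K (3 ^ m) ↔ ∃ t u v : K, w = reeWordU (3 ^ m) t u v ∨ w = reeWordV (3 ^ m) t u v := Iff.rfl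

include hi hi' hθ in
theorem le_Gs : twistedG2 K (3 ^ m) ≤ (ta θ τ hτ).Gs (cgG2 K) := by
  apply (cgG2 K).genSub_le
  intro w hw
  have hU : ∀ t u v, ree θ t u v ∈ (ta θ τ hτ).Gs (cgG2 K) := fun t u v =>
    ((ta θ τ hτ).mem_Gs (cgG2 K)).mpr ⟨P_mem_G _ _ _ _ _ _, ree_fix θ τ hτ hi hi' t u v⟩
  obtain ⟨t, u, v, rfl | rfl⟩ := words.mp hw
  · rw [wg_U θ hθ]
    exact hU t u v
  · rw [wg_V θ hθ]
    have hn : nl chevG2 K [0, 1, 0, 1, 0, 1] ∈ (ta θ τ hτ).Gs (cgG2 K) := (R θ τ hτ).n_mem_Gs (cgG2 K) (0 : Fin 1)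
    exact mul_mem (mul_mem hn (hU t u v)) (inv_mem hn)

include hθ in
theorem ree_mem (t u v : K) : ree θ t u v ∈ twistedG2 K (3 ^ m) := by
  rw [← wg_U θ hθ]
  exact (cgG2 K).wg_mem_genSub (words.mpr ⟨t, u, v, Or.inl rfl⟩)

include hθ in
theorem ree'_mem (t u v : K) : nl chevG2 K [0, 1, 0, 1, 0, 1] * ree θ t u v * (nl chevG2 K [0, 1, 0, 1, 0, 1])⁻¹ ∈ twistedG2 K (3 ^ m) := by
  rw [← wg_V θ hθ]
  exact (cgG2 K).wg_mem_genSub (words.mpr ⟨t, u, v, Or.inr rfl⟩)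

/-- evaluation of words over the prime field -/
def rw3 (t u v : ℕ) : List (ℕ × ℕ) := [(7, t), (6, t), (8, t * t + u), (9, t * t ^ 2 + v), (10, u), (11, v)]

theorem ree_cast (t u v : ℕ) : ree θ (t : K) (u : K) (v : K) = wg chevG2 (castW K (rw3 t u v)) := by
  change _ = xg chevG2 7 (t : K) * (xg chevG2 6 (t : K) * (xg chevG2 8 ((t * t + u : ℕ) : K) * (xg chevG2 9 ((t * t ^ 2 + v : ℕ) : K) *
    (xg chevG2 10 (u : K) * (xg chevG2 11 (v : K) * 1)))))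
  rw [mul_one]
  unfold ree P Z
  simp only [map_natCast]
  push_cast
  rfl

def negW (W : List (ℕ × ℕ)) : List (ℕ × ℕ) := W.map fun q => (chevG2.neg q.1, (3 - q.2 % 3) % 3)

theorem castW_negW (W : List (ℕ × ℕ)) : castW K (negW W) = chevG2.negWord (castW K W) := by
  unfold negW castW ChevalleyDatum.negWord
  rw [List.map_map, List.map_map]
  apply List.map_congr_left
  intro q _
  change (chevG2.neg q.1, (((3 - q.2 % 3) % 3 : ℕ) : K)) = (chevG2.neg q.1, -(q.2 : K))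
  congr 1
  have h1 : (((3 - q.2 % 3) % 3 : ℕ) : K) = ((3 - q.2 % 3 : ℕ) : K) := by
    have := Nat.div_add_mod (3 - q.2 % 3) 3
    calc (((3 - q.2 % 3) % 3 : ℕ) : K) = ((3 * ((3 - q.2 % 3) / 3) + (3 - q.2 % 3) % 3 : ℕ) : K) := by
          push_cast; rw [three0 K]; ring
      _ = _ := by rw [this]
  have h2 : ((q.2 % 3 : ℕ) : K) = (q.2 : K) := by
    have := Nat.div_add_mod q.2 3
    calc ((q.2 % 3 : ℕ) : K) = ((3 * (q.2 / 3) + q.2 % 3 : ℕ) : K) := by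
          push_cast; rw [three0 K]; ring
      _ = _ := by rw [this]
  rw [h1, Nat.cast_sub (by omega), h2]
  push_cast
  rw [three0 K]
  ring

theorem ree'_cast (t u v : ℕ) : nl chevG2 K [0, 1, 0, 1, 0, 1] * ree θ (t : K) (u : K) (v : K) * (nl chevG2 K [0, 1, 0, 1, 0, 1])⁻¹ =
    wg chevG2 (castW K (negW (rw3 t u v))) := by
  rw [ree_cast, nconj_wg, castW_negW]
  intro q hq
  have h12 : chevG2.nroots = 12 := by decide +kernel
  rw [h12]
  unfold castW rw3 at hq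
  simp only [List.map_cons, List.map_nil, List.mem_cons, List.not_mem_nil, or_false] at hq
  rcases hq with rfl | rfl | rfl | rfl | rfl | rfl <;> norm_num

theorem n_eq : nl chevG2 K [0, 1, 0, 1, 0, 1] = ree θ 0 1 0 *
    (nl chevG2 K [0, 1, 0, 1, 0, 1] * ree θ 0 1 0 * (nl chevG2 K [0, 1, 0, 1, 0, 1])⁻¹) * ree θ 0 1 0 := by
  have h1 : wEq chevG2 TG2 3 (nlW chevG2 3 [0, 1, 0, 1, 0, 1]) (rw3 0 1 0 ++ negW (rw3 0 1 0) ++ rw3 0 1 0) = true := by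
    decide +kernel
  have h2 := ree_cast θ 0 1 0
  have h3 := ree'_cast θ 0 1 0
  rw [Nat.cast_zero, Nat.cast_one] at h2 h3
  rw [h3, h2, ← wg_cast_append, ← wg_cast_append, ← wg_eq_of_wEq (cgG2 K) (h30 K) (by norm_num) h1,
    nl_word (cgG2 K) (h30 K) (by norm_num)]

include hθ in
theorem n_mem' : nl chevG2 K [0, 1, 0, 1, 0, 1] ∈ twistedG2 K (3 ^ m) := by
  rw [n_eq θ]
  exact mul_mem (mul_mem (ree_mem θ hθ _ _ _) (ree'_mem θ hθ _ _ _)) (ree_mem θ hθ _ _ _)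

def hW (r r' : ℕ) : List (ℕ × ℕ) := [(r, 2), (r', 1), (r, 2), (r, 2), (r', 1), (r, 2)]

theorem hF_cast (i : Fin chevG2.rank) : hF chevG2 K (Pi.mulSingle i (-1)) =
    wg chevG2 (castW K (hW (chevG2.simple i) (chevG2.neg (chevG2.simple i)))) := by
  have M := cgG2 K
  have e2 : ((2 : ℕ) : K) = -1 := by push_cast; linear_combination three0 K
  rw [M.hF_single]
  unfold ni
  rw [← M.ng_neg]
  change ng chevG2 (chevG2.simple i) (((-1 : Kˣ)) : K) * ng chevG2 (chevG2.simple i) (-1) =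
    xg chevG2 (chevG2.simple i) ((2 : ℕ) : K) * (xg chevG2 (chevG2.neg (chevG2.simple i)) ((1 : ℕ) : K) * (xg chevG2 (chevG2.simple i) ((2 : ℕ) : K) *
    (xg chevG2 (chevG2.simple i) ((2 : ℕ) : K) * (xg chevG2 (chevG2.neg (chevG2.simple i)) ((1 : ℕ) : K) * (xg chevG2 (chevG2.simple i) ((2 : ℕ) : K) * 1)))))
  have e3 : ((-1 : Kˣ) : K) = -1 := by rw [Units.val_neg, Units.val_one]
  have e4 : -((-1 : K))⁻¹ = 1 := by rw [inv_neg, inv_one, neg_neg]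
  rw [e3, M.ng_eq, e2, e4, Nat.cast_one]
  group

theorem smp : chevG2.simple 0 = 7 ∧ chevG2.simple 1 = 6 ∧ chevG2.neg 7 = 4 ∧ chevG2.neg 6 = 5 := by decide +kernel

/-- the involution of the torus -/
theorem h_eq : hF chevG2 K (Pi.mulSingle (I 0) (-1)) * hF chevG2 K (Pi.mulSingle (I 1) (-1)) * nl chevG2 K [0, 1, 0, 1, 0, 1] =
    ree θ 0 1 1 * (nl chevG2 K [0, 1, 0, 1, 0, 1] * ree θ 2 1 1 * (nl chevG2 K [0, 1, 0, 1, 0, 1])⁻¹) * ree θ 0 2 1 := by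
  have h1 : wEq chevG2 TG2 3 (hW 7 4 ++ hW 6 5 ++ nlW chevG2 3 [0, 1, 0, 1, 0, 1]) (rw3 0 1 1 ++ negW (rw3 2 1 1) ++ rw3 0 2 1) = true := by
    decide +kernel
  have h2 := ree_cast θ 0 1 1
  have h3 := ree'_cast θ 2 1 1
  have h4 := ree_cast θ 0 2 1
  have h5 := hF_cast (K := K) (I 0)
  have h6 := hF_cast (K := K) (I 1)
  rw [Nat.cast_zero, Nat.cast_one] at h2 h4
  rw [Nat.cast_one] at h3
  have s0 : chevG2.simple (I 0) = 7 := smp.1
  have s1 : chevG2.simple (I 1) = 6 := smp.2.1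
  rw [s0, smp.2.2.1] at h5
  rw [s1, smp.2.2.2] at h6
  have e2 : ((2 : ℕ) : K) = 2 := by norm_num
  rw [e2] at h3 h4
  have a := wg_eq_of_wEq (cgG2 K) (h30 K) (by norm_num) h1
  simp only [wg_cast_append] at a
  rw [h3, h2, h4, h5, h6, nl_word (cgG2 K) (h30 K) (by norm_num)]
  exact a

include hθ in
theorem h1_mem : hF chevG2 K (Pi.mulSingle (I 0) (-1)) * hF chevG2 K (Pi.mulSingle (I 1) (-1)) ∈ twistedG2 K (3 ^ m) := by
  have h := h_eq (K := K) θ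
  have h2 : hF chevG2 K (Pi.mulSingle (I 0) (-1)) * hF chevG2 K (Pi.mulSingle (I 1) (-1)) * nl chevG2 K [0, 1, 0, 1, 0, 1] ∈
      twistedG2 K (3 ^ m) := by
    rw [h]
    exact mul_mem (mul_mem (ree_mem θ hθ _ _ _) (ree'_mem θ hθ _ _ _)) (ree_mem θ hθ _ _ _)
  have h3 := mul_mem h2 (inv_mem (n_mem' θ hθ))
  rwa [mul_inv_cancel_right] at h3

include hi hi' hθ in
theorem Um_le (J : Fin 1) : TN.Um (ta θ τ hτ) (cgG2 K) ((R θ τ hτ).n J) ≤ twistedG2 K (3 ^ m) := by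
  intro x hx
  obtain rfl : J = 0 := Subsingleton.elim _ _
  obtain ⟨t, u, v, rfl⟩ := (mem_Um θ τ hτ hi hi').mp hx
  exact ree_mem θ hθ t u v

include hθ in
theorem n_mem (J : Fin 1) : (R θ τ hτ).n J ∈ twistedG2 K (3 ^ m) := n_mem' θ hθ

end

end CfsgLib.Chev.TwG2
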