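import Cfsg.Agent.Lib.TWG2
set_option autoImplicit false
set_option linter.style.haveILetI false
set_option maxRecDepth 1000000

/-! The torus, the order and the Weyl group of `²G₂(q)`; perfectness and simplicity. -/

namespace CfsgLib.Chev.TwG2
open Cfsg.Lie Matrix CfsgLib.BNP CfsgLib.PWM CfsgLib.Chev.GA CfsgLib.Chev CfsgLib.Chev.EV
open scoped commutatorElement

theorem charP3 {K : Type*} [Field K] [Fintype K] {m : ℕ} (hK : Fintype.card K = 3 ^ (2 * m + 1)) : CharP K 3 := by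
  haveI : Fact (Nat.Prime 3) := ⟨Nat.prime_three⟩
  exact charP_of_card_eq_prime_pow hK

theorem setup {K : Type*} [Field K] [Fintype K] {m : ℕ} (hK : Fintype.card K = 3 ^ (2 * m + 1)) [CharP K 3] :
    ∃ θ τ : K →+* K, (∀ t, τ t = (θ t) ^ 3) ∧ (∀ t, θ (τ t) = t) ∧ (∀ t, τ (θ t) = t) ∧ ∀ t, θ t = t ^ (3 ^ m) := by
  haveI : Fact (Nat.Prime 3) := ⟨Nat.prime_three⟩
  have h1 : ∀ t : K, iterateFrobenius K 3 m t = t ^ (3 ^ m) := fun t => by rw [iterateFrobenius_def]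
  have h2 : ∀ t : K, iterateFrobenius K 3 (m + 1) t = t ^ (3 ^ (m + 1)) := fun t => by rw [iterateFrobenius_def]
  have h3 : ∀ t : K, t ^ (3 ^ (2 * m + 1)) = t := fun t => by rw [← hK]; exact FiniteField.pow_card t
  refine ⟨iterateFrobenius K 3 m, iterateFrobenius K 3 (m + 1), ?_, ?_, ?_, h1⟩
  · intro t
    rw [h1, h2, ← pow_mul, pow_succ]
  · intro t
    rw [h1, h2, ← pow_mul, ← pow_add]
    have : m + 1 + m = 2 * m + 1 := by ring
    rw [this, h3]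
  · intro t
    rw [h1, h2, ← pow_mul, ← pow_add]
    have : m + (m + 1) = 2 * m + 1 := by ring
    rw [this, h3]

/-- the inverse of the Cartan matrix -/
def B2 : Matrix (Fin chevG2.rank) (Fin chevG2.rank) ℤ :=
  Matrix.of (fun i j : Fin 2 => (([[2, 3], [1, 2]] : List (List ℤ)).getD i.val []).getD j.val 0)

theorem B2_eq : cmat chevG2 * B2 = Matrix.diagonal (fun _ => ((1 : ℕ) : ℤ)) := by
  have h : ∀ i j : Fin chevG2.rank, ∑ k : Fin chevG2.rank, cmat chevG2 i k * B2 k j = if i = j then 1 else 0 := by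
    decide +kernel
  ext i j
  rw [Matrix.mul_apply, h, Matrix.diagonal_apply]
  rfl

theorem sy : πf.symm (I 0) = I 1 ∧ πf.symm (I 1) = I 0 := by decide +kernel

variable {K : Type*} [Field K] [CharP K 3] (θ τ : K →+* K) (hτ : ∀ t, τ t = (θ t) ^ 3)
  (hi : ∀ t, θ (τ t) = t) (hi' : ∀ t, τ (θ t) = t)

omit [CharP K 3] in
theorem hF_inj {c : Fin chevG2.rank → Kˣ} (h : hF chevG2 K c = 1) : c = 1 := by
  funext i
  have := (cgG2 K).pow_of_hF B2_eq h i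
  rwa [pow_one] at this

/-- the torus of the fixed subgroup -/
theorem torus {h : GL chevG2.Idx K} (hh : h ∈ chevG2.diagonalSubgroup K ⊓ (ta θ τ hτ).Gs (cgG2 K)) :
    ∃ c : Fin chevG2.rank → Kˣ, (ta θ τ hτ).st c = c ∧ hF chevG2 K c = h := by
  obtain ⟨h1, h4⟩ := Subgroup.mem_inf.mp hh
  rw [← (cgG2 K).hF_range] at h1
  obtain ⟨c, rfl⟩ := h1
  have h5 := (((ta θ τ hτ).mem_Gs (cgG2 K)).mp h4).2
  rw [(ta θ τ hτ).s_hF (cgG2 K)] at h5
  refine ⟨c, ?_, rfl⟩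
  have hz : hF chevG2 K ((ta θ τ hτ).st c * c⁻¹) = 1 := by
    rw [map_mul, map_inv, h5, mul_inv_cancel]
  exact mul_inv_eq_one.mp (hF_inj hz)

include hi' in
/-- the elements fixed by the action on the torus -/
theorem st_eq_iff (c : Fin chevG2.rank → Kˣ) : (ta θ τ hτ).st c = c ↔ (c (I 0) : K) = θ (c (I 1)) := by
  constructor
  · intro h
    have e : ∀ i : Fin chevG2.rank, (ta θ τ hτ).f (T.π.symm i) (c (T.π.symm i)) = (c i : K) := fun i => congrArg Units.val (congrFun h i)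
    have p0 : T.π.symm (I 0) = (I 1) := sy.1
    have e0 := e (I 0)
    rw [p0] at e0
    exact e0.symm
  · intro a0
    funext i
    apply Units.ext
    change (ta θ τ hτ).f (T.π.symm i) (c (T.π.symm i)) = (c i : K)
    have p0 : T.π.symm (I 0) = (I 1) := sy.1
    have p1 : T.π.symm (I 1) = (I 0) := sy.2
    change Fin 2 at i
    fin_cases i
    · change (ta θ τ hτ).f (T.π.symm (I 0)) (c (T.π.symm (I 0))) = (c (I 0) : K)
      rw [p0]; exact a0.symm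
    · change (ta θ τ hτ).f (T.π.symm (I 1)) (c (T.π.symm (I 1))) = (c (I 1) : K)
      rw [p1, a0]; exact hi' _

/-- the torus elements -/
noncomputable def tc : Kˣ →* (Fin chevG2.rank → Kˣ) where
  toFun b := (![Units.map (θ : K →* K) b, b] : Fin 2 → Kˣ)
  map_one' := by
    funext i
    change Fin 2 at i
    fin_cases i
    · exact map_one (Units.map (θ : K →* K))
    · rfl
  map_mul' a b := by
    funext i
    change Fin 2 at i
    fin_cases i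
    · exact map_mul (Units.map (θ : K →* K)) a b
    · rfl

include hi' in
theorem tc_st (b : Kˣ) : (ta θ τ hτ).st (tc θ b) = tc θ b := (st_eq_iff θ τ hτ hi' _).mpr rfl

include hi' in
theorem torus' {h : GL chevG2.Idx K} (hh : h ∈ chevG2.diagonalSubgroup K ⊓ (ta θ τ hτ).Gs (cgG2 K)) :
    ∃ b : Kˣ, hF chevG2 K (tc θ b) = h := by
  obtain ⟨c, hc, rfl⟩ := torus θ τ hτ hh
  have h1 := (st_eq_iff θ τ hτ hi' c).mp hc
  refine ⟨c (I 1), ?_⟩
  congr 1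
  funext i
  change Fin 2 at i
  fin_cases i
  · exact Units.ext h1.symm
  · rfl

include hi' in
theorem tc_mem (b : Kˣ) : hF chevG2 K (tc θ b) ∈ chevG2.diagonalSubgroup K ⊓ (ta θ τ hτ).Gs (cgG2 K) := by
  refine Subgroup.mem_inf.mpr ⟨?_, ?_⟩
  · rw [← (cgG2 K).hF_range]; exact ⟨_, rfl⟩
  · exact ((ta θ τ hτ).mem_Gs (cgG2 K)).mpr ⟨(cgG2 K).hF_mem_G _, by rw [(ta θ τ hτ).s_hF (cgG2 K), tc_st θ τ hτ hi']⟩

variable {m : ℕ} (hθ : ∀ t, θ t = t ^ (3 ^ m))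

theorem cinv : ∀ s < chevG2.nroots, ∀ i : Fin chevG2.rank, chevG2.cartan i (rl chevG2 [1, 0, 1, 0, 1, 0] s) = - chevG2.cartan i s := by
  decide +kernel

include hτ hi hi' hθ in
theorem sq_mem (b : Kˣ) : (hF chevG2 K (tc θ b)) ^ 2 ∈ twistedG2 K (3 ^ m) := by
  have M := cgG2 K
  set k := hF chevG2 K (tc θ b) with hk
  obtain ⟨hkH, hkG⟩ := Subgroup.mem_inf.mp (tc_mem θ τ hτ hi' b)
  rw [← hk] at hkH hkG
  have hn := n_eq (K := K) θ
  have hnN : nl chevG2 K [0, 1, 0, 1, 0, 1] ∈ chevG2.monomialSubgroup K := (R θ τ hτ).n_mem_N (cgG2 K) (0 : Fin 1)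
  have hnG : nl chevG2 K [0, 1, 0, 1, 0, 1] ∈ (ta θ τ hτ).Gs (cgG2 K) := (R θ τ hτ).n_mem_Gs (cgG2 K) (0 : Fin 1)
  have hnT : nl chevG2 K [0, 1, 0, 1, 0, 1] ∈ twistedG2 K (3 ^ m) := n_mem' θ hθ
  have hinv : nl chevG2 K [0, 1, 0, 1, 0, 1] * k * (nl chevG2 K [0, 1, 0, 1, 0, 1])⁻¹ = k⁻¹ :=
    M.nl_hF_inv (w 0) (tc θ b) (fun i => Or.inr (fun s hs => cinv s hs i))
  have hUm : ∀ t u v : K, ree θ t u v ∈ TN.Um (ta θ τ hτ) (cgG2 K) (nl chevG2 K [0, 1, 0, 1, 0, 1]) :=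
    fun t u v => (mem_Um θ τ hτ hi hi').mpr ⟨t, u, v, rfl⟩
  have hle : TN.Um (ta θ τ hτ) (cgG2 K) (nl chevG2 K [0, 1, 0, 1, 0, 1]) ≤ twistedG2 K (3 ^ m) := Um_le θ τ hτ hi hi' hθ (0 : Fin 1)
  generalize nl chevG2 K [0, 1, 0, 1, 0, 1] = n at *
  have h1 : k * n * k⁻¹ ∈ twistedG2 K (3 ^ m) := by
    have e : k * n * k⁻¹ = (k * ree θ 0 1 0 * k⁻¹) * (n * ((n⁻¹ * k * n) * ree θ 0 1 0 * (n⁻¹ * k * n)⁻¹) * n⁻¹) *
        (k * ree θ 0 1 0 * k⁻¹) := by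
      have e2 : k * n * k⁻¹ = k * (ree θ 0 1 0 * (n * ree θ 0 1 0 * n⁻¹) * ree θ 0 1 0) * k⁻¹ := by
        rw [← hn]
      rw [e2]
      group
    rw [e]
    refine mul_mem (mul_mem (hle (TN.H_conj_Um (cgG2 K) hnN hkH hkG (hUm _ _ _))) ?_) (hle (TN.H_conj_Um (cgG2 K) hnN hkH hkG (hUm _ _ _)))
    refine mul_mem (mul_mem hnT (hle ?_)) (inv_mem hnT)
    exact TN.H_conj_Um (cgG2 K) hnN (M.H_conj' hnN hkH) (mul_mem (mul_mem (inv_mem hnG) hkG) hnG) (hUm _ _ _)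
  have e : k ^ 2 = (k * n * k⁻¹) * n⁻¹ := by
    have : n * k⁻¹ * n⁻¹ = k := by
      calc n * k⁻¹ * n⁻¹ = (n * k * n⁻¹)⁻¹ := by group
        _ = k := by rw [hinv, inv_inv]
    calc k ^ 2 = k * k := pow_two k
      _ = k * (n * k⁻¹ * n⁻¹) := by rw [this]
      _ = _ := by group
  rw [e]
  exact mul_mem h1 (inv_mem hnT)

omit [CharP K 3] in
theorem tc_neg : tc θ (-1 : Kˣ) = Pi.mulSingle (I 0) (-1) * Pi.mulSingle (I 1) (-1) := by
  funext i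
  change Fin 2 at i
  fin_cases i
  · change Units.map (θ : K →* K) (-1) = (Pi.mulSingle (I 0) (-1) : Fin chevG2.rank → Kˣ) (I 0) * (Pi.mulSingle (I 1) (-1) : Fin chevG2.rank → Kˣ) (I 0)
    rw [Pi.mulSingle_eq_same, Pi.mulSingle_eq_of_ne (by decide), mul_one]
    apply Units.ext
    change θ ((-1 : Kˣ) : K) = ((-1 : Kˣ) : K)
    rw [Units.val_neg, Units.val_one, map_neg, map_one]
  · change (-1 : Kˣ) = (Pi.mulSingle (I 0) (-1) : Fin chevG2.rank → Kˣ) (I 1) * (Pi.mulSingle (I 1) (-1) : Fin chevG2.rank → Kˣ) (I 1)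
    rw [Pi.mulSingle_eq_same, Pi.mulSingle_eq_of_ne (by decide), one_mul]

section
variable [Fintype K] (hK : Fintype.card K = 3 ^ (2 * m + 1))

include hK in
omit [CharP K 3] in
theorem sq_or (b : Kˣ) : ∃ c : Kˣ, b = c ^ 2 ∨ b = -1 * c ^ 2 := by
  obtain ⟨f, hf⟩ : ∃ f, 3 ^ (2 * m + 1) = 4 * f + 3 := by
    clear hK
    induction m with
    | zero => exact ⟨0, rfl⟩
    | succ m ih =>
      obtain ⟨f, hf⟩ := ih
      refine ⟨9 * f + 6, ?_⟩
      have : 3 ^ (2 * (m + 1) + 1) = 9 * 3 ^ (2 * m + 1) := by ring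
      rw [this, hf]; ring
  have h1 : b ^ (4 * f + 2) = 1 := by
    apply Units.ext
    rw [Units.val_pow_eq_pow_val, Units.val_one]
    have := FiniteField.pow_card_sub_one_eq_one (b : K) b.ne_zero
    rw [hK, hf] at this
    exact this
  have h2 : ((b : K) ^ (2 * f + 1) - 1) * ((b : K) ^ (2 * f + 1) + 1) = 0 := by
    have h3 : (b : K) ^ (4 * f + 2) = 1 := by
      have := congrArg Units.val h1
      rwa [Units.val_pow_eq_pow_val, Units.val_one] at this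
    have h4 : (b : K) ^ (4 * f + 2) = ((b : K) ^ (2 * f + 1)) ^ 2 := by rw [← pow_mul]; congr 1; ring
    rw [h4] at h3
    linear_combination h3
  refine ⟨b ^ (f + 1), ?_⟩
  rcases mul_eq_zero.mp h2 with h5 | h5
  · left
    apply Units.ext
    rw [Units.val_pow_eq_pow_val, Units.val_pow_eq_pow_val, ← pow_mul]
    have h6 : (b : K) ^ (2 * f + 1) = 1 := sub_eq_zero.mp h5
    have h7 : (f + 1) * 2 = 2 * f + 1 + 1 := by ring
    rw [h7, pow_succ, h6, one_mul]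
  · right
    apply Units.ext
    rw [Units.val_mul, Units.val_neg, Units.val_one, Units.val_pow_eq_pow_val, Units.val_pow_eq_pow_val, ← pow_mul]
    have h6 : (b : K) ^ (2 * f + 1) = -1 := eq_neg_of_add_eq_zero_left h5
    have h7 : (f + 1) * 2 = 2 * f + 1 + 1 := by ring
    rw [h7, pow_succ, h6]
    ring

include hτ hi hi' hθ hK in
theorem H_le : chevG2.diagonalSubgroup K ⊓ (ta θ τ hτ).Gs (cgG2 K) ≤ twistedG2 K (3 ^ m) := by
  intro h hh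
  obtain ⟨b, rfl⟩ := torus' θ τ hτ hi' hh
  obtain ⟨c, rfl | rfl⟩ := sq_or hK b
  · rw [map_pow, map_pow]
    exact sq_mem θ τ hτ hi hi' hθ c
  · rw [map_mul, map_mul, map_pow, map_pow]
    refine mul_mem ?_ (sq_mem θ τ hτ hi hi' hθ c)
    rw [tc_neg, map_mul]
    exact h1_mem θ hθ

include hi hi' hθ hK in
theorem eq_Gs : twistedG2 K (3 ^ m) = (ta θ τ hτ).Gs (cgG2 K) :=
  le_antisymm (le_Gs θ τ hτ hi hi' hθ) ((R θ τ hτ).Gs_le_of (cgG2 K) (Um_le θ τ hτ hi hi' hθ) (n_mem θ τ hτ hθ)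
    (H_le θ τ hτ hi hi' hθ hK) chn tp)

end

theorem simple_in (i : Fin chevG2.rank) : chevG2.simple i ∈ Sl ∧ chevG2.simple i ≠ 8 ∧ chevG2.simple i ≠ 9 := by
  revert i; decide +kernel

theorem core : ((chevG2.borelSubgroup K ⊓ (ta θ τ hτ).Gs (cgG2 K)).subgroupOf ((ta θ τ hτ).Gs (cgG2 K))).normalCore = ⊥ := by
  refine (R θ τ hτ).core1' (cgG2 K) tp (fun i => ?_)
  obtain ⟨hJ, h8, h9⟩ := simple_in i
  refine ⟨Sl, tv K, srt, hJ, ?_, ?_⟩
  · unfold tv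
    rw [if_neg (fun h => h.elim h8 h9)]
    exact one_ne_zero
  · have h := ((ta θ τ hτ).mem_Um_iff (cgG2 K) phi pee).mpr ⟨⟨tv K, rfl⟩, fix1 θ τ hτ⟩
    exact ((TN.mem_Um (cgG2 K)).mp h).1.2

include hi hi' in
theorem mem_U {x : GL chevG2.Idx K} : x ∈ chevG2.posUnipotent K ⊓ (ta θ τ hτ).Gs (cgG2 K) ↔ ∃ t u v, x = ree θ t u v := by
  rw [← mem_Um θ τ hτ hi hi', TN.mem_Um, Subgroup.mem_inf]
  refine ⟨fun h => ⟨h, ?_⟩, fun h => h.1⟩
  have := (R θ τ hτ).top_conj (cgG2 K) tp h.1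
  rw [show (R θ τ hτ).nn L0 = (R θ τ hτ).n (0 : Fin 1) from TN.nn_singleton _ _] at this
  exact this

section fin
variable [Fintype K]

theorem ree_inj {t u v t' u' v' : K} (h : ree θ t u v = ree θ t' u' v') : t = t' ∧ u = u' ∧ v = v' := by
  obtain ⟨_, k2, _, _, k5, k6⟩ := P_inj h
  exact ⟨k2, k5, k6⟩

include hi hi' in
theorem card_Um (J : Fin 1) : Nat.card (TN.Um (ta θ τ hτ) (cgG2 K) ((R θ τ hτ).n J)) = Fintype.card K ^ 3 := by
  obtain rfl : J = 0 := Subsingleton.elim _ _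
  have e : Fintype.card K ^ 3 = Nat.card (K × K × K) := by
    rw [Nat.card_prod, Nat.card_prod, Nat.card_eq_fintype_card]; ring
  rw [e]
  refine (Nat.card_congr (Equiv.ofBijective (fun t : K × K × K =>
    (⟨_, (mem_Um θ τ hτ hi hi').mpr ⟨t.1, t.2.1, t.2.2, rfl⟩⟩ : TN.Um (ta θ τ hτ) (cgG2 K) ((R θ τ hτ).n (0 : Fin 1)))) ⟨?_, ?_⟩)).symm
  · rintro ⟨t, u, v⟩ ⟨t', u', v'⟩ h
    obtain ⟨rfl, rfl, rfl⟩ := ree_inj θ (congrArg Subtype.val h)
    rfl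
  · rintro ⟨x, hx⟩
    obtain ⟨t, u, v, rfl⟩ := (mem_Um θ τ hτ hi hi').mp hx
    exact ⟨(t, u, v), rfl⟩

include hi hi' in
theorem card_U : Nat.card ↥(chevG2.posUnipotent K ⊓ (ta θ τ hτ).Gs (cgG2 K)) = Fintype.card K ^ 3 := by
  rw [(R θ τ hτ).card_U (cgG2 K) chn tp]
  change Nat.card (TN.Um (ta θ τ hτ) (cgG2 K) ((R θ τ hτ).n (0 : Fin 1))) * 1 = _
  rw [mul_one, card_Um θ τ hτ hi hi']

include hi' in
theorem card_H : Nat.card ↥(chevG2.diagonalSubgroup K ⊓ (ta θ τ hτ).Gs (cgG2 K)) = Fintype.card K - 1 := by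
  have e : Fintype.card K - 1 = Nat.card Kˣ := by
    rw [Nat.card_units, Nat.card_eq_fintype_card]
  rw [e]
  refine (Nat.card_congr (Equiv.ofBijective (fun p : Kˣ =>
    (⟨hF chevG2 K (tc θ p), tc_mem θ τ hτ hi' p⟩ : ↥(chevG2.diagonalSubgroup K ⊓ (ta θ τ hτ).Gs (cgG2 K)))) ⟨?_, ?_⟩)).symm
  · intro p p' h
    have h1 : hF chevG2 K (tc θ p) = hF chevG2 K (tc θ p') := congrArg Subtype.val h
    have h2 : hF chevG2 K (tc θ p * (tc θ p')⁻¹) = 1 := by rw [map_mul, map_inv, h1, mul_inv_cancel]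
    have h3 := mul_inv_eq_one.mp (hF_inj h2)
    exact congrFun h3 (I 1)
  · rintro ⟨h, hh⟩
    obtain ⟨b, he⟩ := torus' θ τ hτ hi' hh
    exact ⟨b, Subtype.ext he⟩

end fin

/-- the generator of the Weyl group -/
noncomputable def sg1 : Weyl ((R θ τ hτ).bnp1 (cgG2 K)) := (R θ τ hτ).sW1 (cgG2 K) (0 : Fin 1)

theorem sg1_ne : sg1 θ τ hτ ≠ 1 := ((R θ τ hτ).invW1 (cgG2 K)).ne (0 : Fin 1)

theorem sg1_all (x : Weyl ((R θ τ hτ).bnp1 (cgG2 K))) : x = 1 ∨ x = sg1 θ τ hτ := by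
  obtain ⟨l, rfl⟩ := ((R θ τ hτ).invW1 (cgG2 K)).gen x
  have hsq : sg1 θ τ hτ * sg1 θ τ hτ = 1 := ((R θ τ hτ).invW1 (cgG2 K)).sq (0 : Fin 1)
  induction l with
  | nil => left; rfl
  | cons J l ih =>
    have hJ : (R θ τ hτ).sW1 (cgG2 K) J = sg1 θ τ hτ := by
      have : J = (0 : Fin 1) := Subsingleton.elim (α := Fin 1) _ _
      rw [this]; rfl
    rw [wd_cons, hJ]
    rcases ih with h | h
    · right; rw [h, mul_one]
    · left; rw [h, hsq]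

theorem card_W : Nat.card (Weyl ((R θ τ hτ).bnp1 (cgG2 K))) = 2 := by
  rw [Nat.card_eq_two_iff]
  refine ⟨1, sg1 θ τ hτ, (sg1_ne θ τ hτ).symm, ?_⟩
  rw [Set.eq_univ_iff_forall]
  intro x
  rcases sg1_all θ τ hτ x with h | h
  · exact Or.inl h
  · exact Or.inr h

/-- the quotient `N¹/H¹` -/
theorem NH : ∃ ψ : ↥(chevG2.monomialSubgroup K ⊓ (ta θ τ hτ).Gs (cgG2 K)) →* Multiplicative (ZMod 2), Function.Surjective ψ ∧
      ψ.ker = (chevG2.diagonalSubgroup K ⊓ (ta θ τ hτ).Gs (cgG2 K)).subgroupOf (chevG2.monomialSubgroup K ⊓ (ta θ τ hτ).Gs (cgG2 K)) := by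
  haveI : Fact (Nat.Prime 2) := ⟨Nat.prime_two⟩
  have h2 : Nat.card (Multiplicative (ZMod 2)) = 2 := by simp
  let e : Weyl ((R θ τ hτ).bnp1 (cgG2 K)) ≃* Multiplicative (ZMod 2) := mulEquivOfPrimeCardEq (p := 2) (card_W θ τ hτ) h2
  refine ⟨e.toMonoidHom.comp ((R θ τ hτ).homN1 (cgG2 K)), ?_, ?_⟩
  · exact e.surjective.comp ((R θ τ hτ).homN1_surj (cgG2 K))
  · rw [← (R θ τ hτ).homN1_ker (cgG2 K)]
    ext n
    rw [MonoidHom.mem_ker, MonoidHom.mem_ker]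
    exact e.map_eq_one_iff

include hi hi' in
theorem order [Fintype K] : Nat.card ↥((ta θ τ hτ).Gs (cgG2 K)) = Fintype.card K ^ 3 * (Fintype.card K - 1) * (Fintype.card K ^ 3 + 1) := by
  classical
  haveI : Finite ↥((ta θ τ hτ).Gs (cgG2 K)) := inferInstance
  haveI : Fintype (Weyl ((R θ τ hτ).bnp1 (cgG2 K))) := Fintype.ofFinite _
  have h1 := card_eq_sum_C (P := (R θ τ hτ).bnp1 (cgG2 K))
  have h2 := (R θ τ hτ).card_B1 (cgG2 K)
  have h4 := card_U θ τ hτ hi hi'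
  have h5 := card_H θ τ hτ hi'
  have h6 : (Finset.univ : Finset (Weyl ((R θ τ hτ).bnp1 (cgG2 K)))) = {1, sg1 θ τ hτ} := by
    ext x
    have := sg1_all θ τ hτ x
    simp only [Finset.mem_univ, Finset.mem_insert, Finset.mem_singleton, true_iff]
    exact this
  have h7 : Nat.card (C ((R θ τ hτ).bnp1 (cgG2 K)) (sg1 θ τ hτ)) = Nat.card ((R θ τ hτ).bnp1 (cgG2 K)).B * Fintype.card K ^ 3 := by
    have := (R θ τ hτ).card_C1_gen (cgG2 K) (0 : Fin 1)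
    refine this.trans ?_
    congr 1
    exact card_Um θ τ hτ hi hi' 0
  have h8 : Nat.card (C ((R θ τ hτ).bnp1 (cgG2 K)) (1 : Weyl ((R θ τ hτ).bnp1 (cgG2 K)))) = Nat.card ((R θ τ hτ).bnp1 (cgG2 K)).B := by
    rw [C_one]
    rfl
  rw [h1, h6, Finset.sum_pair (sg1_ne θ τ hτ).symm, h7, h8, h2, h4, h5]
  ring

end CfsgLib.Chev.TwG2
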