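import Cfsg.Agent.Lib.ThmA9
import Cfsg.Agent.Lib.CFWell
/-! Inheritance of normalizer `p`-stability; S3080. -/
set_option autoImplicit false
set_option linter.style.haveILetI false

universe u v

namespace CfsgLib.DFus
open CfsgLib.ThmA CfsgLib.CF CfsgLib.ZJ3 CfsgLib.ZJ4 CfsgLib.PSt CfsgLib.PSt2 CfsgLib.ZJ5
open CfsgLib CfsgLib.Coprime CfsgLib.SylBridge
open scoped commutatorElement Pointwise

variable {p : ℕ} [hp : Fact p.Prime]
variable {X : Type u} [Group X]

theorem nstable_subgroup [Finite X] (h : Cfsg.IsNormalizerPStable p X) (H : Subgroup X) : Cfsg.IsNormalizerPStable p H := by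
  rw [CfsgLib.PStabN.stable_iff] at h ⊢
  intro P hP g hg hq
  have hnorm : ∀ n : H, n ∈ Subgroup.normalizer (P : Set H) → (n : X) ∈ Subgroup.normalizer ((P.map H.subtype : Subgroup X) : Set X) := by
    intro n hn
    apply mem_normalizer_of_conj_mem
    rintro _ ⟨x, hx, rfl⟩
    exact ⟨n * x * n⁻¹, (Subgroup.mem_normalizer_iff.mp hn x).mp hx, rfl⟩
  have hq' : ⁅⁅P.map H.subtype, Subgroup.zpowers (g : X)⁆, Subgroup.zpowers (g : X)⁆ = ⊥ := by
    have e1 : Subgroup.zpowers (g : X) = (Subgroup.zpowers g).map H.subtype := by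
      rw [MonoidHom.map_zpowers]; rfl
    rw [e1, ← Subgroup.map_commutator, ← Subgroup.map_commutator, hq, Subgroup.map_bot]
  obtain ⟨D, hgD, hDN, hND, hDp⟩ := h (P.map H.subtype) (hP.map _) g (hnorm g hg) hq'
  refine ⟨D.subgroupOf H, hgD, ?_, ?_, ?_⟩
  · intro d hd
    have h1 := hDN hd
    apply mem_normalizer_of_conj_mem
    intro u hu
    have h2 := (Subgroup.mem_normalizer_iff.mp h1 (u : X)).mp ⟨u, hu, rfl⟩
    obtain ⟨w, hw, hw'⟩ := h2
    have : w = d * u * d⁻¹ := Subtype.ext hw'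
    rw [← this]; exact hw
  · intro n hn
    apply mem_normalizer_of_conj_mem
    intro u hu
    exact (Subgroup.mem_normalizer_iff.mp (hND (hnorm n hn)) (u : X)).mp hu
  · intro d hd
    obtain ⟨n, hn⟩ := hDp (d : X) hd
    refine ⟨n, ?_⟩
    rw [Subgroup.mem_centralizer_iff] at hn ⊢
    intro x hx
    have h1 := hn (x : X) ⟨x, hx, rfl⟩
    exact Subtype.ext h1

theorem nstable_quotient_coprime [Finite X] (h : Cfsg.IsNormalizerPStable p X) (K : Subgroup X) [K.Normal]
    (hK : (Nat.card K).Coprime p) : Cfsg.IsNormalizerPStable p (X ⧸ K) := by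
  rw [CfsgLib.PStabN.stable_iff] at h ⊢
  intro Q hQ g hg hq
  obtain ⟨P, hP, hPQ, hlift⟩ := exists_lift_pgroup (QuotientGroup.mk' K) (QuotientGroup.mk'_surjective K) hQ
  obtain ⟨y, hy, rfl⟩ := hlift g hg
  have hq' : ⁅⁅P, Subgroup.zpowers y⁆, Subgroup.zpowers y⁆ = ⊥ := by
    rw [eq_bot_iff]
    have h1 : ⁅⁅P, Subgroup.zpowers y⁆, Subgroup.zpowers y⁆ ≤ K := by
      have h2 : ⁅⁅P, Subgroup.zpowers y⁆, Subgroup.zpowers y⁆.map (QuotientGroup.mk' K) = ⊥ := by
        rw [Subgroup.map_commutator, Subgroup.map_commutator, hPQ, MonoidHom.map_zpowers]; exact hq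
      rwa [Subgroup.map_eq_bot_iff, QuotientGroup.ker_mk'] at h2
    have hyP : Subgroup.zpowers y ≤ Subgroup.normalizer (P : Set X) := by rwa [Subgroup.zpowers_le]
    have h2 : ⁅P, Subgroup.zpowers y⁆ ≤ P := by
      rw [Subgroup.commutator_le]
      intro x hx z hz
      rw [commutatorElement_def, mul_assoc, mul_assoc, ← mul_assoc z]
      exact P.mul_mem hx ((Subgroup.mem_normalizer_iff.mp (hyP hz) _).mp (P.inv_mem hx))
    have h3 : ⁅⁅P, Subgroup.zpowers y⁆, Subgroup.zpowers y⁆ ≤ P := (Subgroup.commutator_mono h2 le_rfl).trans h2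
    have h4 := le_inf h1 h3
    rwa [inf_eq_bot_of_coprime hK hP] at h4
  obtain ⟨D, hgD, hDN, hND, hDp⟩ := h P hP y hy hq'
  refine ⟨D.map (QuotientGroup.mk' K), ⟨y, hgD, rfl⟩, ?_, ?_, ?_⟩
  · rintro _ ⟨d, hd, rfl⟩
    have h1 := hDN hd
    apply mem_normalizer_of_conj_mem
    intro u hu
    rw [← hPQ] at hu ⊢
    obtain ⟨w, hw, rfl⟩ := hu
    exact ⟨d * w * d⁻¹, (Subgroup.mem_normalizer_iff.mp h1 w).mp hw, by simp⟩
  · intro n hn
    obtain ⟨m, hm, rfl⟩ := hlift n hn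
    apply mem_normalizer_of_conj_mem
    rintro _ ⟨w, hw, rfl⟩
    exact ⟨m * w * m⁻¹, (Subgroup.mem_normalizer_iff.mp (hND hm) w).mp hw, by simp⟩
  · rintro _ ⟨d, hd, rfl⟩
    obtain ⟨n, hn⟩ := hDp d hd
    refine ⟨n, ?_⟩
    rw [Subgroup.mem_centralizer_iff] at hn ⊢
    intro x hx
    rw [← hPQ] at hx
    obtain ⟨w, hw, rfl⟩ := hx
    rw [← map_pow, ← map_mul, ← map_mul, hn w hw]

/-- p-constrained and p-stable: strong fusion control for strongly closed subgroups -/
theorem ctl_of_constrained [Finite X] (hp2 : p ≠ 2) (h : Cfsg.IsNormalizerPStable p X) (hc : Cfsg.IsPConstrained p X) (e : ℕ)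
    {D S : Subgroup X} (hS : IsSyl p S ⊤) (hD : SC D S) : Ctl (Subgroup.normalizer (ZM e D : Set X)) S := by
  set K := Cfsg.pPrimeCore p X with hK
  haveI hKn : K.Normal := CfsgLib.Core.pPrimeCore_normal p X
  have hKc : (Nat.card K).Coprime p := CfsgLib.Core.card_pPrimeCore_coprime p X
  refine ctl_of_quotient' hS hD K hKc ?_
  have hS' : IsSyl p (S.map (QuotientGroup.mk' K)) ⊤ := isSyl_map_surj _ (QuotientGroup.mk'_surjective K) hS
  have hD' := hD.map hS K
  obtain ⟨PS, hPS⟩ := CfsgLib.SylBridge.isSyl_top_iff.1 hS'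
  have hcons : Subgroup.centralizer (Cfsg.pCore p (X ⧸ K) : Set (X ⧸ K)) ≤ Cfsg.pCore p (X ⧸ K) :=
    CfsgLib.PSolvL.isPConstrained_iff.mp hc
  have hn : (ZM e (D.map (QuotientGroup.mk' K))).Normal := by
    rw [← hPS] at hD'
    exact ZM_normal_sc hp2 hcons (stab_of_normalizer (nstable_quotient_coprime h K hKc)) PS e hD'.1 hD'.2
  intro A g hA hAg
  refine ⟨g, ?_, fun _ _ => rfl⟩
  rw [Subgroup.normalizer_eq_top_iff.2 hn]; trivial

/-- elements conjugate into `D` -/
def ED (D H : Subgroup X) : Subgroup X := Subgroup.closure {x | x ∈ H ∧ ∃ g : X, g * x * g⁻¹ ∈ D}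

omit hp in
theorem ED_le (D H : Subgroup X) : ED D H ≤ H := (Subgroup.closure_le _).2 (fun _ hx => hx.1)

omit hp in
theorem ED_conj (D H : Subgroup X) (g : X) : ED D (H.map (MulAut.conj g).toMonoidHom) = (ED D H).map (MulAut.conj g).toMonoidHom := by
  rw [ED, ED, MonoidHom.map_closure]
  congr 1
  ext x
  constructor
  · rintro ⟨⟨y, hy, rfl⟩, k, hk⟩
    refine ⟨y, ⟨hy, k * g, ?_⟩, rfl⟩
    have e : k * g * y * (k * g)⁻¹ = k * ((MulAut.conj g).toMonoidHom y) * k⁻¹ := by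
      show _ = k * (g * y * g⁻¹) * k⁻¹
      group
    rw [e]; exact hk
  · rintro ⟨y, ⟨hy, k, hk⟩, rfl⟩
    refine ⟨⟨y, hy, rfl⟩, k * g⁻¹, ?_⟩
    have e : k * g⁻¹ * ((MulAut.conj g).toMonoidHom y) * (k * g⁻¹)⁻¹ = k * y * k⁻¹ := by
      show k * g⁻¹ * (g * y * g⁻¹) * (k * g⁻¹)⁻¹ = _
      group
    rw [e]; exact hk

omit hp in
theorem ED_eq {D S R : Subgroup X} (hD : SC D S) (hR : R ≤ S) : ED D R = R ⊓ D := by
  apply le_antisymm
  · rw [ED, Subgroup.closure_le]
    rintro x ⟨hx, g, hg⟩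
    refine ⟨hx, ?_⟩
    have h1 := hD.2 _ hg g⁻¹
    have e : g⁻¹ * (g * x * g⁻¹) * g⁻¹⁻¹ = x := by group
    rw [e] at h1
    exact h1 (hR hx)
  · rintro x ⟨hx, hxD⟩
    exact Subgroup.subset_closure ⟨hx, 1, by simpa using hxD⟩

open Classical in
/-- the conjugacy functor attached to `D` -/
noncomputable def WD (e : ℕ) (D H : Subgroup X) : Subgroup X := if ED D H = ⊥ then H else ZM e (ED D H)

theorem WD_functor [Finite X] {e : ℕ} (he : p ∣ e) (D : Subgroup X) : Cfsg.IsConjugacyFunctor p (WD e D) := by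
  intro P hP
  refine ⟨?_, ?_, ?_⟩
  · unfold WD
    split_ifs with h
    · exact le_rfl
    · exact (ZM_le _ _).trans (ED_le D P)
  · intro hne
    unfold WD
    split_ifs with h
    · exact hne
    · exact ZM_ne_bot (hP.to_le (ED_le D P)) h he
  · intro g
    unfold WD
    rw [ED_conj]
    by_cases h : ED D P = ⊥
    · rw [if_pos h, if_pos (by rw [h, Subgroup.map_bot])]
    · rw [if_neg h, if_neg (by
        intro h1
        exact h ((Subgroup.map_eq_bot_iff_of_injective _ (MulAut.conj g).injective).mp h1)), ZM_conj]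

theorem ctl_of_local [Finite X] (hp2 : p ≠ 2) (hst : Cfsg.IsNormalizerPStable p X) {e : ℕ} (he : p ∣ e)
    {D S : Subgroup X} (hS : IsSyl p S ⊤) (hD : SC D S)
    (hc : ∀ U : Subgroup X, U ≤ S → U ≠ ⊥ → Cfsg.IsPConstrained p ↥(Subgroup.normalizer (U : Set X))) :
    Ctl (Subgroup.normalizer (ZM e D : Set X)) S := by
  classical
  by_cases hD0 : D = ⊥
  · have h1 : ZM e D = ⊥ := by
      rw [eq_bot_iff, ← hD0]; exact ZM_le e D
    intro A g hA hAg
    refine ⟨g, ?_, fun _ _ => rfl⟩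
    rw [h1, Subgroup.normalizer_eq_top_iff.2 inferInstance]; trivial
  have hWS : WD e D S = ZM e D := by
    have h1 : ED D S = D := by rw [ED_eq hD le_rfl, inf_eq_right.2 hD.1]
    unfold WD
    rw [h1, if_neg hD0]
  have hSD : S ≤ Subgroup.normalizer (D : Set X) := by
    intro s hs
    apply mem_normalizer_of_conj_mem
    intro x hx
    exact hD.2 x hx s (S.mul_mem (S.mul_mem hs (hD.1 hx)) (S.inv_mem hs))
  have hmain := sctl_of_wellPlaced (WD_functor he D) hS (by
    intro T hT0 hT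
    have hTS := hT.1
    have hT1 : ¬ p ∣ (S ⊓ Subgroup.normalizer (T : Set X)).relIndex (Subgroup.normalizer (T : Set X)) := hT.2 0
    set N := Subgroup.normalizer (T : Set X) with hN
    set R := S ⊓ N with hR
    have hRS : R ≤ S := inf_le_left
    have hRN : R ≤ N := inf_le_right
    have hRsyl : IsSyl p R N := isSyl_iff.2 ⟨hRN, hS.isPGroup.to_le hRS, hT1⟩
    have hRD : R ⊓ D ≠ ⊥ := by
      obtain ⟨z, hzD, hz1, hzT⟩ := CfsgLib.PStabN.exists_fixed (D := T) (hS.isPGroup.to_le hD.1) (hTS.trans hSD) (by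
        intro t ht
        obtain ⟨k, hk⟩ := hS.isPGroup ⟨t, hTS ht⟩
        refine ⟨k, ?_⟩
        have h2 : t ^ p ^ k = 1 := congrArg Subtype.val hk
        rw [h2]; exact one_mem _) hD0
      intro h
      apply hz1
      rw [← Subgroup.mem_bot, ← h]
      refine ⟨⟨hD.1 hzD, ?_⟩, hzD⟩
      apply mem_normalizer_of_conj_mem
      intro u hu
      rw [← hzT u hu, mul_assoc, mul_inv_cancel, mul_one]; exact hu
    have hWR : WD e D R = ZM e (R ⊓ D) := by
      have h1 : ED D R = R ⊓ D := ED_eq hD hRS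
      unfold WD
      rw [h1, if_neg hRD]
    have hR' : IsSyl p (R.subgroupOf N) ⊤ := by
      rw [← isSyl_map_iff N.subtype N.subtype_injective, Subgroup.map_subgroupOf_eq_of_le hRN, ← MonoidHom.range_eq_map, Subgroup.range_subtype]
      exact hRsyl
    have hD' : SC ((R ⊓ D).subgroupOf N) (R.subgroupOf N) := by
      refine ⟨fun x hx => hx.1, ?_⟩
      intro x hx g hg
      exact ⟨hg, hD.2 x hx.2 g (hRS hg)⟩
    have hctl := ctl_of_constrained hp2 (nstable_subgroup hst N) (hc T hTS hT0) e hR' hD'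
    refine controlsStrongFusionIn_of hRsyl ?_
    intro A h hh hA hAh
    rw [hWR]
    exact Ctl.of_subgroup inf_le_left hRN hctl hA hh hAh)
  intro A g hA hAg
  obtain ⟨n, hn, hna⟩ := hmain A g trivial hA hAg
  rw [hWS] at hn
  exact ⟨n, hn.2, hna⟩

end CfsgLib.DFus
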