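import Cfsg.Agent.Lib.WCFinal
import Cfsg.Agent.Lib.KInfCtl

/-! Weak closure and the lower K-infinity subgroup. -/

set_option autoImplicit false

open scoped Pointwise commutatorElement
open CfsgLib.CF CfsgLib.Coprime CfsgLib.SylBridge

namespace CfsgLib.WCFus

universe u

variable {G : Type u} [Group G] {p : ℕ} [hp : Fact p.Prime] [Finite G]

theorem center_le_kInfLower (P : Type u) [Group P] : Subgroup.center P ≤ Cfsg.kInfLower P := by
  have h1 := CfsgLib.KInf.le_kSeqEven_of_comm (P := P) (A := Subgroup.center P) inferInstance 0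
  exact h1.trans (le_iSup (fun n => Cfsg.kSeqEven P n) 0)

theorem kInf_center (P : Subgroup G) : P ⊓ Subgroup.centralizer ((P : Subgroup G) : Set G) ≤
    Cfsg.inducedFunctor Cfsg.kInfLower P := by
  rintro x ⟨hx1, hx2⟩
  refine ⟨⟨x, hx1⟩, center_le_kInfLower _ ?_, rfl⟩
  rw [Subgroup.mem_center_iff]
  intro y
  exact Subtype.ext (Subgroup.mem_centralizer_iff.1 hx2 y y.2)

theorem kInf_loc (H T : Subgroup G) (hTH : T ≤ H) (hTp : IsPGroup p ↥T) (hTi : ¬ p ∣ (T).relIndex (H))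
    (hn : ¬ H ≤ Subgroup.normalizer ((Cfsg.inducedFunctor Cfsg.kInfLower T : Subgroup G) : Set G)) :
      ∃ g : G, g ∈ T ∧ g ∉ Cfsg.pCoreOf p H ∧ ⁅⁅Cfsg.pCoreOf p H ⊓ Subgroup.centralizer ((Cfsg.pCoreOf p H : Subgroup G) : Set G), Subgroup.zpowers g⁆, Subgroup.zpowers g⁆ = ⊥ := by
  have hT : IsSyl p T H := isSyl_iff.2 ⟨hTH, hTp, hTi⟩
  obtain ⟨S, hS⟩ := isSyl_top_iff.1 (isSyl_sub hT)
  have hTm : (T.subgroupOf H).map H.subtype = T := Subgroup.map_subgroupOf_eq_of_le hTH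
  have h1 := induced_map (CfsgLib.KInf.isCharPFunctor_lower.{u} p) H.subtype H.subtype_injective (T.subgroupOf H)
    (isSyl_sub hT).isPGroup
  rw [hTm] at h1
  have h2 : ¬ (Cfsg.inducedFunctor Cfsg.kInfLower (S : Subgroup H)).Normal := by
    intro h
    apply hn
    rw [h1, ← hS]
    intro x hx
    apply CfsgLib.H7Basic.mem_normalizer_of_conj_mem
    rintro _ ⟨y, hy, rfl⟩
    exact ⟨⟨x, hx⟩ * y * ⟨x, hx⟩⁻¹, h.conj_mem y hy _, rfl⟩
  obtain ⟨g, hgS, hgT, -, hg, -⟩ := CfsgLib.PStabN.main S (Or.inl h2)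
  rw [hS] at hgS
  refine ⟨g, hgS, ?_, ?_⟩
  · rintro ⟨y, hy, hyg⟩
    have : y = g := Subtype.ext hyg
    rw [this] at hy
    exact hgT hy
  · rw [← map_zz, ← map_zpowers_sub, ← Subgroup.map_commutator, ← Subgroup.map_commutator, hg, Subgroup.map_bot]

theorem kInf_loc' (hp2 : p ≠ 2) (H T : Subgroup G) (hTH : T ≤ H) (hTp : IsPGroup p ↥T) (hTi : ¬ p ∣ (T).relIndex (H))
    (hn : ¬ H ≤ Subgroup.normalizer ((Cfsg.inducedFunctor Cfsg.kInfLower T : Subgroup G) : Set G)) :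
      ∃ g : G, g ∈ T ∧ g ∉ Cfsg.pCoreOf p H ∧ ∀ U V : Subgroup ↥H, Cfsg.IsChiefFactor U V →
        U.map H.subtype ≤ Cfsg.pCoreOf p H ⊓ Subgroup.centralizer ((Cfsg.pCoreOf p H : Subgroup G) : Set G) →
        Cfsg.iterCommutator (U.map H.subtype) (Subgroup.zpowers g) (p - 1) ≤ V.map H.subtype := by
  obtain ⟨g, h1, h2, h3⟩ := kInf_loc H T hTH hTp hTi hn
  refine ⟨g, h1, h2, fun U V hUV hU => ?_⟩
  have hgH := hTH h1
  have h4 : Cfsg.iterCommutator (U.map H.subtype) (Subgroup.zpowers g) 2 ≤ ⊥ := by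
    rw [← h3]
    exact Subgroup.commutator_mono (Subgroup.commutator_mono hU le_rfl) le_rfl
  have h5 : Subgroup.zpowers g ≤ Subgroup.normalizer ((U.map H.subtype : Subgroup G) : Set G) := by
    rw [Subgroup.zpowers_le]
    apply CfsgLib.H7Basic.mem_normalizer_of_conj_mem
    rintro _ ⟨y, hy, rfl⟩
    exact ⟨⟨g, hgH⟩ * y * ⟨g, hgH⟩⁻¹, hUV.2.1.conj_mem y hy _, rfl⟩
  have h6 : 2 ≤ p - 1 := by
    have := hp.out.two_le
    omega
  exact ((CfsgLib.ChiefP.iter_anti h5 h6).trans h4).trans bot_le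

end CfsgLib.WCFus
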