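import Cfsg.Agent.Lib.WCKInf
import Cfsg.Agent.Lib.H6Ct3
import Cfsg.Agent.Lib.PSolvL
import Cfsg.Agent.Lib.PChain
import Cfsg.Prelude.Def_ConjugacyFunctors

/-! The weakly closed elements form a direct factor of the centre (S1945). -/
set_option autoImplicit false
set_option linter.style.haveILetI false
set_option linter.unusedVariables false

namespace CfsgLib.WDir

universe u

open CfsgLib Subgroup

variable {G : Type u} [Group G] [Finite G] {p : ℕ} [hp : Fact p.Prime]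

theorem le_pPrimePCore {D : Subgroup G} (hD : D.Normal) (hDp : IsPGroup p D) : D ≤ Cfsg.pPrimePCore p G := by
  haveI := CfsgLib.Core.pPrimeCore_normal p G
  have h1 : D.map (QuotientGroup.mk' (Cfsg.pPrimeCore p G)) ≤ Cfsg.pCore p (G ⧸ Cfsg.pPrimeCore p G) :=
    CfsgLib.Core.le_pCore (Subgroup.Normal.map hD _ (QuotientGroup.mk'_surjective _)) (hDp.map _)
  exact Subgroup.map_le_iff_le_comap.mp h1

theorem center_le_of_psolvable (S : Sylow p G) (hs : Cfsg.IsPSolvable p G) :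
    ((S : Subgroup G) ⊓ Subgroup.centralizer ((S : Subgroup G) : Set G)) ≤ Cfsg.pPrimePCore p G := by
  haveI := CfsgLib.Core.pPrimeCore_normal p G
  have h1 := CfsgLib.PSolvL.isPConstrained_iff.mp (CfsgLib.PSolvL.isPConstrained_of_isPSolvable hs)
  intro z hz
  apply h1
  rw [Subgroup.mem_centralizer_iff]
  intro y hy
  let S' : Sylow p (G ⧸ Cfsg.pPrimeCore p G) := S.mapSurjective (QuotientGroup.mk'_surjective (Cfsg.pPrimeCore p G))
  have h2 : y ∈ (S' : Subgroup (G ⧸ Cfsg.pPrimeCore p G)) := CfsgLib.Core.pCore_le_sylow S' hy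
  obtain ⟨s, hs, rfl⟩ : y ∈ (S : Subgroup G).map (QuotientGroup.mk' (Cfsg.pPrimeCore p G)) := h2
  have h3 := Subgroup.mem_centralizer_iff.mp hz.2 s hs
  rw [← map_mul, ← map_mul, h3]

/-- the reduction to a subgroup -/
theorem reduce (S : Sylow p G) (K : Subgroup G) (hKS : K ≤ S) (hSK : (S : Subgroup G) ≤ Subgroup.normalizer (K : Set G))
    (hZK : ((S : Subgroup G) ⊓ Subgroup.centralizer ((S : Subgroup G) : Set G)) ≤ K)
    (hwc : ∀ x ∈ (S : Subgroup G) ⊓ Subgroup.centralizer ((Subgroup.normalizer (K : Set G) : Subgroup G) : Set G), ∀ h : G, h * x * h⁻¹ ∈ (S : Subgroup G) → h * x * h⁻¹ = x) :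
    ∃ W K : Subgroup G, (∀ x : G, x ∈ W ↔ (x ∈ (S : Subgroup G) ∧ ∀ g : G, g * x * g⁻¹ ∈ (S : Subgroup G) → g * x * g⁻¹ = x)) ∧
      K ≤ ((S : Subgroup G) ⊓ Subgroup.centralizer ((S : Subgroup G) : Set G)) ∧ W ⊓ K = ⊥ ∧ W ⊔ K = ((S : Subgroup G) ⊓ Subgroup.centralizer ((S : Subgroup G) : Set G)) := by
  set N : Subgroup G := Subgroup.normalizer (K : Set G) with hN
  let SN : Sylow p N := S.subtype hSK
  have hSN : ∀ y : N, y ∈ (SN : Subgroup N) ↔ (y : G) ∈ (S : Subgroup G) := fun y => Iff.rfl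
  have hmapZ : ((SN : Subgroup N) ⊓ Subgroup.centralizer ((SN : Subgroup N) : Set N)).map N.subtype =
      ((S : Subgroup G) ⊓ Subgroup.centralizer ((S : Subgroup G) : Set G)) := by
    ext x
    constructor
    · rintro ⟨y, hy, rfl⟩
      obtain ⟨hy1, hy2⟩ := Subgroup.mem_inf.mp hy
      refine Subgroup.mem_inf.mpr ⟨hy1, ?_⟩
      rw [Subgroup.mem_centralizer_iff]
      intro s hs
      exact congrArg Subtype.val (Subgroup.mem_centralizer_iff.mp hy2 ⟨s, hSK hs⟩ hs)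
    · intro hx
      obtain ⟨hx1, hx2⟩ := Subgroup.mem_inf.mp hx
      refine ⟨⟨x, hSK hx1⟩, Subgroup.mem_inf.mpr ⟨hx1, ?_⟩, rfl⟩
      rw [Subgroup.mem_centralizer_iff]
      intro s hs
      exact Subtype.ext (Subgroup.mem_centralizer_iff.mp hx2 s hs)
  have hKNn : (K.subgroupOf N).Normal := Subgroup.normal_subgroupOf_iff_le_normalizer Subgroup.le_normalizer |>.mpr le_rfl
  have hKp : IsPGroup p (K.subgroupOf N) :=
    (S.isPGroup'.to_le hKS).of_equiv (Subgroup.subgroupOfEquivOfLe (Subgroup.le_normalizer (H := K))).symm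
  have hZN : ((SN : Subgroup N) ⊓ Subgroup.centralizer ((SN : Subgroup N) : Set N)) ≤ Cfsg.pPrimePCore p N := by
    refine le_trans ?_ (le_pPrimePCore hKNn hKp)
    intro y hy
    rw [Subgroup.mem_subgroupOf]
    apply hZK
    rw [← hmapZ]
    exact ⟨y, hy, rfl⟩
  obtain ⟨W, L, hW, hL, hWL, hWL'⟩ := CfsgLib.H6Ct.s1944 SN hZN
  refine ⟨W.map N.subtype, L.map N.subtype, ?_, ?_, ?_, ?_⟩
  · intro x
    constructor
    · rintro ⟨y, hy, rfl⟩
      obtain ⟨h1, h2⟩ := (hW y).mp hy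
      refine ⟨h1, ?_⟩
      apply hwc
      refine Subgroup.mem_inf.mpr ⟨h1, ?_⟩
      -- `y` is central in `S`
      have hyZ : (y : G) ∈ ((S : Subgroup G) ⊓ Subgroup.centralizer ((S : Subgroup G) : Set G)) := by
        refine Subgroup.mem_inf.mpr ⟨h1, ?_⟩
        rw [Subgroup.mem_centralizer_iff]
        intro s hs
        have h3 := h2 ⟨s, hSK hs⟩ (S.mul_mem (S.mul_mem hs h1) (S.inv_mem hs))
        have h4 : s * (y : G) * s⁻¹ = y := congrArg Subtype.val h3
        calc s * (y : G) = (s * (y : G) * s⁻¹) * s := by group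
          _ = y * s := by rw [h4]
      rw [Subgroup.mem_centralizer_iff]
      intro n hn
      have h3 : n * (y : G) * n⁻¹ ∈ K := (Subgroup.mem_normalizer_iff.mp hn _).mp (hZK hyZ)
      have h4 := h2 ⟨n, hn⟩ (hKS h3)
      have h5 : n * (y : G) * n⁻¹ = y := congrArg Subtype.val h4
      show n * (y : G) = y * n
      calc n * (y : G) = (n * (y : G) * n⁻¹) * n := by group
        _ = y * n := by rw [h5]
    · rintro ⟨hx1, hx2⟩
      refine ⟨⟨x, hSK hx1⟩, (hW _).mpr ⟨hx1, ?_⟩, rfl⟩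
      intro g hg
      exact Subtype.ext (hx2 g hg)
  · rw [← hmapZ]; exact Subgroup.map_mono hL
  · rw [← Subgroup.map_inf _ _ _ N.subtype_injective, hWL, Subgroup.map_bot]
  · rw [← Subgroup.map_sup, hWL', hmapZ]

theorem s1945 (S : Sylow p G) (h : p ≠ 2 ∨ Group.IsSolvable G) :
    ∃ W K : Subgroup G, (∀ x : G, x ∈ W ↔ (x ∈ (S : Subgroup G) ∧ ∀ g : G, g * x * g⁻¹ ∈ (S : Subgroup G) → g * x * g⁻¹ = x)) ∧
      K ≤ ((S : Subgroup G) ⊓ Subgroup.centralizer ((S : Subgroup G) : Set G)) ∧ W ⊓ K = ⊥ ∧ W ⊔ K = ((S : Subgroup G) ⊓ Subgroup.centralizer ((S : Subgroup G) : Set G)) := by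
  rcases h with hp2 | hsol
  · have hcf : Cfsg.IsConjugacyFunctor p (Cfsg.inducedFunctor (G := G) Cfsg.kInfLower) :=
      CfsgLib.CF.induced_isConjugacyFunctor (CfsgLib.KInf.isCharPFunctor_lower p)
    have hwc := CfsgLib.WCFus.wce hcf (fun P _ => CfsgLib.WCFus.kInf_center P) (CfsgLib.WCFus.kInf_loc' hp2) (⊤ : Subgroup G)
    obtain ⟨hZ, T, -, hTp, hTi, hT⟩ := hwc
    set F := Cfsg.inducedFunctor (G := G) Cfsg.kInfLower with hF
    have hTi' : ¬ p ∣ T.index := by rwa [Subgroup.relIndex_top_right] at hTi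
    obtain ⟨g, hg⟩ := MulAction.exists_smul_eq G (hTp.toSylow hTi') S
    have hgT : T.map (MulAut.conj g).toMonoidHom = (S : Subgroup G) := by
      rw [← hg]; rfl
    have hFS : F (S : Subgroup G) = (F T).map (MulAut.conj g).toMonoidHom := by
      rw [← hgT]; exact (hcf T hTp).2.2 g
    have hSN : (S : Subgroup G) ≤ Subgroup.normalizer ((F (S : Subgroup G) : Subgroup G) : Set G) := by
      intro s hs
      rw [← CfsgLib.H7Basic.cj_eq_self_iff, ← (hcf (S : Subgroup G) S.isPGroup').2.2 s]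
      congr 1
      exact CfsgLib.H7Basic.cj_eq_self_iff.2 (Subgroup.le_normalizer hs)
    apply reduce S (F (S : Subgroup G)) (hcf (S : Subgroup G) S.isPGroup').1 hSN (hZ _ S.isPGroup')
    intro x hx h hh
    obtain ⟨hx1, hx2⟩ := Subgroup.mem_inf.mp hx
    have hback : ∀ y : G, y ∈ (S : Subgroup G) → g⁻¹ * y * g ∈ T := by
      intro y hy
      rw [← hgT] at hy
      obtain ⟨t, ht, rfl⟩ := hy
      show g⁻¹ * (g * t * g⁻¹) * g ∈ T
      have : g⁻¹ * (g * t * g⁻¹) * g = t := by group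
      rw [this]; exact ht
    have h1 : g⁻¹ * x * g ∈ T ⊓ Subgroup.centralizer (((⊤ : Subgroup G) ⊓ Subgroup.normalizer ((F T : Subgroup G) : Set G) : Subgroup G) : Set G) := by
      refine Subgroup.mem_inf.mpr ⟨hback x hx1, ?_⟩
      rw [Subgroup.mem_centralizer_iff]
      intro n hn
      have hn' : g * n * g⁻¹ ∈ Subgroup.normalizer ((F (S : Subgroup G) : Subgroup G) : Set G) := by
        rw [hFS, Subgroup.mem_normalizer_iff]
        intro y
        have h2 := Subgroup.mem_normalizer_iff.mp hn.2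
        constructor
        · rintro ⟨z, hz, rfl⟩
          refine ⟨n * z * n⁻¹, (h2 z).mp hz, ?_⟩
          show g * (n * z * n⁻¹) * g⁻¹ = g * n * g⁻¹ * (g * z * g⁻¹) * (g * n * g⁻¹)⁻¹
          group
        · rintro ⟨z, hz, hzy⟩
          have hzy' : g * z * g⁻¹ = g * n * g⁻¹ * y * (g * n * g⁻¹)⁻¹ := hzy
          refine ⟨g⁻¹ * y * g, (h2 _).mpr ?_, ?_⟩
          · have : n * (g⁻¹ * y * g) * n⁻¹ = z := by
              calc n * (g⁻¹ * y * g) * n⁻¹ = g⁻¹ * (g * n * g⁻¹ * y * (g * n * g⁻¹)⁻¹) * g := by group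
                _ = g⁻¹ * (g * z * g⁻¹) * g := by rw [hzy']
                _ = z := by group
            rw [this]; exact hz
          · show g * (g⁻¹ * y * g) * g⁻¹ = y
            group
      have h3 := Subgroup.mem_centralizer_iff.mp hx2 _ hn'
      calc n * (g⁻¹ * x * g) = g⁻¹ * ((g * n * g⁻¹) * x) * g := by group
        _ = g⁻¹ * (x * (g * n * g⁻¹)) * g := by rw [h3]
        _ = _ := by group
    have h2 := hT _ h1 (g⁻¹ * h * g) (Subgroup.mem_top _) (by
      have h3 := hback _ hh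
      have h4 : (g⁻¹ * h * g) * (g⁻¹ * x * g) * (g⁻¹ * h * g)⁻¹ = g⁻¹ * (h * x * h⁻¹) * g := by group
      rw [h4]; exact h3)
    calc h * x * h⁻¹ = g * ((g⁻¹ * h * g) * (g⁻¹ * x * g) * (g⁻¹ * h * g)⁻¹) * g⁻¹ := by group
      _ = g * (g⁻¹ * x * g) * g⁻¹ := by rw [h2]
      _ = x := by group
  · exact CfsgLib.H6Ct.s1944 S (center_le_of_psolvable S (CfsgLib.PChain.of_solvable hp.out hsol))

end CfsgLib.WDir
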