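import Cfsg.Agent.Lib.MD4
set_option autoImplicit false
set_option linter.style.haveILetI false
set_option linter.unusedSectionVars false

/-! The Weil representation: Heisenberg operators and intertwiners. -/

namespace CfsgLib.WL
open Matrix CfsgLib.MD

variable {F : Type*} [Field F] [Fintype F] [DecidableEq F] {n : ℕ} (ψ : AddChar F ℂ)

/-- coordinates -/
def xx (w : Fin n ⊕ Fin n → F) : Fin n → F := fun i => w (Sum.inl i)
/-- coordinates -/
def yy (w : Fin n ⊕ Fin n → F) : Fin n → F := fun i => w (Sum.inr i)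

/-- Heisenberg operators -/
noncomputable def E (w : Fin n ⊕ Fin n → F) : ((Fin n → F) → ℂ) →ₗ[ℂ] ((Fin n → F) → ℂ) where
  toFun f := fun t => ψ (xx w ⬝ᵥ t + 2⁻¹ * (xx w ⬝ᵥ yy w)) * f (t + yy w)
  map_add' f f' := by
    funext t
    simp only [Pi.add_apply]; ring
  map_smul' c f := by
    funext t
    simp only [Pi.smul_apply, smul_eq_mul, RingHom.id_apply]; ring

theorem E_apply (w : Fin n ⊕ Fin n → F) (f : (Fin n → F) → ℂ) (t : Fin n → F) :
    E ψ w f t = ψ (xx w ⬝ᵥ t + 2⁻¹ * (xx w ⬝ᵥ yy w)) * f (t + yy w) := rfl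

/-- the symplectic form -/
def om (w w' : Fin n ⊕ Fin n → F) : F := xx w' ⬝ᵥ yy w - xx w ⬝ᵥ yy w'

theorem xx_add (w w' : Fin n ⊕ Fin n → F) : xx (w + w') = xx w + xx w' := rfl
theorem yy_add (w w' : Fin n ⊕ Fin n → F) : yy (w + w') = yy w + yy w' := rfl

theorem E_zero : E ψ (0 : Fin n ⊕ Fin n → F) = 1 := by
  apply LinearMap.ext; intro f
  funext t
  rw [E_apply]
  have h1 : xx (0 : Fin n ⊕ Fin n → F) = 0 := rfl
  have h2 : yy (0 : Fin n ⊕ Fin n → F) = 0 := rfl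
  rw [h1, h2, zero_dotProduct, zero_dotProduct, mul_zero, add_zero, AddChar.map_zero_eq_one, one_mul, add_zero]
  rfl

theorem E_mul (h2 : (2 : F) ≠ 0) (w w' : Fin n ⊕ Fin n → F) : E ψ w * E ψ w' = ψ (2⁻¹ * om w w') • E ψ (w + w') := by
  apply LinearMap.ext; intro f
  funext t
  change E ψ w (E ψ w' f) t = ψ (2⁻¹ * om w w') * E ψ (w + w') f t
  rw [E_apply, E_apply, E_apply, yy_add, ← add_assoc, ← mul_assoc, ← mul_assoc, ← AddChar.map_add_eq_mul, ← AddChar.map_add_eq_mul, xx_add, om]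
  have e : xx w ⬝ᵥ t + 2⁻¹ * xx w ⬝ᵥ yy w + (xx w' ⬝ᵥ (t + yy w) + 2⁻¹ * xx w' ⬝ᵥ yy w') =
      2⁻¹ * (xx w' ⬝ᵥ yy w - xx w ⬝ᵥ yy w') + ((xx w + xx w') ⬝ᵥ t + 2⁻¹ * (xx w + xx w') ⬝ᵥ (yy w + yy w')) := by
    simp only [dotProduct_add, add_dotProduct]
    field_simp
    ring
  rw [e]

/-- characters of `F^n` -/
noncomputable def chy (x : Fin n → F) : AddChar (Fin n → F) ℂ where
  toFun t := ψ (x ⬝ᵥ t)
  map_zero_eq_one' := by rw [dotProduct_zero, AddChar.map_zero_eq_one]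
  map_add_eq_mul' s t := by rw [dotProduct_add, AddChar.map_add_eq_mul]

theorem chy_inj {ψ : AddChar F ℂ} (hψ : ψ ≠ 1) : Function.Injective (chy (n := n) ψ) := by
  intro x x' h
  funext i
  refine psi_inj hψ (fun c => ?_)
  have h1 : ψ (x ⬝ᵥ Pi.single i c) = ψ (x' ⬝ᵥ Pi.single i c) := congrArg (fun χ : AddChar (Fin n → F) ℂ => χ (Pi.single i c)) h
  rwa [dotProduct_single, dotProduct_single] at h1

theorem E_li {ψ : AddChar F ℂ} (hψ : ψ ≠ 1) : LinearIndependent ℂ (E (n := n) ψ) := by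
  rw [Fintype.linearIndependent_iff]
  intro g hg w0
  have hli := (AddChar.linearIndependent (Fin n → F) ℂ).comp (chy (n := n) ψ) (chy_inj hψ)
  rw [Fintype.linearIndependent_iff] at hli
  -- fix y
  have h1 : ∀ y : Fin n → F, ∀ x : Fin n → F, g (Sum.elim x y) * ψ (2⁻¹ * (x ⬝ᵥ y)) = 0 := by
    intro y
    refine hli (fun x => g (Sum.elim x y) * ψ (2⁻¹ * (x ⬝ᵥ y))) ?_
    funext t
    rw [Finset.sum_apply]
    have h2 := congrFun (congrArg (fun L : ((Fin n → F) → ℂ) →ₗ[ℂ] ((Fin n → F) → ℂ) => L (Pi.single (t + y) 1)) hg) t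
    simp only [LinearMap.sum_apply, LinearMap.smul_apply, Finset.sum_apply, Pi.smul_apply, smul_eq_mul, LinearMap.zero_apply, Pi.zero_apply] at h2
    rw [← (Equiv.sumArrowEquivProdArrow (Fin n) (Fin n) F).symm.sum_comp, Fintype.sum_prod_type] at h2
    rw [Pi.zero_apply, ← h2]
    refine Finset.sum_congr rfl fun x _ => ?_
    rw [Finset.sum_eq_single y]
    · rw [E_apply]
      have e1 : xx ((Equiv.sumArrowEquivProdArrow (Fin n) (Fin n) F).symm (x, y)) = x := rfl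
      have e2 : yy ((Equiv.sumArrowEquivProdArrow (Fin n) (Fin n) F).symm (x, y)) = y := rfl
      have e3 : (Equiv.sumArrowEquivProdArrow (Fin n) (Fin n) F).symm (x, y) = Sum.elim x y := rfl
      rw [e1, e2, e3, Pi.single_eq_same, mul_one, AddChar.map_add_eq_mul]
      change (g (Sum.elim x y) * ψ (2⁻¹ * (x ⬝ᵥ y))) * ψ (x ⬝ᵥ t) = _
      ring
    · intro y' _ hy'
      rw [E_apply]
      have e2 : yy ((Equiv.sumArrowEquivProdArrow (Fin n) (Fin n) F).symm (x, y')) = y' := rfl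
      rw [e2, Pi.single_eq_of_ne (fun h => hy' (add_left_cancel h)), mul_zero, mul_zero]
    · intro h; exact absurd (Finset.mem_univ _) h
  have h2 := h1 (yy w0) (xx w0)
  have h3 : Sum.elim (xx w0) (yy w0) = w0 := by
    funext i
    rcases i with i | i <;> rfl
  rw [h3] at h2
  refine (mul_eq_zero.mp h2).resolve_right ?_
  intro h
  have := AddChar.map_add_eq_mul ψ (2⁻¹ * (xx w0 ⬝ᵥ yy w0)) (-(2⁻¹ * (xx w0 ⬝ᵥ yy w0)))
  rw [add_neg_cancel, AddChar.map_zero_eq_one, h, zero_mul] at this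
  exact one_ne_zero this

/-- the basis of operators -/
noncomputable def bE {ψ : AddChar F ℂ} (hψ : ψ ≠ 1) : Module.Basis (Fin n ⊕ Fin n → F) ℂ (Module.End ℂ ((Fin n → F) → ℂ)) :=
  basisOfLinearIndependentOfCardEqFinrank (E_li (n := n) hψ) (by
    rw [Fintype.card_fun, Fintype.card_sum, Fintype.card_fin, Module.finrank_linearMap, Module.finrank_fintype_fun_eq_card, Fintype.card_fun,
      Fintype.card_fin, pow_add])

theorem bE_apply {ψ : AddChar F ℂ} (hψ : ψ ≠ 1) (w : Fin n ⊕ Fin n → F) : bE hψ w = E ψ w := by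
  rw [bE, coe_basisOfLinearIndependentOfCardEqFinrank]

/-- implementing operators -/
def Impl (g : Matrix.symplecticGroup (Fin n) F) (T : ((Fin n → F) → ℂ) ≃ₗ[ℂ] ((Fin n → F) → ℂ)) : Prop :=
  ∀ w f, T (E ψ w f) = E ψ (g.1 *ᵥ w) (T f)

theorem Impl.mul {g g' : Matrix.symplecticGroup (Fin n) F} {T T' : ((Fin n → F) → ℂ) ≃ₗ[ℂ] ((Fin n → F) → ℂ)}
    (h : Impl ψ g T) (h' : Impl ψ g' T') : Impl ψ (g * g') (T * T') := by
  intro w f
  change T (T' (E ψ w f)) = E ψ ((g * g').1 *ᵥ w) (T (T' f))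
  rw [h', h, Matrix.mulVec_mulVec]
  rfl

theorem om_inv (g : Matrix.symplecticGroup (Fin n) F) (w w' : Fin n ⊕ Fin n → F) : om (g.1 *ᵥ w) (g.1 *ᵥ w') = om w w' := by
  have hJ : ∀ w w' : Fin n ⊕ Fin n → F, om w w' = w ⬝ᵥ ((Matrix.J (Fin n) F) *ᵥ w') := by
    intro w w'
    have h1 : ∀ v : Fin n ⊕ Fin n → F, v = Sum.elim (xx v) (yy v) := by
      intro v
      funext i
      rcases i with i | i <;> rfl
    rw [Matrix.J]
    conv_rhs => rw [h1 w, h1 w', Matrix.fromBlocks_mulVec]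
    simp only [Sum.elim_comp_inl, Sum.elim_comp_inr, Matrix.zero_mulVec, Matrix.one_mulVec, Matrix.neg_mulVec, zero_add, add_zero,
      sumElim_dotProduct_sumElim, om, dotProduct_neg]
    rw [dotProduct_comm (xx w') (yy w)]
    ring
  rw [hJ, hJ, Matrix.mulVec_mulVec, Matrix.dotProduct_mulVec, Matrix.dotProduct_mulVec]
  congr 1
  have hg := g.2
  rw [← SymplecticGroup.transpose_mem_iff, SymplecticGroup.mem_iff, Matrix.transpose_transpose] at hg
  rw [← Matrix.vecMul_transpose g.1 w, Matrix.vecMul_vecMul, ← mul_assoc, hg]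

/-- the algebra automorphism -/
noncomputable def alg {ψ : AddChar F ℂ} (hψ : ψ ≠ 1) (h2 : (2 : F) ≠ 0) (g : Matrix.symplecticGroup (Fin n) F) :
    Module.End ℂ ((Fin n → F) → ℂ) →ₐ[ℂ] Module.End ℂ ((Fin n → F) → ℂ) :=
  AlgHom.ofLinearMap ((bE (n := n) hψ).constr ℂ (fun w => E ψ (g.1 *ᵥ w))) (by
    rw [← E_zero ψ, ← bE_apply hψ, Module.Basis.constr_basis, bE_apply, Matrix.mulVec_zero]) (by
    rw [LinearMap.map_mul_iff]
    refine (bE hψ).ext fun w => (bE hψ).ext fun w' => ?_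
    change (bE hψ).constr ℂ (fun w => E ψ (g.1 *ᵥ w)) (bE hψ w * bE hψ w') =
      (bE hψ).constr ℂ (fun w => E ψ (g.1 *ᵥ w)) (bE hψ w) * (bE hψ).constr ℂ (fun w => E ψ (g.1 *ᵥ w)) (bE hψ w')
    rw [Module.Basis.constr_basis, Module.Basis.constr_basis, bE_apply, bE_apply, E_mul ψ h2, E_mul ψ h2, map_smul, ← bE_apply hψ (w + w'),
      Module.Basis.constr_basis, om_inv, Matrix.mulVec_add])

theorem alg_E {ψ : AddChar F ℂ} (hψ : ψ ≠ 1) (h2 : (2 : F) ≠ 0) (g : Matrix.symplecticGroup (Fin n) F) (w : Fin n ⊕ Fin n → F) :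
    alg hψ h2 g (E ψ w) = E ψ (g.1 *ᵥ w) := by
  change (bE hψ).constr ℂ (fun w => E ψ (g.1 *ᵥ w)) (E ψ w) = _
  rw [← bE_apply hψ, Module.Basis.constr_basis]

theorem alg_inv {ψ : AddChar F ℂ} (hψ : ψ ≠ 1) (h2 : (2 : F) ≠ 0) (g g' : Matrix.symplecticGroup (Fin n) F) (h : g * g' = 1) :
    (alg hψ h2 g).comp (alg hψ h2 g') = AlgHom.id ℂ _ := by
  apply AlgHom.toLinearMap_injective
  refine (bE hψ).ext fun w => ?_
  change alg hψ h2 g (alg hψ h2 g' (bE hψ w)) = bE hψ w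
  rw [bE_apply, alg_E, alg_E, Matrix.mulVec_mulVec]
  have h1 : g.1 * g'.1 = 1 := congrArg Subtype.val h
  rw [h1, Matrix.one_mulVec]

theorem exists_impl {ψ : AddChar F ℂ} (hψ : ψ ≠ 1) (h2 : (2 : F) ≠ 0) (g : Matrix.symplecticGroup (Fin n) F) : ∃ T, Impl ψ g T := by
  obtain ⟨T, hT⟩ := AlgEquiv.eq_linearEquivConjAlgEquiv
    (AlgEquiv.ofAlgHom (alg hψ h2 g) (alg hψ h2 g⁻¹) (alg_inv hψ h2 _ _ (mul_inv_cancel g)) (alg_inv hψ h2 _ _ (inv_mul_cancel g)))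
  refine ⟨T, fun w f => ?_⟩
  have h1 := congrArg (fun e : Module.End ℂ ((Fin n → F) → ℂ) ≃ₐ[ℂ] Module.End ℂ ((Fin n → F) → ℂ) => e (E ψ w) (T f)) hT
  change alg hψ h2 g (E ψ w) (T f) = T (E ψ w (T.symm (T f))) at h1
  rw [alg_E, T.symm_apply_apply] at h1
  exact h1.symm

theorem impl_unique {ψ : AddChar F ℂ} (hψ : ψ ≠ 1) {g : Matrix.symplecticGroup (Fin n) F} {T T' : ((Fin n → F) → ℂ) ≃ₗ[ℂ] ((Fin n → F) → ℂ)}
    (h : Impl ψ g T) (h' : Impl ψ g T') : ∃ c : ℂ, ∀ f, T' f = c • T f := by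
  let S : Module.End ℂ ((Fin n → F) → ℂ) := T.symm.toLinearMap ∘ₗ T'.toLinearMap
  have hS : S ∈ Subalgebra.center ℂ (Module.End ℂ ((Fin n → F) → ℂ)) := by
    rw [Subalgebra.mem_center_iff]
    intro A
    have h1 : (LinearMap.mulRight ℂ S : Module.End ℂ ((Fin n → F) → ℂ) →ₗ[ℂ] _) = LinearMap.mulLeft ℂ S := by
      refine (bE hψ).ext fun w => ?_
      rw [bE_apply]
      apply LinearMap.ext
      intro f
      change E ψ w (T.symm (T' f)) = T.symm (T' (E ψ w f))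
      apply T.injective
      rw [h, T.apply_symm_apply, T.apply_symm_apply, h']
    exact congrArg (fun L : Module.End ℂ ((Fin n → F) → ℂ) →ₗ[ℂ] Module.End ℂ ((Fin n → F) → ℂ) => L A) h1
  rw [Algebra.IsCentral.center_eq_bot, Algebra.mem_bot] at hS
  obtain ⟨c, hc⟩ := hS
  refine ⟨c, fun f => ?_⟩
  have h1 : S f = c • f := by rw [← hc]; rfl
  have h3 : T (S f) = T' f := T.apply_symm_apply _
  rw [← h3, h1, map_smul]

end CfsgLib.WL
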