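import Cfsg.Agent.Lib.WL1
set_option autoImplicit false
set_option linter.style.haveILetI false
set_option linter.unusedSectionVars false

/-! The Weil representation: parity and normalisation. -/

namespace CfsgLib.WL
open Matrix CfsgLib.MD

variable {F : Type*} [Field F] [Fintype F] [DecidableEq F] {n : ℕ}

/-- parity -/
noncomputable def Pa : ((Fin n → F) → ℂ) ≃ₗ[ℂ] ((Fin n → F) → ℂ) where
  toFun f := fun t => f (-t)
  invFun f := fun t => f (-t)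
  map_add' _ _ := rfl
  map_smul' _ _ := rfl
  left_inv f := by funext t; simp
  right_inv f := by funext t; simp

theorem Pa_apply (f : (Fin n → F) → ℂ) (t : Fin n → F) : Pa f t = f (-t) := rfl

/-- minus one -/
def m1 : Matrix.symplecticGroup (Fin n) F := ⟨-1, by
  rw [SymplecticGroup.mem_iff, Matrix.transpose_neg, Matrix.transpose_one]
  simp⟩

theorem impl_Pa (ψ : AddChar F ℂ) : Impl (n := n) ψ m1 Pa := by
  intro w f
  funext t
  have h1 : (m1 : Matrix.symplecticGroup (Fin n) F).1 *ᵥ w = -w := by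
    change (-1 : Matrix (Fin n ⊕ Fin n) (Fin n ⊕ Fin n) F) *ᵥ w = -w
    rw [Matrix.neg_mulVec, Matrix.one_mulVec]
  rw [h1, Pa_apply, E_apply, E_apply, Pa_apply]
  have h2 : xx (-w) = - xx w := rfl
  have h3 : yy (-w) = - yy w := rfl
  rw [h2, h3]
  simp only [dotProduct_neg, neg_dotProduct, neg_neg]
  congr 2
  abel

theorem trace_Pa (h2 : (2 : F) ≠ 0) : LinearMap.trace ℂ _ (Pa (F := F) (n := n)).toLinearMap = 1 := by
  rw [LinearMap.trace_eq_matrix_trace ℂ (Pi.basisFun ℂ (Fin n → F)), Matrix.trace]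
  rw [Finset.sum_eq_single (0 : Fin n → F)]
  · rw [Matrix.diag_apply, LinearMap.toMatrix_apply]
    simp [Pa_apply]
  · intro t _ ht
    rw [Matrix.diag_apply, LinearMap.toMatrix_apply]
    simp only [Pi.basisFun_repr, Pi.basisFun_apply, LinearEquiv.coe_coe, Pa_apply]
    rw [Pi.single_eq_of_ne]
    intro h
    apply ht
    have h3 : (2 : F) • t = 0 := by
      rw [two_smul]
      nth_rewrite 1 [← h]
      exact neg_add_cancel t
    exact (smul_eq_zero.mp h3).resolve_left h2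
  · intro h; exact absurd (Finset.mem_univ _) h

/-- commuting with parity -/
def Com (T : ((Fin n → F) → ℂ) →ₗ[ℂ] ((Fin n → F) → ℂ)) : Prop := ∀ f, T (Pa f) = Pa (T f)

theorem Impl.com {ψ : AddChar F ℂ} (hψ : ψ ≠ 1) (h2 : (2 : F) ≠ 0) {g : Matrix.symplecticGroup (Fin n) F}
    {T : ((Fin n → F) → ℂ) ≃ₗ[ℂ] ((Fin n → F) → ℂ)} (h : Impl ψ g T) : Com T.toLinearMap := by
  have h3 := h.mul ψ (impl_Pa ψ)
  have h4 := (impl_Pa ψ).mul ψ h
  have h5 : m1 * g = g * m1 := by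
    apply Subtype.ext
    change (-1 : Matrix (Fin n ⊕ Fin n) (Fin n ⊕ Fin n) F) * g.1 = g.1 * (-1)
    simp
  rw [h5] at h4
  obtain ⟨c, hc⟩ := impl_unique hψ h3 h4
  have hc' : ∀ f, Pa (T f) = c • T (Pa f) := hc
  have h6 : (Pa (F := F) (n := n)).toLinearMap = c • T.conj (Pa (F := F) (n := n)).toLinearMap := by
    apply LinearMap.ext
    intro f
    have := hc' (T.symm f)
    rw [T.apply_symm_apply] at this
    exact this
  have h7 := congrArg (LinearMap.trace ℂ _) h6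
  rw [map_smul, LinearMap.trace_conj', trace_Pa h2, smul_eq_mul, mul_one] at h7
  intro f
  have := hc' f
  rw [← h7, one_smul] at this
  exact this.symm

variable (F n) in
/-- parity eigenspaces -/
def Ve (ε : ℂ) : Submodule ℂ ((Fin n → F) → ℂ) where
  carrier := {f | Pa f = ε • f}
  add_mem' := fun {a b} ha hb => by
    change Pa (a + b) = ε • (a + b)
    rw [map_add, smul_add, show Pa a = ε • a from ha, show Pa b = ε • b from hb]
  zero_mem' := by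
    change Pa 0 = ε • 0
    rw [map_zero, smul_zero]
  smul_mem' := fun c {a} ha => by
    change Pa (c • a) = ε • (c • a)
    rw [map_smul, show Pa a = ε • a from ha, smul_comm]

theorem Pa_Pa (f : (Fin n → F) → ℂ) : Pa (Pa f) = f := by
  funext t; rw [Pa_apply, Pa_apply, neg_neg]

variable {ε : ℂ} (hε : ε * ε = 1)

/-- the projection -/
noncomputable def pe : ((Fin n → F) → ℂ) →ₗ[ℂ] Ve F n ε where
  toFun f := ⟨(2⁻¹ : ℂ) • (f + ε • Pa f), by
    change Pa ((2⁻¹ : ℂ) • (f + ε • Pa f)) = ε • ((2⁻¹ : ℂ) • (f + ε • Pa f))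
    rw [map_smul, map_add, map_smul, Pa_Pa, smul_comm ε, smul_add ε, smul_smul, hε, one_smul, add_comm]⟩
  map_add' f f' := by
    apply Subtype.ext
    change (2⁻¹ : ℂ) • ((f + f') + ε • Pa (f + f')) = (2⁻¹ : ℂ) • (f + ε • Pa f) + (2⁻¹ : ℂ) • (f' + ε • Pa f')
    rw [map_add, ← smul_add]
    congr 1
    rw [smul_add]; abel
  map_smul' c f := by
    apply Subtype.ext
    change (2⁻¹ : ℂ) • ((c • f) + ε • Pa (c • f)) = c • ((2⁻¹ : ℂ) • (f + ε • Pa f))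
    rw [map_smul, smul_comm ε c, ← smul_add, smul_comm]

theorem pe_of_mem (f : Ve F n ε) : pe hε f.1 = f := by
  apply Subtype.ext
  change (2⁻¹ : ℂ) • (f.1 + ε • Pa f.1) = f.1
  rw [show Pa f.1 = ε • f.1 from f.2, smul_smul, hε, one_smul, ← two_smul ℂ f.1, smul_smul]
  norm_num

include hε in
theorem finrank_Ve (h2 : (2 : F) ≠ 0) : (Module.finrank ℂ (Ve F n ε) : ℂ) = 2⁻¹ * ((Fintype.card F : ℂ) ^ n + ε) := by
  have h1 : LinearMap.IsProj (Ve F n ε) ((Ve F n ε).subtype ∘ₗ pe hε) :=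
    ⟨fun f => (pe hε f).2, fun f hf => congrArg Subtype.val (pe_of_mem hε ⟨f, hf⟩)⟩
  rw [← h1.trace]
  have h3 : (Ve F n ε).subtype ∘ₗ pe hε = (2⁻¹ : ℂ) • (LinearMap.id + ε • (Pa (F := F) (n := n)).toLinearMap) := by
    apply LinearMap.ext; intro f; rfl
  rw [h3, map_smul, map_add, map_smul, trace_Pa h2, LinearMap.trace_id, Module.finrank_fintype_fun_eq_card, Fintype.card_fun, Fintype.card_fin]
  simp

/-- the restriction -/
noncomputable def Le (T : ((Fin n → F) → ℂ) →ₗ[ℂ] ((Fin n → F) → ℂ)) : Ve F n ε →ₗ[ℂ] Ve F n ε := pe hε ∘ₗ T ∘ₗ (Ve F n ε).subtype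

theorem Le_coe {T : ((Fin n → F) → ℂ) →ₗ[ℂ] ((Fin n → F) → ℂ)} (hT : Com T) (f : Ve F n ε) : (Le hε T f : (Fin n → F) → ℂ) = T f.1 := by
  have h1 : T f.1 ∈ Ve F n ε := by
    change Pa (T f.1) = ε • T f.1
    rw [← hT, show Pa f.1 = ε • f.1 from f.2, map_smul]
  exact congrArg Subtype.val (pe_of_mem hε ⟨T f.1, h1⟩)

theorem Le_mul {T T' : ((Fin n → F) → ℂ) →ₗ[ℂ] ((Fin n → F) → ℂ)} (hT : Com T) (hT' : Com T') : Le hε (T ∘ₗ T') = Le hε T ∘ₗ Le hε T' := by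
  apply LinearMap.ext
  intro f
  apply Subtype.ext
  have hTT : Com (T ∘ₗ T') := fun f => by
    change T (T' (Pa f)) = Pa (T (T' f))
    rw [hT', hT]
  change (Le hε (T ∘ₗ T') f : (Fin n → F) → ℂ) = (Le hε T (Le hε T' f) : (Fin n → F) → ℂ)
  rw [Le_coe hε hTT, Le_coe hε hT, Le_coe hε hT']
  rfl

theorem Le_smul (c : ℂ) (T : ((Fin n → F) → ℂ) →ₗ[ℂ] ((Fin n → F) → ℂ)) : Le hε (c • T) = c • Le hε T := by
  apply LinearMap.ext
  intro f
  change pe hε (c • T f.1) = c • pe hε (T f.1)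
  rw [map_smul]

theorem Le_one : Le hε (LinearMap.id : ((Fin n → F) → ℂ) →ₗ[ℂ] ((Fin n → F) → ℂ)) = LinearMap.id := by
  apply LinearMap.ext
  intro f
  exact pe_of_mem hε f

theorem det_ne {T : ((Fin n → F) → ℂ) ≃ₗ[ℂ] ((Fin n → F) → ℂ)} (hT : Com T.toLinearMap) : LinearMap.det (Le hε T.toLinearMap) ≠ 0 := by
  have hT' : Com T.symm.toLinearMap := by
    intro f
    apply T.injective
    have := hT (T.symm f)
    change T (T.symm (Pa f)) = T (Pa (T.symm f))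
    rw [T.apply_symm_apply]
    change T (Pa (T.symm f)) = Pa (T (T.symm f)) at this
    rw [this, T.apply_symm_apply]
  have h1 := Le_mul hε hT hT'
  have h3 : T.toLinearMap ∘ₗ T.symm.toLinearMap = LinearMap.id := by
    apply LinearMap.ext; intro f; exact T.apply_symm_apply f
  rw [h3, Le_one] at h1
  intro h
  have h4 := congrArg LinearMap.det h1
  rw [LinearMap.det_comp, h, zero_mul, LinearMap.det_id] at h4
  exact one_ne_zero h4

theorem e1 : (1 : ℂ) * 1 = 1 := one_mul 1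
theorem em : (-1 : ℂ) * (-1) = 1 := by norm_num

/-- normalised implementing operators -/
def Good (ψ : AddChar F ℂ) (g : Matrix.symplecticGroup (Fin n) F) (T : ((Fin n → F) → ℂ) ≃ₗ[ℂ] ((Fin n → F) → ℂ)) : Prop :=
  Impl ψ g T ∧ LinearMap.det (Le e1 T.toLinearMap) = LinearMap.det (Le em T.toLinearMap)

theorem dims (h2 : (2 : F) ≠ 0) : Module.finrank ℂ (Ve F n 1) = Module.finrank ℂ (Ve F n (-1)) + 1 := by
  have h1 := finrank_Ve (F := F) (n := n) e1 h2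
  have h3 := finrank_Ve (F := F) (n := n) em h2
  have : ((Module.finrank ℂ (Ve F n 1) : ℕ) : ℂ) = ((Module.finrank ℂ (Ve F n (-1)) + 1 : ℕ) : ℂ) := by
    push_cast
    rw [h1, h3]; ring
  exact_mod_cast this

theorem dim_m (h2 : (2 : F) ≠ 0) : Module.finrank ℂ (Ve F n (-1)) = (Fintype.card F ^ n - 1) / 2 := by
  have h3 := finrank_Ve (F := F) (n := n) em h2
  have h4 : ((2 * Module.finrank ℂ (Ve F n (-1)) + 1 : ℕ) : ℂ) = ((Fintype.card F ^ n : ℕ) : ℂ) := by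
    push_cast
    rw [h3]; ring
  have h5 : 2 * Module.finrank ℂ (Ve F n (-1)) + 1 = Fintype.card F ^ n := by exact_mod_cast h4
  omega

theorem exists_good {ψ : AddChar F ℂ} (hψ : ψ ≠ 1) (h2 : (2 : F) ≠ 0) (g : Matrix.symplecticGroup (Fin n) F) : ∃ T, Good ψ g T := by
  obtain ⟨T, hT⟩ := exists_impl hψ h2 g
  have hC := hT.com hψ h2
  have hp := det_ne e1 hC
  have hm := det_ne em hC
  set c : ℂ := LinearMap.det (Le em T.toLinearMap) / LinearMap.det (Le e1 T.toLinearMap) with hc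
  have hc0 : c ≠ 0 := div_ne_zero hm hp
  refine ⟨LinearEquiv.smulOfNeZero ℂ _ c hc0 * T, ?_, ?_⟩
  · intro w f
    change c • T (E ψ w f) = E ψ (g.1 *ᵥ w) (c • T f)
    rw [hT, map_smul]
  · have h3 : (LinearEquiv.smulOfNeZero ℂ _ c hc0 * T).toLinearMap = c • T.toLinearMap := by
      apply LinearMap.ext; intro f; rfl
    rw [h3, Le_smul, Le_smul, LinearMap.det_smul, LinearMap.det_smul, dims h2, pow_succ, mul_assoc]
    congr 1
    rw [hc, div_mul_cancel₀ _ hp]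

theorem good_unique {ψ : AddChar F ℂ} (hψ : ψ ≠ 1) (h2 : (2 : F) ≠ 0) {g : Matrix.symplecticGroup (Fin n) F}
    {T T' : ((Fin n → F) → ℂ) ≃ₗ[ℂ] ((Fin n → F) → ℂ)} (h : Good ψ g T) (h' : Good ψ g T') : T' = T := by
  obtain ⟨c, hc⟩ := impl_unique hψ h.1 h'.1
  have h3 : T'.toLinearMap = c • T.toLinearMap := by
    apply LinearMap.ext; intro f; exact hc f
  have h4 := h'.2
  have hc0 : c ≠ 0 := by
    rintro rfl
    have h5 := hc (fun _ => 1)
    rw [zero_smul] at h5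
    have h6 := T'.injective (h5.trans (map_zero T').symm)
    have := congrFun h6 0
    exact one_ne_zero this
  rw [h3, Le_smul, Le_smul, LinearMap.det_smul, LinearMap.det_smul, dims h2, pow_succ, h.2] at h4
  have hm := det_ne em (h.1.com hψ h2)
  have h5 : c = 1 := by
    have h6 := mul_right_cancel₀ hm h4
    have h7 : c ^ (Module.finrank ℂ (Ve F n (-1))) * c = c ^ (Module.finrank ℂ (Ve F n (-1))) * 1 := by rw [h6, mul_one]
    exact mul_left_cancel₀ (pow_ne_zero _ hc0) h7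
  apply LinearEquiv.ext
  intro f
  rw [hc f, h5, one_smul]

theorem Good.mul {ψ : AddChar F ℂ} (hψ : ψ ≠ 1) (h2 : (2 : F) ≠ 0) {g g' : Matrix.symplecticGroup (Fin n) F}
    {T T' : ((Fin n → F) → ℂ) ≃ₗ[ℂ] ((Fin n → F) → ℂ)} (h : Good ψ g T) (h' : Good ψ g' T') : Good ψ (g * g') (T * T') := by
  refine ⟨h.1.mul ψ h'.1, ?_⟩
  have h3 : (T * T').toLinearMap = T.toLinearMap ∘ₗ T'.toLinearMap := by
    apply LinearMap.ext; intro f; rfl
  rw [h3, Le_mul e1 (h.1.com hψ h2) (h'.1.com hψ h2), Le_mul em (h.1.com hψ h2) (h'.1.com hψ h2), LinearMap.det_comp, LinearMap.det_comp, h.2, h'.2]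

theorem Good.one (ψ : AddChar F ℂ) : Good (n := n) ψ 1 1 := by
  refine ⟨fun w f => ?_, ?_⟩
  · change E ψ w f = E ψ ((1 : Matrix (Fin n ⊕ Fin n) (Fin n ⊕ Fin n) F) *ᵥ w) f
    rw [Matrix.one_mulVec]
  · change LinearMap.det (Le e1 LinearMap.id) = LinearMap.det (Le em LinearMap.id)
    rw [Le_one, Le_one, LinearMap.det_id, LinearMap.det_id]

/-- the Weil representation -/
noncomputable def Wl {ψ : AddChar F ℂ} (hψ : ψ ≠ 1) (h2 : (2 : F) ≠ 0) (g : Matrix.symplecticGroup (Fin n) F) :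
    ((Fin n → F) → ℂ) ≃ₗ[ℂ] ((Fin n → F) → ℂ) := (exists_good hψ h2 g).choose

theorem Wl_good {ψ : AddChar F ℂ} (hψ : ψ ≠ 1) (h2 : (2 : F) ≠ 0) (g : Matrix.symplecticGroup (Fin n) F) : Good ψ g (Wl hψ h2 g) :=
  (exists_good hψ h2 g).choose_spec

theorem Wl_mul {ψ : AddChar F ℂ} (hψ : ψ ≠ 1) (h2 : (2 : F) ≠ 0) (g g' : Matrix.symplecticGroup (Fin n) F) :
    Wl hψ h2 (g * g') = Wl hψ h2 g * Wl hψ h2 g' :=
  good_unique hψ h2 ((Wl_good hψ h2 g).mul hψ h2 (Wl_good hψ h2 g')) (Wl_good hψ h2 _)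

theorem Wl_one {ψ : AddChar F ℂ} (hψ : ψ ≠ 1) (h2 : (2 : F) ≠ 0) : Wl (n := n) hψ h2 1 = 1 :=
  good_unique hψ h2 (Good.one ψ) (Wl_good hψ h2 _)

/-- the odd part -/
noncomputable def rhoW {ψ : AddChar F ℂ} (hψ : ψ ≠ 1) (h2 : (2 : F) ≠ 0) : Representation ℂ (Matrix.symplecticGroup (Fin n) F) (Ve F n (-1)) where
  toFun g := Le em (Wl hψ h2 g).toLinearMap
  map_one' := by
    rw [Wl_one]
    exact Le_one em
  map_mul' g g' := by
    rw [Wl_mul]
    exact Le_mul em ((Wl_good hψ h2 g).1.com hψ h2) ((Wl_good hψ h2 g').1.com hψ h2)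

theorem rhoW_coe {ψ : AddChar F ℂ} (hψ : ψ ≠ 1) (h2 : (2 : F) ≠ 0) (g : Matrix.symplecticGroup (Fin n) F) (f : Ve F n (-1)) :
    (rhoW hψ h2 g f : (Fin n → F) → ℂ) = Wl hψ h2 g f.1 :=
  Le_coe em ((Wl_good hψ h2 g).1.com hψ h2) f

/-- Levi operators -/
noncomputable def TA (A : GL (Fin n) F) : ((Fin n → F) → ℂ) ≃ₗ[ℂ] ((Fin n → F) → ℂ) where
  toFun f := fun t => f (A.1ᵀ *ᵥ t)
  invFun f := fun t => f ((A⁻¹).1ᵀ *ᵥ t)
  map_add' _ _ := rfl
  map_smul' _ _ := rfl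
  left_inv f := by
    funext t
    change f (A.1ᵀ *ᵥ ((A⁻¹).1ᵀ *ᵥ t)) = f t
    rw [Matrix.mulVec_mulVec, ← Matrix.transpose_mul, ← Units.val_mul, inv_mul_cancel, Units.val_one, Matrix.transpose_one, Matrix.one_mulVec]
  right_inv f := by
    funext t
    change f ((A⁻¹).1ᵀ *ᵥ (A.1ᵀ *ᵥ t)) = f t
    rw [Matrix.mulVec_mulVec, ← Matrix.transpose_mul, ← Units.val_mul, mul_inv_cancel, Units.val_one, Matrix.transpose_one, Matrix.one_mulVec]

theorem impl_TA (ψ : AddChar F ℂ) (A : GL (Fin n) F) : Impl ψ (gE A) (TA A) := by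
  intro w f
  funext t
  change E ψ w f (A.1ᵀ *ᵥ t) = E ψ ((gE A).1 *ᵥ w) (TA A f) t
  have h1 : xx ((gE A).1 *ᵥ w) = A.1 *ᵥ xx w := by
    change xx (Matrix.fromBlocks A.1 0 0 (A⁻¹).1ᵀ *ᵥ w) = _
    rw [Matrix.fromBlocks_mulVec, Matrix.zero_mulVec, add_zero]
    rfl
  have h3 : yy ((gE A).1 *ᵥ w) = (A⁻¹).1ᵀ *ᵥ yy w := by
    change yy (Matrix.fromBlocks A.1 0 0 (A⁻¹).1ᵀ *ᵥ w) = _
    rw [Matrix.fromBlocks_mulVec, Matrix.zero_mulVec, Matrix.zero_mulVec, zero_add]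
    rfl
  have h4 : A.1ᵀ *ᵥ ((A⁻¹).1ᵀ *ᵥ yy w) = yy w := by
    rw [Matrix.mulVec_mulVec, ← Matrix.transpose_mul, ← Units.val_mul, inv_mul_cancel, Units.val_one, Matrix.transpose_one, Matrix.one_mulVec]
  have hd : ∀ x t : Fin n → F, (A.1 *ᵥ x) ⬝ᵥ t = x ⬝ᵥ (A.1ᵀ *ᵥ t) := by
    intro x t
    rw [Matrix.dotProduct_mulVec, Matrix.vecMul_transpose]
  rw [E_apply, E_apply, h1, h3, hd, hd, h4]
  change _ = _ * f (A.1ᵀ *ᵥ (t + (A⁻¹).1ᵀ *ᵥ yy w))
  rw [Matrix.mulVec_add, h4]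

theorem psi_ne (ψ : AddChar F ℂ) (z : F) : ψ z ≠ 0 := fun h => by
  have := AddChar.map_add_eq_mul ψ z (-z)
  rw [add_neg_cancel, AddChar.map_zero_eq_one, h, zero_mul] at this
  exact one_ne_zero this

theorem psi_neg (ψ : AddChar F ℂ) (z : F) : ψ z * ψ (-z) = 1 := by
  rw [← AddChar.map_add_eq_mul, add_neg_cancel, AddChar.map_zero_eq_one]

/-- unipotent operators -/
noncomputable def TX (ψ : AddChar F ℂ) (X : SymW F n) : ((Fin n → F) → ℂ) ≃ₗ[ℂ] ((Fin n → F) → ℂ) where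
  toFun f := fun t => ψ (-(2⁻¹ * (t ⬝ᵥ (X.1 *ᵥ t)))) * f t
  invFun f := fun t => ψ (2⁻¹ * (t ⬝ᵥ (X.1 *ᵥ t))) * f t
  map_add' f f' := by funext t; simp only [Pi.add_apply, mul_add]
  map_smul' c f := by funext t; simp only [Pi.smul_apply, smul_eq_mul, RingHom.id_apply]; ring
  left_inv f := by
    funext t
    change ψ (2⁻¹ * (t ⬝ᵥ (X.1 *ᵥ t))) * (ψ (-(2⁻¹ * (t ⬝ᵥ (X.1 *ᵥ t)))) * f t) = f t
    rw [← mul_assoc, psi_neg, one_mul]
  right_inv f := by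
    funext t
    change ψ (-(2⁻¹ * (t ⬝ᵥ (X.1 *ᵥ t)))) * (ψ (2⁻¹ * (t ⬝ᵥ (X.1 *ᵥ t))) * f t) = f t
    rw [← mul_assoc, mul_comm (ψ (-(2⁻¹ * (t ⬝ᵥ (X.1 *ᵥ t))))), psi_neg, one_mul]

theorem impl_TX (h2 : (2 : F) ≠ 0) (ψ : AddChar F ℂ) (X : SymW F n) : Impl ψ (aE X) (TX ψ X) := by
  intro w f
  funext t
  change ψ (-(2⁻¹ * (t ⬝ᵥ (X.1 *ᵥ t)))) * E ψ w f t = E ψ ((aE X).1 *ᵥ w) (TX ψ X f) t
  have h1 : xx ((aE X).1 *ᵥ w) = xx w + X.1 *ᵥ yy w := by
    change xx (Matrix.fromBlocks 1 X.1 0 1 *ᵥ w) = _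
    rw [Matrix.fromBlocks_mulVec, Matrix.one_mulVec]
    rfl
  have h3 : yy ((aE X).1 *ᵥ w) = yy w := by
    change yy (Matrix.fromBlocks 1 X.1 0 1 *ᵥ w) = _
    rw [Matrix.fromBlocks_mulVec, Matrix.one_mulVec, Matrix.one_mulVec, Matrix.zero_mulVec, zero_add]
    rfl
  have hs : ∀ a b : Fin n → F, a ⬝ᵥ (X.1 *ᵥ b) = b ⬝ᵥ (X.1 *ᵥ a) := by
    intro a b
    rw [Matrix.dotProduct_mulVec, ← Matrix.mulVec_transpose, (mem_SymW X.1).mp X.2, dotProduct_comm]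
  rw [E_apply, E_apply, h1, h3]
  change _ = _ * (ψ (-(2⁻¹ * ((t + yy w) ⬝ᵥ (X.1 *ᵥ (t + yy w))))) * f (t + yy w))
  rw [← mul_assoc, ← mul_assoc, ← AddChar.map_add_eq_mul, ← AddChar.map_add_eq_mul]
  congr 2
  simp only [dotProduct_add, add_dotProduct, Matrix.mulVec_add]
  rw [dotProduct_comm (X.1 *ᵥ yy w) t, dotProduct_comm (X.1 *ᵥ yy w) (yy w), hs (yy w) t]
  field_simp
  ring

end CfsgLib.WL
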